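import Cfsg.Statements.S3053
import Cfsg.Agent.H2.BG0

set_option autoImplicit false
open Cfsg

namespace Cfsg.Agent.S3053
open CfsgH2
section
open Subgroup Function
open scoped commutatorElement

variable {G : Type*} [Group G] [Finite G] {p : ℕ} [hp : Fact p.Prime] {P V : Subgroup G}

theorem surj (h : Wx p P) {y z : G} (hy : y ∈ P) (hy' : y ∉ C[P]) (hz : z ∈ Z[P]) :
    ∃ u ∈ P, u * y * u⁻¹ = y * z := by
  obtain ⟨a, ha, hay⟩ : ∃ a ∈ P, a * y ≠ y * a := by simpa [mem_cent_iff] using hy'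
  have c : ⁅a, y⁆ ∈ Z[P] := h.der (commutator_mem_commutator ha hy)
  obtain ⟨k, hk⟩ := (mem_powers_iff_mem_zpowers.2 ((zpowers_eq_of_prime (h.cardZ ▸ hp.out) c
    (fun e => hay (commutatorElement_eq_one_iff_mul_comm.1 e))).ge hz))
  refine ⟨a ^ k, pow_mem ha k, ?_⟩
  have := commutator_pow_left (commute_of_mem_cent c.2 ha) k
  rw [show ⁅a, y⁆ ^ k = z from hk, commutatorElement_def, mul_inv_eq_iff_eq_mul] at this
  rw [this]; exact (commute_of_mem_cent hz.2 hy).eq

omit [Finite G] in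
theorem inv_comm {s x : G} (hs : ∀ v ∈ V, s * v * s⁻¹ = v⁻¹) (hx : x ∈ N[V]) : s * x * s⁻¹ * x⁻¹ ∈ C[V] :=
  mem_cent_iff.2 fun v hv => by
    have h1 := hs _ (conj_mem_of_norm' hx hv)
    have h2 := hs _ (inv_mem hv)
    have h3 : s⁻¹ * (x⁻¹ * v * x) * s = (x⁻¹ * v * x)⁻¹ := by
      have := hs _ (inv_mem (conj_mem_of_norm' hx hv))
      rw [inv_inv] at this; nth_rw 1 [← this]; group
    calc v * (s * x * s⁻¹ * x⁻¹) = (s * v⁻¹ * s⁻¹) * (s * x * s⁻¹ * x⁻¹) := by rw [h2, inv_inv]
      _ = s * x * (x⁻¹ * v * x)⁻¹ * s⁻¹ * x⁻¹ := by group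
      _ = _ := by rw [← h3]; group

end

/-- Let p be an odd prime and G a finite group with a Sylow p-subgroup P that is extraspecial of order p³ and exponent p². Then the centre of P is strongly closed in P with respect to G: a G-conjugate of an element of Z(P) that lies in P already lies in Z(P). In particular a nontrivial central element of P is conjugate in G to no noncentral element of P. -/
theorem result {G : Type*} [Group G] [Finite G]
    {p : ℕ} [Fact p.Prime] (hp : p ≠ 2) (P : Sylow p G) (hE : Cfsg.IsExtraspecial p ↥P)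
    (hcard : Nat.card P = p ^ 3) (hexp : Monoid.exponent ↥P = p ^ 2) :
    Cfsg.IsStronglyClosed ((Subgroup.center ↥P).map (P : Subgroup G).subtype) (P : Subgroup G) := by
  open Subgroup Function in open scoped commutatorElement in
  · obtain ⟨w, nab⟩ := extraspecial_iff.1 hE
    have pp : p.Prime := Fact.out
    have sy := syl_top P
    refine (map_center_subtype (H := (P : Subgroup G))).symm ▸ (?_ : IsStronglyClosed Z[(P : Subgroup G)] _)
    replace hcard : o[(P : Subgroup G)] = p ^ 3 := hcard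
    replace hexp : Monoid.exponent (P : Subgroup G) = p ^ 2 := hexp
    set Q : Subgroup G := ↑P
    refine ⟨inf_le_left, fun z hz g hy => ⟨hy, by_contra fun hc => ?_⟩⟩
    set y := g * z * g⁻¹ with ey
    obtain ⟨⟨x, hx⟩, ox⟩ := pp.exists_orderOf_eq_pow_factorization_exponent Q
    rw [hexp, pp.factorization_pow, Finsupp.single_eq_same, ← orderOf_coe] at ox
    replace ox : orderOf x = p ^ 2 := ox
    have i : (zpowers x).relIndex Q = p := by
      have := card_mul_relIndex (zpowers_le.2 hx)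
      rw [Nat.card_zpowers, ox, show o[Q] = p ^ 3 from hcard, pow_succ p 2] at this
      exact Nat.eq_of_mul_eq_mul_left (pow_pos pp.pos 2) this
    obtain ⟨el, cV⟩ := omegaOne_of_cyclic_index hp sy.2 (fun c => nab (isMulComm_of_cyclic c)) inferInstance
      (zpowers_le.2 hx) i
    set V := omegaOne p Q
    have zp : ∀ z ∈ Z[Q], z ^ p = 1 := fun z hz => orderOf_dvd_iff_pow_eq_one.1 (w.cardZ ▸ orderOf_dvd_of_mem hz)
    have z0 : z ≠ 1 := by rintro rfl; exact hc (by simp [ey, one_mem])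
    have zV := mem_omegaOne hz.1 (zp z hz)
    have yp : y ^ p = 1 := by rw [ey, conj_pow, zp z hz]; simp
    have yV := mem_omegaOne hy yp
    have zz := zpowers_eq_of_prime (w.cardZ ▸ pp) hz z0
    have eV : zpowers z ⊔ zpowers y = V := eq_of_le_of_card_le (sup_le (zpowers_le.2 zV) (zpowers_le.2 yV)) (by
      rw [card_sup_zpowers_prime pp (cent_le_norm _ (zz ▸ le_cent_center hy)) (yp ▸ one_mem _)
        (zz ▸ fun h => hc h.2), zz, w.cardZ, cV, sq])
    have s2 : Syl p (Q.map (cj g)) C1[y] := (sy.map_cj_mem (mem_top g)).mono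
      (by rw [ey, centralizer_conj]; exact map_mono (le_cent1_iff.2 hz.2)) le_top
    obtain ⟨c, cy, hV⟩ := s2.exists_le_conj (elem_pgroup el) (le_cent1_iff.2 (le_cent_self el.1 yV))
    rw [map_cj_cj] at hV
    have hz' : c * g * z * (c * g)⁻¹ = y := by
      rw [show c * g * z * (c * g)⁻¹ = c * y * c⁻¹ by rw [ey]; group, mem_centralizer_singleton_iff.1 cy]; group
    set h := c * g
    have nV : h ∈ N[V] := map_cj_eq_iff.1 (eq_of_le_of_card_le (omegaOne_map_cj h ▸ elem_le_omegaOne el hV)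
      (card_map_cj _ _).le).symm
    have w2 : Wx p (Q.map (cj h)) := (inj_wx (cj_injective h)).2 w
    have yZ : y ∈ Z[Q.map (cj h)] := by
      rw [centralizer_map_cj, ← map_cj_inf, ← hz']; exact conj_mem_map_cj hz
    obtain ⟨u, hu, eu⟩ := surj w hy hc hz
    obtain ⟨v, hv, ev⟩ := surj w2 (hV zV) (fun e => hc (by
      have : z ∈ zpowers y := by
        rw [zpowers_eq_of_prime (w2.cardZ ▸ pp) yZ fun e => hc (e ▸ one_mem _)]; exact ⟨hV zV, e⟩
      exact (zz.le ((zpowers_eq_of_prime (by rw [card_zpowers_eq pp yp fun e => hc (e ▸ one_mem _)]; exact pp)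
        this z0).ge (mem_zpowers y))).2)) (inv_mem yZ)
    have uz : u * z * u⁻¹ = z := by rw [← (commute_of_mem_cent hz.2 hu).eq]; group
    have vy : v * y * v⁻¹ = y := by rw [← (commute_of_mem_cent yZ.2 hv).eq]; group
    have zy : y * z = z * y := comm_of_isMulComm el.1 yV zV
    have e1 : u * v * u * z * (u * v * u)⁻¹ = y⁻¹ := by
      calc _ = u * (v * (u * z * u⁻¹) * v⁻¹) * u⁻¹ := by group
        _ = (u * z * u⁻¹) * (u * y * u⁻¹)⁻¹ := by rw [uz, ev]; nth_rw 2 [← uz]; group
        _ = _ := by rw [uz, eu, zy]; rw [← zy]; group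
    have e2 : u * v * u * y * (u * v * u)⁻¹ = z := by
      calc _ = u * (v * (u * y * u⁻¹) * v⁻¹) * u⁻¹ := by group
        _ = u * ((v * y * v⁻¹) * (v * z * v⁻¹)) * u⁻¹ := by rw [eu]; group
        _ = _ := by rw [vy, ev, ← mul_assoc y, zy, mul_inv_cancel_right, uz]
    set t := u * v * u
    have it : ∀ a ∈ V, t * t * a * (t * t)⁻¹ = a⁻¹ := by
      haveI := el.1
      intro a ha
      rw [← eV, mem_sup_of_norm (le_norm_of_le_cent ((zpowers_le.2 zV).trans (le_cent_of_comm el.1 (zpowers_le.2 yV))))] at ha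
      obtain ⟨_, ⟨m, rfl⟩, _, ⟨n, rfl⟩, rfl⟩ := ha
      have a1 : t * t * z * (t * t)⁻¹ = z⁻¹ := by
        rw [show t * t * z * (t * t)⁻¹ = t * (t * z * t⁻¹) * t⁻¹ by group, e1, ← e2]; group
      have a2 : t * t * y * (t * t)⁻¹ = y⁻¹ := by
        rw [show t * t * y * (t * t)⁻¹ = t * (t * y * t⁻¹) * t⁻¹ by group, e2, e1]
      rw [show t * t * (z ^ m * y ^ n) * (t * t)⁻¹ = (t * t * z * (t * t)⁻¹) ^ m * (t * t * y * (t * t)⁻¹) ^ n by
        simp only [conj_zpow]; group, a1, a2, ((show Commute z y from zy.symm).zpow_zpow m n).eq]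
      group
    have QV : Q ≤ N[V] := le_norm_omegaOne
    have ms := fun x => mem_sup_of_norm (x := x) (le_norm_cent QV)
    have tN : t * t ∈ N[Q ⊔ C[V]] := mem_norm_of_map_le (by
      rw [Subgroup.map_sup, map_cj_eq (norm_le_norm_cent V (mem_norm_of_conj fun a ha => it a ha ▸ inv_mem ha))]
      refine sup_le (map_cj_le_iff'.2 fun a ha => ?_) le_sup_right
      simpa using mul_mem (mem_sup_right (inv_comm it (QV ha))) (mem_sup_left (T := C[V]) ha))
    obtain ⟨n, hn, l, hl, e⟩ := (sy.mono le_sup_left le_top).frattini' tN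
    obtain ⟨a, ha, c, hc', rfl⟩ := (ms l).1 hl
    have is : ∀ b ∈ V, n * a * b * (n * a)⁻¹ = b⁻¹ := fun b hb => by
      rw [← it b hb, e, show n * (a * c) * b * (n * (a * c))⁻¹ = n * a * (c * b * c⁻¹) * (n * a)⁻¹ by group,
        ← mem_cent_iff.1 hc' b hb, mul_inv_cancel_right]
    have sN : n * a ∈ N[Q] := mul_mem hn (le_normalizer ha)
    set s := n * a
    have cv : Q ⊓ C[V] = V := (eq_or_eq_of_relIndex_prime (K := V) (M := Q) (by
      have := card_mul_relIndex (omegaOne_le (p := p) (H := Q))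
      rw [cV, show o[Q] = p ^ 3 from hcard, pow_succ p 2] at this
      rw [Nat.eq_of_mul_eq_mul_left (pow_pos pp.pos 2) this]; exact pp)
      (le_inf omegaOne_le (le_cent_self el.1)) inf_le_left).resolve_right fun e =>
        hc (le_centralizer_iff.1 (inf_eq_left.1 e) yV)
    have m : s * x * s⁻¹ * x⁻¹ ∈ V := cv.le ⟨mul_mem (conj_mem_of_norm sN hx) (Q.inv_mem hx), inv_comm is (QV hx)⟩
    have xp := w.pow_mem hx
    have k := is _ (mem_omegaOne xp.1 (zp _ xp))
    have cm := w.der (commutator_mem_commutator (inv_mem hx) (inv_mem (omegaOne_le m)))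
    have := mul_pow_class2 (mul_eq_mul_comm _ _) (commute_of_mem_cent cm.2 (omegaOne_le m))
      (commute_of_mem_cent cm.2 hx) p
    rw [inv_mul_cancel_right, conj_pow, k, pow_eq_one_of_dvd (zp _ cm) (dvd_choose_two hp),
      show (s * x * s⁻¹ * x⁻¹) ^ p = 1 from el.2 _ m, one_mul, mul_one,
      inv_eq_iff_mul_eq_one, ← pow_add, ← orderOf_dvd_iff_pow_eq_one, ox, sq, ← mul_two] at this
    exact hp ((Nat.prime_dvd_prime_iff_eq pp Nat.prime_two).1 (Nat.dvd_of_mul_dvd_mul_left pp.pos this))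

end Cfsg.Agent.S3053
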