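import Cfsg.Statements.S0953
import Mathlib
import Cfsg.Agent.H4.Rob

set_option autoImplicit false
open Cfsg

open Cfsg CfsgH3 CfsgH4 CfsgH1 CfsgL0 MonoidAlgebra Function
open scoped ComplexConjugate Pointwise

namespace Cfsg.Agent.S0953

/-- Let P be a Sylow p-subgroup of the finite group G with normalizer N, and fix a maximal ideal M of the algebraic integers containing p. The number of blocks of G having P as a defect group equals the number of conjugacy classes of N consisting of elements of order prime to p that centralize P. -/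
theorem result {G : Type*} [Group G] [Finite G] (p : ℕ) [Fact p.Prime] (M : Ideal Cfsg.AlgInt) (hM : Cfsg.IsPModular p M) (P : Sylow p G) : Nat.card {B : Set (Cfsg.IrrCharacter G) // Cfsg.IsPBlock M B ∧ Cfsg.IsDefectGroup p M B (P : Subgroup G)} = Nat.card {C : ConjClasses (Subgroup.normalizer ((P : Subgroup G) : Set G)) // ∀ n : Subgroup.normalizer ((P : Subgroup G) : Set G), ConjClasses.mk n = C → ¬ p ∣ orderOf n ∧ (n : G) ∈ Subgroup.centralizer ((P : Subgroup G) : Set G)} := by
  haveI : PMod p M := ⟨hM⟩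
  set N := Subgroup.normalizer ((P : Subgroup G) : Set G)
  have hP : (P : Subgroup G) ≤ N := Subgroup.le_normalizer
  have a : Nat.card {B // IsPBlock M B ∧ IsDefectGroup p M B (P : Subgroup G)} =
      Nat.card {b // IsPBlock M b ∧ IsDefectGroup p M b ((P : Subgroup G).subgroupOf N)} := by
    choose f h1 h2 h3 h4 using fun B : {B // IsPBlock M B ∧ IsDefectGroup p M B (P : Subgroup G)} =>
      B.2.1.exists_brauer_corr B.2.2
    refine Nat.card_eq_of_bijective (fun B => ⟨f B, h1 B, h3 B⟩) ⟨fun B B' e => Subtype.ext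
      ((h4 B).unique ((show f B = f B' from Subtype.ext_iff.1 e) ▸ h4 B')), fun b => ?_⟩
    obtain ⟨B, c, d, e⟩ := b.2.1.exists_of_brauer_corr P.2 b.2.2
    exact ⟨⟨B, c, d⟩, Subtype.ext ((h1 _).inc_eB_inj (Subgroup.subtype_injective _) b.2.1
      (by rw [h2, e.inc_eq_br d]))⟩
  have c : ∀ n m : N, IsConj n m → (n : G) ∈ Subgroup.centralizer (P.1 : Set G) →
      (m : G) ∈ Subgroup.centralizer (P.1 : Set G) := fun n m h e => by
    obtain ⟨k, rfl⟩ := isConj_iff.1 h
    exact (Subgroup.normal_subgroupOf_centralizer_normalizer _).conj_mem n e k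
  rw [a]
  refine le_antisymm (card_le_of_dual _ _ fun B B' h h' g d e n f => ?_) ?_
  · obtain ⟨y, r, s, t⟩ := Bl.exists_sylow h h' d e
    replace r := r.trans (ConjClasses.mk_eq_mk_iff_isConj.1 f.symm)
    refine ⟨by obtain ⟨k, rfl⟩ := isConj_iff.1 r; exact ppart_eq_one_iff.1 (by rw [ppart_conj, ppart_of_reg s]; simp), c _ _ r fun x hx => congrArg Subtype.val
      (Subgroup.mem_centralizer_singleton_iff.1 (t.le (x := ⟨x, hP hx⟩) hx))⟩
  · refine le_card_blocks (x := fun C => crep C.1) (fun i j e => Subtype.ext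
      ((isConj_crep_iff.1 e).trans (mk_crep _))) (fun i => isSylowIn_of_le (P.subtype hP) fun x hx =>
        Subgroup.mem_centralizer_singleton_iff.2 (Subtype.ext ((i.2 _ (mk_crep _)).2 x hx)))
      (P.subtype hP) fun i j g h d e f => ?_
    have r := i.2 g (isConj_crep_iff.1 d).symm
    have s := j.2 h (isConj_crep_iff.1 e).symm
    have t : Commute (g * h⁻¹) h := Subtype.ext (s.2 _ f)
    rw [← mul_inv_eq_one, ← ppart_mul t (pelt_of_mem (P.subtype hP).2 f) s.1, inv_mul_cancel_right,
      ppart_of_reg r.1]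

end Cfsg.Agent.S0953
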