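import Cfsg.Statements.S0914
import Mathlib
import Cfsg.Agent.H4.Sec

set_option autoImplicit false
open Cfsg

open Cfsg CfsgH3 CfsgH4 CfsgH1 CfsgL0 MonoidAlgebra

namespace Cfsg.Agent.S0914

/-- Let χ be an irreducible character of the finite group G, p a prime and M a maximal ideal of the algebraic integers containing p. Then p does not divide the integer (Nat.card G) / χ(1) if and only if the block of χ relative to M consists of χ alone. -/
theorem result {G : Type*} [Group G] [Finite G] (p : ℕ) [Fact p.Prime] (M : Ideal Cfsg.AlgInt) (hM : Cfsg.IsPModular p M) (χ : Cfsg.IrrCharacter G) : ¬ p ∣ Nat.card G / Cfsg.charDegree (χ : G → ℂ) ↔ Cfsg.blockOf M (χ : G → ℂ) = {χ} := by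
  haveI : PMod p M := ⟨hM⟩
  have hB := isPBlock_blockOf (M := M) χ.2
  obtain ⟨m, hm⟩ := charDegree_dvd χ.2
  have h0 := charDegree_ne_zero χ.2
  rw [hm, Nat.mul_div_cancel_left _ (Nat.pos_of_ne_zero h0)]
  constructor
  · intro h
    have h1 : fB {χ} ∈ LG G M := mem_LG.2 fun y => by
      rw [coeff_fB, blockCoeff, finsum_mem_singleton, hm, ← coe_charDegree χ.2.isCharacter,
        Nat.cast_mul, mul_inv, mul_comm _ (m : ℂ)⁻¹, mul_assoc,
        inv_mul_cancel_left₀ (Nat.cast_ne_zero.2 h0)]
      exact mul_mem (inv_natCast_mem_Loc h) (conj_irr_mem_Loc χ y)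
    exact Set.eq_singleton_iff_unique_mem.2 ⟨mem_blockOf_self χ,
      fun ψ hψ => mem_of_fB_mem_LG h1 rfl hψ⟩
  · intro h
    obtain ⟨P⟩ : Nonempty (Sylow p G) := inferInstance
    have h1 := (cs_irr χ).div_card_mem_of_sing (p := p) (fun g hg => by
      have := blockCoeff_eq_zero hB.fB_mem hg
      rw [h, blockCoeff, finsum_mem_singleton] at this
      simpa [χ.2.apply_one_ne_zero, Nat.card_pos.ne'] using this) (y := 1)
      (by simp [(Fact.out : p.Prime).ne_one]) P.isPGroup' (fun a _ => by
        simp [Subgroup.mem_centralizer_singleton_iff])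
    rw [← coe_charDegree χ.2.isCharacter] at h1
    obtain ⟨k, hk⟩ := nat_dvd_of_isIntegral_div Nat.card_pos.ne' h1
    intro hd
    apply P.not_dvd_index
    have h2 := (P : Subgroup G).index_mul_card
    rw [hm, hk, mul_comm, mul_assoc] at h2
    rw [Nat.eq_of_mul_eq_mul_left Nat.card_pos h2]
    exact hd.mul_left k

end Cfsg.Agent.S0914
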