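import Mathlib
import Cfsg.Statements.S0671
import Cfsg.Agent.H8.PermModule

set_option autoImplicit false
open Cfsg

namespace Cfsg.Agent.S0671

open MulAction

/-- If the heart of the permutation module in characteristic `p` of a transitive action of degree `p ^ f` has no trivial composition factor, the action is doubly transitive. The hypothesis is phrased without composition series: no invariant subspaces `W < W'` between the constants and the sum-zero functions with trivial action on the quotient. -/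
theorem result {G : Type*} [Group G] [Finite G] {K : Type*} [Field K] {p f : ℕ} [Fact p.Prime] [CharP K p] {Ω : Type*} [Fintype Ω] [MulAction G Ω] [MulAction.IsPretransitive G Ω] (hf : 1 ≤ f) (hcard : Fintype.card Ω = p ^ f) (h : ∀ W W' : Subrepresentation (Cfsg.permRep K G Ω), (Cfsg.permConstants K G Ω).toSubmodule ≤ W.toSubmodule → W.toSubmodule < W'.toSubmodule → W'.toSubmodule ≤ (Cfsg.permSumZero K G Ω).toSubmodule → ∃ g : G, ∃ v ∈ W'.toSubmodule, Cfsg.permRep K G Ω g v - v ∉ W.toSubmodule) : MulAction.IsMultiplyPretransitive G Ω 2 := by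
  classical
  by_contra hn
  rw [is_two_pretransitive_iff] at hn
  push Not at hn
  obtain ⟨a, b, c, d, hab, hcd, hn⟩ := hn
  have hcard' : Nat.card Ω = p ^ f := by rw [Nat.card_eq_fintype_card, hcard]
  let R : Ω → Ω → Prop := fun x y => ∃ g : G, g • a = x ∧ g • b = y
  have hR : ∀ g : G, ∀ x y, R (g • x) (g • y) ↔ R x y := by
    intro g x y
    constructor
    · rintro ⟨u, h1, h2⟩
      exact ⟨g⁻¹ * u, by rw [mul_smul, h1, inv_smul_smul], by rw [mul_smul, h2, inv_smul_smul]⟩
    · rintro ⟨u, h1, h2⟩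
      exact ⟨g * u, by rw [mul_smul, h1], by rw [mul_smul, h2]⟩
  let m : K := ∑ y, if R a y then 1 else 0
  have hm : ∀ x, (∑ y, if R x y then (1 : K) else 0) = m := by
    intro x
    obtain ⟨g, rfl⟩ := exists_smul_eq G a x
    exact (Fintype.sum_equiv (MulAction.toPerm g) _ _ (fun y => by simp [hR])).symm
  -- ψ v y = ∑ x, [R x y] v x - m v y
  let ψ : (Ω → K) →ₗ[K] (Ω → K) :=
    { toFun := fun v y => (∑ x, if R x y then v x else 0) - m * v y
      map_add' := fun v w => by
        ext y
        simp only [Pi.add_apply, ite_add_zero, Finset.sum_add_distrib]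
        ring
      map_smul' := fun t v => by
        ext y
        simp only [Pi.smul_apply, smul_eq_mul, RingHom.id_apply, mul_sub, Finset.mul_sum, mul_ite,
          mul_zero]
        ring }
  have hψ : ∀ v y, ψ v y = (∑ x, if R x y then v x else 0) - m * v y := fun _ _ => rfl
  have hψg : ∀ (g : G) v, ψ (fun x => v (g • x)) = fun y => ψ v (g • y) := by
    intro g v
    ext y
    rw [hψ, hψ]
    congr 1
    exact Fintype.sum_equiv (MulAction.toPerm g) _ _ (fun x => by simp [hR])
  have hsum : ∀ v, ∑ y, ψ v y = 0 := by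
    intro v
    simp only [hψ, Finset.sum_sub_distrib]
    rw [Finset.sum_comm, sub_eq_zero]
    refine Finset.sum_congr rfl fun x _ => ?_
    rw [← hm x, Finset.sum_mul]
    simp
  have hδ : ∀ x y, x ≠ y → ψ (Pi.single x 1) y = if R x y then 1 else 0 := by
    intro x y hxy
    rw [hψ, Finset.sum_eq_single x]
    · simp [hxy.symm]
    · intro z _ hz; simp [hz]
    · simp
  have hS := CfsgH8.subrep_invariant (Cfsg.permSumZero K G Ω)
  let W : Subrepresentation (Cfsg.permRep K G Ω) :=
    ⟨(Cfsg.permSumZero K G Ω).toSubmodule.map ψ, by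
      rintro g _ ⟨v, hv, rfl⟩
      exact ⟨_, hS g⁻¹ v hv, hψg g⁻¹ v⟩⟩
  let W' : Subrepresentation (Cfsg.permRep K G Ω) :=
    ⟨LinearMap.range ψ, by
      rintro g _ ⟨v, rfl⟩
      exact ⟨_, hψg g⁻¹ v⟩⟩
  obtain ⟨g₀, hg₀⟩ := exists_smul_eq G d b
  have hc' : g₀ • c ≠ b := fun e => hcd (MulAction.injective g₀ (e.trans hg₀.symm))
  have hnR : ¬ R (g₀ • c) b := by
    rw [← hg₀, hR]
    rintro ⟨u, h1, h2⟩
    exact hn u h1 h2
  have hRab : R a b := ⟨1, by simp, by simp⟩
  have hW0 : W.toSubmodule ≠ ⊥ := by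
    intro h0
    have : ψ (Pi.single a 1 - Pi.single (g₀ • c) 1) ∈ W.toSubmodule :=
      ⟨_, by
        show ∑ x, (Pi.single a 1 - Pi.single (g₀ • c) 1 : Ω → K) x = 0
        simp [Finset.sum_sub_distrib], rfl⟩
    rw [h0, Submodule.mem_bot, map_sub] at this
    have := congrFun this b
    rw [Pi.sub_apply, hδ a b hab, hδ _ b hc', if_pos hRab, if_neg hnR] at this
    simp at this
  obtain ⟨g, _, ⟨v, rfl⟩, hv⟩ := h W W' ((Submodule.span_singleton_le_iff_mem _ _).mpr
      (CfsgH8.const_mem_of_invariant (G := G) hcard' _ (CfsgH8.subrep_invariant W) hW0))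
    (by
      refine lt_of_le_of_ne (LinearMap.map_le_range) fun e => ?_
      have : ψ (Pi.single a 1) ∈ W.toSubmodule := e ▸ ⟨_, rfl⟩
      obtain ⟨s, hs, hs'⟩ := this
      have hk := CfsgH8.eq_top_of_invariant (G := G) hcard' (LinearMap.ker ψ) (fun g v hv => by
        rw [LinearMap.mem_ker] at hv ⊢
        rw [hψg, hv]; rfl) (w := Pi.single a 1 - s) (by
          rw [LinearMap.mem_ker, map_sub, hs', sub_self]) (by
          have hs2 : ∑ x, s x = 0 := hs
          simp [Finset.sum_sub_distrib, hs2])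
      have : ψ (Pi.single a 1) = 0 := LinearMap.mem_ker.mp (hk ▸ Submodule.mem_top)
      have := congrFun this b
      rw [hδ a b hab, if_pos hRab] at this
      simp at this)
    (by rintro _ ⟨v, rfl⟩; exact hsum v)
  apply hv
  refine ⟨(fun x => v (g⁻¹ • x)) - v, ?_, by rw [map_sub, hψg]; rfl⟩
  show ∑ x, (v (g⁻¹ • x) - v x) = 0
  rw [Finset.sum_sub_distrib, sub_eq_zero]
  exact Fintype.sum_equiv (MulAction.toPerm g⁻¹) _ _ (fun x => rfl)

end Cfsg.Agent.S0671
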