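import Cfsg.Statements.S0040
import Cfsg.Agent.H1.KW
import Cfsg.Agent.H1.Gasch
import Cfsg.Agent.H1.Frob2
import Cfsg.Agent.H2.MaxCl2
import Cfsg.Agent.H1.SS2

set_option autoImplicit false
open Cfsg

namespace Cfsg.Agent.S0040

/-- Sylow subgroups of Frobenius complements: if H complements a nontrivial normal subgroup K and every nonidentity element of H has trivial centraliser in K, then each Sylow subgroup of H is cyclic or isomorphic to a generalized quaternion group. -/
theorem result {G : Type*} [Group G] [Finite G] (K H : Subgroup G) [K.Normal]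
    (hc : Subgroup.IsComplement' K H) (hK : K ≠ ⊥) (hfpf : ∀ h ∈ H, h ≠ 1 → K ⊓ Subgroup.centralizer {h} = ⊥)
    (p : ℕ) [Fact p.Prime] (P : Sylow p H) :
    IsCyclic P ∨ ∃ n : ℕ, Nonempty (P ≃* QuaternionGroup (2 ^ n)) := by
  open Pointwise Subgroup CfsgH1 in
  open CfsgH2 hiding card_inf_mul_relIndex card_lt_of_lt card_lt_of_ne_top card_map_mul_card_inf_ker card_mul_relIndex card_subgroupOf card_sup_dvd card_sup_mul_card_inf exists_card_prime_le isNilpotent_map isNilpotent_of_le isPGroup_pCore isSolvable_map isSolvable_of_le le_pCore le_pPrimeCore relIndex_map_dvd in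
  open scoped CfsgH2 in
  open scoped commutatorElement in
  · by_cases hH : H = ⊥
    · subst hH; exact .inl inferInstance
    have h := frob_of_isComplement' hc hK hH hfpf
    have hP := syl_sub P
    have e := (P : Subgroup H).equivMapOfInjective H.subtype H.subtype_injective
    have hk : prk p ((P : Subgroup H).map H.subtype) ≤ 1 := by_contra fun h2 => by
      obtain ⟨E, h3, h4⟩ := exists_el_of_le (not_le.1 h2 : 2 ≤ _)
      exact h4.not_cyclic Fact.out le_rfl (h.isCyclic_of_comm (h3.trans hP.le) h4.comm)
    rcases cyc_or_quat hP.pg hk with h1 | ⟨-, a, b, m, h1, h2, h3⟩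
    · exact .inl (isCyclic_of_surjective _ e.symm.surjective)
    · obtain ⟨f⟩ := h1.toCy2.quaternion h2 h3
      exact .inr ⟨m, ⟨e.trans f⟩⟩

end Cfsg.Agent.S0040
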