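import Cfsg.Statements.S0092
import Mathlib
import Cfsg.Agent.L0.Chn2
import Cfsg.Agent.H1.SZ
import Cfsg.Agent.H1.Frattini

set_option autoImplicit false
open Cfsg

namespace Cfsg.Agent.S0092

open Cfsg Subgroup CfsgH2 CfsgL0

/-- If the Sylow p-subgroups of O^p(G) are abelian then G splits over O^p(G). -/
theorem result {G : Type*} [Group G] [Finite G] {p : ℕ} [Fact p.Prime] (h : ∀ Q : Sylow p (Cfsg.pResidual p G), IsMulCommutative Q) : ∃ K : Subgroup G, K.IsComplement' (Cfsg.pResidual p G) := by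
  obtain ⟨P⟩ : Nonempty (Sylow p (pResidual p G)) := inferInstance
  have hQ := syl_sub P
  have ab : IsMulCommutative ((P : Subgroup (pResidual p G)).map (pResidual p G).subtype) := haveI := h P; inferInstance
  generalize (P : Subgroup (pResidual p G)).map (pResidual p G).subtype = Q at hQ ab
  clear h P
  rw [pResidual_eq] at hQ ⊢
  set K := piRes {p} (⊤ : Subgroup G)
  haveI : K.Normal := normal_of_top_le_norm le_norm_piRes
  have s1 := hQ.mono (le_inf hQ.le le_normalizer : Q ≤ K ⊓ N[Q]) inf_le_left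
  obtain ⟨H, h1, h2, h3, h4⟩ := exists_compl s1.le inf_le_right s1.coprime
  have nH : H ≤ N[Q] := h1.trans inf_le_right
  have co : o[H].Coprime o[Q] := h4 ▸ s1.coprime.symm
  have h5 : Q ⊓ C[H] = ⊥ := by
    have := hQ.focal_abelian ab
    rw [inf_eq_right.2 (hQ.le_commutator_of_piRes piRes_piRes), ← h2] at this
    have e : Q ≤ ⁅Q, H⁆ := this.le.trans (by
      refine commutator_le.2 fun a ha b hb => ?_
      obtain ⟨x, hx, y, hy, rfl⟩ := (mem_sup_of_norm' nH).1 hb
      have := conj_mem_of_norm (le_norm_of_le_cent ((le_cent_of_comm ab (comm_le_left nH))) hx)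
        (commutator_mem_commutator ha hy)
      convert this using 1
      simp only [commutatorElement_def, mul_inv_rev, ← mul_assoc, comm_of_isMulComm ab ha hx])
    exact le_bot_iff.1 ((inf_le_inf_right _ e).trans (coprime_comm_inf_cent ab nH co).le)
  obtain ⟨T, hT⟩ := exists_syl p (N[H] ⊓ N[Q])
  have h6 : N[H] ⊓ N[Q] ⊓ K ≤ H := fun g hg => by
    obtain ⟨x, hx, y, hy, rfl⟩ := (mem_sup_of_norm' nH).1 (h2.ge ⟨hg.2, hg.1.2⟩)
    have h7 : x ∈ N[H] := (mul_mem_cancel_right (le_normalizer hy)).1 hg.1.1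
    have : x ∈ Q ⊓ C[H] := ⟨hx, zpowers_le.1 (comm_eq_bot_iff.1 (le_bot_iff.1 ((le_inf ((commutator_mono (zpowers_le.2 hx)
      le_rfl).trans (comm_le_left nH)) (comm_le_right (zpowers_le.2 h7))).trans h3.le)))⟩
    rw [h5, mem_bot] at this
    simpa [this] using hy
  refine ⟨T, (CfsgH1.isComplement'_of_inf_of_sup (eq_bot_of_pgroup_of_not_dvd (hT.pg.to_le inf_le_right) fun e => s1.nd
    (h4 ▸ e.trans (card_dvd_of_le ((le_inf (inf_le_right.trans hT.le) inf_le_left).trans h6)))) (top_le_iff.1 ?_)).symm⟩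
  refine (hQ.frattini_sup le_top le_normalizer_of_normal).ge.trans (sup_le le_sup_left fun g hg => ?_)
  obtain ⟨k, k1, k2⟩ := CfsgH1.sz_conj_ambient (B := H.map (CfsgH2.cj g)) nH co (.inr (CfsgH1.isSolvable_of_isPGroup hQ.pg)) (h2.symm ▸
    map_cj_le_of_norm h1 (mem_norm_inf (le_normalizer_of_normal (mem_top g)) (le_normalizer hg.2))) (card_map_cj _ _)
  rw [smul_eq_map_cj] at k2
  have h8 : k⁻¹ * g ∈ N[H] ⊓ N[Q] := mem_inf.2 ⟨map_cj_eq_iff.1 (by rw [← map_cj_cj, ← k2, map_cj_inv_cj]),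
    mul_mem (inv_mem (le_normalizer k1)) hg.2⟩
  rw [← hT.piRes_sup] at h8
  simpa using mul_mem (mem_sup_left (hQ.le k1) : k ∈ K ⊔ T) (sup_le_sup_right (piRes_mono le_top) _ h8)

end Cfsg.Agent.S0092
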