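import Cfsg.Statements.S0159
import Cfsg.Agent.H3.More

set_option autoImplicit false
open Cfsg

namespace Cfsg.Agent.S0159
open CfsgH3

/-- The number of solutions of s * s = 1 in a finite group equals the sum, over the irreducible characters χ, of (the average over s of χ (s * s)) times χ 1. -/
theorem result {G : Type*} [Group G] [Fintype G] : (Nat.card {s : G // s * s = 1} : ℂ) = ∑ᶠ χ : Cfsg.IrrCharacter G, ((Nat.card G : ℂ)⁻¹ * ∑ s : G, (χ : G → ℂ) (s * s)) * (χ : G → ℂ) 1 := by
  classical
  rw [finsum_eq_sum_of_fintype]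
  have h1 : ∀ s : G, regChar G (s * s) = if s * s = 1 then (Nat.card G : ℂ) else 0 := by
    intro s
    split_ifs with h
    · rw [h, regChar_one]
    · exact regChar_of_ne h
  have h2 : ∑ χ : Cfsg.IrrCharacter G, ((Nat.card G : ℂ)⁻¹ * ∑ s : G, (χ : G → ℂ) (s * s)) * (χ : G → ℂ) 1
      = (Nat.card G : ℂ)⁻¹ * ∑ s : G, regChar G (s * s) := by
    simp_rw [← sum_irr_deg_mul, Finset.mul_sum, Finset.sum_mul]
    rw [Finset.sum_comm]
    refine Finset.sum_congr rfl fun _ _ => Finset.sum_congr rfl fun _ _ => by ring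
  rw [h2]
  simp_rw [h1]
  rw [← Finset.sum_filter, Finset.sum_const, nsmul_eq_mul, Nat.card_eq_fintype_card,
    Fintype.card_subtype]
  have := natCard_ne_zero G
  field_simp


end Cfsg.Agent.S0159
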