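import Mathlib
import Cfsg.Statements.S0251
import Cfsg.Agent.H8.SmallId
import Cfsg.Agent.H8.SL2n

set_option autoImplicit false
open Cfsg

namespace Cfsg.Agent.S0251

open CfsgH8

/-- PSL_2(3) is isomorphic to A_4. -/
theorem result {F : Type*} [Field F] [Fintype F] (hF : Fintype.card F = 3) : Nonempty (Matrix.ProjectiveSpecialLinearGroup (Fin 2) F ≃* alternatingGroup (Fin 4)) := by
  refine nonempty_equiv_alt_of_injective _ Matrix.ProjectiveSpecialLinearGroup.toPermHom_injective
    ?_ ?_
  · rw [Projectivization.card_of_finrank_two F _ (by simp), Nat.card_eq_fintype_card, hF]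
  · have := card_PSL2 (F := F)
    rw [hF] at this
    exact this

end Cfsg.Agent.S0251
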