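import Cfsg.Statements.S0282
import Cfsg.Agent.H5.Unit2
import Cfsg.Agent.H3.Burnside

set_option autoImplicit false
open Cfsg

namespace Cfsg.Agent.S0282

/-- PSU_3(2) is a solvable group of order 72. -/
theorem result {F : Type*} [Field F] [Fintype F] (hF : Fintype.card F = 4) : Nat.card (Cfsg.PSU 3 F 2) = 72 ∧ Group.IsSolvable (Cfsg.PSU 3 F 2) := by
  have H := CfsgH5.frobq_UF (F := F) (q := 2) (by simpa using hF)
  have h := CfsgH5.card_PSU H (n := 3) (by omega)
  have e : CfsgH5.uOrd 2 3 = 648 := by decide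
  have h1 : Nat.card (Cfsg.PSU 3 F 2) = 72 := by
    rw [e] at h; norm_num at h; omega
  have : Finite (Cfsg.PSU 3 F 2) := Nat.finite_of_card_ne_zero (by omega)
  exact ⟨h1, CfsgH3.burnside_paqb 2 3 3 2 Nat.prime_two Nat.prime_three (by rw [h1]; norm_num)⟩

end Cfsg.Agent.S0282
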