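import Cfsg.Statements.S0283
import Cfsg.Agent.H5.Unit2

set_option autoImplicit false
open Cfsg

namespace Cfsg.Agent.S0283

/-- PSU_n(q) is simple for n at least 3 and (n, q) other than (3, 2). -/
theorem result {F : Type*} [Field F] [Fintype F] {q : ℕ} (hF : Fintype.card F = q ^ 2) (n : ℕ) (hn : 3 ≤ n) (h : ¬ (n = 3 ∧ q = 2)) : IsSimpleGroup (Cfsg.PSU n F q) := by
  have H := CfsgH5.frobq_UF hF
  have := (CfsgH5.CForm.unit_isSimple H (CfsgH5.hermC_nondeg H n) (by simpa) (by simpa using h)).2.2.2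
  exact (CfsgH5.quotCenterEquiv (CfsgH5.suEquiv H n)).isSimpleGroup

end Cfsg.Agent.S0283
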