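import Cfsg.Statements.S0437
import Cfsg.Agent.H1.TT3

set_option autoImplicit false
open Cfsg

namespace Cfsg.Agent.S0437

section
open Subgroup CfsgH1
open CfsgH9 hiding card_inf_mul_relIndex card_lt_of_lt card_lt_of_ne_top card_map_mul_card_inf_ker card_mul_relIndex card_quotient_lt card_subgroupOf card_subgroupOf_of_le card_sup_dvd card_sup_mul_card_inf commutator_sup_le commutator_sup_le' isNilpotent_map isNilpotent_of_le isSolvable_map isSolvable_of_le le_normalizer_commutator le_normalizer_inf le_normalizer_map_subtype le_normalizer_sup le_pCore le_pPrimeCore mem_sup_of_le_normalizer mem_sup_of_le_normalizer' normalizer_le_normalizer_centralizer pCore_quotient_pCore pPrimeCore_quotient_pPrimeCore relIndex_map_subtype relIndex_sup_of_le_normalizer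
open scoped CfsgH9
open scoped commutatorElement

theorem aux {G : Type*} [Group G] {E : Set G} (hE : TS E) {a b c e : G} (ha : a ∈ E) (hb : b ∈ E)
    (hc : c ∈ E) (he : e ∈ E) (hab : a ≠ b) (hac : a ≠ c) (h₁ : Commute a b)
    (h₃ : Commute b c) (h : Commute e (a * b * c)) : Commute e a := by
  by_contra hn
  have n1 : ¬ Commute e b := fun h' => hn (hE.comm_of_comm_mul ha hc he hac (by
    have := h.mul_right h'
    rwa [mul_assoc, mul_assoc, ← h₃.eq, ← mul_assoc b, hE.sq hb, one_mul] at this))
  have n2 : ¬ Commute e c := fun h' => hn (hE.comm_of_comm_mul ha hb he hab (by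
    have := h.mul_right h'
    rwa [mul_assoc, hE.sq hc, mul_one] at this))
  have h1 := hE.string_comm ha hb he h₁ (fun h => hn h.symm) fun h => n1 h.symm
  have h2 : cn a (cn b (cn c e)) = e := by rw [cn_cn, cn_cn]; exact cn_of_comm' h
  have h3 : cn a (cn b e) = cn c e := by
    rw [hE.cn_eq ha, hE.cn_eq hb] at h2
    rw [h2, cn_comm h₁]
  rw [h3] at h1
  exact hE.nc_cn' hc he (fun h => n2 h.symm) h1

end

/-- For three distinct, pairwise commuting members a, b, c of a set of 3-transpositions E, a member e of E centralises a * b * c if and only if it centralises each of a, b and c. -/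
theorem result {G : Type*} [Group G] {E : Set G} (hE : Cfsg.IsThreeTranspositionSet E) {a b c e : G} (ha : a ∈ E) (hb : b ∈ E) (hc : c ∈ E) (he : e ∈ E) (hab : a ≠ b) (hac : a ≠ c) (hbc : b ≠ c) (h₁ : Commute a b) (h₂ : Commute a c) (h₃ : Commute b c) : Commute e (a * b * c) ↔ (Commute e a ∧ Commute e b ∧ Commute e c) := by
  open Subgroup CfsgH1 in
  open CfsgH9 hiding card_inf_mul_relIndex card_lt_of_lt card_lt_of_ne_top card_map_mul_card_inf_ker card_mul_relIndex card_quotient_lt card_subgroupOf card_subgroupOf_of_le card_sup_dvd card_sup_mul_card_inf commutator_sup_le commutator_sup_le' isNilpotent_map isNilpotent_of_le isSolvable_map isSolvable_of_le le_normalizer_commutator le_normalizer_inf le_normalizer_map_subtype le_normalizer_sup le_pCore le_pPrimeCore mem_sup_of_le_normalizer mem_sup_of_le_normalizer' normalizer_le_normalizer_centralizer pCore_quotient_pCore pPrimeCore_quotient_pPrimeCore relIndex_map_subtype relIndex_sup_of_le_normalizer in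
  open scoped CfsgH9 in
  open scoped commutatorElement in
  · refine ⟨fun h => ⟨aux hE ha hb hc he hab hac h₁ h₃ h,
      aux hE hb ha hc he hab.symm hbc h₁.symm h₂ (h₁.eq ▸ h),
      aux hE hc ha hb he hac.symm hbc.symm h₂.symm h₁ ?_⟩, fun h => (h.1.mul_right h.2.1).mul_right h.2.2⟩
    rwa [mul_assoc, ← (h₂.mul_left h₃).eq]

end Cfsg.Agent.S0437
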