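import Mathlib
import Cfsg.Statements.S0891

set_option autoImplicit false
open Cfsg

namespace Cfsg.Agent.S0891

section
variable {K A : Type} {ι : Type} [Field K] [Ring A] [Algebra K A] [DecidableEq ι]

structure Cl (K : Type) {A ι : Type} [Field K] [Ring A] [Algebra K A] (e : ι → A) (s : K) (rev : A →ₗ[K] A) : Prop where
  hs : 2 * s * s = 1
  sq : ∀ i, e i * e i = 1
  ac : ∀ i j, i ≠ j → e i * e j = -(e j * e i)
  r1 : rev 1 = 1
  rm : ∀ a b, rev (a * b) = rev b * rev a
  re : ∀ i, rev (e i) = e i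

def V (K : Type) {A ι : Type} [Field K] [Ring A] [Algebra K A] (e : ι → A) (p : List ι → Prop) : Submodule K A :=
  Submodule.span K {x | ∃ l, p l ∧ x = (l.map e).prod}

variable {e : ι → A} {s : K} {rev : A →ₗ[K] A}

theorem V_mul {p q r : List ι → Prop} (h : ∀ l l', p l → q l' → r (l ++ l')) {x y : A}
    (hx : x ∈ V K e p) (hy : y ∈ V K e q) : x * y ∈ V K e r := by
  induction hx, hy using Submodule.span_induction₂ with
  | mem_mem x y hx hy =>
    obtain ⟨l, hl, rfl⟩ := hx
    obtain ⟨l', hl', rfl⟩ := hy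
    exact Submodule.subset_span ⟨l ++ l', h _ _ hl hl', by simp⟩
  | zero_left => simp
  | zero_right => simp
  | add_left x y z _ _ _ h1 h2 => rw [add_mul]; exact add_mem h1 h2
  | add_right x y z _ _ _ h1 h2 => rw [mul_add]; exact add_mem h1 h2
  | smul_left r x y _ _ h => rw [smul_mul_assoc]; exact Submodule.smul_mem _ _ h
  | smul_right r x y _ _ h => rw [mul_smul_comm]; exact Submodule.smul_mem _ _ h

theorem V_mono {p q : List ι → Prop} (h : ∀ l, p l → q l) : V K e p ≤ V K e q :=
  Submodule.span_mono (by rintro x ⟨l, hl, rfl⟩; exact ⟨l, h l hl, rfl⟩)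

theorem Cl.rev_prod (h : Cl K e s rev) (l : List ι) : rev (l.map e).prod = (l.reverse.map e).prod := by
  induction l with
  | nil => simpa using h.r1
  | cons a l ih => simp only [List.map_cons, List.prod_cons, h.rm, ih, h.re]; simp

theorem Cl.V_rev (h : Cl K e s rev) {x : A} (hx : x ∈ V K e (fun l => Even l.length)) :
    rev x ∈ V K e (fun l => Even l.length) := by
  induction hx using Submodule.span_induction with
  | mem x hx =>
    obtain ⟨l, hl, rfl⟩ := hx
    exact Submodule.subset_span ⟨l.reverse, by simpa using hl, h.rev_prod l⟩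
  | zero => simp
  | add x y _ _ h1 h2 => rw [map_add]; exact add_mem h1 h2
  | smul r x _ h => rw [map_smul]; exact Submodule.smul_mem _ _ h

theorem Cl.conj (h : Cl K e s rev) (i : ι) (l : List ι) :
    e i * (l.map e).prod = ((-1 : K) ^ (l.length + l.count i)) • ((l.map e).prod * e i) := by
  induction l with
  | nil => simp
  | cons a l ih =>
    simp only [List.map_cons, List.prod_cons, List.length_cons, List.count_cons]
    by_cases ha : a = i
    · subst ha
      rw [mul_assoc (e a), ← mul_smul_comm]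
      simp only [beq_self_eq_true, if_true]
      rw [show l.length + 1 + (l.count a + 1) = l.length + l.count a + 2 by ring, pow_add, ← ih.symm]
      simp
    · rw [← mul_assoc, h.ac i a (Ne.symm ha), neg_mul, mul_assoc, ih]
      simp only [beq_iff_eq, ha, if_false, add_zero]
      rw [show l.length + 1 + l.count i = l.length + l.count i + 1 by ring, pow_succ]
      simp [mul_assoc]

theorem Cl.step (h : Cl K e s rev) {p : List ι → Prop} (hp : ∀ l, p l → Even l.length) (i : ι) {x : A}
    (hx : x ∈ V K e p) (hc : e i * x = x * e i) : x ∈ V K e (fun l => p l ∧ Even (l.count i)) := by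
  have : ∀ x ∈ V K e p, x + e i * x * e i ∈ V K e (fun l => p l ∧ Even (l.count i)) := by
    intro x hx
    induction hx using Submodule.span_induction with
    | mem x hx =>
      obtain ⟨l, hl, rfl⟩ := hx
      rw [h.conj, smul_mul_assoc, mul_assoc, h.sq, mul_one, pow_add, (hp l hl).neg_one_pow, one_mul]
      rcases Nat.even_or_odd (l.count i) with h1 | h1
      · rw [h1.neg_one_pow, one_smul]
        have : (l.map e).prod ∈ V K e (fun l => p l ∧ Even (l.count i)) := Submodule.subset_span ⟨l, ⟨hl, h1⟩, rfl⟩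
        exact add_mem this this
      · rw [h1.neg_one_pow]; simp
    | zero => simp
    | add x y _ _ h1 h2 => convert add_mem h1 h2 using 1; noncomm_ring
    | smul r x _ h => convert Submodule.smul_mem _ r h using 1; simp
  have h1 := Submodule.smul_mem _ (s * s) (this x hx)
  rw [hc, mul_assoc, h.sq, mul_one, ← two_smul K x, smul_smul, show s * s * 2 = 1 by rw [← h.hs]; ring, one_smul] at h1
  exact h1

theorem Cl.scal (h : Cl K e s rev) (n : ℕ) : ∀ l : List ι, l.length = n → (∀ i, Even (l.count i)) →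
    ∃ c : K, (l.map e).prod = c • (1 : A) := by
  induction n using Nat.strong_induction_on with
  | _ n ih =>
    intro l hl he
    cases l with
    | nil => exact ⟨1, by simp⟩
    | cons a l =>
      have ha : a ∈ l := by
        by_contra hn
        have := he a
        simp [List.count_eq_zero_of_not_mem hn] at this
      obtain ⟨l1, l2, rfl⟩ := List.append_of_mem ha
      obtain ⟨c, hc⟩ := ih (l1 ++ l2).length (by simp at hl ⊢; omega) (l1 ++ l2) rfl (fun i => by
        have := he i
        simp only [List.count_cons, List.count_append] at this ⊢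
        split_ifs at this with h1
        · rw [Nat.even_iff] at this ⊢; omega
        · simpa using this)
      refine ⟨(-1 : K) ^ (l1.length + l1.count a) * c, ?_⟩
      simp only [List.map_cons, List.map_append, List.prod_cons, List.prod_append] at hc ⊢
      rw [← mul_assoc, h.conj, smul_mul_assoc, mul_assoc, ← mul_assoc (e a), h.sq, one_mul, hc, smul_smul]

theorem Cl.cent [Fintype ι] (h : Cl K e s rev) {x : A} (hx : x ∈ V K e (fun l => Even l.length))
    (hc : ∀ i, e i * x = x * e i) : ∃ c : K, x = c • (1 : A) := by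
  have h1 : ∀ T : Finset ι, x ∈ V K e (fun l => Even l.length ∧ ∀ i ∈ T, Even (l.count i)) := by
    intro T
    induction T using Finset.induction_on with
    | empty => exact V_mono (fun l hl => ⟨hl, by simp⟩) hx
    | insert a T _ ih =>
      refine V_mono ?_ (h.step (fun l hl => hl.1) a ih (hc a))
      rintro l ⟨⟨h1, h2⟩, h3⟩
      exact ⟨h1, by simpa using ⟨h3, h2⟩⟩
  have h2 : V K e (fun l => Even l.length ∧ ∀ i ∈ (Finset.univ : Finset ι), Even (l.count i)) ≤ Submodule.span K {1} := by
    rw [V, Submodule.span_le]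
    rintro x ⟨l, hl, rfl⟩
    obtain ⟨c, hc⟩ := h.scal _ l rfl (fun i => hl.2 i (Finset.mem_univ _))
    exact Submodule.mem_span_singleton.2 ⟨c, hc.symm⟩
  obtain ⟨c, hc⟩ := Submodule.mem_span_singleton.1 (h2 (h1 _))
  exact ⟨c, hc.symm⟩

theorem Cl.tt (h : Cl K e s rev) {i j : ι} (hij : i ≠ j) : (s • (e i - e j)) * (s • (e i - e j)) = 1 := by
  rw [smul_mul_smul_comm, mul_sub, sub_mul, sub_mul, h.sq, h.sq, h.ac i j hij]
  rw [show (1 : A) - e j * e i - (-(e j * e i) - 1) = (2 : K) • (1 : A) by rw [two_smul]; abel, smul_smul,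
    show s * s * 2 = 1 by rw [← h.hs]; ring, one_smul]

theorem Cl.te (h : Cl K e s rev) {i j : ι} (hij : i ≠ j) (k : ι) :
    (s • (e i - e j)) * e k = -(e (Equiv.swap i j k) * (s • (e i - e j))) := by
  rw [smul_mul_assoc, mul_smul_comm, ← smul_neg]
  congr 1
  by_cases h1 : k = i
  · subst h1; rw [Equiv.swap_apply_left, sub_mul, mul_sub, h.sq, h.sq]; abel
  by_cases h2 : k = j
  · subst h2; rw [Equiv.swap_apply_right, sub_mul, mul_sub, h.sq, h.sq]; abel
  rw [Equiv.swap_apply_of_ne_of_ne h1 h2, sub_mul, mul_sub, h.ac k i h1, h.ac k j h2]; abel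

def Cl.t (h : Cl K e s rev) {i j : ι} (hij : i ≠ j) : Aˣ := ⟨s • (e i - e j), s • (e i - e j), h.tt hij, h.tt hij⟩

def Cl.Gam [Fintype ι] (h : Cl K e s rev) : Subgroup (Aˣ × alternatingGroup ι) where
  carrier := {g | (g.1 : A) ∈ V K e (fun l => Even l.length) ∧ rev (g.1 : A) = (g.1⁻¹ : Aˣ) ∧
    ∀ k, (g.1 : A) * e k = e ((g.2 : Equiv.Perm ι) k) * g.1}
  one_mem' := ⟨Submodule.subset_span ⟨[], by simp, by simp⟩, by simpa using h.r1, by simp⟩
  mul_mem' := by
    rintro ⟨a, σ⟩ ⟨b, τ⟩ ⟨a1, a2, a3⟩ ⟨b1, b2, b3⟩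
    refine ⟨V_mul (fun l l' h1 h2 => by simpa using h1.add h2) a1 b1, ?_, fun k => ?_⟩
    · simp only [Prod.fst_mul, Units.val_mul, h.rm, mul_inv_rev] at *
      rw [a2, b2]
    · simp only [Prod.fst_mul, Units.val_mul, Prod.snd_mul, Subgroup.coe_mul, Equiv.Perm.mul_apply] at *
      rw [mul_assoc, b3, ← mul_assoc, a3, mul_assoc]
  inv_mem' := by
    rintro ⟨a, σ⟩ ⟨a1, a2, a3⟩
    simp only at a1 a2 a3
    refine ⟨?_, ?_, fun k => ?_⟩
    · simp only [Prod.fst_inv]; rw [← a2]; exact h.V_rev a1
    · simp only [Prod.fst_inv, inv_inv]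
      have := h.rm (a⁻¹ : Aˣ) a
      rw [Units.inv_mul, h.r1, a2] at this
      exact ((Units.inv_mul_eq_one.1 this.symm)).symm
    · simp only [Prod.fst_inv, Prod.snd_inv, Subgroup.coe_inv]
      have := a3 ((σ : Equiv.Perm ι)⁻¹ k)
      rw [Units.inv_mul_eq_iff_eq_mul, ← mul_assoc, this]
      simp

theorem Cl.surj [Fintype ι] (h : Cl K e s rev) (l : List (Equiv.Perm ι)) (hl : ∀ g ∈ l, g.IsSwap) :
    ∃ g : Aˣ, (g : A) ∈ V K e (fun l' => l'.length = l.length) ∧ rev (g : A) = (g⁻¹ : Aˣ) ∧
      ∀ k, (g : A) * e k = (-1 : K) ^ l.length • (e (l.prod k) * g) := by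
  induction l with
  | nil => exact ⟨1, Submodule.subset_span ⟨[], by simp, by simp⟩, by simpa using h.r1, by simp⟩
  | cons a l ih =>
    obtain ⟨g, g1, g2, g3⟩ := ih (fun g hg => hl g (List.mem_cons_of_mem _ hg))
    obtain ⟨i, j, hij, rfl⟩ := hl a List.mem_cons_self
    refine ⟨h.t hij * g, ?_, ?_, fun k => ?_⟩
    · refine V_mul (p := fun l => l.length = 1) (fun l l' h1 h2 => by simp [h1, h2, add_comm]) ?_ g1
      exact Submodule.smul_mem _ _ (sub_mem (Submodule.subset_span ⟨[i], rfl, by simp⟩) (Submodule.subset_span ⟨[j], rfl, by simp⟩))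
    · rw [Units.val_mul, h.rm, g2, mul_inv_rev, Units.val_mul]
      congr 1
      simp [Cl.t, h.re]
    · rw [Units.val_mul, mul_assoc, g3, mul_smul_comm, ← mul_assoc]
      have := h.te hij (l.prod k)
      change (h.t hij : A) * _ = -(_ * (h.t hij : A)) at this
      rw [this]
      simp [pow_succ, mul_assoc]

theorem Cl.pair [Fintype ι] (h : Cl K e s rev) {i j k l : ι} (hij : i ≠ j) (hkl : k ≠ l) :
    (h.t hij * h.t hkl, (⟨Equiv.swap i j * Equiv.swap k l, by simp [hij, hkl]⟩ : alternatingGroup ι)) ∈ h.Gam := by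
  have h1 : ∀ {i j : ι} (hij : i ≠ j), (h.t hij : A) ∈ V K e (fun l => l.length = 1) := fun {i j} hij =>
    Submodule.smul_mem _ _ (sub_mem (Submodule.subset_span ⟨[i], rfl, by simp⟩) (Submodule.subset_span ⟨[j], rfl, by simp⟩))
  refine ⟨V_mul (fun l l' h1 h2 => by simp [h1, h2]) (h1 hij) (h1 hkl), ?_, fun m => ?_⟩
  · simp [Cl.t, h.rm, h.re]
  · simp only [Units.val_mul, Equiv.Perm.mul_apply]
    have h2 := h.te hkl m
    have h3 := h.te hij (Equiv.swap k l m)
    change (h.t hkl : A) * _ = -(_ * (h.t hkl : A)) at h2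
    change (h.t hij : A) * _ = -(_ * (h.t hij : A)) at h3
    rw [mul_assoc, h2, mul_neg, ← mul_assoc, h3]
    simp [mul_assoc]

open scoped commutatorElement in
theorem Cl.main [Fintype ι] [Nontrivial A] (h : Cl K e s rev) {a b c d : ι} (hab : a ≠ b) (hac : a ≠ c) (had : a ≠ d)
    (hbc : b ≠ c) (hbd : b ≠ d) (hcd : c ≠ d) :
    ∃ (Γ : Type) (_ : Group Γ) (_ : Finite Γ) (z : Γ) (_ : z ∈ Subgroup.center Γ), orderOf z = 2 ∧ z ∈ commutator Γ ∧ ∃ _ : (Subgroup.zpowers z).Normal, Nonempty (Γ ⧸ Subgroup.zpowers z ≃* alternatingGroup ι) := by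
  have hz : ((-1, 1) : Aˣ × alternatingGroup ι) ∈ h.Gam :=
    ⟨neg_mem (Submodule.subset_span ⟨[], by simp, by simp⟩ : (1 : A) ∈ V K e (fun l => Even l.length)),
      by simpa using h.r1, by simp⟩
  let z : h.Gam := ⟨_, hz⟩
  let φ : h.Gam →* alternatingGroup ι := (MonoidHom.snd _ _).comp h.Gam.subtype
  have hinj := (algebraMap K A).injective
  have hz1 : z ≠ 1 := fun e => by
    have h1 : ((-1 : Aˣ) : A) = (1 : Aˣ) := congrArg (fun g : h.Gam => (g.1.1 : A)) e
    have h2 : algebraMap K A 2 = algebraMap K A 0 := by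
      simp only [Units.val_neg, Units.val_one] at h1
      rw [map_ofNat, map_zero, ← one_add_one_eq_two]; nth_rewrite 1 [← h1]; simp
    have := h.hs
    rw [hinj h2] at this
    simp at this
  have hz2 : z * z = 1 := Subtype.ext (by simp [z])
  have ho : orderOf z = 2 := orderOf_eq_prime (by rw [pow_two, hz2]) hz1
  have hk : φ.ker = Subgroup.zpowers z := by
    apply le_antisymm
    · rintro ⟨⟨g, σ⟩, g1, g2, g3⟩ hg
      have hσ : σ = 1 := hg
      subst hσ
      obtain ⟨c, hc⟩ := h.cent g1 (fun i => (g3 i).symm)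
      simp only at g2 hc
      have h1 : c * c = 1 := by
        apply hinj
        have := g.mul_inv
        rw [← g2, hc, map_smul, h.r1, smul_mul_smul_comm, mul_one] at this
        rw [Algebra.algebraMap_eq_smul_one, this, map_one]
      rcases mul_self_eq_one_iff.1 h1 with rfl | rfl
      · have : g = 1 := Units.ext (by simpa using hc)
        subst this
        exact one_mem _
      · have : g = -1 := Units.ext (by simpa using hc)
        subst this
        exact Subgroup.mem_zpowers z
    · rw [Subgroup.zpowers_le]; rfl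
  have hs : Function.Surjective φ := by
    intro σ
    obtain ⟨l, hl1, hl2⟩ := (Equiv.Perm.truncSwapFactors (σ : Equiv.Perm ι)).out
    have he : Even l.length := (Equiv.Perm.prod_list_swap_mem_alternatingGroup_iff_even_length hl2).1 (hl1 ▸ σ.2)
    obtain ⟨g, g1, g2, g3⟩ := h.surj l hl2
    refine ⟨⟨(g, σ), V_mono (fun l' h' => by rw [h']; exact he) g1, g2, fun k => ?_⟩, rfl⟩
    rw [g3, he.neg_one_pow, one_smul, hl1]
  have hN : (Subgroup.zpowers z).Normal := hk ▸ φ.normal_ker
  let E := (QuotientGroup.quotientMulEquivOfEq hk.symm).trans (QuotientGroup.quotientKerEquivOfSurjective φ hs)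
  have hf : Finite h.Gam := by
    have : Finite (Subgroup.zpowers z) := (isOfFinOrder_iff_pow_eq_one.2 ⟨2, two_pos, by rw [pow_two, hz2]⟩).finite_zpowers
    have : Finite (h.Gam ⧸ Subgroup.zpowers z) := Finite.of_equiv _ E.symm.toEquiv
    exact Finite.of_equiv _ (Subgroup.groupEquivQuotientProdSubgroup (s := Subgroup.zpowers z)).symm
  refine ⟨h.Gam, inferInstance, hf, z, ?_, ho, ?_, hN, ⟨E⟩⟩
  · rw [Subgroup.mem_center_iff]
    intro g
    exact Subtype.ext (by simp [z, Prod.ext_iff])
  · have : z = ⁅(⟨_, h.pair hab hcd⟩ : h.Gam), (⟨_, h.pair hac hbd⟩ : h.Gam)⁆ := by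
      rw [commutatorElement_def, eq_mul_inv_iff_mul_eq, eq_mul_inv_iff_mul_eq]
      apply Subtype.ext
      apply Prod.ext
      · apply Units.ext
        have h1 := (h.pair hab hcd).2.2
        simp only [Equiv.Perm.mul_apply] at h1
        have ha := h1 a
        have hb := h1 b
        have hc := h1 c
        have hd := h1 d
        rw [Equiv.swap_apply_of_ne_of_ne hac had, Equiv.swap_apply_left] at ha
        rw [Equiv.swap_apply_of_ne_of_ne hbc hbd, Equiv.swap_apply_right] at hb
        rw [Equiv.swap_apply_left, Equiv.swap_apply_of_ne_of_ne had.symm hbd.symm] at hc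
        rw [Equiv.swap_apply_right, Equiv.swap_apply_of_ne_of_ne hac.symm hbc.symm] at hd
        simp only [z, Subgroup.coe_mul, Prod.fst_mul]
        generalize h.t hab * h.t hcd = g at *
        simp only [Units.val_mul, Cl.t, Units.val_neg, Units.val_one, smul_mul_smul_comm, mul_smul_comm, smul_mul_assoc]
        congr 2
        have h2 : (g : A) * ((e a - e c) * (e b - e d)) = (e b - e d) * (e a - e c) * g := by
          rw [← mul_assoc, mul_sub (g : A), ha, hc, ← sub_mul, mul_assoc, mul_sub (g : A), hb, hd, ← sub_mul, mul_assoc]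
        rw [h2]
        congr 1
        simp only [mul_sub, sub_mul, h.ac a b hab, h.ac a d had, h.ac c b hbc.symm, h.ac c d hcd]
        noncomm_ring
      · apply Subtype.ext
        ext x
        simp only [z, Subgroup.coe_mul, Prod.snd_mul, one_mul, Equiv.Perm.mul_apply, Equiv.swap_apply_def]
        grind
    rw [this]
    exact Subgroup.commutator_mem_commutator (Subgroup.mem_top _) (Subgroup.mem_top _)
end

/-- For every n ≥ 4 there are a finite group Γ and a central element z of Γ of order 2 lying in the commutator subgroup of Γ such that the quotient of Γ by the (normal) subgroup generated by z is isomorphic to the alternating group on n letters. -/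
theorem result (n : ℕ) (hn : 4 ≤ n) : ∃ (Γ : Type) (_ : Group Γ) (_ : Finite Γ) (z : Γ) (hz : z ∈ Subgroup.center Γ), orderOf z = 2 ∧ z ∈ commutator Γ ∧ ∃ _ : (Subgroup.zpowers z).Normal, Nonempty (Γ ⧸ Subgroup.zpowers z ≃* alternatingGroup (Fin n)) := by
  haveI : Fact (Nat.Prime 7) := ⟨by norm_num⟩
  haveI : Invertible (2 : ZMod 7) := ⟨4, rfl, rfl⟩
  let Q : QuadraticForm (ZMod 7) (Fin n → ZMod 7) := QuadraticMap.weightedSumSquares (ZMod 7) (fun _ : Fin n => (1 : ZMod 7))
  have h : Cl (ZMod 7) (fun i : Fin n => CliffordAlgebra.ι Q (Pi.single i 1)) 2 CliffordAlgebra.reverse := by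
    refine ⟨rfl, fun i => ?_, fun i j hij => ?_, CliffordAlgebra.reverse.map_one, CliffordAlgebra.reverse.map_mul, fun i => CliffordAlgebra.reverse_ι _⟩
    · rw [CliffordAlgebra.ι_sq_scalar]
      have : Q (Pi.single i 1) = 1 := by
        simp [Q, QuadraticMap.weightedSumSquares_apply, Pi.single_apply]
      rw [this, map_one]
    · apply CliffordAlgebra.ι_mul_ι_comm_of_isOrtho
      simp only [QuadraticMap.IsOrtho, Q, QuadraticMap.weightedSumSquares_apply, ← Finset.sum_add_distrib]
      apply Finset.sum_congr rfl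
      intro k _
      simp only [Pi.add_apply, Pi.single_apply]
      split_ifs with h1 h2
      · exact absurd (h1.symm.trans h2) hij
      all_goals simp
  exact h.main (a := ⟨0, by omega⟩) (b := ⟨1, by omega⟩) (c := ⟨2, by omega⟩) (d := ⟨3, by omega⟩)
    (by simp) (by simp) (by simp) (by simp) (by simp) (by simp)

end Cfsg.Agent.S0891
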