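import Mathlib
import Cfsg.Statements.S0447
import Cfsg.Agent.S0891
import Cfsg.Agent.H1.Gasch

set_option autoImplicit false
open Cfsg

namespace Cfsg.Agent.S0447

open Subgroup Equiv

def Dih {G : Type*} [Group G] (a b : G) (ha : a * a = 1) (hb : b * b = 1) : Subgroup G where
  carrier := {g | g ∈ zpowers (a * b) ∨ g * a ∈ zpowers (a * b)}
  one_mem' := Or.inl (one_mem _)
  mul_mem' := by
    have h1 : ∀ g ∈ zpowers (a * b), a * g * a ∈ zpowers (a * b) := by
      rintro _ ⟨i, rfl⟩
      have : a * (a * b) * a⁻¹ = (a * b)⁻¹ := by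
        rw [← mul_assoc, ha, one_mul, mul_inv_rev, inv_eq_of_mul_eq_one_right hb]
      refine ⟨-i, ?_⟩
      simp only
      rw [zpow_neg, ← inv_zpow, ← this, conj_zpow, inv_eq_of_mul_eq_one_right ha]
    rintro x y (hx | hx) (hy | hy)
    · exact Or.inl (mul_mem hx hy)
    · exact Or.inr (by rw [mul_assoc]; exact mul_mem hx hy)
    · refine Or.inr ?_
      convert mul_mem hx (h1 _ hy) using 1
      rw [mul_assoc x a, ← mul_assoc a, ← mul_assoc a, ha, one_mul, mul_assoc]
    · refine Or.inl ?_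
      convert mul_mem hx (h1 _ hy) using 1
      rw [mul_assoc x a, ← mul_assoc a, ← mul_assoc a, ha, one_mul, mul_assoc y, ha, mul_one]
  inv_mem' := by
    have h1 : ∀ g ∈ zpowers (a * b), a * g * a ∈ zpowers (a * b) := by
      rintro _ ⟨i, rfl⟩
      have : a * (a * b) * a⁻¹ = (a * b)⁻¹ := by
        rw [← mul_assoc, ha, one_mul, mul_inv_rev, inv_eq_of_mul_eq_one_right hb]
      refine ⟨-i, ?_⟩
      simp only
      rw [zpow_neg, ← inv_zpow, ← this, conj_zpow, inv_eq_of_mul_eq_one_right ha]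
    rintro x (hx | hx)
    · exact Or.inl (inv_mem hx)
    · refine Or.inr ?_
      convert h1 _ (inv_mem hx) using 1
      rw [mul_inv_rev, ← mul_assoc, mul_inv_cancel, one_mul]

theorem card_Dih {G : Type*} [Group G] {a b : G} (ha : a * a = 1) (hb : b * b = 1) (h : a ∉ zpowers (a * b)) :
    Nat.card (Dih a b ha hb) = 2 * orderOf (a * b) := by
  have h1 : ((zpowers (a * b)).subgroupOf (Dih a b ha hb)).index = 2 := by
    rw [index_eq_two_iff]
    refine ⟨⟨a, Or.inr (by rw [ha]; exact one_mem _)⟩, ?_⟩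
    rintro ⟨g, hg⟩
    simp only [mem_subgroupOf, Subgroup.coe_mul]
    by_cases h2 : g ∈ zpowers (a * b)
    · exact Or.inr ⟨h2, fun h3 => h ((mul_mem_cancel_left h2).1 h3)⟩
    · exact Or.inl ⟨hg.resolve_left h2, h2⟩
  rw [← ((zpowers (a * b)).subgroupOf (Dih a b ha hb)).index_mul_card, h1, ← Nat.card_zpowers,
    Nat.card_congr (subgroupOfEquivOfLe (fun g hg => Or.inl hg)).toEquiv]

theorem split {H G : Type} [Group H] [Finite H] [Group G] (π : H →* G) (hs : Function.Surjective π) (hk : π.ker = center H)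
    (hc : Nat.card (center H) = 2) (h : ∀ x : H, π x * π x = 1 → x * x = 1) (a b : G) (ha : a * a = 1) (hb : b * b = 1)
    (k m : ℕ) (ho : orderOf (a * b) = 2 * k) (hn : a ∉ zpowers (a * b)) (hm : Odd m) (hG : Nat.card G = 4 * k * m) :
    ∃ L : Subgroup H, (center H).IsComplement' L := by
  obtain ⟨a, rfl⟩ := hs a
  obtain ⟨b, rfl⟩ := hs b
  have hG0 : Finite G := Finite.of_surjective π hs
  refine CfsgH1.gaschutz_exists (A := Dih a b (h a ha) (h b hb)) ?_ ?_ rfl
  · have e : (Dih a b (h a ha) (h b hb)).map π = Dih (π a) (π b) ha hb := by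
      ext g
      simp only [mem_map]
      constructor
      · rintro ⟨x, ⟨i, hi⟩ | ⟨i, hi⟩, rfl⟩
        · exact Or.inl ⟨i, by simp [← hi]⟩
        · exact Or.inr ⟨i, by simp only at hi ⊢; rw [← map_mul, ← map_mul, ← hi, map_zpow]⟩
      · rintro (⟨i, hi⟩ | ⟨i, hi⟩)
        · exact ⟨(a * b) ^ i, Or.inl ⟨i, rfl⟩, by simpa using hi⟩
        · refine ⟨(a * b) ^ i * a, Or.inr ⟨i, by simp [mul_assoc, h a ha]⟩, ?_⟩
          simp only at hi
          rw [map_mul, map_zpow, map_mul, hi, mul_assoc, ha, mul_one]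
    rw [hc, ← hk, sup_comm, ← comap_map_eq, index_comap_of_surjective _ hs, e]
    have h1 := (Dih (π a) (π b) ha hb).index_mul_card
    rw [card_Dih ha hb hn, ho, hG] at h1
    have h2 : 0 < k := by
      have := orderOf_pos (π a * π b); omega
    have : (Dih (π a) (π b) ha hb).index = m := Nat.eq_of_mul_eq_mul_right (show 0 < 4 * k by omega) (by linarith)
    rw [this]
    exact Nat.coprime_two_left.2 hm
  · rw [eq_bot_iff, ← hk]
    rintro g ⟨⟨i, hi⟩ | ⟨i, hi⟩, h2⟩
    · have h3 : (π a * π b) ^ i = 1 := by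
        rw [← map_mul, ← map_zpow]; simp only at hi; rw [hi]; exact h2
      rw [← orderOf_dvd_iff_zpow_eq_one, ho] at h3
      obtain ⟨j, rfl⟩ := h3
      have h4 : (a * b) ^ (2 * k) = 1 := by
        rw [two_mul, pow_add]
        apply h
        rw [map_pow, ← pow_add, ← two_mul, map_mul, ← ho, pow_orderOf_eq_one]
      rw [mem_bot, ← hi]
      simp only
      rw [zpow_mul, zpow_natCast, h4, one_zpow]
    · refine absurd ⟨i, ?_⟩ hn
      simp only at hi ⊢
      rw [← map_mul, ← map_zpow, hi, map_mul, MonoidHom.mem_ker.1 h2, one_mul]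

theorem ctype {n : ℕ} (hn : n ≤ 7) (σ : alternatingGroup (Fin n)) (h1 : σ ≠ 1) (h2 : σ * σ = 1) :
    4 ≤ n ∧ (σ : Perm (Fin n)).cycleType = {2, 2} := by
  have ho : orderOf (σ : Perm (Fin n)) = 2 := by
    rw [Subgroup.orderOf_coe]; exact orderOf_eq_prime (by rw [pow_two, h2]) h1
  obtain ⟨k, hk⟩ := Perm.cycleType_prime_order (σ := (σ : Perm (Fin n))) (by rw [ho]; exact Nat.prime_two)
  rw [ho] at hk
  have h3 := Perm.sum_cycleType_le (σ : Perm (Fin n))
  have h4 := Perm.sign_of_cycleType (σ : Perm (Fin n))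
  rw [Perm.mem_alternatingGroup.1 σ.2] at h4
  rw [hk] at h3 h4 ⊢
  simp only [Multiset.sum_replicate, smul_eq_mul, Fintype.card_fin, Multiset.card_replicate] at h3 h4
  rcases (by omega : k = 0 ∨ k = 1 ∨ k = 2) with rfl | rfl | rfl
  · exact absurd h4 (by decide)
  · exact ⟨by omega, rfl⟩
  · exact absurd h4 (by decide)

theorem conjA {n : ℕ} (hn : n ≤ 7) (σ τ : alternatingGroup (Fin n)) (h1 : σ ≠ 1) (h2 : σ * σ = 1) (h3 : τ ≠ 1) (h4 : τ * τ = 1) :
    ∃ g, g * σ * g⁻¹ = τ := by
  obtain ⟨g, hg⟩ := isConj_iff.1 (Perm.isConj_iff_cycleType_eq.2 ((ctype hn σ h1 h2).2.trans (ctype hn τ h3 h4).2.symm))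
  rcases Int.units_eq_one_or (Perm.sign g) with h | h
  · exact ⟨⟨g, h⟩, Subtype.ext hg⟩
  · obtain ⟨x, hx⟩ : ∃ x, (σ : Perm (Fin n)) x ≠ x := by
      by_contra hc; push Not at hc; exact h1 (Subtype.ext (Equiv.ext hc))
    have h5 : (σ : Perm (Fin n)) ((σ : Perm (Fin n)) x) = x := DFunLike.congr_fun (congrArg Subtype.val h2) x
    refine ⟨⟨g * swap x ((σ : Perm (Fin n)) x), by simp [h, hx.symm]⟩, Subtype.ext ?_⟩
    have h6 : swap x ((σ : Perm (Fin n)) x) * σ = σ * swap x ((σ : Perm (Fin n)) x) := by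
      rw [mul_swap_eq_swap_mul, h5, swap_comm]
    simp only [Subgroup.coe_mul, InvMemClass.coe_inv, mul_inv_rev, swap_inv]
    rw [← hg, mul_assoc g, h6]
    simp [mul_assoc]

theorem cardA (n : ℕ) (h : 2 ≤ n) : 2 * Nat.card (alternatingGroup (Fin n)) = n.factorial := by
  haveI : Nontrivial (Fin n) := Fin.nontrivial_iff_two_le.2 h
  rw [two_mul_nat_card_alternatingGroup, Nat.card_perm, Nat.card_fin]

/-- Involutions in double covers of alternating groups: for n ≤ 7, a finite non-split double cover of the alternating group of degree n has exactly one element of order 2 (the central one); for degree 8 there is a non-split double cover with two distinct involutions. -/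
theorem result : (∀ (n : ℕ) (H : Type) (_ : Group H) (_ : Finite H), n ≤ 7 → Cfsg.IsNonsplitDoubleCover H (alternatingGroup (Fin n)) → ∀ x y : H, orderOf x = 2 → orderOf y = 2 → x = y) ∧ ∃ (H : Type) (_ : Group H) (_ : Finite H), Cfsg.IsNonsplitDoubleCover H (alternatingGroup (Fin 8)) ∧ ∃ x y : H, x ≠ y ∧ orderOf x = 2 ∧ orderOf y = 2 := by
  constructor
  · rintro n H _ _ hn ⟨hc, ⟨e⟩, hns⟩
    let π : H →* alternatingGroup (Fin n) := e.toMonoidHom.comp (QuotientGroup.mk' _)
    have hs : Function.Surjective π := e.surjective.comp (QuotientGroup.mk'_surjective _)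
    have hk : π.ker = center H := by
      ext x; simp [π]
    obtain ⟨z, hz, hz'⟩ := (Nat.card_eq_two_iff' (1 : center H)).1 hc
    have hz2 : ∀ x ∈ center H, x * x = 1 := fun x hx => by
      have := pow_card_eq_one' (x := (⟨x, hx⟩ : center H))
      rw [hc, pow_two] at this
      exact congrArg Subtype.val this
    suffices h : ∀ x : H, orderOf x = 2 → x ∈ center H by
      intro x y hx hy
      have h1 := hz' ⟨x, h x hx⟩ (fun e => by simp [show x = 1 from congrArg Subtype.val e] at hx)
      have h2 := hz' ⟨y, h y hy⟩ (fun e => by simp [show y = 1 from congrArg Subtype.val e] at hy)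
      exact congrArg Subtype.val (h1.trans h2.symm)
    intro x hx
    by_contra hxc
    have hx2 : x * x = 1 := by rw [← pow_two, ← hx, pow_orderOf_eq_one]
    have hx1 : π x ≠ 1 := fun e => hxc (hk ▸ e)
    have hx3 : π x * π x = 1 := by rw [← map_mul, hx2, map_one]
    have key : ∀ y : H, π y * π y = 1 → y * y = 1 := by
      intro y hy
      by_cases h1 : π y = 1
      · exact hz2 y (hk ▸ h1)
      · obtain ⟨g, hg⟩ := conjA hn _ _ hx1 hx3 h1 hy
        obtain ⟨g, rfl⟩ := hs g
        have h2 : (g * x * g⁻¹)⁻¹ * y ∈ center H := by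
          rw [← hk, MonoidHom.mem_ker, map_mul, map_inv, map_mul, map_mul, map_inv, hg, inv_mul_cancel]
        obtain ⟨c, hc, rfl⟩ : ∃ c ∈ center H, y = g * x * g⁻¹ * c := ⟨_, h2, by group⟩
        rw [mul_assoc, ← mul_assoc c, ← mem_center_iff.1 hc, mul_assoc _ c, hz2 c hc]
        simp [mul_assoc, ← mul_assoc x, hx2]
    have h4 := (ctype hn _ hx1 hx3).1
    have hA := cardA n (by omega)
    interval_cases n
    · obtain ⟨L, hL⟩ := split π hs hk hc key ⟨swap 0 1 * swap 2 3, Perm.mem_alternatingGroup.2 (by simp)⟩ ⟨swap 0 2 * swap 1 3, Perm.mem_alternatingGroup.2 (by simp)⟩ (by decide) (by decide) 1 3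
        (orderOf_eq_prime (p := 2) (by decide) (by decide)) (by
          rw [mem_zpowers_iff_mem_range_orderOf, orderOf_eq_prime (p := 2) (by decide) (by decide)]; decide) (by decide)
        (by simp only [Nat.factorial] at hA; omega)
      exact hns L hL
    · obtain ⟨L, hL⟩ := split π hs hk hc key ⟨swap 0 1 * swap 2 3, Perm.mem_alternatingGroup.2 (by simp)⟩ ⟨swap 0 2 * swap 1 3, Perm.mem_alternatingGroup.2 (by simp)⟩ (by decide) (by decide) 1 15
        (orderOf_eq_prime (p := 2) (by decide) (by decide)) (by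
          rw [mem_zpowers_iff_mem_range_orderOf, orderOf_eq_prime (p := 2) (by decide) (by decide)]; decide) (by decide)
        (by simp only [Nat.factorial] at hA; omega)
      exact hns L hL
    · obtain ⟨L, hL⟩ := split π hs hk hc key ⟨swap 0 1 * swap 2 3, Perm.mem_alternatingGroup.2 (by simp)⟩ ⟨swap 0 2 * swap 4 5, Perm.mem_alternatingGroup.2 (by simp)⟩ (by decide) (by decide) 2 45
        (orderOf_eq_prime_pow (p := 2) (n := 1) (by decide) (by decide)) (by
          rw [mem_zpowers_iff_mem_range_orderOf, orderOf_eq_prime_pow (p := 2) (n := 1) (by decide) (by decide)]; decide) (by decide)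
        (by simp only [Nat.factorial] at hA; omega)
      exact hns L hL
    · obtain ⟨L, hL⟩ := split π hs hk hc key ⟨swap 0 1 * swap 2 3, Perm.mem_alternatingGroup.2 (by simp)⟩ ⟨swap 0 2 * swap 4 5, Perm.mem_alternatingGroup.2 (by simp)⟩ (by decide) (by decide) 2 315
        (orderOf_eq_prime_pow (p := 2) (n := 1) (by decide) (by decide)) (by
          rw [mem_zpowers_iff_mem_range_orderOf, orderOf_eq_prime_pow (p := 2) (n := 1) (by decide) (by decide)]; decide) (by decide)
        (by simp only [Nat.factorial] at hA; omega)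
      exact hns L hL
  · obtain ⟨H, _, _, z, hz, ho, hz', hN, ⟨e⟩⟩ := Cfsg.Agent.S0891.result 8 (by norm_num)
    let π : H →* alternatingGroup (Fin 8) := e.toMonoidHom.comp (QuotientGroup.mk' _)
    have hs : Function.Surjective π := e.surjective.comp (QuotientGroup.mk'_surjective _)
    have hk : π.ker = zpowers z := by
      ext x; simp [π]
    have hZ : center H = zpowers z := by
      refine le_antisymm (fun x hx => ?_) (zpowers_le.2 hz)
      rw [← hk, MonoidHom.mem_ker, ← mem_bot, ← alternatingGroup.center_eq_bot (by simp), mem_center_iff]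
      intro g
      obtain ⟨g, rfl⟩ := hs g
      rw [← map_mul, ← map_mul, mem_center_iff.1 hx]
    have hc : Nat.card (center H) = 2 := by rw [hZ, Nat.card_zpowers, ho]
    have hz2 : ∀ x ∈ center H, x * x = 1 := fun x hx => by
      have := pow_card_eq_one' (x := (⟨x, hx⟩ : center H))
      rw [hc, pow_two] at this
      exact congrArg Subtype.val this
    refine ⟨H, inferInstance, inferInstance, ⟨hc, ⟨(QuotientGroup.quotientMulEquivOfEq hZ).trans e⟩, fun L hL => ?_⟩, ?_⟩
    · have h1 : L.index = 2 := hL.index_eq_card.trans hc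
      haveI := normal_of_index_eq_two h1
      have h2 : commutator H ≤ L := by
        rw [_root_.commutator_def, commutator_le]
        intro a _ b _
        simp only [commutatorElement_def, mul_mem_iff_of_index_two h1, inv_mem_iff]
        tauto
      have := hL.disjoint.le_bot ⟨hz, h2 hz'⟩
      rw [mem_bot.1 this] at ho
      simp at ho
    · obtain ⟨c, hc'⟩ := hs ⟨swap 0 1 * swap 1 2, Perm.mem_alternatingGroup.2 (by simp)⟩
      obtain ⟨d, hd⟩ := hs ⟨swap 0 1 * swap 2 3, Perm.mem_alternatingGroup.2 (by simp)⟩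
      obtain ⟨g, hg⟩ := hs ⟨swap 0 4 * swap 1 5 * swap 2 6 * swap 3 7, Perm.mem_alternatingGroup.2 (by simp)⟩
      have l1 : ∀ x y : H, π x = π y → ∃ w ∈ center H, x = y * w := fun x y h =>
        ⟨y⁻¹ * x, by rw [hZ, ← hk, MonoidHom.mem_ker, map_mul, map_inv, h, inv_mul_cancel], by group⟩
      obtain ⟨a, ha⟩ : ∃ a, a = c * d * c⁻¹ * d⁻¹ := ⟨_, rfl⟩
      obtain ⟨b, hb⟩ : ∃ b, b = g * a * g⁻¹ := ⟨_, rfl⟩
      have pa : π a = ⟨swap 0 2 * swap 1 3, Perm.mem_alternatingGroup.2 (by simp)⟩ := by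
        rw [ha]; simp only [map_mul, map_inv, hc', hd]; decide
      have pb : π b = ⟨swap 4 6 * swap 5 7, Perm.mem_alternatingGroup.2 (by simp)⟩ := by
        rw [hb]; simp only [map_mul, map_inv, pa, hg]; decide
      obtain ⟨u, hu, e1⟩ := l1 (b * c * b⁻¹) c (by simp only [map_mul, map_inv, pb, hc']; decide)
      obtain ⟨v, hv, e2⟩ := l1 (b * d * b⁻¹) d (by simp only [map_mul, map_inv, pb, hd]; decide)
      obtain ⟨w, hw, e3⟩ := l1 (a * a) 1 (by simp only [map_mul, map_one, pa]; decide)
      have e4 : b * a * b⁻¹ = a := by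
        have : b * a * b⁻¹ = (b * c * b⁻¹) * (b * d * b⁻¹) * (b * c * b⁻¹)⁻¹ * (b * d * b⁻¹)⁻¹ := by rw [ha]; group
        rw [this, e1, e2, ha]
        have hu' := mem_center_iff.1 hu
        have hv' := mem_center_iff.1 hv
        have a1 : u * (d * v) * u⁻¹ = d * v := by rw [← hu', mul_inv_cancel_right]
        have a2 : v * c⁻¹ * v⁻¹ = c⁻¹ := by rw [← hv', mul_inv_cancel_right]
        calc _ = c * (u * (d * v) * u⁻¹) * c⁻¹ * (d * v)⁻¹ := by group
          _ = c * d * (v * c⁻¹ * v⁻¹) * d⁻¹ := by rw [a1]; group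
          _ = _ := by rw [a2]
      refine ⟨z, a * b, fun e => ?_, ho, orderOf_eq_prime ?_ fun e => ?_⟩
      · have : π z = 1 := by rw [← MonoidHom.mem_ker, hk]; exact mem_zpowers z
        rw [e, map_mul, pa, pb] at this
        exact absurd this (by decide)
      · have e5 : b * b = w := by
          rw [hb, show g * a * g⁻¹ * (g * a * g⁻¹) = g * (a * a) * g⁻¹ by group, e3, one_mul, mem_center_iff.1 hw]; simp
        rw [pow_two, mul_assoc, ← mul_assoc b, mul_inv_eq_iff_eq_mul.1 e4, mul_assoc, ← mul_assoc, e3, e5, one_mul, hz2 w hw]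
      · have := congrArg π e
        rw [map_mul, pa, pb, map_one] at this
        exact absurd this (by decide)

end Cfsg.Agent.S0447
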