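import Cfsg.Statements.S0547
import Cfsg.Agent.H1.KW
import Cfsg.Agent.H1.Gasch
import Cfsg.Agent.H1.Frob2
import Cfsg.Agent.H2.MaxCl2
import Cfsg.Agent.H1.SS2

set_option autoImplicit false
open Cfsg

namespace Cfsg.Agent.S0547

/-- Let a finite solvable group G act faithfully and primitively on a set, and let M be a minimal normal subgroup of G. Then M is transitive with trivial point stabilizers, and the number of points equals the order of M, which is a prime power p ^ d with d ≥ 1. -/
theorem result {G : Type*} [Group G] [Finite G] [Group.IsSolvable G] {Ω : Type*} [Nonempty Ω] [MulAction G Ω] [FaithfulSMul G Ω] (hprim : MulAction.IsPreprimitive G Ω) (M : Subgroup G) [M.Normal] (hM : M ≠ ⊥) (hmin : ∀ K : Subgroup G, K.Normal → K ≤ M → K = ⊥ ∨ K = M) : MulAction.IsPretransitive M Ω ∧ (∀ ω : Ω, MulAction.stabilizer M ω = ⊥) ∧ ∃ p d : ℕ, p.Prime ∧ 0 < d ∧ Nat.card Ω = p ^ d ∧ Nat.card M = p ^ d := by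
  open Pointwise Subgroup CfsgH1 in
  open CfsgH2 hiding card_inf_mul_relIndex card_lt_of_lt card_lt_of_ne_top card_map_mul_card_inf_ker card_mul_relIndex card_subgroupOf card_sup_dvd card_sup_mul_card_inf exists_card_prime_le isNilpotent_map isNilpotent_of_le isPGroup_pCore isSolvable_map isSolvable_of_le le_pCore le_pPrimeCore relIndex_map_dvd in
  open scoped CfsgH2 in
  open scoped commutatorElement in
  · haveI := (nontrivial_iff_ne_bot M).2 hM
    haveI : Nontrivial G := M.subtype_injective.nontrivial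
    obtain ⟨hc, p, hp, hpow⟩ := minimal_normal_solvable_elementary M hM hmin
    have key := fun ω : Ω => (cf_compl (coatom_stabilizer hprim ω) (cf_stabilizer ω) hM hc).2
    haveI := Fact.mk hp
    obtain ⟨d, hd⟩ := exists_card_eq_pow (isPGroup_of_exp hpow)
    refine ⟨⟨fun a b => ?_⟩, fun ω => eq_bot_iff.2 fun g hg => ?_, p, d, hp, Nat.pos_of_ne_zero ?_, ?_, hd⟩
    · obtain ⟨g, rfl⟩ := MulAction.exists_smul_eq G a b
      obtain ⟨m, hm, s, hs, rfl⟩ := mem_sup_normal_left.1 ((key a).sup_eq_top.ge (mem_top g))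
      exact ⟨⟨m, hm⟩, by rw [mul_smul, show s • a = a from hs]; rfl⟩
    · exact Subtype.ext (mem_bot.1 ((key ω).disjoint.eq_bot.le ⟨g.2, hg⟩))
    · rintro rfl
      exact hM (card_eq_one.1 (by simpa using hd))
    · obtain ⟨ω⟩ := ‹Nonempty Ω›
      rw [← hd, card_eq_index_of_isComplement' (key ω).symm, MulAction.index_stabilizer_of_transitive]

end Cfsg.Agent.S0547
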