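import Cfsg.Statements.S0660
import Mathlib
import Cfsg.Agent.L0.Chn2
import Cfsg.Agent.H1.Gasch

set_option autoImplicit false
open Cfsg

namespace Cfsg.Agent.S0660

open Cfsg Subgroup CfsgH2 CfsgL0

/-- Under a coprime action on an abelian group, an invariant subgroup that is complemented admits an invariant complement. -/
theorem result {G : Type*} [Group G] [Finite G] (V A U : Subgroup G) (hVab : IsMulCommutative V) (hAV : A ≤ Subgroup.normalizer (V : Set G)) (hcop : (Nat.card A).Coprime (Nat.card V)) (hUV : U ≤ V) (hAU : A ≤ Subgroup.normalizer (U : Set G)) (W : Subgroup G) (hWV : W ≤ V) (hUW : U ⊓ W = ⊥) (hUWV : U ⊔ W = V) : ∃ W' : Subgroup G, W' ≤ V ∧ A ≤ Subgroup.normalizer (W' : Set G) ∧ U ⊓ W' = ⊥ ∧ U ⊔ W' = V := by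
  have n1 : V ⊔ A ≤ N[U] := sup_le (le_norm_of_le_cent (le_cent_of_comm hVab hUV)) hAU
  have n2 : V ⊔ A ≤ N[V] := sup_le le_normalizer hAV
  haveI := normal_subgroupOf_of_le_normalizer n1
  haveI := isMulComm_of_le hVab hUV
  obtain ⟨H, hH⟩ := CfsgH1.gaschutz_exists (K := U.subgroupOf (V ⊔ A)) (U := V.subgroupOf (V ⊔ A))
    (A := W.subgroupOf (V ⊔ A)) (by
      rw [card_subgroupOf (hUV.trans le_sup_left), ← relIndex, sup_comm, relIndex_sup_of_norm hAV]
      exact (hcop.symm.coprime_dvd_left (card_dvd_of_le hUV)).coprime_dvd_right (relIndex_dvd_card _ _))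
    (by rw [subgroupOf, subgroupOf, ← comap_inf, inf_comm, hUW]; exact bot_subgroupOf _)
    (by rw [← subgroupOf_sup (hUV.trans le_sup_left) (hWV.trans le_sup_left), hUWV])
  have e1 := congrArg (map (V ⊔ A).subtype) hH.sup_eq_top
  have e2 := congrArg (map (V ⊔ A).subtype) hH.disjoint.eq_bot
  rw [Subgroup.map_sup, map_subgroupOf_eq_of_le (hUV.trans le_sup_left), ← MonoidHom.range_eq_map, range_subtype] at e1
  rw [map_inf _ _ _ (subtype_injective _), map_subgroupOf_eq_of_le (hUV.trans le_sup_left), Subgroup.map_bot] at e2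
  have l := map_subtype_le H
  refine ⟨H.map (V ⊔ A).subtype ⊓ V, inf_le_right, le_sup_right.trans (e1.ge.trans (sup_le (hUV.trans
    (le_norm_of_le_cent (le_cent_of_comm hVab inf_le_right))) (le_norm_inf le_normalizer (l.trans n2)))),
    by rw [← inf_assoc, e2, bot_inf_eq], ?_⟩
  rw [← sup_inf_of_norm (.inr (l.trans n1)) hUV, e1, inf_eq_right.2 le_sup_left]

end Cfsg.Agent.S0660
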