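import Cfsg.Statements.S0666
import Mathlib
import Cfsg.Agent.L0.Chn2
import Cfsg.Agent.H1.Frob

set_option autoImplicit false
open Cfsg

namespace Cfsg.Agent.S0666

open Cfsg Subgroup CfsgH2 CfsgL0

theorem nm {F V : Type*} [Group F] [CommGroup V] (φ : F →* MulAut V) (B : Subgroup F) [Fintype B]
    (h : ∀ w, (∀ b ∈ B, φ b w = w) → w = 1) (w : V) : ∏ b : B, φ b w = 1 := h _ fun c hc => by
  rw [map_prod]
  exact Fintype.prod_equiv (Equiv.mulLeft (⟨c, hc⟩ : B)) _ _ (by simp)

/-- A Frobenius group acting on a nontrivial abelian group of order prime to that of its kernel, with the kernel acting without nontrivial fixed points, has a complement with a nontrivial fixed point. -/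
theorem result {G : Type*} [Group G] [Finite G] (V F : Subgroup G) (hVab : IsMulCommutative V) (hV1 : V ≠ ⊥) (hFV : F ≤ Subgroup.normalizer (V : Set G)) (H : Subgroup ↥F) (hH : Cfsg.IsFrobeniusComplement H) (hcop : (Nat.card V).Coprime (Nat.card (Cfsg.frobeniusKernel H))) (hCK : V ⊓ Subgroup.centralizer (Subtype.val '' Cfsg.frobeniusKernel H : Set G) = ⊥) : V ⊓ Subgroup.centralizer ((H.map F.subtype : Subgroup G) : Set G) ≠ ⊥ := by
  obtain ⟨K, hK⟩ := CfsgH1.exists_frob hH
  rw [hK.kernel_eq] at hcop hCK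
  intro h0
  letI : CommGroup V := { (inferInstance : Group V) with mul_comm := fun a b => mul_comm' a b }
  let φ : F →* MulAut V := V.normalizerMonoidHom.comp (inclusion hFV)
  have key : ∀ B : Subgroup F, V ⊓ C[B.map F.subtype] = ⊥ → ∀ w, (∀ b ∈ B, φ b w = w) → w = 1 := fun B h w e =>
    Subtype.ext (h.le (mem_inf.2 ⟨w.2, mem_cent_iff.2 (by
      rintro _ ⟨b, hb, rfl⟩
      exact mul_inv_eq_iff_eq_mul.1 (congrArg Subtype.val (e b hb)))⟩))
  classical
  haveI := Fintype.ofFinite K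
  haveI := Fintype.ofFinite H
  refine hV1 ((eq_bot_iff_forall _).2 fun x hx => ?_)
  have h1 : ∏ h : H, ∏ k : K, φ (k * h * (k : F)⁻¹) ⟨x, hx⟩ = 1 := by
    rw [Finset.prod_comm]
    refine Finset.prod_eq_one fun k _ => ?_
    simp only [map_mul, MulAut.mul_apply]
    rw [← map_prod, nm φ H (key H h0), map_one]
  rw [Finset.prod_eq_single 1 (fun h _ h2 => ?_) (by simp)] at h1
  · simp only [coe_one, mul_one, mul_inv_cancel, map_one, MulAut.one_apply, Finset.prod_const, Finset.card_univ] at h1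
    rw [← Nat.card_eq_fintype_card] at h1
    exact congrArg Subtype.val (orderOf_eq_one_iff.1 (Nat.Coprime.eq_one_of_dvd (hcop.coprime_dvd_left
      (orderOf_dvd_natCard _)) (orderOf_dvd_of_pow_eq_one h1)))
  have m : ∀ k : K, (k : F) * h * (k : F)⁻¹ * (h : F)⁻¹ ∈ K := fun k => by
    simpa only [mul_assoc] using mul_mem k.2 (conj_mem_of_norm (hK.norm h.2) (inv_mem k.2))
  rw [← nm φ K (key K hCK) (φ h ⟨x, hx⟩)]
  refine Fintype.prod_bijective (fun k : K => (⟨_, m k⟩ : K)) (Finite.surjective_iff_bijective.1 fun k => ?_) _ _ fun k => ?_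
  · obtain ⟨y, hy, e⟩ := hK.exists_conj k.2 h.2 (fun e => h2 (Subtype.ext e))
    exact ⟨⟨y, hy⟩, Subtype.ext (by simp [e])⟩
  · rw [← MulAut.mul_apply, ← map_mul, inv_mul_cancel_right]

end Cfsg.Agent.S0666
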