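import Mathlib
import Cfsg.Statements.S3681

set_option autoImplicit false
open Cfsg

namespace Cfsg.Agent.S3681

open Equiv Equiv.Perm MulAction Finset

theorem three {Ω : Type*} [Fintype Ω] [DecidableEq Ω] (g h : Perm Ω) (a : Ω) (hg : g a ≠ a) (hh : h a ≠ a)
    (hd : ∀ x, x ≠ a → g x = x ∨ h x = x) : IsThreeCycle (g * h * g⁻¹ * h⁻¹) := by
  have hb : h (g a) = g a := by
    rcases hd (g a) hg with h1 | h1
    · exact absurd (g.injective h1) hg
    · exact h1
  have hdis : Perm.Disjoint (swap a (g a) * g) h := by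
    intro x
    by_cases hx : h x = x
    · exact Or.inr hx
    left
    by_cases hxa : x = a
    · subst hxa; simp
    · have h1 := (hd x hxa).resolve_right hx
      have h2 : x ≠ g a := fun h2 => hx (h2 ▸ hb)
      rw [Perm.mul_apply, h1, swap_apply_of_ne_of_ne hxa h2]
  have hc := hdis.commute.eq
  have h1 : g * h * g⁻¹ = swap a (g a) * h * swap a (g a) := by
    calc g * h * g⁻¹ = swap a (g a) * (swap a (g a) * g * h) * g⁻¹ := by
          simp only [← mul_assoc, swap_mul_self, one_mul]
      _ = _ := by rw [hc]; group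
  have h2 : h * swap a (g a) * h⁻¹ = swap (h a) (g a) := by
    rw [← swap_apply_apply, hb]
  have h3 : g * h * g⁻¹ * h⁻¹ = swap (g a) a * swap (g a) (h a) := by
    rw [h1, swap_comm (g a) a, swap_comm (g a) (h a), ← h2]; group
  rw [h3]
  refine isThreeCycle_swap_mul_swap_same hg ?_ hh.symm
  intro h4
  have h5 : h (h a) = h a := by rw [← h4, hb]
  exact hh (h.injective h5)

/-- Bochert's bound for primitive groups. Let a finite group G act faithfully and primitively on a finite set Ω with n elements, and suppose the image of G in the symmetric group of Ω does not contain the alternating group of Ω. Then |G| · ⌊(n + 1)/2⌋! ≤ n!, that is, the index of G in the symmetric group is at least ⌊(n + 1)/2⌋!. -/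
theorem result {G Ω : Type*} [Group G] [Finite G] [MulAction G Ω] [FaithfulSMul G Ω] [Fintype Ω] [DecidableEq Ω]
    (hprim : MulAction.IsPreprimitive G Ω) (hA : ¬ alternatingGroup Ω ≤ (MulAction.toPermHom G Ω).range) :
    Nat.card G * Nat.factorial ((Fintype.card Ω + 1) / 2) ≤ Nat.factorial (Fintype.card Ω) := by
  classical
  set H := (MulAction.toPermHom G Ω).range with hH
  have hcard : Nat.card G = Nat.card H :=
    Nat.card_congr (MonoidHom.ofInjective (f := MulAction.toPermHom G Ω) MulAction.toPerm_injective).toEquiv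
  have hp : IsPreprimitive H Ω := by
    let f : Ω →ₑ[(MulAction.toPermHom G Ω).rangeRestrict] Ω := ⟨id, fun g x => rfl⟩
    exact IsPreprimitive.of_surjective (f := f) Function.surjective_id
  let P : Finset Ω → Prop := fun D => ∀ g ∈ H, (∀ x, x ∉ D → g x = x) → g = 1
  obtain ⟨D, hD, hmax⟩ := exists_max_image ((univ : Finset (Finset Ω)).filter P) card
    ⟨∅, by simp only [mem_filter, mem_univ, true_and]; intro g _ h; ext x; exact h x (by simp)⟩
  have hD : P D := (mem_filter.1 hD).2
  have hmax' : ∀ E : Finset Ω, #D < #E → ∃ g ∈ H, (∀ x, x ∉ E → g x = x) ∧ g ≠ 1 := by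
    intro E hE
    by_contra hcon
    push Not at hcon
    exact absurd (hmax E (mem_filter.2 ⟨mem_univ _, hcon⟩)) (by omega)
  have hk : (Fintype.card Ω + 1) / 2 ≤ #D := by
    by_contra hlt
    have h1 : #D < #(Dᶜ) := by rw [card_compl]; omega
    obtain ⟨g, hg, hg1, hg2⟩ := hmax' _ h1
    obtain ⟨a, ha⟩ : ∃ a, g a ≠ a := by
      by_contra h
      push Not at h
      exact hg2 (Equiv.ext h)
    have haD : a ∉ D := fun h => ha (hg1 a (by simpa using h))
    obtain ⟨h, hh, hh1, hh2⟩ := hmax' (insert a D) (by rw [card_insert_of_notMem haD]; omega)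
    have hha : h a ≠ a := by
      intro h3
      refine hh2 (hD h hh fun x hx => ?_)
      by_cases hxa : x = a
      · rw [hxa, h3]
      · exact hh1 x (by simp [hxa, hx])
    have h3 := three g h a ha hha fun x hx => by
      by_cases hxD : x ∈ D
      · exact Or.inl (hg1 x (by simpa using hxD))
      · exact Or.inr (hh1 x (by simp [hx, hxD]))
    exact hA (alternatingGroup_le_of_isPreprimitive_of_isThreeCycle_mem hp h3
      (mul_mem (mul_mem (mul_mem hg hh) (inv_mem hg)) (inv_mem hh)))
  have hinj : Function.Injective (fun x : H × Perm D => (x.1 : Perm Ω) * ofSubtype x.2) := by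
    rintro ⟨g, σ⟩ ⟨h, τ⟩ he
    simp only at he
    have h1 : (h : Perm Ω)⁻¹ * g = ofSubtype (τ * σ⁻¹) := by
      rw [map_mul, map_inv, eq_mul_inv_iff_mul_eq, mul_assoc, he]; group
    have h2 := hD _ (mul_mem (inv_mem h.2) g.2) fun x hx => by
      rw [h1]; exact ofSubtype_apply_of_not_mem _ hx
    rw [inv_mul_eq_one] at h2
    rw [h2, mul_right_inj] at he
    exact Prod.ext (Subtype.ext h2.symm) (ofSubtype_injective he)
  have h5 := Nat.card_le_card_of_injective _ hinj
  rw [Nat.card_prod, Nat.card_perm, Nat.card_perm, Nat.card_eq_fintype_card (α := Ω), Nat.card_eq_fintype_card (α := D), Fintype.card_coe] at h5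
  rw [hcard]
  exact (Nat.mul_le_mul_left _ (Nat.factorial_le hk)).trans h5

end Cfsg.Agent.S3681
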