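import Cfsg.Statements.S0679
import Cfsg.Agent.S4221
import Cfsg.Agent.H8.M11f
import Cfsg.Agent.S1013
import Cfsg.Agent.S0676
import Cfsg.Agent.S0675
import Cfsg.Agent.S3681
import Cfsg.Agent.S0498
import Cfsg.Agent.H8.Jordan
import Cfsg.Agent.H8.PrimeDegree3
import Cfsg.Agent.H2.NPC

set_option autoImplicit false
open Cfsg

open CfsgH2 Function Subgroup Equiv MulAction
open Cfsg.Agent.S4221 (D F emb mem_emb mem_st)
open scoped Pointwise

namespace Cfsg.Agent.S0679

theorem key (j : ℕ) (h : j < 92) (h1 : 55 * (11 * j + 1) ∣ 39916800) (h2 : ¬ 7 ∣ 11 * j + 1)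
    (h3 : ¬ 5 ∣ 11 * j + 1) (h4 : 2 ∣ 11 * j + 1) : j = 1 ∨ j = 13 := by
  interval_cases j <;> simp_all

theorem z11 : ∀ b u : ZMod 11, b - u = u ↔ u = 6 * b := by decide

section
variable {α : Type*} [Fintype α] [DecidableEq α] {G : Subgroup (Perm α)}

theorem idx {k : ℕ} (h : IsMultiplyPretransitive G α k) (x : Fin k ↪ α) :
    (stabilizer G x).index = (Fintype.card α).descFactorial k := by
  rw [@index_stabilizer_of_transitive G (Fin k ↪ α) _ _ x ⟨fun a b => h.exists_smul_eq a b⟩,
    Nat.card_eq_fintype_card, Fintype.card_embedding_eq, Fintype.card_fin]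

theorem ex_emb (hα : Fintype.card α = 11) {k : ℕ} (hk : k ≤ 11) : Nonempty (Fin k ↪ α) :=
  Embedding.nonempty_of_card_le (by rwa [Fintype.card_fin, hα])

theorem sharp (hα : Fintype.card α = 11) [IsPretransitive G α] [IsSimpleGroup G]
    (h : Nat.card G = 7920) :
    IsMultiplyPretransitive G α 4 ∧ ∀ x : Fin 4 ↪ α, stabilizer G x = ⊥ := by
  have hΩ : Nat.card α = 11 := by rw [Nat.card_eq_fintype_card, hα]
  have st := CfsgH8.M11.steiner h hΩ
  obtain ⟨a, b⟩ := Cfsg.Agent.S0426.result hα st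
  have e : G = setSystemAut {s : Finset α | ∃ v, CfsgH8.M11.RB G v ∧ s = Finset.univ.image v} := by
    refine eq_of_le_of_card_ge (fun g hg => ?_) (a.2.trans h.symm).le
    refine Set.eq_of_subset_of_ncard_le ?_ (Set.ncard_smul_set _ _).ge
    rintro _ ⟨_, ⟨v, ⟨hv, y, oy, h0, h1, h2, h3⟩, rfl⟩, rfl⟩
    let g' : G := ⟨g, hg⟩
    refine ⟨fun i => g' • v i, ⟨(MulAction.injective g').comp hv, g' * y * g'⁻¹,
      ((MulAut.conj g').orderOf_eq y).trans oy, ?_⟩, ?_⟩
    · simp [mul_smul, h0, h1, h2, h3]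
    · ext x; simp [Finset.mem_smul_finset, g', Subgroup.smul_def]
  rw [← e] at b
  exact b

theorem odd_perm (hα : Fintype.card α = 11) [IsPretransitive G α] [Fact (Nat.Prime 11)] (P : Sylow 11 G)
    (he : Even (Nat.card (normalizer ((P : Subgroup G) : Set G)))) :
    ∃ t ∈ G, t ∉ alternatingGroup α := by
  obtain ⟨e, -, t, b, -, ot, -, ht⟩ := CfsgH8.exists_coord_involution hα (by decide) P he
  refine ⟨t, t.2, fun c => ?_⟩
  have t2 : t.1 ^ 2 = 1 := congrArg Subtype.val (ot ▸ pow_orderOf_eq_one t)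
  have k := z11
  have f : ∀ x, t.1 x = x ↔ x = e.symm (6 * b) := fun x => by
    rw [← e.injective.eq_iff, show e (t.1 x) = _ from ht x, k, Equiv.eq_symm_apply]
  have c1 : Fintype.card (Function.fixedPoints t.1) = 1 := Fintype.card_eq_one_iff.2
    ⟨⟨_, (f _).2 rfl⟩, fun y => Subtype.ext ((f _).1 y.2)⟩
  have := Perm.sign_of_pow_two_eq_one t2
  rw [Perm.mem_alternatingGroup.1 c, c1, hα] at this
  exact absurd this (by decide)

theorem core (hα : Fintype.card α = 11) [IsPretransitive G α] (hG : ¬ Group.IsSolvable G)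
    (hA : ¬ alternatingGroup α ≤ G) [Fact (Nat.Prime 11)] (P : Sylow 11 G)
    (ho : ¬ Even (Nat.card (normalizer ((P : Subgroup G) : Set G)))) :
    IsSimpleGroup G ∧ (Nat.card G = 660 ∨ Nat.card G = 7920) := by
  have hΩ : Nat.card α = 11 := by rw [Nat.card_eq_fintype_card, hα]
  have h2 := (Cfsg.Agent.S0675.result (hα ▸ Fact.out) G).resolve_left hG
  have pr := isPreprimitive_of_is_two_pretransitive h2
  have cyc : ∀ q : ℕ, q.Prime → q ≤ 8 → ∀ y : G, orderOf y = q → ¬ y.1.support.card < 2 * q :=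
    fun q hq q8 y oy c => by
      have o : orderOf y.1 = q := by rw [orderOf_coe, oy]
      have cy := Perm.isCycle_of_prime_order (o ▸ hq) (o ▸ c)
      exact hA (CfsgH8.alternatingGroup_le_of_prime_cycle G pr hq (by omega) cy
        (cy.orderOf.symm.trans o) y.2)
  have n7 : ¬ 7 ∣ Nat.card G := fun d => by
    haveI := Fact.mk Nat.prime_seven
    obtain ⟨y, hy⟩ := exists_prime_orderOf_dvd_card' 7 d
    exact cyc 7 Nat.prime_seven (by omega) y hy (by have := y.1.support.card_le_univ; omega)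
  obtain ⟨x⟩ := ex_emb hα (k := 2) (by omega)
  have e2 := (stabilizer G x).index_mul_card
  rw [idx h2, hα, show Nat.descFactorial 11 2 = 110 by decide] at e2
  have n5 : ¬ 5 ∣ Nat.card (stabilizer G x) := fun d => by
    obtain ⟨y, hy, oy⟩ := exists_prime_order_mem Nat.prime_five d
    refine cyc 5 Nat.prime_five (by omega) y oy ?_
    have : y.1.support ⊆ (Finset.univ.map x)ᶜ := fun b hb => Finset.mem_compl.2 fun c => by
      obtain ⟨i, -, rfl⟩ := Finset.mem_map.1 c
      exact Perm.mem_support.1 hb (congrArg (fun e : Fin 2 ↪ α => e i) (mem_stabilizer_iff.1 hy))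
    have := Finset.card_le_card this
    rw [Finset.card_compl, Finset.card_map, Finset.card_univ, Fintype.card_fin] at this
    omega
  have bo := Cfsg.Agent.S3681.result pr (by rwa [show (toPermHom G α).range = G from range_subtype G])
  have dv := card_subgroup_dvd_card G
  rw [Nat.card_perm, hΩ] at dv
  rw [hα, show Nat.factorial ((11 + 1) / 2) = 720 by decide,
    show Nat.factorial 11 = 39916800 by decide] at bo
  obtain ⟨σ, oσ, hP⟩ := CfsgH8.sylow_eq_zpowers_of_prime_degree hα P
  have cP : Nat.card (P : Subgroup G) = 11 := by rw [hP, Nat.card_zpowers, oσ]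
  haveI : IsCyclic (P : Subgroup G) := isCyclic_of_prime_card cP
  have ab : (P : Subgroup G) ≤ C[(P : Subgroup G)] := le_cent_self (isMulComm_of_cyclic this)
  have cc : C[(P : Subgroup G)] = P := le_antisymm (fun c hc => by
    haveI := CfsgH8.sylow_transitive_of_prime_pow_degree (f := 1) (hΩ.trans (pow_one 11).symm) P
    obtain ⟨y, hy⟩ := exists_smul_eq (P : Subgroup G) (x 0) (c • x 0)
    have hy : y.1 • x 0 = c • x 0 := hy
    have k := mul_mem (inv_mem (ab y.2)) hc
    have : y.1⁻¹ * c = 1 := Subtype.ext (Equiv.ext fun z => by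
      obtain ⟨w, rfl⟩ := exists_smul_eq (P : Subgroup G) (x 0) z
      show (y.1⁻¹ * c) • w.1 • x 0 = w.1 • x 0
      rw [← mul_smul, ← k w.1 w.2, mul_smul, mul_smul, ← hy, inv_smul_smul])
    rw [inv_mul_eq_one] at this
    exact this ▸ y.2) ab
  have d10 : (P : Subgroup G).relIndex N[(P : Subgroup G)] ∣ 10 := by
    have := card_subgroup_dvd_card (P : Subgroup G).normalizerMonoidHom.range
    rwa [← index_ker, normalizerMonoidHom_ker, IsCyclic.card_mulAut, cP, cc,
      show Nat.totient 11 = 10 by decide] at this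
  have cN := CfsgH2.card_mul_relIndex (le_normalizer (H := (P : Subgroup G)))
  have d1 : (P : Subgroup G).relIndex N[(P : Subgroup G)] ≠ 1 := fun e => by
    have hS := syl_top P
    have np := hS.npc_of_norm_le_cent (inf_le_right.trans ((relIndex_eq_one.1 e).trans ab))
    have e3 := np.sup_eq hS
    have : O[{11}ᶜ, (⊤ : Subgroup G)] = ⊥ := by_contra fun d => by
      haveI : (O[{11}ᶜ, (⊤ : Subgroup G)]).Normal := normal_of_top_le_norm le_norm_piCoreOf
      haveI := IsQuasiPreprimitive.isPretransitive_of_normal (N := O[{11}ᶜ, (⊤ : Subgroup G)]) (X := α)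
        fun e => d (eq_bot_iff.2 fun g hg => Subtype.ext (Equiv.ext fun b =>
          (e.ge (Set.mem_univ b) : ∀ m : O[{11}ᶜ, (⊤ : Subgroup G)], m • b = b) ⟨g, hg⟩))
      have := index_stabilizer_of_transitive O[{11}ᶜ, (⊤ : Subgroup G)] (x 0)
      exact (piN_compl_singleton (p := 11) Fact.out).1 piN_piCoreOf (hΩ ▸ this ▸ index_dvd_card _)
    rw [this, bot_sup_eq] at e3
    rw [e3, card_top] at cP
    omega
  have d5 : (P : Subgroup G).relIndex N[(P : Subgroup G)] = 5 := by
    have := Nat.le_of_dvd (by omega) d10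
    rw [← cN, cP, even_iff_two_dvd] at ho
    generalize (P : Subgroup G).relIndex N[(P : Subgroup G)] = d at *
    interval_cases d <;> omega
  have m1 := card_sylow_modEq_one 11 G
  have m2 := N[(P : Subgroup G)].card_mul_index
  rw [show N[(P : Subgroup G)].index = _ from P.card_eq_index_normalizer.symm, ← cN, cP, d5] at m2
  refine ⟨Cfsg.Agent.S1013.result hα G P ?_ (d5 ▸ Nat.prime_five : Nat.Prime (relIndex _ _)), ?_⟩
  · have := Nat.card_pos (α := Sylow 11 G)
    omega
  obtain ⟨j, hj⟩ : ∃ j, Nat.card (Sylow 11 G) = 11 * j + 1 := ⟨Nat.card (Sylow 11 G) / 11, by unfold Nat.ModEq at m1; omega⟩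
  rw [show Nat.factorial 11 = 39916800 by decide, ← m2, hj] at dv
  have := key j (by omega) dv (by omega) (by omega) (by omega)
  omega

theorem big (hα : Fintype.card α = 11) (h4 : IsMultiplyPretransitive G α 4)
    (hc : Nat.card G = 15840) : alternatingGroup α ≤ G := by
  by_contra hA
  have sm : ∀ g ∈ G, g ≠ 1 → g.supportᶜ.card ≤ 5 := fun g hg g1 => by
    by_contra c
    refine hA (Cfsg.Agent.S0711.result G (k := 4) (by omega) (by omega) h4 g hg g1 ?_).2
    rw [Finset.card_compl] at c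
    omega
  have c2 : ∀ x : Fin 4 ↪ α, Nat.card (stabilizer G x) = 2 := fun x => by
    have := (stabilizer G x).index_mul_card
    rw [idx h4, hα, show Nat.descFactorial 11 4 = 7920 by decide] at this
    omega
  have un : ∀ {a b c d : α}, D a b c d → ∀ u ∈ G, ∀ v ∈ G, u ≠ 1 → v ≠ 1 → F u a b c d → F v a b c d →
      u = v := fun h u hu v hv u1 v1 fu fv => by
    obtain ⟨w, -, hw⟩ := (Nat.card_eq_two_iff' 1).1 (c2 (emb h))
    exact congrArg (fun z => z.1.1) ((hw ⟨⟨u, hu⟩, (mem_emb h).2 fu⟩ fun e => u1 (congrArg (fun z => z.1.1) e)).trans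
      (hw ⟨⟨v, hv⟩, (mem_emb h).2 fv⟩ fun e => v1 (congrArg (fun z => z.1.1) e)).symm)
  obtain ⟨x⟩ := ex_emb hα (k := 4) (by omega)
  have h1 : D (x 0) (x 1) (x 2) (x 3) := by simp [D]
  generalize x 0 = a, x 1 = b, x 2 = c, x 3 = d at h1
  obtain ⟨⟨⟨s, hs⟩, fs⟩, s1, -⟩ := (Nat.card_eq_two_iff' 1).1 (c2 (emb h1))
  have s2 : s ^ 2 = 1 := congrArg (fun z => z.1.1) (c2 (emb h1) ▸ pow_card_eq_one'
    (x := (⟨⟨s, hs⟩, fs⟩ : stabilizer G (emb h1))))
  replace s1 : s ≠ 1 := fun e => s1 (Subtype.ext (Subtype.ext e))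
  replace fs : F s a b c d := (mem_emb h1).1 fs
  haveI := Fact.mk Nat.prime_two
  haveI := Fact.mk Nat.prime_five
  have m := Perm.card_compl_support_modEq (p := 2) (n := 1) (σ := s) s2
  obtain ⟨n1, n2, n3, n4, n5, n6⟩ := id h1
  have sub : ({a, b, c, d} : Finset α) ⊆ s.supportᶜ := by
    simp [Finset.insert_subset_iff, fs.1, fs.2.1, fs.2.2.1, fs.2.2.2]
  have c4 : ({a, b, c, d} : Finset α).card = 4 := by
    rw [Finset.card_insert_of_notMem (by simp [*]), Finset.card_insert_of_notMem (by simp [*]),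
      Finset.card_pair n6]
  have l := Finset.card_le_card sub
  have l2 := sm s hs s1
  obtain ⟨e, he, he2⟩ := Finset.exists_mem_notMem_of_card_lt_card (s := {a, b, c, d}) (t := s.supportᶜ)
    (by unfold Nat.ModEq at m; omega)
  have T : insert e {a, b, c, d} = s.supportᶜ := Finset.eq_of_subset_of_card_le
    (Finset.insert_subset he sub) (by rw [Finset.card_insert_of_notMem he2]; omega)
  have mT : ∀ z, s z = z → z = e ∨ z = a ∨ z = b ∨ z = c ∨ z = d := fun z hz => by
    have : z ∈ s.supportᶜ := by simpa using hz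
    simpa [← T] using this
  have se : s e = e := by simpa using he
  simp only [Finset.mem_insert, Finset.mem_singleton, not_or] at he2
  have h2 : D b c d e := ⟨n4, n5, Ne.symm he2.2.1, n6, Ne.symm he2.2.2.1, Ne.symm he2.2.2.2⟩
  obtain ⟨⟨g, hg⟩, k⟩ := h4.exists_smul_eq (emb h1) (emb h2)
  have k := Embedding.ext_iff.1 k
  have g1 : g a = b := k 0
  have g2 : g b = c := k 1
  have g3 : g c = d := k 2
  have g4 : g d = e := k 3
  have cm : Commute g s := mul_inv_eq_iff_eq_mul.1 (un h2 _ (mul_mem (mul_mem hg hs) (inv_mem hg)) _ hs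
    (fun x => s1 (by rwa [mul_inv_eq_one, mul_eq_left] at x)) s1
    ⟨by rw [← g1]; simp [fs.1], by rw [← g2]; simp [fs.2.1], by rw [← g3]; simp [fs.2.2.1],
      by rw [← g4]; simp [fs.2.2.2]⟩ ⟨fs.2.1, fs.2.2.1, fs.2.2.2, se⟩)
  have g5 : g e = a := by
    rcases mT (g e) (by rw [← Perm.mul_apply, ← cm.eq, Perm.mul_apply, se]) with x | x | x | x | x
    · exact absurd (g.injective (x.trans g4.symm)) he2.2.2.2
    · exact x
    · exact absurd (g.injective (x.trans g1.symm)) he2.1
    · exact absurd (g.injective (x.trans g2.symm)) he2.2.1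
    · exact absurd (g.injective (x.trans g3.symm)) he2.2.2.1
  have r5 : (g ^ 2) ^ 5 ^ 1 = 1 := by
    rw [pow_one, ← pow_mul, mul_comm, pow_mul]
    by_cases x : g ^ 5 = 1
    · rw [x, one_pow]
    rw [un h1 _ (pow_mem hg 5) _ hs x s1 (by simp only [F, pow_succ, pow_zero, Perm.mul_apply,
      Perm.one_apply, *, and_self]) fs, s2]
  have m5 := Perm.card_compl_support_modEq r5
  have r1 : g ^ 2 ≠ 1 := fun x => n2 (by rw [← g2, ← g1, ← Perm.mul_apply, ← sq, x]; rfl)
  have l5 := sm _ (pow_mem hg 2) r1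
  obtain ⟨z, hz⟩ := Finset.card_eq_one.1 (show (g ^ 2).supportᶜ.card = 1 by
    unfold Nat.ModEq at m5; omega)
  have z1 : ∀ w, (g ^ 2) w = w ↔ w = z := fun w => by
    rw [← Finset.mem_singleton (b := w) (a := z), ← hz]; simp
  have z2 := (z1 z).2 rfl
  have z3 := (z1 (s z)).1 (by rw [← Perm.mul_apply, (cm.pow_left 2).eq, Perm.mul_apply, z2])
  rw [sq, Perm.mul_apply] at z2
  rcases mT z z3 with rfl | rfl | rfl | rfl | rfl
  · exact he2.2.1 (by rw [← z2, g5, g1])
  · exact n2 (by rw [← z2, g1, g2])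
  · exact n5 (by rw [← z2, g2, g3])
  · exact he2.2.2.1 (by rw [← z2, g3, g4])
  · exact n3 (by rw [← z2, g4, g5])
end

/-- A non-solvable transitive permutation group on 11 points that does not contain the alternating group is either sharply 4-transitive (of order 7920) or isomorphic to the projective special linear group of degree 2 over the field with 11 elements. -/
theorem result {α : Type*} [Fintype α] [DecidableEq α] (hα : Fintype.card α = 11) (G : Subgroup (Equiv.Perm α)) [MulAction.IsPretransitive G α] (hG : ¬ Group.IsSolvable G) (hA : ¬ alternatingGroup α ≤ G) : (MulAction.IsMultiplyPretransitive G α 4 ∧ ∀ x : Fin 4 ↪ α, MulAction.stabilizer G x = ⊥) ∨ Nonempty (G ≃* Matrix.ProjectiveSpecialLinearGroup (Fin 2) (ZMod 11)) := by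
  haveI : Fact (Nat.Prime 11) := ⟨by decide⟩
  obtain ⟨P⟩ : Nonempty (Sylow 11 G) := inferInstance
  by_cases he : Even (Nat.card (normalizer ((P : Subgroup G) : Set G)))
  · exfalso
    have h3 := Cfsg.Agent.S0676.result hα G hG P he
    obtain ⟨t, ht, t1⟩ := odd_perm hα P he
    have i2 : (alternatingGroup α).relIndex G = 2 := by
      haveI : Nontrivial α := Fintype.one_lt_card_iff_nontrivial.1 (by omega)
      have := relIndex_dvd_index_of_normal (alternatingGroup α) G
      rw [alternatingGroup.index_eq_two] at this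
      exact ((Nat.dvd_prime Nat.prime_two).1 this).resolve_left fun e => t1 (relIndex_eq_one.1 e ht)
    have c := CfsgH2.card_mul_relIndex (inf_le_right : alternatingGroup α ⊓ G ≤ G)
    rw [inf_relIndex_right, i2] at c
    haveI : IsPretransitive (alternatingGroup α ⊓ G : Subgroup (Perm α)) α := ⟨fun a b => by
      haveI := CfsgH8.sylow_transitive_of_prime_pow_degree (α := α) (f := 1)
        (by rw [Nat.card_eq_fintype_card, hα, pow_one]) P
      obtain ⟨y, hy⟩ := exists_smul_eq (P : Subgroup G) a b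
      refine ⟨⟨y.1.1, ?_, y.1.2⟩, hy⟩
      obtain ⟨k, hk⟩ := P.isPGroup' y
      have := congrArg (fun z => Perm.sign z.1.1) hk
      simp only [coe_pow, map_pow, coe_one, map_one] at this
      rcases Int.units_eq_one_or (Perm.sign y.1.1) with e | e
      · exact e
      · rw [e, Odd.neg_one_pow (Odd.pow (by decide))] at this
        exact absurd this (by decide)⟩
    obtain ⟨Q⟩ : Nonempty (Sylow 11 (alternatingGroup α ⊓ G : Subgroup (Perm α))) := inferInstance
    obtain ⟨s, o⟩ := core hα (G := alternatingGroup α ⊓ G) (fun x => hG (solvable_of_ker_le_range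
      (inclusion (inf_le_right : alternatingGroup α ⊓ G ≤ G)) (Perm.sign.comp G.subtype)
      fun g hg => ⟨⟨g, hg, g.2⟩, rfl⟩)) (fun x => hA (x.trans inf_le_right)) Q fun x => by
        obtain ⟨u, hu, u1⟩ := odd_perm hα Q x
        exact u1 hu.1
    obtain ⟨x⟩ := ex_emb hα (k := 3) (by omega)
    have e3 := (stabilizer G x).index_mul_card
    rw [idx h3, hα, show Nat.descFactorial 11 3 = 990 by decide] at e3
    have o := o.resolve_left (by omega)
    have h4 := (sharp hα o).1
    exact hA (big hα ⟨fun a b => by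
      obtain ⟨g, hg⟩ := h4.exists_smul_eq a b
      exact ⟨⟨g.1, g.2.2⟩, hg⟩⟩ (by omega))
  obtain ⟨s, o | o⟩ := core hα hG hA P he
  · exact .inr (Cfsg.Agent.S0498.result 11 (.inl rfl) (by omega) (ZMod.card 11))
  · exact .inl (sharp hα o)


end Cfsg.Agent.S0679
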