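import Cfsg.Statements.S0723
import Cfsg.Agent.S0721
import Cfsg.Agent.S0722
import Cfsg.Agent.H9.Scott

set_option autoImplicit false
open Cfsg

namespace Cfsg.Agent.S0723

/-- The core of the O'Nan–Scott Theorem. -/
theorem result {α : Type*} [Finite α] (H : Subgroup (Equiv.Perm α)) [MulAction.IsPreprimitive H α] (N : Subgroup H) [N.Normal] (hN : N ≠ ⊥) (hmin : ∀ M : Subgroup H, M.Normal → M ≤ N → M = ⊥ ∨ M = N) (huniq : ∀ L : Subgroup H, L.Normal → L ≠ ⊥ → (∀ M : Subgroup H, M.Normal → M ≤ L → M = ⊥ ∨ M = L) → L = N) (hnab : ¬ IsMulCommutative N) (a : α) : ∃ (T : Type) (_ : Group T) (m : ℕ) (e : N ≃* (Fin m → T)), IsSimpleGroup T ∧ ¬ IsMulCommutative T ∧ 0 < m ∧ ((∃ K : Fin m → Subgroup T, (∀ i, K i ≠ ⊤) ∧ ∀ n : N, (n : H) ∈ MulAction.stabilizer H a ↔ ∀ i, e n i ∈ K i) ∨ (∃ (k : ℕ) (c : Fin m → Fin m), 2 ≤ k ∧ (∀ j : Fin m, Nat.card {i : Fin m // c i = j} = k ∨ Nat.card {i : Fin m // c i = j} = 0)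 ∧ ∀ n : N, (n : H) ∈ MulAction.stabilizer H a ↔ ∀ i j : Fin m, c i = c j → e n i = e n j)) := by
  open Subgroup in
  obtain ⟨T, _, m, hT, hm, ⟨e⟩⟩ := Cfsg.Agent.S0721.result N hN hmin
  have hab : ¬ IsMulCommutative T := fun h => hnab ⟨⟨fun x y => e.injective (by
    rw [map_mul, map_mul]; exact funext fun i => h.1.1 _ _)⟩⟩
  haveI : Nonempty (Fin m) := ⟨⟨0, hm⟩⟩
  have hα : Nontrivial α := by
    by_contra hα
    have : Subsingleton α := not_nontrivial_iff_subsingleton.mp hα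
    exact hN (eq_bot_iff.2 fun x _ => mem_bot.2 (by ext y; exact Subsingleton.elim _ _))
  have hco := MulAction.IsPreprimitive.isCoatom_stabilizer_of_isPreprimitive H a
  have S2 := Cfsg.Agent.S0722.result H N hN hmin a
  set K := MulAction.stabilizer H a with hK
  have hNK : ¬ N ≤ K := fun h => hN (eq_bot_iff.2 fun x hx => mem_bot.2 (by
    ext y
    obtain ⟨g, rfl⟩ := MulAction.exists_smul_eq H a y
    have : (g⁻¹ * x * g⁻¹⁻¹) • a = a := h (‹N.Normal›.conj_mem x hx g⁻¹)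
    rw [inv_inv, mul_smul, mul_smul, inv_smul_eq_iff] at this
    exact this))
  have htop : K ⊔ N = ⊤ := hco.2 _ (left_lt_sup.2 hNK)
  let D : Subgroup (Fin m → T) := (K.subgroupOf N).comap e.symm.toMonoidHom
  have hD : ∀ n : N, e n ∈ D ↔ (n : H) ∈ K := fun n => by
    simp [D, mem_subgroupOf]
  let φ : H → (Fin m → T) ≃* (Fin m → T) := fun k => e.symm.trans ((MulAut.conjNormal k).trans e)
  have hφ : ∀ k n, φ k (e n) = e (MulAut.conjNormal k n) := fun k n => by simp [φ]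
  let X : Subgroup (Fin m → T) → Subgroup H := fun E => (E.comap e.toMonoidHom).map N.subtype
  have hX : ∀ E (n : N), (n : H) ∈ X E ↔ e n ∈ E := fun E n =>
    ⟨fun ⟨l, a, b⟩ => (Subtype.ext b : l = n) ▸ a, fun h => ⟨n, h, rfl⟩⟩
  have XN : ∀ E, X E ≤ N := fun E => map_subtype_le _
  have Xn : ∀ E (L : Subgroup H), (∀ k ∈ L, ∀ x ∈ E, φ k x ∈ E) → L ≤ normalizer (X E : Set H) := by
    intro E L h
    have A : ∀ k ∈ L, ∀ x ∈ X E, k * x * k⁻¹ ∈ X E := fun k hk x hx => by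
      have := h k hk _ ((hX E ⟨x, XN E hx⟩).1 hx)
      rw [hφ] at this
      exact (hX E _).2 this
    exact fun k hk => mem_normalizer_iff.2 fun x => ⟨A k hk x, fun b => by
      simpa [mul_assoc] using A k⁻¹ (inv_mem hk) _ b⟩
  have Xt : ∀ E, X E = N → E = ⊤ := fun E h => eq_top_iff.2 fun x _ => by
    obtain ⟨n, rfl⟩ := e.surjective x
    exact (hX E n).1 (h.ge n.2)
  rcases CfsgScott.main hab (D := D) (φ '' K) (by
      rintro _ ⟨k, hk, rfl⟩ x
      obtain ⟨n, rfl⟩ := e.surjective x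
      rw [hφ, hD, hD, MulAut.conjNormal_apply]
      exact ⟨fun h => by simpa [mul_assoc] using mul_mem (mul_mem (inv_mem hk) h) hk,
        fun h => mul_mem (mul_mem hk h) (inv_mem hk)⟩)
    (fun h => hNK fun n hn => (hD ⟨n, hn⟩).1 (h ▸ mem_top _))
    (fun E h1 h2 => (S2 (X E) (XN E) (fun n hn => (hX E ⟨n, hn.2⟩).2 (h1 ((hD ⟨n, hn.2⟩).2 hn.1)))
      (Xn E K fun k hk => h2 _ ⟨k, hk, rfl⟩)).imp (fun h => le_antisymm (fun x hx => by
        obtain ⟨n, rfl⟩ := e.surjective x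
        exact (hD n).2 (h.le ((hX E n).2 hx)).1) h1) (Xt E))
    (fun M h1 h2 => (hmin (X M) (normalizer_eq_top_iff.1 (eq_top_iff.2 (htop.ge.trans (sup_le
      (Xn M K fun k hk => h2 _ ⟨k, hk, rfl⟩) (Xn M N fun k hk x hx => by
        obtain ⟨n, rfl⟩ := e.surjective x
        have : MulAut.conjNormal k n = ⟨k, hk⟩ * n * (⟨k, hk⟩ : N)⁻¹ := Subtype.ext (by simp)
        rw [hφ, this, map_mul, map_mul, map_inv]
        exact h1.conj_mem _ hx _))))) (XN M)).imp (fun h => eq_bot_iff.2 fun x hx => by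
        obtain ⟨n, rfl⟩ := e.surjective x
        have : n = 1 := Subtype.ext (mem_bot.1 (h.le ((hX M n).2 hx)))
        simp [this]) (Xt M)) with ⟨L, a1, a2⟩ | ⟨ψ, k, c, a1, a2, a3⟩
  · exact ⟨T, _, m, e, hT, hab, hm, Or.inl ⟨L, a1, fun n => (hD n).symm.trans (a2 _)⟩⟩
  · exact ⟨T, _, m, e.trans (MulEquiv.piCongrRight ψ), hT, hab, hm, Or.inr ⟨k, c, a1, a2,
      fun n => (hD n).symm.trans (a3 _)⟩⟩

end Cfsg.Agent.S0723
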