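import Cfsg.Statements.S0772
import Cfsg.Agent.H5.Mx8

set_option autoImplicit false
open Cfsg

namespace Cfsg.Agent.S0772

open CfsgH5 CfsgH5.CForm CfsgH5.Mx CfsgH5.Au Module Matrix

/-- Maximal parabolics are maximal: over a finite field, for 0 < k < n the stabiliser in GL_n of the span of the first k coordinate vectors is a maximal proper subgroup. -/
theorem result {F : Type*} [Field F] [Finite F] (n k : ℕ) (hk0 : 0 < k) (hkn : k < n) : IsCoatom (Cfsg.stabilizing (Cfsg.glToMat (Fin n) F) {v : Fin n → F | ∀ i : Fin n, k ≤ (i : ℕ) → v i = 0}) := by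
  let W : Submodule F (Fin n → F) :=
    { carrier := {v | ∀ i : Fin n, k ≤ (i : ℕ) → v i = 0}
      add_mem' := fun ha hb i hi => by simp [ha i hi, hb i hi]
      zero_mem' := fun i _ => rfl
      smul_mem' := fun c v hv i hi => by simp [hv i hi] }
  have h0 : W ≠ ⊥ := fun e => by
    have : (Pi.single ⟨0, by omega⟩ 1 : Fin n → F) ∈ W := fun i hi => Pi.single_eq_of_ne (fun e => by
      rw [e] at hi; simp at hi; omega) _
    rw [e] at this
    simpa using congrFun this ⟨0, by omega⟩
  have h1 : W ≠ ⊤ := fun e => by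
    have : (fun _ => 1 : Fin n → F) ∈ W := e ▸ Submodule.mem_top
    simpa using this ⟨k, hkn⟩ le_rfl
  have h := (mi_sub h0 h1).comap ⟨gl_injective, gl_surjective⟩ (fun g => mem_SL) fun g _ => mem_subStab
  change IsCoatom (Geo.subspaceStabilizer W)
  refine ⟨fun e => h.1 (e ▸ le_top), fun K hK => eq_top_iff.2 fun g _ => ?_⟩
  have D : ∀ g : GL (Fin n) F, ∃ d ∈ Geo.subspaceStabilizer W, g * d⁻¹ ∈ Geo.specialLinear (Fin n) F := fun g => by
    have e : (diagonal (Function.update 1 (⟨k, hkn⟩ : Fin n) g.1.det)).det = g.1.det := by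
      simp [Finset.prod_update_of_mem]
    refine ⟨GeneralLinearGroup.mkOfDetNeZero (diagonal (Function.update 1 (⟨k, hkn⟩ : Fin n) g.1.det))
      (e.trans_ne g.det_ne_zero), mem_subStab.2 (mem_stabS_of_le fun w hw i hi => by
        simp [mulVec_diagonal, hw i hi]), ?_⟩
    rw [Geo.specialLinear, MonoidHom.mem_ker, map_mul, map_inv, mul_inv_eq_one]
    exact Units.ext e.symm
  obtain ⟨x, h2, h3⟩ := SetLike.exists_of_lt hK
  obtain ⟨d, h4, h5⟩ := D x
  obtain ⟨d', h6, h7⟩ := D g
  have := h.2 (K ⊓ _) (inf_le_inf_right _ hK.le) inf_le_right _ ⟨K.mul_mem h2 (K.inv_mem (hK.le h4)), h5⟩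
    (fun e => h3 (by simpa using mul_mem e h4)) h7
  simpa using mul_mem this.1 (hK.le h6)

end Cfsg.Agent.S0772
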