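import Cfsg.Statements.S0827
import Cfsg.Agent.H5.Unit2
import Cfsg.Agent.H2.MaxCl

set_option autoImplicit false
open Cfsg

namespace Cfsg.Agent.S0827

open CfsgH5 Matrix

theorem aux {G : Type*} [Group G] [Finite G] (c : Nat.card G = 72) {X Y A B : G} (k : Commute X Y) (x3 : X ^ 3 = 1)
    (y3 : Y ^ 3 = 1) (x1 : X ≠ 1) (y1 : Y ∉ Subgroup.zpowers X) (a4 : A ^ 4 = 1) (a2 : A ^ 2 ≠ 1) (b2 : B * B = A ^ 2)
    (ba : B * A * B⁻¹ = A⁻¹) (ax : A * X = Y * A) (ay : A * Y = X * X * A) (bx : B * X = X * Y * B)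
    (hy : B * Y = X * Y * Y * B) : ∃ (N : Subgroup G) (_ : N.Normal), Nat.card N = 9 ∧ (∀ x ∈ N, x ^ 3 = 1) ∧
      Nonempty (G ⧸ N ≃* QuaternionGroup 2) := by
  have t : ∀ i j : ℕ, (X ^ i * Y ^ j) ^ 3 = 1 := fun i j => by
    rw [(k.pow_pow i j).mul_pow, pow_right_comm, x3, pow_right_comm, y3]; simp
  let N : Subgroup G :=
    { carrier := {g | ∃ i j : ℕ, X ^ i * Y ^ j = g}
      one_mem' := ⟨0, 0, by simp⟩
      mul_mem' := by
        rintro _ _ ⟨i, j, rfl⟩ ⟨u, v, rfl⟩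
        exact ⟨i + u, j + v, by rw [pow_add, pow_add, (k.pow_pow u j).mul_mul_mul_comm]⟩
      inv_mem' := by
        rintro _ ⟨i, j, rfl⟩
        exact ⟨i * 2, j * 2, by rw [pow_mul, pow_mul, ← (k.pow_pow i j).mul_pow, eq_inv_iff_mul_eq_one, ← pow_succ, t]⟩ }
  have n3 : ∀ x ∈ N, x ^ 3 = 1 := by rintro _ ⟨i, j, rfl⟩; exact t i j
  have mx : X ∈ N := ⟨1, 0, by simp⟩
  have my : Y ∈ N := ⟨0, 1, by simp⟩
  have c9 : Nat.card N = 9 := by
    have : Fact (Nat.Prime 3) := ⟨by decide⟩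
    obtain ⟨n, h⟩ := IsPGroup.iff_card.1 (show IsPGroup 3 N from fun g => ⟨1, Subtype.ext (n3 _ g.2)⟩)
    have d := c ▸ h ▸ N.card_subgroup_dvd_card
    have l : Nat.card (Subgroup.zpowers X) < Nat.card N := Set.Finite.card_lt_card (Set.toFinite _)
      ⟨Subgroup.zpowers_le.2 mx, fun e => y1 (e my)⟩
    rw [Nat.card_zpowers, orderOf_eq_prime x3 x1, h] at l
    have : n < 3 := by_contra fun e => absurd ((pow_dvd_pow 3 (not_lt.1 e)).trans d) (by decide)
    interval_cases n <;> simp_all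
  have nm : ∀ g, g * X * g⁻¹ ∈ N → g * Y * g⁻¹ ∈ N → g ∈ Subgroup.normalizer (N : Set G) := fun g u v =>
    Subgroup.mem_normalizer_fintype (by
      rintro _ ⟨i, j, rfl⟩
      simpa only [conj_pow, conj_mul, SetLike.mem_coe] using mul_mem (pow_mem u i) (pow_mem v j))
  obtain ⟨f, fa, fb⟩ := CfsgH2.exists_quaternion_hom 2 B A a4 b2 ba
  have i : Function.Injective f := (injective_iff_map_eq_one _).2 fun g h => by_contra fun e => a2 (by
    have : ∀ g : QuaternionGroup 2, g ≠ 1 → g = .a (2 : ℤ) ∨ g * g = .a (2 : ℤ) := by decide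
    rw [← zpow_natCast, Nat.cast_ofNat, ← fa]
    rcases this g e with e | e <;> rw [← e] <;> simp [h])
  have ma := nm A (by simpa [ax]) (by simpa [ay] using mul_mem mx mx)
  have mb := nm B (by simpa [bx] using mul_mem mx my) (by simpa [hy] using mul_mem (mul_mem mx my) my)
  have r : f.range ≤ Subgroup.normalizer (N : Set G) := by
    rintro _ ⟨i | i, rfl⟩ <;> obtain ⟨i, rfl⟩ := ZMod.intCast_surjective i
    exacts [fa i ▸ zpow_mem ma i, fb i ▸ mul_mem mb (zpow_mem ma i)]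
  have q : Nat.card (QuaternionGroup 2) = 8 := by simp [QuaternionGroup.card]
  have : N.Normal := Subgroup.normalizer_eq_top_iff.1 (Subgroup.eq_top_of_le_card _ (c ▸ Nat.le_of_dvd Nat.card_pos
    (Nat.Coprime.mul_dvd_of_dvd_of_dvd (m := 8) (n := 9) (by decide)
      (q ▸ Nat.card_congr (MonoidHom.ofInjective i).toEquiv ▸ Subgroup.card_dvd_of_le r)
      (c9 ▸ Subgroup.card_dvd_of_le Subgroup.le_normalizer))))
  refine ⟨N, this, c9, n3, ⟨(MulEquiv.ofBijective ((QuotientGroup.mk' N).comp f) ((Nat.bijective_iff_injective_and_card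
    _).2 ⟨(injective_iff_map_eq_one _).2 fun g h => ?_, ?_⟩)).symm⟩⟩
  · exact (by decide : ∀ g : QuaternionGroup 2, g ^ 3 = 1 → g = 1) g
      (i (by simpa using n3 _ ((QuotientGroup.eq_one_iff _).1 h)))
  · have := N.card_eq_card_quotient_mul_card_subgroup
    rw [c9] at this
    omega

/-- U_3(2) ≅ 3².Q_8: PSU_3(2) (form over the field with 4 elements) has a normal subgroup N which is elementary abelian of order 9 such that the quotient by N is isomorphic to the quaternion group of order 8. -/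
theorem result {F : Type*} [Field F] [Fintype F] (hF : Fintype.card F = 4) : ∃ (N : Subgroup (Cfsg.PSU 3 F 2)) (_ : N.Normal), Nat.card N = 9 ∧ (∀ x ∈ N, x ^ 3 = 1) ∧ Nonempty (Cfsg.PSU 3 F 2 ⧸ N ≃* QuaternionGroup 2) := by
  classical
  have H := frobq_UF (q := 2) hF
  have c := card_PSU H (n := 3) (by omega)
  have h2 : (2 : F) = 0 := by
    have := FiniteField.cast_card_eq_zero F
    rw [hF] at this
    exact pow_eq_zero_iff two_ne_zero |>.1 (by rw [← this]; norm_num)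
  obtain ⟨w, -, k⟩ := Finset.exists_mem_notMem_of_card_lt_card (s := {(0 : F), 1}) (t := Finset.univ)
    (Finset.card_le_two.trans_lt (by simp [hF]))
  simp only [Finset.mem_insert, Finset.mem_singleton, not_or] at k
  have hw : w ^ 2 + w + 1 = 0 := mul_left_cancel₀ (sub_ne_zero.2 k.2) (by
    have := FiniteField.pow_card_sub_one_eq_one w k.1
    rw [hF] at this
    linear_combination this)
  have mk : ∀ A : Matrix (Fin 3) (Fin 3) F, A.det = 1 ∧ (∀ u v, hermForm 3 F 2 (A *ᵥ u) (A *ᵥ v) = hermForm 3 F 2 u v) →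
    ∃ g : SU 3 F 2, g.1.1 = A := fun A h => ⟨⟨⟨A, h.1⟩, h.2⟩, rfl⟩
  obtain ⟨x, hx⟩ := mk !![1, 0, 0; 0, w, 0; 0, 0, w ^ 2] (by
    simp [det_fin_three, hermForm, Fin.sum_univ_three, vecHead, vecTail]; grind)
  obtain ⟨y, hy⟩ := mk !![0, 1, 0; 0, 0, 1; 1, 0, 0] (by
    simp [det_fin_three, hermForm, Fin.sum_univ_three, vecHead, vecTail]; grind)
  obtain ⟨z, hz⟩ := mk !![w, 0, 0; 0, w, 0; 0, 0, w] (by
    simp [det_fin_three, hermForm, Fin.sum_univ_three, vecHead, vecTail]; grind)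
  obtain ⟨a, ha⟩ := mk !![1, 1, 1; 1, w, w ^ 2; 1, w ^ 2, w] (by
    simp [det_fin_three, hermForm, Fin.sum_univ_three, vecHead, vecTail]; grind)
  obtain ⟨b, hb⟩ := mk !![1, w ^ 2, w ^ 2; w, w, w ^ 2; w, w ^ 2, w] (by
    simp [det_fin_three, hermForm, Fin.sum_univ_three, vecHead, vecTail]; grind)
  have e : ∀ g h : SU 3 F 2, g = h ↔ ∀ i j, g.1.1 i j = h.1.1 i j := fun g h =>
    ⟨by rintro rfl; simp, fun k => Subtype.ext (Subtype.ext (Matrix.ext k))⟩
  let π := QuotientGroup.mk' (Subgroup.center (SU 3 F 2))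
  have z1 : π z = 1 := (QuotientGroup.eq_one_iff _).2 (Subgroup.mem_center_iff.2 fun g => by
    simp [e, hz, Fin.forall_fin_succ, mul_apply, Fin.sum_univ_three, mul_comm])
  have r : y * x = z * (x * y) ∧ x * x * x = 1 ∧ y * y * y = 1 ∧ a * a * a * a = 1 ∧ b * b = a * a ∧ a * b * a = b ∧
      a * x = y * a ∧ a * y = x * x * a ∧ b * x = z * z * (x * y * b) ∧ b * y = z * (x * y * y * b) ∧ x * y ≠ y * x ∧
      x * (a * a) ≠ a * a * x := by
    simp [e, hx, hy, hz, ha, hb, Fin.forall_fin_succ]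
    refine ⟨?_, ?_, ?_, ?_, ?_, ?_, ?_, ?_, ?_, ?_, ?_⟩ <;> grind
  obtain ⟨r1, r2, r3, r4, r5, r6, r7, r8, r9, r10, r11, r12⟩ := r
  have n : ∀ g, π g = 1 → ∀ h, h * g = g * h := fun g h => Subgroup.mem_center_iff.1 ((QuotientGroup.eq_one_iff _).1 h)
  refine aux (by rw [show uOrd 2 3 = 648 by decide, show Nat.gcd 3 (2 + 1) = 3 from rfl] at c; omega) (X := π x) (Y := π y) (A := π a) (B := π b)
    (by simpa [z1, Commute, SemiconjBy] using (congrArg π r1).symm) (by simpa [pow_succ] using congrArg π r2)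
    (by simpa [pow_succ] using congrArg π r3) (fun h => r11 (n _ h _).symm) (fun ⟨i, h⟩ => r11 ?_)
    (by simpa [pow_succ] using congrArg π r4) (fun h => r12 (n _ (by simpa [pow_two] using h) _))
    (by simpa [pow_two] using congrArg π r5) (by
      rw [mul_inv_eq_iff_eq_mul, eq_inv_mul_iff_mul_eq, ← mul_assoc]; simpa using congrArg π r6)
    (by simpa using congrArg π r7) (by simpa using congrArg π r8) (by simpa [z1] using congrArg π r9)
    (by simpa [z1] using congrArg π r10)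
  have : Commute x ((x ^ i)⁻¹ * y) := n _ (by simp [← h]) x
  simpa using ((Commute.self_zpow x i).mul_right this).eq

end Cfsg.Agent.S0827
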