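import Cfsg.Statements.S0876
import Mathlib
import Cfsg.Agent.H4.Reg

set_option autoImplicit false
open Cfsg

open Cfsg CfsgH3 CfsgH4 CfsgH1 Function
open scoped ComplexConjugate Pointwise

namespace Cfsg.Agent.S0876

/-- Let G be a finite group, p a prime and M a maximal ideal of the ring of algebraic integers containing p. Let x, y be elements with p-parts a and b (so a⁻¹ * x and b⁻¹ * y are their p-regular parts). Then a⁻¹ * x and b⁻¹ * y are conjugate in G if and only if, for every irreducible character χ, the difference χ x - χ y lies in the local ideal at M. -/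
theorem result {G : Type*} [Group G] [Finite G] (p : ℕ) (M : Ideal Cfsg.AlgInt) (hM : Cfsg.IsPModular p M) (x y a b : G) (ha : Cfsg.IsPPart p x a) (hb : Cfsg.IsPPart p y b) : IsConj (a⁻¹ * x) (b⁻¹ * y) ↔ ∀ χ : Cfsg.IrrCharacter G, Cfsg.MemLocalIdeal M ((χ : G → ℂ) x - (χ : G → ℂ) y) := by
  have : PMod p M := ⟨hM⟩
  have := Fact.mk hM.1
  obtain rfl := ha.eq_ppart
  obtain rfl := hb.eq_ppart
  have h1 : ∀ g : G, (ppart p g)⁻¹ * g = rpart p g := fun g =>
    inv_mul_eq_of_eq_mul (ppart_mul_rpart p g).symm
  rw [h1, h1]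
  refine ⟨fun h χ => InP.trans (char_mul_InP χ.2.isCharacter x) ?_, fun h => ?_⟩
  · rw [χ.2.isClassFunction.eq_of_isConj h]
    exact InP.symm (char_mul_InP χ.2.isCharacter y)
  · by_contra hc
    obtain ⟨c, h2, h3⟩ := cs_comp_rpart (M := M) loc_mul_LI (isClassFunction_classInd (rpart p x))
      fun g _ => ZI_le_LI (isIntegral_classInd _ g)
    have h4 := InP.sum Finset.univ _ fun χ _ => InP.mul_left (h2 χ) (h χ)
    have a := congrFun h3 x
    have b := congrFun h3 y
    simp only [Finset.sum_apply, Pi.smul_apply, smul_eq_mul] at a b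
    simp only [mul_sub, Finset.sum_sub_distrib, ← a, ← b, classInd_of_isConj (IsConj.refl _),
      classInd_of_not_isConj hc, sub_zero] at h4
    exact not_InP_one h4

end Cfsg.Agent.S0876
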