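import Cfsg.Statements.S0975
import Cfsg.Agent.H3.Hv1
import Cfsg.Agent.H3.Sm1

set_option autoImplicit false
open Cfsg

namespace Cfsg.Agent.S0975
open CfsgSm CfsgH4

/-- No finite simple group has order 3744 = 2^5 * 3^2 * 13. -/
theorem result {G : Type*} [Group G] [Finite G] [IsSimpleGroup G] : Nat.card G ≠ 3744 := by
  intro h
  haveI : Fact (Nat.Prime 13) := ⟨by norm_num⟩
  have hG := nc (G := G) (by rw [h]; norm_num)
  obtain ⟨M, _, u, e, X, y, ε, δ, n, H, h1, hC, h2, h3, h4, h5, h6⟩ := setup3 (p := 13) (a := 5) (b := 2)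
    hG Nat.prime_two Nat.prime_three (by rw [h]; norm_num) (by norm_num)
  have := Nat.le_of_dvd (by norm_num) h4
  have he : e = 2 := by interval_cases e <;> omega
  obtain ⟨d, f, s, a1, a2, a3, a4, a5, -, a6, -⟩ := two hG H he
  rw [h1, show n = 144 by subst he; omega] at a3 a4
  have : d < 62 := by rw [h] at a5; nlinarith
  rcases a6 with ⟨-, rfl, a⟩ | ⟨-, rfl, a⟩
  · interval_cases d <;> omega
  · have : f < 61 := by omega
    interval_cases f <;> omega


end Cfsg.Agent.S0975
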