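import Cfsg.Statements.S0978
import Mathlib
import Cfsg.Agent.H9.Kil

set_option autoImplicit false
open Cfsg

namespace Cfsg.Agent.S0978

/-- No finite simple group has order 5040 = 2^4 * 3^2 * 5 * 7. -/
theorem result {G : Type*} [Group G] [Finite G] [IsSimpleGroup G] : Nat.card G ≠ 5040 := by
  open Subgroup Cfsg CfsgH2 Function in
  open scoped commutatorElement in
  intro h
  haveI : Fact (Nat.Prime 5) := ⟨by norm_num⟩
  exact CfsgKil.kill (G := G) (p := 5) (m := 1008) h (by norm_num) (by norm_num)
    (by set_option maxRecDepth 100000 in decide +kernel)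

end Cfsg.Agent.S0978
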