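import Cfsg.Statements.S0980
import Cfsg.Agent.H3.Hv1
import Cfsg.Agent.H3.Sm1

set_option autoImplicit false
open Cfsg

namespace Cfsg.Agent.S0980
open CfsgSm CfsgH4

/-- No finite simple group has order 5760 = 2^7 * 3^2 * 5. -/
theorem result {G : Type*} [Group G] [Finite G] [IsSimpleGroup G] : Nat.card G ≠ 5760 := by
  intro h
  haveI : Fact (Nat.Prime 5) := ⟨by norm_num⟩
  have hG := nc (G := G) (by rw [h]; norm_num)
  obtain ⟨M, _, u, e, X, y, ε, δ, n, H, h1, hC, h2, h3, h4, h5, h6⟩ := setup3 (p := 5) (a := 7) (b := 2)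
    hG Nat.prime_two Nat.prime_three (by rw [h]; norm_num) (by norm_num)
  have := Nat.le_of_dvd (by norm_num) h4
  have he : e = 2 := by interval_cases e <;> omega
  obtain ⟨d, f, s, a1, a2, a3, a4, a5, -, a6, a7⟩ := two hG H he
  rw [h1, show n = 576 by subst he; omega] at a3 a4
  have : d < 76 := by rw [h] at a5; nlinarith
  obtain ⟨w, w1, c, w2⟩ := exists_two_central (G := G) (k := 6) (by rw [h]; norm_num)
  obtain ⟨K, t0, b1, b2, b3⟩ := a7 hC w w1
  rw [w2, h] at b3
  rcases a6 with ⟨-, rfl, a⟩ | ⟨rfl, rfl, a⟩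
  · interval_cases d <;> omega
  · have : f < 75 := by omega
    obtain ⟨b4, b5⟩ := abs_lt.1 b1
    obtain ⟨b6, b7⟩ := abs_lt.1 b2
    push_cast at b3 b4 b5
    have e : (K : ℤ) * (128 * c) ^ 2 * (f + 1) * f = 16384 * ((K * c ^ 2) * ((f + 1) * f)) := by ring
    rw [e] at b3
    generalize (K * c ^ 2 : ℤ) = t at b3
    obtain rfl | rfl : f = 3 ∨ f = 8 := by interval_cases f <;> omega
    all_goals push_cast at *; interval_cases t0 <;> omega


end Cfsg.Agent.S0980
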