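import Cfsg.Statements.S0981
import Cfsg.Agent.H3.Hv1
import Cfsg.Agent.H3.Sm1

set_option autoImplicit false
open Cfsg

namespace Cfsg.Agent.S0981
open CfsgSm CfsgH4

/-- A simple group of order 4080 is isomorphic to the projective special linear group of dimension 2 over the field with 16 elements. -/
theorem result {G : Type*} [Group G] [Finite G] [IsSimpleGroup G] (h : Nat.card G = 4080) {F : Type*} [Field F] [Fintype F] (hF : Fintype.card F = 16) : Nonempty (G ≃* Matrix.ProjectiveSpecialLinearGroup (Fin 2) F) := by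
  haveI : Fact (Nat.Prime 17) := ⟨by norm_num⟩
  obtain ⟨-, ⟨a, -⟩ | ⟨-, m, K, _, _, a, b, ⟨f⟩, -⟩⟩ := brc_small (G := G) (p := 17) (nc (by rw [h]; norm_num))
    (by rw [h]; norm_num) (by rw [h]; norm_num)
  · rw [h] at a; norm_num at a
  · obtain ⟨g⟩ := CfsgH8.psl_congr (ι := Fin 2) (F := K) (F' := F) (by omega)
    exact ⟨f.trans g⟩


end Cfsg.Agent.S0981
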