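import Cfsg.Statements.S0982
import Cfsg.Agent.H3.Hv1
import Cfsg.Agent.H3.Sm1

set_option autoImplicit false
open Cfsg

namespace Cfsg.Agent.S0982
open CfsgSm CfsgH4

/-- A simple group of order 6072 is isomorphic to the projective special linear group of dimension 2 over the field with 23 elements. -/
theorem result {G : Type*} [Group G] [Finite G] [IsSimpleGroup G] (h : Nat.card G = 6072) {F : Type*} [Field F] [Fintype F] (hF : Fintype.card F = 23) : Nonempty (G ≃* Matrix.ProjectiveSpecialLinearGroup (Fin 2) F) := by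
  haveI : Fact (Nat.Prime 23) := ⟨by norm_num⟩
  obtain ⟨-, ⟨-, a⟩ | ⟨a, -⟩⟩ := brc_small (G := G) (p := 23) (nc (by rw [h]; norm_num)) (by rw [h]; norm_num)
    (by rw [h]; norm_num)
  · obtain ⟨f⟩ := a (ZMod 23) (ZMod.card _)
    obtain ⟨g⟩ := CfsgH8.psl_congr (ι := Fin 2) ((ZMod.card 23).trans hF.symm)
    exact ⟨f.trans g⟩
  · rw [h] at a; norm_num at a


end Cfsg.Agent.S0982
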