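import Cfsg.Statements.S0983
import Mathlib
import Cfsg.Agent.H9.Kil4
import Cfsg.Agent.S0976
import Cfsg.Agent.S0980

set_option autoImplicit false
open Cfsg

namespace Cfsg.Agent.S0983

/-- A non-abelian finite simple group of order greater than 3640 and at most 6232 has order 4080, 5616, 6048 or 6072. -/
theorem result {G : Type*} [Group G] [Finite G] [IsSimpleGroup G] (hG : ¬ IsMulCommutative G) (h1 : 3640 < Nat.card G) (h2 : Nat.card G ≤ 6232) : Nat.card G = 4080 ∨ Nat.card G = 5616 ∨ Nat.card G = 6048 ∨ Nat.card G = 6072 := by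
  open Subgroup Cfsg CfsgH2 Function in
  open scoped commutatorElement in
  have hG' : ¬ ∀ a b : G, a * b = b * a := fun h => hG ⟨⟨h⟩⟩
  obtain ⟨c, hc⟩ := CfsgKil.exists_ok h1 h2
  have h := hc.mem hG'
  have a1 := Cfsg.Agent.S0976.result (G := G)
  have a2 := Cfsg.Agent.S0980.result (G := G)
  have a3 := CfsgKil.ne4320 hG'
  have a4 := CfsgKil.ne4620 hG'
  have a5 := CfsgKil.ne5400 hG'
  have a6 := CfsgKil.ne5460 hG'
  have a7 : Nat.card G ≠ 5184 := fun e => CfsgH1.Sm.not_two hG' (a := 6) (b := 4) Nat.prime_two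
    Nat.prime_three (by rw [e]; norm_num)
  simp only [CfsgKil.exL, List.mem_cons, List.not_mem_nil, or_false] at h
  omega

end Cfsg.Agent.S0983
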