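import Cfsg.Statements.S1137
import Cfsg.Agent.H3.Hig3

set_option autoImplicit false
open Cfsg

namespace Cfsg.Agent.S1137
open CfsgH3

/-- In a Suzuki 2-group `P` (a finite non-abelian 2-group with more than one involution admitting a cyclic group of automorphisms regular on its involutions) the involutions are exactly the non-identity central elements, and `Z(P)` is elementary abelian. -/
theorem result {P : Type*} [Group P] (hP : Cfsg.IsSuzukiTwoGroup P) :
    (∀ x : P, (x ≠ 1 ∧ x * x = 1) ↔ (x ∈ Subgroup.center P ∧ x ≠ 1)) ∧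
      ∀ z ∈ Subgroup.center P, z * z = 1 := by
  obtain ⟨X, _, _, i, K, hi, h, hn⟩ := CfsgRO.exists_sz hP
  obtain ⟨E, h⟩ := h.exists_E
  have key : ∀ x : P, x * x = 1 ↔ x ∈ Subgroup.center P := by
    intro x
    have h1 := h.mem (i x)
    rw [← h.center_eq hn, Subgroup.mem_inf, CfsgH2.mem_cent_iff] at h1
    rw [Subgroup.mem_center_iff]
    constructor
    · intro e g
      exact hi (by rw [map_mul, map_mul]; exact (h1.2 ⟨⟨x, rfl⟩, by rw [← map_mul, e, map_one]⟩).2 _ ⟨g, rfl⟩)
    · intro e
      refine hi ?_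
      rw [map_mul, map_one]
      refine (h1.1 ⟨⟨x, rfl⟩, ?_⟩).2
      rintro _ ⟨g, rfl⟩
      rw [← map_mul, e, map_mul]
  exact ⟨fun x => by rw [key, and_comm], fun z hz => (key z).2 hz⟩


end Cfsg.Agent.S1137
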