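import Cfsg.Statements.S1138
import Cfsg.Agent.H3.Hig3

set_option autoImplicit false
open Cfsg

namespace Cfsg.Agent.S1138
open CfsgH3

/-- Let `P` be a Suzuki 2-group with `|Z(P)| = q`. Then every square lies in `Z(P)` and `P/Z(P)` is abelian (so elementary abelian), `|P| = q²` or `|P| = q³`, and `P` has exponent 4. -/
theorem result {P : Type*} [Group P] (hP : Cfsg.IsSuzukiTwoGroup P) :
    (∀ x : P, x * x ∈ Subgroup.center P) ∧ (∀ x y : P, x⁻¹ * y⁻¹ * x * y ∈ Subgroup.center P) ∧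
      (Nat.card P = Nat.card (Subgroup.center P) ^ 2 ∨ Nat.card P = Nat.card (Subgroup.center P) ^ 3) ∧
      Monoid.exponent P = 4 := by
  obtain ⟨X, _, _, i, K, hi, h, hn⟩ := CfsgRO.exists_sz hP
  obtain ⟨E, h⟩ := h.exists_E
  have key : (Subgroup.center P).map i = E := by
    rw [← h.center_eq hn]
    ext x
    constructor
    · rintro ⟨z, hz, rfl⟩
      refine ⟨⟨z, rfl⟩, ?_⟩
      rintro _ ⟨g, rfl⟩
      rw [← map_mul, Subgroup.mem_center_iff.1 hz g, map_mul]
    · rintro ⟨⟨z, rfl⟩, hz⟩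
      exact ⟨z, Subgroup.mem_center_iff.2 fun g => hi (by rw [map_mul, map_mul]; exact hz _ ⟨g, rfl⟩), rfl⟩
  have mem : ∀ x : P, i x ∈ E → x ∈ Subgroup.center P := fun x hx => by
    rw [← key] at hx
    obtain ⟨z, hz, e⟩ := hx
    exact hi e ▸ hz
  have sq : ∀ x : P, i (x * x) ∈ E := fun x => by rw [map_mul]; exact h.sq_mem hn ⟨x, rfl⟩
  refine ⟨fun x => mem _ (sq x), fun x y => mem _ ?_, ?_, ?_⟩
  · have := h.cm_mem_E hn (x := i x⁻¹) (y := i y⁻¹) ⟨_, rfl⟩ ⟨_, rfl⟩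
    rw [← map_commutatorElement, commutatorElement_def, inv_inv, inv_inv] at this
    exact this
  · have := h.card_cases hn
    rwa [← key, Subgroup.card_map_of_injective hi, ← Nat.card_congr (MonoidHom.ofInjective hi).toEquiv] at this
  · have h4 : Monoid.exponent P ∣ 2 ^ 2 := Monoid.exponent_dvd_of_forall_pow_eq_one fun x => hi (by
      rw [show x ^ 2 ^ 2 = (x * x) * (x * x) by norm_num [pow_succ, mul_assoc], map_mul, h.sq (sq x), map_one])
    obtain ⟨k, hk, e⟩ := (Nat.dvd_prime_pow Nat.prime_two).1 h4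
    have : ¬ Monoid.exponent P ∣ 2 := fun hd => hn (CfsgH2.isMulComm_iff.2 (by
      rintro _ ⟨a, rfl⟩ _ ⟨b, rfl⟩
      have := Monoid.exponent_dvd_iff_forall_pow_eq_one.1 hd
      refine commutatorElement_eq_one_iff_mul_comm.1 (Subgroup.mem_bot.1 (CfsgRO.comm_mem_of_sq (X := i.range) ?_ ⟨a, rfl⟩ ⟨b, rfl⟩))
      rintro _ ⟨c, rfl⟩
      rw [← map_mul, ← pow_two, this, map_one]; exact one_mem _))
    rw [e] at this ⊢
    interval_cases k <;> simp_all


end Cfsg.Agent.S1138
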