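import Cfsg.Statements.S1153
import Cfsg.Agent.H6.Ree5

set_option autoImplicit false
open Cfsg

namespace Cfsg.Agent.S1153

open CfsgH6 CfsgH2 Subgroup MulAction

theorem mem_stab {R : Type*} [Group R] {B : Subgroup R} {g s : R} : s ∈ stabilizer R (g : R ⧸ B) ↔ g⁻¹ * s * g ∈ B := by
  rw [mem_stabilizer_iff, eq_comm, Quotient.smul_coe, QuotientGroup.eq, smul_eq_mul, mul_assoc]

theorem aux {R : Type*} [Group R] {K : Type*} [Field K] [Fintype K] {m : ℕ} (X : Ree R K m) (x y z : R ⧸ X.B)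
    (h1 : x ≠ y) (h2 : x ≠ z) (h3 : y ≠ z) : Nat.card ↥(stabilizer R x ⊓ stabilizer R y ⊓ stabilizer R z) ≤ 2 := by
  haveI := X.finite
  induction x using QuotientGroup.induction_on with | H x =>
  induction y using QuotientGroup.induction_on with | H y =>
  induction z using QuotientGroup.induction_on with | H z =>
  rw [Ne, QuotientGroup.eq] at h1 h2 h3
  obtain ⟨u, hu, b, hb, e⟩ := (X.bru' _).resolve_left h1
  have hu' := X.U_le_B hu
  obtain ⟨v, hv, c, hc, e'⟩ := (X.bru' (u⁻¹ * (x⁻¹ * z))).resolve_left fun h => h2 ((mul_mem_cancel_left (inv_mem hu')).1 h)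
  obtain rfl : y = x * (u * X.n * b) := by rw [← e, mul_inv_cancel_left]
  obtain rfl : z = x * (u * (v * X.n * c)) := by rw [← e']; group
  have h4 : v ≠ 1 := by
    rintro rfl
    exact h3 (by convert mul_mem (inv_mem hb) hc using 1; group)
  refine (card_le_of_le (K := (zpowers X.z).map (cj (x * u))) fun s hs => mem_map_cj.2 ?_).trans
    (by rw [card_map_cj, Nat.card_zpowers, X.order_z])
  simp only [mem_inf, mem_stab] at hs
  obtain ⟨a, ha⟩ := X.mem_H (b := (x * u)⁻¹ * s * (x * u)) (by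
    convert mul_mem (mul_mem (inv_mem hu') hs.1.1) hu' using 1; group) (by
    convert mul_mem (mul_mem hb hs.1.2) (inv_mem hb) using 1; rw [X.n_inv]; nth_rw 1 [← X.n_inv]; group)
  have h5 := X.n_U (mul_mem (inv_mem hv) (X.h_conj a hv)) (by
    convert mul_mem (mul_mem (mul_mem hc hs.2) (inv_mem hc)) (X.h_mem a⁻¹⁻¹) using 1
    rw [← X.n_h', map_inv, ← ha, X.n_inv]; nth_rw 1 [← X.n_inv]; nth_rw 5 [← X.n_inv]; group)
  rcases X.comm_B (one_mem _) (a := a) hv h4 (by rw [one_mul, ← mul_inv_eq_iff_eq_mul, ← inv_mul_eq_one.1 h5])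
    with rfl | rfl
  · rw [ha, map_one]; exact one_mem _
  · rw [ha]; exact mem_zpowers _

/-- In the small Ree group ²G₂(q), q = 3^(2m+1), realised as G¹ inside the Chevalley group G₂ over the field with q elements, with `B¹ = G¹ ∩ B`: in the action of `G¹` on the cosets of `B¹`, the joint stabiliser of any three distinct cosets has order at most 2, and for some three distinct cosets it has order exactly 2. -/
theorem result {K : Type*} [Field K] [Fintype K] {m : ℕ} (hK : Fintype.card K = 3 ^ (2 * m + 1)) :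
    (∀ x y z : ↥(Cfsg.Lie.twistedG2 K (3 ^ m)) ⧸ ((Cfsg.Lie.chevG2.borelSubgroup K ⊓ Cfsg.Lie.twistedG2 K (3 ^ m))).subgroupOf (Cfsg.Lie.twistedG2 K (3 ^ m)), x ≠ y → x ≠ z → y ≠ z →
        Nat.card ↥(MulAction.stabilizer ↥(Cfsg.Lie.twistedG2 K (3 ^ m)) x ⊓ MulAction.stabilizer ↥(Cfsg.Lie.twistedG2 K (3 ^ m)) y ⊓ MulAction.stabilizer ↥(Cfsg.Lie.twistedG2 K (3 ^ m)) z) ≤ 2) ∧
      ∃ x y z : ↥(Cfsg.Lie.twistedG2 K (3 ^ m)) ⧸ ((Cfsg.Lie.chevG2.borelSubgroup K ⊓ Cfsg.Lie.twistedG2 K (3 ^ m))).subgroupOf (Cfsg.Lie.twistedG2 K (3 ^ m)), x ≠ y ∧ x ≠ z ∧ y ≠ z ∧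
        Nat.card ↥(MulAction.stabilizer ↥(Cfsg.Lie.twistedG2 K (3 ^ m)) x ⊓ MulAction.stabilizer ↥(Cfsg.Lie.twistedG2 K (3 ^ m)) y ⊓ MulAction.stabilizer ↥(Cfsg.Lie.twistedG2 K (3 ^ m)) z) = 2 := by
  obtain ⟨X, -, -, h⟩ := exists_ree' hK
  haveI := X.finite
  rw [show (Cfsg.Lie.chevG2.borelSubgroup K ⊓ Cfsg.Lie.twistedG2 K (3 ^ m)).subgroupOf (Cfsg.Lie.twistedG2 K (3 ^ m)) = X.B
    from Subgroup.ext fun g => by rw [← h, mem_subgroupOf, mem_inf, and_iff_left g.2]]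
  have h0 := X.U_le_B (X.w_mem 0 1 0)
  have h1 : ((1 : Cfsg.Lie.twistedG2 K (3 ^ m)) : _ ⧸ X.B) ≠ X.n := by simpa [QuotientGroup.eq] using X.n_notMem
  have h2 : ((1 : Cfsg.Lie.twistedG2 K (3 ^ m)) : _ ⧸ X.B) ≠ (X.w 0 1 0 * X.n :) := by
    simpa [QuotientGroup.eq, mul_mem_cancel_left h0] using X.n_notMem
  have h3 : ((X.n : Cfsg.Lie.twistedG2 K (3 ^ m)) : _ ⧸ X.B) ≠ (X.w 0 1 0 * X.n :) := fun e =>
    X.w_ne (X.n_U (X.w_mem ..) (by simpa [X.n_inv, mul_assoc] using QuotientGroup.eq.1 e))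
  refine ⟨aux X, _, _, _, h1, h2, h3, le_antisymm (aux X _ _ _ h1 h2 h3) ((one_lt_card_iff_ne_bot _).2 fun e => X.z_ne
    (mem_bot.1 (e ▸ ?_)))⟩
  have h4 := mem_centralizer_singleton_iff.1 X.n_z
  have h5 : X.z * X.w 0 1 0 = X.w 0 1 0 * X.z := by rw [← mul_inv_eq_iff_eq_mul, X.z_w, neg_zero]
  simp only [mem_inf, mem_stab, mul_assoc, ← h4, inv_mul_cancel_left, ← mul_assoc X.z, h5, inv_one, one_mul, mul_one,
    and_self, mul_inv_rev]
  exact X.h_mem _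

end Cfsg.Agent.S1153
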