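import Cfsg.Statements.S1225
import Mathlib
import Cfsg.Agent.L0.StrEmb

set_option autoImplicit false
open Cfsg

namespace Cfsg.Agent.S1225

/-- Let H be a strongly embedded subgroup of the finite group G, u an involution outside H and D = H ∩ uHu⁻¹. Then any two involutions of H are conjugate by an element of D, and any two involutions of G are conjugate in G. -/
theorem result {G : Type*} [Group G] [Finite G] (H : Subgroup G) (hH : Cfsg.IsStronglyEmbedded H) (u : G) (hu : orderOf u = 2) (huH : u ∉ H) (s t : G) (hs : orderOf s = 2) (hsH : s ∈ H) (ht : orderOf t = 2) (htH : t ∈ H) : (∃ d ∈ (H ⊓ H.map (MulAut.conj u).toMonoidHom), d * s * d⁻¹ = t) ∧ ∀ a b : G, orderOf a = 2 → orderOf b = 2 → IsConj a b := by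
  refine ⟨?_, fun a b ha hb => CfsgL0.se_isConj hH ha hb⟩
  have hu1 := CfsgL0.inv_inv_eq hu
  have h1 : u * t * u⁻¹ ∉ H := fun h => huH (CfsgL0.se_mem hH htH ht h)
  have h2 : orderOf (u * t * u⁻¹) = 2 := by rw [CfsgL0.orderOf_conj, ht]
  obtain ⟨v, hv, hvs, -⟩ := CfsgL0.exists_invol_conj_of_odd hs h2 (CfsgL0.se_odd hH hsH hs h1 h2)
  have e : u⁻¹ * v * s * (u⁻¹ * v)⁻¹ = t := by
    calc u⁻¹ * v * s * (u⁻¹ * v)⁻¹ = u⁻¹ * (v * s * v⁻¹) * u := by group
      _ = t := by rw [hvs]; group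
  have h3 : u⁻¹ * v ∈ H := CfsgL0.se_mem hH hsH hs (e ▸ htH)
  refine ⟨u⁻¹ * v, ⟨h3, CfsgL0.mem_cj.2 ?_⟩, e⟩
  have := H.inv_mem h3
  rw [mul_inv_rev, CfsgL0.inv_inv_eq hv, inv_inv] at this
  rw [hu1, ← mul_assoc, CfsgL0.inv_mul_self hu, one_mul]; exact this

end Cfsg.Agent.S1225
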