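import Cfsg.Statements.S1236
import Cfsg.Agent.H1.Misc1
import Cfsg.Agent.H9.Tech2
import Cfsg.Agent.H1.LX
import Cfsg.Agent.L0.MC2

set_option autoImplicit false
open Cfsg

namespace Cfsg.Agent.S1236

/-- Let R be a finite group, t a central involution of R such that R ⧸ ⟨t⟩ is dihedral (of order ≥ 4) or quasi-dihedral, and A ≤ R an elementary abelian subgroup of order 8 containing t. Then C_R(A) = A. -/
theorem result {R : Type*} [Group R] [Finite R] (t : R) (ht : orderOf t = 2) (htz : t ∈ Subgroup.center R) [(Subgroup.zpowers t).Normal] (hq : (∃ m : ℕ, 2 ≤ m ∧ Nonempty (R ⧸ Subgroup.zpowers t ≃* DihedralGroup m)) ∨ Cfsg.IsQuasiDihedral (R ⧸ Subgroup.zpowers t)) (A : Subgroup R) (hA : Cfsg.IsElementaryAbelian 2 A) (hA8 : Nat.card A = 8) (htA : t ∈ A) : Subgroup.centralizer (A : Set R) = A := by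
  open Subgroup CfsgH2 in
  open CfsgH1 hiding card_inf_mul_relIndex card_lt_of_lt card_lt_of_ne_top card_map_mul_card_inf_ker card_mul_relIndex card_subgroupOf card_sup_dvd card_sup_mul_card_inf coprime_le_sup_cent exists_card_prime_le isNilpotent_map isNilpotent_of_le isPGroup_pCore isSolvable_map isSolvable_of_le le_pCore le_pPrimeCore relIndex_map_dvd in
  open scoped CfsgH1 in
  open CfsgL0 hiding DH Gr HX Tr alperin cj cj_injective comm_zpowers_le conj_mem_of_mem_normalizer conj_mem_of_mem_normalizer' involves_iff isPGroup_of_forall isPGroup_zpowers isPGroup_zpowers_of_orderOf mem_normalizer_of_conj_mem mem_pre pre_le sec_sub in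
  open scoped CfsgL0 in
  open scoped commutatorElement in
  · have tA := zpowers_le.2 htA
    have k : K4 (A.map (QuotientGroup.mk' (zpowers t))) := ⟨by
      have := CfsgH2.card_map_mul_card_inf_ker (QuotientGroup.mk' (zpowers t)) A
      rw [QuotientGroup.ker_mk', inf_eq_right.2 tA, Nat.card_zpowers, ht, hA8] at this
      omega, by rintro _ ⟨x, hx, rfl⟩; rw [← map_mul, ← pow_two, hA.2 x hx, map_one]⟩
    have key : C[A.map (QuotientGroup.mk' (zpowers t))] ≤ A.map (QuotientGroup.mk' (zpowers t)) := by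
      generalize A.map (QuotientGroup.mk' (zpowers t)) = V at k
      rcases hq with ⟨m, hm, ⟨e⟩⟩ | hq
      · obtain ⟨r, -, -, i, -, h⟩ := CfsgHv.dihedral_amb (S := ⊤) (by omega) (topEquiv.trans e)
        have c2 : ∀ U ≤ zpowers r, (∀ x ∈ U, x * x = 1) → Nat.card U ≤ 2 := fun U l h => by
          obtain ⟨x, rfl⟩ := isCyclic_iff_zpowers.1 (isCyclic_of_le l)
          rw [Nat.card_zpowers]
          exact Nat.le_of_dvd two_pos (orderOf_dvd_of_pow_eq_one (pow_two x ▸ h x (mem_zpowers x)))
        obtain ⟨s, hs, ns⟩ := SetLike.not_le_iff_exists.1 fun l : V ≤ zpowers r => absurd (k.1 ▸ c2 V l k.2 : 4 ≤ 2) (by decide)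
        have l : V ≤ C1[s] := fun x hx => mem_centralizer_singleton_iff.2 (mem_cent_iff.1 (le_cent_self (CfsgH9.ea_of_sq fun x hx => pow_two x ▸ k.2 x hx).1 hs) x hx)
        refine le_trans (fun x hx => mem_centralizer_singleton_iff.2 (mem_cent_iff.1 hx s hs).symm) (eq_of_le_of_card_le l ?_).ge
        rw [k.1, ← card_inf_mul_relIndex (zpowers r) C1[s]]
        refine Nat.mul_le_mul (c2 _ inf_le_left fun x hx => ?_) ((relIndex_le_of_le_right le_top (i ▸ two_ne_zero)).trans i.le)
        obtain ⟨⟨j, hj⟩, hx⟩ := hx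
        have : s * x * s⁻¹ = x⁻¹ := by rw [← hj, ← conj_zpow, (h s (mem_top s) ns).2, inv_zpow]
        rw [← mem_centralizer_singleton_iff.1 hx, mul_inv_cancel_right] at this
        exact mul_eq_one_iff_eq_inv.2 this
      · obtain ⟨a, b, m, h⟩ := sd_of hq
        exact le_inf le_top le_rfl |>.trans (mc_k4_cent h.toMC k le_top).le
    refine le_antisymm (fun x hx => ?_) (le_cent_self hA.1)
    have := key (x := QuotientGroup.mk' _ x) (mem_cent_iff.2 (by rintro _ ⟨y, hy, rfl⟩; rw [← map_mul, ← map_mul, mem_cent_iff.1 hx y hy]))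
    rwa [← mem_comap, comap_map_eq_self (by rwa [QuotientGroup.ker_mk'])] at this

end Cfsg.Agent.S1236
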