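import Cfsg.Statements.S1241
import Mathlib
import Cfsg.Agent.L0.Chn2
import Cfsg.Agent.H2.Misc

set_option autoImplicit false
open Cfsg

namespace Cfsg.Agent.S1241

open Cfsg Subgroup CfsgH2 CfsgL0

/-- Let G be a finite group, p a prime, H a subgroup of index prime to p, K a subgroup of H normal in H with H/K commutative, and g ∈ H ∖ K an element of p-power order such that for all integers m and all a ∈ G with a g^m a⁻¹ ∈ H one has a g^m a⁻¹ ∈ g^m K. Then g ∉ G'. -/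
theorem result {G : Type*} [Group G] [Finite G] {p : ℕ} [Fact p.Prime] (H K : Subgroup G) (hHK : K ≤ H) (hKn : (K.subgroupOf H).Normal) (hab : ∀ x ∈ H, ∀ y ∈ H, x * y * x⁻¹ * y⁻¹ ∈ K) (hidx : Nat.Coprime p H.index) (g : G) (hgH : g ∈ H) (hgK : g ∉ K) (hgp : ∃ k : ℕ, orderOf g = p ^ k) (hctrl : ∀ (m : ℤ) (a : G), a * g ^ m * a⁻¹ ∈ H → (a * g ^ m * a⁻¹) * (g ^ m)⁻¹ ∈ K) : g ∉ commutator G := by
  obtain ⟨A, _, χ, -, c⟩ := exists_abq (S := H) (R := K) (commutator_le.2 hab)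
  obtain ⟨k, hk⟩ := hgp
  intro h
  have h1 := transfer_eq_pow' χ g (χ ⟨g, hgH⟩) fun n a ha => by
    have := hctrl n a⁻¹ (by simpa using ha)
    rw [inv_inv, zpow_natCast, ← c _ (mul_mem ha (inv_mem (pow_mem hgH n))), (homOn_ex χ).mul ha (inv_mem (pow_mem hgH n)),
      (homOn_ex χ).inv (pow_mem hgH n), (homOn_ex χ).pow hgH, mul_inv_eq_one, ex_apply _ ha, ex_apply _ hgH] at this
    exact this
  rw [Abelianization.commutator_subset_ker _ h] at h1
  refine hgK ((c g hgH).1 ((ex_apply _ hgH).trans (orderOf_eq_one_iff.1 (Nat.Coprime.eq_one_of_dvd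
    ((hidx.pow_left k).coprime_dvd_left ?_) (orderOf_dvd_of_pow_eq_one h1.symm)))))
  rw [← hk, ← Subgroup.orderOf_mk g hgH]
  exact orderOf_map_dvd _ _

end Cfsg.Agent.S1241
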