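import Cfsg.Statements.S1242
import Mathlib
import Cfsg.Agent.L0.Chn2
import Cfsg.Agent.H2.Frob

set_option autoImplicit false
open Cfsg

namespace Cfsg.Agent.S1242

open Cfsg Subgroup CfsgH2 CfsgL0

/-- Let G be a finite group, p a prime and H a subgroup of index prime to p such that any two elements of H of p-power order that are conjugate in G are conjugate in H. Then (O^p(G)·G') ∩ H = O^p(H)·H', where O^p denotes the subgroup generated by the elements of order prime to p. -/
theorem result {G : Type*} [Group G] [Finite G] {p : ℕ} [Fact p.Prime] (H : Subgroup G) (hidx : Nat.Coprime p H.index) (hfus : ∀ g ∈ H, (∃ k : ℕ, orderOf g = p ^ k) → ∀ a : G, a * g * a⁻¹ ∈ H → ∃ h ∈ H, h * g * h⁻¹ = a * g * a⁻¹) : (Cfsg.pResidual p G ⊔ commutator G) ⊓ H = (Cfsg.pResidual p ↥H ⊔ commutator ↥H).map H.subtype := by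
  have hp : p.Prime := Fact.out
  rw [Subgroup.map_sup, map_pResidual, pResidual_eq, commutator_def, commutator_def, map_commutator,
    ← MonoidHom.range_eq_map, range_subtype]
  obtain ⟨S, hS⟩ := exists_syl p H
  have hS' := hS.trans le_top (by rw [relIndex_top_right]; exact hp.coprime_iff_not_dvd.1 hidx)
  have h1 := hS'.focal_eq_of_fusion le_top (fun x hx u _ hu => hfus x (hS.le hx) (pgroup_mem_order hS.pg hx) u (hS.le hu)) hS.le
  have n1 : H ≤ N[piRes {p} H ⊔ ⁅H, H⁆] := le_norm_sup le_norm_piRes (le_norm_commutator le_normalizer le_normalizer)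
  have h4 := hS.inf_norm (K := (piRes {p} ⊤ ⊔ ⁅(⊤ : Subgroup G), (⊤ : Subgroup G)⁆) ⊓ H) inf_le_right (le_norm_inf (le_norm_sup
    (le_top.trans le_norm_piRes) le_normalizer_of_normal) (hS.le.trans le_normalizer))
  refine le_antisymm (relIndex_eq_one.1 (PiN.eq_one (π := {p}) ((piN_relIndex_piRes (M := H)).of_dvd ?_)
    ((piN_compl_singleton hp).2 (h4.not_dvd_of_le ?_)))) (le_inf (sup_le_sup (piRes_mono le_top)
      (commutator_mono le_top le_top)) (sup_le piRes_le commutator_self_le))
  · refine dvd_trans ?_ (relIndex_dvd_of_le_left H (le_sup_left : _ ≤ piRes {p} H ⊔ ⁅H, H⁆))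
    rw [← card_qt n1, ← card_qt (inf_le_right.trans n1)]
    exact card_dvd_of_le (qt_mono inf_le_right)
  · exact (le_inf ((inf_le_inf_left _ inf_le_left).trans (inf_piRes_sup_le hS.pg)) inf_le_left).trans
      (h1.le.trans (inf_le_left.trans le_sup_right))

end Cfsg.Agent.S1242
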