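import Cfsg.Statements.S1254
import Mathlib
import Cfsg.Agent.L0.MC2

set_option autoImplicit false
open Cfsg

namespace Cfsg.Agent.S1254

open Cfsg Subgroup CfsgH2 CfsgL0

/-- Let X be a finite group whose Sylow 2-subgroup S is dihedral (of order at least 4). Then X has a normal 2-complement if and only if, for every Klein four-subgroup U ≤ S, the normalizer N_X(U) is generated by C_X(U) and N_S(U). -/
theorem result {X : Type*} [Group X] [Finite X] (S : Sylow 2 X) (m : ℕ) (hm : 2 ≤ m) (eS : (S : Subgroup X) ≃* DihedralGroup m) : Cfsg.HasNormalPComplement 2 X ↔ ∀ U : Subgroup X, U ≤ S → IsKleinFour U → Subgroup.normalizer (U : Set X) = Subgroup.centralizer (U : Set X) ⊔ ((S : Subgroup X) ⊓ Subgroup.normalizer (U : Set X)) := by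
  have s := syl_top S
  rw [npc_top_iff]
  constructor
  · intro h U hU hk
    rw [k4_iff] at hk
    have h1 : PiN {2} (C[U].relIndex N[U]) := piN_relIndex_piRes.of_dvd (relIndex_dvd_of_le_left _
      ((closure_le _).2 fun g hg => h.mem_cent hk.pg le_top (mem_top g) hg.1 ((piN_compl_singleton' Nat.prime_two).1 hg.2)))
    obtain h4 | ⟨a, b, k, h⟩ := dh_of s.pg hm eS
    · obtain rfl := eq_of_le_of_card_le hU (h4.1.trans hk.1.symm).le
      have h2 := (s.mono le_normalizer le_top).not_dvd_of_le (le_cent_self hk.ab)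
      exact le_antisymm ((relIndex_eq_one.1 (h1.eq_one ((piN_compl_singleton Nat.prime_two).2 h2))).trans le_sup_left)
        (sup_le (CfsgH2.cent_le_norm _) inf_le_right)
    · refine (eq_sup_of_two (CfsgH2.cent_le_norm _) ((mc_k4_26 h.toMC hk hU).resolve_right fun e => ?_) inf_le_right
        fun l => ?_).symm
      · exact absurd (h1 3 Nat.prime_three (by rw [e]; omega)) (by simp)
      · have := mc_k4_idx h.toMC hk hU; rw [relIndex_eq_one.2 l] at this; omega
  · intro H
    obtain h4 | ⟨a, b, k, h⟩ := dh_of s.pg hm eS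
    · refine s.npc_of_norm_le_cent (inf_le_right.trans (H _ le_rfl (k4_iff.2 h4)).le |>.trans
        (sup_le le_rfl (inf_le_left.trans (le_cent_self h4.ab))))
    · have key : ∀ t ∈ (S : Subgroup X), t ∉ zpowers a → ¬ Fz a t := fun t ht h1 f => by
        have k1 := mc_k4_of h.toMC ht h1 (h.out _ ht h1)
        have l1 := sup_le (zpowers_le.2 (pow_mem h.amem (2 ^ k))) (zpowers_le.2 ht)
        have := (mc_k4_fuse h.toMC h.nq s k1 l1 (mem_sup_right (mem_zpowers _)) h1).2 f
        rw [H _ l1 (k4_iff.2 k1), sup_comm C[_], relIndex_sup_of_norm (inf_le_right.trans (norm_le_norm_cent _)),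
          mc_k4_idx h.toMC k1 l1] at this
        omega
      exact mc_foc_none h.toMC h.nq s (key _ h.bmem h.nmem) (key _ (mc_ab h.toMC).1 (mc_ab h.toMC).2)

end Cfsg.Agent.S1254
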