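import Cfsg.Statements.S1255
import Mathlib
import Cfsg.Agent.L0.MC2
import Cfsg.Agent.H2.Stab

set_option autoImplicit false
open Cfsg

namespace Cfsg.Agent.S1255

open Cfsg Subgroup CfsgH2 CfsgL0

theorem aux {X : Type*} [Group X] [Finite X] {S : Subgroup X} (s : Syl 2 S ⊤)
    (hall : ∀ a b : X, orderOf a = 2 → orderOf b = 2 → IsConj a b) {T : Subgroup X} (hT : K4 T)
    (hg : S ≤ Subgroup.closure {x : X | orderOf x = 2}) : (∀ H : Subgroup X, H.index ≠ 2) ∧ ∀ z : X, ¬ IsIsolatedInvolution z := by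
  have o : ∀ x ∈ T, x ≠ 1 → orderOf x = 2 := fun x hx h => orderOf_eq_prime (by rw [pow_two, hT.2 x hx]) h
  obtain ⟨z, hz, z1⟩ := exists_ne_one (H := T) fun e => hT.not_cyc (e ▸ inferInstance)
  obtain ⟨t, ht, t1⟩ := SetLike.not_le_iff_exists.1 fun l : T ≤ zpowers z => hT.not_cyc (isCyclic_of_le inferInstance l)
  have t2 : t ≠ 1 := fun e => t1 (e ▸ one_mem _)
  refine ⟨fun H e => ?_, fun y hy => ?_⟩
  · have hn := normal_of_index_eq_two e
    obtain ⟨x, hx, x1⟩ : ∃ x ∈ H, orderOf x = 2 := by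
      by_cases h1 : z ∈ H
      · exact ⟨z, h1, o z hz z1⟩
      by_cases h2 : t ∈ H
      · exact ⟨t, h2, o t ht t2⟩
      exact ⟨_, CfsgH4.mul_inv_mem_of_relIndex_two (P := ⊤) (by rwa [relIndex_top_right]) (mem_top z) (mem_top t) h1 h2,
        o _ (mul_mem hz (inv_mem ht)) fun e => t1 (mul_inv_eq_one.1 e ▸ mem_zpowers _)⟩
    refine s.not_dvd_of_le (hg.trans ((closure_le H).2 fun y hy => ?_)) (by rw [relIndex_top_right, e])
    obtain ⟨c, rfl⟩ := isConj_iff.1 (hall x y x1 hy)
    exact hn.conj_mem x hx c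
  · obtain ⟨c, rfl⟩ := isConj_iff.1 (hall z y (o z hz z1) hy.1)
    obtain ⟨g, e⟩ := isConj_iff.1 (hall z t (o z hz z1) (o t ht t2))
    have e1 : c * g * c⁻¹ * (c * z * c⁻¹) * (c * g * c⁻¹)⁻¹ = c * t * c⁻¹ := by rw [← e]; group
    have := hy.2 (c * g * c⁻¹) (by rw [e1]; exact (Commute.map (comm_of_isMulComm hT.ab hz ht) (MulAut.conj c)))
    rw [e1] at this
    exact t1 ((MulAut.conj c).injective this ▸ mem_zpowers _)

/-- Let X be a finite group whose Sylow 2-subgroup S is dihedral of order 2m ≥ 4. Then X has no subgroup of index 2 and no isolated involution if and only if either all involutions of X are conjugate, or for every Klein four-subgroup U ≤ S the index |N_X(U) : C_X(U)| equals 3 when |S| = 4 and equals 6 when |S| > 4. -/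
theorem result {X : Type*} [Group X] [Finite X] (S : Sylow 2 X) (m : ℕ) (hm : 2 ≤ m) (eS : (S : Subgroup X) ≃* DihedralGroup m) : ((∀ H : Subgroup X, H.index ≠ 2) ∧ (∀ z : X, ¬ Cfsg.IsIsolatedInvolution z)) ↔ ((∀ a b : X, orderOf a = 2 → orderOf b = 2 → IsConj a b) ∨ (∀ U : Subgroup X, U ≤ S → IsKleinFour U → (Subgroup.centralizer (U : Set X)).relIndex (Subgroup.normalizer (U : Set X)) = (if Nat.card S = 4 then 3 else 6))) := by
  have s := syl_top S
  simp only [k4_iff]
  obtain h4 | ⟨a, b, k, h⟩ := dh_of s.pg hm eS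
  · have o : ∀ x ∈ (S : Subgroup X), x ≠ 1 → orderOf x = 2 := fun x hx h => orderOf_eq_prime (by rw [pow_two, h4.2 x hx]) h
    have hg : (S : Subgroup X) ≤ Subgroup.closure {x : X | orderOf x = 2} := fun x hx => by
      by_cases h : x = 1
      exacts [h ▸ one_mem _, subset_closure (o x hx h)]
    rw [if_pos h4.1]
    refine ⟨fun H => .inr fun U hU hk => ?_, fun H => aux s (H.elim id fun H x y hx hy => ?_) h4 hg⟩
    · obtain rfl := eq_of_le_of_card_le hU (h4.1.trans hk.1.symm).le
      have h2 := (s.mono le_normalizer le_top).not_dvd_of_le (le_cent_self hk.ab)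
      have h3 := hk.dvd6 le_rfl
      have h1 : C[(S : Subgroup X)].relIndex N[(S : Subgroup X)] ≠ 1 := fun e => by
        obtain ⟨N, -, hN⟩ := exists_index_p s fun l => by
          have := s.focal_abelian hk.ab
          rw [inf_eq_right.2 l, top_inf_eq, commutator_comm, comm_eq_bot_iff.2 (relIndex_eq_one.1 e)] at this
          exact hk.not_cyc (this ▸ inferInstance)
        exact H.1 N hN
      have := Nat.le_of_dvd (by omega) h3
      generalize C[(S : Subgroup X)].relIndex N[(S : Subgroup X)] = n at *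
      interval_cases n <;> simp_all
    · obtain ⟨x, hx', ex⟩ := exists_isConj_mem s (k := 1) hx
      obtain ⟨y, hy', ey⟩ := exists_isConj_mem s (k := 1) hy
      refine ex.symm.trans (IsConj.trans ?_ ey)
      have x1 : x ≠ 1 := fun e => by have := (ord_isConj ex).trans hx; simp [e] at this
      have y1 : y ≠ 1 := fun e => by have := (ord_isConj ey).trans hy; simp [e] at this
      have mv : ∀ x ∈ (S : Subgroup X), ∀ y ∈ (S : Subgroup X), x ≠ 1 → y ≠ 1 → ¬ IsConj x y → IsConj x (x * y) := by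
        intro x hx y hy x1 y1 n
        obtain ⟨g, hg, g1⟩ := SetLike.not_le_iff_exists.1 fun l => by
          have := h4.le_two le_rfl hx x1 l; rw [H _ le_rfl h4] at this; omega
        rcases h4.cases hx x1 hy (fun e => by
          rcases zpowers_two (h4.2 x hx) e with e | e
          exacts [y1 e, n (e ▸ IsConj.refl _)]) (conj_mem_of_norm hg hx) with e | e | e | e
        · exact absurd (conj_eq_one_iff.1 e) x1
        · exact absurd (mem_centralizer_singleton_iff.2 (mul_inv_eq_iff_eq_mul.1 e)) g1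
        · exact absurd (isConj_iff.2 ⟨g, e⟩) n
        · exact isConj_iff.2 ⟨g, e⟩
      by_contra n
      exact n ((mv x hx' y hy' x1 y1 n).trans (comm_of_isMulComm h4.ab hx' hy' ▸ (mv y hy' x hx' y1 x1 fun e => n e.symm).symm))
  · have ob := h.ord2 h.bmem h.nmem
    have oc := h.ord2 (mc_ab h.toMC).1 (mc_ab h.toMC).2
    have all : Fz a b → Fz a (a * b) → ∀ x y : X, orderOf x = 2 → orderOf y = 2 → IsConj x y := fun f1 f2 => by
      have : ∀ t, orderOf t = 2 → IsConj (a ^ 2 ^ k) t := fun t ht => (h.all2 s t ht).elim id fun e =>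
        e.elim ((mc_fz_iff h.toMC ob).1 f1).trans ((mc_fz_iff h.toMC oc).1 f2).trans
      exact fun x y hx hy => (this x hx).symm.trans (this y hy)
    rw [if_neg (by rw [h.card]; have := Nat.pow_le_pow_right two_pos (show 3 ≤ k + 2 by have := h.pos; omega); omega)]
    constructor
    · intro H
      have key : ∀ t ∈ (S : Subgroup X), t ∉ zpowers a → Fz a t := fun t ht h1 => by_contra fun f => by
        obtain ⟨M, -, hM, -⟩ := thompson_transfer (Nat.odd_iff.2 (Nat.two_dvd_ne_zero.1 S.not_dvd_index)) h.relIndex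
          (h.out t ht h1) ht fun g e => f ⟨g, e⟩
        exact H.1 M hM
      exact .inl (all (key _ h.bmem h.nmem) (key _ (mc_ab h.toMC).1 (mc_ab h.toMC).2))
    · intro H
      refine aux s (H.elim id fun H => ?_) (mc_k4_of h.toMC h.bmem h.nmem (h.out _ h.bmem h.nmem)) ?_
      · have key : ∀ t ∈ (S : Subgroup X), t ∉ zpowers a → Fz a t := fun t ht h1 => by
          have k1 := mc_k4_of h.toMC ht h1 (h.out _ ht h1)
          have l1 := sup_le (zpowers_le.2 (pow_mem h.amem (2 ^ k))) (zpowers_le.2 ht)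
          exact (mc_k4_fuse h.toMC h.nq s k1 l1 (mem_sup_right (mem_zpowers _)) h1).1 (H _ l1 k1)
        exact all (key _ h.bmem h.nmem) (key _ (mc_ab h.toMC).1 (mc_ab h.toMC).2)
      · rw [← h.sup]
        refine sup_le (zpowers_le.2 ?_) (zpowers_le.2 (subset_closure ob))
        simpa using mul_mem (subset_closure (k := {x : X | orderOf x = 2}) oc) (inv_mem (subset_closure ob))

end Cfsg.Agent.S1255
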