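import Cfsg.Statements.S1256
import Mathlib
import Cfsg.Agent.L0.MC2

set_option autoImplicit false
open Cfsg

namespace Cfsg.Agent.S1256

open Cfsg Subgroup CfsgH2 CfsgL0

/-- Let X be a finite group whose Sylow 2-subgroup S is dihedral of order 2m ≥ 4. If |S| = 4, any two Klein four-subgroups of X are conjugate; if |S| > 4, there are Klein four-subgroups U₁, U₂ of X that are not conjugate, and every Klein four-subgroup of X is conjugate to U₁ or to U₂. -/
theorem result {X : Type*} [Group X] [Finite X] (S : Sylow 2 X) (m : ℕ) (hm : 2 ≤ m) (eS : (S : Subgroup X) ≃* DihedralGroup m) : (Nat.card S = 4 → ∀ U V : Subgroup X, IsKleinFour U → IsKleinFour V → (∃ x : X, U.map (MulAut.conj x).toMonoidHom = V)) ∧ (4 < Nat.card S → ∃ U₁ U₂ : Subgroup X, IsKleinFour U₁ ∧ IsKleinFour U₂ ∧ ¬ (∃ x : X, U₁.map (MulAut.conj x).toMonoidHom = U₂) ∧ ∀ V : Subgroup X, IsKleinFour V → (∃ x : X, V.map (MulAut.conj x).toMonoidHom = U₁) ∨ (∃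 x : X, V.map (MulAut.conj x).toMonoidHom = U₂)) := by
  have s := syl_top S
  simp only [k4_iff]
  refine ⟨fun h4 U V hU hV => ?_, fun h4 => ?_⟩
  · obtain ⟨g, -, e⟩ := (s.of_card_ge hU.pg le_top (h4.trans hU.1.symm).le).conj (s.of_card_ge hV.pg le_top (h4.trans hV.1.symm).le)
    exact ⟨g, e⟩
  obtain hk | ⟨a, b, k, h⟩ := dh_of s.pg hm eS
  · exact absurd hk.1 h4.ne'
  have k1 := mc_k4_of h.toMC h.bmem h.nmem (h.out _ h.bmem h.nmem)
  have k2 := mc_k4_of h.toMC (mc_ab h.toMC).1 (mc_ab h.toMC).2 (h.out _ (mc_ab h.toMC).1 (mc_ab h.toMC).2)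
  have lz : zpowers (a ^ 2 ^ k) ≤ S := zpowers_le.2 (pow_mem h.amem _)
  have l1 := sup_le lz (zpowers_le.2 h.bmem)
  have l2 := sup_le lz (zpowers_le.2 (mc_ab h.toMC).1)
  refine ⟨_, _, k1, k2, ?_, fun V hV => ?_⟩
  · rintro ⟨g, e⟩
    rw [CfsgH2.cj_def] at e
    obtain ⟨c, hc, e'⟩ := mc_sconj' h.toMC h.nq s l1 k1.not_cyc (e ▸ l2)
    have h1 : c * b * c⁻¹ ∈ zpowers (a ^ 2 ^ k) ⊔ zpowers (a * b) := e ▸ e' ▸ conj_mem_map_cj (mem_sup_right (mem_zpowers b))
    have h2 := mc_conj_mul h.toMC hc h.bmem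
    have h3 := mc_conj_nmem h.toMC hc h.nmem
    have za : zpowers (a ^ 2 ^ k) ≤ zpowers a := zpowers_le.2 (pow_mem (mem_zpowers a) _)
    refine mc_a_nmem h.toMC ?_
    rcases k2.cases (mem_sup_left (mem_zpowers _)) (half_ne_one h.ord) (mem_sup_right (mem_zpowers _))
      (fun e => (mc_ab h.toMC).2 (za e)) h1 with e | e | e | e <;> rw [e] at h2 h3
    · exact absurd (one_mem _) h3
    · exact absurd (za (mem_zpowers _)) h3
    · simpa using h2
    · simpa [mul_assoc] using mul_mem (inv_mem h.half_mem) h2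
  · obtain ⟨g, -, l⟩ := s.exists_conj_le hV.pg le_top
    have hV' := hV.map (CfsgH2.cj_injective g)
    obtain ⟨t, ht, h1⟩ := mc_exists_out h.toMC hV'.not_cyc
    rcases mc_out_cases h.toMC (l ht) h1 with e | e
    · obtain ⟨c, -, e'⟩ := mc_conj_sub h.toMC l l1 (hV'.1.trans k1.1.symm) ht h1 (mem_sup_right (mem_zpowers _))
        (by simpa using inv_mem e)
      exact .inl ⟨c * g, by rw [CfsgH2.cj_def, ← map_cj_cj, e']⟩
    · obtain ⟨c, -, e'⟩ := mc_conj_sub h.toMC l l2 (hV'.1.trans k2.1.symm) ht h1 (mem_sup_right (mem_zpowers _))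
        (by simpa [mul_assoc] using inv_mem e)
      exact .inr ⟨c * g, by rw [CfsgH2.cj_def, ← map_cj_cj, e']⟩

end Cfsg.Agent.S1256
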