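import Cfsg.Statements.S1313
import Mathlib
import Cfsg.Agent.H9.Comp2

set_option autoImplicit false
open Cfsg

namespace Cfsg.Agent.S1313

/-- For a finite group H, |H| ≤ |F*(H)|!. -/
theorem result {H : Type*} [Group H] [Finite H] : Nat.card H ≤ Nat.factorial (Nat.card ↥(Cfsg.generalizedFittingSubgroup H)) := by
  open Subgroup CfsgH9 in
  classical
  haveI := generalizedFittingSubgroup_normal (G := H)
  set F := generalizedFittingSubgroup H with hF
  let φ : H →* MulAut F := MulAut.conjNormal
  have hker : φ.ker ≤ F := by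
    have := centralizer_Fs_le (⊤ : Subgroup H)
    rw [top_inf_eq, Fs_top] at this
    refine le_trans ?_ this
    intro x hx y hy
    have h1 : φ x ⟨y, hy⟩ = ⟨y, hy⟩ := by rw [MonoidHom.mem_ker.1 hx]; rfl
    have h2 : x * y * x⁻¹ = y := congrArg Subtype.val h1
    rw [mul_inv_eq_iff_eq_mul] at h2
    exact h2.symm
  have h1 : Nat.card H = Nat.card φ.range * Nat.card φ.ker := by
    rw [← Nat.card_congr (QuotientGroup.quotientKerEquivRange φ).toEquiv]
    exact card_eq_card_quotient_mul_card_subgroup _
  let ψ : MulAut F → Equiv.Perm {x : F // x ≠ 1} := fun a =>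
    Equiv.Perm.subtypePerm (a.toEquiv) (fun x => by simp)
  have hψ : Function.Injective ψ := by
    intro a b hab
    ext x
    by_cases hx : x = 1
    · simp [hx]
    · have := congrArg (fun s : Equiv.Perm {x : F // x ≠ 1} => ((s ⟨x, hx⟩).1 : H)) hab
      exact this
  have h2 : Nat.card φ.range ≤ (Nat.card F - 1).factorial := by
    refine (Nat.card_le_card_of_injective _ (φ.range.subtype_injective)).trans ?_
    refine (Nat.card_le_card_of_injective _ hψ).trans ?_
    rw [Nat.card_perm]
    apply le_of_eq
    congr 1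
    haveI := Fintype.ofFinite F
    simp only [Nat.card_eq_fintype_card]
    rw [Fintype.card_subtype_compl, Fintype.card_subtype_eq]
  have h3 : Nat.card φ.ker ≤ Nat.card F := card_le_of_le hker
  have h4 : 0 < Nat.card F := Nat.card_pos
  rw [h1, ← Nat.mul_factorial_pred h4.ne', mul_comm]
  exact Nat.mul_le_mul h3 h2

end Cfsg.Agent.S1313
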