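import Cfsg.Statements.S1892
import Mathlib
import Cfsg.Agent.H9.Tech
import Cfsg.Agent.H9.Trace
import Cfsg.Agent.H1.Sep

set_option autoImplicit false
open Cfsg

namespace Cfsg.Agent.S1892

/-- Let S be a finite p-solvable group with no nontrivial normal subgroup of order prime to p, A a p-subgroup of S, and Q a nontrivial A-invariant subgroup of order prime to p with [A, Q] = Q. Then the commutator [O_p(S), A, Q] is nontrivial. -/
theorem result {S : Type*} [Group S] [Finite S] {p : ℕ} [Fact p.Prime]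
    (hS : Cfsg.IsPSolvable p S) (hred : Cfsg.pPrimeCore p S = ⊥)
    (A Q : Subgroup S) (hA : IsPGroup p A) (hQ : ¬ p ∣ Nat.card Q) (hQ1 : Q ≠ ⊥)
    (hinv : ∀ a ∈ A, ∀ x ∈ Q, a * x * a⁻¹ ∈ Q) (hAQ : ⁅A, Q⁆ = Q) :
    ⁅⁅Cfsg.pCore p S, A⁆, Q⁆ ≠ ⊥ := by
  open Subgroup CfsgH9 in
  intro h
  have hc := chP_top_iff'.2 (CfsgH1.centralizer_pCore_le hS hred)
  have q := coprime_iff_not_dvd.2 hQ
  have n : ∀ X : Subgroup S, X ≤ normalizer (Cfsg.pCore p S : Set S) := fun X => le_normalizer_normal _ _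
  have h1 := comm_ncl_le_of_comm_le (L := A ⊔ Q) (P := Cfsg.pCore p S) (Q := A)
    (V₀ := ⁅Cfsg.pCore p S, A⁆) (n _) (sup_le (le_normalizer_commutator (n _) le_normalizer)
      (le_normalizer_of_commutator_eq_bot (comm_bot_symm h))) le_sup_left
    (Subgroup.commutator_comm _ _).le
  have h2 : Q ≤ ncl (A ⊔ Q) A := by
    rw [ncl_eq_sup_commutator]
    exact hAQ.ge.trans ((commutator_mono le_rfl le_sup_right).trans le_sup_right)
  have h3 := CfsgH1.coprime_le_centralizer_of_commutator (n Q)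
    (coprime_of_isPGroup (pCore_isPGroup p) q).symm
    (Or.inr (CfsgH1.isSolvable_of_isPGroup (pCore_isPGroup p)))
    (((Subgroup.commutator_comm _ _).le.trans ((commutator_mono h2 le_rfl).trans h1)).trans
      (comm_bot_iff.1 h))
  refine hQ1 (isPGroup_coprime_eq_bot ((Op_isPGroup p ⊤).to_le
    (hc.le_Op_of_comm le_top ?_)) q)
  rw [Op_top]; exact comm_bot_iff.2 h3

end Cfsg.Agent.S1892
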