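import Cfsg.Statements.S1893
import Mathlib
import Cfsg.Agent.H9.Stab
import Cfsg.Agent.H1.Hall

set_option autoImplicit false
open Cfsg

namespace Cfsg.Agent.S1893

/-- Let S be a finite solvable group, π a set of primes containing neither 2 nor 3, H a Hall π-subgroup of S, and A a self-centralizing normal subgroup of the Fitting subgroup F(H). Then C_S(A) = A × D for a normal subgroup D of C_S(A) whose order has no prime divisor in π. -/
theorem result {S : Type*} [Group S] [Finite S] [Group.IsSolvable S]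
    (π : Set ℕ) (h2 : 2 ∉ π) (h3 : 3 ∉ π) (H : Subgroup S) (hH : Cfsg.IsPiHall π H)
    (A : Subgroup S) (hA : Cfsg.IsSCN ((Cfsg.fittingSubgroup H).map H.subtype) A) :
    ∃ D : Subgroup S, D ≤ Subgroup.centralizer (A : Set S) ∧
      (∀ c ∈ Subgroup.centralizer (A : Set S), ∀ d ∈ D, c * d * c⁻¹ ∈ D) ∧
      A ⊓ D = ⊥ ∧ A ⊔ D = Subgroup.centralizer (A : Set S) ∧
      ∀ q : ℕ, q.Prime → q ∣ Nat.card D → q ∉ π := by
  open Subgroup CfsgH9 in
  obtain ⟨N, hN⟩ : ∃ N, N = Cfsg.piCore πᶜ S := ⟨_, rfl⟩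
  obtain ⟨f, hf⟩ : ∃ f, f = tp (QuotientGroup.mk' (Cfsg.piCore πᶜ S)) := ⟨_, rfl⟩
  have k : kr f = N := by rw [hf, kr_tp_mk', hN]
  have s : Function.Surjective f := hf ▸ tp_surjective (QuotientGroup.mk'_surjective _)
  have nN : N.Normal := hN ▸ inferInstance
  have pN : CfsgH1.PiNum πᶜ (Nat.card N) := hN ▸ CfsgH1.pi_piCore πᶜ
  obtain ⟨a1, a2, a3⟩ := hA
  change A ≤ Fit H at a1
  change Fit H ≤ _ at a2
  change Fit H ⊓ _ = _ at a3
  have k0 : kr f ⊓ H = ⊥ := by
    rw [k]
    exact card_eq_one.1 (CfsgH1.PiNum.eq_one (π := π)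
      (CfsgH1.PiNum.of_dvd hH.1 (card_dvd_of_le inf_le_right)) (pN.of_dvd (card_dvd_of_le inf_le_left)))
  have hH' : CfsgH1.HallIn π (im f H) ⊤ := by
    rw [hf, im_tp]; exact (CfsgH1.hallIn_top_iff.2 hH).map_mk' _
  have h4 : ∀ q : ℕ, q.Prime → Op q ⊤ ≤ im f (Fit H) := fun q hq => by
    haveI := Fact.mk hq
    haveI : (Op q (⊤ : Subgroup (S ⧸ Cfsg.piCore πᶜ S))).Normal :=
      normal_of_top_le (le_normalizer_Op le_normalizer)
    by_cases h : q ∈ π
    · have a := hH'.ge_of_le_normalizer (U := Op q ⊤) (((CfsgH1.piNum_singleton_card_iff).2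
        (Op_isPGroup q ⊤)).mono (Set.singleton_subset_iff.2 h)) le_top (le_normalizer_normal _ _)
      rw [← im_pre_inf a]
      refine im_mono (le_Fit (Sn.of_normal inf_le_right (le_normalizer_inf
        (le_top.trans le_normalizer_pre_of_normal) le_normalizer)) (isNilpotent_of_im (f := f) le_top
        (eq_bot_iff.2 ((inf_le_inf_left _ inf_le_right).trans k0.le)) ?_))
      rw [im_pre_inf a]
      exact (Op_isPGroup q ⊤).isNilpotent
    · refine le_trans ?_ bot_le
      rw [← CfsgH1.piCore_quotient_piCore πᶜ]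
      exact CfsgH1.le_piCore (((CfsgH1.piNum_singleton_card_iff).2
        (Op_isPGroup q ⊤)).mono (Set.singleton_subset_iff.2 h))
  have h5 := centralizer_le_of_scn (F := im f (Fit H)) (A := im f A) inferInstance
    (Fit_le_of fun q hq => h4 q hq.out) (fun q hq h => by
      have a := hH.1 q hq (h.trans ((card_im_dvd le_top).trans (card_dvd_of_le (Fit_le H))))
      exact hq.five_le_of_ne_two_of_ne_three (fun e => h2 (e ▸ a)) (fun e => h3 (e ▸ a)))
    (isNilpotent_im le_top (Fit_nilpotent H)) (im_mono a1) (im_le_normalizer a2) (by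
      refine le_antisymm ?_ (le_inf (im_mono a1) (comm_bot_iff.1 ?_))
      · rw [← im_pre_inf (f := f) (X := im f (Fit H) ⊓ _) (K := Fit H) inf_le_left]
        refine im_mono (le_trans (le_inf inf_le_right (comm_bot_iff.1 (eq_bot_iff.2 ?_))) a3.le)
        rw [← k0]
        refine le_inf ((im_comm_bot_iff le_top le_top).1 ?_) ((commutator_mono (inf_le_right.trans
          (Fit_le H)) (a1.trans (Fit_le H))).trans (commutator_le_left_of le_normalizer))
        rw [im_pre_inf inf_le_left]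
        exact comm_bot_iff.2 inf_le_right
      · rw [← im_commutator le_top le_top, comm_bot_iff.2 (a3.ge.trans inf_le_right), im_bot]) h4
  have h6 : centralizer (A : Set S) ≤ A ⊔ N := by
    rw [← k, ← im_le_im_iff le_top le_top]
    refine le_trans (comm_bot_iff.1 ?_) h5
    rw [← im_commutator le_top le_top, comm_bot_iff.2 le_rfl, im_bot]
  refine ⟨N ⊓ centralizer (A : Set S), inf_le_right, fun c hc d hd =>
    mem_inf.2 ⟨nN.conj_mem _ hd.1 _, mul_mem (mul_mem hc (mem_inf.1 hd).2) (inv_mem hc)⟩, ?_, ?_,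
    fun q hq h => pN q hq (h.trans (card_dvd_of_le inf_le_left))⟩
  · rw [eq_bot_iff, ← k0, k]
    exact le_inf (inf_le_right.trans inf_le_left) (inf_le_left.trans (a1.trans (Fit_le H)))
  · rw [← inf_sup_of_le_normalizer (le_normalizer_normal _ _) (a3.ge.trans inf_le_right),
      inf_eq_right.2 h6]

end Cfsg.Agent.S1893
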