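import Cfsg.Statements.S1894
import Mathlib
import Cfsg.Agent.H9.Tech

set_option autoImplicit false
open Cfsg

namespace Cfsg.Agent.S1894

/-- Let P be a finite p-group, A a normal subgroup of P and B an abelian subgroup of A that is normal in P. Then some subgroup C of A containing B is normal in P and is self-centralizing and normal in A (C ∈ SCN(A)). -/
theorem result {P : Type*} [Group P] [Finite P] {p : ℕ} [Fact p.Prime] (hP : IsPGroup p P)
    (A : Subgroup P) [A.Normal] (B : Subgroup P) [B.Normal] (hBA : B ≤ A) (hB : IsMulCommutative B) :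
    ∃ C : Subgroup P, C.Normal ∧ B ≤ C ∧ Cfsg.IsSCN A C := by
  open Subgroup CfsgH9 in
  obtain ⟨C, c1, ⟨c2, c3, c4⟩, c5⟩ := exists_max_subgroup (P := fun C : Subgroup P =>
    C ≤ A ∧ ⊤ ≤ normalizer (C : Set P) ∧ ⁅C, C⁆ = ⊥) (A := B)
    ⟨hBA, le_normalizer_normal _ _, isMulCommutative_iff_comm.1 hB⟩
  refine ⟨C, normal_of_top_le c3, c1, c2, le_top.trans c3, by_contra fun e => ?_⟩
  have l : C < A ⊓ centralizer (C : Set P) := lt_of_le_of_ne (le_inf c2 (comm_bot_iff.1 c4)) (Ne.symm e)
  obtain ⟨s, s1, s2, s3⟩ := exists_mem_not_mem_of_isPGroup (hP.to_subgroup ⊤) (hP.to_subgroup _)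
    (le_normalizer_inf (le_normalizer_normal _ _) (le_normalizer_centralizer c3)) c3 (le_top.trans c3) l.not_ge
  have d := zpowers_comm_iff.2 s1.2
  refine s2 ((c5 (C ⊔ zpowers s) le_sup_left ⟨sup_le c2 (zpowers_le.2 s1.1),
    le_normalizer_of_commutator_le le_sup_left (commutator_sup_le (le_top.trans c3) (le_top.trans c3)
      (commutator_le_left_of c3) s3), comm_bot_sup_left (comm_bot_sup_right c4 (comm_bot_symm d))
      (comm_bot_sup_right d (zpowers_comm s))⟩).le (mem_sup_right (mem_zpowers s)))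

end Cfsg.Agent.S1894
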