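import Cfsg.Statements.S3771
import Cfsg.Agent.H1.Misc1

set_option autoImplicit false
open Cfsg

namespace Cfsg.Agent.S3771

/-- Let p be a prime and R a finite p-group of p-rank at most 2 (no elementary abelian subgroup of order p³) in which every element has order dividing p. Then R has order at most p³. -/
theorem result {R : Type*} [Group R] [Finite R] {p : ℕ} [Fact p.Prime] (hR : IsPGroup p R) (hrank : Cfsg.PRankLE p 2 R) (hexp : ∀ x : R, x ^ p = 1) : Nat.card R ≤ p ^ 3 := by
  open Pointwise Subgroup CfsgH1 in
  open CfsgH2 hiding card_inf_mul_relIndex card_lt_of_lt card_lt_of_ne_top card_map_mul_card_inf_ker card_mul_relIndex card_subgroupOf card_sup_dvd card_sup_mul_card_inf exists_card_prime_le isNilpotent_map isNilpotent_of_le isPGroup_pCore isSolvable_map isSolvable_of_le le_pCore le_pPrimeCore relIndex_map_dvd in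
  open scoped CfsgH2 in
  open scoped commutatorElement in
  · have hP := isPGroup_top_iff.2 hR
    obtain ⟨A, -, hA⟩ := exists_scn_ge hP bot_le le_normalizer_of_normal inferInstance
    have := card_le_cube_of_scn hP hA (by
      obtain ⟨n, hn⟩ := exists_card_eq_pow (hR.to_subgroup A)
      have := card_le_of_prk_le (prankLE_top_iff.1 hrank) ⟨scn_comm hA, fun a _ => hexp a⟩ le_top
      rw [hn] at this ⊢
      exact pow_dvd_pow _ ((Nat.pow_le_pow_iff_right (Fact.out : p.Prime).one_lt).1 this))
    rw [card_top] at this
    exact Nat.le_of_dvd (pow_pos (Fact.out : p.Prime).pos _) this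

end Cfsg.Agent.S3771
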