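import Cfsg.Statements.S1895
import Cfsg.Agent.H2.PG4
import Cfsg.Agent.S3771

set_option autoImplicit false
open Cfsg

open Function Subgroup CfsgH2
open scoped CfsgH2 commutatorElement

namespace Cfsg.Agent.S1895
universe u

def Gd (p : ℕ) (T : Type u) [Group T] : Prop :=
  ∀ Y : Subgroup T, Y ≠ ⊤ → ∃ U V : Subgroup T, U.Characteristic ∧ V.Characteristic ∧ U ≤ Y ∧ ¬ V ≤ Y ∧
    U.relIndex V ≤ p ^ 2

theorem char_map {T : Type u} [Group T] (W : Subgroup T) [hW : W.Characteristic] (U : Subgroup W)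
    (hU : U.Characteristic) : (U.map W.subtype).Characteristic := by
  rw [Subgroup.characteristic_iff_map_le]
  rintro φ _ ⟨_, ⟨x, hx, rfl⟩, rfl⟩
  have e : W.map φ.toMonoidHom = W := Subgroup.characteristic_iff_map_eq.1 hW φ
  let ψ : W ≃* W := (φ.subgroupMap W).trans (MulEquiv.subgroupCongr e)
  exact ⟨ψ x, Subgroup.characteristic_iff_map_le.1 hU ψ ⟨x, hx, rfl⟩, rfl⟩

theorem Gd.small {p : ℕ} {T : Type u} [Group T] (h : Nat.card T ≤ p ^ 2) : Gd p T := by
  intro Y hY
  refine ⟨⊥, ⊤, inferInstance, inferInstance, bot_le, fun h => hY (top_le_iff.1 h), ?_⟩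
  rwa [relIndex_top_right, index_bot]

theorem Gd.ext {p : ℕ} {T : Type u} [Group T] (W : Subgroup T) [hW : W.Characteristic] (h1 : Gd p W)
    (h2 : Gd p (T ⧸ W)) : Gd p T := by
  intro Y hY
  by_cases h : W ≤ Y
  · obtain ⟨U, V, a, b, c, d, e⟩ := h2 (Y.map (QuotientGroup.mk' W)) (by
      intro h'
      apply hY
      have := congrArg (Subgroup.comap (QuotientGroup.mk' W)) h'
      rwa [comap_map_eq, QuotientGroup.ker_mk', sup_eq_left.2 h, comap_top] at this)
    refine ⟨U.comap (QuotientGroup.mk' W), V.comap (QuotientGroup.mk' W), Characteristic.comap_quotient_mk a,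
      Characteristic.comap_quotient_mk b, ?_, fun h' => d ?_, ?_⟩
    · refine (comap_mono c).trans ?_
      rw [comap_map_eq, QuotientGroup.ker_mk', sup_eq_left.2 h]
    · rw [← map_comap_eq_self_of_surjective (QuotientGroup.mk'_surjective W) V]
      exact Subgroup.map_mono h'
    · rwa [relIndex_comap, map_comap_eq_self_of_surjective (QuotientGroup.mk'_surjective W)]
  · obtain ⟨U, V, a, b, c, d, e⟩ := h1 (Y.subgroupOf W) (by rwa [Ne, subgroupOf_eq_top])
    refine ⟨U.map W.subtype, V.map W.subtype, char_map W U a, char_map W V b, ?_, fun h' => d ?_, ?_⟩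
    · exact map_le_iff_le_comap.2 c
    · exact map_le_iff_le_comap.1 h'
    · rwa [relIndex_map_map_of_injective _ _ W.subtype_injective]

theorem mulpow {p : ℕ} [hp : Fact p.Prime] (hp2 : p ≠ 2) {T : Type u} [Group T] {x y : T}
    (h1 : ⁅y⁻¹, x⁻¹⁆ ∈ center T) (h2 : ⁅y⁻¹, x⁻¹⁆ ^ p = 1) : (x * y) ^ p = x ^ p * y ^ p := by
  rw [mul_pow_class2 (mul_eq_mul_comm x y) (mem_center_iff.1 h1 x).symm (mem_center_iff.1 h1 y).symm,
    pow_eq_one_of_dvd h2 (dvd_choose_two hp2), mul_one]

theorem laffey {p : ℕ} [hp : Fact p.Prime] (hp2 : p ≠ 2) {T : Type u} [Group T] [Finite T] (hT : IsPGroup p T)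
    (hc : ∀ x : T, x ^ p = 1 → x ∈ center T) (n : ℕ) : ∀ H : Subgroup T, Nat.card H ≤ n →
      ∀ x ∈ H, ∀ g ∈ H, (x ^ p) ^ p = 1 → ⁅x, g⁆ ^ p = 1 := by
  induction n with
  | zero => intro H h; exact absurd h (Nat.not_le.2 (card_pos' H))
  | succ n ih =>
    intro H hH x hx g hg hxp
    by_cases h : zpowers x = H
    · rw [← h] at hg
      obtain ⟨k, rfl⟩ := hg
      rw [commutatorElement_eq_one_iff_commute.2 (Commute.zpow_right rfl k), one_pow]
    · obtain ⟨L, h1, h2, h3, h4⟩ := exists_maximal_sub (hT.to_subgroup H) (lt_of_le_of_ne (zpowers_le.2 hx) h)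
      have hlt : L < H := lt_of_le_of_ne h2 (by
        rintro rfl
        rw [relIndex_self] at h4
        exact hp.out.ne_one h4.symm)
      have hxL : x ∈ L := h1 (mem_zpowers x)
      have hy : g * x⁻¹ * g⁻¹ ∈ L := conj_mem_of_norm (h3 hg) (L.inv_mem hxL)
      have hyp : ((g * x⁻¹ * g⁻¹)⁻¹ ^ p) ^ p = 1 := by
        rw [show (g * x⁻¹ * g⁻¹)⁻¹ = g * x * g⁻¹ by group, conj_pow, conj_pow, hxp]; group
      have := ih L (Nat.lt_succ_iff.1 (lt_of_lt_of_le (card_lt_of_lt hlt) hH)) _ (L.inv_mem hy) _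
        (L.inv_mem hxL) hyp
      have e : ⁅x, g⁆ = x * (g * x⁻¹ * g⁻¹) := by rw [commutatorElement_def]; group
      rw [e, mulpow hp2 (hc _ this) this, conj_pow, inv_pow,
        mem_center_iff.1 (Subgroup.inv_mem _ (hc _ hxp)) g]
      group

theorem gd_central {p : ℕ} [hp : Fact p.Prime] (hp2 : p ≠ 2) (n : ℕ) :
    ∀ (T : Type u) [Group T] [Finite T], Nat.card T ≤ n → IsPGroup p T → (∀ x : T, x ^ p = 1 → x ∈ center T) →
      Nat.card {x : T // x ^ p = 1} ≤ p ^ 2 → Gd p T := by
  induction n with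
  | zero => intro T _ _ h; exact absurd h (Nat.not_le.2 Nat.card_pos)
  | succ n ih =>
    intro T _ _ hn hT hc hW
    by_cases h1 : Nat.card T ≤ p ^ 2
    · exact Gd.small h1
    let W : Subgroup T :=
      { carrier := {x | x ^ p = 1}
        one_mem' := one_pow p
        mul_mem' := fun {a b} ha hb => by
          show (a * b) ^ p = 1
          rw [(show Commute a b from (mem_center_iff.1 (hc b hb) a)).mul_pow, ha, hb, one_mul]
        inv_mem' := fun {a} ha => by
          show a⁻¹ ^ p = 1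
          rw [inv_pow, ha, inv_one] }
    have mW : ∀ x, x ∈ W ↔ x ^ p = 1 := fun x => Iff.rfl
    haveI : W.Characteristic := by
      rw [Subgroup.characteristic_iff_map_le]
      rintro φ _ ⟨x, hx, rfl⟩
      rw [mW]
      show (φ x) ^ p = 1
      rw [← map_pow, (mW x).1 hx, map_one]
    have hW' : Nat.card W ≤ p ^ 2 := hW
    have hW1 : W ≠ ⊥ := by
      have hd : p ∣ Nat.card T := by
        obtain ⟨k, hk⟩ := IsPGroup.iff_card.1 hT
        rw [hk]
        refine dvd_pow_self p ?_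
        rintro rfl
        exact h1 (hk ▸ Nat.one_le_pow _ _ hp.out.pos)
      obtain ⟨x, hx⟩ := exists_prime_orderOf_dvd_card' p hd
      intro h
      have : x ∈ W := (mW x).2 (hx ▸ pow_orderOf_eq_one x)
      rw [h, Subgroup.mem_bot] at this
      rw [this, orderOf_one] at hx
      exact hp.out.ne_one hx.symm
    have laf : ∀ x g : T, (x ^ p) ^ p = 1 → ⁅x, g⁆ ^ p = 1 := fun x g h =>
      laffey hp2 hT hc _ ⊤ le_rfl x (mem_top x) g (mem_top g) h
    have key : ∀ x : T, ((x : T ⧸ W)) ^ p = 1 ↔ (x ^ p) ^ p = 1 := by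
      intro x
      rw [← QuotientGroup.mk_pow, QuotientGroup.eq_one_iff, mW]
    refine Gd.ext W (Gd.small hW') (ih _ (Nat.lt_succ_iff.1 (lt_of_lt_of_le (card_quot_lt hW1) hn))
      (hT.to_quotient W) ?_ ?_)
    · intro x hx
      induction x using QuotientGroup.induction_on with
      | H x =>
        rw [mem_center_iff]
        intro g
        induction g using QuotientGroup.induction_on with
        | H g =>
          symm
          rw [← commutatorElement_eq_one_iff_mul_comm]
          exact (QuotientGroup.eq_one_iff ⁅x, g⁆).2 (laf x g ((key x).1 hx))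
    · refine le_trans ?_ hW
      refine Nat.card_le_card_of_injective (fun x => ⟨(Quotient.out x.1) ^ p, (key _).1 (by
        rw [QuotientGroup.out_eq']; exact x.2)⟩) ?_
      intro x y hxy
      have h2 : (Quotient.out x.1) ^ p = (Quotient.out y.1) ^ p := congrArg Subtype.val hxy
      have hx : ((Quotient.out x.1) ^ p) ^ p = 1 := (key _).1 (by rw [QuotientGroup.out_eq']; exact x.2)
      have hy : ((Quotient.out y.1)⁻¹ ^ p) ^ p = 1 := by rw [inv_pow, inv_pow, ← h2, hx, inv_one]
      have h3 := laf _ (Quotient.out x.1)⁻¹⁻¹ hy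
      apply Subtype.ext
      rw [← QuotientGroup.out_eq' x.1, ← QuotientGroup.out_eq' y.1, QuotientGroup.eq, mW,
        mulpow hp2 (hc _ h3) h3, inv_pow, h2, inv_mul_cancel]

theorem gd_rank {p : ℕ} [hp : Fact p.Prime] (hp2 : p ≠ 2) {R : Type u} [Group R] [Finite R]
    (hR : IsPGroup p R) (hr : Cfsg.PRankLE p 2 R) : Gd p R := by
  have cen : ∀ (T : Subgroup R) (A : Subgroup R), IsMulCommutative A → (∀ a ∈ A, a ^ p = 1) →
      (∀ x ∈ T, x ^ p = 1 → x ∈ A ∧ x ∈ C[T]) → Gd p T := by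
    intro T A h1 h2 h3
    refine gd_central hp2 _ T le_rfl (hR.to_subgroup T) (fun x hx => ?_) ?_
    · rw [mem_center_iff]
      intro g
      exact Subtype.ext (mem_cent_iff.1 (h3 x x.2 (congrArg Subtype.val hx)).2 g g.2)
    · refine le_trans ?_ (hr A h1 h2)
      refine Nat.card_le_card_of_injective (fun x => ⟨x.1, (h3 x.1 x.1.2 (congrArg Subtype.val x.2)).1⟩) ?_
      intro x y h
      exact Subtype.ext (Subtype.ext (Subtype.mk.inj h))
  have full : ∀ A : Subgroup R, IsElementaryAbelian p A → Nat.card A = p ^ 2 → ∀ x ∈ C[A], x ^ p = 1 → x ∈ A := by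
    intro A hA hc x hx hxp
    have h1 := elem_sup (elem_zpowers hxp) hA (zpowers_le.2 hx)
    have h2 : A = zpowers x ⊔ A := Subgroup.eq_of_le_of_card_ge le_sup_right (hc ▸ hr _ h1.1 h1.2)
    rw [h2]
    exact mem_sup_left (mem_zpowers x)
  by_cases hcy : IsCyclic R
  · refine gd_central hp2 _ R le_rfl hR (fun x _ => ?_) ?_
    · rw [mem_center_iff]
      intro g
      exact mul_comm' g x
    · have h1 : IsElementaryAbelian p (omegaOne p (⊤ : Subgroup R)) := elem_omegaOne inferInstance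
      refine le_trans ?_ (hr _ h1.1 h1.2)
      refine Nat.card_le_card_of_injective (fun x => ⟨x.1, mem_omegaOne (mem_top _) x.2⟩) ?_
      intro x y h
      exact Subtype.ext (Subtype.mk.inj h)
  obtain ⟨A, -, hAn, hA, hAc⟩ := exists_normal_elem2 (R := (⊤ : Subgroup R)) (S := ⊤) hp2 (hR.to_subgroup ⊤)
    (hR.to_subgroup ⊤) le_normalizer (fun h => hcy (isCyclic_of_surjective _ topEquiv.surjective))
  let E : Subgroup R :=
    { carrier := {x | x ^ p = 1 ∧ ∀ g, ⁅g, x⁆ ∈ center R}
      one_mem' := ⟨one_pow p, fun g => by rw [commutatorElement_one_right]; exact Subgroup.one_mem _⟩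
      mul_mem' := fun {a b} ha hb => by
        have hab : ∀ g, ⁅g, a * b⁆ ∈ center R := fun g => by
          rw [commutator_mul_right']
          exact Subgroup.mul_mem _ (ha.2 g) (Subgroup.Normal.conj_mem inferInstance _ (hb.2 g) a)
        refine ⟨?_, hab⟩
        have h0 : ⁅b⁻¹, a⁻¹⁆ ∈ center R := by
          rw [show ⁅b⁻¹, a⁻¹⁆ = a⁻¹ * ⁅b⁻¹, a⁆⁻¹ * a⁻¹⁻¹ by simp only [commutatorElement_def]; group]
          exact Subgroup.Normal.conj_mem inferInstance _ (Subgroup.inv_mem _ (ha.2 _)) _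
        rw [mulpow hp2 h0 ?_, ha.1, hb.1, one_mul]
        rw [← commutator_pow_left (mem_center_iff.1 h0 _).symm, inv_pow, hb.1, inv_one,
          commutatorElement_one_left]
      inv_mem' := fun {a} ha => by
        refine ⟨by rw [inv_pow, ha.1, inv_one], fun g => ?_⟩
        rw [show ⁅g, a⁻¹⁆ = a⁻¹ * ⁅g, a⁆⁻¹ * a⁻¹⁻¹ by simp only [commutatorElement_def]; group]
        exact Subgroup.Normal.conj_mem inferInstance _ (Subgroup.inv_mem _ (ha.2 _)) _ }
  have mE : ∀ x, x ∈ E ↔ x ^ p = 1 ∧ ∀ g, ⁅g, x⁆ ∈ center R := fun x => Iff.rfl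
  haveI : E.Characteristic := by
    rw [Subgroup.characteristic_iff_map_le]
    rintro φ _ ⟨x, hx, rfl⟩
    rw [mE]
    refine ⟨?_, fun g => ?_⟩
    · show (φ x) ^ p = 1
      rw [← map_pow, hx.1, map_one]
    · obtain ⟨g, rfl⟩ := φ.surjective g
      show ⁅φ g, φ x⁆ ∈ _
      rw [← map_commutatorElement]
      exact Subgroup.characteristic_iff_map_le.1 inferInstance φ ⟨_, hx.2 g, rfl⟩
  obtain ⟨Z, hZA, hZc, hZp⟩ := exists_central_card_p (hR.to_subgroup ⊤) hAn (hAc ▸ dvd_pow_self p two_ne_zero)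
  rw [cent_top] at hZc
  have hAE : A ≤ E := by
    intro a ha
    refine (mE a).2 ⟨hA.2 a ha, fun g => hZc ?_⟩
    have hlt : Z < A := lt_of_le_of_ne hZA (by
      rintro rfl
      rw [hZp, pow_two] at hAc
      exact hp.out.ne_one (Nat.eq_of_mul_eq_mul_left hp.out.pos (hAc.symm.trans (mul_one p).symm)))
    obtain ⟨L, h1, h2, -, h4, h5, -⟩ := exists_step_down (hR.to_subgroup ⊤) (hR.to_subgroup A) hlt
      (le_norm_of_le_cent (le_centralizer_iff.1 (by rw [cent_top]; exact hZc))) hAn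
    have hL : Nat.card L = p := by
      have := card_mul_relIndex h2
      rw [h4, hAc, pow_two] at this
      exact Nat.eq_of_mul_eq_mul_right hp.out.pos this
    rw [Subgroup.eq_of_le_of_card_ge h1 (by rw [hL, hZp])]
    rw [Subgroup.commutator_comm] at h5
    exact h5 (commutator_mem_commutator (mem_top g) ha)
  haveI : (C[E]).Characteristic := inferInstance
  refine Gd.ext C[E] (cen _ A hA.1 hA.2 fun x hx hxp => ?_) (Gd.small ?_)
  · have := full A hA hAc x (cent_anti hAE hx) hxp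
    exact ⟨this, le_centralizer_iff.1 le_rfl (hAE this)⟩
  by_cases hAz : A ≤ center R
  · have : C[E] = ⊤ := by
      rw [eq_top_iff, le_centralizer_iff, cent_top]
      intro x hx
      exact hAz (full A hA hAc x (le_centralizer_iff.1 (by rw [← cent_top] at hAz; exact hAz) (mem_top x)) hx.1)
    rw [← index_eq_card, this, index_top]
    exact Nat.one_le_pow _ _ hp.out.pos
  have hZ : ∀ z ∈ center R, z ^ p = 1 → z ∈ Z := by
    intro z hz hzp
    have h1 : z ∈ A := full A hA hAc z (center_le_centralizer _ hz) hzp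
    have hlt : A ⊓ center R < A := lt_of_le_of_ne inf_le_left fun h => hAz (h ▸ inf_le_right)
    have h2 := mul_card_dvd_of_lt (hR.to_subgroup A) hlt
    rw [hAc, pow_two] at h2
    rw [Subgroup.eq_of_le_of_card_ge (le_inf hZA hZc)
      (hZp ▸ Nat.le_of_dvd hp.out.pos (Nat.dvd_of_mul_dvd_mul_right hp.out.pos h2))]
    exact ⟨h1, hz⟩
  have hidx : ∀ b ∈ E, C1[b].index ≤ p := by
    intro b hb
    rw [← relIndex_top_right, ← hZp]
    refine relIndex_cent1_le fun x _ => hZ _ (hb.2 x) ?_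
    rw [← commutator_pow_right (mem_center_iff.1 (hb.2 x) _).symm, hb.1, commutatorElement_one_right]
  have hA1 : C[A].index ≤ p := by
    rw [← relIndex_top_right]
    exact Nat.le_of_dvd hp.out.pos (relIndex_cent_dvd_of_card_sq (hR.to_subgroup ⊤) hAn hAc.dvd)
  obtain ⟨b, hb, hbE⟩ : ∃ b ∈ E, A ⊔ zpowers b = E := by
    by_cases h : A = E
    · exact ⟨1, E.one_mem, by rw [zpowers_one_eq_bot, sup_bot_eq, h]⟩
    · obtain ⟨b, hb, hbA⟩ := SetLike.exists_of_lt (lt_of_le_of_ne hAE h)
      refine ⟨b, hb, Subgroup.eq_of_le_of_card_ge (sup_le hAE (zpowers_le.2 hb)) ?_⟩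
      have h3 : Nat.card E ≤ p ^ 3 := Cfsg.Agent.S3771.result (hR.to_subgroup E)
        (prankLE_iff.2 ((prk_mono le_top).trans (prankLE_top_iff.1 hr))) fun x => Subtype.ext x.2.1
      have hlt : A < A ⊔ zpowers b := lt_of_le_of_ne le_sup_left fun h =>
        hbA (h ▸ mem_sup_right (mem_zpowers b))
      have := mul_card_dvd_of_lt (hR.to_subgroup _) hlt
      rw [hAc, ← pow_succ] at this
      exact h3.trans (Nat.le_of_dvd (card_pos' _) this)
  rw [← index_eq_card, ← hbE, cent_sup, cent_zpowers, pow_two]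
  exact index_inf_le.trans (Nat.mul_le_mul hA1 (hidx b hb))


/-- Let p be an odd prime and G a finite p-solvable group with no elementary abelian subgroup of order p³. Then every chief factor H/K of G (H, K normal in G with no normal subgroup of G strictly between them) whose order is a power of p has order p or p². -/
theorem result {G : Type*} [Group G] [Finite G] {p : ℕ} [Fact p.Prime] (hp : p ≠ 2)
    (hG : Cfsg.IsPSolvable p G) (hr : Cfsg.PRankLE p 2 G)
    (H K : Subgroup G) [H.Normal] [K.Normal] (hKH : K < H) (hpow : ∃ n : ℕ, K.relIndex H = p ^ n)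
    (hchief : ∀ L : Subgroup G, L.Normal → K ≤ L → L ≤ H → L = K ∨ L = H) :
    K.relIndex H = p ∨ K.relIndex H = p ^ 2 := by
  obtain ⟨n, hn⟩ := hpow
  obtain ⟨P, hP⟩ := exists_syl p H
  have hKP : K ⊔ P = H := by
    refine le_antisymm (sup_le hKH.le hP.le) (relIndex_eq_one.1 ?_)
    have h1 := hP.not_dvd_of_le (le_sup_right : P ≤ K ⊔ P)
    have h2 := relIndex_dvd_of_le_left H (le_sup_left : K ≤ K ⊔ P)
    rw [hn] at h2
    obtain ⟨m, -, hm⟩ := (Nat.dvd_prime_pow (Fact.out : p.Prime)).1 h2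
    rw [hm] at h1 ⊢
    rcases m with _ | m
    · rfl
    · exact absurd (dvd_pow_self p (Nat.succ_ne_zero m)) h1
  obtain ⟨U, V, hU, hV, h1, h2, h3⟩ := gd_rank hp hP.pg
    (prankLE_iff.2 ((prk_mono le_top).trans (prankLE_top_iff.1 hr))) (K.subgroupOf P) (by
      rw [Ne, subgroupOf_eq_top]
      intro h
      exact hKH.ne (by rw [← hKP, sup_eq_left.2 h]))
  have hNV : N[P] ≤ N[V.map P.subtype] := by
    intro g hg
    refine mem_norm_of_conj ?_
    rintro _ ⟨x, hx, rfl⟩
    exact ⟨P.normalizerMonoidHom ⟨g, hg⟩ x,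
      Subgroup.characteristic_iff_map_le.1 hV (P.normalizerMonoidHom ⟨g, hg⟩) ⟨x, hx, rfl⟩, rfl⟩
  have hnorm : (K ⊔ V.map P.subtype).Normal := by
    refine normal_of_top_le_norm fun g _ => ?_
    have hPN : N[P] ≤ N[K ⊔ V.map P.subtype] :=
      le_norm_sup (le_top.trans (top_le_norm_iff.2 inferInstance)) hNV
    obtain ⟨k, hk, m, hm, rfl⟩ := hP.frattini (g := g) (top_le_norm_iff.2 inferInstance (mem_top g))
    refine Subgroup.mul_mem _ ?_ (hPN hm)
    rw [← hKP] at hk
    exact sup_le (le_norm_of_le le_sup_left) (le_normalizer.trans hPN) hk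
  have hle : K.relIndex H ≤ p ^ 2 := by
    rcases hchief _ hnorm le_sup_left (sup_le hKH.le ((map_subtype_le V).trans hP.le)) with h | h
    · exact absurd (map_le_iff_le_comap.1 (le_sup_right.trans h.le)) h2
    · rw [← h, relIndex_sup_left]
      refine le_trans ?_ h3
      rw [← relIndex_map_map_of_injective U V P.subtype_injective]
      exact relIndex_le_of_le_left (map_le_iff_le_comap.2 h1) (relIndex_pos _ _).ne'
  rw [hn] at hle ⊢
  have := (Nat.pow_le_pow_iff_right (Fact.out : p.Prime).one_lt).1 hle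
  interval_cases n
  · exact absurd (relIndex_eq_one.1 hn) (not_le_of_gt hKH)
  · exact Or.inl (pow_one p)
  · exact Or.inr rfl


end Cfsg.Agent.S1895
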