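import Mathlib
import Cfsg.Statements.S1897
import Cfsg.Agent.H8.U33
import Cfsg.Agent.H8.L27

set_option autoImplicit false
open Cfsg

namespace Cfsg.Agent.S1897

open CfsgH8

/-- An involution. -/
def s : Matrix.SpecialLinearGroup (Fin 3) K9 := ⟨!![0, ⟨1, 1⟩, ⟨2, 2⟩; ⟨1, 2⟩, 1, 1; ⟨2, 1⟩, 1, 1], by decide +kernel⟩

/-- An element of order seven. -/
def t : Matrix.SpecialLinearGroup (Fin 3) K9 := ⟨!![0, 0, 1; ⟨1, 1⟩, ⟨1, 1⟩, 0; ⟨2, 1⟩, ⟨1, 2⟩, 0], by decide +kernel⟩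

theorem rel : s ^ 2 = 1 ∧ t ^ 7 = 1 ∧ (s * t) ^ 3 = 1 ∧ (s * t ^ 4) ^ 4 = 1 ∧ s ≠ 1 := by decide +kernel

/-- The projective special unitary group PSU₃(3) (realised over the field with 9 elements) has a subgroup isomorphic to PSL₂(7). -/
theorem result {F : Type*} [Field F] [Fintype F] (hF : Fintype.card F = 9)
    {K : Type*} [Field K] [Fintype K] (hK : Fintype.card K = 7) :
    ∃ H : Subgroup (Cfsg.PSU 3 F 3), Nonempty (H ≃* Matrix.ProjectiveSpecialLinearGroup (Fin 2) K) := by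
  obtain ⟨U, Φ, i, h⟩ := exists_U9 hF 3
  obtain ⟨φ, j, -⟩ := exists_hom_L27 (G := U) hK (x := ⟨s, h _ (by decide +kernel)⟩) (y := ⟨t, h _ (by decide +kernel)⟩)
    (Subtype.ext rel.1) (Subtype.ext rel.2.1) (Subtype.ext rel.2.2.1) (Subtype.ext rel.2.2.2.1)
    fun e => rel.2.2.2.2 (congrArg Subtype.val e)
  let e := (QuotientGroup.quotientMulEquivOfEq (center_SU33 hF)).trans QuotientGroup.quotientBot
  exact ⟨_, ⟨(MonoidHom.ofInjective (f := e.symm.toMonoidHom.comp (Φ.comp φ)) (e.symm.injective.comp (i.comp j))).symm⟩⟩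

end Cfsg.Agent.S1897
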