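import Cfsg.Statements.S1898
import Cfsg.Agent.H2.Syl

set_option autoImplicit false
open Cfsg

open Function Subgroup CfsgH2
open scoped CfsgH2 commutatorElement

namespace Cfsg.Agent.S1898
theorem four {X : Type*} [Group X] (x y c : X) (h : y * x = x * y * c) (hc : ∀ g, c * g = g * c)
    (h2 : c * c = 1) : (x * y) ^ 4 = x ^ 4 * y ^ 4 := by
  have e1 : (x * y) ^ 2 = x ^ 2 * y ^ 2 * c := by
    calc (x * y) ^ 2 = x * (y * x) * y := by rw [pow_two]; group
      _ = x * x * y * (c * y) := by rw [h]; group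
      _ = _ := by rw [hc]; simp only [pow_two, mul_assoc]
  have e2 : y * x ^ 2 = x ^ 2 * y := by
    calc y * x ^ 2 = (y * x) * x := by rw [pow_two, mul_assoc]
      _ = x * y * (c * x) := by rw [h]; group
      _ = x * (y * x) * c := by rw [hc]; group
      _ = x * x * y * (c * c) := by rw [h]; group
      _ = _ := by rw [h2, mul_one, pow_two]
  have e3 : y ^ 2 * x ^ 2 = x ^ 2 * y ^ 2 := ((Commute.pow_left (e2 : Commute y (x ^ 2)) 2)).eq
  calc (x * y) ^ 4 = (x * y) ^ 2 * (x * y) ^ 2 := by rw [← pow_add]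
    _ = x ^ 2 * y ^ 2 * (c * (x ^ 2 * y ^ 2)) * c := by rw [e1]; simp only [mul_assoc]
    _ = x ^ 2 * (y ^ 2 * x ^ 2) * y ^ 2 * (c * c) := by rw [hc]; simp only [mul_assoc]
    _ = (x ^ 2 * x ^ 2) * (y ^ 2 * y ^ 2) := by rw [e3, h2]; simp only [mul_assoc, mul_one]
    _ = _ := by rw [← pow_add, ← pow_add]


/-- Let X be a finite 2-group whose derived subgroup is elementary abelian and central. Then the subgroup generated by the elements of order dividing 4 has exponent dividing 4, and every automorphism of X fixing each element of order dividing 4 has 2-power order. -/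
theorem result {X : Type*} [Group X] [Finite X] (hX : IsPGroup 2 X)
    (hel : Cfsg.IsElementaryAbelian 2 (commutator X)) (hcen : commutator X ≤ Subgroup.center X) :
    (∀ x ∈ Subgroup.closure {g : X | g ^ 4 = 1}, x ^ 4 = 1) ∧
      ∀ φ : MulAut X, (∀ g : X, g ^ 4 = 1 → φ g = g) → ∃ k : ℕ, φ ^ (2 ^ k) = 1 := by
  have key : ∀ x y : X, (x * y) ^ 4 = x ^ 4 * y ^ 4 := by
    intro x y
    have hm : ⁅y⁻¹, x⁻¹⁆ ∈ commutator X := Subgroup.commutator_mem_commutator (mem_top _) (mem_top _)
    refine four x y ⁅y⁻¹, x⁻¹⁆ (by rw [commutatorElement_def]; group)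
      (fun g => (Subgroup.mem_center_iff.1 (hcen hm) g).symm) ?_
    rw [← pow_two]
    exact hel.2 _ hm
  refine ⟨fun x hx => ?_, fun φ hφ => ?_⟩
  · induction hx using Subgroup.closure_induction with
    | mem x hx => exact hx
    | one => exact one_pow 4
    | mul x y _ _ h1 h2 => rw [key, h1, h2, one_mul]
    | inv x _ h => rw [inv_pow, h, inv_one]
  · have hpow : ∀ (j : ℕ) (c : X), c ^ 4 = 1 → (φ ^ j) c = c := by
      intro j c hc
      induction j with
      | zero => rfl
      | succ j ih => rw [pow_succ, MulAut.mul_apply, hφ c hc, ih]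
    have main : ∀ n : ℕ, ∃ k : ℕ, ∀ g : X, g ^ 2 ^ n = 1 → (φ ^ 2 ^ k) g = g := by
      intro n
      induction n with
      | zero => exact ⟨0, fun g hg => by rw [pow_zero, pow_one] at hg; rw [hg, map_one]⟩
      | succ n ih =>
        obtain ⟨k, hk⟩ := ih
        refine ⟨k + 2, fun g hg => ?_⟩
        set ψ := φ ^ 2 ^ k with hψ
        have h1 : ψ (g ^ 2) = g ^ 2 := hk _ (by rw [← pow_mul, ← pow_succ', hg])
        have h2 : (ψ g) ^ 4 = g ^ 4 := by
          rw [show (4 : ℕ) = 2 * 2 from rfl, pow_mul, pow_mul, ← map_pow, h1]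
        have h3 : (g⁻¹ * ψ g) ^ 4 = 1 := by rw [key, h2, inv_pow, inv_mul_cancel]
        have h4 : ψ (g⁻¹ * ψ g) = g⁻¹ * ψ g := hpow _ _ h3
        have h5 : ∀ j : ℕ, (ψ ^ j) g = g * (g⁻¹ * ψ g) ^ j := by
          intro j
          induction j with
          | zero => simp
          | succ j ih => rw [pow_succ', MulAut.mul_apply, ih, map_mul, map_pow, h4, pow_succ', ← mul_assoc, mul_inv_cancel_left]
        rw [pow_add, pow_mul, ← hψ, h5, show (2 : ℕ) ^ 2 = 4 from rfl, h3, mul_one]
    haveI : Fact (Nat.Prime 2) := ⟨Nat.prime_two⟩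
    obtain ⟨n, hn⟩ := IsPGroup.iff_card.1 hX
    obtain ⟨k, hk⟩ := main n
    exact ⟨k, MulEquiv.ext fun g => hk g (by rw [← hn, pow_card_eq_one'])⟩


end Cfsg.Agent.S1898
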