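import Cfsg.Statements.S1899
import Mathlib
import Cfsg.Agent.H9.EA

set_option autoImplicit false
open Cfsg

namespace Cfsg.Agent.S1899

/-- Let a dihedral group of order 2n, n odd and n > 1, act on a finite abelian 2-group A through automorphisms d and t with d^n = 1, t² = 1 and t d t⁻¹ = d⁻¹, and suppose that d fixes only the identity. Then A is the internal direct product of C_A(t) and its image under d. -/
theorem result {A : Type*} [CommGroup A] [Finite A] (hA : IsPGroup 2 A)
    {n : ℕ} (hn : Odd n) (hn1 : 1 < n) (d t : MulAut A) (hd : d ^ n = 1) (ht : t ^ 2 = 1) (hdt : t * d * t⁻¹ = d⁻¹)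
    (hfix : ∀ a : A, d a = a → a = 1) :
    (MulEquiv.toMonoidHom t).eqLocus (MonoidHom.id A) ⊓ ((MulEquiv.toMonoidHom t).eqLocus (MonoidHom.id A)).map d.toMonoidHom = ⊥ ∧
      (MulEquiv.toMonoidHom t).eqLocus (MonoidHom.id A) ⊔ ((MulEquiv.toMonoidHom t).eqLocus (MonoidHom.id A)).map d.toMonoidHom = ⊤ := by
  open Subgroup CfsgH9 in
  have t2 : ∀ a, t (t a) = a := fun a => by
    rw [← MulAut.mul_apply, ← sq, ht, MulAut.one_apply]
  have td : ∀ a, t (d a) = d⁻¹ (t a) := fun a => by
    rw [← MulAut.mul_apply, mul_inv_eq_iff_eq_mul.1 hdt, MulAut.mul_apply]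
  have f2 : ∀ a, d (d a) = a → a = 1 := fun a h => hfix a (by
    obtain ⟨k, rfl⟩ := hn
    have : ∀ j : ℕ, (d ^ (2 * j)) a = a := fun j => by
      induction j with
      | zero => rfl
      | succ j ih => rw [mul_add, pow_add, mul_one, sq, MulAut.mul_apply, MulAut.mul_apply, h, ih]
    rw [← this k, ← MulAut.mul_apply, ← pow_succ', hd, MulAut.one_apply, this k])
  have m : ∀ a, a ∈ (MulEquiv.toMonoidHom t).eqLocus (MonoidHom.id A) ↔ t a = a := fun a => Iff.rfl
  refine ⟨eq_bot_iff.2 ?_, eq_top_iff.2 fun x _ => ?_⟩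
  · rintro _ ⟨h1, c, h2, rfl⟩
    have a : t (d c) = d c := h1
    rw [td, (m c).1 h2] at a
    have : c = 1 := f2 c (by rw [← a]; simp)
    rw [this, map_one]; exact one_mem _
  · let φ : A →* A := (MonoidHom.id A) / ((d * d : MulAut A) : A →* A)
    have e : ∀ a, φ a = a / d (d a) := fun a => rfl
    obtain ⟨a, ha⟩ := Finite.injective_iff_surjective.1 ((injective_iff_map_eq_one φ).2 fun a h =>
      f2 a (div_eq_one.1 (e a ▸ h)).symm) x
    rw [← ha, e]
    have : a / d (d a) = (a * t a) / d (d a * t (d a)) := by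
      rw [td, map_mul]; simp
    rw [this]
    refine div_mem (mem_sup_left ((m _).2 ?_)) (mem_sup_right ⟨_, (m _).2 ?_, rfl⟩) <;>
      rw [map_mul, t2, mul_comm]

end Cfsg.Agent.S1899
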