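import Cfsg.Statements.S1900
import Mathlib
import Cfsg.Agent.H9.Cmod
import Cfsg.Agent.H9.Sig
import Cfsg.Agent.H9.Trace
import Cfsg.Agent.H1.Cop2

set_option autoImplicit false
open Cfsg

namespace Cfsg.Agent.S1900

section
open Subgroup CfsgH9
open scoped commutatorElement

theorem aux {G : Type*} [Group G] [Finite G] {N Z X : Subgroup G} (h1 : ⁅N, N⁆ ≤ Z)
    (h2 : N ≤ ⁅N, X⁆ ⊔ Z) (h3 : X ≤ normalizer (N : Set G)) (h4 : X ≤ normalizer (Z : Set G))
    (h5 : N ≤ normalizer (Z : Set G)) (hc : (Nat.card X).Coprime (Nat.card N)) :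
    N ⊓ centralizer (X : Set G) ≤ Z := by
  haveI : IsMulCommutative (im (qn Z) N) := isMulCommutative_iff_comm.2 ((im_qn_comm_iff h5 h5).2 h1)
  have a := CfsgH1.coprime_inf_commutator (V := im (qn Z) N) (im_le_normalizer h3)
    ((hc.coprime_dvd_left (card_im_dvd h4)).coprime_dvd_right (card_im_dvd h5))
  rw [← im_qn_eq_bot (inf_le_left.trans h5), eq_bot_iff, ← a]
  refine le_inf (le_inf (im_mono inf_le_left) (comm_bot_iff.1 ?_)) ?_
  · rw [← im_commutator (inf_le_left.trans h5) h4, comm_bot_iff.2 inf_le_right, im_bot]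
  · rw [← im_commutator h5 h4, im_qn_le_iff (inf_le_left.trans h5)
      ((commutator_le_left_of h3).trans h5)]
    exact inf_le_left.trans h2

theorem aux2 {G : Type*} [Group G] [Finite G] {P A B X : Subgroup G} [P.Normal] (hA : A ≤ P)
    (hB : B ≤ P) (hP : P ≤ normalizer ((⁅A, B⁆ : Subgroup G) : Set G)) (h1 : ⁅X, A⁆ = ⊥)
    (h2 : B ≤ ⁅B, X⁆) (nB : X ≤ normalizer (B : Set G))
    (hc : (Nat.card X).Coprime (Nat.card P)) :
    ⁅A, B⁆ ⊓ centralizer (X : Set G) ≤ ⁅⁅A, B⁆, P⁆ := by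
  have l : ⁅A, B⁆ ≤ P := (commutator_mono hA hB).trans (commutator_le_left_of le_normalizer)
  have nX : X ≤ normalizer ((⁅A, B⁆ : Subgroup G) : Set G) :=
    le_normalizer_commutator (le_normalizer_of_commutator_eq_bot h1) nB
  have nZ : X ≤ normalizer ((⁅⁅A, B⁆, P⁆ : Subgroup G) : Set G) :=
    le_normalizer_commutator nX (le_normalizer_normal _ _)
  refine aux (commutator_mono le_rfl l) ?_ nX nZ (l.trans (le_normalizer_commutator hP le_normalizer))
    (hc.coprime_dvd_right (card_dvd_of_le l))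
  have n : P ≤ normalizer ((⁅⁅A, B⁆, X⁆ ⊔ ⁅⁅A, B⁆, P⁆ : Subgroup G) : Set G) :=
    le_normalizer_of_commutator_le le_sup_right (commutator_mono (sup_le (commutator_le_left_of nX)
      (commutator_le_left_of hP)) le_rfl)
  refine le_trans ?_ (three_subgroups (A := B) (B := X) (C := A) (hB.trans n)
    (le_normalizer_sup (le_normalizer_commutator nX le_normalizer) nZ) (hA.trans n)
    (by rw [h1, commutator_bot_left]; exact bot_le) le_sup_left)
  rw [Subgroup.commutator_comm]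
  exact commutator_mono h2 le_rfl

end

/-- Let S = PQ be a finite group with P a normal Sylow p-subgroup and Q elementary abelian of order q², q a prime different from p. If exactly two subgroups X₁, X₂ of order q in Q have a nontrivial centralizer in P, then P is the internal direct product of C_P(X₁) and C_P(X₂): they commute elementwise, meet trivially and generate P. -/
theorem result {S : Type*} [Group S] [Finite S] {p q : ℕ} [Fact p.Prime] [Fact q.Prime] (hpq : p ≠ q)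
    (P : Sylow p S) [(P : Subgroup S).Normal] (Q : Subgroup S) (hQ : Cfsg.IsElementaryAbelian q Q) (hQc : Nat.card Q = q ^ 2)
    (hS : (P : Subgroup S) ⊔ Q = ⊤)
    (X₁ X₂ : Subgroup S) (h₁ : X₁ ≤ Q) (h₂ : X₂ ≤ Q) (h₁₂ : X₁ ≠ X₂) (hc₁ : Nat.card X₁ = q) (hc₂ : Nat.card X₂ = q)
    (hf₁ : (P : Subgroup S) ⊓ Subgroup.centralizer (X₁ : Set S) ≠ ⊥)
    (hf₂ : (P : Subgroup S) ⊓ Subgroup.centralizer (X₂ : Set S) ≠ ⊥)
    (honly : ∀ X : Subgroup S, X ≤ Q → Nat.card X = q →
      (P : Subgroup S) ⊓ Subgroup.centralizer (X : Set S) ≠ ⊥ → X = X₁ ∨ X = X₂) :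
    ⁅(P : Subgroup S) ⊓ Subgroup.centralizer (X₁ : Set S), (P : Subgroup S) ⊓ Subgroup.centralizer (X₂ : Set S)⁆ = ⊥ ∧
      ((P : Subgroup S) ⊓ Subgroup.centralizer (X₁ : Set S)) ⊓ ((P : Subgroup S) ⊓ Subgroup.centralizer (X₂ : Set S)) = ⊥ ∧
      ((P : Subgroup S) ⊓ Subgroup.centralizer (X₁ : Set S)) ⊔ ((P : Subgroup S) ⊓ Subgroup.centralizer (X₂ : Set S)) = P := by
  open Subgroup CfsgH9 in
  obtain ⟨A, hA⟩ : ∃ A, A = (P : Subgroup S) ⊓ centralizer (X₁ : Set S) := ⟨_, rfl⟩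
  obtain ⟨B, hB⟩ : ∃ B, B = (P : Subgroup S) ⊓ centralizer (X₂ : Set S) := ⟨_, rfl⟩
  rw [← hA, ← hB]
  have cP : (Nat.card (P : Subgroup S)).Coprime q := coprime_of_isPGroup_ne hpq P.isPGroup'
  have cQ := coprime_of_isPGroup (ea_isPGroup hQ) cP
  have n : ∀ X : Subgroup S, X ≤ normalizer ((P : Subgroup S) : Set S) :=
    fun X => le_normalizer_normal _ _
  have nC : ∀ X ≤ Q, Q ≤ normalizer (((P : Subgroup S) ⊓ centralizer (X : Set S) : Subgroup S) : Set S) :=
    fun X h => le_normalizer_inf (n _) (le_normalizer_centralizer (ea_le_normalizer hQ h))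
  have key : ∀ K ≤ (P : Subgroup S), Q ≤ normalizer (K : Set S) → ∀ Y : Subgroup S,
      K ⊓ centralizer (X₁ : Set S) ≤ Y → K ⊓ centralizer (X₂ : Set S) ≤ Y → K ≤ Y :=
    fun K a b Y c d => ea_le_of_centralizers hQ hQc.ge b (coprime_of_le a cP) fun x hx x1 => by
      rw [← centralizer_zpowers]
      by_cases h : (P : Subgroup S) ⊓ centralizer ((zpowers x : Subgroup S) : Set S) = ⊥
      · exact (inf_le_inf_right _ a).trans (h.le.trans bot_le)
      · rcases honly _ (zpowers_le.2 hx) (by rw [Nat.card_zpowers, ea_orderOf hQ hx x1]) h with e | e <;>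
          rwa [e]
  have q1 := (Fact.out : q.Prime).one_lt
  obtain ⟨x, x1, x2⟩ := exists_ne_one_of_ne_bot (ne_bot_of_one_lt_card (A := X₁) (hc₁ ▸ q1))
  obtain ⟨y, y1, y2⟩ := exists_ne_one_of_ne_bot (ne_bot_of_one_lt_card (A := X₂) (hc₂ ▸ q1))
  have z : X₁ ⊓ X₂ = ⊥ := by
    rcases CfsgH1.eq_bot_or_eq_of_card_prime (K := X₁) (hc₁ ▸ Fact.out) inf_le_left with e | e
    · exact e
    · exact absurd (eq_of_le_of_card_ge (inf_eq_left.1 e) (hc₂.trans hc₁.symm).le) h₁₂
  have i : A ⊓ B = ⊥ := by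
    by_contra h
    have o := ea_orderOf hQ (mul_mem (h₁ x1) (h₂ y1)) fun e => x2 (by
      rw [← mem_bot, ← z]; exact mem_inf.2 ⟨x1, eq_inv_of_mul_eq_one_left e ▸ inv_mem y1⟩)
    rcases honly (zpowers (x * y)) (zpowers_le.2 (mul_mem (h₁ x1) (h₂ y1)))
      (by rw [Nat.card_zpowers, o]) (fun e => h (eq_bot_iff.2 (le_trans (le_inf
        (inf_le_left.trans (hA.le.trans inf_le_left)) (le_centralizer_iff.1 (zpowers_le.2 (mul_mem
          (le_centralizer_iff.1 (inf_le_left.trans (hA.le.trans inf_le_right)) x1)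
          (le_centralizer_iff.1 (inf_le_right.trans (hB.le.trans inf_le_right)) y1))))) e.le)))
      with e | e
    · exact y2 (by
        rw [← mem_bot, ← z]; exact mem_inf.2 ⟨(mul_mem_cancel_left x1).1 (e ▸ mem_zpowers _), y1⟩)
    · exact x2 (by
        rw [← mem_bot, ← z]; exact mem_inf.2 ⟨x1, (mul_mem_cancel_right y1).1 (e ▸ mem_zpowers _)⟩)
  have a1 : A ≤ P := hA.le.trans inf_le_left
  have b1 : B ≤ P := hB.le.trans inf_le_left
  have s : A ⊔ B = P := le_antisymm (sup_le a1 b1)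
    (key _ le_rfl (n _) _ (hA.ge.trans le_sup_left) (hB.ge.trans le_sup_right))
  refine ⟨?_, i, s⟩
  have nA : Q ≤ normalizer (A : Set S) := hA ▸ nC _ h₁
  have nB : Q ≤ normalizer (B : Set S) := hB ▸ nC _ h₂
  have nP : (P : Subgroup S) ≤ normalizer ((⁅A, B⁆ : Subgroup S) : Set S) :=
    s.ge.trans (sup_le (normalizer_commutator_ge_left _ _) (normalizer_commutator_ge_right _ _))
  have g : ∀ X ≤ Q, ∀ B ≤ (P : Subgroup S), Q ≤ normalizer (B : Set S) →
      B ⊓ centralizer (X : Set S) = ⊥ → B ≤ ⁅B, X⁆ := fun X a B b c d => by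
    have := CfsgH1.coprime_commutator_sup_centralizer (a.trans c) ((cQ.coprime_dvd_left
      (card_dvd_of_le a)).coprime_dvd_right (card_dvd_of_le b))
      (Or.inr (CfsgH1.isSolvable_of_isPGroup (P.isPGroup'.to_le b)))
    rw [d, sup_bot_eq] at this
    exact this.ge
  have l : ⁅A, B⁆ ≤ P := (commutator_mono a1 b1).trans (commutator_le_left_of le_normalizer)
  by_contra h
  haveI := P.isPGroup'.isNilpotent
  refine (CfsgH1.commutator_lt_of_isNilpotent l le_rfl nP h).not_ge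
    (key _ l (le_normalizer_commutator nA nB) _ ?_ ?_)
  · exact aux2 a1 b1 nP (comm_bot_iff'.2 (hA.le.trans inf_le_right)) (g _ h₁ _ b1 nB (eq_bot_iff.2
      (le_trans (le_inf (hA ▸ inf_le_inf_right _ b1) inf_le_left) i.le))) (h₁.trans nB)
      (cQ.coprime_dvd_left (card_dvd_of_le h₁))
  · rw [Subgroup.commutator_comm A B] at nP ⊢
    exact aux2 b1 a1 nP (comm_bot_iff'.2 (hB.le.trans inf_le_right)) (g _ h₂ _ a1 nA (eq_bot_iff.2
      (le_trans (le_inf inf_le_left (hB ▸ inf_le_inf_right _ a1)) i.le))) (h₂.trans nA)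
      (cQ.coprime_dvd_left (card_dvd_of_le h₂))

end Cfsg.Agent.S1900
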