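import Cfsg.Statements.S1901
import Mathlib
import Cfsg.Agent.H9.Tech
import Cfsg.Agent.H9.Trace
import Cfsg.Agent.H1.Sep

set_option autoImplicit false
open Cfsg

namespace Cfsg.Agent.S1901

section
open Subgroup CfsgH9
open scoped commutatorElement

theorem aux0 {G : Type*} [Group G] {𝒮 : Set (Set ℕ)} {M : Subgroup G} (h : CfsgH1.SepTo 𝒮 M) :
    M ≠ ⊥ → ∃ N < M, N.Normal ∧ ∃ σ ∈ 𝒮, CfsgH1.PiNum σ (N.relIndex M) := by
  induction h with
  | bot => exact fun h => absurd rfl h
  | step N M σ h1 h2 h3 h4 h5 ih =>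
    intro h
    rcases h2.eq_or_lt with rfl | e
    · exact ih h
    · exact ⟨N, e, h1.normal, σ, h4, h5⟩

theorem aux1 {G : Type*} [Group G] [Finite G] {p : ℕ} [hp : Fact p.Prime] {H : Subgroup G}
    (h : Cfsg.IsPSolvable p H) (h0 : H ≠ ⊥) : Oup p H < H ∨ Oupp p H < H := by
  obtain ⟨N, a, b, σ, c, d⟩ := aux0 ((CfsgH1.isPSolvable_iff hp.out).1 h) (fun e => h0 (by
    rw [← map_subtype_top H, e, Subgroup.map_bot]))
  have l : N.map H.subtype < H :=
    ((map_lt_map_iff_of_injective H.subtype_injective).2 a).trans_eq (map_subtype_top H)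
  rw [relIndex_top_right, ← relIndex_map_subtype] at d
  rcases c with rfl | rfl
  · obtain ⟨k, hk⟩ := (CfsgH1.PiNum.singleton_iff hp.out (by
      rw [relIndex_map_subtype]; exact index_ne_zero_of_finite)).1 d
    exact Or.inl ((Oup_le_of_normal (le_normalizer_map_subtype N) hk).trans_lt l)
  · exact Or.inr ((Oupp_le_of_normal (le_normalizer_map_subtype N)
      ((CfsgH1.PiNum.compl_singleton_iff hp.out).1 d)).trans_lt l)

theorem aux2 {G : Type*} [Group G] [Finite G] {p : ℕ} [hp : Fact p.Prime]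
    (hG : Cfsg.IsPSolvable p G) (H : Subgroup G) : ∀ P Q R : Subgroup G, Syl p P H → Q ≤ H →
    (Nat.card Q).Coprime p → Q ≤ normalizer (P : Set G) → R ≤ H → IsPGroup p R →
    R ≤ normalizer (Q : Set G) → R ≤ centralizer (Q : Set G) := by
  induction H using subgroup_induction with
  | h H ih =>
  intro P Q R hP hQ cQ nP hR pR nQ
  by_cases h0 : H = ⊥
  · rw [h0, le_bot_iff] at hR; rw [hR]; exact bot_le
  rcases aux1 (CfsgH1.IsPSolvable.subgroup' hG H) h0 with h | h
  · have n : H ≤ normalizer (Oup p H : Set G) := le_normalizer_Oup le_normalizer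
    obtain ⟨T, hT⟩ := exists_syl p (Oup p H ⊓ normalizer (Q : Set G))
    have a := ih _ h _ Q T (hP.inf_normal (Oup_le H) n) (le_Oup hQ cQ) cQ
      (le_normalizer_inf nP (hQ.trans n)) (hT.le.trans inf_le_left) hT.pg (hT.le.trans inf_le_right)
    have b := (hT.im (f := Q.normalizerMonoidHom) inf_le_right).eq_bot_iff.1
      ((im_eq_bot_iff (hT.le.trans inf_le_right)).2 (by rwa [kr_normalizerMonoidHom]))
    have c : H = (P ⊓ centralizer (Q : Set G)) ⊔ Oup p H := by
      refine le_antisymm (hP.sup_Oup.ge.trans (sup_le ?_ le_sup_right))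
        (sup_le (inf_le_left.trans hP.le) (Oup_le H))
      refine (CfsgH1.coprime_commutator_sup_centralizer nP (coprime_of_isPGroup hP.pg cQ).symm
        (Or.inr (CfsgH1.isSolvable_of_isPGroup hP.pg))).ge.trans (sup_le ?_ le_sup_left)
      exact ((commutator_mono le_rfl (le_Oup hQ cQ)).trans
        (commutator_le_right_of (hP.le.trans n))).trans le_sup_right
    have d : R ≤ (Oup p H ⊓ normalizer (Q : Set G)) ⊔ centralizer (Q : Set G) := by
      have := inf_sup_of_le_normalizer (A := P ⊓ centralizer (Q : Set G)) (B := Oup p H)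
        (C := normalizer (Q : Set G)) (inf_le_left.trans (hP.le.trans n))
        (inf_le_right.trans (centralizer_le_normalizer _))
      rw [← c] at this
      exact (le_inf hR nQ).trans (this.le.trans (sup_le (inf_le_right.trans le_sup_right) le_sup_left))
    rw [← kr_normalizerMonoidHom] at d ⊢
    exact (im_eq_bot_iff nQ).1 (isPGroup_coprime_eq_bot (isPGroup_im pR)
      (coprime_of_le ((im_le_im_iff nQ inf_le_right).2 d) b))
  · have n : H ≤ normalizer (Oupp p H : Set G) := le_normalizer_Oupp le_normalizer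
    have l : ⁅Q, R⁆ ≤ Q := commutator_le_left_of nQ
    have a := ih _ h P ⁅Q, R⁆ R (hP.of_le (le_Oupp hP.le hP.pg) (Oupp_le H))
      ((commutator_mono le_rfl (le_Oupp hR pR)).trans (commutator_le_right_of (hQ.trans n)))
      (coprime_of_le l cQ) (l.trans nP) (le_Oupp hR pR) pR (le_normalizer_commutator nQ le_normalizer)
    exact CfsgH1.coprime_le_centralizer_of_commutator nQ (coprime_of_isPGroup pR cQ)
      (Or.inl (CfsgH1.isSolvable_of_isPGroup pR)) (le_centralizer_iff.1 a)

end

/-- Let G be a finite p-solvable group and Q a subgroup of order prime to p such that p divides the index of C_G(Q) in N_G(Q). Then Q normalizes no Sylow p-subgroup of G. -/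
theorem result {G : Type*} [Group G] [Finite G] {p : ℕ} [Fact p.Prime]
    (hG : Cfsg.IsPSolvable p G) (Q : Subgroup G) (hQ : ¬ p ∣ Nat.card Q)
    (hA : p ∣ (Subgroup.centralizer (Q : Set G)).relIndex (Subgroup.normalizer (Q : Set G)))
    (P : Sylow p G) : ¬ Q ≤ Subgroup.normalizer ((P : Subgroup G) : Set G) := by
  open Subgroup CfsgH9 in
  intro h
  obtain ⟨T, hT⟩ := exists_syl p (normalizer (Q : Set G))
  exact hT.not_dvd_relIndex (aux2 hG ⊤ P Q T (syl_sylow P) le_top (coprime_iff_not_dvd.2 hQ) h le_top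
    hT.pg hT.le) hA

end Cfsg.Agent.S1901
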