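import Cfsg.Statements.S1902
import Mathlib
import Cfsg.Agent.H9.Tech
import Cfsg.Agent.H9.Trace
import Cfsg.Agent.H9.Sig

set_option autoImplicit false
open Cfsg

namespace Cfsg.Agent.S1902

/-- Let p be an odd prime, G a finite p-solvable group, and B an elementary abelian subgroup of order p² such that B is the subgroup generated by the elements of order p of some Sylow p-subgroup of C_G(b₀), for some nontrivial b₀ ∈ B. Then every B-invariant subgroup of G of order prime to p lies in O_{p'}(G). -/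
theorem result {G : Type*} [Group G] [Finite G] {p : ℕ} [Fact p.Prime] (hp : p ≠ 2)
    (hG : Cfsg.IsPSolvable p G) (B : Subgroup G) (hB : Cfsg.IsElementaryAbelian p B) (hBc : Nat.card B = p ^ 2)
    (b₀ : G) (hb₀ : b₀ ∈ B) (hb₁ : b₀ ≠ 1) (P : Sylow p ↥(Subgroup.centralizer ({b₀} : Set G)))
    (hBP : B = Subgroup.closure {x : G | x ∈ ((P : Subgroup ↥(Subgroup.centralizer ({b₀} : Set G))).map
      (Subgroup.centralizer ({b₀} : Set G)).subtype : Subgroup G) ∧ orderOf x = p})
    (Q : Subgroup G) (hQ : ¬ p ∣ Nat.card Q) (hinv : ∀ b ∈ B, ∀ x ∈ Q, b * x * b⁻¹ ∈ Q) :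
    Q ≤ Cfsg.pPrimeCore p G := by
  open Subgroup CfsgH9 in
  obtain ⟨f, hf⟩ : ∃ f, f = tp (QuotientGroup.mk' (Cfsg.pPrimeCore p G)) := ⟨_, rfl⟩
  have k : kr f = Cfsg.pPrimeCore p G := by rw [hf, kr_tp_mk']
  have s : Function.Surjective f := hf ▸ tp_surjective (QuotientGroup.mk'_surjective _)
  have kc : (Nat.card (kr f)).Coprime p := by rw [k]; exact pPrimeCore_coprime p
  have hP := syl_of_sylow P
  obtain ⟨R, hR⟩ : ∃ R, R = (P : Subgroup (centralizer ({b₀} : Set G))).map
    (centralizer ({b₀} : Set G)).subtype := ⟨_, rfl⟩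
  rw [← hR] at hP hBP
  have n := le_normalizer_iff_forall.2 hinv
  rw [← k, ← im_eq_bot_iff le_top]
  refine (chP_quot_of_pSolvable hG).eq_bot_of_invariant hp (isPGroup_im (f := f) (ea_isPGroup hB))
    (le_normalizer_normal _ _) (fun x h1 h2 h3 => im_le_normalizer n ?_)
    (coprime_im le_top (coprime_iff_not_dvd.2 hQ)) le_top (im_le_normalizer n)
  have e := im_inf_centralizer_singleton (f := f) (K := ⊤) (k := 1)
    ((ea_orderOf hB hb₀ hb₁).trans (pow_one p).symm) (mem_top b₀) le_top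
    (le_normalizer (mem_top _)) (coprime_of_le inf_le_left kc)
  rw [top_inf_eq, im_top s, top_inf_eq] at e
  have a := hP.im (f := f) le_top
  rw [e] at a
  obtain ⟨y, hy, rfl⟩ := a.Op_le (Op_inf_le_Op (le_normalizer_normal _ _) (mem_inf.2 ⟨h1,
    centralizer_le_centralizer_singleton (mem_im_of_mem (mem_top _) hb₀) h2⟩))
  have b : (y : G) ^ p = 1 := by
    rw [← mem_bot, ← inf_eq_bot_of_p_pp hP.pg kc]
    refine mem_inf.2 ⟨pow_mem hy p, ⟨y ^ p, ?_, rfl⟩⟩
    rw [SetLike.mem_coe, MonoidHom.mem_ker, map_pow, h3]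
  refine mem_im_of_mem y.2 ?_
  by_cases y1 : (y : G) = 1
  · rw [y1]; exact one_mem _
  · rw [hBP]; exact subset_closure ⟨hy, orderOf_eq_prime b y1⟩

end Cfsg.Agent.S1902
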