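import Cfsg.Statements.S1903
import Cfsg.Agent.H5.C320
import Cfsg.Agent.H8.U3e

set_option autoImplicit false
open Cfsg

namespace Cfsg.Agent.S1903

open CfsgH8 CfsgH5 CfsgH2 CfsgH5.C320 Subgroup Matrix
open scoped commutatorElement

/-- Diagonal matrices. -/
def DD {F : Type*} [Field F] (a : F) : Matrix (Fin 3) (Fin 3) F := !![a, 0, 0; 0, a ^ 3, 0; 0, 0, a]

theorem shape {F : Type*} [Field F] [CharP F 2] {σ : F →+* F} (hσ : ∀ u, σ u = u ^ 4) {α : F} (hα : α + σ α = 1)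
    (A : SU 3 F 4) {z : F} (hz : z ≠ 0) (h : mm8 α A * MU8 σ 0 z = MU8 σ 0 z * mm8 α A) :
    ∃ a : F, a ^ 5 = 1 ∧ ∃ k : Hs σ, mm8 α A = MU8 σ k.y k.z * DD a := by
  have d : (mm8 α A).det = 1 := by
    rw [mm8, det_mul, det_mul, A.1.2, mul_one, ← det_mul, PI_PM8, det_one]
  have J := mm8_J hσ hα A
  generalize mm8 α A = M at h d J ⊢
  have h1 := congrFun (congrFun h 0) 0
  have h2 := congrFun (congrFun h 0) 1
  have h3 := congrFun (congrFun h 0) 2
  have h4 := congrFun (congrFun h 1) 2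
  simp [MU8, Matrix.mul_apply, Fin.sum_univ_three, hz] at h1 h2 h3 h4
  have h5 : M 2 2 = M 0 0 := mul_left_cancel₀ hz (by linear_combination -h3)
  have j1 := J ![1, 0, 0] ![0, 0, 1]
  have j2 := J ![0, 1, 0] ![0, 0, 1]
  have j3 := J ![0, 0, 1] ![0, 0, 1]
  simp [JF8, Matrix.mulVec, dotProduct, Fin.sum_univ_three, h1, h2, h4, h5] at j1 j2 j3
  rw [det_fin_three] at d
  simp only [h1, h2, h4, h5] at d
  have a5 : M 0 0 ^ 5 = 1 := by rw [hσ] at j1; linear_combination j1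
  have two : (2 : F) = 0 := CharTwo.two_eq_zero
  refine ⟨M 0 0, a5, ⟨M 1 2 * M 0 0 ^ 4, M 0 2 * M 0 0 ^ 4, ?_⟩, ?_⟩
  · simp only [map_mul, map_pow]
    rw [hσ (M 0 0)] at j3 ⊢
    grind
  · ext i j
    rw [hσ (M 0 0)] at j2
    fin_cases i <;> fin_cases j <;> simp [MU8, DD, Matrix.mul_apply, Fin.sum_univ_three, h1, h2, h4, h5, hσ (M 0 0)] <;>
      grind

/-- A finite group of order 320 whose derived subgroup has order 64 and has centre a Klein four-group is isomorphic to the centralizer of an involution in PSU₃(4). -/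
theorem result {G : Type*} [Group G] [Finite G] (hG : Nat.card G = 320) (hD : Nat.card (commutator G) = 64)
    (hZ : IsKleinFour (Subgroup.center (commutator G)))
    {F : Type*} [Field F] [Fintype F] (hF : Fintype.card F = 16) :
    ∃ t : Cfsg.PSU 3 F 4, orderOf t = 2 ∧ Nonempty (G ≃* Subgroup.centralizer ({t} : Set (Cfsg.PSU 3 F 4))) := by
  haveI : CharP F 2 := charP_of_card_eq_prime_pow (p := 2) (f := 4) hF
  obtain ⟨σ, H⟩ := exists_UF (F := F) (q := 4) hF
  haveI hs : Fact (∀ a, σ (σ a) = a) := ⟨H.invol⟩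
  obtain ⟨α, hα⟩ := exists_alpha H.ne_id hs.out
  have hσ := H.pow
  obtain ⟨ι, hι, -⟩ := exists_iota hσ hα
  haveI : Fact (Nat.Prime 5) := ⟨by norm_num⟩
  obtain ⟨ζu, hζu⟩ := exists_prime_orderOf_dvd_card' (G := Fˣ) 5 (by
    rw [Nat.card_units, Nat.card_eq_fintype_card, hF]; norm_num)
  have hζ : IsPrimitiveRoot (ζu : F) 5 := IsPrimitiveRoot.coe_units_iff.2 (hζu ▸ IsPrimitiveRoot.orderOf ζu)
  generalize (ζu : F) = ζ at hζ
  have z5 := hζ.pow_eq_one
  have z1 := hζ.ne_one (by norm_num)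
  have two : (2 : F) = 0 := CharTwo.two_eq_zero
  obtain ⟨s, hs1⟩ := exists_mm8 hσ hα (DD ζ) (by simp [DD, Matrix.det_fin_three]; grind) fun u v => by
    simp [DD, JF8, Matrix.mulVec, dotProduct, Fin.sum_univ_three, hσ ζ]; grind
  have sp : ∀ i : ℕ, mm8 α (s ^ i) = DD (ζ ^ i) := fun i => by
    induction i with
    | zero => rw [pow_zero, mm8_one]; ext i j; fin_cases i <;> fin_cases j <;> simp [DD]
    | succ i ih =>
      rw [pow_succ, mm8_mul, ih, hs1]
      ext i j; fin_cases i <;> fin_cases j <;> simp [DD, Matrix.mul_apply, Fin.sum_univ_three] <;> ring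
  have zi : ∀ i : ℕ, (ζ ^ i) ^ 5 = 1 := fun i => by rw [← pow_mul, mul_comm, pow_mul, z5, one_pow]
  let φ : ℕ → Hs σ → Hs σ := fun i k => ⟨(ζ ^ i) ^ 2 * k.y, k.z, by
    have := zi i
    rw [k.h, map_mul, hσ ((ζ ^ i) ^ 2)]; grind⟩
  have cj1 : ∀ i k, cn s (ι k) i = ι (φ i k) := fun i k => by
    rw [cn, mul_inv_eq_iff_eq_mul]
    refine mm8_inj (α := α) ?_
    rw [mm8_mul, mm8_mul, sp, hι, hι]
    have := zi i
    ext a b; fin_cases a <;> fin_cases b <;> simp [φ, DD, MU8, Matrix.mul_apply, Fin.sum_univ_three, hσ ζ, pow_right_comm ζ 4 i] <;>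
      grind
  have inj : Function.Injective ι := fun a b e => by
    have e1 := congrArg (mm8 α) e
    rw [hι, hι] at e1
    exact Hs.ext (by simpa [MU8] using congrFun (congrFun e1 1) 2) (by simpa [MU8] using congrFun (congrFun e1 0) 2)
  have mz : ∀ k : Hs σ, k.y = 0 → ι k ∈ (center (Hs σ)).map ι := fun k hk => mem_map_of_mem ι ((Hs.mem_center hα).2 hk)
  have c1 : ∀ k, s * ι k * s⁻¹ = ι (φ 1 k) := fun k => by rw [← cj1, cn, pow_one]
  obtain ⟨_, ⟨w, hw, rfl⟩, R⟩ := exists_rel (r := s) (T := ι.range) (Z := (center (Hs σ)).map ι) (a := ι (Hs.lift hα 1))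
    (mm8_inj (α := α) (by rw [sp, mm8_one, z5]; ext i j; fin_cases i <;> fin_cases j <;> simp [DD]))
    (mem_norm_of_map_le (map_cj_le_iff'.2 (by rintro _ ⟨k, rfl⟩; exact ⟨_, (c1 k).symm⟩)))
    (mem_cent_iff.2 (by
      rintro _ ⟨k, hk, rfl⟩
      have e := c1 k
      rw [show φ 1 k = k from Hs.ext (by simp [φ, (Hs.mem_center hα).1 hk]) rfl, mul_inv_eq_iff_eq_mul] at e
      exact e.symm))
    (map_le_range _ _)
    (by
      rintro _ ⟨k, hk, rfl⟩
      refine mem_cent_iff.2 ?_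
      rintro _ ⟨l, rfl⟩
      rw [← map_mul, ← map_mul, mem_center_iff.1 hk l])
    (by
      rintro _ ⟨k, rfl⟩ _ ⟨l, rfl⟩
      rw [← map_commutatorElement]
      exact mz _ (by simp [commutatorElement_def]))
    (by rintro _ ⟨k, rfl⟩; rw [← map_pow, sq]; exact mz _ (Hs.sq_y k))
    (by rintro _ ⟨k, hk, rfl⟩; rw [← map_pow, sq, Hs.sq_eq_one.2 ((Hs.mem_center hα).1 hk), map_one])
    ⟨_, rfl⟩
    (by
      simp only [cj1, ← map_mul]
      refine mz _ ?_
      have := hζ.geom_sum_eq_zero (by norm_num)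
      simp [Finset.sum_range_succ] at this
      simp [φ, Hs.lift]
      grind)
  rw [← map_mul] at R
  have cy : (Hs.lift hα 1 * w).y = 1 := by simp [Hs.lift, (Hs.mem_center hα).1 hw]
  generalize Hs.lift hα 1 * w = c at R cy
  have nc : ∀ i, ⁅ι c, cn s (ι c) i⁆ = 1 → (ζ ^ i) ^ 2 = ((ζ ^ i) ^ 2) ^ 4 := fun i e => by
    rw [cj1, commutatorElement_eq_one_iff_mul_comm, ← map_mul, ← map_mul] at e
    simpa [φ, cy, hσ] using Hs.comm_iff.1 (inj e)
  have k3 : ι c ^ 2 ≠ 1 := fun e => by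
    rw [← map_pow, sq, map_eq_one_iff ι inj, Hs.sq_eq_one, cy] at e
    exact one_ne_zero e
  obtain ⟨ψ, p1, p2⟩ := main hG hD hZ R (fun e => by have := nc 1 e; grind) (fun e => by have := nc 2 e; grind) k3
  have mt : mm8 α (ι c ^ 2) = MU8 σ 0 1 := by rw [← map_pow, sq, hι, Hs.sq_y, Hs.sq_z, cy, map_one, mul_one]
  have cs : ∀ A : SU 3 F 4, A * ι c ^ 2 = ι c ^ 2 * A → ∃ i < 5, ∃ k, A = ι k * s ^ i := fun A e => by
    obtain ⟨a, ha, k, hk⟩ := shape hσ hα A one_ne_zero (by rw [← mt, ← mm8_mul, ← mm8_mul, e])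
    obtain ⟨i, hi, rfl⟩ := hζ.eq_pow_of_pow_eq_one ha
    exact ⟨i, hi, k, mm8_inj (α := α) (by rw [hk, mm8_mul, hι, sp])⟩
  have ce : center (SU 3 F 4) = ⊥ := eq_bot_iff.2 fun A hA => by
    obtain ⟨a, ha, k, hk⟩ := shape hσ hα A one_ne_zero (by
      rw [← mt, ← mm8_mul, ← mm8_mul, mem_center_iff.1 hA])
    obtain ⟨T, hT⟩ := exists_MT8 hσ hα
    have e1 := congrArg (mm8 α) (mem_center_iff.1 hA T)
    have e2 := congrArg (mm8 α) (mem_center_iff.1 hA (ι c))
    rw [mm8_mul, mm8_mul, hk] at e1 e2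
    rw [hT] at e1
    rw [hι, cy] at e2
    have a0 : a ≠ 0 := by rintro rfl; simp at ha
    have f1 := congrFun (congrFun e1 0) 0
    have f2 := congrFun (congrFun e1 1) 0
    have f3 := congrFun (congrFun e2 1) 2
    simp [MU8, MT8, DD, Matrix.mul_apply, Fin.sum_univ_three, a0] at f1 f2 f3
    have a1 : a = 1 := by grind
    refine mem_bot.2 (mm8_inj (α := α) ?_)
    rw [hk, mm8_one, f1, f2, a1]
    ext i j; fin_cases i <;> fin_cases j <;> simp [DD, MU8, Matrix.mul_apply, Fin.sum_univ_three]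
  let π : SU 3 F 4 →* PSU 3 F 4 := QuotientGroup.mk' _
  have pi : Function.Injective π := (MonoidHom.ker_eq_bot_iff π).1 (by rw [QuotientGroup.ker_mk', ce])
  refine ⟨π (ι c ^ 2), ?_, ?_⟩
  · rw [orderOf_injective π pi]
    exact orderOf_eq_prime R.s2 k3
  · have q : Function.Injective (π.comp ψ) := pi.comp p1
    have le : (π.comp ψ).range ≤ centralizer {π (ι c ^ 2)} := by
      rintro _ ⟨g, rfl⟩
      exact mem_centralizer_singleton_iff.2 ((p2 g).map π).eq
    have cc : Nat.card (centralizer {π (ι c ^ 2)} : Subgroup (PSU 3 F 4)) ≤ 320 := by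
      have m := (Nat.card_mono (Set.toFinite _) (show (centralizer {π (ι c ^ 2)} : Subgroup (PSU 3 F 4)).carrier ⊆
        Set.range fun t : Hs σ × Fin 5 => π (ι t.1 * s ^ t.2.1) from fun x hx => by
          obtain ⟨A, rfl⟩ := QuotientGroup.mk'_surjective _ x
          obtain ⟨i, hi, k, rfl⟩ := cs A (pi (by
            rw [map_mul, map_mul]; exact mem_centralizer_singleton_iff.1 hx))
          exact ⟨⟨k, i, hi⟩, rfl⟩))
      haveI : Finite (Hs σ) := Nat.finite_of_card_ne_zero (by rw [Hs.card_UF H]; norm_num)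
      refine m.trans ((Finite.card_range_le _).trans ?_)
      rw [Nat.card_prod, Hs.card_UF H]; simp
    exact ⟨(MonoidHom.ofInjective q).trans (MulEquiv.subgroupCongr (eq_of_le_of_card_ge le (by
      rw [← Nat.card_congr (MonoidHom.ofInjective q).toEquiv, hG]; exact cc)))⟩

end Cfsg.Agent.S1903
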