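import Cfsg.Statements.S1905
import Mathlib
import Cfsg.Agent.H9.SPE
import Cfsg.Agent.L0.StrEmb
import Cfsg.Agent.S1225

set_option autoImplicit false
open Cfsg

namespace Cfsg.Agent.S1905

/-- Let M be a subgroup of even order of a finite group S such that M contains the centralizer in S of each of its involutions and the normal core of M in S has odd order. Then all involutions of S are conjugate. If moreover N_S(X) ≤ M for a Sylow 2-subgroup X of M and I is an involution in the centre of X, then all involutions of M are conjugate in M and M = M₀ C_M(I) for some subgroup M₀ of M of odd order. -/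
theorem result {S : Type*} [Group S] [Finite S] (M : Subgroup S) (hM : Even (Nat.card M))
    (hC : ∀ i ∈ M, orderOf i = 2 → Subgroup.centralizer ({i} : Set S) ≤ M) (hcore : Odd (Nat.card M.normalCore)) :
    (∀ x y : S, orderOf x = 2 → orderOf y = 2 → IsConj x y) ∧
      ∀ (X : Sylow 2 M) (I : M), I ∈ (Subgroup.center ↥(X : Subgroup ↥M)).map (X : Subgroup ↥M).subtype → orderOf I = 2 →
        Subgroup.normalizer (((X : Subgroup M).map M.subtype : Subgroup S) : Set S) ≤ M →
        (∀ x y : M, orderOf x = 2 → orderOf y = 2 → IsConj x y) ∧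
          ∃ M₀ : Subgroup M, Odd (Nat.card M₀) ∧
            ∀ m : M, ∃ a ∈ M₀, ∃ c ∈ Subgroup.centralizer ({I} : Set M), m = a * c := by
  open Subgroup CfsgH9 in
  obtain ⟨i, iM, hi⟩ := CfsgL0.even_card_iff.1 hM
  obtain ⟨u, hu, uM⟩ : ∃ u, orderOf u = 2 ∧ u ∉ M := by
    by_contra! h
    refine CfsgL0.odd_card_iff.1 hcore i (fun b => h _ ?_) hi
    rw [CfsgH9.orderOf_conj, hi]
  have k : ∀ i ∈ M, orderOf i = 2 → ∀ u, orderOf u = 2 → u ∉ M → IsConj i u := fun i a b u c d => by
    rcases CfsgL0.conj_or_common (CfsgL0.inv_mul_self b) (CfsgL0.inv_mul_self c) with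
      ⟨k, e⟩ | ⟨m, -, e1, e2, e3⟩
    · exact isConj_iff.2 ⟨_, e⟩
    · exact absurd (hC _ (hC i a b (mem_centralizer_singleton_iff.2 e2.eq)) e1
        (mem_centralizer_singleton_iff.2 e3.eq.symm)) d
  refine ⟨fun x y a b => ?_, fun X I h1 h2 h3 => ?_⟩
  · by_cases c : x ∈ M <;> by_cases d : y ∈ M
    · exact (k x c a u hu uM).trans (k y d b u hu uM).symm
    · exact k x c a y b d
    · exact (k y d b x a c).symm
    · exact (k i iM hi x a c).symm.trans (k i iM hi y b d)
  have hX := syl_of_sylow X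
  have s := spe_of_centralizer (H := ⊤) (M := M) (lt_top_iff_ne_top.2 fun e => uM (e ▸ mem_top _)) hX
    (inf_le_right.trans h3) fun x a b => inf_le_right.trans (hC x (hX.le a) b)
  have se : Cfsg.IsStronglyEmbedded M := CfsgL0.se_iff.2 ⟨s.lt.ne, ⟨i, iM, hi⟩,
    fun t a b g c => s.mem t a b g (mem_top _) c⟩
  have t : ∀ x y : M, orderOf x = 2 → orderOf y = 2 →
      ∃ d ∈ (M ⊓ cj u M).subgroupOf M, d * x * d⁻¹ = y := fun x y a b => by
    obtain ⟨d, d1, d2⟩ := (Cfsg.Agent.S1225.result M se u hu uM x y (by rw [orderOf_coe, a]) x.2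
      (by rw [orderOf_coe, b]) y.2).1
    exact ⟨⟨d, d1.1⟩, d1, Subtype.ext d2⟩
  refine ⟨fun x y a b => ?_, (M ⊓ cj u M).subgroupOf M, ?_, fun m => ?_⟩
  · obtain ⟨d, -, e⟩ := t x y a b
    exact isConj_iff.2 ⟨d, e⟩
  · rw [card_subgroupOf_of_le inf_le_left]; exact se.2.2 u uM
  · obtain ⟨d, d1, e⟩ := t I (m * I * m⁻¹) h2 (by rw [CfsgH9.orderOf_conj, h2])
    refine ⟨d, d1, d⁻¹ * m, mem_centralizer_singleton_iff.2 ?_, by group⟩
    calc d⁻¹ * m * I = d⁻¹ * (m * I * m⁻¹) * m := by group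
      _ = _ := by rw [← e]; group

end Cfsg.Agent.S1905
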