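import Cfsg.Statements.S1906
import Mathlib
import Cfsg.Agent.L0.GL3i

set_option autoImplicit false
open Cfsg

namespace Cfsg.Agent.S1906

open Subgroup CfsgH2 CfsgL0 Function

/-- Let G be a finite group with no subgroup of index 2 whose Sylow 2-subgroup X embeds in GL₃(F) for a finite field F of odd order. If X contains an elementary abelian subgroup of order 8, then X is abelian. -/
theorem result {G : Type*} [Group G] [Finite G] (hG : ∀ H : Subgroup G, H.index ≠ 2) (X : Sylow 2 G)
    {F : Type*} [Field F] [Fintype F] (hF : Odd (Fintype.card F))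
    (f : ↥(X : Subgroup G) →* GL (Fin 3) F) (hf : Function.Injective f)
    (E : Subgroup G) (hE : E ≤ (X : Subgroup G)) (hEa : Cfsg.IsElementaryAbelian 2 E) (hE8 : Nat.card E = 8) :
    IsMulCommutative (X : Subgroup G) := by
  have h2 : (2 : F) ≠ 0 := Ring.two_ne_zero fun e => by
    have := FiniteField.even_card_of_char_two e
    rw [Nat.odd_iff] at hF
    omega
  let φ : (X : Subgroup G) →* Matrix (Fin 3) (Fin 3) F := (Units.coeHom _).comp f
  have hφ : Injective φ := Units.val_injective.comp hf
  obtain ⟨z, hz⟩ := i3_neg h2 hE8 (fun a b => hEa.1.is_comm.comm a b)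
    (fun a => Subtype.ext ((pow_two _).symm.trans (hEa.2 a a.2))) (φ.comp (inclusion hE))
    (hφ.comp (inclusion_injective hE))
  change φ (inclusion hE z) = -1 at hz
  generalize inclusion hE z = z at hz
  have zc : ∀ x, x * z = z * x := fun x => hφ (by rw [map_mul, map_mul, hz, mul_neg_one, neg_one_mul])
  have zz : z * z = 1 := hφ (by rw [map_mul, hz, map_one, neg_mul_neg, one_mul])
  let δ : (X : Subgroup G) →* Fˣ := Matrix.GeneralLinearGroup.det.comp f
  have hδ : ∀ x, δ x = 1 ↔ (φ x).det = 1 := fun x => Units.ext_iff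
  have zd : δ z ≠ 1 := fun e => by
    rw [hδ, hz, Matrix.det_neg, Matrix.det_one, Fintype.card_fin] at e
    exact h2 (by linear_combination -e)
  have s := syl_top X
  have l : (X : Subgroup G) ≤ ⁅(⊤ : Subgroup G), ⊤⁆ :=
    by_contra fun l => let ⟨N, _, e⟩ := exists_index_p s l; hG N e
  have e : (δ.ker.map (X : Subgroup G).subtype).subgroupOf X = δ.ker :=
    comap_map_eq_self_of_injective (subtype_injective _) _
  haveI : ((δ.ker.map (X : Subgroup G).subtype).subgroupOf X).Normal := by rw [e]; infer_instance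
  obtain ⟨g, ⟨t, ht, e1⟩, hg⟩ := CfsgH9.extremal_transfer (S := X) (T := δ.ker.map (X : Subgroup G).subtype)
    (R := X) (y := z) (Syl.odd_index s) (isCyclic_of_surjective _
      ((QuotientGroup.quotientMulEquivOfEq e).trans (QuotientGroup.quotientKerEquivRange δ)).symm.surjective)
    ((pow_two _).trans (congrArg Subtype.val zz)) z.2
    (fun ⟨y, hy, e⟩ => zd (Subtype.ext e ▸ hy)) (map_subtype_le _) (l z.2) X.isPGroup'
    (fun x hx => mem_centralizer_singleton_iff.2 (congrArg Subtype.val (zc ⟨x, hx⟩)))
  have gn : g ∈ normalizer ((X : Subgroup G) : Set G) := mem_norm_of_map_le hg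
  let β : (X : Subgroup G) →* (X : Subgroup G) :=
    ((MulAut.conj g⁻¹).toMonoidHom.comp (X : Subgroup G).subtype).codRestrict _ fun x =>
      (mem_normalizer_iff.1 (inv_mem gn) x).1 x.2
  have hβ : Injective β := fun a b h => Subtype.ext ((MulAut.conj g⁻¹).injective (congrArg Subtype.val h))
  have βt : β t = z := Subtype.ext (by
    change g⁻¹ * (X : Subgroup G).subtype t * g⁻¹⁻¹ = z
    rw [e1]; group)
  by_contra hn
  have c0 : commutator (X : Subgroup G) ≠ ⊥ := fun h => hn ⟨⟨fun a b =>
    commutatorElement_eq_one_iff_mul_comm.1 (mem_bot.1 (h.le (commutator_mem_commutator trivial trivial)))⟩⟩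
  obtain ⟨k, hk⟩ := (X.isPGroup'.to_subgroup (commutator (X : Subgroup G))).exists_card_eq
  obtain ⟨u, hu⟩ := exists_prime_orderOf_dvd_card' (G := commutator (X : Subgroup G)) 2 (by
    rw [hk]
    refine dvd_pow_self 2 fun k0 => c0 ?_
    rwa [k0, pow_zero, card_eq_one] at hk)
  rw [← orderOf_coe] at hu
  have ut := i3_comm h2 φ hφ (s := t) (u := u) (hβ (by rw [map_mul, βt, zz, map_one]))
    (fun h => zd (by rw [← βt, h, map_one, map_one])) ((hδ t).1 ht)
    (fun x => hβ (by rw [map_mul, map_mul, βt, zc]))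
    ((pow_two _).symm.trans (orderOf_dvd_iff_pow_eq_one.1 hu.dvd)) (fun h => by rw [h, orderOf_one] at hu; omega) u.2
  have : β u ∈ commutator (X : Subgroup G) := by
    exact commutator_mono le_top le_top ((map_commutator ⊤ ⊤ β).le (mem_map_of_mem β u.2))
  rw [ut, βt] at this
  exact zd (Abelianization.commutator_subset_ker δ this)

end Cfsg.Agent.S1906
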