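import Cfsg.Statements.S1907
import Mathlib
import Cfsg.Agent.H9.PLay
import Cfsg.Agent.H9.Trace
import Cfsg.Agent.H9.Sig

set_option autoImplicit false
open Cfsg

namespace Cfsg.Agent.S1907

/-- Let P be a Sylow p-subgroup of a finite group G, H = P ∩ O_{p',p}(G), N = N_G(H) and D = O_{p'}(G). (a) If y is an element of p-power order of N and d ∈ D with d⁻¹ y d ∈ N, then d = d₁ d₂ with d₁ ∈ C_D(y) and d₂ ∈ C_D(H). (b) Two elements of P that are conjugate in G are conjugate in N. -/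
theorem result {G : Type*} [Group G] [Finite G] {p : ℕ} [Fact p.Prime] (P : Sylow p G) :
    (∀ y ∈ Subgroup.normalizer (((P : Subgroup G) ⊓ Cfsg.pPrimePCore p G : Subgroup G) : Set G), (∃ k : ℕ, orderOf y = p ^ k) →
      ∀ d ∈ Cfsg.pPrimeCore p G, d⁻¹ * y * d ∈ Subgroup.normalizer (((P : Subgroup G) ⊓ Cfsg.pPrimePCore p G : Subgroup G) : Set G) →
        ∃ d₁ ∈ Cfsg.pPrimeCore p G ⊓ Subgroup.centralizer ({y} : Set G),
          ∃ d₂ ∈ Cfsg.pPrimeCore p G ⊓ Subgroup.centralizer (((P : Subgroup G) ⊓ Cfsg.pPrimePCore p G : Subgroup G) : Set G), d = d₁ * d₂) ∧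
    ∀ x y : G, x ∈ (P : Subgroup G) → y ∈ (P : Subgroup G) → IsConj x y →
      ∃ n ∈ Subgroup.normalizer (((P : Subgroup G) ⊓ Cfsg.pPrimePCore p G : Subgroup G) : Set G), n * x * n⁻¹ = y := by
  open Subgroup CfsgH9 in
  obtain ⟨H, hH⟩ : ∃ H, H = (P : Subgroup G) ⊓ Cfsg.pPrimePCore p G := ⟨_, rfl⟩
  obtain ⟨D, hD⟩ : ∃ D, D = Cfsg.pPrimeCore p G := ⟨_, rfl⟩
  rw [← hH, ← hD]
  haveI nD : D.Normal := hD ▸ inferInstance
  have cD : (Nat.card D).Coprime p := hD ▸ pPrimeCore_coprime p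
  have nO : (⊤ : Subgroup G) ≤ normalizer (Oppp p (⊤ : Subgroup G) : Set G) :=
    le_normalizer_Oppp le_normalizer
  have sH : Syl p H (Oppp p ⊤) := by
    rw [hH, ← Oppp_top]; exact (syl_sylow P).inf_normal le_top nO
  have e : H ⊔ D = Oppp p ⊤ := by rw [hD, ← Opp_top]; exact syl_Oppp_sup sH
  have nH : (P : Subgroup G) ≤ normalizer (H : Set G) := by
    rw [hH, ← Oppp_top]; exact le_normalizer_inf le_normalizer (le_top.trans nO)
  have cc : D ⊓ normalizer (H : Set G) ≤ centralizer (H : Set G) := by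
    rw [← comm_bot_iff, eq_bot_iff, ← inf_eq_bot_of_p_pp sH.pg cD]
    exact le_inf (commutator_le_right_of inf_le_right) ((commutator_mono inf_le_left le_rfl).trans
      (commutator_le_left_of (le_normalizer_normal _ _)))
  have A : ∀ y ∈ normalizer (H : Set G), (∃ k : ℕ, orderOf y = p ^ k) → ∀ d ∈ D,
      d⁻¹ * y * d ∈ normalizer (H : Set G) → ∃ d₁ ∈ D ⊓ centralizer ({y} : Set G),
        ∃ d₂ ∈ D ⊓ centralizer (H : Set G), d = d₁ * d₂ := by
    rintro y hy ⟨k, hk⟩ d hd h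
    have n : zpowers y ≤ normalizer ((D ⊓ normalizer (H : Set G) : Subgroup G) : Set G) :=
      le_normalizer_inf (le_normalizer_normal _ _) ((zpowers_le.2 hy).trans le_normalizer)
    obtain ⟨n, hn, a⟩ := CfsgH1.coprime_fixed_coset (k := d) n
      (coprime_of_isPGroup (isPGroup_zpowers hk) (coprime_of_le inf_le_left cD))
      (Or.inl (isSolvable_of_comm_bot (zpowers_comm y))) (by
        rintro _ ⟨j, rfl⟩
        refine mem_inf.2 ⟨mul_mem (inv_mem hd) (nD.conj_mem _ hd _), ?_⟩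
        have : d⁻¹ * (y ^ j * d * (y ^ j)⁻¹) = (d⁻¹ * y * d) ^ j * (y ^ j)⁻¹ := by
          have := @conj_zpow G _ j d⁻¹ y
          rw [inv_inv] at this
          rw [this]; group
        rw [this]
        exact mul_mem (zpow_mem h j) (inv_mem (zpow_mem hy j)))
    rw [centralizer_zpowers] at a
    exact ⟨d * n, mem_inf.2 ⟨mul_mem hd hn.1, a⟩, n⁻¹, inv_mem (mem_inf.2 ⟨hn.1, cc hn⟩), by group⟩
  refine ⟨A, fun x y hx hy h => ?_⟩
  obtain ⟨g, rfl⟩ := isConj_iff.1 h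
  obtain ⟨o, ho, n, hn, e1⟩ := sH.frattini nO (mem_top g⁻¹)
  rw [← e] at ho
  obtain ⟨d, hd, u, hu, rfl⟩ := (mem_sup_of_le_normalizer' (A := D) (le_normalizer_normal H D)).1
    (sup_comm H D ▸ ho)
  obtain ⟨m, hm⟩ : ∃ m, m = u * n := ⟨_, rfl⟩
  have hm1 : m ∈ normalizer (H : Set G) := hm ▸ mul_mem (le_normalizer hu) hn
  have e2 : g = m⁻¹ * d⁻¹ := by rw [hm, ← mul_inv_rev, ← mul_assoc, ← e1, inv_inv]
  obtain ⟨d₁, h1, d₂, h2, rfl⟩ := A x (nH hx) (exists_orderOf_of_mem P.isPGroup' hx) d hd (by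
    have := mul_mem (mul_mem hm1 (nH hy)) (inv_mem hm1)
    rw [e2] at this
    convert this using 1; group)
  refine ⟨m⁻¹ * d₂⁻¹, mul_mem (inv_mem hm1) (inv_mem (centralizer_le_normalizer _ (mem_inf.1 h2).2)), ?_⟩
  have := mem_centralizer_singleton_iff.1 (mem_inf.1 h1).2
  rw [e2]
  calc m⁻¹ * d₂⁻¹ * x * (m⁻¹ * d₂⁻¹)⁻¹ = m⁻¹ * d₂⁻¹ * d₁⁻¹ * (d₁ * x) * (m⁻¹ * d₂⁻¹)⁻¹ := by group
    _ = _ := by rw [this]; group

end Cfsg.Agent.S1907
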