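import Cfsg.Statements.S1924
import Mathlib
import Cfsg.Agent.H9.Sgn
import Cfsg.Agent.H9.Gen

set_option autoImplicit false
open Cfsg

namespace Cfsg.Agent.S1924

section
open Subgroup CfsgH9
open scoped commutatorElement

theorem dih_aux {n : ℕ} (hn : 2 ≤ n) (C : Subgroup (DihedralGroup n)) (hC : IsCyclic C)
    (hi : C.index = 2) {x : DihedralGroup n} (hx : x ∉ C) : x ^ 2 = 1 := by
  haveI : NeZero n := ⟨by omega⟩
  have hc : Nat.card C = n := by
    have := C.card_mul_index
    rw [hi, DihedralGroup.nat_card] at this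
    omega
  obtain ⟨y, -, hy⟩ := exists_zpowers_of_isCyclic hC
  cases x with
  | sr i => simp [pow_two]
  | r i =>
    cases y with
    | sr j =>
      rw [← hy, Nat.card_zpowers, DihedralGroup.orderOf_sr] at hc
      subst hc
      rw [pow_two, DihedralGroup.r_mul_r, CharTwo.add_self_eq_zero]; rfl
    | r j =>
      have hr : ∀ k : ZMod n, DihedralGroup.r k ∈ zpowers (DihedralGroup.r (1 : ZMod n)) := fun k =>
        ⟨k.val, by simp [DihedralGroup.r_one_pow]⟩
      have : C = zpowers (DihedralGroup.r (1 : ZMod n)) := eq_of_le_of_card_ge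
        (by rw [← hy]; exact zpowers_le.2 (hr j))
        (by rw [Nat.card_zpowers, DihedralGroup.orderOf_r_one, hc])
      exact (hx (this ▸ hr i)).elim

end

/-- A consequence of Thompson's transfer lemma. Let G be a finite group, L a subgroup with O²(L) = L, T a Sylow 2-subgroup of L and S a Sylow 2-subgroup of G containing T. Suppose D ≤ S is a dihedral subgroup of order at least 4 (the four-group counts) with D ∩ T = 1 and S = TD as a set of products (so |S| = |T|·|D|), and C ≤ D is cyclic of index 2 in D. If no involution of D outside C is G-conjugate to an involution of the subgroup generated by T and C, and the involution of C is not G-conjugate to any involution of T, then G has a normal subgroup K, containing every Sylow 2-subgroup of L as a Sylow 2-subgroup, with G = KD. -/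
theorem result {G : Type*} [Group G] [Finite G] (L T S D C : Subgroup G) (hL : Cfsg.pResidual 2 ↥L = ⊤)
    (hTL : T ≤ L) (hT2 : IsPGroup 2 T) (hTsyl : ¬ 2 ∣ T.relIndex L)
    (hS2 : IsPGroup 2 S) (hSsyl : ¬ 2 ∣ S.index) (hTS : T ≤ S)
    (hDS : D ≤ S) (hDih : ∃ n : ℕ, 2 ≤ n ∧ Nonempty (↥D ≃* DihedralGroup n)) (hDT : D ⊓ T = ⊥) (hTD : T ⊔ D = S) (hTDc : Nat.card T * Nat.card D = Nat.card S)
    (hCD : C ≤ D) (hC : IsCyclic ↥C) (hCi : C.relIndex D = 2)
    (h1 : ∀ x ∈ D, x ∉ C → orderOf x = 2 → ∀ g : G, g * x * g⁻¹ ∈ T ⊔ C → False)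
    (h2 : ∀ c ∈ C, orderOf c = 2 → ∀ g : G, g * c * g⁻¹ ∈ T → False) :
    ∃ K : Subgroup G, K.Normal ∧ K ⊔ D = ⊤ ∧
      ∀ T' : Subgroup G, T' ≤ L → IsPGroup 2 T' → ¬ 2 ∣ T'.relIndex L → T' ≤ K ∧ ¬ 2 ∣ T'.relIndex K := by
  open Subgroup CfsgH9 in
  haveI : Fact (Nat.Prime 2) := ⟨Nat.prime_two⟩
  have hinv : ∀ x ∈ D, x ∉ C → orderOf x = 2 := by
    intro x hx hxC
    obtain ⟨n, hn, ⟨e⟩⟩ := hDih
    have := dih_aux hn ((C.subgroupOf D).map e.toMonoidHom)
      (isCyclic_of_surjective _ (((subgroupOfEquivOfLe hCD).symm.trans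
        (e.subgroupMap (C.subgroupOf D))).surjective))
      (by rw [← hCi]; exact index_map_of_bijective e.bijective _) (x := e ⟨x, hx⟩) (by
        rintro ⟨y, hy, h⟩
        obtain rfl : y = ⟨x, hx⟩ := e.injective h
        exact hxC hy)
    rw [← map_pow, map_eq_one_iff _ e.injective] at this
    exact orderOf_eq_prime (congrArg Subtype.val this) fun h => hxC (h ▸ C.one_mem)
  open scoped Pointwise in
  have hprod : (T : Set G) * (D : Set G) = S := by
    refine Set.eq_of_subset_of_ncard_le (Set.mul_subset_iff.2 fun a ha b hb =>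
      S.mul_mem (hTS ha) (hDS hb)) ?_
    have := card_set_mul_mul_card_inf T D
    rw [inf_comm, hDT, card_bot, mul_one, hTDc] at this
    exact this.ge
  have hcard : ∀ X : Subgroup G, T ≤ X → X ≤ S →
      Nat.card X = Nat.card T * Nat.card (D ⊓ X : Subgroup G) := by
    intro X a b
    have := card_set_mul_mul_card_inf T (D ⊓ X)
    rw [← inf_assoc, inf_comm T, hDT, bot_inf_eq, card_bot, mul_one] at this
    rw [← this]
    refine congrArg (fun s : Set G => Nat.card s) (Set.Subset.antisymm (fun x hx => ?_)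
      (Set.mul_subset_iff.2 fun u hu v hv => X.mul_mem (a hu) hv.2))
    obtain ⟨t, ht, d, hd, rfl⟩ := hprod.ge (b hx)
    exact ⟨t, ht, d, ⟨hd, (X.mul_mem_cancel_left (a ht)).1 hx⟩, rfl⟩
  have hS : Syl 2 S ⊤ := ⟨le_top, hS2, by rwa [relIndex_top_right]⟩
  set K := Oup 2 (⊤ : Subgroup G)
  have hKn : ⊤ ≤ normalizer (K : Set G) := le_normalizer_Oup le_normalizer
  have hKK : Oup 2 K = K := Oup_Oup ⊤
  have hLK : L ≤ K := by
    have := Oup_eq (p := 2) L
    rw [hL, map_subtype_top] at this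
    exact this.le.trans (Oup_mono le_top)
  have hS0 := hS.inf_normal le_top hKn
  have hm : Odd ((S ⊓ K).relIndex K) := Nat.not_even_iff_odd.1 fun e => hS0.nd e.two_dvd
  have hT0 : T ≤ S ⊓ K := le_inf hTS (hTL.trans hLK)
  have key : ∀ M : Subgroup G, T ≤ M → M ≤ S ⊓ K → M.relIndex K =
      (D ⊓ M).relIndex (D ⊓ K) * (S ⊓ K).relIndex K := by
    intro M a b
    rw [← relIndex_mul_relIndex M (S ⊓ K) K b inf_le_right]
    congr 1
    have c1 := card_mul_relIndex b
    have c2 := card_mul_relIndex (inf_le_inf_left D (b.trans inf_le_right))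
    rw [hcard M a (b.trans inf_le_left), hcard _ hT0 inf_le_left, ← inf_assoc, inf_eq_left.2 hDS,
      ← c2, mul_assoc] at c1
    exact Nat.eq_of_mul_eq_mul_left Nat.card_pos (Nat.eq_of_mul_eq_mul_left Nat.card_pos c1)
  have hDC : D ⊓ K ≤ C := by
    intro x hx
    by_contra hxC
    have ho := hinv x hx.1 hxC
    refine not_free (T := (T ⊔ C) ⊓ K) hKK hx.2 (by rw [ho]; decide) (fun g _ k hk => ?_) hm ?_
    · rcases Nat.even_or_odd' k with ⟨j, rfl | rfl⟩
      · rw [pow_mul, ← ho, pow_orderOf_eq_one, one_pow]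
      · rw [pow_succ, pow_mul, ← ho, pow_orderOf_eq_one, one_pow, one_mul] at hk
        exact (h1 x hx.1 hxC ho g hk.1).elim
    · rw [key _ (le_inf le_sup_left (hTL.trans hLK))
        (inf_le_inf_right _ (sup_le hTS (hCD.trans hDS))), ho]
      congr 1
      have e : D ⊓ (T ⊔ C) = C := by
        refine le_antisymm (fun y hy => by_contra fun hyC => h1 y hy.1 hyC (hinv y hy.1 hyC) 1 ?_)
          (le_inf hCD le_sup_right)
        simpa using hy.2
      rw [← inf_assoc, e]
      have d1 : (C ⊓ K).relIndex (D ⊓ K) ≤ 2 := by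
        rw [← hCi]
        have : C ⊓ K = C ⊓ (D ⊓ K) := by rw [← inf_assoc, inf_eq_left.2 hCD]
        rw [this, inf_relIndex_right]
        exact relIndex_le_of_le_right inf_le_left (by rw [hCi]; decide)
      have d2 : (C ⊓ K).relIndex (D ⊓ K) ≠ 1 := fun e => hxC (relIndex_eq_one.1 e hx).1
      have d3 : (C ⊓ K).relIndex (D ⊓ K) ≠ 0 := index_ne_zero_of_finite
      omega
  have hD0 : D ⊓ K = ⊥ := by
    by_contra h0
    haveI : IsCyclic (D ⊓ K : Subgroup G) := isCyclic_of_le hDC
    obtain ⟨c, hcm, hc⟩ := exists_zpowers_of_isCyclic this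
    have hp2 : IsPGroup 2 (D ⊓ K : Subgroup G) := hS2.to_le (inf_le_left.trans hDS)
    obtain ⟨u, hu, huo⟩ := exists_orderOf_prime_of_ne_bot hp2 h0
    refine not_free (T := T) hKK hcm.2 ?_ (fun g _ k hk => ?_) hm ?_
    · rw [← Nat.card_zpowers, hc, even_iff_two_dvd, ← huo, ← orderOf_mk u hu]
      exact orderOf_dvd_natCard _
    · by_contra hne
      have hle : zpowers (c ^ k) ≤ D ⊓ K := zpowers_le.2 (pow_mem hcm k)
      obtain ⟨v, hv, hvo⟩ := exists_orderOf_prime_of_ne_bot (hp2.to_le hle) (by simpa using hne)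
      refine h2 v (hDC (hle hv)) hvo g ?_
      obtain ⟨j, rfl⟩ := hv
      have := T.zpow_mem hk j
      rwa [conj_zpow] at this
    · rw [key T le_rfl hT0, hDT, relIndex_bot_left, ← hc, Nat.card_zpowers]
  have hST : S ⊓ K = T := by
    refine (eq_of_le_of_card_ge hT0 ?_).symm
    rw [hcard _ hT0 inf_le_left, ← inf_assoc, inf_eq_left.2 hDS, hD0, card_bot, mul_one]
  refine ⟨K, normal_of_top_le hKn, ?_, fun T' a b c => ⟨a.trans hLK, ?_⟩⟩
  · rw [eq_top_iff, ← hS.sup_Oup, ← hTD]
    exact sup_le (sup_le (le_sup_of_le_left (hTL.trans hLK)) le_sup_right) le_sup_left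
  · rw [hST] at hS0
    exact (hS0.of_card_le b (a.trans hLK) (Syl.card_eq ⟨hTL, hT2, hTsyl⟩ ⟨a, b, c⟩).le).nd

end Cfsg.Agent.S1924
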