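import Cfsg.Statements.S1939
import Mathlib
import Cfsg.Agent.H9.EA
import Cfsg.Agent.H9.Resid

set_option autoImplicit false
open Cfsg

namespace Cfsg.Agent.S1939

/-- Let S be a Sylow p-subgroup of the finite group G and a an element of S that is the only G-conjugate of a lying in S. Then every power of a has the same property: for every n, the only G-conjugate of a^n lying in S is a^n. -/
theorem result {G : Type*} [Group G] [Finite G] {p : ℕ} [Fact p.Prime] (S : Sylow p G) (a : G)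
    (haS : a ∈ (S : Subgroup G)) (hwc : ∀ g : G, g * a * g⁻¹ ∈ (S : Subgroup G) → g * a * g⁻¹ = a) (n : ℕ) :
    ∀ g : G, g * a ^ n * g⁻¹ ∈ (S : Subgroup G) → g * a ^ n * g⁻¹ = a ^ n := by
  open Subgroup CfsgH9 in
  intro g hg
  have hS := syl_sylow S
  obtain ⟨c, hc⟩ : ∃ c, c = g * a ^ n * g⁻¹ := ⟨_, rfl⟩
  have e0 : c = (g * a * g⁻¹) ^ n := by rw [hc, conj_pow]
  rw [← hc] at hg ⊢
  obtain ⟨k, hk⟩ := exists_orderOf_of_mem S.isPGroup' haS
  have h1 : a ∈ centralizer ({c} : Set G) := mem_centralizer_singleton_iff.2 (by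
    have := hwc c (S.1.mul_mem (S.1.mul_mem hg haS) (S.1.inv_mem hg))
    rw [mul_inv_eq_iff_eq_mul] at this; exact this.symm)
  have h2 : g * a * g⁻¹ ∈ centralizer ({c} : Set G) := mem_centralizer_singleton_iff.2 (by
    rw [e0]; exact (Commute.self_pow _ n).eq)
  obtain ⟨R, hR, hR1⟩ := exists_syl_ge (isPGroup_zpowers hk) (zpowers_le.2 h1)
  obtain ⟨h, hh, hh1⟩ := hR.exists_cj_le (isPGroup_zpowers (by rw [CfsgH9.orderOf_conj, hk]))
    (zpowers_le.2 h2)
  obtain ⟨u, -, hu⟩ := hS.exists_cj_le hR.pg le_top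
  have a1 := hwc u (hu (conj_mem_cj u (hR1 (mem_zpowers a))))
  have a2 := hwc (u * h * g) (by
    have := hu (conj_mem_cj u (hh1 (conj_mem_cj h (mem_zpowers _))))
    convert this using 1; group)
  have a3 : h * (g * a * g⁻¹) * h⁻¹ = a := by
    have : u * (h * (g * a * g⁻¹) * h⁻¹) * u⁻¹ = u * a * u⁻¹ := by
      rw [a1]; refine Eq.trans ?_ a2; group
    exact mul_left_cancel (mul_right_cancel this)
  have a4 : h * c * h⁻¹ = c := by
    rw [mem_centralizer_singleton_iff.1 hh, mul_inv_cancel_right]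
  rw [← a4, e0, ← conj_pow, a3]

end Cfsg.Agent.S1939
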