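import Cfsg.Statements.S1940
import Mathlib
import Cfsg.Agent.H9.Trace

set_option autoImplicit false
open Cfsg

namespace Cfsg.Agent.S1940

/-- Let the finite group L act by automorphisms on the finite abelian group M, and let N be an L-invariant subgroup of M such that M/N is a p-group on which L acts trivially (every l • m lies in the coset mN). If every element of M is a product of an element of N and an element fixed by a Sylow p-subgroup T of L, then every element of M is a product of an element of N and an element fixed by all of L. -/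
theorem result {L : Type*} [Group L] [Finite L] {M : Type*} [CommGroup M] [Finite M] [MulDistribMulAction L M]
    {p : ℕ} [Fact p.Prime] (N : Subgroup M) (hN : ∀ (l : L) (m : M), m ∈ N → l • m ∈ N)
    (hquot : IsPGroup p (M ⧸ N)) (htriv : ∀ (l : L) (m : M), (l • m) * m⁻¹ ∈ N) (T : Sylow p L)
    (hT : ∀ m : M, ∃ n ∈ N, ∃ c : M, (∀ t ∈ (T : Subgroup L), t • c = c) ∧ m = n * c) :
    ∀ m : M, ∃ n ∈ N, ∃ c : M, (∀ l : L, l • c = c) ∧ m = n * c := by
  open Subgroup CfsgH9 in
  intro m
  obtain ⟨n, hn, c, hc, rfl⟩ := hT m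
  obtain ⟨φ, hφ⟩ : ∃ φ, φ = MulDistribMulAction.toMulAut L M := ⟨_, rfl⟩
  have e : ∀ l v, φ l v = l • v := fun l v => by rw [hφ]; rfl
  let F : Subgroup M :=
    { carrier := {c | ∀ l : L, l • c = c}
      mul_mem' := fun h1 h2 l => by rw [smul_mul', h1 l, h2 l]
      one_mem' := fun l => smul_one l
      inv_mem' := fun h l => by rw [smul_inv', h l] }
  have h1 : trA φ T ⊤ c ∈ F := fun l => by
    have := trA_conj φ (S := T) (C := ⊤) (v := c) (fun s hs => by rw [e, hc s hs]) (g := l) (h := 1)
      (fun _ _ => mem_top _) (one_mem _)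
    rwa [e, map_one, MulAut.one_apply] at this
  have h2 := trA_mem φ T ⊤ (v := c) (U := N) fun l _ => by rw [e]; exact htriv l c
  have h3 : c ^ (T : Subgroup L).relIndex ⊤ ∈ N ⊔ F := by
    have := mul_mem (mem_sup_left (T := F) (inv_mem h2)) (mem_sup_right (S := N) h1)
    rwa [mul_inv_rev, inv_inv, inv_mul_cancel_right] at this
  have h4 : (QuotientGroup.mk' N c) ∈ (N ⊔ F).map (QuotientGroup.mk' N) :=
    mem_of_pow_mem_p (P := ⊤) (hquot.to_subgroup _) (mem_top _) (syl_sylow T).nd
      (by rw [← map_pow]; exact mem_map_of_mem _ h3)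
  have h5 : c ∈ N ⊔ F := by
    have : c ∈ ((N ⊔ F).map (QuotientGroup.mk' N)).comap (QuotientGroup.mk' N) := h4
    rwa [comap_map_mk, sup_eq_left.2 le_sup_left] at this
  obtain ⟨n', a, c', b, rfl⟩ := mem_sup.1 h5
  exact ⟨n * n', mul_mem hn a, c', b, (mul_assoc _ _ _).symm⟩

end Cfsg.Agent.S1940
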