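import Cfsg.Statements.S1941
import Mathlib
import Cfsg.Agent.H9.Stab
import Cfsg.Agent.H9.Gl2

set_option autoImplicit false
open Cfsg

namespace Cfsg.Agent.S1941

/-- Let G be a finite group with no nontrivial normal subgroup of order prime to p, T a Sylow p-subgroup of G and E(G) the layer of G (the subgroup generated by its components). An automorphism of G of p-power order that fixes T and E(G) elementwise is inner. -/
theorem result {G : Type*} [Group G] [Finite G] {p : ℕ} [Fact p.Prime] (hcore : Cfsg.pPrimeCore p G = ⊥)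
    (T : Sylow p G) (α : MulAut G) (hα : ∃ j : ℕ, orderOf α = p ^ j) (hfixT : ∀ x ∈ (T : Subgroup G), α x = x)
    (hfixE : ∀ x ∈ Cfsg.layer G, α x = x) : ∃ g : G, ∀ x : G, α x = g * x * g⁻¹ := by
  open Subgroup CfsgH9 in
  open SemidirectProduct in
  obtain ⟨j, hj⟩ := hα
  have a := mem_sup_centralizer_of_syl (t := (inr α : Hol G)) (hol_Opp hcore)
    ((syl_sylow T).map_of_injective inl_injective) (hol_norm fun _ _ => mem_top _) (hol_cent.2 hfixT)
    (by rw [← map_Lay inl_injective, Lay_top]; exact hol_cent.2 hfixE)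
    (isPGroup_zpowers (by rw [orderOf_injective _ inr_injective, hj]))
  obtain ⟨_, ⟨g, hg, rfl⟩, c, b, e⟩ := (mem_sup_of_le_normalizer (le_normalizer_centralizer
    le_normalizer)).1 a
  refine ⟨g, fun x => inl_injective (φ := MonoidHom.id (MulAut G)) ?_⟩
  rw [← hol_conj, ← e, map_mul, map_mul, map_inv, mul_assoc _ c,
    ← mem_centralizer_iff.1 b _ ⟨x, mem_top x, rfl⟩]
  group

end Cfsg.Agent.S1941
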