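import Mathlib
import Cfsg.Statements.S1949
import Cfsg.Agent.H2.Pq4
import Cfsg.Agent.H9.Gl2

set_option autoImplicit false
open Cfsg

namespace Cfsg.Agent.S1949

open Subgroup CfsgH2 SemidirectProduct CfsgH9
open scoped commutatorElement

section
variable {G : Type*} [Group G] [Finite G] {p : ℕ} [hp : Fact p.Prime] {P Q M : Subgroup G}

theorem crit (hP : IsPGroup p P) (hQ : Q ≤ P) (hM : P ≤ M) (m1 : M ≤ N[P]) (m2 : M ≤ N[Q]) :
    ∃ H, H ≤ Q ∧ M ≤ N[H] ∧ Φ[H] ≤ Z[H] ∧ ⁅H, P⁆ ≤ Z[H] ∧ Q ⊓ C[H] = Z[H] := by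
  obtain ⟨A, -, ⟨h1, h2, h3⟩, hmax⟩ := exists_maximal_ge
    (fun B => B ≤ Q ∧ M ≤ N[B] ∧ IsMulCommutative B) (H := ⊥)
    ⟨bot_le, by rw [norm_bot]; exact le_top, inferInstance⟩
  have n1 : P ≤ N[A] := hM.trans h2
  have a1 : A ≤ Q ⊓ C[A] := le_inf h1 (le_cent_self h3)
  set X := omegaOne p (Z[qt A P] ⊓ qt A (Q ⊓ C[A])) with hX
  have hX1 : X ≤ Z[qt A P] := omegaOne_le.trans inf_le_left
  have b1 : qc A X ≤ Q ⊓ C[A] := qc_le (inf_le_left.trans (hQ.trans n1)) a1 (omegaOne_le.trans inf_le_right)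
  have b2 : M ≤ N[qc A X] := le_norm_qc h2 (le_norm_omegaOne' (le_norm_inf
    ((qt_le_norm m1).trans norm_le_norm_center) (qt_le_norm (le_norm_inf m2 (le_norm_cent h2)))))
  have b3 : A ≤ C[qc A X] := le_centralizer_iff.1 (b1.trans inf_le_right)
  have b4 : Z[qc A X] = A := hmax _ ⟨inf_le_left.trans (b1.trans inf_le_left),
    b2.trans norm_le_norm_center, isMulComm_cent_inf _⟩ (le_inf le_qc b3)
  refine ⟨qc A X, b1.trans inf_le_left, b2, ?_, ?_, ?_⟩ <;> rw [b4]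
  · refine phi_le_of_elem_qt (p := p) qc_le_norm ?_
    rw [qt_qc]; exact elem_omegaOne (isMulComm_of_le (isMulComm_cent_inf _) inf_le_left)
  · rw [← qt_le_cent_iff qc_le_norm n1, qt_qc]; exact hX1.trans inf_le_right
  · by_contra hne
    obtain ⟨L, c1, c2, c3, c4, c5, -⟩ := exists_step hP (hP.to_le ((inf_le_left (b := C[qc A X])).trans hQ))
      (lt_of_le_of_ne (le_inf h1 b3) (Ne.symm hne)) n1
      (le_norm_inf (hM.trans m2) (le_norm_cent (hM.trans b2)))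
    have : L ≤ qc A X := by
      rw [← qt_le_iff c3]
      refine le_omegaOne_of_card (le_inf (le_inf (qt_mono (c2.trans (inf_le_left.trans hQ)))
        ((qt_le_cent_iff c3 n1).2 c5)) (qt_mono (c2.trans (inf_le_inf_left _ (cent_anti le_qc)))))
        ((card_qt c3).trans c4)
    rw [relIndex_eq_one.2 ((le_inf this (c2.trans inf_le_right)).trans b4.le)] at c4
    exact hp.out.one_lt.ne c4

theorem crit2 (hP : IsPGroup p P) (hQ : Q ≤ P) (hM : P ≤ M) (m1 : M ≤ N[P]) (m2 : M ≤ N[Q]) :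
    ∃ D, D ≤ Q ∧ M ≤ N[D] ∧ (∀ d ∈ D, d ^ p = 1 ∨ (p = 2 ∧ d ^ 4 = 1)) ∧ ⁅D, P⁆ ≤ Z[D] ∧
      ∀ A ≤ M, ¬ p ∣ Nat.card A → ⁅P, A⁆ ≤ Q → A ≤ C[D] → A ≤ C[P] := by
  obtain ⟨K, h1, h2, h3, h4, h5⟩ := crit hP hQ hM m1 m2
  have h6 : ⁅K, K⁆ ≤ C[K] := (commutator_mono le_rfl (h1.trans hQ)).trans (h4.trans inf_le_right)
  have pK := hP.to_le (h1.trans hQ)
  have k : ∀ q, (∀ d ∈ omegaOne q K, d ^ p = 1 ∨ (p = 2 ∧ d ^ 4 = 1)) →
      (∀ A ≤ M, ¬ p ∣ Nat.card A → A ≤ C[omegaOne q K] → A ≤ C[K]) → ∃ D, D ≤ Q ∧ M ≤ N[D] ∧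
      (∀ d ∈ D, d ^ p = 1 ∨ (p = 2 ∧ d ^ 4 = 1)) ∧ ⁅D, P⁆ ≤ Z[D] ∧
      ∀ A ≤ M, ¬ p ∣ Nat.card A → ⁅P, A⁆ ≤ Q → A ≤ C[D] → A ≤ C[P] := fun q a b => by
    have h7 : M ≤ N[omegaOne q K] := h2.trans norm_le_norm_omegaOne
    refine ⟨omegaOne q K, omegaOne_le.trans h1, h7, a, le_inf (comm_le_left (hM.trans h7))
      ((commutator_mono omegaOne_le le_rfl).trans (h4.trans (inf_le_right.trans (cent_anti omegaOne_le)))),
      fun A c d e f => ?_⟩
    have h8 := b A c d f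
    have h9 := coprime_le_cent_of_self_cent (c.trans m2) (coprime_of_not_dvd d (hP.to_le hQ))
      (.inr (isSolvable_of_pgroup (hP.to_le hQ))) (hQ.trans (hM.trans h2))
      (h5.le.trans (inf_le_left.trans (le_centralizer_iff.1 h8))) h8
    exact coprime_le_cent (c.trans m1) (coprime_of_not_dvd d hP) (.inr (isSolvable_of_pgroup hP))
      (e.trans (le_centralizer_iff.1 h9))
  by_cases p2 : p = 2
  · subst p2
    refine k 4 (fun d hd => .inr ⟨rfl, pow_eq_one_of_omegaOne (fun x hx y hy a b => ?_) d hd⟩) fun A a b c =>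
      cent_of_four pK (Nat.odd_iff.2 (by omega)) (a.trans h2) fun x d e => le_centralizer_iff.1 c (mem_omegaOne d e)
    have c := commutator_mem_commutator hy hx
    have d := exp_commutator_self h6 (fun a ha => (h3 (pow_mem_phi pK ha)).2) _ c
    have e : (x * y) ^ 2 = ⁅y, x⁆ * (x ^ 2 * y ^ 2) := by
      rw [← mul_assoc, pow_two x, ← mul_assoc, (commute_of_mem_cent (h6 c) hx).eq]
      simp [pow_two, commutatorElement_def, mul_assoc]
    have f1 := (h3 (pow_mem_phi pK hx)).2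
    have f2 := (h3 (pow_mem_phi pK hy)).2
    rw [show 4 = 2 * 2 from rfl, pow_mul, e, (commute_of_mem_cent (h6 c) (mul_mem (pow_mem hx 2) (pow_mem hy 2))).mul_pow, d,
      (commute_of_mem_cent f1 (pow_mem hy 2)).mul_pow, ← pow_mul, ← pow_mul, a, b, one_mul, one_mul]
  · exact k p (fun d hd => .inl (SmallClass.exp_omegaOne (.inl ⟨p2, h6⟩) d hd)) fun A a b c =>
      coprime_odd_faithful_omega p2 b K pK (a.trans h2) c

end

/-- Let P be a finite p-group and G a group of automorphisms of P containing the inner automorphisms. Then there is a G-invariant subgroup D of P, contained in the subgroup generated by the elements x⁻¹α(x) with x in P and α in O^p(G), of exponent dividing p when p is odd and dividing 4 when p = 2, with [D, P] ≤ Z(D), such that every automorphism in G of order prime to p that fixes D elementwise is the identity; moreover every maximal abelian subgroup A of D is normal in P and every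 automorphism in G fixing A elementwise has p-power order. -/
theorem result {P : Type*} [Group P] [Finite P] {p : ℕ} [Fact p.Prime] (hP : IsPGroup p P)
    (G : Subgroup (MulAut P)) (hG : Cfsg.Inn P ≤ G) :
    ∃ D : Subgroup P,
      (∀ α ∈ G, D.map α.toMonoidHom = D) ∧
      D ≤ Subgroup.closure {y : P | ∃ α ∈ Cfsg.pResidual p ↥G, ∃ x : P, y = x⁻¹ * (α : MulAut P) x} ∧
      (∀ d ∈ D, d ^ p = 1 ∨ (p = 2 ∧ d ^ 4 = 1)) ∧
      ⁅D, (⊤ : Subgroup P)⁆ ≤ D ⊓ Subgroup.centralizer (D : Set P) ∧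
      (∀ α ∈ G, (orderOf α).Coprime p → (∀ d ∈ D, α d = d) → α = 1) ∧
      ∀ A : Subgroup P, A ≤ D → IsMulCommutative ↥A →
        (∀ B : Subgroup P, A ≤ B → B ≤ D → IsMulCommutative ↥B → B = A) →
        A.Normal ∧ ∀ α ∈ G, (∀ a ∈ A, α a = a) → ∃ k : ℕ, orderOf α = p ^ k := by
  have hp : p.Prime := Fact.out
  let ι : P →* Hol P := inl
  have ii : Function.Injective ι := inl_injective
  generalize hQ : Subgroup.closure {y : P | ∃ α ∈ Cfsg.pResidual p ↥G, ∃ x : P, y = x⁻¹ * (α : MulAut P) x} = Q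
  have q1 : ∀ β ∈ G, ∀ y ∈ Q, β y ∈ Q := fun β hβ y hy => by
    refine (hQ.ge.trans ((closure_le (K := comap β.toMonoidHom Q)).2 ?_)) hy
    rintro _ ⟨α, a, x, rfl⟩
    exact hQ.le <| subset_closure ⟨⟨β, hβ⟩ * α * ⟨β, hβ⟩⁻¹, (pResidual_normal (p := p) (G := G)).conj_mem α a _, β x, by simp⟩
  have nm : ∀ A : Subgroup P, (∀ β ∈ G, ∀ y ∈ A, β y ∈ A) → (⊤ : Subgroup P).map ι ⊔ G.map inr ≤ N[A.map ι] := fun A a =>
    sup_le (by
      rintro _ ⟨g, -, rfl⟩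
      exact le_normalizer_map ι ⟨g, mem_normalizer_fintype fun y hy => a _ (hG ⟨g, rfl⟩) y hy, rfl⟩) (by
      rintro _ ⟨β, b, rfl⟩
      exact hol_norm (a β b))
  obtain ⟨D, d1, d2, d3, d4, d5⟩ := crit2 (hP.to_subgroup ⊤ |>.map ι) (map_mono le_top : Q.map ι ≤ _) le_sup_left
    (nm ⊤ fun _ _ _ _ => trivial) (nm Q q1)
  obtain ⟨D, rfl⟩ : ∃ E : Subgroup P, E.map ι = D := ⟨_, map_comap_eq_self (d1.trans (map_le_range _ _))⟩
  have e1 : ∀ β ∈ G, ∀ y ∈ D, β y ∈ D := fun β b y hy => (mem_map_iff_mem ii).1 (by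
    rw [← hol_conj]
    exact conj_mem_of_norm (d2 (mem_sup_right ⟨β, b, rfl⟩)) ⟨y, hy, rfl⟩)
  have e4 : ⁅D, (⊤ : Subgroup P)⁆ ≤ Z[D] := fun x hx => by
    have := d4 (map_commutator D ⊤ ι ▸ mem_map_of_mem ι hx)
    exact ⟨(mem_map_iff_mem ii).1 this.1, fun y hy => ii (by rw [map_mul, map_mul]; exact this.2 _ ⟨y, hy, rfl⟩)⟩
  have cz : ∀ α : MulAut P, (orderOf α).Coprime p → ¬ p ∣ Nat.card (zpowers (inr α : Hol P)) := fun α b => by
    rw [Nat.card_zpowers, orderOf_injective _ inr_injective]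
    exact hp.coprime_iff_not_dvd.1 b.symm
  have e5 : ∀ α ∈ G, (orderOf α).Coprime p → (∀ d ∈ D, α d = d) → α = 1 := fun α a b c => by
    have := d5 (zpowers (inr α)) (zpowers_le.2 (mem_sup_right ⟨α, a, rfl⟩)) (cz α b) (commutator_le.2 (by
      rintro _ ⟨x, -, rfl⟩ _ ⟨k, rfl⟩
      refine ⟨x * (α ^ k) x⁻¹, hQ.le <| Subgroup.subset_closure ⟨(⟨α, a⟩ : G) ^ k, zpow_mem (show (⟨α, a⟩ : G) ∈ pResidual p G from
        Subgroup.subset_closure (by rwa [Set.mem_ofPred_eq, ← Subgroup.orderOf_coe])) k, x⁻¹, by simp⟩, ?_⟩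
      simp only [← map_zpow]
      rw [map_mul, ← hol_conj, map_inv, commutatorElement_def, mul_assoc, mul_assoc, mul_assoc])) (zpowers_le.2 (hol_cent.2 c))
    exact MulEquiv.ext fun x => hol_cent.1 (this (mem_zpowers _)) x trivial
  refine ⟨D, fun α a => eq_of_le_of_card_ge (by rintro _ ⟨y, hy, rfl⟩; exact e1 α a y hy) (card_map_of_injective α.injective).ge,
    (map_le_map_iff_of_injective ii).1 d1, fun d hd => (d3 _ ⟨d, hd, rfl⟩).imp (fun c => ii (by rw [map_pow, c, map_one]))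
    fun c => ⟨c.1, ii (by rw [map_pow, c.2, map_one])⟩, e4, e5, fun A a b c => ?_⟩
  have f1 : D ⊓ C[A] ≤ A := fun x hx => (c _ le_sup_left (sup_le a (zpowers_le.2 hx.1)) (isMulComm_sup_zpowers b hx.2)).le
    (mem_sup_right (mem_zpowers x))
  have f2 : A.Normal := normalizer_eq_top_iff.1 (top_unique (le_normalizer_iff_commutator_le_left.2
    ((commutator_mono a le_rfl).trans (e4.trans ((inf_le_inf_left _ (cent_anti a)).trans f1)))))
  refine ⟨f2, fun α g h => ?_⟩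
  obtain ⟨k, m, m1, m2⟩ := Nat.exists_eq_pow_mul_and_not_dvd (orderOf_pos α).ne' p hp.ne_one
  have o : (orderOf (α ^ p ^ k)).Coprime p := Nat.Coprime.coprime_dvd_left (orderOf_dvd_of_pow_eq_one (n := m) (by
    rw [← pow_mul, ← m2, pow_orderOf_eq_one])) (hp.coprime_iff_not_dvd.2 m1).symm
  have t : zpowers (inr (α ^ p ^ k) : Hol P) ≤ C[A.map ι] := by
    rw [map_pow]
    exact zpowers_le.2 (pow_mem (hol_cent.2 h) _)
  have := coprime_le_cent_of_self_cent (zpowers_le.2 (d2 (mem_sup_right ⟨_, pow_mem g (p ^ k), rfl⟩)))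
    (coprime_of_not_dvd (cz _ o) ((hP.to_subgroup D).map ι)) (.inr (isSolvable_of_pgroup ((hP.to_subgroup D).map ι)))
    ((map_mono le_normalizer_of_normal).trans (le_normalizer_map ι)) (le_trans (by
      rintro _ ⟨⟨x, hx, rfl⟩, b⟩
      exact ⟨x, f1 ⟨hx, fun y hy => ii (by rw [map_mul, map_mul]; exact b _ ⟨y, hy, rfl⟩)⟩, rfl⟩) (le_centralizer_iff.1 t)) t
  obtain ⟨j, -, hj⟩ := (Nat.dvd_prime_pow hp).1 (orderOf_dvd_of_pow_eq_one (e5 _ (pow_mem g _) o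
    (hol_cent.1 (this (mem_zpowers _)))))
  exact ⟨j, hj⟩

end Cfsg.Agent.S1949
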