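import Cfsg.Statements.S2002
import Mathlib
import Cfsg.Agent.H9.FPair

set_option autoImplicit false
open Cfsg

namespace Cfsg.Agent.S2002

/-- Let p be a prime dividing the order of the finite group G, P a Sylow p-subgroup, W a conjugacy functor for p on G with Z(H) ≤ W(H) for every nontrivial p-subgroup H, and V a central functor (a conjugacy functor with V(H) ≤ Z(H), and V(H) ≤ V(K) whenever Z(H) ≤ Z(K)). Say that W with V controls strong fusion in a subgroup L when some Sylow p-subgroup Q of L has the property: whenever X ⊆ Q and a ∈ L with a⁻¹Xa ⊆ Q, then a = c b with c ∈ C_L(X) and b = b₁ ⋯ bₙ a product of elements each in N_L(W(Q)) or in C_L(V(Q)) such that every partial conjugate (b₁ ⋯ bₖ)⁻¹ X (b₁ ⋯ bₖ) lies in Q. If W with V controls strong fusion in N_G(H) for every subgroup H with Z(P) ≤ H ≤ P, then W with V controls strong fusion in G. -/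
theorem result {G : Type*} [Group G] [Finite G] {p : ℕ} [Fact p.Prime] (hdiv : p ∣ Nat.card G) (P : Sylow p G) (W V : Subgroup G → Subgroup G) (hW : Cfsg.IsConjugacyFunctor p W) (hV : Cfsg.IsConjugacyFunctor p V) (hWZ : ∀ H : Subgroup G, IsPGroup p ↥H → H ⊓ Subgroup.centralizer ((H : Subgroup G) : Set G) ≤ W H) (hVZ : ∀ H : Subgroup G, IsPGroup p ↥H → V H ≤ H ⊓ Subgroup.centralizer ((H : Subgroup G) : Set G)) (hVmono : ∀ H K : Subgroup G, IsPGroup p ↥H → IsPGroup p ↥K → H ≠ ⊥ → K ≠ ⊥ → H ⊓ Subgroup.centralizer ((H : Subgroup G) : Set G) ≤ K ⊓ Subgroup.centralizer ((K : Subgroup G) : Set G) → V H ≤ V K) (hloc : ∀ H : Subgroup G, (P : Subgroup G) ⊓ Subgroup.centralizer (((P : Subgroup G) : Subgroup G) : Set G) ≤ H → H ≤ (P : Subgroup G) → ∃ Q : Subgroup G, Q ≤ Subgroup.normalizer ((H : Subgroup G) : Set G) ∧ IsPGroup p ↥Q ∧ ¬ p ∣ (Q).relIndex (Subgroup.normalizer ((H : Subgroup G) : Set G)) ∧ ∀ (X : Set G) (a :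 G), X ⊆ Q → a ∈ Subgroup.normalizer ((H : Subgroup G) : Set G) → (fun x => a⁻¹ * x * a) '' X ⊆ Q → ∃ c ∈ Subgroup.normalizer ((H : Subgroup G) : Set G) ⊓ Subgroup.centralizer X, ∃ (n : ℕ) (b : Fin n → G), (∀ i, b i ∈ Subgroup.normalizer ((H : Subgroup G) : Set G) ⊓ Subgroup.normalizer ((W Q : Subgroup G) : Set G) ∨ b i ∈ Subgroup.normalizer ((H : Subgroup G) : Set G) ⊓ Subgroup.centralizer ((V Q : Subgroup G) : Set G)) ∧ a = c * (List.ofFn b).prod ∧ ∀ k : ℕ, k ≤ n → (fun x => (((List.ofFn b).take k).prod)⁻¹ * x * ((List.ofFn b).take k).prod) '' ((fun x => c⁻¹ * x * c) '' X) ⊆ Q) : ∃ Q : Subgroup G, IsPGroup p ↥Q ∧ ¬ p ∣ Q.index ∧ ∀ (X : Set G) (a : G), X ⊆ Q → (fun x => a⁻¹ * x * a) '' X ⊆ Q → ∃ c ∈ Subgroup.centralizer X, ∃ (n : ℕ) (b : Fin n → G), (∀ i, b i ∈ ⊤ ⊓ Subgroup.normalizer ((W Q : Subgroup G) : Set G) ∨ b i ∈ ⊤ ⊓ Subgroup.centralizer ((V Q : Subgroup G) : Set G)) ∧ a = c * (List.ofFn b).prod ∧ ∀ k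 : ℕ, k ≤ n → (fun x => (((List.ofFn b).take k).prod)⁻¹ * x * ((List.ofFn b).take k).prod) '' ((fun x => c⁻¹ * x * c) '' X) ⊆ Q := by
  open Subgroup Cfsg CfsgH2 Function in
  open scoped commutatorElement in
  open CfsgFP in
  have hS := syl_top P
  have := pf_of_loc hW hWZ hVmono hS (hS.ne_bot (by rwa [card_top])) fun F l z T hT => by
    rw [top_inf_eq] at hT ⊢
    obtain ⟨Q, a, b, c, d⟩ := hloc F z l
    refine pf_move hW hV ⟨a, b, c⟩ (fun U hU h hh k => ?_) hT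
    obtain ⟨c, hc, n, b, h1, h2, h3⟩ := d U h⁻¹ hU (inv_mem hh) (by
      rintro _ ⟨x, hx, rfl⟩
      simpa using k (conj_mem_map_cj hx))
    rw [← inv_inv h, h2]
    refine fu_of_list _ (fun x hx => ?_) hc.2 fun k hk => map_cj_le_iff'.2 fun x hx => ?_
    · obtain ⟨i, rfl⟩ := List.mem_ofFn.1 hx
      exact PD.inv (h1 i)
    · rw [inv_inv]
      exact h3 k (by simpa using hk) ⟨x, ⟨x, hx, by
        show c⁻¹ * x * c = x
        rw [mul_assoc, hc.2 x hx, inv_mul_cancel_left]⟩, rfl⟩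
  refine ⟨P, hS.pg, P.not_dvd_index, fun X a hX ha => ?_⟩
  obtain ⟨c, hc, l, h1, h2, h3⟩ := list_of_fu (this (closure X) ((closure_le _).2 hX) a⁻¹ trivial
    (closure_map_cj_le.2 (by simpa using ha)))
  refine ⟨c, centralizer_closure X ▸ hc, l.length, l.get, fun i => ?_, by rw [List.ofFn_get, ← h2, inv_inv],
    fun k hk => ?_⟩
  · simpa [PD] using (h1 _ (l.get_mem i)).inv
  · rintro _ ⟨_, ⟨x, hx, rfl⟩, rfl⟩
    have := map_cj_le_iff'.1 (h3 k hk) x (subset_closure hx)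
    rw [inv_inv] at this
    rw [List.ofFn_get]
    show _ * (c⁻¹ * x * c) * _ ∈ _
    rwa [mul_assoc c⁻¹, hc x (subset_closure hx), inv_mul_cancel_left]

end Cfsg.Agent.S2002
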