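import Cfsg.Statements.S2133
import Mathlib
import Cfsg.Agent.H7.Xs.M24
import Cfsg.Agent.H7.Xs.L52

set_option autoImplicit false
open Cfsg

namespace Cfsg.Agent.S2133

open CfsgH7

/-- The Mathieu group M₂₄ (the automorphism group of the length-24 binary code) has an involution whose centraliser is isomorphic to the centraliser of a transvection in SL(5, 2) (a group of shape 2^{1+6}:GL(3, 2)). -/
theorem result (s : Matrix.SpecialLinearGroup (Fin 5) (ZMod 2)) (hs : (s : Matrix (Fin 5) (Fin 5) (ZMod 2)) = Matrix.transvection 0 1 1) : ∃ z : ↥Cfsg.M24, orderOf z = 2 ∧ Nonempty (↥(Subgroup.centralizer ({z} : Set ↥Cfsg.M24)) ≃* ↥(Subgroup.centralizer ({s} : Set (Matrix.SpecialLinearGroup (Fin 5) (ZMod 2))))) := by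
  obtain ⟨e⟩ := CfsgH7.M24.iso Gol.mdl24
  exact ⟨_, @CfsgH7.M24.Xk.k2 _ _ _ (_) _ _ (CfsgH7.M24.M0.congr e),
    Mdl.iso K21.pr (@CfsgH7.M24.Xk.kM _ _ _ (_) _ _ (CfsgH7.M24.M0.congr e)) (L52.cen s hs)⟩

end Cfsg.Agent.S2133
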