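import Cfsg.Statements.S2135
import Mathlib
import Cfsg.Agent.H7.Xs.J3

set_option autoImplicit false
open Cfsg

namespace Cfsg.Agent.S2135

open CfsgH7 CfsgH7.J3m CfsgH7.J3m.Xs Subgroup

/-- For any field with 4 elements and any element ω of it with ω² + ω + 1 = 0: in the Janko group J₃ (the group generated by explicit 9 × 9 matrices over that field built from ω, taken modulo its centre) all involutions are conjugate, and the centraliser C of an involution has a normal extraspecial subgroup Q of order 32 containing no elementary abelian subgroup of order 8, complemented in C, with C / Q isomorphic to the alternating group of degree 5 (shape 2^{1+4}_-:A₅). -/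
theorem result {F : Type*} [Field F] [Fintype F] (hF : Fintype.card F = 4) (ω : F) (hω : ω ^ 2 + ω + 1 = 0) : (∀ x y : Cfsg.Spor.J3 F ω, orderOf x = 2 → orderOf y = 2 → IsConj x y) ∧ ∃ t : Cfsg.Spor.J3 F ω, orderOf t = 2 ∧ ∃ (Q : Subgroup ↥(Subgroup.centralizer ({t} : Set (Cfsg.Spor.J3 F ω)))) (_ : Q.Normal), Cfsg.IsExtraspecial 2 Q ∧ Nat.card Q = 32 ∧ (∀ E : Subgroup Q, Cfsg.IsElementaryAbelian 2 E → Nat.card E ≤ 2 ^ 2) ∧ (∃ H : Subgroup ↥(Subgroup.centralizer ({t} : Set (Cfsg.Spor.J3 F ω))), Q.IsComplement' H) ∧ Nonempty (↥(Subgroup.centralizer ({t} : Set (Cfsg.Spor.J3 F ω))) ⧸ Q ≃* ↥(alternatingGroup (Fin 5))) := by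
  obtain ⟨e⟩ := iso (main hF hω).2.1
  letI := MulAction.compHom (Fin 6156) e.symm.toMonoidHom
  have M := M0.congr e
  have := M.fin
  have hC := cen_one.symm.trans (xC M)
  refine ⟨fun x y hx hy => ?_, _, xz2 M, ?_⟩
  · obtain ⟨r, h1, a⟩ := sK M x (hx ▸ pow_orderOf_eq_one x) (by rintro rfl; simp at hx)
    obtain ⟨s, h2, b⟩ := sK M y (hy ▸ pow_orderOf_eq_one y) (by rintro rfl; simp at hy)
    rw [List.mem_singleton.1 h1] at a
    rw [List.mem_singleton.1 h2] at b
    exact a.trans b.symm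
  have h := (xX M).compl (H := genW _ xV) (hC ▸ genW_le.2 fun _ h => mem_genW _ (List.mem_append_left _ h)) (xH M).2.1
    (hC ▸ genW_le.2 fun _ h => (List.mem_append.1 h).elim (fun h => mem_sup_right (mem_genW _ h)) fun h => mem_sup_left (mem_genW _ h))
  obtain ⟨a, -, -, -, a1, a2, a3, -⟩ := xX M
  exact ⟨_, a, a2, a1, xE M, ⟨_, h⟩, (A5m.iso a3).elim fun x => A5m.alt.elim fun y => ⟨x.symm.trans y⟩⟩

end Cfsg.Agent.S2135
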