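import Cfsg.Statements.S2162
import Cfsg.Agent.S2579

set_option autoImplicit false
open Cfsg

namespace Cfsg.Agent.S2162

open CfsgH5.Gl Module Polynomial Matrix

theorem sq_zero {F ι : Type*} [Field F] [CharP F 2] [Fintype ι] [DecidableEq ι] {a : Matrix ι ι F} (h : a ^ 2 = 1) : (a - 1) ^ 2 = 0 := by
  have h2 : (2 : Matrix ι ι F) = 0 := by
    rw [← map_ofNat (algebraMap F (Matrix ι ι F)) 2, CharTwo.two_eq_zero, map_zero]
  have : (a - 1) ^ 2 = a ^ 2 - 1 + 2 * (1 - a) := by noncomm_ring
  rw [this, h, h2]; simp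

/-- Conjugacy of involutions in the special linear group over a finite field of characteristic two, in dimension at least 3: two elements of order 2 of SL_n(F) are conjugate in SL_n(F) exactly when the matrices a − 1 and b − 1 have the same rank (the rank of a − 1 is the dimension of the commutator space [V, a]). -/
theorem result {F : Type*} [Field F] [Fintype F] [CharP F 2] {n : ℕ} (hn : 3 ≤ n) (a b : Matrix.SpecialLinearGroup (Fin n) F) (ha : orderOf a = 2) (hb : orderOf b = 2) :
    IsConj a b ↔ ((a : Matrix (Fin n) (Fin n) F) - 1).rank = ((b : Matrix (Fin n) (Fin n) F) - 1).rank := by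
  have h1 : (a.1 - 1) ^ 2 = 0 := sq_zero (congrArg Subtype.val (ha ▸ pow_orderOf_eq_one a : a ^ 2 = 1))
  have h1' : (b.1 - 1) ^ 2 = 0 := sq_zero (congrArg Subtype.val (hb ▸ pow_orderOf_eq_one b : b ^ 2 = 1))
  refine ⟨fun h => by simpa using rank_sub_of_isConj (SpecialLinearGroup.coeMonoidHom.map_isConj h) 1, fun hr => ?_⟩
  refine isConj_SL (Cfsg.Agent.S2579.pow_rank h1 h1' hr) fun c hc => ?_
  obtain ⟨u, hu, h⟩ := exists_HT (toLin' a.1)
  have h0 := fun a ha => (hu a ha).monic.ne_zero
  have h2 : (toLin' a.1 - algebraMap F _ 1) ^ 2 = 0 := by rw [toLin_sub, h1, map_zero]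
  have h5 := h.dim h0
  rw [finrank_fintype_fun_eq_card, Fintype.card_fin] at h5
  obtain ⟨x, hx⟩ := Multiset.exists_mem_of_ne_zero (s := u) (by rintro rfl; simp at h5; omega)
  obtain ⟨e, a1, a2, a3⟩ := h.unip hu h2 x hx
  have hd : x.natDegree = e := by rw [a3, natDegree_pow, natDegree_X_sub_C, mul_one]
  interval_cases e
  · simpa [hd] using h.exists_comm_det' h0 hx c
  · obtain ⟨r, rfl⟩ := FiniteField.isSquare_of_char_two (ringChar.eq F 2) c
    simpa [hd, sq] using h.exists_comm_det' h0 hx r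

end Cfsg.Agent.S2162
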