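import Cfsg.Statements.S2163


set_option autoImplicit false
open Cfsg

namespace Cfsg.Agent.S2163

open Matrix

theorem aux {F : Type*} [Field F] [CharP F 2] {n l : ℕ} (h1 : 1 ≤ l) {A L : Matrix (Fin n) (Fin l) F} {B R : Matrix (Fin l) (Fin n) F} (h : B * A = 0)
    (hA : R * A = 1) (hB : B * L = 1) : ∃ a : SpecialLinearGroup (Fin n) F, a.1 = 1 + A * B ∧ orderOf a = 2 ∧ (a.1 - 1).rank = l := by
  have r : (A * B).rank = l := le_antisymm ((rank_mul_le_left _ _).trans (rank_le_width _)) (by
    have := (rank_mul_le_left (R * (A * B)) L).trans (rank_mul_le_right R (A * B))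
    rwa [← Matrix.mul_assoc, hA, Matrix.one_mul, hB, rank_one, Fintype.card_fin] at this)
  refine ⟨⟨1 + A * B, by rw [det_one_add_mul_comm, h, add_zero, det_one]⟩, rfl, orderOf_eq_prime ((sq _).trans (Subtype.ext ?_)) fun e => ?_, by simpa using r⟩
  · have : A * B * (A * B) = 0 := by rw [Matrix.mul_assoc, ← Matrix.mul_assoc B, h]; simp
    change (1 + A * B) * (1 + A * B) = 1
    simp [mul_add, add_mul, this, add_assoc, ← two_smul F (A * B), CharTwo.two_eq_zero]
  · rw [show A * B = 0 by simpa using congrArg Subtype.val e, rank_zero] at r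
    omega

/-- inclusion matrix -/
def inc (F : Type*) [Field F] {n l : ℕ} (d : ℕ) : Matrix (Fin n) (Fin l) F := of fun i k => if i.1 = k + d then 1 else 0

theorem inc_mul (F : Type*) [Field F] {n l d e : ℕ} (h : l + d ≤ n) (k k' : Fin l) :
    ((inc F (n := n) (l := l) d)ᵀ * inc F (n := n) (l := l) e) k k' = if k.1 + d = k' + e then 1 else 0 := by
  rw [mul_apply, Finset.sum_eq_single ⟨k + d, by omega⟩ (by simp +contextual [inc, Fin.ext_iff]) (by simp)]; simp [inc]

theorem mul_inc (F : Type*) [Field F] {n l d e : ℕ} (i j : Fin n) :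
    (inc F (n := n) (l := l) d * (inc F (n := n) (l := l) e)ᵀ) i j = if e ≤ j.1 ∧ j.1 < e + l ∧ i.1 + e = j + d then 1 else 0 := by
  rw [mul_apply]
  split_ifs with h
  · rw [Finset.sum_eq_single ⟨j - e, by omega⟩ (fun k _ hk => by simp [inc, Fin.ext_iff] at *; omega) (by simp)]
    simp [inc, show i.1 = j - e + d by omega, show j - e + e = j by omega]
  · exact Finset.sum_eq_zero fun k _ => by simp [inc]; omega

/-- Over a finite field of characteristic two and for n ≥ 3: for every ℓ with 1 ≤ ℓ and 2ℓ ≤ n, the matrix j_ℓ that is the identity plus the entries 1 in positions (n − ℓ + i, i) for i < ℓ (an identity block of size ℓ in the lower left corner) lies in SL_n(F), has order 2, and j_ℓ − 1 has rank ℓ. Together with the conjugacy criterion by rank, these matrices represent the conjugacy classes of involutions of SL_n(F). -/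
theorem result {F : Type*} [Field F] [Fintype F] [CharP F 2] {n : ℕ} (hn : 3 ≤ n) (ℓ : ℕ) (h1 : 1 ≤ ℓ) (h2 : 2 * ℓ ≤ n) :
    ∃ a : Matrix.SpecialLinearGroup (Fin n) F, (a : Matrix (Fin n) (Fin n) F) = 1 + Matrix.of (fun i j : Fin n => if j.val < ℓ ∧ i.val = j.val + (n - ℓ) then (1 : F) else 0) ∧ orderOf a = 2 ∧ ((a : Matrix (Fin n) (Fin n) F) - 1).rank = ℓ := by
  obtain ⟨a, a1, a2⟩ := aux h1 (A := inc F (n - ℓ)) (B := (inc F 0)ᵀ) (L := inc F 0) (R := (inc F (n := n) (n - ℓ))ᵀ)
    (by ext i j; rw [inc_mul F (by omega), if_neg (by omega)]; rfl) (by ext i j; rw [inc_mul F (by omega)]; simp [one_apply, Fin.ext_iff])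
    (by ext i j; rw [inc_mul F (by omega)]; simp [one_apply, Fin.ext_iff])
  exact ⟨a, by rw [a1]; congr 1; ext i j; simp [mul_inc], a2⟩

end Cfsg.Agent.S2163
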