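import Cfsg.Statements.S2164
import Cfsg.Agent.H5.In2
import Cfsg.Agent.S2162
import Cfsg.Agent.H5.Gc4

set_option autoImplicit false
open Cfsg

namespace Cfsg.Agent.S2164

open CfsgH5 CfsgH5.CForm CfsgH5.Gl CfsgH5.Gc CfsgH5.In Module Matrix

theorem aux {F V : Type*} [Field F] [Finite F] [CharP F 2] [AddCommGroup V] [Module F V] [FiniteDimensional F V] {σ : F →+* F} {h : ∀ a, σ (σ a) = a}
    (hσ : σ ≠ RingHom.id F) {f : CForm (FP.unit σ h) V} (hf : f.Nondeg) {x : V ≃ₗ[F] V} (hx : x ∈ f.Isom) (h1 : x ≠ 1) (h2 : ∀ v, x (x v) = v) (m : F)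
    (hm : m * σ m = 1) : ∃ g ∈ f.Isom, g * x = x * g ∧ LinearMap.det (g : V →ₗ[F] V) = m := by
  have two : (2 : F) = 0 := CharTwo.two_eq_zero
  obtain ⟨v, hv⟩ : ∃ v, f.B (x v - v) v ≠ 0 := by
    by_contra! k
    obtain ⟨a, ha⟩ := not_forall.1 (mt (RingHom.ext (f := σ) (g := .id F)) hσ)
    refine h1 (LinearEquiv.ext fun u => sub_eq_zero.1 (hf.left fun v => mul_left_cancel₀ (sub_ne_zero.2 ha) ?_))
    have e1 := k (u + v)
    have e2 := k (a • u + v)
    have e3 := k u
    have e4 := k v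
    simp [B_add_left, B_smul_left] at e1 e2 e3 e4
    simp [-mul_eq_zero]
    linear_combination σ a * e1 - e2 + (a * σ a - σ a) * e3 + (1 - σ a) * e4
  have w1 : x (x v - v) = x v - v := by rw [map_sub, h2, ← neg_sub, neg_eq_iff_add_eq_zero, ← two_smul F, two, zero_smul]
  have w2 : f.Q (x v - v) = 0 := by rw [unit_Q, B_sub_right, sub_eq_zero, ← f.Isom_B hx _ v, w1]
  obtain ⟨c, hc⟩ := exists_hyp_of_B (y := (σ (f.B (x v - v) v))⁻¹ • v) w2 (by simp only [B_smul_right, FP.unit_σ, map_inv₀, h, inv_mul_cancel₀ hv])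
  have w3 : ∃ a : F, x ((σ (f.B (x v - v) v))⁻¹ • v - c • (x v - v)) = ((σ (f.B (x v - v) v))⁻¹ • v - c • (x v - v)) + a • (x v - v) :=
    ⟨(σ (f.B (x v - v) v))⁻¹, by rw [map_sub, map_smul, map_smul, w1]; module⟩
  generalize (σ (f.B (x v - v) v))⁻¹ • v - c • (x v - v) = y at *
  generalize x v - v = w at *
  obtain ⟨a, w3⟩ := w3
  obtain ⟨l, rfl⟩ := exists_sq_of_two_eq_zero two m
  have l1 : (σ l)⁻¹ = l := inv_eq_of_mul_eq_one_left (pow_eq_zero_iff two_ne_zero |>.1 (show (l * σ l - 1) ^ 2 = 0 by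
    rw [map_pow] at hm; linear_combination hm + (1 - l * σ l) * two) |> sub_eq_zero.1)
  obtain ⟨g, hg⟩ := exists_tor hc (l := l) (by rintro rfl; simp at hm)
  have g1 := hg.app_x
  have g2 : g y = l • y := by rw [hg.app_y, FP.unit_σ, l1]
  refine ⟨g, hg.mem_Isom, hc.ext (by simp [g1, w1]) (by simp [g1, g2, w3, smul_comm l a]) fun u u1 u2 => ?_, by rw [hg.det, FP.unit_σ, l1, sq]⟩
  rw [LinearEquiv.mul_apply, LinearEquiv.mul_apply, hg.fix u1 u2, hg.fix (by rw [← w1, f.Isom_B hx, u1]) (by rw [← h2 y, f.Isom_B hx, w3]; simp [u1, u2])]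

/-- Conjugacy of involutions in the special unitary group SU_n(q), q even, n ≥ 3, realised over the field F with q² elements as the matrices of determinant 1 preserving the form Σ u_i v_i^q: for two elements of order 2 of SU_n(q) the following are equivalent — they are conjugate in SU_n(q); they are conjugate in SL_n(F); the matrices a − 1 and b − 1 have the same rank. -/
theorem result {F : Type*} [Field F] [Fintype F] [CharP F 2] {n q : ℕ} (hF : Fintype.card F = q ^ 2) (hn : 3 ≤ n) (a b : ↥(Cfsg.SU n F q)) (ha : orderOf a = 2) (hb : orderOf b = 2) :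
    (IsConj a b ↔ IsConj (a : Matrix.SpecialLinearGroup (Fin n) F) (b : Matrix.SpecialLinearGroup (Fin n) F)) ∧
    (IsConj a b ↔ (((a : Matrix.SpecialLinearGroup (Fin n) F) : Matrix (Fin n) (Fin n) F) - 1).rank = (((b : Matrix.SpecialLinearGroup (Fin n) F) : Matrix (Fin n) (Fin n) F) - 1).rank) := by
  have H := frobq_UF hF
  have hf := hermC_nondeg H n
  have ha' := (Subgroup.orderOf_coe a).trans ha
  have hb' := (Subgroup.orderOf_coe b).trans hb
  have k := S2162.result hn a.1 b.1 ha' hb'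
  refine (and_iff_left_of_imp fun h => h.trans k).2 ⟨(SU n F q).subtype.map_isConj, fun h => ?_⟩
  rw [← isConj_equiv (suEquiv H n)]
  obtain ⟨a1, a2⟩ := orderOf_eq_prime_iff.1 (((suEquiv H n).orderOf_eq a).trans ha)
  exact isConj_S hf ((unit_isConj H.ne_id hf).mpr (isConj_iff_sim.mp (SpecialLinearGroup.coeMonoidHom.map_isConj h)))
    (aux H.ne_id hf (suEquiv H n a).2.1 (fun e => a2 (Subtype.ext e)) fun v => LinearEquiv.congr_fun (congrArg Subtype.val ((sq _).symm.trans a1)) v)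

end Cfsg.Agent.S2164
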