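import Cfsg.Statements.S2165
import Cfsg.Agent.S2163
import Cfsg.Agent.H5.UField

set_option autoImplicit false
open Cfsg

namespace Cfsg.Agent.S2165

open Matrix S2163

/-- In SU_n(q), q even, n ≥ 3 (matrices of determinant 1 over the field with q² elements preserving Σ u_i v_i^q): for every ℓ with 1 ≤ ℓ and 2ℓ ≤ n, the permutation matrix of the involution of {0, …, n−1} exchanging i and n − ℓ + i for each i < ℓ lies in SU_n(q), has order 2, and differs from the identity by a matrix of rank ℓ. So every rank between 1 and n/2 occurs for involutions of SU_n(q). -/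
theorem result {F : Type*} [Field F] [Fintype F] [CharP F 2] {n q : ℕ} (hF : Fintype.card F = q ^ 2) (hn : 3 ≤ n) (ℓ : ℕ) (h1 : 1 ≤ ℓ) (h2 : 2 * ℓ ≤ n) :
    ∃ a : ↥(Cfsg.SU n F q), (((a : Matrix.SpecialLinearGroup (Fin n) F) : Matrix (Fin n) (Fin n) F) = Matrix.of (fun i j : Fin n => if (j.val < ℓ ∧ i.val = j.val + (n - ℓ)) ∨ (i.val < ℓ ∧ j.val = i.val + (n - ℓ)) ∨ (i = j ∧ ℓ ≤ i.val ∧ i.val < n - ℓ) then (1 : F) else 0)) ∧ orderOf a = 2 ∧ ((((a : Matrix.SpecialLinearGroup (Fin n) F) : Matrix (Fin n) (Fin n) F)) - 1).rank = ℓ := by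
  have H := CfsgH5.frobq_UF hF
  obtain ⟨a, a1, a2, a3⟩ := aux h1 (A := inc F (n - ℓ) + inc F 0) (B := (inc F (n - ℓ) + inc F 0)ᵀ) (L := inc F 0) (R := (inc F (n := n) 0)ᵀ)
    (by ext i j; simp only [transpose_add, Matrix.add_mul, Matrix.mul_add, Matrix.add_apply]
        rw [inc_mul F (by omega), inc_mul F (by omega), inc_mul F (by omega), inc_mul F (by omega)]
        split_ifs <;> first | omega | simp [CharTwo.add_self_eq_zero])
    (by ext i j; rw [Matrix.mul_add, Matrix.add_apply, inc_mul F (by omega), inc_mul F (by omega), if_neg (by omega)]; simp [Matrix.one_apply, Fin.ext_iff])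
    (by ext i j; rw [transpose_add, Matrix.add_mul, Matrix.add_apply, inc_mul F (by omega), inc_mul F (by omega), if_neg (by omega)]; simp [Matrix.one_apply, Fin.ext_iff])
  have e : a.1 = of fun i j : Fin n => if (j.val < ℓ ∧ i.val = j.val + (n - ℓ)) ∨ (i.val < ℓ ∧ j.val = i.val + (n - ℓ)) ∨ (i = j ∧ ℓ ≤ i.val ∧ i.val < n - ℓ)
      then (1 : F) else 0 := by
    ext i j
    simp only [a1, transpose_add, Matrix.add_mul, Matrix.mul_add, Matrix.add_apply, mul_inc, Matrix.one_apply, of_apply, Fin.ext_iff]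
    split_ifs <;> first | omega | simp [CharTwo.add_self_eq_zero]
  refine ⟨⟨a, fun u v => ?_⟩, e, (Subgroup.orderOf_coe _).symm.trans a2, a3⟩
  have s : a.1ᵀ * a.1 = 1 := by
    rw [show a.1ᵀ = a.1 by rw [a1]; simp [transpose_mul]]
    exact congrArg Subtype.val ((sq a).symm.trans (a2 ▸ pow_orderOf_eq_one a))
  have m : a.1.map (CfsgH5.frobq hF) = a.1 := by ext i j; rw [e, map_apply, of_apply]; split_ifs <;> simp
  have k : ∀ u v, hermForm n F q u v = u ⬝ᵥ (CfsgH5.frobq hF ∘ v) := fun u v => Finset.sum_congr rfl fun i _ => by simp [H.pow]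
  change hermForm n F q (a.1 *ᵥ u) (a.1 *ᵥ v) = _
  rw [k, k, show CfsgH5.frobq hF ∘ (a.1 *ᵥ v) = _ from funext (RingHom.map_mulVec _ _ _), m, dotProduct_mulVec, vecMul_mulVec, s, vecMul_one]

end Cfsg.Agent.S2165
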