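import Cfsg.Statements.S2680
import Cfsg.Agent.H5.In2

set_option autoImplicit false
open Cfsg

namespace Cfsg.Agent.S2680

open CfsgH5 CfsgH5.CForm CfsgH5.In Module

theorem two_choose (s : ℕ) : 2 * s.choose 2 + s = s ^ 2 := by
  induction s with
  | zero => rfl
  | succ s ih => rw [Nat.choose_succ_succ' s 1, Nat.choose_one_right]; linear_combination ih

theorem iv {F : Type*} [Field F] [CharP F 2] {m : ℕ} {t : Matrix.symplecticGroup (Fin m) F} (ht : t ^ 2 = 1) : Iv (spForm F m) (spEquiv m t).1 :=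
  iv_of (spForm_nondeg m) (fun _ => rfl) CharTwo.two_eq_zero (by rw [← map_pow, ht, map_one])

theorem alt_iff {F : Type*} [Field F] {m : ℕ} (t : Matrix.symplecticGroup (Fin m) F) :
    Alt (spForm F m) (spEquiv m t).1 ↔ ∀ v, Cfsg.sympForm m F v (t.1.mulVec v) = 0 :=
  forall_congr' fun v => by rw [B_eq_zero_comm]; simp [symp_B_self, ← spForm_B]

theorem aux {F : Type*} [Field F] [Fintype F] [CharP F 2] {q : ℕ} (hF : Fintype.card F = q) {m s : ℕ} (t : Matrix.symplecticGroup (Fin m) F) (ht : t ^ 2 = 1)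
    (hs : (t.1 - 1).rank = s) : s ≤ m ∧ ∃ n, Nat.card (Subgroup.centralizer {t}) = q ^ (2 * m * s - (3 * s ^ 2 - s) / 2) * n * spO q (m - s) ∧
      ∀ j, (s = 2 * j + 1 → n = spO q j) ∧ (s = 2 * j → (∀ v, Cfsg.sympForm m F v (t.1.mulVec v) = 0) → n = spO q j) ∧
        (s = 2 * j + 2 → ¬ (∀ v, Cfsg.sympForm m F v (t.1.mulVec v) = 0) → n = q ^ (2 * j + 1) * spO q j) := by
  have h := iv ht
  rw [rank_eq (spEquiv_apply m t)] at hs
  have h1 := h.two_mul_le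
  rw [finrank_sum_fun] at h1
  obtain ⟨k, rfl⟩ := Nat.exists_eq_add_of_le (show s ≤ m by omega)
  obtain ⟨n, n1, n2⟩ := cent_cases h
  rw [fix_symp h hs (finrank_sum_fun _)] at n1
  rw [hs, alt_iff] at n2
  rw [Nat.card_eq_fintype_card (α := F), hF] at n1 n2
  refine ⟨by omega, n, ?_, n2⟩
  have := two_choose s
  have : 2 * (s + k) * s = 2 * s ^ 2 + s * (2 * k) := by ring
  rw [card_centralizer_equiv (spEquiv _), n1, add_tsub_cancel_left, show 2 * (s + k) * s - (3 * s ^ 2 - s) / 2 = s * (2 * k) + s.choose 2 + s by omega]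
  ring

/-- Centraliser order of an involution t of Sp_2m(q), q even, with s = rank(t − 1) odd (type b_s): |C(t)| = q^(2ms − (3s² − s)/2) · |Sp_(s−1)(q)| · |Sp_(2m−2s)(q)|, where |Sp_2k(q)| = q^(k²) Π_(i=1)^k (q^(2i) − 1). -/
theorem result {F : Type*} [Field F] [Fintype F] [CharP F 2] {q : ℕ} (hF : Fintype.card F = q) {m s : ℕ} (t : Matrix.symplecticGroup (Fin m) F) (ht : t ^ 2 = 1) (hs : ((t : Matrix (Fin m ⊕ Fin m) (Fin m ⊕ Fin m) F) - 1).rank = s) (hodd : Odd s) : Nat.card ↥(Subgroup.centralizer ({t} : Set ↥(Matrix.symplecticGroup (Fin m) F))) = q ^ (2 * m * s - (3 * s ^ 2 - s) / 2) * ((q : ℕ) ^ (((s - 1) / 2) ^ 2) * ∏ i : Fin ((s - 1) / 2), (q ^ (2 * ((i : ℕ) + 1)) - 1)) * ((q : ℕ) ^ ((m - s) ^ 2) * ∏ i : Fin (m - s), (q ^ (2 * ((i : ℕ) + 1)) - 1)) := by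
  obtain ⟨-, n, n1, n2⟩ := aux hF t ht hs
  obtain ⟨j, rfl⟩ := hodd
  rw [n1, (n2 j).1 rfl, spO_eq, spO_eq, show (2 * j + 1 - 1) / 2 = j by omega]

end Cfsg.Agent.S2680
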