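import Cfsg.Statements.S2167
import Cfsg.Agent.S2680

set_option autoImplicit false
open Cfsg

namespace Cfsg.Agent.S2167

open CfsgH5 CfsgH5.CForm CfsgH5.In Module

open Classical in
theorem aux {F : Type*} [Field F] [Fintype F] [CharP F 2] {m : ℕ} {a : Matrix.symplecticGroup (Fin m) F} (ha : a ^ 2 = 1) :
    Nat.card {v // Cfsg.sympForm m F v (a.1.mulVec v) = 0} * (if ∀ v, Cfsg.sympForm m F v (a.1.mulVec v) = 0 then 1 else Fintype.card F) =
      Fintype.card F ^ (2 * m) := by
  split_ifs with k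
  · simp [k, two_mul, pow_add]
  have h := S2680.iv ha
  obtain ⟨β, hβ⟩ := h.exists_bt
  obtain ⟨w, w1, -⟩ := exists_w0 h.two (hβ.symm h) (hβ.nd h)
  have e : ∀ v, Cfsg.sympForm m F v (a.1.mulVec v) = 0 ↔ v ∈ LinearMap.ker (β.flip w ∘ₗ (NN (spEquiv m a).1).rangeRestrict) := fun v => by
    rw [LinearMap.mem_ker, iff_comm, ← sq_eq_zero_iff, LinearMap.comp_apply, LinearMap.BilinForm.flip_apply, w1, hβ, B_eq_zero_comm]
    simp [symp_B_self, ← spForm_B]
  have d := Module.Dual.finrank_ker_add_one_of_ne_zero (f := β.flip w ∘ₗ (NN (spEquiv m a).1).rangeRestrict) fun h => k fun v => (e v).2 (by simp [h])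
  rw [Nat.card_congr (Equiv.subtypeEquivRight e), card_submodule (F := F), Nat.card_eq_fintype_card, ← pow_succ, d, finrank_sum_fun]

/-- For an involution t of the symplectic group Sp_{2m}(F), m ≥ 2, F a finite field of characteristic two (matrices A with A J Aᵀ = J acting on column vectors, alternating form f(u, v) = u ⬝ (J v)): the set V(t) of vectors v with f(v, t v) = 0 has either q^{2m} or q^{2m−1} elements, q the order of F (it is a subspace of codimension at most 1), and if it is the whole space then t − 1 has even rank. -/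
theorem result {F : Type*} [Field F] [Fintype F] [CharP F 2] {m : ℕ} (hm : 2 ≤ m) (a : ↥(Matrix.symplecticGroup (Fin m) F)) (ha : orderOf a = 2) :
    (Nat.card {v : Fin m ⊕ Fin m → F // Cfsg.sympForm m F v (Matrix.mulVec ((a : ↥(Matrix.symplecticGroup (Fin m) F)) : Matrix (Fin m ⊕ Fin m) (Fin m ⊕ Fin m) F) v) = 0} = Fintype.card F ^ (2 * m) ∨ Nat.card {v : Fin m ⊕ Fin m → F // Cfsg.sympForm m F v (Matrix.mulVec ((a : ↥(Matrix.symplecticGroup (Fin m) F)) : Matrix (Fin m ⊕ Fin m) (Fin m ⊕ Fin m) F) v) = 0} * Fintype.card F = Fintype.card F ^ (2 * m)) ∧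
    ((∀ v : Fin m ⊕ Fin m → F, Cfsg.sympForm m F v (Matrix.mulVec ((a : ↥(Matrix.symplecticGroup (Fin m) F)) : Matrix (Fin m ⊕ Fin m) (Fin m ⊕ Fin m) F) v) = 0) → Even (((a : ↥(Matrix.symplecticGroup (Fin m) F)) : Matrix (Fin m ⊕ Fin m) (Fin m ⊕ Fin m) F) - 1).rank) := by
  have h := aux (orderOf_eq_prime_iff.1 ha).1
  have h1 := (S2680.iv (orderOf_eq_prime_iff.1 ha).1).even
  rw [rank_eq (spEquiv_apply m a), ← S2680.alt_iff]
  refine ⟨?_, h1⟩
  split_ifs at h
  · exact .inl (by simpa using h)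
  · exact .inr h

end Cfsg.Agent.S2167
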