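import Cfsg.Statements.S2166
import Cfsg.Agent.S2167

set_option autoImplicit false
open Cfsg

namespace Cfsg.Agent.S2166

open CfsgH5 CfsgH5.CForm CfsgH5.In Module

/-- Conjugacy of involutions in the symplectic group Sp_{2m}(F), F a finite field of characteristic two, m ≥ 2 (Sp taken as the matrices A with A J Aᵀ = J, acting on column vectors, with the alternating form f(u, v) = u ⬝ (J v)). For an involution t write V(t) for the set of vectors v with f(v, t v) = 0 (a subspace). Two involutions a, b are conjugate in Sp_{2m}(F) exactly when a − 1 and b − 1 have the same rank and, in case that rank is even, V(a) and V(b) have the same number of elements. -/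
theorem result {F : Type*} [Field F] [Fintype F] [CharP F 2] {m : ℕ} (hm : 2 ≤ m) (a b : ↥(Matrix.symplecticGroup (Fin m) F)) (ha : orderOf a = 2) (hb : orderOf b = 2) :
    IsConj a b ↔ ((((a : ↥(Matrix.symplecticGroup (Fin m) F)) : Matrix (Fin m ⊕ Fin m) (Fin m ⊕ Fin m) F) - 1).rank = (((b : ↥(Matrix.symplecticGroup (Fin m) F)) : Matrix (Fin m ⊕ Fin m) (Fin m ⊕ Fin m) F) - 1).rank ∧
      (Even (((a : ↥(Matrix.symplecticGroup (Fin m) F)) : Matrix (Fin m ⊕ Fin m) (Fin m ⊕ Fin m) F) - 1).rank → Nat.card {v : Fin m ⊕ Fin m → F // Cfsg.sympForm m F v (Matrix.mulVec ((a : ↥(Matrix.symplecticGroup (Fin m) F)) : Matrix (Fin m ⊕ Fin m) (Fin m ⊕ Fin m) F) v) = 0} = Nat.card {v : Fin m ⊕ Fin m → F // Cfsg.sympForm m F v (Matrix.mulVec ((b : ↥(Matrix.symplecticGroup (Fin m) F)) : Matrix (Fin m ⊕ Fin m) (Fin m ⊕ Fin m) F) v) = 0})) := by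
  have a1 := (orderOf_eq_prime_iff.1 ha).1
  have b1 := (orderOf_eq_prime_iff.1 hb).1
  have a2 := S2167.aux a1
  have b2 := S2167.aux b1
  have a3 := (S2680.iv a1).even
  have b3 := (S2680.iv b1).even
  rw [← Gc.isConj_equiv (spEquiv m), In.isConj_iff (S2680.iv a1) (S2680.iv b1), rank_eq (spEquiv_apply m a), rank_eq (spEquiv_apply m b)]
  rw [S2680.alt_iff] at a3 b3
  rw [S2680.alt_iff, S2680.alt_iff]
  refine and_congr_right fun h => ?_
  have q := Fintype.one_lt_card (α := F)
  have := pow_pos (zero_lt_one.trans q) (2 * m)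
  rw [← h] at b3
  generalize Nat.card {v // sympForm m F v (a.1.mulVec v) = 0} = x at *
  generalize Nat.card {v // sympForm m F v (b.1.mulVec v) = 0} = y at *
  generalize Fintype.card F ^ (2 * m) = z at *
  constructor
  · intro k _
    split_ifs at a2 b2 <;> first | tauto | exact Nat.eq_of_mul_eq_mul_right (by omega) (a2.trans b2.symm)
  · intro k
    by_contra e
    obtain rfl := k (by tauto)
    split_ifs at a2 b2 with h1 h2 h2
    exacts [e (iff_of_true h1 h2), by nlinarith only [a2, b2, q, this], by nlinarith only [a2, b2, q, this], e (iff_of_false h1 h2)]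

end Cfsg.Agent.S2166
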