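import Cfsg.Statements.S2168
import Cfsg.Agent.H5.In2

set_option autoImplicit false
open Cfsg

namespace Cfsg.Agent.S2168

open CfsgH5 CfsgH5.CForm CfsgH5.In Module

theorem aux {F : Type*} [Field F] [Fintype F] [CharP F 2] {ι : Type} [Fintype ι] [DecidableEq ι] {Q : QuadraticForm F (ι → F)} (hf : (ofQuad Q).Nondeg)
    (t s : Cfsg.isometryGroup F ⇑Q) (ht : orderOf t = 2) (hs : orderOf s = 2) :
    IsConj t s ↔ ∃ g ∈ Cfsg.preserving (Units.coeHom (Matrix ι ι F)) (fun u v => Q (u + v) - Q u - Q v), g * (t : GL ι F) * g⁻¹ = s := by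
  refine ⟨fun h => ?_, fun ⟨g, g1, g2⟩ => ?_⟩
  · obtain ⟨g, rfl⟩ := isConj_iff.1 h
    exact ⟨g, fun u v => (ofQuad Q).Isom_B (orthEquiv Q g).2 u v, rfl⟩
  have o : ∀ t : Cfsg.isometryGroup F ⇑Q, orderOf t = 2 → Iv (ofQuad Q) (orthEquiv Q t).1 := fun t ht =>
    ((ord_two hf (fun _ => rfl) CharTwo.two_eq_zero).1 (((orthEquiv Q).orderOf_eq t).trans ht)).1
  have e : toLinHom (Units.coeHom _) g * (orthEquiv Q t).1 = (orthEquiv Q s).1 * toLinHom (Units.coeHom _) g := LinearEquiv.ext fun v => by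
    simpa using congrArg (fun x : GL ι F => x.1.mulVec v) (mul_inv_eq_iff_eq_mul.1 g2)
  have k : ∀ v, (ofQuad Q).B (NN (orthEquiv Q s).1 (toLinHom (Units.coeHom _) g v)) (toLinHom (Units.coeHom _) g v) = (ofQuad Q).B (NN (orthEquiv Q t).1 v) v :=
    fun v => by
      rw [show NN (orthEquiv Q s).1 (toLinHom (Units.coeHom _) g v) = toLinHom (Units.coeHom _) g (NN (orthEquiv Q t).1 v) by
        simpa [Matrix.mulVec_sub] using (LinearEquiv.congr_fun e v).symm]
      exact g1 _ _
  rw [← Gc.isConj_equiv (orthEquiv Q), In.isConj_iff (o t ht) (o s hs), ← map_WW e, LinearEquiv.finrank_map_eq]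
  exact ⟨rfl, fun h v => by obtain ⟨v, rfl⟩ := (toLinHom (Units.coeHom _) g).surjective v; rw [k, h], fun h v => by rw [← k, h]⟩

/-- Involutions in the full isometry group O of the hyperbolic quadratic form Σ x_i y_i in dimension 2m over a finite field F of characteristic two, m ≥ 4 (plus type): two elements of order 2 of O are conjugate in O exactly when they are conjugate under the group of all invertible matrices preserving the polar bilinear form (u, v) ↦ Q(u + v) − Q(u) − Q(v) (the symplectic group of that form). -/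
theorem result {F : Type*} [Field F] [Fintype F] [CharP F 2] {m : ℕ} (hm : 4 ≤ m) (t s : ↥(Cfsg.isometryGroup F (Cfsg.quadFormPlus m F))) (ht : orderOf t = 2) (hs : orderOf s = 2) :
    IsConj t s ↔ ∃ g ∈ Cfsg.preserving (Units.coeHom (Matrix (Fin m ⊕ Fin m) (Fin m ⊕ Fin m) F)) (fun u v => Cfsg.quadFormPlus m F (u + v) - Cfsg.quadFormPlus m F u - Cfsg.quadFormPlus m F v), g * ((t : ↥(Cfsg.isometryGroup F (Cfsg.quadFormPlus m F))) : GL (Fin m ⊕ Fin m) F) * g⁻¹ = ((s : ↥(Cfsg.isometryGroup F (Cfsg.quadFormPlus m F))) : GL (Fin m ⊕ Fin m) F) := by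
  exact aux (plusQ_nondeg F m) t s ht hs

end Cfsg.Agent.S2168
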