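import Cfsg.Statements.S2172
import Cfsg.Agent.H5.In2

set_option autoImplicit false
open Cfsg

namespace Cfsg.Agent.S2172

open CfsgH5 CfsgH5.CForm CfsgH5.In Module

theorem alt_iff {F : Type*} [Field F] {ι : Type} [Fintype ι] [DecidableEq ι] {Q : QuadraticForm F (ι → F)} {t : Cfsg.isometryGroup F ⇑Q}
    (h : Iv (ofQuad Q) (orthEquiv Q t).1) : Alt (ofQuad Q) (orthEquiv Q t).1 ↔ ∀ v, Q ((t.1.1 - 1).mulVec v) = 0 :=
  forall_congr' fun v => by rw [← FP.orth_t (B _ _ _), ← h.Q_NN, NN_eq (orthEquiv_apply Q t)]; rfl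

theorem aux {F : Type*} [Field F] [Fintype F] [CharP F 2] {ι : Type} [Fintype ι] [DecidableEq ι] {Q : QuadraticForm F (ι → F)} (hf : (ofQuad Q).Nondeg)
    (hs : (ofQuad Q).Split) {m : ℕ} (hm : finrank F (ι → F) = 2 * m) {t s : Cfsg.isometryGroup F ⇑Q} (ht : orderOf t = 2) (hc : IsConj t s) :
    Iv (ofQuad Q) (orthEquiv Q t).1 ∧ ((∃ g ∈ Cfsg.Omega F ⇑Q, g * t * g⁻¹ = s) ↔ (finrank F (WW (orthEquiv Q t).1) = m ∧ Alt (ofQuad Q) (orthEquiv Q t).1 →
      Even (m - finrank F (WW (orthEquiv Q t).1 ⊓ WW (orthEquiv Q s).1 : Submodule F _)))) := by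
  have o := ((ord_two hf (fun _ => rfl) CharTwo.two_eq_zero).1 (((orthEquiv Q).orderOf_eq t).trans ht)).1
  refine ⟨o, Iff.trans ?_ ((omega_conj hs o hm).trans (and_iff_right ((Gc.isConj_equiv _).2 hc)))⟩
  refine ⟨fun ⟨g, g1, g2⟩ => ⟨_, (Fm.mem_Omega g).1 g1, by simp [← g2]⟩, fun ⟨g, g1, g2⟩ => ?_⟩
  obtain ⟨g, rfl⟩ := (orthEquiv Q).surjective g
  exact ⟨g, (Fm.mem_Omega g).2 g1, (orthEquiv Q).injective (by simp [← g2])⟩

/-- Splitting of involution classes from O to Ω for the hyperbolic quadratic form Q = Σ x_i y_i in dimension 2m over a finite field F of characteristic two, m ≥ 4. Let t, s be involutions of the commutator subgroup Ω that are conjugate in the full isometry group O. If it is not the case that t − 1 has rank m and Q(v + t v) = 0 for every vector v, then t and s are conjugate by an element of Ω. If t − 1 has rank m and Q(v + t v) = 0 for all v, then t and s are conjugate by an element of Ω exactly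 when the intersection of the images of t − 1 and s − 1 has even dimension (so the class of t in O meets at most two classes of Ω). -/
theorem result {F : Type*} [Field F] [Fintype F] [CharP F 2] {m : ℕ} (hm : 4 ≤ m) (t s : ↥(Cfsg.isometryGroup F (Cfsg.quadFormPlus m F))) (ht : orderOf t = 2) (hs : orderOf s = 2) (htO : t ∈ Cfsg.Omega F (Cfsg.quadFormPlus m F)) (hsO : s ∈ Cfsg.Omega F (Cfsg.quadFormPlus m F)) (hconj : IsConj t s) :
    (¬ (((((t : ↥(Cfsg.isometryGroup F (Cfsg.quadFormPlus m F))) : GL (Fin m ⊕ Fin m) F) : Matrix (Fin m ⊕ Fin m) (Fin m ⊕ Fin m) F) - 1).rank = m ∧ ∀ v : Fin m ⊕ Fin m → F, Cfsg.quadFormPlus m F (v + Matrix.mulVec (((t : ↥(Cfsg.isometryGroup F (Cfsg.quadFormPlus m F))) : GL (Fin m ⊕ Fin m) F) : Matrix (Fin m ⊕ Fin m) (Fin m ⊕ Fin m) F) v) = 0) →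
      ∃ g ∈ Cfsg.Omega F (Cfsg.quadFormPlus m F), g * t * g⁻¹ = s) ∧
    ((((((t : ↥(Cfsg.isometryGroup F (Cfsg.quadFormPlus m F))) : GL (Fin m ⊕ Fin m) F) : Matrix (Fin m ⊕ Fin m) (Fin m ⊕ Fin m) F) - 1).rank = m ∧ ∀ v : Fin m ⊕ Fin m → F, Cfsg.quadFormPlus m F (v + Matrix.mulVec (((t : ↥(Cfsg.isometryGroup F (Cfsg.quadFormPlus m F))) : GL (Fin m ⊕ Fin m) F) : Matrix (Fin m ⊕ Fin m) (Fin m ⊕ Fin m) F) v) = 0) →
      ((∃ g ∈ Cfsg.Omega F (Cfsg.quadFormPlus m F), g * t * g⁻¹ = s) ↔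
        Even (Module.finrank F ↥(LinearMap.range (Matrix.toLin' ((((t : ↥(Cfsg.isometryGroup F (Cfsg.quadFormPlus m F))) : GL (Fin m ⊕ Fin m) F) : Matrix (Fin m ⊕ Fin m) (Fin m ⊕ Fin m) F) - 1)) ⊓ LinearMap.range (Matrix.toLin' ((((s : ↥(Cfsg.isometryGroup F (Cfsg.quadFormPlus m F))) : GL (Fin m ⊕ Fin m) F) : Matrix (Fin m ⊕ Fin m) (Fin m ⊕ Fin m) F) - 1)))))) := by
  obtain ⟨o, h⟩ := aux (plusQ_nondeg F m) (Fm.split_plus (.inr (by omega))) (finrank_sum_fun m) ht hconj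
  have e := alt_iff o
  have a := o.even
  have l := Submodule.finrank_mono (inf_le_left (a := WW (orthEquiv (plusQ F m) t).1) (b := WW (orthEquiv (plusQ F m) s).1))
  have n : ∀ u v : Fin m ⊕ Fin m → F, u - v = v + u := fun u v => by rw [sub_eq_neg_add, o.neg]
  simp only [Matrix.sub_mulVec, Matrix.one_mulVec, n] at e
  rw [rank_eq (orthEquiv_apply (plusQ F m) t), ← NN_eq (orthEquiv_apply (plusQ F m) t), ← NN_eq (orthEquiv_apply (plusQ F m) s)]
  refine ⟨fun k => h.2 fun k' => (k ⟨k'.1, e.1 k'.2⟩).elim, fun k => h.trans ?_⟩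
  have := a (e.2 k.2)
  rw [k.1] at l this
  simp only [k.1, e.2 k.2, and_self, true_implies, Nat.even_sub l, this, true_iff]

end Cfsg.Agent.S2172
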