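import Cfsg.Statements.S2178
import Cfsg.Agent.H6.Cent2

set_option autoImplicit false
open Cfsg

namespace Cfsg.Agent.S2178

/-- Centralizers of the long and the short root involutions in the Chevalley group G of type F₄ over a finite field F of characteristic two (this problem's root numbering for type F₄, from the Chevalley data module: fundamental roots p₁, p₂ short, p₃, p₄ long, with indices 33, 27, 25, 24, their negatives 14, 20, 22, 23; highest root 47, highest short root 44; U the subgroup generated by the positive root subgroups). For an element t of G with matrix x_47(1): the centralizer of t in G is the subgroup generated by U and the root subgroups X_{−p₁}, X_{−p₂}, X_{−p₃} (the unipotent radical of the maximal parabolic subgroup whose Levi factor has fundamental roots p₁, p₂, p₃, together with that Levi factor's root subgroups; the Levi factor is of type C₃). For an element u of G with matrix x_44(1): the centralizer of u in G is generated by U and X_{−p₂}, X_{−p₃}, X_{−p₄} (the same construction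 for the Levi factor with fundamental roots p₂, p₃, p₄, of type B₃). -/
theorem result {F : Type*} [Field F] [Fintype F] [CharP F 2] (t u : GL Cfsg.Lie.chevF4.Idx F) (ht : (t : Matrix Cfsg.Lie.chevF4.Idx Cfsg.Lie.chevF4.Idx F) = Cfsg.Lie.chevF4.x F 47 1) (hu : (u : Matrix Cfsg.Lie.chevF4.Idx Cfsg.Lie.chevF4.Idx F) = Cfsg.Lie.chevF4.x F 44 1) :
    Cfsg.Lie.chevF4.group F ⊓ Subgroup.centralizer {t} = Cfsg.Lie.chevF4.posUnipotent F ⊔ Cfsg.Lie.chevF4.rootSubgroup F 14 ⊔ Cfsg.Lie.chevF4.rootSubgroup F 20 ⊔ Cfsg.Lie.chevF4.rootSubgroup F 22 ∧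
    Cfsg.Lie.chevF4.group F ⊓ Subgroup.centralizer {u} = Cfsg.Lie.chevF4.posUnipotent F ⊔ Cfsg.Lie.chevF4.rootSubgroup F 20 ⊔ Cfsg.Lie.chevF4.rootSubgroup F 22 ⊔ Cfsg.Lie.chevF4.rootSubgroup F 23 := by
  rw [show t = (CfsgH6.goodF4.gl F).x ⟨47, by decide⟩ 1 from Units.ext (ht.trans (CfsgH6.goodF4.gl_x F ⟨47, _⟩ 1).symm),
    show u = (CfsgH6.goodF4.gl F).x ⟨44, by decide⟩ 1 from Units.ext (hu.trans (CfsgH6.goodF4.gl_x F ⟨44, _⟩ 1).symm),
    CfsgH6.goodF4.group_eq, CfsgH6.goodF4.posUnipotent_eq, CfsgH6.goodF4.rootSubgroup_eq F ⟨14, by decide⟩,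
    CfsgH6.goodF4.rootSubgroup_eq F ⟨20, by decide⟩, CfsgH6.goodF4.rootSubgroup_eq F ⟨22, by decide⟩,
    CfsgH6.goodF4.rootSubgroup_eq F ⟨23, by decide⟩,
    CfsgH6.Cover.cent_one _ (CfsgH6.goodF4.gl_R3 F) CfsgH6.two_cast (i := ⟨3, by decide⟩) (by decide +kernel)
      (by decide +kernel) (by decide +kernel),
    CfsgH6.Cover.cent_one _ (CfsgH6.goodF4.gl_R3 F) CfsgH6.two_cast (i := ⟨0, by decide⟩) (by decide +kernel)
      (by decide +kernel) (by decide +kernel)]
  simp only [sup_assoc, ← CfsgH6.Cover.US_union]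
  constructor <;> congr 2 <;> ext r <;> simp only [Set.mem_union, Set.mem_singleton_iff, Set.mem_setOf_eq] <;>
    revert r <;> decide +kernel

end Cfsg.Agent.S2178
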