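import Cfsg.Statements.S2180
import Cfsg.Agent.H6.Cent2

set_option autoImplicit false
open Cfsg

namespace Cfsg.Agent.S2180

/-- Centralizers of involutions in the Chevalley group G of type G₂ over a finite field F of characteristic two with at least four elements (this problem's root numbering for type G₂, from the Chevalley data module: a = p₁ short with index 7, b = p₂ long with index 6, −a = 4, −b = 5, 2a + b = 9, 3a + b = 10, 3a + 2b = 11; U generated by the positive root subgroups). For an element z of G with matrix x_{3a+2b}(1): the centralizer of z in G is generated by U and X_{−a}. For an element t of G with matrix x_{2a+b}(1): the centralizer of t in G is generated by X_{2a+b}, X_{3a+b}, X_{3a+2b}, X_b and X_{−b}. -/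
theorem result {F : Type*} [Field F] [Fintype F] [CharP F 2] (hF : 4 ≤ Fintype.card F) (z t : GL Cfsg.Lie.chevG2.Idx F) (hz : (z : Matrix Cfsg.Lie.chevG2.Idx Cfsg.Lie.chevG2.Idx F) = Cfsg.Lie.chevG2.x F 11 1) (ht : (t : Matrix Cfsg.Lie.chevG2.Idx Cfsg.Lie.chevG2.Idx F) = Cfsg.Lie.chevG2.x F 9 1) :
    Cfsg.Lie.chevG2.group F ⊓ Subgroup.centralizer {z} = Cfsg.Lie.chevG2.posUnipotent F ⊔ Cfsg.Lie.chevG2.rootSubgroup F 4 ∧
    Cfsg.Lie.chevG2.group F ⊓ Subgroup.centralizer {t} = Cfsg.Lie.chevG2.rootSubgroup F 9 ⊔ Cfsg.Lie.chevG2.rootSubgroup F 10 ⊔ Cfsg.Lie.chevG2.rootSubgroup F 11 ⊔ Cfsg.Lie.chevG2.rootSubgroup F 6 ⊔ Cfsg.Lie.chevG2.rootSubgroup F 5 := by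
  rw [show z = (CfsgH6.goodG2.gl F).x ⟨11, by decide⟩ 1 from Units.ext (hz.trans (CfsgH6.goodG2.gl_x F ⟨11, _⟩ 1).symm),
    show t = (CfsgH6.goodG2.gl F).x ⟨9, by decide⟩ 1 from Units.ext (ht.trans (CfsgH6.goodG2.gl_x F ⟨9, _⟩ 1).symm),
    CfsgH6.goodG2.group_eq, CfsgH6.goodG2.posUnipotent_eq, CfsgH6.goodG2.rootSubgroup_eq F ⟨4, by decide⟩,
    CfsgH6.goodG2.rootSubgroup_eq F ⟨9, by decide⟩, CfsgH6.goodG2.rootSubgroup_eq F ⟨10, by decide⟩,
    CfsgH6.goodG2.rootSubgroup_eq F ⟨11, by decide⟩, CfsgH6.goodG2.rootSubgroup_eq F ⟨6, by decide⟩,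
    CfsgH6.goodG2.rootSubgroup_eq F ⟨5, by decide⟩, CfsgH6.centG2b _ (CfsgH6.goodG2.gl_R3 F),
    CfsgH6.Cover.cent_one _ (CfsgH6.goodG2.gl_R3 F) CfsgH6.two_cast (i := ⟨1, by decide⟩) (by decide +kernel)
      (by decide +kernel) (by decide +kernel)]
  refine ⟨?_, rfl⟩
  congr 2; ext r; simp only [Set.mem_singleton_iff, Set.mem_setOf_eq]; revert r; decide +kernel

end Cfsg.Agent.S2180
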