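import Cfsg.Statements.S2185
import Cfsg.Agent.H6.I2TF4

set_option autoImplicit false
open Cfsg

namespace Cfsg.Agent.S2185

/-- In the group ²F₄(2) (realised inside the Chevalley group of type F₄ over the field with two elements, θ the identity) every element of order 2 lies in the commutator subgroup (the Tits group, of index 2): there are no involutions outside it. -/
theorem result (g : ↥(Cfsg.Lie.twistedF4 (ZMod 2) 1)) (hg : orderOf g = 2) :
    g ∈ commutator ↥(Cfsg.Lie.twistedF4 (ZMod 2) 1) := by
  rw [CfsgH6.mem_commutator_iff']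
  rw [← Subgroup.orderOf_coe] at hg
  obtain ⟨g, h⟩ := g
  simp only [CfsgH6.tits_eq] at h ⊢
  exact CfsgH6.invTF4d _ _ h hg

end Cfsg.Agent.S2185
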