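import Cfsg.Statements.S2209
import Cfsg.Agent.H6.Cent2

set_option autoImplicit false
open Cfsg

namespace Cfsg.Agent.S2209

set_option maxRecDepth 100000

theorem key {F : Type*} [Field F] [CharP F 2] {D : Cfsg.Lie.ChevalleyDatum} (G : CfsgH6.Good D) (L : List ℕ)
    (r : Fin D.nroots) (i : Fin D.rank) (h : ((∀ j : Fin D.rank, D.cartan j r = if j = i then 1 else 0) ∧
      (∀ s, G.Pos s → CfsgH6.Cm D 2 s r) ∧ ∀ j, j ≠ i → CfsgH6.Cm D 2 (G.sm j).rev r) ∧ (∀ s ∈ L, s < D.nroots) ∧
      ∀ s : Fin D.nroots, (∃ j, j ≠ i ∧ s = (G.sm j).rev) ↔ s.1 ∈ L)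
    (t : GL D.Idx F) (ht : (t : Matrix D.Idx D.Idx F) = D.x F r 1) :
    D.group F ⊓ Subgroup.centralizer {t} = D.posUnipotent F ⊔
      Subgroup.closure {g : GL D.Idx F | ∃ s ∈ L, ∃ c : F, (g : Matrix D.Idx D.Idx F) = D.x F s c} := by
  rw [show t = (G.gl F).x r 1 from Units.ext (ht.trans (G.gl_x F r 1).symm), G.group_eq, G.posUnipotent_eq,
    (G.gl F).cent_one (G.gl_R3 F) CfsgH6.two_cast h.1.1 h.1.2.1 h.1.2.2]
  simp only [h.2.2, ← G.closure_x F _ h.2.1, exists_and_left]

/-- Centralizer of a long root involution in the Chevalley groups of type E₆, E₇, E₈ over a finite field F of characteristic two. Let G be the group generated by the root elements, U the subgroup generated by the positive root subgroups, r the highest root (the last root index: 71, 125, 239 respectively), and t the element of G with matrix x_r(1). Then the centralizer of t in G is the subgroup generated by U together with the root subgroups X_{−p} for the fundamental roots p orthogonal to r — all fundamental roots except p₂ for E₆, except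 p₁ for E₇, except p₈ for E₈ (numbering with p₁–p₃–p₄–…–p_l the long chain and p₂ joined to p₄); the indices of these negative fundamental roots are 15, 29, 32, 34, 35 (E₆), 47, 52, 56, 59, 61, 62 (E₇), 77, 98, 104, 109, 113, 116, 118 (E₈). (This is the unipotent radical of the corresponding maximal parabolic subgroup extended by the root subgroups of its Levi factor, of type A₅, D₆, E₇ respectively.) -/
theorem result {F : Type*} [Field F] [Fintype F] [CharP F 2] (d : Cfsg.Lie.ChevalleyDatum × List ℕ)
    (hd : d ∈ [(Cfsg.Lie.chevE6, [15, 29, 32, 34, 35]), (Cfsg.Lie.chevE7, [47, 52, 56, 59, 61, 62]), (Cfsg.Lie.chevE8, [77, 98, 104, 109, 113, 116, 118])])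
    (t : GL d.1.Idx F) (ht : (t : Matrix d.1.Idx d.1.Idx F) = d.1.x F (d.1.nroots - 1) 1) :
    d.1.group F ⊓ Subgroup.centralizer {t} = d.1.posUnipotent F ⊔ Subgroup.closure {g : GL d.1.Idx F | ∃ s ∈ d.2, ∃ c : F, (g : Matrix d.1.Idx d.1.Idx F) = d.1.x F s c} := by
  simp only [List.mem_cons, List.not_mem_nil, or_false] at hd
  rcases hd with rfl | rfl | rfl
  · exact key CfsgH6.goodE6 _ ⟨71, by decide⟩ ⟨1, by decide⟩ (by decide +kernel) t ht
  · exact key CfsgH6.goodE7 _ ⟨125, by decide⟩ ⟨0, by decide⟩ (by decide +kernel) t ht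
  · exact key CfsgH6.goodE8 _ ⟨239, by decide⟩ ⟨7, by decide⟩ (by decide +kernel) t ht

end Cfsg.Agent.S2209
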