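import Cfsg.Statements.S2231
import Mathlib
import Cfsg.Agent.L0.Quad2

set_option autoImplicit false
open Cfsg

namespace Cfsg.Agent.S2231

open Cfsg Subgroup CfsgH2 CfsgL0

/-- Let p be an odd prime and K a finite field of characteristic p. Then Qd(p) (the natural semidirect product of an elementary abelian group of order p² by SL₂(p)) is not involved in the projective special linear group PSL₂(K). -/
theorem result {p : ℕ} [Fact p.Prime] (hp : p ≠ 2) {K : Type*} [Field K] [Fintype K] [CharP K p] : ¬ Cfsg.Involves ↥(Cfsg.qd p) (Matrix.ProjectiveSpecialLinearGroup (Fin 2) K) := by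
  rw [involves_iff]
  intro h
  obtain ⟨j, i, π, q⟩ := exists_isQd (MulEquiv.refl (qd p))
  obtain ⟨e, -, e2⟩ := q.exists_coord
  haveI := Sec.ab_pg h (fun T => by
    have h1 := (syl_uH (F := K)).map (QuotientGroup.mk' (center _))
    rw [map_mk_top] at h1
    obtain ⟨g, -, h2⟩ := h1.conj (syl_top T)
    rw [← h2]; infer_instance) le_top q.syl.pg
  have := e.injective ((e2 1 0 0 0 1 0).symm.trans ((this.1.1 _ _).trans (e2 0 1 0 1 0 0)))
  simp at this

end Cfsg.Agent.S2231
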