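import Mathlib
import Cfsg.Statements.S2238
import Cfsg.Agent.H8.Sz7

set_option autoImplicit false
open Cfsg

namespace Cfsg.Agent.S2238

open CfsgH8.SzG

/-- The partition of the Suzuki group: with q = 2^(2m+1), m ≥ 1, r = 2^m and the Suzuki group realised as the stabiliser in SL₄ of the Suzuki–Tits ovoid, every non-identity element lies in exactly one subgroup that is either a Sylow 2-subgroup or a cyclic subgroup of order q − 1, q + 2r + 1 or q − 2r + 1. -/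
theorem result {F : Type*} [Field F] [Fintype F] {m : ℕ} (hm : 1 ≤ m) (hF : Fintype.card F = 2 ^ (2 * m + 1)) (g : ↥(Cfsg.Sz F m)) (hg : g ≠ 1) :
    ∃! U : Subgroup ↥(Cfsg.Sz F m), ((∃ P : Sylow 2 ↥(Cfsg.Sz F m), U = (P : Subgroup ↥(Cfsg.Sz F m))) ∨
      (IsCyclic ↥U ∧ Nat.card ↥U ∈ ({2 ^ (2 * m + 1) - 1, 2 ^ (2 * m + 1) + 2 ^ (m + 1) + 1, 2 ^ (2 * m + 1) - 2 ^ (m + 1) + 1} : Set ℕ))) ∧ g ∈ U := by
  haveI : CfsgH8.SzG.SzF F m := ⟨hm, hF⟩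
  rw [← hF]
  have hodd : ∀ (P : Sylow 2 (Cfsg.Sz F m)) A, Tor A → g ∈ (P : Subgroup _) → g ∈ A → False := by
    intro P A hA h1 h2
    obtain ⟨k, hk⟩ := sylow_conj P
    rw [hk] at h1
    refine hA.odd ((cls_U_even ?_).trans (CfsgH2.orderOf_dvd_of_mem h2))
    rw [← CfsgH8.cls_map_cj _ k]
    exact CfsgH8.mem_cls_of_mem h1 hg
  apply existsUnique_of_exists_of_unique
  · rcases cases_tor hg with h1 | ⟨A, hA, h1⟩
    · obtain ⟨k, hk⟩ := exists_map_of_cls h1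
      exact ⟨_, Or.inl ⟨k • sylU F m, rfl⟩, hk⟩
    · exact ⟨A, Or.inr ⟨hA.isCyclic, hA.card⟩, h1⟩
  · rintro X Y ⟨⟨P, rfl⟩ | hX, h1⟩ ⟨⟨Q, rfl⟩ | hY, h2⟩
    · exact sylow_ti hg h1 h2
    · exact (hodd P _ (tor_of_cyclic hY.1 hY.2) h1 h2).elim
    · exact (hodd Q _ (tor_of_cyclic hX.1 hX.2) h2 h1).elim
    · exact (tor_of_cyclic hX.1 hX.2).cc.eq_of_mem (tor_of_cyclic hY.1 hY.2).cc h1 h2 hg

end Cfsg.Agent.S2238
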