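import Mathlib
import Cfsg.Statements.S2239
import Cfsg.Agent.H8.Sz10

set_option autoImplicit false
open Cfsg

namespace Cfsg.Agent.S2239

open CfsgH8.SzG CfsgH8

/-- Subfield subgroups of the Suzuki group: let q = 2^(2m+1) and s = 2^(2k+1) with m, k ≥ 1 and 2k+1 dividing 2m+1 (so q is a power of s), both groups realised as stabilisers in SL₄ of the Suzuki–Tits ovoid. Then Sz(q) has a subgroup isomorphic to Sz(s), and any two subgroups of Sz(q) isomorphic to Sz(s) are conjugate. -/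
theorem result {F : Type*} [Field F] [Fintype F] {m : ℕ} (hm : 1 ≤ m) (hF : Fintype.card F = 2 ^ (2 * m + 1)) {K : Type*} [Field K] [Fintype K] {k : ℕ} (hk : 1 ≤ k) (hK : Fintype.card K = 2 ^ (2 * k + 1)) (hdiv : 2 * k + 1 ∣ 2 * m + 1) :
    (∃ S : Subgroup ↥(Cfsg.Sz F m), Nonempty (↥S ≃* ↥(Cfsg.Sz K k))) ∧
    ∀ S₁ S₂ : Subgroup ↥(Cfsg.Sz F m), Nonempty (↥S₁ ≃* ↥(Cfsg.Sz K k)) → Nonempty (↥S₂ ≃* ↥(Cfsg.Sz K k)) →
      ∃ g : ↥(Cfsg.Sz F m), S₂ = S₁.map (MulAut.conj g).toMonoidHom := by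
  haveI : CfsgH8.SzG.SzF F m := ⟨hm, hF⟩
  haveI : CfsgH8.SzG.SzF K k := ⟨hk, hK⟩
  constructor
  · obtain ⟨j, hj⟩ := hdiv
    obtain ⟨f⟩ := nonempty_ringHom (F := F) (K := K) (m := j)
      (by rw [hF, Nat.card_eq_fintype_card, hK, hj, pow_mul])
    exact ⟨_, nonempty_SzL f⟩
  · have key : ∀ S : Subgroup (Cfsg.Sz F m), Nonempty (S ≃* Cfsg.Sz K k) →
        ∃ (g : Cfsg.Sz F m) (L : Subfield F), Nat.card L = Fintype.card K ∧
          S.map (CfsgH2.cj g) = SzL m L := by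
      rintro S ⟨e⟩
      rcases sub_cases S with h1 | ⟨g, L, hL, h1⟩
      · exact absurd (Group.isSolvable_of_surjective (f := e.toMonoidHom) e.surjective) not_sol
      · refine ⟨g, L, order_inj ?_ (one_lt_card_sub L) Fintype.one_lt_card, h1⟩
        rw [← card_SzL (m := m) hL, ← h1, CfsgH2.card_map_cj, Nat.card_congr e.toEquiv, card_sz]
    intro S₁ S₂ h1 h2
    obtain ⟨g₁, L₁, h3, h4⟩ := key S₁ h1
    obtain ⟨g₂, L₂, h5, h6⟩ := key S₂ h2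
    obtain rfl := sub_eq_of_card (h3.trans h5.symm)
    refine ⟨g₂⁻¹ * g₁, ?_⟩
    rw [CfsgH2.cj_def, ← CfsgH2.map_cj_cj, h4, ← h6, CfsgH2.map_cj_inv_cj]

end Cfsg.Agent.S2239
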