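import Mathlib
import Cfsg.Statements.S2240
import Cfsg.Agent.H8.Sz7

set_option autoImplicit false
open Cfsg

namespace Cfsg.Agent.S2240

open CfsgH8.SzG CfsgH8

/-- Elementary abelian TI-subgroups of the Suzuki group: let q = 2^(2m+1) with m ≥ 1, the group realised as the stabiliser in SL₄ of the Suzuki–Tits ovoid, and n ≥ 2. There is an elementary abelian 2-subgroup E of order 2^n that is a TI-subgroup (every conjugate of E meeting E nontrivially is E itself) if and only if n divides 2m + 1. -/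
theorem result {F : Type*} [Field F] [Fintype F] {m : ℕ} (hm : 1 ≤ m) (hF : Fintype.card F = 2 ^ (2 * m + 1)) (n : ℕ) (hn : 2 ≤ n) :
    (∃ E : Subgroup ↥(Cfsg.Sz F m), Cfsg.IsElementaryAbelian 2 E ∧ Nat.card ↥E = 2 ^ n ∧
      ∀ x : ↥(Cfsg.Sz F m), E ⊓ E.map (MulAut.conj x).toMonoidHom ≠ ⊥ → x ∈ Subgroup.normalizer (E : Set ↥(Cfsg.Sz F m))) ↔ n ∣ 2 * m + 1 := by
  haveI : CfsgH8.SzG.SzF F m := ⟨hm, hF⟩
  simp only [CfsgH2.cj_def]
  constructor
  · rintro ⟨E, hE, hc, hTI⟩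
    have hp : IsPGroup 2 E := IsPGroup.of_card hc
    obtain ⟨P, hP⟩ := hp.exists_le_sylow
    obtain ⟨k, hk⟩ := sylow_conj P
    rw [hk, CfsgH2.le_map_cj_iff] at hP
    obtain ⟨S, hS⟩ := exists_zS (E := E.map (CfsgH2.cj k⁻¹)) fun x hx => mem_ZU_of_sq (hP hx) (by
      obtain ⟨y, hy, rfl⟩ := hx
      rw [← map_pow, hE.2 y hy, map_one])
    have hcS : Nat.card S = 2 ^ n := by rw [← card_zS (m := m), ← hS, CfsgH2.card_map_cj, hc]
    have hTI' : ∀ x, zS m S ⊓ (zS m S).map (CfsgH2.cj x) ≠ ⊥ →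
        x ∈ Subgroup.normalizer (zS m S : Set (Cfsg.Sz F m)) := fun x hx => by
      rw [← hS, CfsgH2.normalizer_map_cj, CfsgH2.mem_map_cj]
      apply hTI
      intro h0
      apply hx
      rw [← hS, ← CfsgH2.map_cj_eq_bot (g := k), CfsgH2.map_cj_inf, CfsgH2.map_cj_cj_inv,
        CfsgH2.map_cj_cj, CfsgH2.map_cj_cj]
      simpa using h0
    have key : ∀ l b : F, b ∈ S → b ≠ 0 → l * b ∈ S → ∀ c ∈ S, l * c ∈ S := by
      intro l b hb hb0 hlb c hc
      by_cases hl : l = 0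
      · simp [hl]
      obtain ⟨t, ht⟩ := exists_d_z (m := m) hl
      have := hTI' (d m t) (Subgroup.ne_bot_iff_exists_ne_one.2 ⟨⟨u m 0 (l * b), mem_zS.2 hlb,
        ⟨_, mem_zS.2 hb, ht b⟩⟩, fun h0 => mul_ne_zero hl hb0 (u_eq_one.1 (congrArg Subtype.val h0)).2⟩)
      rw [← mem_zS (m := m), ← ht]
      exact CfsgH2.conj_mem_of_norm this (mem_zS.2 hc)
    have : Nontrivial S := Finite.one_lt_card_iff_nontrivial.1 (by
      rw [hcS]; exact Nat.one_lt_two_pow (by omega))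
    obtain ⟨⟨s, hs⟩, hs0⟩ := exists_ne (0 : S)
    have hs0' : s ≠ 0 := fun h0 => hs0 (Subtype.ext h0)
    let L : Subfield F :=
      { carrier := {l | l * s ∈ S}
        mul_mem' := fun {a b} ha hb => by
          have := key a s hs hs0' ha _ hb
          rwa [← mul_assoc] at this
        one_mem' := by simpa using hs
        add_mem' := fun {a b} ha hb => by simpa [add_mul] using S.add_mem ha hb
        zero_mem' := by simp
        neg_mem' := fun {a} ha => by simpa using ha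
        inv_mem' := fun a ha => by
          by_cases h0 : a = 0
          · simp [h0]
          · exact key a⁻¹ (a * s) ha (mul_ne_zero h0 hs0') (by rwa [inv_mul_cancel_left₀ h0]) s hs }
    have hL : Nat.card L = 2 ^ n := by
      rw [← hcS]
      refine Nat.card_congr (Equiv.ofBijective (fun l => ⟨l.1 * s, l.2⟩) ⟨fun a b hab => ?_, ?_⟩)
      · exact Subtype.ext (mul_right_cancel₀ hs0' (congrArg Subtype.val hab))
      · rintro ⟨c, hc⟩
        exact ⟨⟨c / s, by change c / s * s ∈ S; rwa [div_mul_cancel₀ _ hs0']⟩,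
          Subtype.ext (div_mul_cancel₀ _ hs0')⟩
    obtain ⟨j, -, hj⟩ := exists_card_pow L
    rw [hL, hF, ← pow_mul] at hj
    exact ⟨j, Nat.pow_right_injective le_rfl hj⟩
  · rintro ⟨j, hj⟩
    obtain ⟨L, hL⟩ := exists_sub_card (F := F) (l := 2 ^ n) (m := j) (Nat.one_lt_two_pow (by omega))
      (by rw [hF, hj, pow_mul])
    refine ⟨zS m L.toAddSubgroup, ⟨CfsgH2.isMulComm_iff.2 fun a ha b hb =>
      ZU_comm (zS_le _ hb) (ZU_le_U (zS_le _ ha)), fun a ha => ZU_sq (zS_le _ ha)⟩,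
      (card_zS _).trans hL, fun x hx => ?_⟩
    obtain ⟨⟨_, ⟨b, hb, rfl⟩, ⟨_, ⟨c, hc, rfl⟩, hbc⟩⟩, h1⟩ := Subgroup.ne_bot_iff_exists_ne_one.1 hx
    have hb0 : u m 0 b ≠ 1 := fun h0 => h1 (Subtype.ext h0)
    have hc0 : u m 0 c ≠ 1 := fun h0 => hb0 (by rw [← hbc, h0, map_one])
    rw [CfsgH2.cj_apply] at hbc
    obtain ⟨l, hl, hl'⟩ := B_conj_z (mem_B_of_conj (u_mem 0 c) hc0 (hbc ▸ U_le_B (u_mem 0 b)))
    rw [hl', u_eq_iff] at hbc
    have hc1 : c ≠ 0 := by rintro rfl; simp at hc0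
    have hlL : l ∈ L := by
      rw [← mul_div_cancel_right₀ l hc1, hbc.2]
      exact L.div_mem hb hc
    refine CfsgH2.mem_norm_of_conj ?_
    rintro _ ⟨e, he, rfl⟩
    rw [hl']
    exact mem_zS.2 (L.mul_mem hlL he)

end Cfsg.Agent.S2240
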