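import Mathlib
import Cfsg.Statements.S2241
import Cfsg.Agent.H8.Sz5

set_option autoImplicit false
open Cfsg

namespace Cfsg.Agent.S2241

open CfsgH8.SzG

/-- Real 2-elements of the Suzuki group: with q = 2^(2m+1), m ≥ 1, and the group realised as the stabiliser in SL₄ of the Suzuki–Tits ovoid, a non-identity element of a Sylow 2-subgroup is conjugate to its inverse if and only if it is an involution; in particular no element of order 4 is conjugate to its inverse. -/
theorem result {F : Type*} [Field F] [Fintype F] {m : ℕ} (hm : 1 ≤ m) (hF : Fintype.card F = 2 ^ (2 * m + 1)) (P : Sylow 2 ↥(Cfsg.Sz F m)) (g : ↥(Cfsg.Sz F m)) (hg : g ∈ (P : Subgroup ↥(Cfsg.Sz F m))) (h1 : g ≠ 1) :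
    IsConj g g⁻¹ ↔ orderOf g = 2 := by
  haveI : CfsgH8.SzG.SzF F m := ⟨hm, hF⟩
  obtain ⟨k, hk⟩ := sylow_conj P
  rw [hk] at hg
  obtain ⟨_, ⟨a, b, rfl⟩, rfl⟩ := hg
  rw [orderOf_injective _ (CfsgH2.cj_injective k)]
  by_cases ha : a = 0
  · subst ha
    have hb : b ≠ 0 := by rintro rfl; simp at h1
    have h2 : (u m 0 b)⁻¹ = u m 0 b := by simp [u_inv]
    rw [orderOf_u_zero hb, ← map_inv, h2]
    exact ⟨fun _ => rfl, fun _ => IsConj.refl _⟩
  · rw [orderOf_u ha]
    simp only [show (4 : ℕ) ≠ 2 by decide, iff_false]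
    intro hc
    apply not_real (m := m) (b := b) ha
    have h3 : IsConj (u m a b) (CfsgH2.cj k (u m a b)) := isConj_iff.2 ⟨k, rfl⟩
    have h4 : IsConj (u m a b)⁻¹ (CfsgH2.cj k (u m a b))⁻¹ := isConj_iff.2 ⟨k, by simp [mul_assoc]⟩
    exact h3.trans (hc.trans h4.symm)

end Cfsg.Agent.S2241
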