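import Cfsg.Statements.S2244
import Cfsg.Agent.H5.Wk1
import Cfsg.Agent.H6.GoodAll
import Cfsg.Agent.H6.Adj

set_option autoImplicit false
open Cfsg

namespace Cfsg.Agent.S2244

open CfsgH5.Wk CfsgH6 Cfsg.Lie

set_option maxRecDepth 100000

/-- table check: separation of a fundamental root from the other roots -/
def chkSep (C : Fast) (b : Bool) : Bool :=
  allBelow (fun i => allBelow (fun g => Nat.beq g (C.fsm i) || Nat.beq g (C.rv (C.fsm i)) ||
    anyBelow (fun r => decide (C.fpair r (C.fsm i) = 0) && (decide (C.fpair r g = 1) || (b && decide (C.fpair r g = 2))))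
      C.n) C.n) C.l

/-- table check: chains with coefficient `±1` -/
def chkCC (C : Fast) : Bool :=
  allBelow (fun i => allBelow (fun g => decide (C.fcar i g ≤ 0) || Nat.beq g (C.fsm i) ||
    anyBelow (fun k => decide (C.fvec g k < 0)) C.l ||
    (C.frefl i g :: C.sm).any fun β => decide (β < C.n) && allBelow (fun k => decide (0 ≤ C.fvec β k)) C.l &&
      anyBelow (fun j => decide (C.croot (C.fsm i) β (j + 1) = some g) &&
        (decide (C.cM (C.fsm i) β (j + 1) = 1) || decide (C.cM (C.fsm i) β (j + 1) = -1))) 3) C.n) C.l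

variable {D : ChevalleyDatum} {C : Fast} (K : Checked D C) {F : Type*} [Field F] [Fintype F]

theorem cc_of (h : chkCC C = true) : CC K.good := fun i γ h1 h2 h3 => by
  have H := K.ok
  simp only [chkCC, allBelow_iff, Bool.or_eq_true, decide_eq_true_eq, beq_iff', anyBelow_iff, List.any_eq_true,
    Bool.and_eq_true, H.n_eq, H.l_eq] at h
  rcases h i i.2 γ γ.2 with ((e | e) | ⟨k, hk, e⟩) | ⟨β, -, ⟨k1, k2⟩, j, -, k3⟩
  · rw [K.good.A_sm, H.car_eq'] at h2; omega
  · exact absurd (Fin.ext (e.trans (K.good_sm i).symm)) h3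
  · exact absurd (K.good_vec γ ⟨k, hk⟩ ▸ h1 ⟨k, hk⟩) (not_le.2 e)
  · refine ⟨⟨β, k1⟩, j, fun k => K.good_vec _ k ▸ k2 k k.2, ?_⟩
    rwa [H.croot_eq, H.cM_eq, K.good_sm]

theorem exists_τ (h2 : Fintype.card F ≠ 2) : ∃ τ : F, τ ≠ 0 ∧ τ ≠ 1 := by
  classical
  obtain ⟨τ, -, h⟩ := Finset.exists_mem_notMem_of_card_lt_card (s := {0, 1}) (t := (Finset.univ : Finset F))
    (Finset.card_le_two.trans_lt (by have := Fintype.one_lt_card (α := F); rw [Finset.card_univ]; omega))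
  exact ⟨τ, by simpa [not_or] using h⟩

theorem exists_τ' (h2 : Fintype.card F ≠ 2) (h3 : Fintype.card F ≠ 3) : ∃ τ : F, τ ≠ 0 ∧ τ ^ 2 ≠ 1 := by
  classical
  obtain ⟨τ, -, h⟩ := Finset.exists_mem_notMem_of_card_lt_card (s := {0, 1, -1}) (t := (Finset.univ : Finset F))
    (Finset.card_le_three.trans_lt (by have := Fintype.one_lt_card (α := F); rw [Finset.card_univ]; omega))
  exact ⟨τ, by simpa [not_or] using h⟩

theorem sep_one {G : CfsgH6.Good D} (h2 : Fintype.card F ≠ 2) {b : Bool} (h3 : b = true → Fintype.card F ≠ 3)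
    {δ γ r : Fin D.nroots} (h : G.A r δ = 0) (k : G.A r γ = 1 ∨ (b = true ∧ G.A r γ = 2)) : Sep G F δ γ := by
  rcases k with k | ⟨hb, k⟩
  · obtain ⟨τ, h4, h5⟩ := exists_τ h2
    exact ⟨r, τ, h4, by rw [h, zpow_zero], by rwa [k, zpow_one]⟩
  · obtain ⟨τ, h4, h5⟩ := exists_τ' h2 (h3 hb)
    exact ⟨r, τ, h4, by rw [h, zpow_zero], by rwa [k, zpow_ofNat]⟩

theorem sep_of {b : Bool} (h : chkSep C b = true) (h2 : Fintype.card F ≠ 2) (h3 : b = true → Fintype.card F ≠ 3)
    {δ γ : Fin D.nroots} (h4 : K.good.Pos δ) (h5 : K.good.Pos γ) (h6 : γ ≠ δ) : Sep K.good F δ γ := by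
  have H := K.ok
  simp only [chkSep, allBelow_iff, Bool.or_eq_true, decide_eq_true_eq, beq_iff', anyBelow_iff,
    Bool.and_eq_true, H.n_eq, H.l_eq] at h
  obtain ⟨w, hw, i, rfl⟩ := K.good.exists_W_sm δ
  obtain ⟨γ, rfl⟩ := w.surjective γ
  rcases h i i.2 γ γ.2 with (e | e) | ⟨r, hr, k1, k2⟩
  · exact absurd (congrArg w (Fin.ext (e.trans (K.good_sm i).symm))) h6
  · rw [← K.good_sm, H.rv_eq] at e
    rw [Fin.ext e, Good.rev_W hw] at h5
    exact absurd h4 (K.good.pos_rev.1 h5)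
  · refine sep_one h2 h3 (r := w ⟨r, hr⟩) ?_ ?_
    · rw [Good.A_W hw, Good.A, ← H.fpair_eq, K.good_sm]; exact k1
    · rw [Good.A_W hw, Good.A, ← H.fpair_eq]; exact k2

variable {Γ : Type*} [Group Γ] {X : Subgroup Γ}

theorem tp_gen {b : Bool} (h : chkSep C b = true) (h2 : Fintype.card F ≠ 2) (h3 : b = true → Fintype.card F ≠ 3)
    {C' : Cover K.good F Γ} (hX : CfsgH5.Wk.BN C' X) (γ : Fin D.nroots) (hγ : K.good.Pos γ) : TP C' X γ :=
  tp_of hX hγ fun _ _ a hδ => .inl (sep_of K h h2 h3 hδ hγ a.ne)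

theorem tp_G2 (h2 : Fintype.card F ≠ 2) (h3 : Fintype.card F ≠ 3) {C' : Cover goodG2 F Γ} (hX : CfsgH5.Wk.BN C' X)
    (γ : Fin chevG2.nroots) : goodG2.Pos γ → TP C' X γ := by
  have k : ∀ γ δ : Fin chevG2.nroots, goodG2.Pos γ → γ < δ → (∃ r, goodG2.A r δ = 0 ∧ (goodG2.A r γ = 1 ∨
      (true = true ∧ goodG2.A r γ = 2))) ∨ (γ.1 = 6 ∧ 10 ≤ δ.1) ∨ (γ.1 = 10 ∧ δ.1 = 11) := by decide +kernel
  let r6 : Fin chevG2.nroots := ⟨6, by decide +kernel⟩
  let r7 : Fin chevG2.nroots := ⟨7, by decide +kernel⟩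
  let r10 : Fin chevG2.nroots := ⟨10, by decide +kernel⟩
  let r11 : Fin chevG2.nroots := ⟨11, by decide +kernel⟩
  induction γ using WellFoundedGT.induction with
  | ind γ ih =>
  intro hγ
  have k1 : (∀ k, r10 < k → goodG2.Pos k → TP C' X k) → Ld C' X r10 (r10 + 1) → ∀ t, C'.x r11 t ∈ X := fun h h' =>
    Ld.comm hX (d := r6) (g := r10) (a := r11) (j := 0) (by decide +kernel) (by decide +kernel) (by decide +kernel)
      (by decide +kernel) (fun k a b => h k b a) h'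
  refine tp_of hX hγ fun h δ a hδ => ?_
  rcases k γ δ hγ a with ⟨r, e1, e2⟩ | ⟨e1, e2⟩ | ⟨e1, e2⟩
  · exact .inl (sep_one h2 (fun _ => h3) e1 e2)
  · obtain rfl : γ = r6 := Fin.ext e1
    have h4 := Ld.comm hX (d := r7) (g := r6) (a := r10) (j := 2) (by decide +kernel) hγ (by decide +kernel)
      (by decide +kernel) (fun k a b => ih k b a) (h.kill hX hγ (by decide) fun δ a b _ => by
        rcases k r6 δ hγ a with ⟨r, e1, e2⟩ | ⟨-, e2⟩ | ⟨e1, -⟩
        · exact .inl (sep_one h2 (fun _ => h3) e1 e2)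
        · exact absurd b (not_lt.2 e2)
        · cases e1)
    rcases e2.eq_or_lt with e | e
    · exact .inr ((Fin.ext e : r10 = δ) ▸ h4)
    · have : δ.1 < 12 := δ.2
      exact .inr ((Fin.ext (by simp [r11]; omega) : r11 = δ) ▸
        k1 (fun k a => ih k (lt_trans (by decide) a)) ⟨1, one_ne_zero, 1, one_mem _, by simpa using h4 1⟩)
  · obtain rfl : γ = r10 := Fin.ext e1
    exact .inr ((Fin.ext e2.symm : r11 = δ) ▸ k1 ih h)

theorem main (G : CfsgH6.Good D) (hC : CC G) {X : Subgroup (GL D.Idx F)}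
    (hT : CfsgH5.Wk.BN (G.gl F) X → ∀ γ, G.Pos γ → TP (G.gl F) X γ) (hXU : X ≤ D.posUnipotent F)
    (hwc : ∀ g ∈ D.group F, X.map (MulAut.conj g).toMonoidHom ≤ D.posUnipotent F →
      X.map (MulAut.conj g).toMonoidHom = X) : ∃ J : Set ℕ, (∀ j ∈ J, j < D.rank) ∧ X = D.unipotentRadical F J := by
  rw [G.posUnipotent_eq, G.group_eq] at *
  have k : ∀ g ∈ (G.gl F).Gr, (∀ a ∈ X, g * a * g⁻¹ ∈ (G.gl F).U) → ∀ a ∈ X, g * a * g⁻¹ ∈ X := fun g hg h a ha =>
    hwc g hg (by rintro _ ⟨b, hb, rfl⟩; exact h b hb) ▸ ⟨a, ha, rfl⟩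
  have k1 : ∀ g ∈ (G.gl F).B, ∀ a ∈ X, g * a * g⁻¹ ∈ X := fun g hg =>
    k g ((G.gl F).B_le_Gr hg) fun a ha => (G.gl F).B_conj hg (hXU ha)
  have hX : CfsgH5.Wk.BN (G.gl F) X := ⟨fun g hg => k1 g ((G.gl F).U_le_B hg),
    fun r τ h => k1 _ ((G.gl F).HH_le_B ((G.gl F).h_mem_HH r h))⟩
  obtain ⟨J, hJ⟩ := eq_rad hX hXU (hT hX) hC fun i hi => k _ ((G.gl F).NN_le_Gr ((G.gl F).ν_mem i)) fun a ha =>
    ((G.gl F).mon_n_sm i one_ne_zero).conj_mem (fun s hs => G.pos_σ hs.1 hs.2) (hi ha)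
  refine ⟨Fin.val '' J, by rintro _ ⟨j, -, rfl⟩; exact j.2, ?_⟩
  rw [G.radical_eq, hJ, Good.radJ]
  simp [Fin.val_injective.mem_set_image]

theorem ccG2 : chkCC fastG2 = true := by decide +kernel
theorem ccB2 : chkCC fastB2 = true := by decide +kernel
theorem ccD4 : chkCC fastD4 = true := by decide +kernel
theorem ccF4 : chkCC fastF4 = true := by decide +kernel
theorem ccE6 : chkCC fastE6 = true := by decide +kernel
theorem ccE7 : chkCC fastE7 = true := by decide +kernel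
theorem ccE8 : chkCC fastE8 = true := by decide +kernel
theorem spB2 : chkSep fastB2 true = true := by decide +kernel
theorem spD4 : chkSep fastD4 true = true := by decide +kernel
theorem spF4 : chkSep fastF4 true = true := by decide +kernel
theorem spE6 : chkSep fastE6 false = true := by decide +kernel
theorem spE7 : chkSep fastE7 false = true := by decide +kernel
theorem spE8 : chkSep fastE8 false = true := by decide +kernel


/-- Weakly closed unipotent subgroups of Chevalley groups: let G be the Chevalley group of type G₂, B₂, D₄, F₄, E₆, E₇ or E₈ over a finite field F (the matrix group generated by the root elements), with |F| ≠ 2, and |F| ≠ 3 as well for the types G₂, B₂, D₄, F₄. Let U be the subgroup generated by the positive root subgroups. If X ≤ U is weakly closed in U with respect to G (every G-conjugate of X lying in U equals X), then X is the unipotent radical U_J of a standard parabolic subgroup for some set J of fundamental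 roots. -/
theorem result {F : Type*} [Field F] [Fintype F] (D : Cfsg.Lie.ChevalleyDatum) (hD : D ∈ [Cfsg.Lie.chevG2, Cfsg.Lie.chevB2, Cfsg.Lie.chevD4, Cfsg.Lie.chevF4, Cfsg.Lie.chevE6, Cfsg.Lie.chevE7, Cfsg.Lie.chevE8])
    (h2 : Fintype.card F ≠ 2) (h3 : D ∈ [Cfsg.Lie.chevG2, Cfsg.Lie.chevB2, Cfsg.Lie.chevD4, Cfsg.Lie.chevF4] → Fintype.card F ≠ 3)
    (X : Subgroup (GL D.Idx F)) (hXU : X ≤ D.posUnipotent F)
    (hwc : ∀ g ∈ D.group F, X.map (MulAut.conj g).toMonoidHom ≤ D.posUnipotent F → X.map (MulAut.conj g).toMonoidHom = X) :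
    ∃ J : Set ℕ, (∀ j ∈ J, j < D.rank) ∧ X = D.unipotentRadical F J := by
  simp only [List.mem_cons, List.not_mem_nil, or_false] at hD
  rcases hD with rfl | rfl | rfl | rfl | rfl | rfl | rfl
  · exact main goodG2 (cc_of checkedG2 ccG2) (tp_G2 h2 (h3 (by simp))) hXU hwc
  · exact main goodB2 (cc_of checkedB2 ccB2) (tp_gen checkedB2 spB2 h2 fun _ => h3 (by simp)) hXU hwc
  · exact main goodD4 (cc_of checkedD4 ccD4) (tp_gen checkedD4 spD4 h2 fun _ => h3 (by simp)) hXU hwc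
  · exact main goodF4 (cc_of checkedF4 ccF4) (tp_gen checkedF4 spF4 h2 fun _ => h3 (by simp)) hXU hwc
  · exact main goodE6 (cc_of checkedE6 ccE6) (tp_gen checkedE6 spE6 h2 (by simp)) hXU hwc
  · exact main goodE7 (cc_of checkedE7 ccE7) (tp_gen checkedE7 spE7 h2 (by simp)) hXU hwc
  · exact main goodE8 (cc_of checkedE8 ccE8) (tp_gen checkedE8 spE8 h2 (by simp)) hXU hwc

end Cfsg.Agent.S2244
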