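import Cfsg.Statements.S2245
import Cfsg.Agent.H1.Sn3

set_option autoImplicit false
open Cfsg

namespace Cfsg.Agent.S2245

/-- For n ≥ 5 with n ≠ 6, a Sylow 2-subgroup of the alternating group A_n lies in exactly one maximal subgroup of A_n if and only if n = 2^k + 1 for some k ≥ 2; the same holds for the symmetric group S_n. -/
theorem result (n : ℕ) (hn : 5 ≤ n) (h6 : n ≠ 6) :
    ((∀ R : Sylow 2 ↥(alternatingGroup (Fin n)), (∃! M : Subgroup ↥(alternatingGroup (Fin n)), IsCoatom M ∧ (R : Subgroup ↥(alternatingGroup (Fin n))) ≤ M) ↔ ∃ k : ℕ, 2 ≤ k ∧ n = 2 ^ k + 1) ∧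
    (∀ R : Sylow 2 (Equiv.Perm (Fin n)), (∃! M : Subgroup (Equiv.Perm (Fin n)), IsCoatom M ∧ (R : Subgroup (Equiv.Perm (Fin n))) ≤ M) ↔ ∃ k : ℕ, 2 ≤ k ∧ n = 2 ^ k + 1)) := by
  open CfsgH1 CfsgH1.Sn Equiv Equiv.Perm MulAction in
  open scoped commutatorElement in
  · exact ⟨fun R => by simpa using uniq_max (α := Fin n) (by simpa) (fun g hg => ⟨⟨g, hg⟩, rfl⟩) R,
      fun R => by simpa using uniq_max (α := Fin n) (by simpa) (fun g _ => ⟨g, rfl⟩) R⟩

end Cfsg.Agent.S2245
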