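import Mathlib
import Cfsg.Statements.S2251
import Cfsg.Agent.H8.Sz10

set_option autoImplicit false
open Cfsg

namespace Cfsg.Agent.S2251

open CfsgH8.SzG CfsgH8

/-- The subgroups of the Suzuki group: with q = 2^(2m+1), m ≥ 1, r = 2^m and the group realised as the stabiliser in SL₄ of the Suzuki–Tits ovoid, every proper subgroup is contained in the normalizer of a Sylow 2-subgroup, or in the normalizer of a cyclic subgroup of order q − 1, q + 2r + 1 or q − 2r + 1, or in a subgroup isomorphic to a smaller Suzuki group Sz(s) with s = 2^(2k+1) ≥ 8 and 2k+1 a proper divisor of 2m+1. -/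
theorem result {F : Type*} [Field F] [Fintype F] {m : ℕ} (hm : 1 ≤ m) (hF : Fintype.card F = 2 ^ (2 * m + 1)) (M : Subgroup ↥(Cfsg.Sz F m)) (hM : M ≠ ⊤) :
    (∃ P : Sylow 2 ↥(Cfsg.Sz F m), M ≤ Subgroup.normalizer ((P : Subgroup ↥(Cfsg.Sz F m)) : Set ↥(Cfsg.Sz F m))) ∨
    (∃ U : Subgroup ↥(Cfsg.Sz F m), IsCyclic ↥U ∧ Nat.card ↥U ∈ ({2 ^ (2 * m + 1) - 1, 2 ^ (2 * m + 1) + 2 ^ (m + 1) + 1, 2 ^ (2 * m + 1) - 2 ^ (m + 1) + 1} : Set ℕ) ∧
      M ≤ Subgroup.normalizer (U : Set ↥(Cfsg.Sz F m))) ∨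
    (∃ (K : Type) (_ : Field K) (_ : Fintype K) (k : ℕ), 1 ≤ k ∧ k < m ∧ Fintype.card K = 2 ^ (2 * k + 1) ∧ 2 * k + 1 ∣ 2 * m + 1 ∧
      ∃ S : Subgroup ↥(Cfsg.Sz F m), Nonempty (↥S ≃* ↥(Cfsg.Sz K k)) ∧ M ≤ S) := by
  haveI : CfsgH8.SzG.SzF F m := ⟨hm, hF⟩
  rcases sub_cases M with h1 | ⟨g, L, hL, h1⟩
  · rcases sol_cases h1 with ⟨k, hk⟩ | ⟨A, hA, h2⟩
    · refine Or.inl ⟨k • sylU F m, hk.trans (le_of_eq ?_)⟩
      rw [← norm_U, ← CfsgH2.normalizer_map_cj]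
      rfl
    · exact Or.inr (Or.inl ⟨A, hA.isCyclic, hF ▸ hA.card, h2⟩)
  · obtain ⟨K, _, _, k, hk, hK, hd, ⟨e⟩⟩ := exists_model_SzL (m := m) hL
    refine Or.inr (Or.inr ⟨K, inferInstance, inferInstance, k, hk.hm, ?_, hk.hF, hd, M,
      ⟨(M.equivMapOfInjective _ (CfsgH2.cj_injective g)).trans ((MulEquiv.subgroupCongr h1).trans e)⟩, le_rfl⟩)
    have h2 := Nat.le_of_dvd (by omega) hd
    by_contra h3
    obtain rfl : k = m := by omega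
    rw [(sub_eq_top_iff (L := L)).2 (by rw [← hK, hk.hF, hF]), SzL_top, CfsgH2.map_cj_eq_top] at h1
    exact hM h1

end Cfsg.Agent.S2251
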