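import Mathlib
import Cfsg.Statements.S2254
import Cfsg.Agent.H8.Nilp2

set_option autoImplicit false
open Cfsg

namespace Cfsg.Agent.S2254

open CfsgH8.Nilp

/-- Let n ≡ 3 (mod 4). Then every nilpotent subgroup of the symmetric group on n letters has order at most 3 times the order of a Sylow 2-subgroup of the symmetric group on n − 3 letters; the bound is attained by a nilpotent subgroup isomorphic to the direct product of such a Sylow 2-subgroup with a cyclic group of order 3; and any two nilpotent subgroups attaining the bound are conjugate. -/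
theorem result  (n : ℕ) (hn : n % 4 = 3)
    (P : Sylow 2 (Equiv.Perm (Fin (n - 3)))) :
    (∀ N : Subgroup (Equiv.Perm (Fin n)), Group.IsNilpotent N → Nat.card N ≤ 3 * Nat.card P) ∧
    (∃ M : Subgroup (Equiv.Perm (Fin n)), Group.IsNilpotent M ∧ Nat.card M = 3 * Nat.card P ∧
      Nonempty (M ≃* (↥(P : Subgroup (Equiv.Perm (Fin (n - 3)))) × Multiplicative (ZMod 3)))) ∧
    (∀ N₁ N₂ : Subgroup (Equiv.Perm (Fin n)), Group.IsNilpotent N₁ → Group.IsNilpotent N₂ →
      Nat.card N₁ = 3 * Nat.card P → Nat.card N₂ = 3 * Nat.card P →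
      ∃ g : Equiv.Perm (Fin n), N₂ = N₁.map (MulAut.conj g).toMonoidHom) := by
  have h3 : 3 ≤ n := by omega
  have h1 := f_three (n := n - 3) (by omega)
  rw [Nat.sub_add_cancel h3] at h1
  have h0 := f_pos (n - 3)
  rw [sylS]
  refine ⟨fun N hN => ?_, ?_, fun N₁ N₂ a b c d => ?_⟩
  · rcases symS N hN with h | ⟨-, h, -⟩ <;> omega
  · obtain ⟨ψ, hψ, -⟩ := exM h3
    let χ := ψ.comp (MonoidHom.prodMap (P : Subgroup (Equiv.Perm (Fin (n - 3)))).subtype (MonoidHom.id _))
    have hχ : Function.Injective χ := hψ.comp (Subtype.val_injective.prodMap Function.injective_id)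
    let e := MonoidHom.ofInjective hχ
    haveI := P.isPGroup'.isNilpotent
    refine ⟨χ.range, nilpotent_of_mulEquiv e, ?_, ⟨e.symm⟩⟩
    rw [← Nat.card_congr e.toEquiv, Nat.card_prod, sylS, mul_comm]
    simp
  · obtain ⟨g, -, hg⟩ := conj3 ⊤ N₁ N₂ le_top le_top (f (n - 3)) (fun s t hs ht => by
      obtain ⟨g, hg⟩ := isConj_iff.1 (Equiv.Perm.isConj_iff_cycleType_eq.2 (hs.cycleType.trans ht.cycleType.symm))
      exact ⟨g, trivial, hg⟩) (fun A hA => by rw [top_inf_eq, card_fix, hA, Fintype.card_fin, f]) (by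
      rintro N (rfl | rfl)
      · exact ⟨c, ((symS _ a).resolve_left (by omega)).2.2⟩
      · exact ⟨d, ((symS _ b).resolve_left (by omega)).2.2⟩)
    exact ⟨g, hg⟩

end Cfsg.Agent.S2254
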