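import Mathlib
import Cfsg.Statements.S2255
import Cfsg.Agent.H8.Nilp2

set_option autoImplicit false
open Cfsg

namespace Cfsg.Agent.S2255

open CfsgH8.Nilp

/-- Let n be a natural number not congruent to 3 modulo 4, with n ∉ {5, 6, 9}. Then every nilpotent subgroup of the alternating group on n letters has order at most the order of a Sylow 2-subgroup of the alternating group (so the nilpotent subgroups of largest order are exactly the Sylow 2-subgroups). -/
theorem result  (n : ℕ) (hn : n % 4 ≠ 3)
    (h5 : n ≠ 5) (h6 : n ≠ 6) (h9 : n ≠ 9)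
    (N : Subgroup (alternatingGroup (Fin n))) (hN : Group.IsNilpotent N)
    (P : Sylow 2 (alternatingGroup (Fin n))) :
    Nat.card N ≤ Nat.card P := by
  by_cases h2 : 2 ≤ n
  swap
  · have : Subsingleton (Fin n) := Fin.subsingleton_iff_le_one.2 (by omega)
    have h1 : Nat.card N ≤ 1 := Finite.card_le_one_iff_subsingleton.2 inferInstance
    exact h1.trans Nat.card_pos
  have h1 := sylA h2 P
  let e := N.equivMapOfInjective (alternatingGroup (Fin n)).subtype Subtype.val_injective
  rw [Nat.card_congr e.toEquiv]
  rcases altS _ (nilpotent_of_mulEquiv e) (Subgroup.map_subtype_le N) h2 (by omega) h5 h6 h9 with h | h | ⟨h3, h, -⟩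
  · omega
  · omega
  · have := f_three' (n := n - 3) (by omega)
    rw [Nat.sub_add_cancel (by omega)] at this
    omega

end Cfsg.Agent.S2255
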