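import Mathlib
import Cfsg.Statements.S2256
import Cfsg.Agent.H8.Nilp2

set_option autoImplicit false
open Cfsg

namespace Cfsg.Agent.S2256

open CfsgH8.Nilp

/-- Let n ≡ 3 (mod 4) with n ≥ 7. Then every nilpotent subgroup of the alternating group on n letters has order at most 3 times the order of a Sylow 2-subgroup of the alternating group on n − 3 letters; the bound is attained by a nilpotent subgroup isomorphic to the direct product of such a Sylow 2-subgroup with a cyclic group of order 3; and any two nilpotent subgroups of the alternating group attaining the bound are conjugate in it. -/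
theorem result  (n : ℕ) (hn : n % 4 = 3) (h7 : 7 ≤ n)
    (P : Sylow 2 (alternatingGroup (Fin (n - 3)))) :
    (∀ N : Subgroup (alternatingGroup (Fin n)), Group.IsNilpotent N → Nat.card N ≤ 3 * Nat.card P) ∧
    (∃ M : Subgroup (alternatingGroup (Fin n)), Group.IsNilpotent M ∧ Nat.card M = 3 * Nat.card P ∧
      Nonempty (M ≃* (↥(P : Subgroup (alternatingGroup (Fin (n - 3)))) × Multiplicative (ZMod 3)))) ∧
    (∀ N₁ N₂ : Subgroup (alternatingGroup (Fin n)), Group.IsNilpotent N₁ → Group.IsNilpotent N₂ →
      Nat.card N₁ = 3 * Nat.card P → Nat.card N₂ = 3 * Nat.card P →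
      ∃ g : alternatingGroup (Fin n), N₂ = N₁.map (MulAut.conj g).toMonoidHom) := by
  have h3 : 3 ≤ n := by omega
  have h1 := f_three (n := n - 3) (by omega)
  rw [Nat.sub_add_cancel h3] at h1
  have h2 := sylA (by omega) P
  have h4 : n = 7 → 4 ≤ Nat.card P := by
    rintro rfl
    have := le_f (n := 7 - 3) (k := 3) (by decide)
    omega
  have h0 := f_pos (n - 3)
  have key := fun (N : Subgroup (alternatingGroup (Fin n))) (hN : Group.IsNilpotent N) =>
    altS _ (nilpotent_of_mulEquiv (N.equivMapOfInjective (alternatingGroup (Fin n)).subtype Subtype.val_injective))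
      (Subgroup.map_subtype_le N) (by omega) (by omega) (by omega) (by omega) (by omega)
  have hc : ∀ N : Subgroup (alternatingGroup (Fin n)), Nat.card (N.map (alternatingGroup (Fin n)).subtype) = Nat.card N :=
    fun N => Subgroup.card_map_of_injective Subtype.val_injective
  refine ⟨fun N hN => ?_, ?_, fun N₁ N₂ a b c d => ?_⟩
  · have := hc N
    rcases key N hN with h | h | ⟨-, h, -⟩ <;> omega
  · obtain ⟨ψ, hψ, hs⟩ := exM h3
    let χ := (ψ.comp (MonoidHom.prodMap ((alternatingGroup (Fin (n - 3))).subtype.comp
      (P : Subgroup (alternatingGroup (Fin (n - 3)))).subtype) (MonoidHom.id _))).codRestrict (alternatingGroup (Fin n))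
      (fun x => (hs _).trans x.1.1.2)
    have hχ : Function.Injective χ := fun x y e =>
      (hψ.comp ((Subtype.val_injective.comp Subtype.val_injective).prodMap Function.injective_id)) (congrArg Subtype.val e)
    let e := MonoidHom.ofInjective hχ
    haveI := P.isPGroup'.isNilpotent
    refine ⟨χ.range, nilpotent_of_mulEquiv e, ?_, ⟨e.symm⟩⟩
    rw [← Nat.card_congr e.toEquiv, Nat.card_prod, mul_comm]
    simp
  · obtain ⟨g, hg', hg⟩ := conj3 (alternatingGroup (Fin n)) _ _ (Subgroup.map_subtype_le N₁) (Subgroup.map_subtype_le N₂) (Nat.card P)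
      (fun s t hs ht => by
        obtain ⟨g, hg⟩ := isConj_iff.1 (alternatingGroup.isThreeCycle_isConj (by simp; omega)
          (σ := ⟨s, hs.mem_alternatingGroup⟩) (τ := ⟨t, ht.mem_alternatingGroup⟩) hs ht)
        exact ⟨g, g.2, congrArg Subtype.val hg⟩)
      (fun A hA => by
        have := fA (card_fixA A (by simp; omega))
        rw [hA, Fintype.card_fin] at this
        omega) (by
      rintro N (rfl | rfl)
      · have := hc N₁
        exact ⟨this.trans c, (((key _ a).resolve_left (by omega)).resolve_left (by omega)).2.2⟩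
      · have := hc N₂
        exact ⟨this.trans d, (((key _ b).resolve_left (by omega)).resolve_left (by omega)).2.2⟩)
    refine ⟨⟨g, hg'⟩, Subgroup.map_injective (alternatingGroup (Fin n)).subtype_injective ?_⟩
    rw [hg, Subgroup.map_map]
    exact Subgroup.map_map _ _ _

end Cfsg.Agent.S2256
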