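import Mathlib
import Cfsg.Statements.S2257
import Cfsg.Agent.H8.Sol

set_option autoImplicit false
open Cfsg

namespace Cfsg.Agent.S2257

open CfsgH8

/-- Let G = PSL_2(F) with F a field of order q = 2^p, p prime, and for x ∈ G call the solubilizer of x the set of y ∈ G such that x and y generate a solvable subgroup. Then the solubilizer of an involution has 3q(q − 1) elements; that of a non-identity element of order dividing q − 1 has 2q(q − 1) elements; and that of a non-identity element of order dividing q + 1 has 2(q + 1) elements. -/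
theorem result (p : ℕ) (hp : p.Prime) {F : Type*} [Field F] [Fintype F]
    (hF : Fintype.card F = 2 ^ p) (x : Matrix.ProjectiveSpecialLinearGroup (Fin 2) F) :
    (orderOf x = 2 → Nat.card {y : Matrix.ProjectiveSpecialLinearGroup (Fin 2) F // Group.IsSolvable ↥(Subgroup.closure ({x, y} : Set (Matrix.ProjectiveSpecialLinearGroup (Fin 2) F)))} = 3 * 2 ^ p * (2 ^ p - 1)) ∧
    (x ≠ 1 → orderOf x ∣ 2 ^ p - 1 → Nat.card {y : Matrix.ProjectiveSpecialLinearGroup (Fin 2) F // Group.IsSolvable ↥(Subgroup.closure ({x, y} : Set (Matrix.ProjectiveSpecialLinearGroup (Fin 2) F)))} = 2 * 2 ^ p * (2 ^ p - 1)) ∧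
    (x ≠ 1 → orderOf x ∣ 2 ^ p + 1 → Nat.card {y : Matrix.ProjectiveSpecialLinearGroup (Fin 2) F // Group.IsSolvable ↥(Subgroup.closure ({x, y} : Set (Matrix.ProjectiveSpecialLinearGroup (Fin 2) F)))} = 2 * (2 ^ p + 1)) := by
  haveI : CharP F 2 := charP_of_card_eq_prime_pow hF
  have hq : Fintype.card F % 2 = 0 := by rw [hF]; simp [hp.pos]
  have t2 : (2 : F) = 0 := CharTwo.two_eq_zero
  have g1 := gcd_two_even hq
  have cs := fun x y => Sv.cases (F := F) (x := x) (y := y) 2 hp hF (.inl rfl)
  have k : x ≠ 1 → ¬ 2 ∣ orderOf x → (orderOf x ∣ Fintype.card F - 1 → sol x = 2 * Fintype.card F * (Fintype.card F - 1)) ∧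
      (orderOf x ∣ Fintype.card F + 1 → sol x = 2 * (Fintype.card F + 1)) := fun h1 h2 => by
    have n : x ^ 2 ≠ 1 := fun e => h2 (orderOf_eq_prime e h1).symm.dvd
    obtain ⟨z, rfl, -, hz⟩ := exists_lift_trace h1
    have := sol_tor (hz.resolve_right fun t => n (by rw [← map_pow, pow_char_of_trace 2 t, map_one])) n fun x y _ n s =>
      (cs x y s).imp_right (.imp_right fun ⟨g, a, b⟩ => by
        obtain ⟨e⟩ := nonempty_SLs_bot (F := F) 2
        have k : ∀ a b : Matrix.SpecialLinearGroup (Fin 2) (ZMod 2), a ^ 2 ≠ 1 → b * a * b⁻¹ * a = a * (b * a * b⁻¹) := by decide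
        have := k (e ⟨_, a⟩) (e ⟨_, b⟩) fun t => n (by
          rw [← map_pow, MulEquiv.map_eq_one_iff, Subtype.ext_iff] at t
          rw [← map_pow, (cjE g).map_eq_one_iff.1 ((map_pow (cjE g) x 2).trans t), map_one])
        simp only [← map_inv, ← map_mul, e.apply_eq_iff_eq, Subtype.ext_iff] at this
        exact Subgroup.mem_centralizer_singleton_iff.2 ((cjE g).injective (by simp only [map_mul, map_inv]; exact this)))
    rwa [g1, one_mul] at this
  have q1 : 1 < Fintype.card F := Fintype.one_lt_card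
  rw [← hF]
  refine ⟨fun h => ?_, fun h d => (k h fun e => ?_).1 d, fun h d => (k h fun e => ?_).2 d⟩
  · classical
    obtain ⟨z, rfl⟩ := πS_surj x
    have tu : (triS 1 (1 : F)).1.trace = 0 := by simp [triS_val, one_add_one_eq_two, t2]
    have u1 : triS 1 (1 : F) ≠ 1 := fun e => one_ne_zero (triS_inj.1 (e.trans triS_one.symm)).2
    have us : ¬ IsSc (triS 1 (1 : F)).1 := by simp [IsSc, triS_val]
    have tz : ∀ {C N}, TorN C N → ∀ x ∈ N, x ∉ C → x.1.trace = (0 : F) := fun h x hx n =>
      trace_eq_zero_of_isSc_sq (isSc_SL2.2 (.inr (h.sq x hx n))) fun e => n (h.tor.mem_of_isSc e)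
    change sol _ = _
    rw [sol_trace (fun s => by simp [πS_eq_one.2 s] at h) us ((trace_of_orderOf_πS_two h).trans tu.symm), ← one_mul (sol _), ← g1,
      sol_πS (P := fun y => y.1 1 0 = 0 ∨ y.1.trace = 0 ∨ y.1.trace + y.1 1 0 = 0) fun y => ?_,
      card_BS_or _ (fun a c d => d = -a ∨ d = -a - (c : F)) fun y c hc => by
        rw [Matrix.trace_fin_two, hc]; exact or_congr ⟨fun e => by linear_combination e, fun e => by linear_combination e⟩
          ⟨fun e => by linear_combination e, fun e => by linear_combination e⟩]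
    · have : ∀ (a : F) (c : Fˣ), (Finset.univ.filter fun d : F => d = -a ∨ d = -a - c).card = 2 := fun a c =>
        Finset.card_eq_two.2 ⟨-a, -a - c, fun e => c.ne_zero (by linear_combination e), by ext; simp⟩
      simp only [Nat.card_eq_fintype_card, Fintype.card_subtype, Finset.card_filter, Fintype.sum_prod_type] at this ⊢
      simp [this, Fintype.card_units, g1]
      ring
    have t := trace_triS_mul 1 y
    rw [one_mul] at t
    refine ⟨fun s => ?_, ?_⟩
    · rcases cs _ _ s with ⟨C, N, h, a, b⟩ | ⟨s, a, b⟩ | ⟨g, a, b⟩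
      · have n : triS 1 1 ∉ C := fun m => (reg_SL2_iff.1 (h.tor.reg m us)).1 (tu.trans t2.symm)
        by_cases c : y ∈ C
        · exact .inr (.inr (t ▸ tz h _ (mul_mem a b) (mt (C.mul_mem_cancel_right c).1 n)))
        · exact .inr (.inl (tz h y b c))
      · have := mem_BS_of_conj (triS_mem_US 1) u1 a
        exact .inl (mem_BS.1 ((mul_mem_cancel_left this).1 ((mul_mem_cancel_right (inv_mem this)).1 b)))
      · have e1 := (mem_bot_iff 2).1 (trace_mem_SLs b)
        have e2 := (mem_bot_iff 2).1 (trace_mem_SLs (g := g) (x := triS 1 1 * y) (map_mul (cjE g) _ _ ▸ mul_mem a b))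
        rw [t] at e2
        grind
    · rintro (e | e | e)
      · exact .of_mem solvable_BS (US_le_BS (triS_mem_US 1)) (mem_BS.2 e)
      · exact solv_inv (πS_sq_iff.2 (.inr tu)) (πS_sq_iff.2 (.inr e))
      · exact .of_mul 1 (solv_inv (πS_sq_iff.2 (.inr tu)) (by rw [pow_one, ← map_mul]; exact πS_sq_iff.2 (.inr (t.trans e))))
  · have := e.trans d; omega
  · have := e.trans d; omega

end Cfsg.Agent.S2257
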