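import Mathlib
import Cfsg.Statements.S2258
import Cfsg.Agent.H8.Sol

set_option autoImplicit false
open Cfsg

namespace Cfsg.Agent.S2258

open CfsgH8

variable {F : Type*} [Field F] [Fintype F] [DecidableEq F]

theorem circ (m : ¬ IsSquare (-1 : F)) (hq : Fintype.card F % 2 = 1) (e : F) :
    (Finset.univ.filter fun p : F × F => p.1 ^ 2 + p.2 ^ 2 = e).card = if e = 0 then 1 else Fintype.card F + 1 := by
  have z : ∀ u v : F, u ^ 2 + v ^ 2 = 0 → u = 0 ∧ v = 0 := fun u v h => by
    have : v = 0 := by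
      by_contra n
      exact m ⟨u / v, by field_simp; linear_combination -h⟩
    simpa [this] using h
  split_ifs with h
  · exact Finset.card_eq_one.2 ⟨0, by ext ⟨u, v⟩; simpa [h] using ⟨z u v, by simp +contextual⟩⟩
  have t2 := two_ne_zero_of_odd hq
  obtain ⟨a, b, hab⟩ := exists_norm_reg (s := (0 : F)) (by simpa using fun t => t2 (pow_eq_zero_iff two_ne_zero |>.1 (by
    linear_combination t))) e
  have ht := isTor_centralizer (reg_of_trace_zero hq (trace_cS (0 : F)))
  have m1 : cS (0 : F) ∈ Subgroup.centralizer {cS 0} := Subgroup.mem_centralizer_singleton_iff.2 rfl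
  have := orderOf_of_trace_zero hq (trace_cS (0 : F)) ▸ Subgroup.orderOf_dvd_natCard _ m1
  have h4 := FiniteField.isSquare_neg_one_iff.not.1 m
  have q1 : 1 < Fintype.card F := Fintype.one_lt_card
  rw [← ht.card.resolve_right fun e => by omega, ← Fintype.card_subtype, ← Nat.card_eq_fintype_card]
  have k : ∀ y : Subgroup.centralizer {cS (0 : F)}, y.1.1 0 1 = -y.1.1 1 0 ∧ y.1.1 1 1 = y.1.1 0 0 := fun y => by
    have := Subgroup.mem_centralizer_singleton_iff.1 y.2
    have e1 := congrArg (·.1 0 0) this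
    have e2 := congrArg (·.1 0 1) this
    simp only [sl2_mul, cS_val] at e1 e2
    simp at e1 e2
    exact ⟨e1, e2.symm⟩
  refine (Nat.card_eq_of_bijective (fun y => ⟨(a * y.1.1 0 0 - b * y.1.1 1 0, b * y.1.1 0 0 + a * y.1.1 1 0), by
    have := sl2_det y.1
    rw [(k y).1, (k y).2] at this
    linear_combination hab + (a ^ 2 + b ^ 2) * this⟩) ⟨fun x y e => ?_, fun ⟨⟨u, v⟩, t⟩ => ⟨⟨mS ((a * u + b * v) / e)
      (-((a * v - b * u) / e)) ((a * v - b * u) / e) ((a * u + b * v) / e) (by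
        field_simp; linear_combination (u ^ 2 + v ^ 2) * hab + e * t), Subgroup.mem_centralizer_singleton_iff.2
        (Subtype.ext (by simp [mS_val, cS_val]))⟩, Subtype.ext (Prod.ext ?_ ?_)⟩⟩).symm
  · simp only [Subtype.mk.injEq, Prod.mk.injEq] at e
    have e1 : x.1.1 0 0 = y.1.1 0 0 := mul_left_cancel₀ h (by
      linear_combination a * e.1 + b * e.2 - (x.1.1 0 0 - y.1.1 0 0) * hab)
    have e2 : x.1.1 1 0 = y.1.1 1 0 := mul_left_cancel₀ h (by
      linear_combination a * e.2 - b * e.1 - (x.1.1 1 0 - y.1.1 1 0) * hab)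
    exact Subtype.ext (Subtype.ext (m2_ext e1 (by rw [(k x).1, (k y).1, e2]) e2 (by rw [(k x).2, (k y).2, e1])))
  · simp only [mS_val]; simp; field_simp; linear_combination u * hab
  · simp only [mS_val]; simp; field_simp; linear_combination v * hab

theorem card_tr (t2 : (2 : F) ≠ 0) (P : F → F → Prop) [∀ s t, Decidable (P s t)] :
    Nat.card {y : Matrix.SpecialLinearGroup (Fin 2) F // P y.1.trace (cS 0 * y).1.trace} = ∑ p : F × F, if P p.1 p.2 then
      (Finset.univ.filter fun r : F × F => r.1 ^ 2 + r.2 ^ 2 = p.1 ^ 2 + p.2 ^ 2 - 4).card else 0 := by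
  have k : ∀ y : Matrix.SpecialLinearGroup (Fin 2) F, (cS 0 * y).1.trace = y.1 0 1 - y.1 1 0 := fun y => by
    simp only [Matrix.trace_fin_two, sl2_mul, cS_val]; simp; ring
  rw [Nat.card_eq_of_bijective (α := {y : Matrix.SpecialLinearGroup (Fin 2) F // P y.1.trace (cS (0 : F) * y).1.trace}) (β := {p : (F × F) × F × F // P p.1.1 p.1.2 ∧ p.2.1 ^ 2 + p.2.2 ^ 2 = p.1.1 ^ 2 + p.1.2 ^ 2 - 4})
    (fun y => ⟨((y.1.1.trace, (cS (0 : F) * y.1).1.trace), y.1.1 0 0 - y.1.1 1 1, y.1.1 0 1 + y.1.1 1 0), And.intro y.2 <| by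
      dsimp only
      rw [k, Matrix.trace_fin_two]; linear_combination -4 * sl2_det y.1⟩) ⟨fun x y e => ?_, fun ⟨⟨⟨s, t⟩, u, v⟩, h, e⟩ => ?_⟩]
  · rw [Nat.card_eq_fintype_card, Fintype.card_subtype, Finset.card_filter, Fintype.sum_prod_type]
    refine Finset.sum_congr rfl fun p _ => ?_
    split_ifs with h <;> simp [h]
  · simp only [Subtype.mk.injEq, Prod.mk.injEq, k, Matrix.trace_fin_two] at e
    obtain ⟨⟨a, b⟩, c, d⟩ := e
    exact Subtype.ext (Subtype.ext (m2_ext (mul_left_cancel₀ t2 (by linear_combination a + c)) (mul_left_cancel₀ t2 (by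
      linear_combination b + d)) (mul_left_cancel₀ t2 (by linear_combination d - b)) (mul_left_cancel₀ t2 (by
      linear_combination a - c))))
  · let y := mS ((s + u) / 2) ((t + v) / 2) ((v - t) / 2) ((s - u) / 2) (by
      have t4 : (4 : F) ≠ 0 := by simpa [← two_mul, show (2 : F) * 2 = 4 by norm_num] using mul_ne_zero t2 t2
      field_simp; linear_combination -e)
    have e1 : y.1.trace = s := by simp [y, mS_val]; field_simp; ring
    have e2 : (cS 0 * y).1.trace = t := by rw [k]; simp [y, mS_val]; field_simp; ring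
    refine ⟨⟨y, e1.symm ▸ e2.symm ▸ h⟩, Subtype.ext (Prod.ext (Prod.ext e1 e2) (Prod.ext ?_ ?_))⟩ <;> simp [y, mS_val] <;>
      field_simp <;> ring

/-- Let G = PSL_2(F) with F a field of order q = 3^p, p an odd prime, and for x ∈ G call the solubilizer of x the set of y ∈ G such that x and y generate a solvable subgroup. Then the solubilizer of an involution has q(q + 1) elements; that of an element of order 3 has q(q + 5)/2 elements; that of an element of order neither 1 nor 2 dividing q − 1 has q(q − 1) elements; and that of an element of order neither 1 nor 2 dividing q + 1 has q + 1 elements. -/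
theorem result (p : ℕ) (hp : p.Prime) (hodd : Odd p) {F : Type*} [Field F] [Fintype F]
    (hF : Fintype.card F = 3 ^ p) (x : Matrix.ProjectiveSpecialLinearGroup (Fin 2) F) :
    (orderOf x = 2 → Nat.card {y : Matrix.ProjectiveSpecialLinearGroup (Fin 2) F // Group.IsSolvable ↥(Subgroup.closure ({x, y} : Set (Matrix.ProjectiveSpecialLinearGroup (Fin 2) F)))} = 3 ^ p * (3 ^ p + 1)) ∧
    (orderOf x = 3 → 2 * Nat.card {y : Matrix.ProjectiveSpecialLinearGroup (Fin 2) F // Group.IsSolvable ↥(Subgroup.closure ({x, y} : Set (Matrix.ProjectiveSpecialLinearGroup (Fin 2) F)))} = 3 ^ p * (3 ^ p + 5)) ∧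
    (x ≠ 1 → orderOf x ≠ 2 → orderOf x ∣ 3 ^ p - 1 → Nat.card {y : Matrix.ProjectiveSpecialLinearGroup (Fin 2) F // Group.IsSolvable ↥(Subgroup.closure ({x, y} : Set (Matrix.ProjectiveSpecialLinearGroup (Fin 2) F)))} = 3 ^ p * (3 ^ p - 1)) ∧
    (x ≠ 1 → orderOf x ≠ 2 → orderOf x ∣ 3 ^ p + 1 → Nat.card {y : Matrix.ProjectiveSpecialLinearGroup (Fin 2) F // Group.IsSolvable ↥(Subgroup.closure ({x, y} : Set (Matrix.ProjectiveSpecialLinearGroup (Fin 2) F)))} = 3 ^ p + 1) := by
  classical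
  haveI := Fact.mk Nat.prime_three
  haveI : CharP F 3 := charP_of_card_eq_prime_pow hF
  have h4 : Fintype.card F % 4 = 3 := by
    obtain ⟨k, rfl⟩ := hodd
    rw [hF, pow_succ, pow_mul, Nat.mul_mod, Nat.pow_mod]; simp
  have hq : Fintype.card F % 2 = 1 := by omega
  have m : ¬ IsSquare (-1 : F) := by rw [FiniteField.isSquare_neg_one_iff]; omega
  have t2 := two_ne_zero_of_odd hq
  have t3 : (3 : F) = 0 := CharP.cast_eq_zero F 3
  have g2 := gcd_two_odd hq
  have cs := fun x y => Sv.cases (F := F) (x := x) (y := y) 3 hp hF (.inr ⟨rfl, hodd⟩)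
  have b3 : ∀ {a : F}, a ∈ (⊥ : Subfield F) → a = 0 ∨ a ^ 2 = 1 := fun {a} h => or_iff_not_imp_left.2 fun n =>
    mul_left_cancel₀ n (by linear_combination (mem_bot_iff 3).1 h)
  have q3 : 3 ∣ Fintype.card F := hF ▸ dvd_pow_self 3 hp.ne_zero
  have k : x ≠ 1 → orderOf x ≠ 2 → ¬ 3 ∣ orderOf x → (orderOf x ∣ Fintype.card F - 1 → 2 * sol x = 2 * Fintype.card F *
      (Fintype.card F - 1)) ∧ (orderOf x ∣ Fintype.card F + 1 → 2 * sol x = 2 * (Fintype.card F + 1)) := fun h1 h2 h3 => by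
    obtain ⟨z, rfl, -, hz⟩ := exists_lift_trace h1
    have := sol_tor (hz.resolve_right fun t => h3 (orderOf_eq_prime (by rw [← map_pow, pow_char_of_trace 3 t, map_one]) h1).symm.dvd)
      (fun e => h2 (orderOf_eq_prime e h1)) fun x y r n s => (cs x y s).imp_right (.imp_right fun ⟨g, a, _⟩ => by
        rcases b3 (trace_mem_SLs a) with e | e
        · exact absurd (πS_sq_iff.2 (.inr e)) n
        · rcases sq_eq_one_iff.1 e with e | e
          · exact absurd (e.trans (by linear_combination t3)) (reg_SL2_iff.1 r).2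
          · exact absurd (e.trans (by linear_combination -t3)) (reg_SL2_iff.1 r).1)
    rwa [g2] at this
  have q1 : 1 < Fintype.card F := Fintype.one_lt_card
  have tz : ∀ {C N}, TorN C N → ∀ x ∈ N, x ∉ C → x.1.trace = (0 : F) := fun h x hx n =>
    trace_eq_zero_of_isSc_sq (isSc_SL2.2 (.inr (h.sq x hx n))) fun e => n (h.tor.mem_of_isSc e)
  have n1 : (1 : F) ≠ -1 := fun e => t2 (by linear_combination e)
  rw [← hF]
  refine ⟨fun h => ?_, fun h => ?_, fun h h' d => Nat.eq_of_mul_eq_mul_left two_pos (((k h h' fun e => ?_).1 d).trans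
    (mul_assoc _ _ _)), fun h h' d => Nat.eq_of_mul_eq_mul_left two_pos ((k h h' fun e => ?_).2 d)⟩
  · obtain ⟨z, rfl⟩ := πS_surj x
    change sol _ = _
    have t0 := trace_cS (0 : F)
    have kk : ∀ y : Matrix.SpecialLinearGroup (Fin 2) F, (cS 0 * y).1.trace = y.1 0 1 - y.1 1 0 := fun y => by
      simp only [Matrix.trace_fin_two, sl2_mul, cS_val]; simp; ring
    have hc : ∀ y : Matrix.SpecialLinearGroup (Fin 2) F, y ∈ Subgroup.centralizer {cS 0} ↔
        y.1.trace ^ 2 + (cS 0 * y).1.trace ^ 2 = 1 := fun y => by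
      have d := sl2_det y
      rw [Subgroup.mem_centralizer_singleton_iff, show y * cS 0 = cS 0 * y ↔ (y * cS 0).1 = (cS 0 * y).1 from Subtype.ext_iff,
        m2_ext_iff, kk, Matrix.trace_fin_two]
      simp only [sl2_mul, cS_val]
      simp only [Matrix.of_apply, Matrix.cons_val', Matrix.cons_val_zero, Matrix.cons_val_one, Matrix.cons_val_fin_one]
      refine ⟨fun ⟨a, b, _, _⟩ => by
        linear_combination 4 * d + t3 + (y.1 0 1 + y.1 1 0) * a - (y.1 0 0 - y.1 1 1) * b, fun e => ?_⟩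
      have e : (y.1 0 0 - y.1 1 1) ^ 2 + (y.1 0 1 + y.1 1 0) ^ 2 = 0 := by linear_combination e - 4 * d - t3
      have v : y.1 0 1 + y.1 1 0 = 0 := by
        by_contra n
        exact m ⟨(y.1 0 0 - y.1 1 1) / (y.1 0 1 + y.1 1 0), by field_simp; linear_combination -e⟩
      have u : y.1 0 0 - y.1 1 1 = 0 := by simpa [v] using e
      exact ⟨by linear_combination v, by linear_combination -u, by linear_combination -u, by linear_combination -v⟩
    refine Nat.eq_of_mul_eq_mul_left two_pos ?_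
    rw [sol_trace (fun s => by simp [πS_eq_one.2 s] at h) (not_isSc_cS 0) ((trace_of_orderOf_πS_two h).trans t0.symm)]
    nth_rw 1 [← g2]
    rw [sol_πS (P := fun y => (fun s t : F => s ^ 2 + t ^ 2 = 1 ∨ s = 0 ∨ t = 0 ∨ (s ^ 2 = 1 ∧ t ^ 2 = 1)) y.1.trace
      (cS 0 * y).1.trace) fun y => ?_, card_tr t2 fun s t : F => s ^ 2 + t ^ 2 = 1 ∨ s = 0 ∨ t = 0 ∨ (s ^ 2 = 1 ∧ t ^ 2 = 1)]
    · have e : ∀ p : F × F, (if p.1 ^ 2 + p.2 ^ 2 = 1 ∨ p.1 = 0 ∨ p.2 = 0 ∨ (p.1 ^ 2 = 1 ∧ p.2 ^ 2 = 1) then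
          (Finset.univ.filter fun r : F × F => r.1 ^ 2 + r.2 ^ 2 = p.1 ^ 2 + p.2 ^ 2 - 4).card else 0) =
          (if p.1 ^ 2 + p.2 ^ 2 = 1 then 1 else 0) + (Fintype.card F + 1) * if ¬ p.1 ^ 2 + p.2 ^ 2 = 1 ∧
            (p.1 = 0 ∨ p.2 = 0 ∨ (p.1 ^ 2 = 1 ∧ p.2 ^ 2 = 1)) then 1 else 0 := fun p => by
        rw [circ m hq]
        have : p.1 ^ 2 + p.2 ^ 2 - 4 = 0 ↔ p.1 ^ 2 + p.2 ^ 2 = 1 :=
          ⟨fun e => by linear_combination e + t3, fun e => by linear_combination e - t3⟩
        simp only [this]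
        by_cases a : p.1 ^ 2 + p.2 ^ 2 = 1 <;> simp [a]
      have c1 : (Finset.univ.filter fun a : F => a ^ 2 = 1).card = 2 :=
        Finset.card_eq_two.2 ⟨1, -1, n1, by ext; simp⟩
      have c2 := Finset.card_filter_add_card_filter_not (s := Finset.univ) (fun a : F => a ^ 2 = 1)
      have e' : ∀ s : F, (∑ t : F, if ¬ s ^ 2 + t ^ 2 = 1 ∧ (s = 0 ∨ t = 0 ∨ (s ^ 2 = 1 ∧ t ^ 2 = 1)) then 1 else 0) =
          (if s = 0 then Fintype.card F - 3 else 0) + (if s ^ 2 = 1 then 2 else 1) := fun s => by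
        rw [← Finset.card_filter]
        by_cases a : s = 0
        · simp only [a, true_or, and_true, ne_eq, OfNat.ofNat_ne_zero, not_false_eq_true, zero_pow, zero_add, if_true,
            zero_ne_one, if_false]
          rw [Finset.card_univ] at c2
          omega
        by_cases b : s ^ 2 = 1
        · rw [if_neg a, if_pos b, zero_add]
          refine (congrArg Finset.card ?_).trans c1
          ext t
          by_cases c : t = 0 <;> simp [a, b, c]
        · rw [if_neg a, if_neg b, zero_add, Finset.card_eq_one]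
          exact ⟨0, by ext t; by_cases c : t = 0 <;> simp [a, b, c]⟩
      simp only [e, Finset.sum_add_distrib, ← Finset.mul_sum]
      rw [← Finset.card_filter, circ m hq, if_neg one_ne_zero, Fintype.sum_prod_type]
      simp only [e', Finset.sum_add_distrib, Finset.sum_ite_eq', Finset.mem_univ, if_true]
      rw [Finset.sum_ite, Finset.sum_const, Finset.sum_const, c1, Finset.card_univ] at *
      obtain ⟨n, hn⟩ : ∃ n, Fintype.card F = n + 3 := ⟨Fintype.card F - 3, by omega⟩
      rw [show (Finset.univ.filter fun a : F => ¬ a ^ 2 = 1).card = n + 1 by omega, hn]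
      simp
      ring
    have ht := isTor_centralizer (reg_of_trace_zero hq t0)
    have m1 : cS (0 : F) ∈ Subgroup.centralizer {cS 0} := Subgroup.mem_centralizer_singleton_iff.2 rfl
    refine ⟨fun s => ?_, ?_⟩
    · rcases cs _ _ s with ⟨C, N, h, a, b⟩ | ⟨s, a, -⟩ | ⟨g, a, b⟩
      · by_cases c : y ∈ C
        · by_cases n : cS 0 ∈ C
          · exact .inl ((hc y).1 ((h.tor.cent n (not_isSc_cS 0)).ge c))
          · exact .inr (.inr (.inl (tz h _ (mul_mem a b) (mt (C.mul_mem_cancel_right c).1 n))))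
        · exact .inr (.inl (tz h y b c))
      · have d := sl2_det (s * cS 0 * s⁻¹)
        have t := (trace_conj_SL s _).trans t0
        rw [mem_BS.1 a, Matrix.trace_fin_two] at *
        exact absurd ⟨(s * cS 0 * s⁻¹).1 0 0, by linear_combination d - (s * cS 0 * s⁻¹).1 0 0 * t⟩ m
      · have e1 := b3 (trace_mem_SLs b)
        have e2 := b3 (trace_mem_SLs (g := g) (x := cS 0 * y) (map_mul (cjE g) _ _ ▸ mul_mem a b))
        tauto
    · have i := πS_sq_iff.2 (.inr t0)
      rintro (e | e | e | ⟨e, e'⟩)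
      · obtain ⟨N, h⟩ := ht.exists_N
        exact .of_mem h.solvable (h.le m1) (h.le ((hc y).2 e))
      · exact solv_inv i (πS_sq_iff.2 (.inr e))
      · exact .of_mul 1 (solv_inv i (by rw [pow_one, ← map_mul]; exact πS_sq_iff.2 (.inr e)))
      · exact solv_A4 i (πS_cube_iff.2 (.inr (sub_eq_zero.2 e))) (map_mul πS _ y ▸ πS_cube_iff.2 (.inr (sub_eq_zero.2 e')))
  · obtain ⟨z, rfl, s, hz⟩ := exists_lift_trace (g := x) fun e => by simp [e] at h
    have tz' : z.1.trace = 2 := hz.resolve_left fun r => r.not_dvd_orderOf 3 (h ▸ orderOf_πS_dvd z)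
    have tu : (triS 1 (1 : F)).1.trace = 2 := by simp [triS_val, one_add_one_eq_two]
    have u1 : triS 1 (1 : F) ≠ 1 := fun e => one_ne_zero (triS_inj.1 (e.trans triS_one.symm)).2
    have us : ¬ IsSc (triS 1 (1 : F)).1 := by simp [IsSc, triS_val]
    change 2 * sol _ = _
    rw [sol_trace s us (tz'.trans tu.symm)]
    nth_rw 1 [← g2]
    rw [sol_πS (P := fun y => y.1 1 0 = 0 ∨ (y.1 1 0 ^ 2 = 1 ∧ (y.1.trace = 0 ∨ y.1.trace ^ 2 = 1))) fun y => ?_,
      card_BS_or _ (fun a c d => (c = 1 ∨ c = -1) ∧ (d = -a ∨ d = 1 - a ∨ d = -1 - a)) fun y c hc => by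
        simp only [Matrix.trace_fin_two, hc, sq_eq_one_iff, Units.ext_iff, Units.val_one, Units.val_neg]
        grind]
    · have : ∀ (a : F), (Finset.univ.filter fun d : F => d = -a ∨ d = 1 - a ∨ d = -1 - a).card = 3 := fun a =>
        Finset.card_eq_three.2 ⟨-a, 1 - a, -1 - a, by grind, by grind, by grind, by ext; simp⟩
      have c1 : (Finset.univ.filter fun a : Fˣ => a = 1 ∨ a = -1).card = 2 :=
        Finset.card_eq_two.2 ⟨1, -1, fun e => n1 (by simpa using congrArg Units.val e), by ext; simp⟩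
      simp only [Nat.card_eq_fintype_card, Fintype.card_subtype, Finset.card_filter, Fintype.sum_prod_type, ite_and,
        Finset.sum_ite_irrel] at this ⊢
      simp only [this, Finset.sum_const_zero, Finset.sum_ite, Finset.sum_const, c1, Finset.card_univ]
      obtain ⟨n, hn⟩ : ∃ n, Fintype.card F = n + 3 := ⟨Fintype.card F - 3, by omega⟩
      simp [hn]
      ring
    have t := trace_triS_mul 1 y
    rw [one_mul] at t
    have u3 : πS (triS 1 (1 : F)) ^ 3 = 1 := by rw [← map_pow, pow_char_of_trace 3 tu, map_one]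
    refine ⟨fun s => ?_, ?_⟩
    · rcases cs _ _ s with ⟨C, N, h, a, b⟩ | ⟨s, a, b⟩ | ⟨g, a, b⟩
      · have := h.dvd_two q3 (orderOf_of_trace 3 tu u1 ▸ Subgroup.orderOf_dvd_natCard _ a)
        omega
      · have := mem_BS_of_conj (triS_mem_US 1) u1 a
        exact .inl (mem_BS.1 ((mul_mem_cancel_left this).1 ((mul_mem_cancel_right (inv_mem this)).1 b)))
      · have e1 := trace_mem_SLs b
        have e2 := trace_mem_SLs (g := g) (x := triS 1 1 * y) (map_mul (cjE g) _ _ ▸ mul_mem a b)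
        exact (b3 ((add_mem_cancel_left e1).1 (t ▸ e2))).imp_right fun e => ⟨e, b3 e1⟩
    rintro (e | ⟨e, e'⟩)
    · exact .of_mem solvable_BS (US_le_BS (triS_mem_US 1)) (mem_BS.2 e)
    have key : ∀ y : Matrix.SpecialLinearGroup (Fin 2) F, y.1 1 0 ^ 2 = 1 → y.1.trace = 0 → Sv (πS (triS 1 1)) (πS y) :=
      fun y e t => (solv_A4 (πS_sq_iff.2 (.inr t)) u3 (by
        rw [← map_mul, πS_cube_iff, Matrix.SpecialLinearGroup.coe_mul, Matrix.trace_mul_comm, ← Matrix.SpecialLinearGroup.coe_mul,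
          trace_triS_mul, t]
        exact .inr (by linear_combination e))).symm
    have c : ∀ y : Matrix.SpecialLinearGroup (Fin 2) F, (triS 1 1 * y).1 1 0 = y.1 1 0 := fun y => by
      rw [sl2_mul]; simp [triS_val]
    obtain e' | e' | e' : y.1.trace = 0 ∨ y.1.trace + y.1 1 0 = 0 ∨ y.1.trace + y.1 1 0 + y.1 1 0 = 0 := by grind
    · exact key y e e'
    · exact .of_mul 1 (by rw [pow_one, ← map_mul]; exact key _ (by rwa [c]) (t.trans e'))
    · exact .of_mul 2 (by
        rw [sq, mul_assoc, ← map_mul, ← map_mul]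
        exact key _ (by rwa [c, c]) (by rwa [trace_triS_mul, t, c, one_mul]))
  · have := e.trans d; omega
  · have := e.trans d; omega

end Cfsg.Agent.S2258
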