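import Cfsg.Statements.S2268
import Cfsg.Agent.H3.Hv1

set_option autoImplicit false
open Cfsg

namespace Cfsg.Agent.S2268
open Subgroup CfsgH2

/-- Let G be a finite group with an abelian Sylow p-subgroup P and let Q ≤ P. Then N_G(Q) = (N_G(Q) ∩ N_G(P))·C_G(Q), so that N_G(Q)/C_G(Q) is a homomorphic image of the subgroup (N_G(Q) ∩ N_G(P))/C_G(P) of N_G(P)/C_G(P); in particular the order of N_G(Q)/C_G(Q) divides the order of N_G(P)/C_G(P). -/
theorem result {G : Type*} [Group G] [Finite G] {p : ℕ} [Fact p.Prime]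
    (P : Sylow p G) (hP : IsMulCommutative (P : Subgroup G)) (Q : Subgroup G) (hQ : Q ≤ (P : Subgroup G)) :
    Subgroup.normalizer (Q : Set G) =
      (Subgroup.normalizer (Q : Set G) ⊓ Subgroup.normalizer ((P : Subgroup G) : Set G)) ⊔ Subgroup.centralizer (Q : Set G) ∧
    ((Subgroup.centralizer (Q : Set G)).subgroupOf (Subgroup.normalizer (Q : Set G))).index ∣ ((Subgroup.centralizer ((P : Subgroup G) : Set G)).subgroupOf (Subgroup.normalizer ((P : Subgroup G) : Set G))).index := by
  have h1 : (P : Subgroup G) ≤ C[Q] := (le_centralizer (P : Subgroup G)).trans (centralizer_le hQ)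
  have h2 := ((syl_top P).mono h1 le_top).frattini_sup (cent_le_norm Q) (norm_le_norm_cent Q)
  refine ⟨by rw [sup_comm]; exact h2.symm, ?_⟩
  show C[Q].relIndex N[Q] ∣ C[(P : Subgroup G)].relIndex N[(P : Subgroup G)]
  have e : C[Q].relIndex N[Q] = C[Q].relIndex (N[Q] ⊓ N[(P : Subgroup G)]) := by
    conv_lhs => rw [← h2, sup_comm]
    exact relIndex_sup_of_norm (inf_le_left.trans (norm_le_norm_cent Q))
  rw [e]
  exact (relIndex_dvd_of_le_left _ (centralizer_le hQ)).trans
    (Dvd.intro _ (relIndex_mul_relIndex _ _ _ (le_inf ((cent_anti hQ).trans (cent_le_norm Q)) (cent_le_norm _))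
      inf_le_right))


end Cfsg.Agent.S2268
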