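import Cfsg.Statements.S2269
import Cfsg.Agent.H1.Sn1

set_option autoImplicit false
open Cfsg

namespace Cfsg.Agent.S2269

section
open CfsgH1 CfsgH1.Sn Equiv Equiv.Perm MulAction
open scoped commutatorElement

theorem real_even {G : Type*} [Group G] [Finite G] {p : ℕ} [Fact p.Prime] (P : Sylow p G) [IsMulCommutative (P : Subgroup G)]
    {x g : G} {k : ℕ} (h1 : x ^ p ^ k = 1) (h2 : g * x * g⁻¹ = x⁻¹) (h3 : x⁻¹ ≠ x) :
    2 ∣ ((Subgroup.centralizer ((P : Subgroup G) : Set G)).subgroupOf (Subgroup.normalizer ((P : Subgroup G) : Set G))).index := by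
  obtain ⟨R, hR⟩ := (show IsPGroup p (Subgroup.zpowers x) from IsPGroup.of_card_dvd_pow (n := k)
    (by rw [Nat.card_zpowers]; exact orderOf_dvd_of_pow_eq_one h1)).exists_le_sylow
  obtain ⟨c, rfl⟩ := MulAction.exists_smul_eq G R P
  have hy : c * x * c⁻¹ ∈ c • R := ⟨x, hR (Subgroup.mem_zpowers x), rfl⟩
  have e : (c * g⁻¹ * c⁻¹)⁻¹ * (c * x * c⁻¹) * (c * g⁻¹ * c⁻¹) = (c * x * c⁻¹)⁻¹ := by
    rw [show (c * x * c⁻¹)⁻¹ = c * x⁻¹ * c⁻¹ by group, ← h2]; group
  obtain ⟨n, hn, h4⟩ := (c • R).conj_eq_normalizer_conj_of_mem _ (c * g⁻¹ * c⁻¹) hy (e ▸ inv_mem hy)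
  rw [e] at h4
  replace h3 : (c * x * c⁻¹)⁻¹ ≠ c * x * c⁻¹ := fun h => h3 (by simpa [mul_assoc] using h)
  generalize c * x * c⁻¹ = y at *
  by_contra h5
  obtain ⟨m, hm⟩ := Nat.odd_iff.2 (Nat.two_dvd_ne_zero.1 h5)
  have h6 := Subgroup.pow_index_mem ((Subgroup.centralizer ((c • R : Sylow p G) : Set G)).subgroupOf
    (Subgroup.normalizer ((c • R : Sylow p G) : Set G))) ⟨n, hn⟩
  have h7 : Commute y (n ^ (2 * m + 1)) := hm ▸ h6 y hy
  have h8 : Commute y (n ^ 2) := by
    have a : y * n = n * y⁻¹ := by rw [h4]; group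
    have b : n * y = y⁻¹ * n := by rw [show n * y = y⁻¹ * (y * n) * y by group, a]; group
    show _ = _
    rw [sq, ← mul_assoc, a, mul_assoc, ← b, mul_assoc]
  rw [pow_succ, pow_mul] at h7
  have h9 : Commute y n := by simpa using (h8.pow_right m).inv_right.mul_right h7
  exact h3 (by rw [h4, mul_assoc, h9.eq, inv_mul_cancel_left])

end

/-- Let n ≥ 5 and let P be an abelian Sylow p-subgroup of the alternating group A_n. Then N(P)/C(P) (taken in A_n) has even order, or P is cyclic, except when n = 5 and p = 2, where P is a four-group and N(P)/C(P) has order 3. -/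
theorem result (n : ℕ) (hn : 5 ≤ n) {p : ℕ} [Fact p.Prime]
    (P : Sylow p (alternatingGroup (Fin n))) (hP : IsMulCommutative (P : Subgroup (alternatingGroup (Fin n)))) :
    (¬ (n = 5 ∧ p = 2) → 2 ∣ ((Subgroup.centralizer ((P : Subgroup (alternatingGroup (Fin n))) : Set (alternatingGroup (Fin n)))).subgroupOf (Subgroup.normalizer ((P : Subgroup (alternatingGroup (Fin n))) : Set (alternatingGroup (Fin n))))).index ∨ IsCyclic (P : Subgroup (alternatingGroup (Fin n)))) ∧
    ((n = 5 ∧ p = 2) → ((Subgroup.centralizer ((P : Subgroup (alternatingGroup (Fin n))) : Set (alternatingGroup (Fin n)))).subgroupOf (Subgroup.normalizer ((P : Subgroup (alternatingGroup (Fin n))) : Set (alternatingGroup (Fin n))))).index = 3 ∧ IsKleinFour (P : Subgroup (alternatingGroup (Fin n)))) := by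
  open CfsgH1 CfsgH1.Sn Equiv Equiv.Perm MulAction in
  open scoped commutatorElement in
  · have hp : p.Prime := Fact.out
    have hc := two_mul_card_alt (n := n) (by omega)
    refine ⟨fun h => ?_, fun ⟨h1, h2⟩ => ?_⟩
    · by_cases h2 : p = 2
      · subst h2
        let φ := altHom (viaEmbeddingHom (Fin.castLEEmb (show 6 ≤ n by omega)))
        have hφ : Function.Injective φ := altHom_inj (viaEmbeddingHom_injective _)
        refine Or.inl (real_even P (x := φ ⟨swap 0 1 * swap 1 2 * swap 2 3 * swap 4 5, mem_alternatingGroup.2 (by decide)⟩)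
          (g := φ ⟨swap 0 2 * swap 4 5, mem_alternatingGroup.2 (by decide)⟩) (k := 2) ?_ ?_ ?_)
        · rw [← map_pow, map_eq_one_iff _ hφ]; decide
        · simp only [← map_inv, ← map_mul, hφ.eq_iff]; decide
        · simp only [← map_inv, Ne, hφ.eq_iff]; decide
      have h3 := hp.two_le
      have h4 := hp.eq_two_or_odd'.resolve_left h2
      by_cases h5 : p + 2 ≤ n
      · obtain ⟨x, hx⟩ := exists_alt (α := Fin n) {p} (by simp; omega) (by simpa) (by simpa using h4.add_one)
        have ho : orderOf x = p := by rw [← Subgroup.orderOf_coe, ← lcm_cycleType, hx]; simp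
        obtain ⟨σ, hσ⟩ := isConj_iff.1 (isConj_iff_cycleType_eq.2 (cycleType_inv x.1).symm)
        obtain ⟨a, ha, b, hb, hab⟩ := Finset.one_lt_card.1 (show 1 < x.1.supportᶜ.card by
          rw [Finset.card_compl, ← sum_cycleType, hx]; simp; omega)
        have h6 : Commute (swap a b) x.1 := (disjoint_iff_disjoint_support.2 (by
          rw [support_swap hab]; simpa using ⟨by simpa using ha, by simpa using hb⟩)).commute
        obtain ⟨g, hg⟩ : ∃ g : alternatingGroup (Fin n), g * x * g⁻¹ = x⁻¹ := by
          rcases Int.units_eq_one_or (sign σ) with e | e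
          · exact ⟨⟨σ, e⟩, Subtype.ext hσ⟩
          · refine ⟨⟨σ * swap a b, by simp [mem_alternatingGroup, e, hab]⟩, Subtype.ext ?_⟩
            show σ * swap a b * x.1 * (σ * swap a b)⁻¹ = _
            rw [mul_assoc σ, h6.eq, ← mul_assoc, mul_inv_rev, ← mul_assoc, mul_inv_cancel_right]
            exact hσ
        refine Or.inl (real_even P (k := 1) (by rw [pow_one, ← ho, pow_orderOf_eq_one]) hg fun e => h2 ?_)
        exact (Nat.prime_dvd_prime_iff_eq hp Nat.prime_two).1 (ho ▸ orderOf_dvd_of_pow_eq_one (by rw [sq, ← eq_inv_iff_mul_eq_one, e]))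
      · refine Or.inr (isCyclic_of_card_dvd_prime (p := p) ?_)
        have h6 := (Nat.factorization_le_iff_dvd Nat.card_pos.ne' n.factorial_ne_zero).2 (Dvd.intro_left _ hc) p
        rw [Nat.factorization_factorial hp (b := 2) (Nat.log_lt_of_lt_pow (by omega) (by nlinarith))] at h6
        have h7 : n / p < 2 := (Nat.div_lt_iff_lt_mul hp.pos).2 (by omega)
        rw [P.card_eq_multiplicity]
        exact (pow_dvd_pow _ (h6.trans (by simp; omega))).trans (pow_one p).dvd
    · subst h1 h2
      have h1 : Nat.card (alternatingGroup (Fin 5)) = 60 := by simp only [Nat.factorial] at hc; omega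
      have h2 : Nat.card P = 4 := by rw [P.card_eq_multiplicity, h1]; decide +kernel
      have h3 : (P : Subgroup (alternatingGroup (Fin 5))).index = 15 := by
        have := (P : Subgroup (alternatingGroup (Fin 5))).card_mul_index
        rw [h2] at this
        omega
      refine ⟨?_, h2, (Nat.prime_two.eq_one_or_self_of_dvd _ (Monoid.exponent_dvd_of_forall_pow_eq_one fun g => ?_)).resolve_left fun e => ?_⟩
      · have h4 := (Subgroup.relIndex_dvd_of_le_left (Subgroup.normalizer ((P : Subgroup (alternatingGroup (Fin 5))) : Set _))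
          (P : Subgroup (alternatingGroup (Fin 5))).le_centralizer).trans (Subgroup.relIndex_dvd_index_of_le Subgroup.le_normalizer)
        have h5 := Subgroup.card_dvd_of_injective (toPermHom (MulAut (P : Subgroup (alternatingGroup (Fin 5))))
          (P : Subgroup (alternatingGroup (Fin 5)))) toPerm_injective
        have h6 := (Subgroup.index_ker (P : Subgroup (alternatingGroup (Fin 5))).normalizerMonoidHom).dvd.trans
          ((Subgroup.card_subgroup_dvd_card _).trans h5)
        rw [Subgroup.normalizerMonoidHom_ker, Nat.card_perm, h2] at h6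
        refine (Nat.prime_three.eq_one_or_self_of_dvd _ (Nat.dvd_gcd (h3 ▸ h4) h6)).resolve_left fun e => ?_
        have h7 := Subgroup.relIndex_eq_one.1 e
        have h8 := (MonoidHom.ker_transferSylow_isComplement' P h7).card_mul
        rcases (MonoidHom.normal_ker (MonoidHom.transferSylow P h7)).eq_bot_or_eq_top with e | e <;> rw [e, h1, h2] at h8
        · simp at h8
        · rw [Subgroup.card_top] at h8; omega
      · have : ∀ g : Perm (Fin 5), sign g = 1 → g ^ 4 = 1 → g ^ 2 = 1 := by decide +kernel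
        exact Subtype.ext (Subtype.ext (this _ g.1.2 (congrArg (fun x : P => x.1.1) (h2 ▸ pow_card_eq_one' (x := g)))))
      · have := Monoid.exp_eq_one_iff.1 e
        rw [Nat.card_of_subsingleton 1] at h2
        omega

end Cfsg.Agent.S2269
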