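import Cfsg.Statements.S2270
import Cfsg.Agent.H1.Misc1
import Cfsg.Agent.H2.BG0

set_option autoImplicit false
open Cfsg

namespace Cfsg.Agent.S2270

/-- Let n ≥ 3, p an odd prime, and P an abelian Sylow p-subgroup of the symmetric group S_n (with p dividing n!, so that P ≠ 1). Then N(P)/C(P) has even order. -/
theorem result (n : ℕ) (hn : 3 ≤ n) {p : ℕ} [Fact p.Prime] (hp : p ≠ 2) (hpn : p ≤ n)
    (P : Sylow p (Equiv.Perm (Fin n))) (hP : IsMulCommutative (P : Subgroup (Equiv.Perm (Fin n)))) :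
    2 ∣ ((Subgroup.centralizer ((P : Subgroup (Equiv.Perm (Fin n))) : Set (Equiv.Perm (Fin n)))).subgroupOf (Subgroup.normalizer ((P : Subgroup (Equiv.Perm (Fin n))) : Set (Equiv.Perm (Fin n))))).index := by
  open Subgroup CfsgH2 in
  open CfsgH1 hiding card_inf_mul_relIndex card_lt_of_lt card_lt_of_ne_top card_map_mul_card_inf_ker card_mul_relIndex card_subgroupOf card_sup_dvd card_sup_mul_card_inf coprime_le_sup_cent exists_card_prime_le isNilpotent_map isNilpotent_of_le isPGroup_pCore isSolvable_map isSolvable_of_le le_pCore le_pPrimeCore relIndex_map_dvd in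
  open scoped CfsgH1 in
  open scoped commutatorElement in
  · have pp : p.Prime := Fact.out
    obtain ⟨x, hx⟩ := exists_prime_orderOf_dvd_card' p ((syl_top P).dvd_card (by
      rw [card_top, Nat.card_perm, Nat.card_eq_fintype_card, Fintype.card_fin]; exact pp.dvd_factorial.2 hpn))
    obtain ⟨g, hg⟩ := isConj_iff.1 (Equiv.Perm.isConj_iff_cycleType_eq.2 (Equiv.Perm.cycleType_inv x.1).symm)
    obtain ⟨k, ⟨-, hk⟩, e⟩ := (syl_top P).fusion_cent (mem_top g) (le_cent_self hP x.2) (hg ▸ le_cent_self hP (inv_mem x.2))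
    rw [hg] at e
    by_contra c
    obtain ⟨m, hm⟩ := Nat.not_even_iff_odd.1 fun h => c h.two_dvd
    haveI := normal_subgroupOf_of_le_normalizer (le_norm_cent (le_refl N[(P : Subgroup (Equiv.Perm (Fin n)))]))
    have h1 : k ^ (2 * m + 1) ∈ C[(P : Subgroup (Equiv.Perm (Fin n)))] := hm ▸ pow_index_mem (C[(P : Subgroup (Equiv.Perm (Fin n)))].subgroupOf _) ⟨k, hk⟩
    have h2 : k ^ 2 ∈ C1[x.1] := mem_centralizer_singleton_iff.2 (mul_inv_eq_iff_eq_mul.1 (by
      rw [show k ^ 2 * x * (k ^ 2)⁻¹ = k * (k * x * k⁻¹) * k⁻¹ by simp [sq, mul_assoc], e, ← conj_inv, e, inv_inv]))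
    have h3 : k ∈ C1[x.1] := by
      have := mem_centralizer_singleton_iff.2 (mem_cent_iff.1 h1 _ x.2).symm
      rwa [pow_succ, pow_mul, mul_mem_cancel_left (pow_mem h2 m)] at this
    rw [mem_centralizer_singleton_iff.1 h3, mul_inv_cancel_right] at e
    have : orderOf x.1 ∣ 2 := orderOf_dvd_of_pow_eq_one (by rw [sq]; exact mul_eq_one_iff_eq_inv.2 e)
    rw [orderOf_coe, hx] at this
    exact hp ((Nat.prime_dvd_prime_iff_eq pp Nat.prime_two).1 this)

end Cfsg.Agent.S2270
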