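import Cfsg.Statements.S2279
import Cfsg.Agent.H6.R3j

set_option autoImplicit false
open Cfsg

namespace Cfsg.Agent.S2279

/-- Let F be a finite field with q elements and n ≥ 4. Then SL_n(F) is generated by two regular unipotent elements (elements u with u − 1 nilpotent and (u − 1)^(n−1) ≠ 0); if q is prime, the two can be taken conjugate in SL_n(F). -/
theorem result {F : Type*} [Field F] [Fintype F] (n : ℕ) (hn : 4 ≤ n) :
    (∃ u v : Matrix.SpecialLinearGroup (Fin n) F, (IsNilpotent ((u : Matrix (Fin n) (Fin n) F) - 1) ∧ ((u : Matrix (Fin n) (Fin n) F) - 1) ^ (n - 1) ≠ 0) ∧ (IsNilpotent ((v : Matrix (Fin n) (Fin n) F) - 1) ∧ ((v : Matrix (Fin n) (Fin n) F) - 1) ^ (n - 1) ≠ 0) ∧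
      Subgroup.closure ({u, v} : Set (Matrix.SpecialLinearGroup (Fin n) F)) = ⊤) ∧
    ((Fintype.card F).Prime → ∃ u g : Matrix.SpecialLinearGroup (Fin n) F, (IsNilpotent ((u : Matrix (Fin n) (Fin n) F) - 1) ∧ ((u : Matrix (Fin n) (Fin n) F) - 1) ^ (n - 1) ≠ 0) ∧
      Subgroup.closure ({u, g * u * g⁻¹} : Set (Matrix.SpecialLinearGroup (Fin n) F)) = ⊤) := by
  obtain ⟨m, rfl⟩ : ∃ m, n = m + 1 + 3 := ⟨n - 4, by omega⟩
  obtain ⟨A, A', hA, hd, H⟩ := CfsgH6.R3.pair (F := F) (m := m)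
  let u : Matrix.SpecialLinearGroup (Fin (m + 1 + 3)) F := ⟨_, CfsgH6.R3.det_L⟩
  refine ⟨⟨u, ⟨A * CfsgH6.R3.LL F (m + 1) * A', ?_⟩, CfsgH6.R3.L_reg,
    CfsgH6.R3.reg_conj hA CfsgH6.R3.L_reg, H _ ⟨u, Subgroup.subset_closure (by simp), rfl⟩
      ⟨_, Subgroup.subset_closure (Set.mem_insert_of_mem _ rfl), rfl⟩⟩,
    fun hp => ⟨u, ⟨A, hd hp⟩, CfsgH6.R3.L_reg, H _ ⟨u, Subgroup.subset_closure (by simp), rfl⟩
      ⟨_, Subgroup.subset_closure (Set.mem_insert_of_mem _ rfl), CfsgH6.R3.conj_val u _ ?_⟩⟩⟩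
  · rw [Matrix.det_mul, Matrix.det_mul, CfsgH6.R3.det_L, mul_one, ← Matrix.det_mul, hA, Matrix.det_one]
  · change A * CfsgH6.R3.LL F (m + 1) = A * CfsgH6.R3.LL F (m + 1) * A' * A
    rw [mul_assoc _ A', mul_eq_one_comm.1 hA, mul_one]

end Cfsg.Agent.S2279
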