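import Mathlib
import Cfsg.Statements.S2337
import Cfsg.Agent.H8.Sz8
import Cfsg.Agent.H3.Misc2

set_option autoImplicit false
open Cfsg

namespace Cfsg.Agent.S2337

open CfsgH8.SzG CfsgH8 CfsgH3 Subgroup
open scoped ComplexConjugate

section
variable {F : Type*} [Field F] [Fintype F] {m : ℕ} [h : SzF F m]

include h in
theorem rad_le (l : F → ℂ) (hl : ∀ b c, l (b + c) = l b * l c) (h0 : l 0 = 1) {b0 : F} (hb0 : l b0 ≠ 1)
    {a a' : F} (ha : a ≠ 0) (ha' : a' ≠ 0) (h1 : ∀ c, l (th m a * c + th m c * a) = 1)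
    (h2 : ∀ c, l (th m a' * c + th m c * a') = 1) : a = a' := by
  classical
  haveI := charP (F := F) (m := m)
  let φ : F →+ F := AddMonoidHom.mk' (fun k => k + th m k) fun x y => by rw [th_add]; ring
  have hker : Nat.card φ.ker = 2 := by
    have : (φ.ker : Set F) = {0, 1} := by
      ext x
      simp only [SetLike.mem_coe, AddMonoidHom.mem_ker, Set.mem_insert_iff, Set.mem_singleton_iff]
      constructor
      · intro hx
        change x + th m x = 0 at hx
        exact th_eq_self (m := m) (by grind)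
      · rintro (rfl | rfl)
        · simp
        · simp [φ, CharTwo.add_self_eq_zero]
    rw [← SetLike.coe_sort_coe, this, Nat.card_coe_set_eq, Set.ncard_pair zero_ne_one]
  have hidx : φ.range.index = 2 := by
    have e1 := φ.range.card_mul_index
    have e2 := φ.ker.card_mul_index
    rw [hker, AddSubgroup.index_ker, ← e1, mul_comm] at e2
    exact (Nat.eq_of_mul_eq_mul_left Nat.card_pos e2).symm
  have hsq : ∀ b, l b = 1 ∨ l b = -1 := fun b => by
    rw [← mul_self_eq_one_iff, ← hl, CharTwo.add_self_eq_zero, h0]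
  have key : ∀ a : F, a ≠ 0 → (∀ c, l (th m a * c + th m c * a) = 1) →
      ∀ x, l (th m a * a * x) = 1 ↔ x ∈ φ.range := by
    intro a ha h1
    have h3 : ∀ x ∈ φ.range, l (th m a * a * x) = 1 := by
      rintro _ ⟨k, rfl⟩
      rw [← h1 (a * k), th_mul]
      congr 1
      change _ * (k + th m k) = _
      ring
    refine fun x => ⟨fun hx => ?_, h3 x⟩
    by_contra hx'
    apply hb0
    have hs : th m a * a ≠ 0 := by simpa using ha
    rw [← mul_div_cancel₀ b0 hs]
    by_cases h4 : b0 / (th m a * a) ∈ φ.range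
    · exact h3 _ h4
    · have := h3 _ ((AddSubgroup.add_mem_iff_of_index_two hidx).2 (iff_of_false h4 hx'))
      rwa [mul_add, hl, hx, mul_one] at this
  by_contra hne
  have hs : th m a * a + th m a' * a' ≠ 0 := fun h3 => hne (thmul_inj (m := m) (by grind))
  apply hb0
  rw [← mul_div_cancel₀ b0 hs, add_mul, hl]
  generalize b0 / _ = x
  have h3 := (key a ha h1 x).trans (key a' ha' h2 x).symm
  rcases hsq (th m a * a * x) with h4 | h4 <;> rcases hsq (th m a' * a' * x) with h5 | h5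
  · rw [h4, h5, one_mul]
  · rw [h4, h3.1 h4, one_mul]
  · rw [h5, h3.2 h5, one_mul]
  · rw [h4, h5]; simp

def zz (m : ℕ) [SzF F m] : Multiplicative F →* U F m :=
  MonoidHom.mk' (fun b => ⟨u m 0 b.toAdd, u_mem _ _⟩) fun a b => Subtype.ext (by simp [u_mul])

theorem zz_center (b : Multiplicative F) : zz m b ∈ center (U F m) := mem_center_U.2 (u_mem_ZU _)

theorem deg_bound {ψ : U F m → ℂ} (hψ : IsIrrCharacter (U F m) ψ) {b0 : Multiplicative F}
    (hb0 : ψ (zz m b0) ≠ ψ 1) {d : ℕ} (hd : ψ 1 = d) : 2 ^ m ≤ d := by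
  classical
  haveI := Fintype.ofFinite (U F m)
  have h1 := hψ.apply_one_ne_zero
  let l : F → ℂ := fun b => ψ (zz m (Multiplicative.ofAdd b)) / ψ 1
  have hl : ∀ b c, l (b + c) = l b * l c := fun b c => by
    have := hψ.isCharacter.apply_mul_of_norm_eq
      (hψ.norm_apply_of_mem_center (zz_center (Multiplicative.ofAdd c))) (zz m (Multiplicative.ofAdd b))
    simp only [l, ofAdd_add, map_mul]
    field_simp
    rw [mul_comm, this]
  have h0 : l 0 = 1 := by simp [l, div_self h1]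
  have hb : l b0.toAdd ≠ 1 := fun h2 => hb0 ((div_eq_one_iff_eq h1).1 h2)
  obtain ⟨a0, ha0⟩ : ∃ a0 : F, ∀ a, (∀ c, l (th m a * c + th m c * a) = 1) → a = 0 ∨ a = a0 := by
    by_cases h2 : ∃ a : F, a ≠ 0 ∧ ∀ c, l (th m a * c + th m c * a) = 1
    · obtain ⟨a0, h3, h4⟩ := h2
      exact ⟨a0, fun a ha => or_iff_not_imp_left.2 fun h5 => rad_le l hl h0 hb h5 h3 ha h4⟩
    · exact ⟨0, fun a ha => Or.inl (by by_contra h5; exact h2 ⟨a, h5, ha⟩)⟩
  have hvan : ∀ a b : F, a ≠ 0 → a ≠ a0 → ψ ⟨u m a b, u_mem _ _⟩ = 0 := by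
    intro a b h2 h3
    obtain ⟨c, hc⟩ : ∃ c, l (th m a * c + th m c * a) ≠ 1 := by
      by_contra h4
      push Not at h4
      rcases ha0 a h4 with h5 | h5 <;> contradiction
    have e : (⟨u m c 0, u_mem _ _⟩ : U F m) * ⟨u m a b, u_mem _ _⟩ * (⟨u m c 0, u_mem _ _⟩ : U F m)⁻¹ *
        (⟨u m a b, u_mem _ _⟩ : U F m)⁻¹ = zz m (Multiplicative.ofAdd (th m a * c + th m c * a)) :=
      Subtype.ext ((u_comm c 0 a b).trans (by rw [add_comm]; rfl))
    refine hψ.isCharacter.apply_eq_zero_of_commutator (y := ⟨u m c 0, u_mem _ _⟩) ?_ ?_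
    · rw [e]; exact hψ.center_le_charCenter (zz_center _)
    · rw [e]; exact fun h4 => hc ((div_eq_one_iff_eq h1).2 h4)
  have hsum := sum_norm_sq_of_irr hψ
  let f : F × F ≃ U F m := Equiv.ofBijective (fun p => ⟨u m p.1 p.2, u_mem _ _⟩)
    ⟨fun p r H => Prod.ext (u_inj (congrArg Subtype.val H)).1 (u_inj (congrArg Subtype.val H)).2, by
      rintro ⟨_, a, b, rfl⟩; exact ⟨(a, b), rfl⟩⟩
  rw [← f.sum_comp, Fintype.sum_prod_type, card_U,
    ← Finset.sum_subset (Finset.subset_univ ({0, a0} : Finset F)) (fun a _ ha => by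
      simp only [Finset.mem_insert, Finset.mem_singleton, not_or] at ha
      exact Finset.sum_eq_zero fun b _ => by
        change ‖ψ ⟨u m a b, _⟩‖ ^ 2 = 0
        rw [hvan a b ha.1 ha.2]; simp)] at hsum
  have hle : ∑ a ∈ ({0, a0} : Finset F), ∑ b : F, ‖ψ (f (a, b))‖ ^ 2 ≤
      ({0, a0} : Finset F).card • ((Fintype.card F) • ((d : ℝ) ^ 2)) := by
    refine Finset.sum_le_card_nsmul _ _ _ fun a _ => Finset.sum_le_card_nsmul _ _ _ fun b _ => ?_
    have := hψ.isCharacter.norm_le (f (a, b))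
    rw [hd, Complex.norm_natCast] at this
    gcongr
  rw [hsum, nsmul_eq_mul, nsmul_eq_mul] at hle
  have h2 : ({0, a0} : Finset F).card ≤ 2 := Finset.card_le_two
  have h3 : Fintype.card F ^ 2 ≤ ({0, a0} : Finset F).card * (Fintype.card F * d ^ 2) := by
    exact_mod_cast hle
  have h4 : Fintype.card F * (2 * (2 ^ m) ^ 2) ≤ Fintype.card F * (2 * d ^ 2) :=
    calc _ = Fintype.card F ^ 2 := by rw [sq (Fintype.card F)]; congr 1; rw [h.hF]; ring
      _ ≤ 2 * (Fintype.card F * d ^ 2) := h3.trans (Nat.mul_le_mul_right _ h2)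
      _ = _ := by ring
  have h5 := Nat.le_of_mul_le_mul_left h4 Fintype.card_pos
  exact (Nat.pow_le_pow_iff_left two_ne_zero).1 (by omega)

theorem main {χ : Cfsg.Sz F m → ℂ} (hχ : IsIrrCharacter _ χ) {k : ℕ} (hk : χ 1 = k) (h2 : 2 ≤ k) :
    2 ^ m * (Fintype.card F - 1) ≤ k := by
  classical
  haveI := Fintype.ofFinite (U F m)
  have hker : charKer χ = ⊥ := (hχ.isCharacter.charKer_normal.eq_bot_or_eq_top).resolve_right
    (hχ.charKer_ne_top (by
      rintro rfl
      have : k = 1 := by simpa using hk.symm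
      omega))
  have hz : χ (u m 0 1) ≠ χ 1 := fun h0 => by
    have := hχ.isCharacter.mem_charKer.2 h0
    rw [hker, mem_bot, u_eq_one] at this
    simp at this
  have hU := hχ.isCharacter.restrict (U F m)
  obtain ⟨ψ, hψ, h3, h4⟩ : ∃ ψ, IsIrrCharacter (U F m) ψ ∧ classInner (fun x : U F m => χ x) ψ ≠ 0 ∧
      ψ (zz m (Multiplicative.ofAdd 1)) ≠ ψ 1 := by
    by_contra hc
    push Not at hc
    apply hz
    have e1 := hU.isClassFunction.apply_eq_sum_irr (zz m (Multiplicative.ofAdd 1))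
    have e2 := hU.isClassFunction.apply_eq_sum_irr 1
    refine e1.trans (Eq.trans (Finset.sum_congr rfl fun ψ _ => ?_) e2.symm)
    by_cases h5 : classInner (fun x : U F m => χ x) ψ = 0
    · simp [h5]
    · rw [hc ψ ψ.2 h5]
  obtain ⟨d, hd0, hd⟩ := hψ.exists_pos_apply_one
  have hb := deg_bound hψ h4 hd
  obtain ⟨j, hj⟩ := ((hU.sub_of_constituent hψ h3).comp (zz m)).exists_nat_classInner
    (hψ.isCharacter.comp (zz m))
  obtain ⟨n0, hn0⟩ := (hU.comp (zz m)).exists_nat_classInner isCharacter_one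
  set a := χ (u m 0 1)
  have hconst : ∀ b : Multiplicative F, b ≠ 1 → χ (zz m b) = a := fun b hb => by
    obtain ⟨t, ht⟩ := exists_d_z (m := m) (l := b.toAdd) hb
    have := hχ.isClassFunction (u m 0 1) (CfsgH8.SzG.d m t)
    rwa [ht, mul_one] at this
  have hsplit : ∀ f : Multiplicative F → ℂ, ∑ b, χ (zz m b) * f b = (k - a) * f 1 + a * ∑ b, f b := by
    intro f
    rw [Finset.mul_sum, ← Finset.add_sum_erase _ _ (Finset.mem_univ 1),
      ← Finset.add_sum_erase _ _ (Finset.mem_univ 1), Finset.sum_congr rfl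
        fun b hb => by rw [hconst b (Finset.ne_of_mem_erase hb)]]
    simp only [map_one, OneMemClass.coe_one, hk]
    ring
  have hsum0 : ∑ b, ψ (zz m b) = 0 := by
    have e1 : ∑ b, ψ (zz m b) = ∑ b, ψ (zz m (b * Multiplicative.ofAdd 1)) :=
      (Equiv.sum_comp (Equiv.mulRight (Multiplicative.ofAdd (1 : F))) fun b => ψ (zz m b)).symm
    have e2 : ψ 1 * ∑ b, ψ (zz m b) = (∑ b, ψ (zz m b)) * ψ (zz m (Multiplicative.ofAdd 1)) := by
      rw [Finset.sum_mul, e1, Finset.mul_sum]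
      exact Finset.sum_congr rfl fun b _ => by
        rw [map_mul, hψ.isCharacter.apply_mul_of_norm_eq (hψ.norm_apply_of_mem_center (zz_center _))]
    by_contra h5
    exact h4 (mul_left_cancel₀ h5 (by rw [← e2, mul_comm]))
  have hnorm : ∑ b, ψ (zz m b) * conj (ψ (zz m b)) = Fintype.card F * d ^ 2 := by
    rw [Finset.sum_congr rfl (g := fun _ => (d : ℂ) ^ 2) fun b _ => by
      rw [Complex.mul_conj', hψ.norm_apply_of_mem_center (zz_center _), hd]; simp]
    simp
  have hq : (Fintype.card F : ℂ) ≠ 0 := by exact_mod_cast Fintype.card_pos.ne'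
  simp only [classInner, Pi.sub_apply, sub_mul, Finset.sum_sub_distrib, hnorm, hsplit,
    Nat.card_eq_fintype_card, Fintype.card_multiplicative, ← map_sum, hsum0] at hj hn0
  simp only [map_one, hd, map_natCast, map_zero, Finset.sum_const, Finset.card_univ,
    Fintype.card_multiplicative, nsmul_eq_mul, mul_one] at hj hn0
  field_simp at hj hn0
  obtain ⟨r, hr⟩ : ∃ r, Fintype.card F = r + 1 := ⟨_, (Nat.succ_pred_eq_of_pos Fintype.card_pos).symm⟩
  have h5 : (r + 1) * (d * k) = (r + 1) * (d * n0 + r * (d ^ 2 + j)) := by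
    rw [hr] at hj hn0
    have : ((r : ℂ) + 1) * (d * k) = (r + 1) * (d * n0 + r * (d ^ 2 + j)) := by
      push_cast at hj hn0
      linear_combination d * hn0 + r * hj
    exact_mod_cast this
  have h6 := Nat.eq_of_mul_eq_mul_left (Nat.add_one_pos r) h5
  rw [hr, Nat.add_sub_cancel]
  have h7 : d * (d * r) ≤ d * k := by rw [h6]; nlinarith
  exact (Nat.mul_le_mul_right _ hb).trans (Nat.le_of_mul_le_mul_left h7 hd0)
end

/-- For the Suzuki group Sz(q), q = 2^(2m+1) with m ≥ 1 (realised inside Sp₄ over the field with q elements), every irreducible complex representation of degree at least 2 has degree at least 2^m·(q − 1). -/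
theorem result {F : Type*} [Field F] [Fintype F] (m : ℕ) (hm : 1 ≤ m) (hF : Fintype.card F = 2 ^ (2 * m + 1)) :
    (∀ (k : ℕ) (ρ : Representation ℂ (Cfsg.Lie.Sz F (2 ^ (m + 1))) (Fin k → ℂ)), ρ.IsIrreducible → 2 ≤ k → 2 ^ m * (2 ^ (2 * m + 1) - 1) ≤ k) := by
  haveI : CfsgH8.SzG.SzF F m := ⟨hm, hF⟩
  intro k ρ hρ hk
  rw [← hF]
  exact main ((isIrr_of_rep ρ).comp_of_surjective (lieEquiv F m).toMonoidHom (lieEquiv F m).surjective)
    (by simp) hk

end Cfsg.Agent.S2337
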