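import Cfsg.Statements.S2347
import Cfsg.Agent.H6.Weil2
import Cfsg.Agent.S0269
import Cfsg.Agent.S0270
import Cfsg.Agent.H5.GrpAux

set_option autoImplicit false
open Cfsg

namespace Cfsg.Agent.S2347

/-- Smallest degree of a non-linear irreducible complex representation of the symplectic group Sp_{2n} over a finite field of odd order q, n ≥ 2: every irreducible complex representation of degree at least 2 has degree at least (q^n − 1)/2, and there is an irreducible complex representation of exactly that degree (a Weil representation). -/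
theorem result {F : Type*} [Field F] [Fintype F] [DecidableEq F] (n : ℕ) (hn : 2 ≤ n) (hodd : Odd (Fintype.card F)) :
    (∀ (k : ℕ) (ρ : Representation ℂ (Matrix.symplecticGroup (Fin n) F) (Fin k → ℂ)), ρ.IsIrreducible → 2 ≤ k → (Fintype.card F ^ n - 1) / 2 ≤ k) ∧
    (∃ ρ : Representation ℂ (Matrix.symplecticGroup (Fin n) F) (Fin ((Fintype.card F ^ n - 1) / 2) → ℂ), ρ.IsIrreducible) := by
  have h2 := CfsgH6.Wt.two_ne hodd
  have hψ := AddChar.FiniteField.primitiveChar_to_Complex_isPrimitive F
  have hc : (Fintype.card F : ℂ) ≠ 0 := by exact_mod_cast Fintype.card_ne_zero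
  have h3 : 3 ≤ Fintype.card F := by
    have := Fintype.one_lt_card (α := F)
    obtain ⟨k, hk⟩ := hodd
    omega
  constructor
  · intro k ρ hρ hk
    by_cases h : ρ (CfsgH6.Wt.uS (Pi.single (⟨0, by omega⟩, ⟨0, by omega⟩) 1)) = 1
    · exfalso
      have := S0270.result (F := F) n hn (fun _ => h3)
      rcases CfsgH5.normal_le_center_or_top (S0269.result (F := F) n (by omega))
        (MonoidHom.ker ρ) with h4 | h4
      · exact CfsgH6.Wt.uS_not_central h2 _ (h4 h)
      · have h5 : ∀ g, ρ g = 1 := fun g => (h4 ▸ Subgroup.mem_top g : g ∈ MonoidHom.ker ρ)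
        let W : Subrepresentation ρ :=
          ⟨Submodule.span ℂ {Pi.single ⟨0, by omega⟩ 1}, fun g v hv => by simpa [h5] using hv⟩
        rcases eq_bot_or_eq_top W with h6 | h6
        · have h7 : Submodule.span ℂ {(Pi.single ⟨0, by omega⟩ 1 : Fin k → ℂ)} = ⊥ :=
            congrArg Subrepresentation.toSubmodule h6
          simp at h7
        · have h7 : Submodule.span ℂ {(Pi.single ⟨0, by omega⟩ 1 : Fin k → ℂ)} = ⊤ :=
            congrArg Subrepresentation.toSubmodule h6
          have h8 := finrank_span_le_card (R := ℂ) ({Pi.single ⟨0, by omega⟩ 1} : Set (Fin k → ℂ))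
          rw [h7] at h8
          simp at h8
          omega
    · have := CfsgH6.Wt.Sp_bound hψ hc h2 ρ h
      simp only [Fintype.card_fin, Module.finrank_fintype_fun_eq_card] at this
      omega
  · obtain ⟨ρ, hρ⟩ := CfsgH6.Weil.exists_rep hψ h2
      (i := (⟨0, by omega⟩ : Fin n)) (j := ⟨1, by omega⟩) (by simp)
    have hd := CfsgH6.Weil.finrank_Wm (n := Fin n) h2
    rw [Fintype.card_fin] at hd
    let e : CfsgH6.Weil.Wm F (Fin n) ≃ₗ[ℂ] (Fin ((Fintype.card F ^ n - 1) / 2) → ℂ) :=
      LinearEquiv.ofFinrankEq _ _ (by rw [Module.finrank_fintype_fun_eq_card, Fintype.card_fin]; omega)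
    refine ⟨(e.conjAlgEquiv ℂ).toMonoidHom.comp ρ, CfsgH6.Wt.Sp_irr hψ hc h2 _
      (fun h => hρ ((e.conjAlgEquiv ℂ).injective (by rw [map_one]; exact h))) ?_⟩
    rw [Module.finrank_fintype_fun_eq_card, Fintype.card_fin, Fintype.card_fin]
    omega

end Cfsg.Agent.S2347
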