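import Cfsg.Statements.S2352
import Cfsg.Agent.H1.Sn1

set_option autoImplicit false
open Cfsg

namespace Cfsg.Agent.S2352

/-- A non-trivial law holds in only finitely many alternating groups: for every non-trivial element w of the free group on countably many generators there is N such that for all n ≥ N some substitution of elements of the alternating group of degree n into w is not the identity. -/
theorem result (w : FreeGroup ℕ) (hw : w ≠ 1) :
    ∃ N : ℕ, ∀ n : ℕ, N ≤ n → ∃ f : ℕ → alternatingGroup (Fin n), FreeGroup.lift f w ≠ 1 := by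
  open CfsgH1 CfsgH1.Sn Equiv Equiv.Perm MulAction in
  open scoped commutatorElement in
  · classical
    let B : Finset (FreeGroup ℕ) := (w.toWord.tails.map FreeGroup.mk).toFinset
    refine ⟨B.card + 2, fun n hn => ?_⟩
    obtain ⟨e⟩ : Nonempty (B ↪ Fin n) := Function.Embedding.nonempty_of_card_le (by simp; omega)
    have key : ∀ i : ℕ, ∃ g : alternatingGroup (Fin n), ∀ (b c : B), FreeGroup.of i * b.1 = c → g.1 (e b) = e c := fun i => by
      obtain ⟨σ, hσ⟩ := Perm.exists_extending_pair (α := {b : B // FreeGroup.of i * b.1 ∈ B}) (f := fun b => e b.1)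
        (g := fun b => e ⟨_, b.2⟩) (e.injective.comp Subtype.val_injective)
        fun a b h => Subtype.ext (Subtype.ext (mul_left_cancel (congrArg Subtype.val (e.injective h))))
      obtain ⟨g, hg, h⟩ := alt_ext (T := Finset.univ.map e) (by simpa using hn) σ
      refine ⟨⟨g, hg⟩, fun b c h1 => (h _ (by simp)).trans ?_⟩
      obtain ⟨c, hc⟩ := c
      obtain rfl : _ = c := h1
      exact hσ ⟨b, hc⟩
    choose f hf using key
    have hB : ∀ l, l <:+ w.toWord → FreeGroup.mk l ∈ B := fun l h =>
      List.mem_toFinset.2 (List.mem_map_of_mem ((List.mem_tails _ _).2 h))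
    have h1 : ∀ l (h : l <:+ w.toWord), (FreeGroup.lift f (FreeGroup.mk l)).1 (e ⟨_, hB [] List.nil_suffix⟩) = e ⟨_, hB l h⟩ := by
      intro l
      induction l with
      | nil => exact fun _ => rfl
      | cons a l ih =>
        intro h
        have h2 := ih ((List.suffix_cons a l).trans h)
        obtain ⟨i, _ | _⟩ := a
        · have e1 : FreeGroup.mk ((i, false) :: l) = (FreeGroup.of i)⁻¹ * FreeGroup.mk l := rfl
          conv_lhs => rw [e1, map_mul, map_inv, FreeGroup.lift_apply_of, Subgroup.coe_mul, Perm.mul_apply, h2, Subgroup.coe_inv]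
          exact Perm.inv_eq_iff_eq.2 (hf i _ _ (by simp [e1])).symm
        · have e1 : FreeGroup.mk ((i, true) :: l) = FreeGroup.of i * FreeGroup.mk l := rfl
          conv_lhs => rw [e1, map_mul, FreeGroup.lift_apply_of, Subgroup.coe_mul, Perm.mul_apply, h2]
          exact hf i _ _ e1.symm
    refine ⟨f, fun h => hw ?_⟩
    have := h1 _ (List.suffix_refl _)
    rw [show FreeGroup.lift f (FreeGroup.mk w.toWord) = 1 by rw [FreeGroup.mk_toWord, h]] at this
    exact FreeGroup.mk_toWord.symm.trans (congrArg Subtype.val (e.injective this)).symm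

end Cfsg.Agent.S2352
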