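import Mathlib
import Cfsg.Statements.S2353
import Cfsg.Agent.H8.P2a
import Cfsg.Agent.H8.PslC

set_option autoImplicit false
open Cfsg

namespace Cfsg.Agent.S2353

open CfsgH8 Matrix Polynomial
open scoped Pointwise

/-- The generators. -/
def gen {R : Type*} [CommRing R] (t : R) (i : ℕ) : SpecialLinearGroup (Fin 2) R :=
  ⟨!![1 + t ^ (i + 1) * t ^ (i + 1), t ^ (i + 1); t ^ (i + 1), 1], by rw [det_fin_two_of]; ring⟩

theorem map_gen {R S : Type*} [CommRing R] [CommRing S] (f : R →+* S) (t : R) (w : FreeGroup ℕ) :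
    SpecialLinearGroup.map f (FreeGroup.lift (gen t) w) = FreeGroup.lift (gen (f t)) w := by
  refine DFunLike.congr_fun (f := (SpecialLinearGroup.map f).comp (FreeGroup.lift (gen t))) (FreeGroup.ext_hom _ _ fun i => ?_) w
  ext a b
  simp only [MonoidHom.comp_apply, FreeGroup.lift_apply_of]
  change f ((gen t i).1 a b) = _
  fin_cases a <;> fin_cases b <;> simp [gen]

theorem deg1 {F : Type*} [Field F] {P : F[X]} (h : P ≠ 0) {i j : ℕ} (n : i ≠ j) :
    P.degree < (X ^ (i + 1) * P - X ^ (j + 1) * P).degree := by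
  have k : ∀ i j : ℕ, i < j → P.degree < (X ^ (i + 1) * P - X ^ (j + 1) * P).degree := fun i j l => by
    have : (X ^ (i + 1) * P).degree < (X ^ (j + 1) * P).degree := by
      simp only [degree_mul, degree_X_pow, degree_eq_natDegree h]
      exact_mod_cast (by omega)
    rw [degree_sub_eq_right_of_degree_lt this]
    simp only [degree_mul, degree_X_pow, degree_eq_natDegree h]
    exact_mod_cast (by omega)
  rcases n.lt_or_gt with l | l
  · exact k i j l
  · rw [← degree_neg (_ - _), neg_sub]; exact k j i l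

theorem deg2 {F : Type*} [Field F] {P Q : F[X]} (h : P ≠ 0) {i : ℕ} (l : (Q - X ^ (i + 1) * P).degree ≤ P.degree) :
    P.degree < Q.degree := by
  have : P.degree < (X ^ (i + 1) * P).degree := by
    simp only [degree_mul, degree_X_pow, degree_eq_natDegree h]
    exact_mod_cast (by omega)
  rwa [← sub_add_cancel Q (X ^ (i + 1) * P), degree_add_eq_right_of_degree_lt (l.trans_lt this)]

theorem inj (F : Type) [Field F] : Function.Injective (FreeGroup.lift (gen (X : F[X]))) := by
  let S : SubMulAction (SpecialLinearGroup (Fin 2) F[X]) (Fin 2 → F[X]) :=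
    ⟨{v | v ≠ 0}, fun g v hv e => hv ((smul_eq_zero_iff_eq g).1 e)⟩
  let A : ℕ → Set S := fun i => {v | (v.1 0 - X ^ (i + 1) * v.1 1).degree < (v.1 1).degree}
  let B : ℕ → Set S := fun i => {v | (v.1 1 + X ^ (i + 1) * v.1 0).degree ≤ (v.1 0).degree}
  have a0 : ∀ {i v}, v ∈ A i → v.1 1 ≠ 0 := fun h e => by simp [A, e] at h
  have b0 : ∀ {i v}, v ∈ B i → v.1 0 ≠ 0 := fun {_ v} h e => by
    simp [B, e] at h
    exact v.2 (funext fun i => by fin_cases i <;> assumption)
  have k : ∀ i (v : S), gen (X : F[X]) i • v ∈ A i ↔ v ∉ B i := fun i v => by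
    have h0 : (gen (X : F[X]) i • v).1 0 = (1 + X ^ (i + 1) * X ^ (i + 1)) * v.1 0 + X ^ (i + 1) * v.1 1 := by
      change ((gen (X : F[X]) i).1 *ᵥ v.1) 0 = _
      simp [gen, mulVec, dotProduct, Fin.sum_univ_two]
    have h1 : (gen (X : F[X]) i • v).1 1 = v.1 1 + X ^ (i + 1) * v.1 0 := by
      change ((gen (X : F[X]) i).1 *ᵥ v.1) 1 = _
      simp [gen, mulVec, dotProduct, Fin.sum_univ_two, add_comm]
    simp only [A, B, Set.mem_ofPred_eq, h0, h1, not_le]
    congr! 2
    ring
  refine FreeGroup.injective_lift_of_ping_pong _ A B (fun i => ⟨⟨![X ^ (i + 1), 1], fun e => ?_⟩, ?_⟩)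
    (fun i j n => Set.disjoint_left.2 fun v h h' => ?_) (fun i j n => Set.disjoint_left.2 fun v h h' => ?_)
    (fun i j => Set.disjoint_left.2 fun v h h' => ?_) (fun i => ?_) fun i => ?_
  · simpa using congrFun e 1
  · simp [A]
  · refine (deg1 (a0 h) n).not_gt ?_
    rw [show X ^ (i + 1) * v.1 1 - X ^ (j + 1) * v.1 1 = v.1 0 - X ^ (j + 1) * v.1 1 - (v.1 0 - X ^ (i + 1) * v.1 1) by ring]
    exact (degree_sub_le _ _).trans_lt (max_lt h' h)
  · refine (deg1 (b0 h) n).not_ge ?_
    rw [show X ^ (i + 1) * v.1 0 - X ^ (j + 1) * v.1 0 = v.1 1 + X ^ (i + 1) * v.1 0 - (v.1 1 + X ^ (j + 1) * v.1 0) by ring]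
    exact (degree_sub_le _ _).trans (max_le h h')
  · refine (deg2 (a0 h) h.le).not_gt (degree_neg (v.1 1) ▸ deg2 (b0 h') (i := j) ?_)
    rwa [← degree_neg, neg_sub, sub_neg_eq_add, add_comm]
  · rintro _ ⟨v, hv, rfl⟩
    exact (k i v).2 hv
  · rintro _ ⟨v, hv, rfl⟩
    by_contra e
    exact hv (by simpa using (k i _).2 e)

/-- A non-trivial law holds in PSL_2 over only finitely many finite fields: for every non-trivial element w of the free group on countably many generators there is N such that over every finite field with at least N elements some substitution of elements of PSL_2 into w is not the identity. -/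
theorem result (w : FreeGroup ℕ) (hw : w ≠ 1) :
    ∃ N : ℕ, ∀ (F : Type*) [Field F] [Fintype F], N ≤ Fintype.card F →
      ∃ f : ℕ → Matrix.ProjectiveSpecialLinearGroup (Fin 2) F, FreeGroup.lift f w ≠ 1 := by
  suffices ∃ N : ℕ, ∀ (F : Type) [Field F] [Fintype F], N ≤ Fintype.card F →
      ∃ f : ℕ → Matrix.ProjectiveSpecialLinearGroup (Fin 2) F, FreeGroup.lift f w ≠ 1 by
    obtain ⟨N, h⟩ := this
    refine ⟨N, fun F _ _ l => ?_⟩
    obtain ⟨K, _, _, e⟩ := exists_field_card (FiniteField.isPrimePow_card F)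
    obtain ⟨f, hf⟩ := h K (e ▸ l)
    obtain ⟨φ⟩ := psl_congr (ι := Fin 2) e
    refine ⟨φ ∘ f, fun o => hf (φ.map_eq_one_iff.1 ((DFunLike.congr_fun (f := φ.toMonoidHom.comp (FreeGroup.lift f))
      (FreeGroup.ext_hom _ _ fun i => by simp) w).trans o))⟩
  let M := FreeGroup.lift (gen (X : ℤ[X])) (w ^ 2)
  refine ⟨Finset.univ.sup (fun x : Fin 2 × Fin 2 => ((M.1 - 1) x.1 x.2).natDegree) + 1, fun F _ _ h => ?_⟩
  have n : FreeGroup.lift (gen (X : F[X])) (w ^ 2) ≠ 1 := fun e =>
    hw ((pow_eq_one_iff_left two_ne_zero).1 (inj F (e.trans (map_one _).symm)))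
  obtain ⟨i, j, e⟩ : ∃ i j, ((M.1 - 1) i j).map (Int.castRingHom F) ≠ 0 := by
    by_contra e
    push Not at e
    refine n ?_
    rw [← map_X (Int.castRingHom F), ← coe_mapRingHom, ← map_gen]
    refine Matrix.SpecialLinearGroup.ext _ _ fun i j => ?_
    have := e i j
    rw [Matrix.sub_apply, Polynomial.map_sub, sub_eq_zero] at this
    refine this.trans ?_
    simp [one_apply, apply_ite]
  obtain ⟨t, ht⟩ := exists_eval_ne_zero_of_natDegree_lt_card _ e (by
    rw [Cardinal.mk_fintype, Nat.cast_lt]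
    exact natDegree_map_le.trans_lt (Nat.lt_of_succ_le ((Nat.succ_le_succ
      (Finset.le_sup (f := fun x : Fin 2 × Fin 2 => ((M.1 - 1) x.1 x.2).natDegree) (Finset.mem_univ (i, j)))).trans h)))
  refine ⟨fun i => πS (gen t i), fun o => ht ?_⟩
  have : πS (FreeGroup.lift (gen t) w) = 1 := (DFunLike.congr_fun (f := πS.comp (FreeGroup.lift (gen t)))
    (FreeGroup.ext_hom _ _ fun i => by simp) w).trans o
  have : FreeGroup.lift (gen t) (w ^ 2) = 1 := by
    rw [map_pow]
    rcases isSc_SL2.1 (πS_eq_one.1 this) with e | e <;> simp [e]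
  rw [show t = eval₂RingHom (Int.castRingHom F) t X by simp, ← map_gen] at this
  have := congrFun (congrFun (congrArg Subtype.val this) i) j
  rw [eval_map, Matrix.sub_apply, eval₂_sub, sub_eq_zero]
  refine this.trans ?_
  simp [one_apply, apply_ite]

end Cfsg.Agent.S2353
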