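import Mathlib
import Cfsg.Statements.S2354
import Cfsg.Agent.H8.Sz8

set_option autoImplicit false
open Cfsg

namespace Cfsg.Agent.S2354

open CfsgH8.SzG CfsgH8 MulAction Subgroup Matrix Polynomial

def al (l : ℕ × Bool) : ℕ := cond l.2 (2 * l.1 + 1) (2 * l.1 + 2)
def ga (l : ℕ × Bool) : ℕ := cond l.2 (2 * l.1 + 2) (2 * l.1 + 1)

section
variable {F : Type*} [Field F] [Fintype F] {m : ℕ} [SzF F m]

def gen (m : ℕ) [SzF F m] (x : F) (i : ℕ) : Cfsg.Sz F m :=
  u m 0 (x ^ (2 * i + 1)) * w F m * u m 0 (x ^ (2 * i + 2))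

theorem gen_cond (x : F) (l : ℕ × Bool) : cond l.2 (gen m x l.1) (gen m x l.1)⁻¹ =
    u m 0 (x ^ al l) * w F m * u m 0 (x ^ ga l) := by
  rcases l with ⟨i, _ | _⟩
  · simp [gen, al, ga, u_inv, w_inv, mul_assoc]
  · rfl

def Dom (p : Fin 4 → F[X]) : Prop :=
  (p 1).natDegree < (p 0).natDegree ∧ (p 2).natDegree < (p 0).natDegree ∧ (p 3).natDegree < (p 0).natDegree

noncomputable def step (b b' : F[X]) (p : Fin 4 → F[X]) : Fin 4 → F[X] :=
  ![p 3 + b * p 1 + b' * p 0, p 2 + b * p 0, p 1, p 0]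

theorem step_eval (b b' : F[X]) (p : Fin 4 → F[X]) (x : F) (hb : b'.eval x = th m (b.eval x)) :
    (u m 0 (b.eval x) * w F m) • (fun i => (p i).eval x) = fun i => (step b b' p i).eval x := by
  rw [mul_smul]
  change (u m 0 (b.eval x)).1.1 *ᵥ ((w F m).1.1 *ᵥ _) = _
  rw [u_val, w_val]
  ext i
  fin_cases i <;> simp [step, Matrix.mulVec, dotProduct, Fin.sum_univ_four, ff, hb]

omit [Fintype F] in
theorem step_dom {b b' : F[X]} {p : Fin 4 → F[X]} (hp : Dom p) (hb : b.natDegree < b'.natDegree) :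
    Dom (step b b' p) ∧ (step b b' p 0).natDegree = b'.natDegree + (p 0).natDegree := by
  obtain ⟨h1, h2, h3⟩ := hp
  have hp0 : p 0 ≠ 0 := fun h0 => by simp [h0] at h1
  have hb0 : b' ≠ 0 := fun h0 => by simp [h0] at hb
  have e1 := natDegree_mul_le (p := b) (q := p 1)
  have e2 := natDegree_mul_le (p := b) (q := p 0)
  have e3 := natDegree_add_le (p 3) (b * p 1)
  have e4 := natDegree_add_le (p 2) (b * p 0)
  have e5 : (step b b' p 0).natDegree = b'.natDegree + (p 0).natDegree := by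
    change (p 3 + b * p 1 + b' * p 0).natDegree = _
    rw [natDegree_add_eq_right_of_natDegree_lt, natDegree_mul hb0 hp0]
    rw [natDegree_mul hb0 hp0]
    omega
  refine ⟨⟨?_, ?_, ?_⟩, e5⟩ <;> rw [e5]
  · change (p 2 + b * p 0).natDegree < _
    omega
  · change (p 1).natDegree < _
    omega
  · change (p 0).natDegree < _
    omega

omit [Fintype F] in
theorem deg_two {i j : ℕ} (h : i ≠ j) : (X ^ i + X ^ j : F[X]).natDegree = max i j := by
  rcases lt_or_gt_of_ne h with h | h
  · rw [natDegree_add_eq_right_of_natDegree_lt (by simpa using h), natDegree_X_pow, max_eq_right h.le]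
  · rw [natDegree_add_eq_left_of_natDegree_lt (by simpa using h), natDegree_X_pow, max_eq_left h.le]

theorem main (E : ℕ) : ∀ (L : List (ℕ × Bool)) (l : ℕ × Bool), FreeGroup.IsReduced (l :: L) →
    (∀ a ∈ l :: L, 2 * a.1 + 2 ≤ E) → ∃ p : Fin 4 → F[X], Dom p ∧
    (p 0).natDegree ≤ (L.length + 1) * (E * 2 ^ (m + 1)) ∧ ∀ x : F,
      ((l :: L).map fun a => cond a.2 (gen m x a.1) (gen m x a.1)⁻¹).prod • (![0, 0, 0, 1] : Fin 4 → F) =
        (u m 0 (x ^ al l) * w F m) • fun i => (p i).eval x := by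
  have hσ : 1 < 2 ^ (m + 1) := Nat.one_lt_two_pow (by omega)
  have hga : ∀ a : ℕ × Bool, 0 < ga a ∧ ga a ≤ 2 * a.1 + 2 := by
    rintro ⟨i, _ | _⟩ <;> simp [ga]
  have hal : ∀ a : ℕ × Bool, 0 < al a ∧ al a ≤ 2 * a.1 + 2 := by
    rintro ⟨i, _ | _⟩ <;> simp [al]
  intro L
  induction L with
  | nil =>
    intro l _ hE
    have h1 := hga l
    have h2 := hE l (by simp)
    refine ⟨![X ^ (ga l * 2 ^ (m + 1)), X ^ ga l, 0, 1], ⟨?_, ?_, ?_⟩, ?_, fun x => ?_⟩
    · simpa using (Nat.lt_mul_iff_one_lt_right h1.1).2 hσ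
    · simpa using h1.1
    · simpa using h1.1
    · simpa using h1.2.trans h2
    · simp only [List.map_cons, List.map_nil, List.prod_cons, List.prod_nil, mul_one, gen_cond]
      rw [mul_smul]
      congr 1
      change (u m 0 _).1.1 *ᵥ _ = _
      rw [u_val]
      ext i
      fin_cases i <;> simp [Matrix.mulVec, dotProduct, Fin.sum_univ_four, ff, th, pow_mul]
  | cons l' L ih =>
    intro l hr hE
    rw [FreeGroup.isReduced_cons_cons] at hr
    obtain ⟨p, hp, hd, hx⟩ := ih l' hr.2 fun a ha => hE a (List.mem_cons_of_mem _ ha)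
    have hne : ga l ≠ al l' := by
      rcases l with ⟨i, _ | _⟩ <;> rcases l' with ⟨j, _ | _⟩ <;> simp [ga, al] at hr ⊢ <;> omega
    have h1 := hga l
    have h2 := hal l'
    have h3 := hE l (by simp)
    have h4 := hE l' (by simp)
    have e1 := deg_two (F := F) hne
    have e2 := deg_two (F := F) (i := ga l * 2 ^ (m + 1)) (j := al l' * 2 ^ (m + 1))
      (fun h0 => hne (Nat.eq_of_mul_eq_mul_right (by omega) h0))
    rw [Nat.mul_max_mul_right] at e2
    obtain ⟨h5, h6⟩ := step_dom (b := X ^ ga l + X ^ al l')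
      (b' := X ^ (ga l * 2 ^ (m + 1)) + X ^ (al l' * 2 ^ (m + 1))) hp (by
        rw [e1, e2]; exact (Nat.lt_mul_iff_one_lt_right (by omega)).2 hσ)
    refine ⟨_, h5, ?_, fun x => ?_⟩
    · rw [h6, e2, List.length_cons, add_mul (L.length + 1), one_mul, add_comm]
      exact add_le_add hd (Nat.mul_le_mul_right _ (by omega))
    · rw [List.map_cons, List.prod_cons, mul_smul, hx, gen_cond, mul_smul _ (u m 0 (x ^ ga l)),
        ← step_eval (m := m)]
      · congr 1
        rw [← mul_smul, ← mul_assoc, u_mul]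
        simp
      · simp [th, pow_mul]
        exact (th_add (m := m) _ _).symm
end

/-- A non-trivial law holds in only finitely many Suzuki groups: for every non-trivial element w of the free group on countably many generators there is N such that for q = 2^(2m+1) with m ≥ N some substitution of elements of the Suzuki group over the field with q elements into w is not the identity. -/
theorem result (w : FreeGroup ℕ) (hw : w ≠ 1) :
    ∃ N : ℕ, ∀ (F : Type*) [Field F] [Fintype F] (m : ℕ), 1 ≤ m → N ≤ m →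
      Fintype.card F = 2 ^ (2 * m + 1) →
      ∃ f : ℕ → ↥(Cfsg.Lie.Sz F (2 ^ (m + 1))), FreeGroup.lift f w ≠ 1 := by
  classical
  obtain ⟨l, L, hL⟩ := List.exists_cons_of_ne_nil (fun h0 => hw (FreeGroup.toWord_eq_nil_iff.1 h0))
  obtain ⟨E, hE⟩ : ∃ E, ∀ a ∈ l :: L, 2 * a.1 + 2 ≤ E :=
    ⟨((l :: L).map fun a => 2 * a.1 + 2).sum, fun a ha =>
      List.single_le_sum (fun _ _ => Nat.zero_le _) _ (List.mem_map_of_mem ha)⟩
  refine ⟨(L.length + 1) * E, fun F _ _ m hm hN hF => ?_⟩
  haveI : CfsgH8.SzG.SzF F m := ⟨hm, hF⟩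
  obtain ⟨p, hp, hd, hx⟩ := main (F := F) (m := m) E L l (hL ▸ FreeGroup.isReduced_toWord) hE
  by_contra hc
  push Not at hc
  have h1 : p 0 - 1 = 0 := by
    apply eq_zero_of_natDegree_lt_card_of_eval_eq_zero _ Function.injective_id
    · intro x
      have h2 : FreeGroup.lift (gen m x) w = 1 := by
        apply (lieEquiv F m).injective
        rw [map_one, ← hc fun i => lieEquiv F m (gen m x i)]
        exact FreeGroup.lift_unique ((lieEquiv F m).toMonoidHom.comp (FreeGroup.lift (gen m x)))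
          (fun i => by simp)
      rw [← FreeGroup.mk_toWord (x := w), FreeGroup.lift_mk, hL] at h2
      have h3 := hx x
      rw [h2, one_smul, mul_smul] at h3
      have h4 := congrFun h3 3
      change _ = ((u m 0 _).1.1 *ᵥ ((CfsgH8.SzG.w F m).1.1 *ᵥ _)) 3 at h4
      rw [u_val, w_val] at h4
      simp [Matrix.mulVec, dotProduct, Fin.sum_univ_four] at h4
      simp [← h4]
    · refine (natDegree_sub_le _ _).trans_lt ?_
      rw [natDegree_one, max_eq_left (Nat.zero_le _), hF]
      refine hd.trans_lt ?_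
      rw [← mul_assoc, show 2 * m + 1 = m + (m + 1) by ring, pow_add 2 m (m + 1)]
      exact Nat.mul_lt_mul_of_pos_right (hN.trans_lt Nat.lt_two_pow_self) (by positivity)
  have := hp.1
  rw [sub_eq_zero.1 h1] at this
  simp at this

end Cfsg.Agent.S2354
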