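import Cfsg.Statements.S2356
import Cfsg.Agent.H5.Su1

set_option autoImplicit false
open Cfsg

namespace Cfsg.Agent.S2356

open CfsgH5 CfsgH5.Su CfsgH5.CForm Module

theorem card_add {α : Type*} [Finite α] {A B C : α → Prop} (h : ∀ x, A x ↔ B x ∨ C x) (hd : ∀ x, B x → C x → False) :
    Nat.card {x // A x} = Nat.card {x // B x} + Nat.card {x // C x} := by
  classical
  rw [← Nat.card_sum]
  exact Nat.card_congr ((Equiv.subtypeEquivRight h).trans (subtypeOrEquiv _ _ fun p h1 h2 x hx => hd x (h1 x hx) (h2 x hx)))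

/-- Let q be odd, F the field with q² elements, S = SU_3(F) (determinant-one isometries of the standard Hermitian form) and t an involution of S. Then: exactly q(q−1) involutions other than t commute with t; exactly q(q−2)(q²−1) involutions do not commute with t but commute with some involution commuting with t; exactly (q+1)(q²−1) involutions x do not commute with t and admit no involution commuting with both t and x; and every involution can be reached from t in at most three steps, each step going to an involution that commutes with the previous one (the commuting involution graph is connected of diameter 3). -/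
theorem result {F : Type*} [Field F] [Fintype F] {q : ℕ} (hq : Odd q)
    (hF : Fintype.card F = q ^ 2) (t : ↥(Cfsg.SU 3 F q)) (ht : t ≠ 1) (ht2 : t * t = 1) :
    Nat.card {x : ↥(Cfsg.SU 3 F q) // x ≠ 1 ∧ x * x = 1 ∧ x ≠ t ∧ Commute t x} = q * (q - 1) ∧
    Nat.card {x : ↥(Cfsg.SU 3 F q) // x ≠ 1 ∧ x * x = 1 ∧ ¬ Commute t x ∧
        ∃ y : ↥(Cfsg.SU 3 F q), y ≠ 1 ∧ y * y = 1 ∧ Commute t y ∧ Commute y x} = q * (q - 2) * (q ^ 2 - 1) ∧
    Nat.card {x : ↥(Cfsg.SU 3 F q) // x ≠ 1 ∧ x * x = 1 ∧ ¬ Commute t x ∧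
        ∀ y : ↥(Cfsg.SU 3 F q), y ≠ 1 → y * y = 1 → ¬ (Commute t y ∧ Commute y x)} = (q + 1) * (q ^ 2 - 1) ∧
    ∀ x : ↥(Cfsg.SU 3 F q), x ≠ 1 → x * x = 1 →
      ∃ y z : ↥(Cfsg.SU 3 F q), y ≠ 1 ∧ y * y = 1 ∧ z ≠ 1 ∧ z * z = 1 ∧
        Commute t y ∧ Commute y z ∧ Commute z x := by
  obtain ⟨σ, H⟩ := exists_UF hF
  have h2 : (2 : F) ≠ 0 := two_ne_of_odd (hF ▸ hq.pow)
  have hf := hermC_nondeg H 3
  have h3 : finrank F (Fin 3 → F) = 3 := by simp
  have e := suEquiv H 3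
  generalize hermC H 3 = f at e hf
  obtain ⟨d, hd⟩ := exists_d e H hf h3 h2 ht ht2
  obtain ⟨p1, p0⟩ := card_perp H hf h3 (hd.1 ▸ one_ne_zero)
  have q3 : 3 ≤ q := by have := H.two_le; obtain ⟨k, rfl⟩ := hq; omega
  have c1 := (count e H hf h3 h2 (fun x => x ≠ t ∧ Commute t x) (fun w => f.B w d = 0) fun x w hw =>
    ⟨fun h => ((hd.comm_iff h2 hw).1 h.2).resolve_right h.1.symm, fun h => ⟨fun l => by
      have := (hd.eq_iff h2 hw).1 l.symm
      rw [h, zero_smul] at this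
      simpa [this] using hw.1, (hd.comm_iff h2 hw).2 (.inl h)⟩⟩).trans p1
  have iso : ∀ w, f.B w w = 1 → f.B w d * σ (f.B w d) = 1 → f.B (w - f.B w d • d) (w - f.B w d • d) = 0 :=
    fun w h k => by simp [h, hd.1, unit_B_symm f w d]; linear_combination -k
  have c3 := count e H hf h3 h2 (fun x => ¬ Commute t x ∧ ∀ y, y ≠ 1 → y * y = 1 → ¬ (Commute t y ∧ Commute y x))
    (fun w => w ≠ f.B w d • d ∧ f.B w d * σ (f.B w d) = 1) fun x w hw => by
      constructor
      · rintro ⟨a, b⟩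
        refine ⟨fun l => a ((hd.eq_iff h2 hw).2 l ▸ Commute.refl t), by_contra fun l => ?_⟩
        obtain ⟨z, z1, z2, z3⟩ := exists_perp' H hf h3 hd.1 hw.1 (.inl l)
        obtain ⟨y, hy⟩ := exists_T e H h3 z1
        exact b y (hy.ne H hf h3 h2) hy.sq ⟨(hd.comm_iff h2 hy).2 (.inl z2), ((hw.comm_iff h2 hy).2 (.inl z3)).symm⟩
      · rintro ⟨a, b⟩
        have n : ¬ Commute t x := fun l => ((hd.comm_iff h2 hw).1 l).elim (fun l => by simp [l] at b)
          fun l => a ((hd.eq_iff h2 hw).1 l)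
        refine ⟨n, fun y y1 y2 ⟨y3, y4⟩ => ?_⟩
        obtain ⟨z, hz⟩ := exists_d e H hf h3 h2 y1 y2
        have z1 := ((hd.comm_iff h2 hz).1 y3).resolve_right fun l => n (l ▸ y4)
        have z2 := ((hz.comm_iff h2 hw).1 y4).resolve_right fun l => n (l ▸ y3)
        obtain ⟨u, u1, u2, u3⟩ := exists_perp H hf h3 (hd.1 ▸ one_ne_zero) z1 (.inl (hz.1 ▸ one_ne_zero))
        have k := on_span hf h3 hd.1 hz.1 u1 (f.B_zero_symm z1) (f.B_zero_symm u2) (f.B_zero_symm u3) (w - f.B w d • d)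
        have i := iso w hw.1 b
        rw [k] at i
        simp [hd.1, z2, f.B_zero_symm z1, f.B_zero_symm u2, u1] at i k
        exact a (by simpa [i, sub_eq_zero] using k)
  rw [← Nat.card_congr (Equiv.ofBijective (fun z : {w // w ≠ 0 ∧ f.B w w = 0 ∧ f.B w d = 0} × {a // a * σ a = 1} =>
    (⟨z.2.1 • d + z.1.1, by simp [hd.1, z.1.2.2, f.B_zero_symm z.1.2.2.2, z.2.2, mul_comm],
      by simp [hd.1, z.1.2, z.2.2]⟩ : {w // f.B w w = 1 ∧ w ≠ f.B w d • d ∧ f.B w d * σ (f.B w d) = 1}))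
    ⟨fun a b k => by
      have k : a.2.1 • d + a.1.1 = b.2.1 • d + b.1.1 := congrArg Subtype.val k
      have l : a.2.1 = b.2.1 := by simpa [hd.1, a.1.2, b.1.2] using congrArg (f.B · d) k
      exact Prod.ext (Subtype.ext (by simpa [l] using k)) (Subtype.ext l),
    fun w => ⟨(⟨w.1 - f.B w.1 d • d, sub_ne_zero.2 w.2.2.1, iso _ w.2.1 w.2.2.2, by simp [hd.1]⟩, ⟨_, w.2.2.2⟩),
      Subtype.ext (by simp)⟩⟩), Nat.card_prod, p0, H.card_norm (map_one σ) one_ne_zero] at c3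
  replace c1 := Nat.eq_of_mul_eq_mul_right q.succ_pos c1
  replace c3 := Nat.eq_of_mul_eq_mul_right q.succ_pos c3
  refine ⟨c1, ?_, c3, fun x h1 h4 => ?_⟩
  · have c := card_inv e H hf h3 h2
    rw [card_add (B := fun x => x = t) (C := fun x => x ≠ 1 ∧ x * x = 1 ∧ x ≠ t) (fun x => by
        by_cases h : x = t <;> simp [h, ht, ht2]) (by tauto), Nat.card_unique,
      card_add (B := fun x => x ≠ 1 ∧ x * x = 1 ∧ x ≠ t ∧ Commute t x) (C := fun x => x ≠ 1 ∧ x * x = 1 ∧ ¬ Commute t x)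
        (fun x => by
          have : x = t → Commute t x := fun h => h ▸ Commute.refl t
          tauto) (by tauto), c1,
      card_add (A := fun x => x ≠ 1 ∧ x * x = 1 ∧ ¬ Commute t x)
        (B := fun x => x ≠ 1 ∧ x * x = 1 ∧ ¬ Commute t x ∧ ∃ y, y ≠ 1 ∧ y * y = 1 ∧ Commute t y ∧ Commute y x)
        (C := fun x => x ≠ 1 ∧ x * x = 1 ∧ ¬ Commute t x ∧ ∀ y, y ≠ 1 → y * y = 1 → ¬ (Commute t y ∧ Commute y x))
        (fun x => ⟨fun h => or_iff_not_imp_left.2 fun k => ⟨h.1, h.2.1, h.2.2, fun y a b c =>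
          k ⟨h.1, h.2.1, h.2.2, y, a, b, c⟩⟩, fun h => h.elim (fun h => ⟨h.1, h.2.1, h.2.2.1⟩) fun h => ⟨h.1, h.2.1, h.2.2.1⟩⟩)
        (fun x ⟨_, _, _, y, a, b, c⟩ k => k.2.2.2 y a b c), c3] at c
    have a : q ≤ q ^ 2 := Nat.le_self_pow two_ne_zero q
    zify [a, show 1 ≤ q by omega, show 2 ≤ q by omega, show 1 ≤ q ^ 2 by omega] at c ⊢
    linear_combination c
  · obtain ⟨w, hw⟩ := exists_d e H hf h3 h2 h1 h4
    by_cases k : f.B w d * σ (f.B w d) ≠ 1 ∨ w = f.B w d • d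
    · obtain ⟨z, z1, z2, z3⟩ := exists_perp' H hf h3 hd.1 hw.1 k
      obtain ⟨y, hy⟩ := exists_T e H h3 z1
      exact ⟨y, y, hy.ne H hf h3 h2, hy.sq, hy.ne H hf h3 h2, hy.sq, (hd.comm_iff h2 hy).2 (.inl z2), .refl y,
        ((hw.comm_iff h2 hy).2 (.inl z3)).symm⟩
    push Not at k
    obtain ⟨c, hc⟩ := H.exists_norm (b := -1) (by simp)
    have c0 : c ≠ 0 := by rintro rfl; simp at hc
    have i := iso w hw.1 k.1
    have o : f.B (w - f.B w d • d) d = 0 := by simp [hd.1]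
    obtain ⟨⟨v, v0⟩, hv⟩ := (perp2 hf h3 (hd.1 ▸ one_ne_zero)).1.exists_B_eq_one
      (x := ⟨_, mem_perp_single.2 o⟩) fun l => k.2 (sub_eq_zero.1 (congrArg Subtype.val l))
    replace hv : f.B (w - f.B w d • d) v = 1 := hv
    replace v0 := mem_perp_single.1 v0
    have hw' : w = f.B w d • d + (w - f.B w d • d) := by simp
    generalize w - f.B w d • d = s at i o hv hw'
    have vv := unit_B_symm f v v
    let u := c • v + ((1 + f.B v v) / 2 / σ c) • s
    have u1 : f.B u u = 1 := by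
      have : σ c ≠ 0 := by simpa using c0
      simp [u, i, hv, unit_B_symm f s v, H.invol, ← vv, map_ofNat]
      field_simp
      linear_combination 2 * f.B v v * hc
    have u2 : f.B u d = 0 := by simp [u, v0, o]
    obtain ⟨z, z1, z2, z3⟩ := exists_perp' H hf h3 u1 hw.1 (.inl (by
      rw [hw']
      simp [u, f.B_zero_symm v0, f.B_zero_symm o, i, hv, H.invol, mul_comm (σ c), hc, neg_eq_iff_add_eq_zero,
        one_add_one_eq_two, h2]))
    obtain ⟨y, hy⟩ := exists_T e H h3 u1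
    obtain ⟨y', hy'⟩ := exists_T e H h3 z1
    exact ⟨y, y', hy.ne H hf h3 h2, hy.sq, hy'.ne H hf h3 h2, hy'.sq, (hd.comm_iff h2 hy).2 (.inl u2),
      (hy.comm_iff h2 hy').2 (.inl z2), ((hw.comm_iff h2 hy').2 (.inl z3)).symm⟩

end Cfsg.Agent.S2356
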