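import Cfsg.Statements.S2357
import Cfsg.Agent.H6.Ree5

set_option autoImplicit false
open Cfsg

namespace Cfsg.Agent.S2357

open CfsgH6 CfsgH2 Subgroup Ree

theorem aux {R : Type*} [Group R] {K : Type*} [Field K] [Fintype K] {m : ℕ} (X : Ree R K m) (hm : 1 ≤ m) (i : Fin 4) :
    ∃ (T A : Subgroup R) (I : ℕ), Tor m i T A ∧ I * (cc i * NN m i) =
      (3 ^ (2 * m + 1)) ^ 3 * (NN m 0 * NN m 1 * NN m 2 * NN m 3) ∧ ∀ d, 2 < d → d ∣ NN m i →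
        Nat.card {g : R // orderOf g = d} = I * Nat.card {g : T // orderOf g = d} := by
  haveI := X.finite
  obtain ⟨T, A, h⟩ := X.exists_tor_type hm i
  refine ⟨T, A, _, h, h.index_mul.trans (X.card.trans (NN_prod m)), fun d h1 h2 => ?_⟩
  obtain ⟨j, n, hn, rfl⟩ := Nat.exists_eq_two_pow_mul_odd (show d ≠ 0 by omega)
  by_cases h3 : n = 1
  · have : ∀ {G : Type _} [Group G] (f : G →* R), Function.Injective f → Nat.card {g : G // orderOf g = 2 ^ j * n} = 0 :=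
      fun f hf => Nat.card_eq_zero.2 (Or.inl ⟨fun ⟨g, e⟩ => absurd (Nat.le_of_dvd two_pos (orderOf_dvd_of_pow_eq_one
        (X.sq_of_pow (x := f g) (k := j) (by rw [← map_pow, ← mul_one (2 ^ j), ← h3, ← e, pow_orderOf_eq_one, map_one]))))
        (by rw [orderOf_injective f hf, e]; omega)⟩)
    rw [this (MonoidHom.id R) Function.injective_id, this T.subtype Subtype.val_injective, mul_zero]
  obtain ⟨p, hp, hd⟩ := Nat.exists_prime_and_dvd h3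
  exact X.count_tor hm h hp (by rintro rfl; exact hn.not_two_dvd_nat hd) (hd.mul_left _) ((hd.mul_left _).trans h2)
    fun e => (NN_kk m i).2.2.1 (e.trans h2)

theorem two_lt {m d : ℕ} {i : Fin 4} (h : 1 < d) (hd : d ∣ kk m i) : 2 < d := by
  have := Nat.odd_iff.1 ((NN_kk m i).1.of_dvd_nat hd); omega

/-- Let R be the small Ree group over the field with q = 3^(2m+1) ≥ 27 elements and write φ for Euler's totient function. Then R has exactly q²(q²−q+1) involutions, (q²−1)(q³+1) elements of order 3, and q²(q−1)(q³+1) elements of order 6 and as many of order 9; for i > 2 dividing q−1 it has φ(i)q³(q³+1)/2 elements of order i; for i > 1 dividing (q+1)/4 it has φ(i)q³(q−1)(q²−q+1)/6 elements of order i and φ(i)q³(q−1)(q²−q+1)/2 elements of order 2i; and for i > 1 dividing q − 3^(m+1) + 1 (respectively q + 3^(m+1) + 1) it has φ(i)q³(q²−1)(q + 3^(m+1) + 1)/6 (respectively φ(i)q³(q²−1)(q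 − 3^(m+1) + 1)/6) elements of order i. -/
theorem result {K : Type*} [Field K] [Fintype K] {m : ℕ} (hm : 1 ≤ m)
    (hK : Fintype.card K = 3 ^ (2 * m + 1)) :
    Nat.card {g : ↥(Cfsg.Lie.twistedG2 K (3 ^ m)) // orderOf g = 2} = (3 ^ (2 * m + 1)) ^ 2 * ((3 ^ (2 * m + 1)) ^ 2 - 3 ^ (2 * m + 1) + 1) ∧
    Nat.card {g : ↥(Cfsg.Lie.twistedG2 K (3 ^ m)) // orderOf g = 3} = ((3 ^ (2 * m + 1)) ^ 2 - 1) * ((3 ^ (2 * m + 1)) ^ 3 + 1) ∧
    Nat.card {g : ↥(Cfsg.Lie.twistedG2 K (3 ^ m)) // orderOf g = 6} = (3 ^ (2 * m + 1)) ^ 2 * (3 ^ (2 * m + 1) - 1) * ((3 ^ (2 * m + 1)) ^ 3 + 1) ∧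
    Nat.card {g : ↥(Cfsg.Lie.twistedG2 K (3 ^ m)) // orderOf g = 9} = (3 ^ (2 * m + 1)) ^ 2 * (3 ^ (2 * m + 1) - 1) * ((3 ^ (2 * m + 1)) ^ 3 + 1) ∧
    (∀ i : ℕ, 2 < i → i ∣ 3 ^ (2 * m + 1) - 1 →
      2 * Nat.card {g : ↥(Cfsg.Lie.twistedG2 K (3 ^ m)) // orderOf g = i} = Nat.totient i * (3 ^ (2 * m + 1)) ^ 3 * ((3 ^ (2 * m + 1)) ^ 3 + 1)) ∧
    (∀ i : ℕ, 1 < i → i ∣ (3 ^ (2 * m + 1) + 1) / 4 →
      6 * Nat.card {g : ↥(Cfsg.Lie.twistedG2 K (3 ^ m)) // orderOf g = i} =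
          Nat.totient i * (3 ^ (2 * m + 1)) ^ 3 * (3 ^ (2 * m + 1) - 1) * ((3 ^ (2 * m + 1)) ^ 2 - 3 ^ (2 * m + 1) + 1) ∧
        2 * Nat.card {g : ↥(Cfsg.Lie.twistedG2 K (3 ^ m)) // orderOf g = 2 * i} =
          Nat.totient i * (3 ^ (2 * m + 1)) ^ 3 * (3 ^ (2 * m + 1) - 1) * ((3 ^ (2 * m + 1)) ^ 2 - 3 ^ (2 * m + 1) + 1)) ∧
    (∀ i : ℕ, 1 < i → i ∣ 3 ^ (2 * m + 1) - 3 ^ (m + 1) + 1 →
      6 * Nat.card {g : ↥(Cfsg.Lie.twistedG2 K (3 ^ m)) // orderOf g = i} =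
        Nat.totient i * (3 ^ (2 * m + 1)) ^ 3 * ((3 ^ (2 * m + 1)) ^ 2 - 1) * (3 ^ (2 * m + 1) + 3 ^ (m + 1) + 1)) ∧
    (∀ i : ℕ, 1 < i → i ∣ 3 ^ (2 * m + 1) + 3 ^ (m + 1) + 1 →
      6 * Nat.card {g : ↥(Cfsg.Lie.twistedG2 K (3 ^ m)) // orderOf g = i} =
        Nat.totient i * (3 ^ (2 * m + 1)) ^ 3 * ((3 ^ (2 * m + 1)) ^ 2 - 1) * (3 ^ (2 * m + 1) - 3 ^ (m + 1) + 1)) := by
  obtain ⟨X, -⟩ := exists_ree hK
  haveI := X.finite
  have pos : ∀ i, 0 < NN m i := fun i => (NN_kk m i).2.1 ▸ Nat.mul_pos (NN_kk m i).1.pos (by positivity)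
  obtain ⟨s, k, a, h1, h2, h3, h4, h5, -⟩ := qr m
  have e1 : (3 ^ (2 * m + 1)) ^ 2 - 3 ^ (2 * m + 1) + 1 = NN m 2 * NN m 3 := by
    simp only [NN, Matrix.cons_val, h1, h2]
    zify [show 3 * s ≤ 3 * s ^ 2 by omega, Nat.le_self_pow two_ne_zero (3 * s ^ 2)]; ring
  have e2 : (3 ^ (2 * m + 1)) ^ 2 - 1 = NN m 0 * NN m 1 := by
    simp only [NN, Matrix.cons_val, h1, h2]
    zify [show 1 ≤ 3 * s ^ 2 by omega, show 1 ≤ (3 * s ^ 2) ^ 2 from Nat.one_le_pow _ _ (by omega)]; ring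
  have e3 : (3 ^ (2 * m + 1)) ^ 3 + 1 = NN m 1 * NN m 2 * NN m 3 := by
    simp only [NN, Matrix.cons_val, h1, h2]
    zify [show 3 * s ≤ 3 * s ^ 2 by omega]; ring
  refine ⟨X.count2, X.count3, X.count6, X.count9, fun d h hd => ?_, fun d h hd => ?_, fun d h hd => ?_, fun d h hd => ?_⟩
  · obtain ⟨T, A, I, a1, a2, a3⟩ := aux X hm 0
    rw [a3 d h hd, card_order_cyc (a1.cycT (by decide)) (a1.card ▸ hd), e3]
    exact Nat.eq_of_mul_eq_mul_right (pos 0) (by change I * (2 * _) = _ at a2; linear_combination d.totient * a2)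
  · obtain ⟨T, A, I, a1, a2, a3⟩ := aux X hm 1
    rw [a3 d (two_lt (i := 1) h hd) (hd.trans (kk_dvd 1)), a3 _ (by omega) ((NN_kk m 1).2.1 ▸ mul_comm d 2 ▸
      mul_dvd_mul hd (by decide)), X.tor_odd a1 hd, X.tor_even a1 hd, e1]
    change I * (6 * _) = _ at a2
    change _ = _ * NN m 0 * _ ∧ 2 * (I * (3 * _)) = _ * NN m 0 * _
    constructor <;> exact Nat.eq_of_mul_eq_mul_right (pos 1) (by linear_combination d.totient * a2)
  · obtain ⟨T, A, I, a1, a2, a3⟩ := aux X hm 2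
    rw [a3 d (two_lt (i := 2) h hd) hd, X.tor_odd a1 hd, e2]
    change _ = _ * NN m 3
    exact Nat.eq_of_mul_eq_mul_right (pos 2) (by change I * (6 * _) = _ at a2; linear_combination d.totient * a2)
  · obtain ⟨T, A, I, a1, a2, a3⟩ := aux X hm 3
    rw [a3 d (two_lt (i := 3) h hd) hd, X.tor_odd a1 hd, e2]
    change _ = _ * NN m 2
    exact Nat.eq_of_mul_eq_mul_right (pos 3) (by change I * (6 * _) = _ at a2; linear_combination d.totient * a2)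

end Cfsg.Agent.S2357
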