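import Cfsg.Statements.S2358
import Cfsg.Agent.H6.Ree5

set_option autoImplicit false
open Cfsg

namespace Cfsg.Agent.S2358

open CfsgH6 CfsgH2 Subgroup

/-- Let R be the small Ree group over the field with q = 3^(2m+1) ≥ 27 elements. If d divides one of (q−1)/2, (q+1)/4, q − 3^(m+1) + 1 or q + 3^(m+1) + 1, then any two cyclic subgroups of R of order d are conjugate in R. -/
theorem result {K : Type*} [Field K] [Fintype K] {m : ℕ} (hm : 1 ≤ m)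
    (hK : Fintype.card K = 3 ^ (2 * m + 1)) (d : ℕ)
    (hd : d ∣ (3 ^ (2 * m + 1) - 1) / 2 ∨ d ∣ (3 ^ (2 * m + 1) + 1) / 4 ∨ d ∣ 3 ^ (2 * m + 1) - 3 ^ (m + 1) + 1 ∨ d ∣ 3 ^ (2 * m + 1) + 3 ^ (m + 1) + 1)
    (A B : Subgroup ↥(Cfsg.Lie.twistedG2 K (3 ^ m))) (hA : IsCyclic A) (hB : IsCyclic B)
    (hAd : Nat.card A = d) (hBd : Nat.card B = d) :
    ∃ g : ↥(Cfsg.Lie.twistedG2 K (3 ^ m)), B = A.map (MulAut.conj g).toMonoidHom := by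
  obtain ⟨X, -⟩ := exists_ree hK
  haveI := X.finite
  obtain ⟨i, hi⟩ : ∃ i, d ∣ Ree.kk m i := by
    rcases hd with h | h | h | h
    exacts [⟨0, h⟩, ⟨1, h⟩, ⟨2, h⟩, ⟨3, h⟩]
  by_cases h : A = ⊥
  · exact ⟨1, by rw [h, Subgroup.map_bot, ← card_eq_one, hBd, ← hAd, h, card_bot]⟩
  obtain ⟨T, C, h1, h2⟩ := X.exists_tor_sub hA h (hAd ▸ hi)
  obtain ⟨T', C', h3, h4⟩ := X.exists_tor_sub hB (fun e => h (by rw [← card_eq_one, hAd, ← hBd, e, card_bot])) (hBd ▸ hi)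
  obtain ⟨g, -, rfl⟩ := h1.conj hm h3
  exact ⟨g, eq_of_card_eq_of_cyclic h3.cyc h4 (map_mono h2) (hBd.trans (hAd.symm.trans (card_map_cj g A).symm))⟩

end Cfsg.Agent.S2358
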