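import Cfsg.Statements.S2359
import Cfsg.Agent.H6.Ree5

set_option autoImplicit false
open Cfsg

namespace Cfsg.Agent.S2359

open CfsgH6 CfsgH2 Subgroup

/-- Let R be the small Ree group over the field with q = 3^(2m+1) ≥ 27 elements. If H is a cyclic subgroup of R of order (q−1)/2, then the centralizer of H in R is cyclic of order q−1, and every non-trivial subgroup of H has the same centralizer as H. If H is a cyclic subgroup of order (q+1)/4, then the centralizer of H is abelian of order q+1 with no element of order 4 (so it is the direct product of H and a group of order 4 whose non-identity elements all have order 2), and every non-trivial subgroup of H has the same centralizer as H. -/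
theorem result {K : Type*} [Field K] [Fintype K] {m : ℕ} (hm : 1 ≤ m)
    (hK : Fintype.card K = 3 ^ (2 * m + 1)) (H : Subgroup ↥(Cfsg.Lie.twistedG2 K (3 ^ m))) (hH : IsCyclic H) :
    (Nat.card H = (3 ^ (2 * m + 1) - 1) / 2 →
      IsCyclic ↥(Subgroup.centralizer (H : Set ↥(Cfsg.Lie.twistedG2 K (3 ^ m)))) ∧
        Nat.card ↥(Subgroup.centralizer (H : Set ↥(Cfsg.Lie.twistedG2 K (3 ^ m)))) = 3 ^ (2 * m + 1) - 1 ∧
        ∀ A : Subgroup ↥(Cfsg.Lie.twistedG2 K (3 ^ m)), A ≤ H → A ≠ ⊥ →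
          Subgroup.centralizer (A : Set ↥(Cfsg.Lie.twistedG2 K (3 ^ m))) = Subgroup.centralizer (H : Set ↥(Cfsg.Lie.twistedG2 K (3 ^ m)))) ∧
    (Nat.card H = (3 ^ (2 * m + 1) + 1) / 4 →
      IsMulCommutative ↥(Subgroup.centralizer (H : Set ↥(Cfsg.Lie.twistedG2 K (3 ^ m)))) ∧
        Nat.card ↥(Subgroup.centralizer (H : Set ↥(Cfsg.Lie.twistedG2 K (3 ^ m)))) = 3 ^ (2 * m + 1) + 1 ∧
        (∀ x ∈ Subgroup.centralizer (H : Set ↥(Cfsg.Lie.twistedG2 K (3 ^ m))), orderOf x ≠ 4) ∧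
        ∀ A : Subgroup ↥(Cfsg.Lie.twistedG2 K (3 ^ m)), A ≤ H → A ≠ ⊥ →
          Subgroup.centralizer (A : Set ↥(Cfsg.Lie.twistedG2 K (3 ^ m))) = Subgroup.centralizer (H : Set ↥(Cfsg.Lie.twistedG2 K (3 ^ m)))) := by
  obtain ⟨X, -⟩ := exists_ree hK
  have key : ∀ i, Nat.card H = Ree.kk m i → ∃ A, Ree.Tor m i C[H] A ∧ ∀ B, B ≤ H → B ≠ ⊥ → C[B] = C[H] := fun i e => by
    have h0 : H ≠ ⊥ := fun e' => ((Ree.NN_kk m i).2.2.2 hm).ne' (e.symm.trans (card_eq_one.2 e'))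
    obtain ⟨T, A, h1, h2⟩ := X.exists_tor_sub hH h0 e.dvd
    obtain rfl := h1.cent_sub h2 h0
    exact ⟨A, h1, fun B h3 => h1.cent_sub (h3.trans h2)⟩
  refine ⟨fun e => ?_, fun e => ?_⟩
  · obtain ⟨A, h, h'⟩ := key 0 e
    exact ⟨h.cycT (by decide), h.card, h'⟩
  · obtain ⟨A, h, h'⟩ := key 1 e
    refine ⟨h.comm, h.card, fun x _ e => ?_, h'⟩
    have := orderOf_dvd_of_pow_eq_one (X.sq_of_pow (x := x) (k := 2) (orderOf_dvd_iff_pow_eq_one.1 e.dvd))
    exact absurd (e ▸ this) (by decide)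

end Cfsg.Agent.S2359
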