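import Cfsg.Statements.S2360
import Cfsg.Agent.H5.Su1

set_option autoImplicit false
open Cfsg

namespace Cfsg.Agent.S2360

open CfsgH5 CfsgH5.Su CfsgH5.CForm Module

/-- Let q be odd, F the field with q² elements and S = SU_3(F) (determinant-one isometries of the standard Hermitian form). Then all involutions of S are conjugate; there are exactly q²(q²−q+1) of them; the centralizer of an involution has order q(q+1)(q²−1), the order of the full unitary group of degree 2; and for two distinct commuting involutions t and x there is exactly one further involution commuting with both. -/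
theorem result {F : Type*} [Field F] [Fintype F] {q : ℕ} (hq : Odd q)
    (hF : Fintype.card F = q ^ 2) (t : ↥(Cfsg.SU 3 F q)) (ht : t ≠ 1) (ht2 : t * t = 1) :
    (∀ x : ↥(Cfsg.SU 3 F q), x ≠ 1 → x * x = 1 → ∃ g : ↥(Cfsg.SU 3 F q), g * t * g⁻¹ = x) ∧
    Nat.card {x : ↥(Cfsg.SU 3 F q) // x ≠ 1 ∧ x * x = 1} = q ^ 2 * (q ^ 2 - q + 1) ∧
    Nat.card ↥(Subgroup.centralizer ({t} : Set ↥(Cfsg.SU 3 F q))) = q * (q + 1) * (q ^ 2 - 1) ∧
    ∀ x : ↥(Cfsg.SU 3 F q), x ≠ 1 → x * x = 1 → x ≠ t → Commute t x →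
      Nat.card {y : ↥(Cfsg.SU 3 F q) // y ≠ 1 ∧ y * y = 1 ∧ y ≠ t ∧ y ≠ x ∧ Commute t y ∧ Commute x y} = 1 := by
  obtain ⟨σ, H⟩ := exists_UF hF
  have h2 : (2 : F) ≠ 0 := two_ne_of_odd (hF ▸ hq.pow)
  have hf := hermC_nondeg H 3
  have h3 : finrank F (Fin 3 → F) = 3 := by simp
  let e := suEquiv H 3
  obtain ⟨d, hd⟩ := exists_d e H hf h3 h2 ht ht2
  have cj : ∀ x : Cfsg.SU 3 F q, x ≠ 1 → x * x = 1 → ∃ g, g * t * g⁻¹ = x := fun x h1 h4 => by
    obtain ⟨w, hw⟩ := exists_d e H hf h3 h2 h1 h4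
    obtain ⟨g, hg, k⟩ := witt_one hf (u := d) (u' := w) (fun l => by simpa [l] using hd.1)
      (fun l => by simpa [l] using hw.1) (by rw [unit_Q, unit_Q, hd.1, hw.1])
    have dn := det_norm hf (inv_mem hg)
    obtain ⟨s, hs, k1, -, k2⟩ := unit_exists_refl (f := hermC H 3) (d := d) (by simp [unit_Q, hd.1]) dn
    refine ⟨e.symm ⟨g * s, mem_SIsom.2 ⟨mul_mem hg hs, ?_⟩⟩, (hd.conj _).uniq ?_⟩
    · rw [← LinearEquiv.coe_det, map_mul, Units.val_mul, LinearEquiv.coe_det s, k2, ← LinearEquiv.coe_det, map_inv,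
        Units.mul_inv]
    · simpa [k1, k] using hw.smul dn
  have c1 := card_inv e H hf h3 h2
  refine ⟨cj, c1, ?_, fun x h1 h4 h5 h6 => ?_⟩
  · have k := (MulAction.stabilizer (ConjAct (Cfsg.SU 3 F q)) t).index_mul_card
    rw [← Subgroup.nat_card_centralizer_nat_card_stabilizer, MulAction.index_stabilizer, ← Nat.card_coe_set_eq,
      Nat.card_congr (β := {x : Cfsg.SU 3 F q // x ≠ 1 ∧ x * x = 1}) (Equiv.subtypeEquivRight fun x => ⟨?_, fun h => ?_⟩),
      c1] at k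
    · have k1 := card_SU H (n := 3) (by omega)
      have q2 := H.two_le
      rw [← show _ = Nat.card (Cfsg.SU 3 F q) from k] at k1
      simp only [uOrd, Finset.prod_range_succ] at k1
      norm_num at k1
      have a : q ≤ q ^ 2 := Nat.le_self_pow two_ne_zero q
      have b : 1 ≤ q ^ 2 := by omega
      zify [a, b] at k1 ⊢
      exact mul_left_cancel₀ (a := ((q : ℤ) + 1) * (q ^ 2 * (q ^ 2 - q + 1))) (by
        have : (q : ℤ) ≤ q ^ 2 := by exact_mod_cast a
        have : (0 : ℤ) < q ^ 2 - q + 1 := by omega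
        positivity) (by linear_combination k1)
    · rintro ⟨g, rfl⟩
      exact ⟨(hd.conj (ConjAct.ofConjAct g)).ne H hf h3 h2, (hd.conj (ConjAct.ofConjAct g)).sq⟩
    · obtain ⟨g, rfl⟩ := cj x h.1 h.2
      exact ⟨ConjAct.toConjAct g, rfl⟩
  · obtain ⟨w, hw⟩ := exists_d e H hf h3 h2 h1 h4
    have o := ((hd.comm_iff h2 hw).1 h6).resolve_right h5.symm
    obtain ⟨z, z1, z2, z3⟩ := exists_perp H hf h3 (hd.1 ▸ one_ne_zero) o (.inl (hw.1 ▸ one_ne_zero))
    obtain ⟨y, hy⟩ := exists_T e H h3 z1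
    have ne : ∀ {a u}, T e a u → (hermC H 3).B z u = 0 → y ≠ a := fun ha hu l => by
      have := (ha.eq_iff h2 hy).1 l.symm
      rw [hu, zero_smul] at this
      simp [this] at z1
    refine Nat.card_eq_one_iff_exists.2 ⟨⟨y, hy.ne H hf h3 h2, hy.sq, ne hd z2, ne hw z3,
      (hd.comm_iff h2 hy).2 (.inl z2), (hw.comm_iff h2 hy).2 (.inl z3)⟩, fun ⟨y', a1, a2, a3, a4, a5, a6⟩ => ?_⟩
    obtain ⟨u, hu⟩ := exists_d e H hf h3 h2 a1 a2
    refine Subtype.ext ((hy.eq_iff h2 hu).2 ?_).symm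
    simpa [((hd.comm_iff h2 hu).1 a5).resolve_right a3.symm, ((hw.comm_iff h2 hu).1 a6).resolve_right a4.symm] using
      on_span hf h3 hd.1 hw.1 z1 ((hermC H 3).B_zero_symm o) ((hermC H 3).B_zero_symm z2) ((hermC H 3).B_zero_symm z3) u

end Cfsg.Agent.S2360
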