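import Mathlib
import Cfsg.Statements.S2450
import Cfsg.Agent.H8.P2a

set_option autoImplicit false
open Cfsg

namespace Cfsg.Agent.S2450

open CfsgH8 Polynomial

theorem two_roots {F : Type*} [Field F] [Fintype F] [DecidableEq F] {A B C : F} (h : A ≠ 0) :
    (Finset.univ.filter fun t => A * t ^ 2 + B * t + C = 0).card ≤ 2 := by
  have d : (Polynomial.C A * X ^ 2 + Polynomial.C B * X + Polynomial.C C).natDegree = 2 := natDegree_quadratic h
  refine (card_le_degree_of_subset_roots fun t ht => ?_).trans d.le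
  rw [mem_roots (by intro e; simp [e] at d)]
  simpa using ht

/-- The Arad–Herzog conjecture for PSL(2,q): let F be a finite field with q ≥ 4 elements. For any two non-identity elements a, b of PSL(2,F), the set of products of a conjugate of a with a conjugate of b is not a single conjugacy class. -/
theorem result {F : Type*} [Field F] [Fintype F] (h4 : 4 ≤ Fintype.card F)
    (a b : Matrix.ProjectiveSpecialLinearGroup (Fin 2) F) (ha : a ≠ 1) (hb : b ≠ 1) (c : Matrix.ProjectiveSpecialLinearGroup (Fin 2) F) :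
    {g : Matrix.ProjectiveSpecialLinearGroup (Fin 2) F | ∃ u v : Matrix.ProjectiveSpecialLinearGroup (Fin 2) F, g = (u * a * u⁻¹) * (v * b * v⁻¹)} ≠ {g | IsConj c g} := by
  classical
  intro e
  obtain ⟨a, rfl⟩ := πS_surj a
  obtain ⟨b, rfl⟩ := πS_surj b
  obtain ⟨c, rfl⟩ := πS_surj c
  obtain ⟨u, hu⟩ := exists_conj_10 (mt πS_eq_one.2 ha)
  obtain ⟨v, hv⟩ := exists_conj_10 (mt πS_eq_one.2 hb)
  have k : ∀ t : F, IsConj (πS c) (πS (u * a * u⁻¹ * (triS 1 t * (v * b * v⁻¹) * (triS 1 t)⁻¹))) := fun t =>
    e.le ⟨πS u, πS (triS 1 t * v), by simp [mul_assoc]⟩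
  generalize u * a * u⁻¹ = x at hu k
  generalize v * b * v⁻¹ = y at hv k
  have tr : ∀ t : F, (x * (triS 1 t * y * (triS 1 t)⁻¹)).1.trace = -(x.1 1 0 * y.1 1 0) * t ^ 2 +
      (x.1 0 0 * y.1 1 0 - x.1 1 1 * y.1 1 0 + x.1 1 0 * y.1 1 1 - x.1 1 0 * y.1 0 0) * t + (x * y).1.trace := fun t => by
    simp only [Matrix.trace_fin_two, sl2_mul, sl2_inv]
    simp [triS_val]; ring
  have A := neg_ne_zero.2 (mul_ne_zero hu hv)
  generalize -(x.1 1 0 * y.1 1 0) = α at tr A
  generalize (x.1 0 0 * y.1 1 0 - x.1 1 1 * y.1 1 0 + x.1 1 0 * y.1 1 1 - x.1 1 0 * y.1 0 0) = β at tr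
  have h1 := two_roots A (B := β) (C := (x * y).1.trace - c.1.trace)
  have h2 := two_roots A (B := β) (C := (x * y).1.trace + c.1.trace)
  have s : Finset.univ ⊆ (Finset.univ.filter fun t => α * t ^ 2 + β * t + ((x * y).1.trace - c.1.trace) = 0) ∪
      Finset.univ.filter fun t => α * t ^ 2 + β * t + ((x * y).1.trace + c.1.trace) = 0 := fun t _ => by
    have := trace_of_isConj_πS (k t)
    rw [tr] at this
    simp only [Finset.mem_union, Finset.mem_filter, Finset.mem_univ, true_and]
    exact this.imp (fun e => by linear_combination e) fun e => by linear_combination e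
  have l := (Finset.card_le_card s).trans (Finset.card_union_le _ _)
  rw [Finset.card_univ] at l
  have : (2 : F) = 0 := by
    have := FiniteField.cast_card_eq_zero F
    rw [show Fintype.card F = 2 * 2 by omega, Nat.cast_mul, mul_self_eq_zero] at this
    exact_mod_cast this
  rw [show (x * y).1.trace - c.1.trace = (x * y).1.trace + c.1.trace by linear_combination -c.1.trace * this,
    Finset.union_self] at s
  have := Finset.card_le_card s
  rw [Finset.card_univ] at this
  omega

end Cfsg.Agent.S2450
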