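import Mathlib
import Cfsg.Statements.S2455
import Cfsg.Agent.H8.P2a

set_option autoImplicit false
open Cfsg

namespace Cfsg.Agent.S2455

open CfsgH8

/-- A strong covering result in the direction of Thompson's conjecture (non-identity elements) for PSL(2,q), q odd: let F be a finite field of odd characteristic p with at least 5 elements and let x ∈ PSL(2,F) have order greater than 2 and not divisible by p (so x is not unipotent). Then every non-identity element of PSL(2,F) is a product of two conjugates of x. -/
theorem result {F : Type*} [Field F] [Fintype F] (p : ℕ) [Fact p.Prime] [CharP F p] (hp : p ≠ 2) (h5 : 5 ≤ Fintype.card F)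
    (x : Matrix.ProjectiveSpecialLinearGroup (Fin 2) F) (hx2 : 2 < orderOf x) (hxp : ¬ p ∣ orderOf x) : ∀ g : Matrix.ProjectiveSpecialLinearGroup (Fin 2) F, g ≠ 1 → ∃ u v : Matrix.ProjectiveSpecialLinearGroup (Fin 2) F, g = (u * x * u⁻¹) * (v * x * v⁻¹) := by
  intro g g1
  obtain ⟨x, rfl⟩ := πS_surj x
  have : ¬ πS x ^ 2 = 1 := fun e => by
    have := Nat.le_of_dvd two_pos (orderOf_dvd_of_pow_eq_one e); omega
  rw [πS_sq_iff, not_or, πS_eq_one] at this
  have r := reg_of_not_dvd p this.1 hxp
  have h2 := two_ne_zero_of_odd (odd_of_char (F := F) p hp)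
  obtain ⟨z, rfl, s, t | t⟩ := exists_lift_trace g1
  · obtain ⟨a, h1, h2⟩ := trace_pair_reg t x.1.trace x.1.trace
    exact prod_conj r h1 (.inl h2)
  · obtain ⟨a, h1, h2⟩ := trace_pair s (s := x.1.trace) (t := -x.1.trace) (a := 1 / (2 * x.1.trace))
      (b := 1 / (2 * x.1.trace)) (by have := this.2; rw [t]; field_simp; ring)
    exact prod_conj r h1 (.inr h2)

end Cfsg.Agent.S2455
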