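import Mathlib
import Cfsg.Statements.S2456
import Cfsg.Agent.H8.P2a

set_option autoImplicit false
open Cfsg

namespace Cfsg.Agent.S2456

open CfsgH8

/-- A strong covering result in the direction of Thompson's conjecture (non-identity elements) for PSL(2,q), q even: let F be a finite field of characteristic 2 with q ≥ 4 elements and let x ∈ PSL(2,F) have order greater than 2 and not dividing q + 1. Then every non-identity element of PSL(2,F) is a product of two conjugates of x. -/
theorem result {F : Type*} [Field F] [Fintype F] [CharP F 2] (h4 : 4 ≤ Fintype.card F)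
    (x : Matrix.ProjectiveSpecialLinearGroup (Fin 2) F) (hx2 : 2 < orderOf x) (hxq : ¬ orderOf x ∣ Fintype.card F + 1) : ∀ g : Matrix.ProjectiveSpecialLinearGroup (Fin 2) F, g ≠ 1 → ∃ u v : Matrix.ProjectiveSpecialLinearGroup (Fin 2) F, g = (u * x * u⁻¹) * (v * x * v⁻¹) := by
  intro g g1
  obtain ⟨x, rfl⟩ := πS_surj x
  have : ¬ πS x ^ 2 = 1 := fun e => by
    have := Nat.le_of_dvd two_pos (orderOf_dvd_of_pow_eq_one e); omega
  rw [πS_sq_iff, not_or, πS_eq_one] at this
  have h2 : (2 : F) = 0 := CharP.cast_eq_zero F 2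
  have r : Reg x.1 := reg_SL2_iff.2 (by rw [h2, neg_zero]; exact ⟨this.2, this.2⟩)
  obtain ⟨z, rfl, s, t | t⟩ := exists_lift_trace g1
  · obtain ⟨a, h1, h2⟩ := trace_pair_reg t x.1.trace x.1.trace
    exact prod_conj r h1 (.inl h2)
  · have : ¬ Ell x.1 := fun e => hxq ((orderOf_πS_dvd x).trans (orderOf_dvd_of_pow_eq_one (pow_eq_one_of_ell e)))
    simp only [Ell, not_forall, not_not, x.2] at this
    obtain ⟨l, hl⟩ := this
    obtain ⟨a, h1, h2⟩ := trace_pair s (s := x.1.trace) (t := x.1.trace) (a := l) (b := 0) (by linear_combination hl)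
    exact prod_conj r h1 (.inl h2)

end Cfsg.Agent.S2456
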