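import Cfsg.Statements.S2466
import Cfsg.Agent.H1.Misc1
import Cfsg.Agent.H2.BG0

set_option autoImplicit false
open Cfsg

namespace Cfsg.Agent.S2466

/-- Adjacency of odd primes in the prime graph of the alternating groups: let r ≠ s be odd primes at most n. The alternating group of degree n has an element of order r·s if and only if r + s ≤ n. -/
theorem result (n r s : ℕ) (hr : r.Prime) (hs : s.Prime) (hr2 : r ≠ 2) (hs2 : s ≠ 2) (hrs : r ≠ s) (hrn : r ≤ n) (hsn : s ≤ n) :
    (r * s ∈ Set.range (orderOf : alternatingGroup (Fin n) → ℕ)) ↔ r + s ≤ n := by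
  open Subgroup CfsgH2 in
  open CfsgH1 hiding card_inf_mul_relIndex card_lt_of_lt card_lt_of_ne_top card_map_mul_card_inf_ker card_mul_relIndex card_subgroupOf card_sup_dvd card_sup_mul_card_inf coprime_le_sup_cent exists_card_prime_le isNilpotent_map isNilpotent_of_le isPGroup_pCore isSolvable_map isSolvable_of_le le_pCore le_pPrimeCore relIndex_map_dvd in
  open scoped CfsgH1 in
  open scoped commutatorElement in
  · have c : r.Coprime s := (Nat.coprime_primes hr hs).2 hrs
    constructor
    · rintro ⟨⟨σ, hσ⟩, e⟩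
      rw [orderOf_mk, ← Equiv.Perm.lcm_cycleType] at e
      have k : ∀ q : ℕ, q.Prime → q ∣ σ.cycleType.lcm → ∃ a ∈ σ.cycleType, q ∣ a := fun q hq h =>
        hq.prime.exists_mem_multiset_dvd (h.trans (Multiset.lcm_dvd.2 fun b hb => Multiset.dvd_prod hb))
      obtain ⟨a, ha, h1⟩ := k r hr (e ▸ Dvd.intro _ rfl)
      obtain ⟨b, hb, h2⟩ := k s hs (e ▸ Dvd.intro_left _ rfl)
      have le := σ.sum_cycleType_le
      rw [Fintype.card_fin] at le
      have pa := Equiv.Perm.two_le_of_mem_cycleType ha
      have pb := Equiv.Perm.two_le_of_mem_cycleType hb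
      by_cases d : a = b
      · subst d
        have := Nat.le_of_dvd (by omega) (c.mul_dvd_of_dvd_of_dvd h1 h2)
        have := Multiset.single_le_sum (fun _ _ => Nat.zero_le _) a ha
        nlinarith [hr.two_le, hs.two_le]
      · obtain ⟨m, hm⟩ := Multiset.exists_cons_of_mem ha
        obtain ⟨m', hm'⟩ := Multiset.exists_cons_of_mem ((Multiset.mem_cons.1 (hm ▸ hb)).resolve_left (Ne.symm d))
        rw [hm, hm', Multiset.sum_cons, Multiset.sum_cons] at le
        have := Nat.le_of_dvd (by omega) h1
        have := Nat.le_of_dvd (by omega) h2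
        omega
    · intro h
      obtain ⟨σ, e⟩ := (Equiv.Perm.exists_with_cycleType_iff (Fin n) (m := {r, s})).2 ⟨by simpa using h, by simp [hr.two_le, hs.two_le]⟩
      refine ⟨⟨σ, Equiv.Perm.mem_alternatingGroup.2 ?_⟩, ?_⟩
      · rw [Equiv.Perm.sign_of_cycleType, e]
        have := Nat.odd_iff.1 (hr.odd_of_ne_two hr2)
        have := Nat.odd_iff.1 (hs.odd_of_ne_two hs2)
        refine Even.neg_one_pow (Nat.even_iff.2 ?_)
        simp; omega
      · rw [orderOf_mk, ← Equiv.Perm.lcm_cycleType, e]
        simp [lcm_eq_nat_lcm, c.lcm_eq_mul]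

end Cfsg.Agent.S2466
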