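import Cfsg.Statements.S2467
import Cfsg.Agent.H1.Misc1
import Cfsg.Agent.H2.BG0

set_option autoImplicit false
open Cfsg

namespace Cfsg.Agent.S2467

section
open Subgroup CfsgH2
open CfsgH1 hiding card_inf_mul_relIndex card_lt_of_lt card_lt_of_ne_top card_map_mul_card_inf_ker card_mul_relIndex card_subgroupOf card_sup_dvd card_sup_mul_card_inf coprime_le_sup_cent exists_card_prime_le isNilpotent_map isNilpotent_of_le isPGroup_pCore isSolvable_map isSolvable_of_le le_pCore le_pPrimeCore relIndex_map_dvd
open scoped CfsgH1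
open scoped commutatorElement

theorem par (m : Multiset ℕ) : (m.sum + m.card) % 2 = (m.filter (Dvd.dvd 2)).card % 2 ∧ ((∀ a ∈ m, 2 ≤ a) → 2 * (m.filter (Dvd.dvd 2)).card ≤ m.sum) := by
  induction m using Multiset.induction_on with
  | empty => simp
  | cons a m ih =>
    simp only [Multiset.mem_cons, forall_eq_or_imp]
    by_cases h : 2 ∣ a
    · simp only [Multiset.filter_cons_of_pos _ h, Multiset.sum_cons, Multiset.card_cons]
      exact ⟨by omega, fun k => by have := ih.2 k.2; omega⟩
    · simp only [Multiset.filter_cons_of_neg _ h, Multiset.sum_cons, Multiset.card_cons]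
      exact ⟨by omega, fun k => by have := ih.2 k.2; omega⟩

end

/-- Adjacency of 2 and an odd prime in the prime graph of the alternating groups: let r be an odd prime at most n, with n ≥ 4. The alternating group of degree n has an element of order 2r if and only if r + 4 ≤ n. -/
theorem result (n r : ℕ) (hn : 4 ≤ n) (hr : r.Prime) (hr2 : r ≠ 2) (hrn : r ≤ n) :
    (2 * r ∈ Set.range (orderOf : alternatingGroup (Fin n) → ℕ)) ↔ r + 4 ≤ n := by
  open Subgroup CfsgH2 in
  open CfsgH1 hiding card_inf_mul_relIndex card_lt_of_lt card_lt_of_ne_top card_map_mul_card_inf_ker card_mul_relIndex card_subgroupOf card_sup_dvd card_sup_mul_card_inf coprime_le_sup_cent exists_card_prime_le isNilpotent_map isNilpotent_of_le isPGroup_pCore isSolvable_map isSolvable_of_le le_pCore le_pPrimeCore relIndex_map_dvd in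
  open scoped CfsgH1 in
  open scoped commutatorElement in
  · have c : Nat.Coprime 2 r := (Nat.coprime_primes Nat.prime_two hr).2 (Ne.symm hr2)
    have o := Nat.odd_iff.1 (hr.odd_of_ne_two hr2)
    have r2 := hr.two_le
    constructor
    · rintro ⟨⟨σ, hσ⟩, e⟩
      rw [orderOf_mk, ← Equiv.Perm.lcm_cycleType] at e
      have k : ∀ q : ℕ, q.Prime → q ∣ σ.cycleType.lcm → ∃ a ∈ σ.cycleType, q ∣ a := fun q hq h =>
        hq.prime.exists_mem_multiset_dvd (h.trans (Multiset.lcm_dvd.2 fun b hb => Multiset.dvd_prod hb))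
      obtain ⟨a, ha, h1⟩ := k r hr (e ▸ Dvd.intro_left _ rfl)
      obtain ⟨b, hb, h2⟩ := k 2 Nat.prime_two (e ▸ Dvd.intro _ rfl)
      have le := σ.sum_cycleType_le
      rw [Fintype.card_fin] at le
      have pa := Equiv.Perm.two_le_of_mem_cycleType ha
      rw [Equiv.Perm.mem_alternatingGroup, Equiv.Perm.sign_of_cycleType, neg_one_pow_eq_one_iff_even (by decide), Nat.even_iff, (par _).1] at hσ
      have p := Multiset.card_pos_iff_exists_mem.2 ⟨b, Multiset.mem_filter.2 ⟨hb, h2⟩⟩
      obtain ⟨m, hm⟩ := Multiset.exists_cons_of_mem ha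
      have q := (par m).2 fun x hx => Equiv.Perm.two_le_of_mem_cycleType (hm ▸ Multiset.mem_cons_of_mem hx)
      rw [hm] at le hσ p
      rw [Multiset.sum_cons] at le
      by_cases h : 2 ∣ a
      · have := Nat.le_of_dvd (by omega) (c.mul_dvd_of_dvd_of_dvd h h1)
        rw [Multiset.filter_cons_of_pos _ h, Multiset.card_cons] at hσ
        omega
      · have := Nat.le_of_dvd (by omega) h1
        rw [Multiset.filter_cons_of_neg _ h] at hσ p
        omega
    · intro h
      obtain ⟨σ, e⟩ := (Equiv.Perm.exists_with_cycleType_iff (Fin n) (m := {r, 2, 2})).2 ⟨by simpa using h, by simp [hr.two_le]⟩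
      refine ⟨⟨σ, Equiv.Perm.mem_alternatingGroup.2 ?_⟩, ?_⟩
      · rw [Equiv.Perm.sign_of_cycleType, e]
        refine Even.neg_one_pow (Nat.even_iff.2 ?_)
        simp; omega
      · rw [orderOf_mk, ← Equiv.Perm.lcm_cycleType, e]
        simp [lcm_eq_nat_lcm, c.symm.lcm_eq_mul, mul_comm]

end Cfsg.Agent.S2467
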