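import Cfsg.Statements.S2474
import Cfsg.Agent.H6.Sx10

set_option autoImplicit false
open Cfsg

namespace Cfsg.Agent.S2474

/-- For q odd and n ≥ 3 the simple groups PΩ(2n+1,q) and PSp(2n,q) (which have the same order but different sets of element orders) have the same prime graph: for all distinct primes r, s, one of them has an element of order r·s if and only if the other does. -/
theorem result {F : Type*} [Field F] [Fintype F] (hodd : Odd (Fintype.card F)) (n : ℕ) (hn : 3 ≤ n) (r s : ℕ) (hr : r.Prime) (hs : s.Prime) (hrs : r ≠ s) :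
    (r * s ∈ Set.range (orderOf : Cfsg.POmega F (Cfsg.quadFormOdd n F) → ℕ)) ↔ (r * s ∈ Set.range (orderOf : Cfsg.PSp n F → ℕ)) := by
  open CfsgH6.Sx in
  have h2 : (2 : F) ≠ 0 := fun h => by
    have := FiniteField.even_card_of_char_two (F := F) (by
      have := ringChar.of_eq (R := F) rfl
      exact (Nat.prime_dvd_prime_iff_eq (CharP.char_is_prime F _) Nat.prime_two).1
        ((ringChar.spec F 2).1 h))
    have := Nat.odd_iff.1 hodd
    omega
  obtain ⟨p, hc⟩ := CharP.exists F
  have hp := Fact.mk (CharP.char_is_prime F p)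
  have k2 : ∀ r : ℕ, r.Prime → r ≠ 2 →
      (2 * r ∈ Set.range (orderOf : Cfsg.POmega F (Cfsg.quadFormOdd n F) → ℕ) ↔
        2 * r ∈ Set.range (orderOf : Cfsg.PSp n F → ℕ)) := fun r hr r2 => by
    by_cases rp : r = p
    · subst rp
      exact iff_of_true (o_2p r h2 (by omega)) (sp_2p r h2 (by omega))
    · rw [o_2r p h2 (by omega) hr r2 rp, sp_2r p h2 (by omega) hr r2 rp]
  by_cases r2 : r = 2
  · subst r2
    exact k2 s hs hrs.symm
  by_cases s2 : s = 2
  · subst s2
    rw [mul_comm]
    exact k2 r hr r2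
  by_cases rp : r = p
  · subst rp
    rw [mul_comm, o_rp r h2 (by omega) hs s2 hrs.symm, sp_rp r (by omega) hs s2 hrs.symm]
  by_cases sp : s = p
  · subst sp
    rw [o_rp s h2 (by omega) hr r2 rp, sp_rp s (by omega) hr r2 rp]
  rw [o_rs p h2 (by omega) hr hs hrs r2 s2 rp sp, sp_rs p (by omega) hr hs hrs r2 s2 rp sp]

end Cfsg.Agent.S2474
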