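import Mathlib
import Cfsg.Statements.S2475
import Cfsg.Agent.H8.SL2n

set_option autoImplicit false
open Cfsg

namespace Cfsg.Agent.S2475

open CfsgH8

/-- The set of element orders of PSL(2,q): let F be a finite field of characteristic p with q ≥ 4 elements and d = gcd(2, q − 1). The orders of elements of PSL(2,F) are exactly the divisors of p, of (q − 1)/d and of (q + 1)/d. -/
theorem result {F : Type*} [Field F] [Fintype F] (p : ℕ) [Fact p.Prime] [CharP F p] (h4 : 4 ≤ Fintype.card F) :
    Set.range (orderOf : Matrix.ProjectiveSpecialLinearGroup (Fin 2) F → ℕ) =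
      {m : ℕ | m ∣ p ∨ m ∣ (Fintype.card F - 1) / Nat.gcd 2 (Fintype.card F - 1) ∨ m ∣ (Fintype.card F + 1) / Nat.gcd 2 (Fintype.card F - 1)} := by
  classical
  ext m
  constructor
  · rintro ⟨x, rfl⟩; exact orderOf_πS_cases p x
  · have key : ∀ C : Subgroup (Matrix.SpecialLinearGroup (Fin 2) F), IsTor C →
        m ∣ Nat.card C / Nat.gcd 2 (Fintype.card F - 1) →
        m ∈ Set.range (orderOf : Matrix.ProjectiveSpecialLinearGroup (Fin 2) F → ℕ) := by
      intro C hC h
      rw [← card_map_πS' hC.neg_one_mem] at h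
      have := hC.isCyclic
      have : IsCyclic (C.map πS) := isCyclic_of_surjective _ (πS.subgroupMap_surjective C)
      obtain ⟨g, -, hg⟩ := exists_orderOf_eq_of_dvd _ h
      exact ⟨g, hg⟩
    rintro (h | h | h)
    · rcases (Nat.dvd_prime Fact.out).1 h with rfl | rfl
      · exact ⟨1, orderOf_one⟩
      · exact ⟨πS (triS 1 1), orderOf_eq_prime (by rw [← map_pow, triS_one_pow]; simp [triS_one])
          (πS_eq_one.not.2 (by simp [IsSc]))⟩
    · obtain ⟨C, hC, e⟩ := exists_tor_sub (F := F) (by omega)
      exact key C hC (e ▸ h)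
    · obtain ⟨C, hC, e⟩ := exists_tor_add (F := F)
      exact key C hC (e ▸ h)

end Cfsg.Agent.S2475
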