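import Cfsg.Statements.S2476
import Mathlib
import Cfsg.Agent.L0.GLn4

set_option autoImplicit false
open Cfsg

namespace Cfsg.Agent.S2476

open CfsgL0.GLn Module Polynomial

/-- The set of element orders of PSL(3,q): let F be a finite field of characteristic p with q elements and d = gcd(3, q − 1). The orders of elements of PSL(3,F) are exactly the divisors of (q² + q + 1)/d, of (q² − 1)/d, of q − 1, of p(q − 1)/d, and, when p = 2, of 4. -/
theorem result {F : Type*} [Field F] [Fintype F] (p : ℕ) [Fact p.Prime] [CharP F p] :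
    Set.range (orderOf : Matrix.ProjectiveSpecialLinearGroup (Fin 3) F → ℕ) =
      {m : ℕ | m ∣ (Fintype.card F ^ 2 + Fintype.card F + 1) / Nat.gcd 3 (Fintype.card F - 1) ∨
        m ∣ (Fintype.card F ^ 2 - 1) / Nat.gcd 3 (Fintype.card F - 1) ∨ m ∣ Fintype.card F - 1 ∨
        m ∣ p * (Fintype.card F - 1) / Nat.gcd 3 (Fintype.card F - 1) ∨ (p = 2 ∧ m ∣ 4)} := by
  rw [← Nat.card_eq_fintype_card]
  have hp : p.Prime := Fact.out
  obtain ⟨q, hq⟩ : ∃ q, Nat.card F = q + 1 := ⟨_, (Nat.sub_add_cancel Nat.card_pos).symm⟩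
  have hq1 : 1 ≤ q := by have := Finite.one_lt_card (α := F); omega
  have hpow : ∀ c : F, c ≠ 0 → c ^ q = 1 := fun c hc => by
    have := pow_card_sub_one hc
    rwa [hq, Nat.add_sub_cancel] at this
  rw [hq, Nat.add_sub_cancel]
  obtain ⟨d, hd⟩ : ∃ d, d = Nat.gcd 3 q := ⟨_, rfl⟩
  rw [← hd]
  have hd3 : d ∣ 3 := hd ▸ Nat.gcd_dvd_left _ _
  obtain ⟨t, ht⟩ : d ∣ q := hd ▸ Nat.gcd_dvd_right _ _
  obtain ⟨u, hu⟩ := hd3
  have hd0 : 0 < d := Nat.pos_of_ne_zero (by rintro rfl; omega)
  have n1 : (q + 1) ^ 2 + (q + 1) + 1 = d * (t * q + q * u + u) := by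
    have : (q + 1) ^ 2 + (q + 1) + 1 = q * q + q * 3 + 3 := by ring
    rw [this, hu]; nth_rewrite 1 [ht]; ring
  have n2 : (q + 1) ^ 2 - 1 = d * (t * (q + 2)) := by
    have : (q + 1) ^ 2 = q * (q + 2) + 1 := by ring
    rw [this, Nat.add_sub_cancel]; nth_rewrite 1 [ht]; ring
  have n4 : p * q = d * (p * t) := by nth_rewrite 1 [ht]; ring
  rw [n1, n2, n4, Nat.mul_div_cancel_left _ hd0, Nat.mul_div_cancel_left _ hd0, Nat.mul_div_cancel_left _ hd0]
  have scal : ∀ {K : Type _} [Field K] [Algebra F K] [Finite K] (b : K), b ^ d = 1 → ∃ c : F, b = algebraMap F K c :=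
    fun b hb => mem_range_of_pow (by rw [hq, pow_succ, ht, pow_mul, hb, one_pow, one_mul])
  ext m
  constructor
  · rintro ⟨x, rfl⟩
    obtain ⟨g, rfl⟩ := QuotientGroup.mk_surjective x
    have key : ∀ (N : ℕ) (c : F), (g : Matrix (Fin 3) (Fin 3) F).charpoly ∣ X ^ N - C c →
        orderOf (QuotientGroup.mk g : Matrix.ProjectiveSpecialLinearGroup (Fin 3) F) ∣ N := fun N c h =>
      orderOf_dvd_of_pow_eq_one ((psl_pow_eq_one g _).2 ⟨c, pow_scalar_of_dvd h⟩)
    have hdet := det_of_charpoly (g : Matrix (Fin 3) (Fin 3) F)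
    rw [g.det_coe] at hdet
    have hm := (g : Matrix (Fin 3) (Fin 3) F).charpoly_monic
    have hdeg : (g : Matrix (Fin 3) (Fin 3) F).charpoly.natDegree = 3 := by simp
    rcases cubic_cases hm hdeg with h | ⟨e, k, k1, k2, k3, h⟩ | ⟨a, b, c, h1, h2, h3, h⟩ | ⟨c, e, h1, h⟩ | ⟨c, h⟩
    · haveI := Fact.mk h
      haveI := finite_adj hm
      have := norm_pow_eq (F := F) (AdjoinRoot.root (g : Matrix (Fin 3) (Fin 3) F).charpoly)
      rw [norm_root hm, hdeg, ← hdet, finrank_adj hm, hdeg, map_one, hq] at this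
      simp only [Finset.sum_range_succ, Finset.sum_range_zero] at this
      obtain ⟨c, hc⟩ := scal (AdjoinRoot.root (g : Matrix (Fin 3) (Fin 3) F).charpoly ^ (t * q + q * u + u)) (by
        rw [← pow_mul, mul_comm, ← n1, this]; congr 1; ring)
      exact Or.inl (key _ c (dvd_X_pow_sub_C.2 hc))
    · haveI := Fact.mk k3
      haveI := finite_adj k1
      have h1 := norm_pow_eq (F := F) (AdjoinRoot.root k)
      rw [norm_root k1, k2, finrank_adj k1, k2, hq] at h1
      simp only [Finset.sum_range_succ, Finset.sum_range_zero] at h1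
      rw [h] at hdet
      have h2 : e * k.eval 0 = 1 := by simp at hdet; linear_combination -hdet
      have h3 : algebraMap F (AdjoinRoot k) e * AdjoinRoot.root k ^ (q + 2) = 1 := by
        rw [show q + 2 = 0 + (q + 1) ^ 0 + (q + 1) ^ 1 by ring, ← h1, ← map_mul]
        simp [h2]
      have h0 : AdjoinRoot.root k ≠ 0 := by
        intro h0; rw [h0] at h3; simp at h3
      have h4 : (AdjoinRoot.root k ^ (t * (q + 2))) ^ d = 1 := by
        rw [← pow_mul, mul_comm, ← n2, ← hq, ← k2, ← card_adjoinRoot k1.ne_zero]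
        exact pow_card_sub_one h0
      obtain ⟨c, hc⟩ := scal _ h4
      refine Or.inr (Or.inl (key _ c (h ▸ IsCoprime.mul_dvd ?_ (lin_dvd ?_) (dvd_X_pow_sub_C.2 hc))))
      · refine (irreducible_X_sub_C e).coprime_iff_not_dvd.2 fun h => ?_
        have := natDegree_le_of_dvd ((irreducible_X_sub_C e).associated_of_dvd k3 h).symm.dvd (X_sub_C_ne_zero e)
        rw [natDegree_X_sub_C] at this; omega
      · apply (algebraMap F (AdjoinRoot k)).injective
        rw [← hc, map_pow]
        have h5 : (algebraMap F (AdjoinRoot k) e * AdjoinRoot.root k ^ (q + 2)) ^ (t * (q + 2)) = 1 := by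
          rw [h3, one_pow]
        have h6 : (AdjoinRoot.root k ^ (t * (q + 2))) ^ (q + 3) = 1 := by
          rw [hu]; nth_rewrite 2 [ht]; rw [← mul_add, pow_mul, h4, one_pow]
        generalize AdjoinRoot.root k = α at h5 h6 ⊢
        rw [mul_pow, pow_right_comm] at h5
        generalize α ^ (t * (q + 2)) = β at h5 h6 ⊢
        generalize algebraMap F (AdjoinRoot k) e ^ (t * (q + 2)) = γ at h5 ⊢
        linear_combination β * h5 - γ * h6
    · rw [h] at hdet
      have h4 : a * b * c = 1 := by simp at hdet; linear_combination -hdet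
      have ha : a ≠ 0 := by rintro rfl; simp at h4
      have hb : b ≠ 0 := by rintro rfl; simp at h4
      have hc : c ≠ 0 := by rintro rfl; simp at h4
      exact Or.inr (Or.inr (Or.inl (key _ 1 (h ▸ ((lin_coprime h2).mul_left (lin_coprime h3)).mul_dvd
        ((lin_coprime h1).mul_dvd (lin_dvd (hpow a ha)) (lin_dvd (hpow b hb))) (lin_dvd (hpow c hc))))))
    · rw [h] at hdet
      have h4 : c ^ 2 * e = 1 := by simp at hdet; linear_combination -hdet
      have hc : c ≠ 0 := by rintro rfl; simp at h4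
      have h5 : e ^ t = c ^ t := by
        have h6 : (c ^ 2 * e) ^ t = 1 := by rw [h4, one_pow]
        have h7 : (c ^ t) ^ 3 = 1 := by
          rw [hu, ← pow_mul, ← mul_assoc, mul_comm t, ← ht, pow_mul, hpow c hc, one_pow]
        rw [mul_pow, pow_right_comm] at h6
        linear_combination c ^ t * h6 - e ^ t * h7
      refine Or.inr (Or.inr (Or.inr (Or.inl (key _ ((c ^ t) ^ p) ?_))))
      have : (X : F[X]) ^ (p * t) - C ((c ^ t) ^ p) = (X ^ t - C (c ^ t)) ^ p := by
        rw [sub_pow_char, mul_comm, pow_mul, map_pow]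
      rw [this, h]
      exact (lin_coprime h1).pow_left.mul_dvd ((pow_dvd_pow_of_dvd (lin_dvd rfl) 2).trans (pow_dvd_pow _ hp.two_le))
        ((lin_dvd h5).trans (dvd_pow_self _ hp.ne_zero))
    · by_cases h2 : p = 2
      · exact Or.inr (Or.inr (Or.inr (Or.inr ⟨h2, orderOf_dvd_of_pow_eq_one ((psl_pow_eq_one g _).2
          ⟨c ^ 4, by simpa [h2] using pow_scalar_of_charpoly p h (e := 2) (by rw [h2]; norm_num)⟩)⟩)))
      · refine Or.inr (Or.inr (Or.inr (Or.inl (Dvd.dvd.mul_right (orderOf_dvd_of_pow_eq_one ((psl_pow_eq_one g _).2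
          ⟨c ^ p, by simpa using pow_scalar_of_charpoly p h (e := 1) (by have := hp.two_le; simp; omega)⟩)) _))))
  · have fin : ∀ (x : Matrix.ProjectiveSpecialLinearGroup (Fin 3) F) (N : ℕ), m ∣ N → N ∣ orderOf x →
        m ∈ Set.range (orderOf : Matrix.ProjectiveSpecialLinearGroup (Fin 3) F → ℕ) := fun x N h1 h2 =>
      ⟨x ^ (orderOf x / m), orderOf_pow_orderOf_div (orderOf_pos x).ne' (h1.trans h2)⟩
    have gc : ∀ {N k a b : ℕ}, d * N ∣ k * q → d * N ∣ k * (a * q + 3) → N ∣ k := fun {N k a b} h1 h2 => by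
      have h3 : d * N ∣ k * 3 := by
        rw [mul_add] at h2
        exact (Nat.dvd_add_right (by rw [mul_left_comm]; exact h1.mul_left _)).1 h2
      have := Nat.dvd_gcd h3 h1
      rw [Nat.gcd_mul_left, ← hd, mul_comm k] at this
      exact Nat.dvd_of_mul_dvd_mul_left hd0 this
    rintro (h | h | h | h | ⟨h2, h⟩)
    · obtain ⟨K, _, _, _, a, k1, k2, k3⟩ := exists_elt (F := F) (d := 3) (m := d * (t * q + q * u + u)) (by omega) (by
        rw [← n1, hq]
        exact ⟨q, by rw [Nat.sub_eq_iff_eq_add (Nat.one_le_pow _ _ (by omega))]; ring⟩)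
      haveI : Finite K := Module.finite_of_finite F
      obtain ⟨g, -, hg⟩ := exists_SL (F := F) K k1 a ((algebraMap F K).injective (by
        rw [norm_pow_eq, k1, map_one, ← orderOf_dvd_iff_pow_eq_one, k2, ← n1, hq]
        simp only [Finset.sum_range_succ, Finset.sum_range_zero]
        exact dvd_of_eq (by ring)))
      refine fin (QuotientGroup.mk g) _ h ?_
      obtain ⟨c, hc⟩ := (hg _).1 (pow_orderOf_eq_one _)
      refine gc (a := q + 3) (b := 0) ?_ ?_
      · rw [← k2, orderOf_dvd_iff_pow_eq_one, pow_mul, hc, ← map_pow, hpow c, map_one]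
        rintro rfl
        exact pow_ne_zero _ k3 (hc.trans (map_zero _))
      · rw [← n1, show (q + 1) ^ 2 + (q + 1) + 1 = (q + 3) * q + 3 by ring]; exact dvd_mul_left _ _
    · obtain ⟨K, _, _, _, a, k1, k2, k3⟩ := exists_elt (F := F) (d := 2) (m := d * (t * (q + 2))) (by omega) (by
        rw [← n2, hq])
      haveI : Finite K := Module.finite_of_finite F
      have hn : Algebra.norm F a ≠ 0 := Algebra.norm_ne_zero_iff.2 k3
      obtain ⟨g, -, hg⟩ := exists_SL (F := F) (K × F) (n := 3) (by simp [k1]) (a, (Algebra.norm F a)⁻¹) (by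
        rw [norm_pair]; simp [hn])
      refine fin (QuotientGroup.mk g) _ h ?_
      obtain ⟨c, hc⟩ := (hg _).1 (pow_orderOf_eq_one _)
      generalize orderOf (QuotientGroup.mk g : Matrix.ProjectiveSpecialLinearGroup (Fin 3) F) = k at hc ⊢
      have c1 : a ^ k = algebraMap F K c := congrArg Prod.fst hc
      have c2 : (Algebra.norm F a)⁻¹ ^ k = c := congrArg Prod.snd hc
      refine gc (a := 1) (b := 0) ?_ ?_
      · rw [← k2, orderOf_dvd_iff_pow_eq_one, pow_mul, c1, ← map_pow, hpow c, map_one]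
        exact c2 ▸ pow_ne_zero _ (inv_ne_zero hn)
      · rw [← k2, orderOf_dvd_iff_pow_eq_one]
        rw [← c2, map_pow, map_inv₀, norm_pow_eq, k1, hq] at c1
        simp only [Finset.sum_range_succ, Finset.sum_range_zero] at c1
        have : a ^ (k * (1 * q + 3)) = a ^ k * (a ^ (0 + (q + 1) ^ 0 + (q + 1) ^ 1)) ^ k := by ring
        rw [this, c1, ← mul_pow, inv_mul_cancel₀ (pow_ne_zero _ k3), one_pow]
    · obtain ⟨a, ha0, ha⟩ := exists_orderOf_of_dvd F (m := q) (by rw [hq]; simp)
      obtain ⟨x, hx⟩ := exists_PSL_one (F := F) (F × F) F (n := 3) (by simp) (a, a⁻¹) 1 (by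
        rw [norm_pair]; simp [ha0]) (fun m c h => by simpa using h.symm)
      refine fin x _ h ?_
      rw [hx, Prod.orderOf_mk, ha]
      exact (Nat.dvd_lcm_left _ _).trans (Nat.dvd_lcm_left _ _)
    · obtain ⟨a, ha0, ha⟩ := exists_orderOf_of_dvd F (m := q) (by rw [hq]; simp)
      obtain ⟨x, hx⟩ := exists_psl3 p ha0
      refine fin x _ h ?_
      have : orderOf (a ^ 3) = t := by
        rw [orderOf_pow' _ (by norm_num), ha, Nat.gcd_comm, ← hd]
        nth_rewrite 1 [ht]; exact Nat.mul_div_cancel_left _ hd0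
      rw [hx, this, Nat.lcm_comm, Nat.Coprime.lcm_eq_mul]
      refine hp.coprime_iff_not_dvd.2 fun h => not_dvd_card_pow (F := F) p one_pos ?_
      rw [hq, pow_one, Nat.add_sub_cancel, ht]; exact h.mul_left _
    · obtain ⟨g, -, hg⟩ := exists_unip (F := F) p (n := 3) (by omega)
      refine fin (QuotientGroup.mk g) _ h ?_
      subst h2
      obtain ⟨k, hk2, hk⟩ := (Nat.dvd_prime_pow hp).1 ((dvd_pow_iff_unip (F := F) 2 3 2).2 (by norm_num))
      have h2 := (dvd_pow_iff_unip (F := F) 2 3 k).1 (hk ▸ dvd_rfl)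
      rw [hg, hk]
      interval_cases k
      · omega
      · omega
      · rfl

end Cfsg.Agent.S2476
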