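import Mathlib
import Cfsg.Statements.S2485
import Cfsg.Agent.H8.P2a
import Cfsg.Agent.H2.Base

set_option autoImplicit false
open scoped Pointwise
open Cfsg

namespace Cfsg.Agent.S2485

open CfsgH8 Matrix

variable {F : Type*} [Field F]

/-- The elements commuting or anticommuting with a matrix. -/
def K (θ : GL (Fin 2) F) : Subgroup (GL (Fin 2) F) where
  carrier := {x | x * θ = θ * x ∨ x * θ = -(θ * x)}
  one_mem' := .inl (by simp)
  mul_mem' := by
    rintro x y (h | h) (k | k) <;> simp [mul_assoc, k] <;> simp [← mul_assoc, h]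
  inv_mem' := by
    rintro x (h | h)
    · exact .inl (Commute.inv_left h)
    · right
      rw [inv_mul_eq_iff_eq_mul, mul_neg, ← mul_assoc, h]; simp

theorem inter {θ η : GL (Fin 2) F} (h : Ell θ.1) (t : θ.1.trace = 0) (u : η.1.trace = 0) (h2 : (2 : F) ≠ 0) :
    ∃ w ∈ K θ, w ∈ K η ∧ ¬ IsSc w.1 := by
  by_cases c : θ * η = η * θ
  · exact ⟨θ, .inl rfl, .inl c, h.not_isSc⟩
  rw [trace_fin_two, add_eq_zero_iff_eq_neg'] at t u
  have a : (θ.1 * η.1 - η.1 * θ.1) * θ.1 = -(θ.1 * (θ.1 * η.1 - η.1 * θ.1)) := by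
    ext i j; fin_cases i <;> fin_cases j <;> simp [mul_apply, Fin.sum_univ_two, t, u] <;> ring
  have b : (θ.1 * η.1 - η.1 * θ.1) * η.1 = -(η.1 * (θ.1 * η.1 - η.1 * θ.1)) := by
    ext i j; fin_cases i <;> fin_cases j <;> simp [mul_apply, Fin.sum_univ_two, t, u] <;> ring
  have n : θ.1 * η.1 - η.1 * θ.1 ≠ 0 := fun e => c (Units.ext (sub_eq_zero.1 e))
  generalize θ.1 * η.1 - η.1 * θ.1 = w at a b n
  have d : w.det ≠ 0 := fun d => by
    obtain ⟨v, v0, hv⟩ := exists_mulVec_eq_zero_iff.2 d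
    have k : w *ᵥ (θ.1 *ᵥ v) = 0 := by rw [mulVec_mulVec, a, neg_mulVec, ← mulVec_mulVec, hv, mulVec_zero, neg_zero]
    have : v 0 * (θ.1 *ᵥ v) 1 - v 1 * (θ.1 *ᵥ v) 0 ≠ 0 := fun e => by
      simp only [mulVec, dotProduct, Fin.sum_univ_two] at e
      by_cases z : v 1 = 0
      · have : v 0 ≠ 0 := fun y => v0 (funext fun i => by fin_cases i <;> assumption)
        refine h (θ.1 0 0) ?_
        have : θ.1 1 0 = 0 := by simpa [z, this] using e
        rw [trace_fin_two, det_fin_two, this]; ring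
      · refine h (θ.1 1 1 + θ.1 1 0 * v 0 / v 1) ?_
        rw [trace_fin_two, det_fin_two]
        field_simp
        linear_combination θ.1 1 0 * e
    refine n (ext fun i j => ?_)
    have h1 := congrFun hv i
    have h2 := congrFun k i
    generalize θ.1 *ᵥ v = y at this h2
    simp only [mulVec, dotProduct, Fin.sum_univ_two, Pi.zero_apply] at h1 h2
    refine mul_left_cancel₀ this ?_
    fin_cases j
    · change _ * w i 0 = _ * 0; linear_combination y 1 * h1 - v 1 * h2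
    · change _ * w i 1 = _ * 0; linear_combination -y 0 * h1 + v 0 * h2
  refine ⟨GeneralLinearGroup.mkOfDetNeZero w d, .inr (Units.ext a), .inr (Units.ext b), fun s => ?_⟩
  obtain ⟨c, hc⟩ := isSc_iff.1 s
  change w = _ at hc
  rw [hc, smul_mul_assoc, mul_smul_comm, one_mul, mul_one, eq_neg_iff_add_eq_zero, ← two_smul F, smul_smul,
    smul_eq_zero] at a
  rcases a with a | a
  · exact n (by rw [hc, (mul_eq_zero.1 a).resolve_left h2, zero_smul])
  · exact θ.ne_zero a

/-- Let q = 2^k − 1 ≥ 7 be a prime and let G = PGL(2,q), the general linear group of degree 2 over the field with q elements modulo its centre. Then any two Sylow 2-subgroups of G have a non-trivial intersection: for a Sylow 2-subgroup H and every x ∈ G, H ∩ H^x ≠ 1. -/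
theorem result {q k : ℕ} [Fact q.Prime] (hk : q + 1 = 2 ^ k) (hq : 7 ≤ q)
    (H : Sylow 2 (GL (Fin 2) (ZMod q) ⧸ Subgroup.center (GL (Fin 2) (ZMod q))))
    (x : GL (Fin 2) (ZMod q) ⧸ Subgroup.center (GL (Fin 2) (ZMod q))) :
    (H : Subgroup (GL (Fin 2) (ZMod q) ⧸ Subgroup.center (GL (Fin 2) (ZMod q)))) ⊓ MulAut.conj x • (H : Subgroup _) ≠ ⊥ := by
  have cq : Fintype.card (ZMod q) = q := ZMod.card q
  have k4 : 4 ∣ q + 1 := by
    rw [hk]
    exact pow_dvd_pow 2 (show 2 ≤ k by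
      by_contra t
      have : k < 2 := by omega
      interval_cases k <;> omega)
  have h2 : (2 : ZMod q) ≠ 0 := two_ne_zero_of_odd (by omega)
  let θ : GL (Fin 2) (ZMod q) := Matrix.SpecialLinearGroup.toGL (cS 0)
  have t : θ.1.trace = 0 := trace_cS 0
  have e : Ell θ.1 := ell_of_orderOf (g := cS 0) (by rwa [orderOf_of_trace_zero (by omega) t, cq])
    (by rw [orderOf_of_trace_zero (by omega) t]; norm_num)
  have ce : ∀ g : GL (Fin 2) (ZMod q), g ∈ Subgroup.center _ ↔ IsSc g.1 := fun g =>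
    ⟨fun h => isSc_iff.2 (by
      obtain ⟨r, hr⟩ := Matrix.GeneralLinearGroup.mem_center_iff_val_mem_range_scalar.1 h
      exact ⟨r, by rw [← hr]; simp [Matrix.smul_one_eq_diagonal]⟩), fun h => by
      obtain ⟨a, rfl⟩ := h.exists_sc
      exact Subgroup.mem_center_iff.2 fun x => (sc_comm a x).symm⟩
  have zc : Nat.card (Subgroup.center (GL (Fin 2) (ZMod q))) = q - 1 := by
    rw [show Subgroup.center _ = (sc : (ZMod q)ˣ →* _).range from Subgroup.ext fun g => (ce g).trans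
      ⟨fun h => h.exists_sc.imp fun _ => Eq.symm, by rintro ⟨a, rfl⟩; exact isSc_sc a⟩,
      ← Nat.card_congr (MonoidHom.ofInjective sc_injective).toEquiv, natCard_units_eq, cq]
  have pg : IsPGroup 2 ((K θ).map (QuotientGroup.mk' (Subgroup.center _))) := by
    rintro ⟨_, x, hx, rfl⟩
    refine ⟨k + 1, Subtype.ext ?_⟩
    have m : x ^ 2 ∈ Subgroup.centralizer {θ} := Subgroup.mem_centralizer_singleton_iff.2 (by
      rcases hx with h | h <;> simp [sq, mul_assoc, h] <;> simp [← mul_assoc, h])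
    have l := Subgroup.center_le_centralizer {θ}
    have i := CfsgH2.card_mul_relIndex l
    rw [zc, card_centralizer_ell e, cq, sq_sub_one', mul_comm (q + 1), Nat.mul_right_inj (by omega), hk] at i
    have := CfsgH2.pow_relIndex_mem' (H := Subgroup.center _) Subgroup.le_normalizer_of_normal m
    rw [i, ← pow_mul, ← pow_succ'] at this
    exact (map_pow _ _ _).symm.trans ((QuotientGroup.eq_one_iff _).2 this)
  obtain ⟨P, hP⟩ := pg.exists_le_sylow
  obtain ⟨g, rfl⟩ := MulAction.exists_smul_eq (GL (Fin 2) (ZMod q) ⧸ Subgroup.center (GL (Fin 2) (ZMod q))) P H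
  obtain ⟨g, rfl⟩ := QuotientGroup.mk'_surjective _ g
  obtain ⟨x, rfl⟩ := QuotientGroup.mk'_surjective _ x
  obtain ⟨w, a, b, s⟩ := inter (η := g⁻¹ * x * g * θ * (g⁻¹ * x * g)⁻¹) e t
    (by rw [← trace_eq_of_isConj (isConj_iff.2 ⟨_, rfl⟩), t]) h2
  refine Subgroup.ne_bot_iff_exists_ne_one.2 ⟨⟨QuotientGroup.mk' _ (g * w * g⁻¹), ?_, ?_⟩, fun o => s ?_⟩
  · exact ⟨_, hP ⟨w, a, rfl⟩, by simp⟩
  · refine ⟨_, ⟨_, hP ⟨(g⁻¹ * x * g)⁻¹ * w * (g⁻¹ * x * g), ?_, rfl⟩, rfl⟩, by simp [mul_assoc]⟩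
    generalize g⁻¹ * x * g = y at b
    refine b.imp (fun b => ?_) fun b => ?_
    · simpa [mul_assoc] using congrArg (fun z => y⁻¹ * z * y) b
    · simpa [mul_assoc] using congrArg (fun z => y⁻¹ * z * y) b
  · have := (QuotientGroup.eq_one_iff _).1 (congrArg Subtype.val o)
    exact (isSc_iff_of_isConj (isConj_iff.2 ⟨g, rfl⟩)).2 ((ce _).1 this)

end Cfsg.Agent.S2485
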