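import Cfsg.Statements.S2486
import Cfsg.Agent.H6.FL

set_option autoImplicit false
open scoped Pointwise
open Cfsg

namespace Cfsg.Agent.S2486

open Matrix CfsgH6.FL

theorem pB (n : ℕ) : IsPGroup 2 (Par (ZMod 2) (id : Fin n → Fin n)) := by
  rintro ⟨g, hg⟩
  refine ⟨n, Subtype.ext (Units.ext ?_)⟩
  have h1 : ∀ i, g.1 i i = 1 := fun i => by
    have h := g.det_ne_zero
    rw [det_of_upperTriangular hg] at h
    have := Finset.prod_ne_zero_iff.1 h i (Finset.mem_univ _)
    revert this; generalize g.1 i i = a; revert a; decide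
  have h2 := g.1.aeval_self_charpoly
  rw [charpoly_of_upperTriangular _ hg] at h2
  simp only [h1, Finset.prod_const, Finset.card_univ, Fintype.card_fin, map_pow, map_sub, Polynomial.aeval_X,
    map_one] at h2
  have h3 : (g.1 - 1) ^ 2 ^ n = 0 := pow_eq_zero_of_le (Nat.lt_two_pow_self).le h2
  rcases isEmpty_or_nonempty (Fin n) with h | h
  · exact Subsingleton.elim _ _
  haveI : Fact (Nat.Prime 2) := ⟨Nat.prime_two⟩
  rw [sub_pow_char_pow_of_commute _ _ (Commute.one_right _), one_pow, sub_eq_zero] at h3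
  simpa using h3

theorem opp {n : ℕ} {g : GL (Fin n) (ZMod 2)}
    (h : ∀ b ∈ Par (ZMod 2) (id : Fin n → Fin n), g * b * g⁻¹ ∈ Par (ZMod 2) (id : Fin n → Fin n) → b = 1) :
    ∃ p ∈ Par (ZMod 2) (id : Fin n → Fin n), ∃ q ∈ Par (ZMod 2) (id : Fin n → Fin n),
      g = p * W (ZMod 2) Fin.revPerm * q := by
  obtain ⟨w, p, hp, q, hq, rfl⟩ := bruhat g
  have key : ∀ (i j : Fin n) (hij : i < j), SpecialLinearGroup.toGL (SpecialLinearGroup.transvection hij.ne (1 : ZMod 2)) ∈
      Par (ZMod 2) (id : Fin n → Fin n) := fun i j hij a b hab => by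
    change transvection i j (1 : ZMod 2) a b = 0
    rw [transvection, Matrix.add_apply, one_apply_ne (show a ≠ b from ne_of_gt hab), single_apply_of_ne, add_zero]
    rintro ⟨rfl, rfl⟩
    exact lt_asymm hij hab
  have anti : StrictAnti w := fun i j hij => by
    by_contra k
    have k' : w i < w j := lt_of_le_of_ne (not_lt.1 k) fun e => hij.ne (w.injective e)
    let t := SpecialLinearGroup.toGL (SpecialLinearGroup.transvection hij.ne (1 : ZMod 2))
    let t' := SpecialLinearGroup.toGL (SpecialLinearGroup.transvection k'.ne (1 : ZMod 2))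
    have e : W (ZMod 2) w * t = t' * W (ZMod 2) w := by
      refine Units.ext (Matrix.ext fun a b => ?_)
      obtain ⟨a, rfl⟩ := w.surjective a
      rw [Units.val_mul, Units.val_mul, W_mul, mul_W]
      change transvection i j (1 : ZMod 2) a b = transvection (w i) (w j) (1 : ZMod 2) (w a) (w b)
      simp [transvection, one_apply, single_apply]
    have := h (q⁻¹ * t * q) (mul_mem (mul_mem (inv_mem hq) (key i j hij)) hq) (by
      have : p * W (ZMod 2) w * q * (q⁻¹ * t * q) * (p * W (ZMod 2) w * q)⁻¹ = p * t' * p⁻¹ := by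
        rw [← mul_inv_eq_iff_eq_mul] at e
        rw [← e]; group
      rw [this]
      exact mul_mem (mul_mem hp (key _ _ k')) (inv_mem hp))
    have ht : t = 1 := by
      have e1 : t = q * (q⁻¹ * t * q) * q⁻¹ := by group
      rw [e1, this]; simp
    have : transvection i j (1 : ZMod 2) i j = (1 : Matrix (Fin n) (Fin n) (ZMod 2)) i j :=
      congrArg (fun u : GL (Fin n) (ZMod 2) => u.1 i j) ht
    simp [transvection, one_apply_ne hij.ne] at this
  have hw : w = Fin.revPerm := by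
    have : StrictMono (w ∘ Fin.rev) := anti.comp Fin.rev_strictAnti
    have := this.id_le
    have e : (w ∘ Fin.rev) = id := by
      refine (StrictMono.range_inj ‹_› strictMono_id).1 ?_
      rw [Set.range_id, Set.range_eq_univ]
      exact w.surjective.comp Fin.rev_surjective
    ext i
    have := congrFun e i.rev
    simp only [Function.comp, Fin.rev_rev, id] at this
    rw [this]; rfl
  exact ⟨p, hp, q, hq, by rw [hw]⟩

/-- Let n ≥ 4 and let G be a finite group with a normal subgroup N of index 2 isomorphic to SL(n,2) and with trivial centralizer in G (so G is the extension of the simple group L_n(2) by its inverse-transpose automorphism, its full automorphism group). Then any two Sylow 2-subgroups of G have a non-trivial intersection: for a Sylow 2-subgroup H and every x ∈ G, H ∩ H^x ≠ 1. -/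
theorem result {G : Type*} [Group G] [Finite G] {n : ℕ} (hn : 4 ≤ n) (N : Subgroup G) [N.Normal]
    (e : N ≃* Matrix.SpecialLinearGroup (Fin n) (ZMod 2)) (hidx : N.index = 2)
    (hC : Subgroup.centralizer (N : Set G) = ⊥)
    (H : Sylow 2 G) (x : G) :
    (H : Subgroup G) ⊓ MulAut.conj x • (H : Subgroup G) ≠ ⊥ := by
  haveI : Fact (Nat.Prime 2) := ⟨Nat.prime_two⟩
  have hb : Function.Bijective (SpecialLinearGroup.toGL : SpecialLinearGroup (Fin n) (ZMod 2) →* GL (Fin n) (ZMod 2)) := by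
    refine ⟨SpecialLinearGroup.toGL_injective, fun g => ⟨⟨g.1, ?_⟩, Units.ext rfl⟩⟩
    have := g.det_ne_zero
    revert this; generalize g.1.det = a; revert a; decide
  let ε : GL (Fin n) (ZMod 2) ≃* N := (e.trans (MulEquiv.ofBijective _ hb)).symm
  let φ : GL (Fin n) (ZMod 2) →* G := N.subtype.comp ε.toMonoidHom
  obtain ⟨S, hS⟩ := ((pB n).map φ).exists_le_sylow
  obtain ⟨g, rfl⟩ := MulAction.exists_smul_eq G S H
  let ψ : GL (Fin n) (ZMod 2) →* G := (MulAut.conj g).toMonoidHom.comp φ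
  have inj : Function.Injective ψ := (MulAut.conj g).injective.comp (N.subtype_injective.comp ε.injective)
  have sur : ∀ y ∈ N, ∃ a, ψ a = y := fun y hy =>
    ⟨ε.symm ⟨g⁻¹ * y * g⁻¹⁻¹, ‹N.Normal›.conj_mem _ hy _⟩, by simp [ψ, φ, mul_assoc]⟩
  have rg : ∀ a, ψ a ∈ N := fun a => ‹N.Normal›.conj_mem _ (ε a).2 _
  have hB : ∀ b ∈ Par (ZMod 2) (id : Fin n → Fin n), ψ b ∈ ((g • S : Sylow 2 G) : Subgroup G) := fun b hb => by
    rw [Sylow.coe_subgroup_smul]
    exact Subgroup.smul_mem_pointwise_smul _ _ _ (hS ⟨b, hb, rfl⟩)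
  generalize g • S = H at hB
  obtain ⟨s, hs, hsN⟩ : ∃ s ∈ (H : Subgroup G), s ∉ N := by
    by_contra! k
    exact H.not_dvd_index (by have := Subgroup.index_dvd_of_le (show (H : Subgroup G) ≤ N from k); rwa [hidx] at this)
  intro h0
  have h1 : ∀ y ∈ (H : Subgroup G), x * y * x⁻¹ ∈ (H : Subgroup G) → y = 1 := fun y hy k => by
    have : x * y * x⁻¹ ∈ (H : Subgroup G) ⊓ MulAut.conj x • (H : Subgroup G) :=
      ⟨k, Subgroup.smul_mem_pointwise_smul _ _ _ hy⟩
    rw [h0, Subgroup.mem_bot] at this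
    exact conj_eq_one_iff.1 this
  obtain ⟨m, hm, h2⟩ : ∃ m ∈ N, ∀ y ∈ (H : Subgroup G), m * y * m⁻¹ ∈ (H : Subgroup G) → y = 1 := by
    by_cases hx : x ∈ N
    · exact ⟨x, hx, h1⟩
    · refine ⟨x * s, (Subgroup.mul_mem_iff_of_index_two hidx).2 (iff_of_false hx hsN), fun y hy k => ?_⟩
      have := h1 (s * y * s⁻¹) (mul_mem (mul_mem hs hy) (inv_mem hs)) (by simpa [mul_assoc] using k)
      exact conj_eq_one_iff.1 this
  have op : ∀ m ∈ N, (∀ y ∈ (H : Subgroup G), m * y * m⁻¹ ∈ (H : Subgroup G) → y = 1) →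
      ∃ p ∈ (H : Subgroup G) ⊓ N, ∃ q ∈ (H : Subgroup G), m = p * ψ (W (ZMod 2) Fin.revPerm) * q := fun m hm h => by
    obtain ⟨a, rfl⟩ := sur m hm
    obtain ⟨p, hp, q, hq, rfl⟩ := opp (g := a) fun b hb k => inj (by
      rw [map_one]; exact h _ (hB b hb) (by simpa using hB _ k))
    exact ⟨ψ p, ⟨hB p hp, rg p⟩, ψ q, hB q hq, by simp⟩
  obtain ⟨p, hp, q, hq, e1⟩ := op m hm h2
  obtain ⟨p', hp', q', hq', e2⟩ := op (s * m * s⁻¹) (‹N.Normal›.conj_mem _ hm _) fun y hy k => by
    have := h2 (s⁻¹ * y * s) (mul_mem (mul_mem (inv_mem hs) hy) hs) (by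
      have := mul_mem (mul_mem (inv_mem hs) k) hs
      simpa [mul_assoc] using this)
    exact conj_eq_one_iff.1 (by rwa [inv_inv] : s⁻¹ * y * s⁻¹⁻¹ = 1)
  have e3 : m * (q⁻¹ * q' * s) * m⁻¹ = p * p'⁻¹ * s := by
    have : ψ (W (ZMod 2) Fin.revPerm) = p⁻¹ * m * q⁻¹ := by rw [e1]; group
    rw [this] at e2
    calc m * (q⁻¹ * q' * s) * m⁻¹ = p * p'⁻¹ * (p' * (p⁻¹ * m * q⁻¹) * q') * s * m⁻¹ := by group
      _ = _ := by rw [← e2]; group
  have := h2 _ (mul_mem (mul_mem (inv_mem hq) hq') hs) (e3 ▸ mul_mem (mul_mem hp.1 (inv_mem hp'.1)) hs)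
  rw [this, mul_one, mul_inv_cancel, eq_comm, mul_eq_one_iff_inv_eq] at e3
  exact hsN (e3 ▸ inv_mem (mul_mem hp.2 (inv_mem hp'.2)))

end Cfsg.Agent.S2486
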