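import Cfsg.Statements.S2487
import Cfsg.Agent.H5.Orth6
import Cfsg.Agent.H5.Fm2

set_option autoImplicit false
open scoped Pointwise
open Cfsg

namespace Cfsg.Agent.S2487

open CfsgH5 CfsgH5.CForm CfsgH5.Fm Module

theorem ex {F V : Type*} [Field F] [AddCommGroup V] [Module F V] [FiniteDimensional F V] {f : CForm (FP.orth F) V}
    (hf : f.Nondeg) (W : Submodule F V) (h : finrank F W + 2 ≤ finrank F V) :
    ∃ g ∈ f.Isom, g ≠ 1 ∧ ∀ w ∈ W, g w = w := by
  have h2 : 2 ≤ finrank F (f.perp W) := by have := hf.finrank_perp W; omega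
  by_cases k : ∃ v ∈ f.perp W, f.Q v ≠ 0
  · obtain ⟨v, hv, hq⟩ := k
    have v0 : v ≠ 0 := by rintro rfl; simp at hq
    refine ⟨f.rf v, rf_mem v, fun e => ?_, fun w hw => rf_fix (f.B_zero_symm (hv w hw))⟩
    obtain ⟨y, hy⟩ := hf.exists_B_eq_one v0
    have := f.rf_apply v y
    rw [e, f.B_one_symm hy] at this
    have h3 : ((f.Q v)⁻¹ * 1) • v = 0 := sub_eq_self.1 this.symm
    simp [hq, v0] at h3
  · push Not at k
    obtain ⟨u, hu⟩ : ∃ u : f.perp W, u ≠ 0 := by
      haveI := Module.nontrivial_of_finrank_pos (R := F) (M := f.perp W) (by omega)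
      exact exists_ne 0
    obtain ⟨w, hw⟩ := exists_linearIndependent_pair_of_one_lt_finrank (R := F) (by omega) hu
    have hB : f.B w u = 0 := by
      rw [f.orth_B, k _ (add_mem w.2 u.2), k _ w.2, k _ u.2]; simp
    obtain ⟨g, hg⟩ := f.exists_eich (c := 0) (k _ u.2) hB (by simp [k _ w.2])
    refine ⟨g, hg.mem_Isom, fun e => ?_, fun v hv => hg.fix (f.B_zero_symm (u.2 v hv)) (f.B_zero_symm (w.2 v hv))⟩
    obtain ⟨y, hy⟩ := hf.exists_B_eq_one (x := u) (by simpa using hu)
    have := hg.app y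
    rw [e, f.B_one_symm hy] at this
    have h3 := (LinearIndependent.pair_iff.1 hw (f.B y w) (-1) (Subtype.ext (by
      simp only [FP.orth_ε, mul_zero, zero_mul, zero_smul, sub_zero, mul_one, one_smul, LinearEquiv.coe_one, id] at this
      simp only [Submodule.coe_add, Submodule.coe_smul, neg_smul, one_smul, Submodule.coe_neg, Submodule.coe_zero]
      linear_combination (norm := module) -this))).2
    simp at h3

theorem four {F V : Type*} [Field F] [AddCommGroup V] [Module F V] {f : CForm (FP.orth F) V} (h2 : (2 : F) = 0)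
    {T : Submodule F V} {d : V} (hd : d ∈ f.perp T) (h1 : ∀ v ∈ f.perp T, f.Q v = f.Q d → v - d ∈ T)
    (h0 : ∀ v ∈ f.perp T, f.B v d = 0 → ∃ a : F, v - a • d ∈ T) {g : V ≃ₗ[F] V} (hg : g ∈ f.Isom)
    (hT : ∀ t ∈ T, g t = t) : g ^ 4 = 1 := by
  obtain ⟨hB, hQ⟩ := f.mem_Isom.1 hg
  have n1 : ∀ v, g v - v ∈ f.perp T := fun v t ht => by
    have := hB v t
    rw [hT t ht] at this
    simp [this]
  have p1 : ∀ v ∈ f.perp T, g v ∈ f.perp T := fun v hv => by simpa using add_mem (n1 v) hv
  have n2 : g d - d ∈ T := h1 _ (p1 d hd) (hQ d)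
  have n3 : ∀ v ∈ f.perp T, g (g v - v) - (g v - v) ∈ T := fun v hv => by
    obtain ⟨a, ha⟩ := h0 _ (n1 v) (by
      have e1 := hB v d
      have e2 := p1 v hv _ n2
      rw [f.B_sub_right, e1] at e2
      rw [f.B_sub_left]; linear_combination -e2)
    have := hT _ ha
    have e : g (g v - v) - (g v - v) = a • (g d - d) := by
      rw [map_sub g _ (a • d), map_smul] at this
      rw [smul_sub]; linear_combination (norm := module) this
    exact e ▸ T.smul_mem a n2
  ext v
  have := hT _ (n3 _ (n1 v))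
  simp only [map_sub] at this
  have e : ∀ w : V, w + w = 0 := fun w => by rw [← two_smul F, h2, zero_smul]
  change g (g (g (g v))) = v
  linear_combination (norm := module) this + e (g (g (g v))) + e (g (g (g v))) - e (g (g v)) - e (g (g v)) - e (g (g v))
    + e (g v) + e (g v) - e v

/-- Let m ≥ 4 and let G be the full isometry group of the hyperbolic quadratic form x₁y₁ + ⋯ + x_m y_m on the 2m-dimensional space over the field with 2 elements (the orthogonal group O⁺(2m,2), which contains Ω⁺(2m,2) with index 2). Then any two Sylow 2-subgroups of G have a non-trivial intersection: for a Sylow 2-subgroup H and every x ∈ G, H ∩ H^x ≠ 1. -/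
theorem result {F : Type*} [Field F] [Fintype F] (hF : Fintype.card F = 2) {m : ℕ} (hm : 4 ≤ m)
    (H : Sylow 2 (Cfsg.isometryGroup F (Cfsg.quadFormPlus m F)))
    (x : Cfsg.isometryGroup F (Cfsg.quadFormPlus m F)) :
    (H : Subgroup (Cfsg.isometryGroup F (Cfsg.quadFormPlus m F))) ⊓ MulAut.conj x • (H : Subgroup _) ≠ ⊥ := by
  haveI : Fact (Nat.Prime 2) := ⟨Nat.prime_two⟩
  obtain ⟨k, rfl⟩ : ∃ k, m = k + 1 := ⟨m - 1, by omega⟩
  have h01 : ∀ a : F, a ≠ 0 → a = 1 := fun a ha => by
    have := FiniteField.pow_card_sub_one_eq_one a ha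
    simpa [hF] using this
  have h2 : (2 : F) = 0 := by simpa [hF] using FiniteField.cast_card_eq_zero F
  let f := ofQuad (plusQ F (k + 1))
  let b : Fin k → (Fin (k + 1) ⊕ Fin (k + 1) → F) := fun i => Pi.single (.inl i.succ) 1
  let T := Submodule.span F (Set.range b)
  have hT : finrank F T ≤ k := (finrank_range_le_card b).trans (by simp)
  have mP : ∀ v, v ∈ f.perp T ↔ ∀ i : Fin k, v (.inr i.succ) = 0 := fun v => by
    simp [T, mem_perp_span, b, f, plus_B_inl]
  have mT : ∀ v ∈ f.perp T, v (.inl 0) = 0 → v (.inr 0) = 0 → v ∈ T := fun v hv a1 a2 => by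
    have : v = ∑ i : Fin k, v (.inl i.succ) • b i := by
      ext j
      rcases j with j | j <;> refine Fin.cases ?_ (fun j => ?_) j <;>
        simp [b, Finset.sum_apply, Pi.single_apply, a1, a2, (mP v).1 hv, (Fin.succ_ne_zero _).symm]
    rw [this]
    exact Submodule.sum_mem _ fun i _ => Submodule.smul_mem _ _ (Submodule.subset_span ⟨i, rfl⟩)
  let d : Fin (k + 1) ⊕ Fin (k + 1) → F := Pi.single (.inl 0) 1 + Pi.single (.inr 0) 1
  have hd : d ∈ f.perp T := (mP d).2 fun i => by simp [d]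
  have hQ : ∀ v ∈ f.perp T, f.Q v = v (.inl 0) * v (.inr 0) := fun v hv => by
    simp [f, plusQ_apply, Fin.sum_univ_succ, (mP v).1 hv]
  let e : Cfsg.isometryGroup F (Cfsg.quadFormPlus (k + 1) F) ≃* f.Isom := orthEquiv (plusQ F (k + 1))
  let K : Subgroup (Cfsg.isometryGroup F (Cfsg.quadFormPlus (k + 1) F)) :=
    { carrier := {g | ∀ t ∈ T, (e g).1 t = t}
      mul_mem' := fun {a c} ha hc t ht => by rw [map_mul]; change (e a).1 ((e c).1 t) = t; rw [hc t ht, ha t ht]
      one_mem' := fun t _ => by simp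
      inv_mem' := fun {a} ha t ht => by
        rw [map_inv]; change (e a).1.symm t = t; rw [LinearEquiv.symm_apply_eq, ha t ht] }
  have hK : IsPGroup 2 K := fun g => ⟨2, Subtype.ext (e.injective (Subtype.ext (by
    have := four (f := f) h2 hd (fun v hv q => ?_) (fun v hv q => ?_) (e g).2 g.2
    · simpa using this
    · rw [hQ v hv, hQ d hd] at q
      simp only [d, Pi.add_apply, Pi.single_eq_same, ne_eq, reduceCtorEq, not_false_eq_true, Pi.single_eq_of_ne,
        add_zero, zero_add, mul_one] at q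
      have a1 := h01 _ (left_ne_zero_of_mul_eq_one q)
      have a2 := h01 _ (right_ne_zero_of_mul_eq_one q)
      exact mT _ (sub_mem hv hd) (by simp [d, a1]) (by simp [d, a2])
    · simp only [d, f, B_add_right, plus_B_inl, plus_B_inr] at q
      refine ⟨v (.inl 0), mT _ (sub_mem hv (Submodule.smul_mem _ _ hd)) (by simp [d]) ?_⟩
      simp [d]
      linear_combination q - v (.inl 0) * h2)))⟩
  obtain ⟨S, hS⟩ := hK.exists_le_sylow
  obtain ⟨g, rfl⟩ := MulAction.exists_smul_eq (Cfsg.isometryGroup F (Cfsg.quadFormPlus (k + 1) F)) S H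
  obtain ⟨r, hr, r1, r2⟩ := ex (f := f) (plusQ_nondeg F (k + 1))
    (T.map (e g).1.toLinearMap ⊔ T.map (e (x * g)).1.toLinearMap) (by
      refine (Nat.add_le_add_right (Submodule.finrank_add_le_finrank_add_finrank _ _) 2).trans ?_
      have a1 := Submodule.finrank_map_le (e g).1.toLinearMap T
      have a2 := Submodule.finrank_map_le (e (x * g)).1.toLinearMap T
      simp only [finrank_fintype_fun_eq_card, Fintype.card_sum, Fintype.card_fin]
      omega)
  have key : ∀ y, (∀ t ∈ T, r ((e y).1 t) = (e y).1 t) → y⁻¹ * e.symm ⟨r, hr⟩ * y ∈ (S : Subgroup _) := fun y hy =>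
    hS fun t ht => by
      rw [map_mul, map_mul, map_inv, e.apply_symm_apply]
      change (e y).1.symm (r ((e y).1 t)) = t
      rw [hy t ht, LinearEquiv.symm_apply_apply]
  have k1 := key g fun t ht => r2 _ (Submodule.mem_sup_left ⟨t, ht, rfl⟩)
  have k2 := key (x * g) fun t ht => r2 _ (Submodule.mem_sup_right ⟨t, ht, rfl⟩)
  intro h0
  have : e.symm ⟨r, hr⟩ ∈ ((g • S : Sylow 2 _) : Subgroup _) ⊓ MulAut.conj x • ((g • S : Sylow 2 _) : Subgroup _) := by
    rw [Sylow.coe_subgroup_smul]
    refine Subgroup.mem_inf.2 ⟨?_, ?_⟩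
    · rw [Subgroup.mem_pointwise_smul_iff_inv_smul_mem]
      simpa [mul_assoc] using k1
    · rw [Subgroup.mem_pointwise_smul_iff_inv_smul_mem, Subgroup.mem_pointwise_smul_iff_inv_smul_mem]
      simpa [mul_assoc] using k2
  rw [h0, Subgroup.mem_bot, MulEquiv.symm_apply_eq, map_one] at this
  exact r1 (congrArg Subtype.val this)

end Cfsg.Agent.S2487
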