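import Mathlib
import Cfsg.Statements.S2503
import Cfsg.Agent.H8.P2a

set_option autoImplicit false
open Cfsg

namespace Cfsg.Agent.S2503

open CfsgH8

/-- Let F be a finite field with q = 2^t ≥ 4 elements and L = PSL(2,F). Then L has a cyclic subgroup A of order q + 1 and an elementary abelian 2-subgroup B of order q such that L = ABA: every element of L is a product a·b·a' with a, a' ∈ A and b ∈ B. -/
theorem result {F : Type*} [Field F] [Fintype F]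
    (h2 : 2 ∣ Fintype.card F) (h4 : 4 ≤ Fintype.card F) :
    ∃ A B : Subgroup (Matrix.ProjectiveSpecialLinearGroup (Fin 2) F),
      IsCyclic A ∧ Nat.card A = Fintype.card F + 1 ∧ IsMulCommutative B ∧ (∀ b ∈ B, b * b = 1) ∧
        Nat.card B = Fintype.card F ∧
        ∀ g : Matrix.ProjectiveSpecialLinearGroup (Fin 2) F, ∃ a ∈ A, ∃ b ∈ B, ∃ c ∈ A, g = a * b * c := by
  classical
  have e : Fintype.card F % 2 = 0 := by omega
  have c2 : ringChar F = 2 := FiniteField.even_card_iff_char_two.2 e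
  have z : (2 : F) = 0 := by exact_mod_cast (ringChar.spec F 2).2 c2.dvd
  have sq : ∀ a : F, ∃ r, r * r = a := fun a => (FiniteField.isSquare_of_char_two c2 a).imp fun _ h => h.symm
  obtain ⟨g0, h0⟩ := exists_ell (F := F)
  have n1 : (-1 : Matrix.SpecialLinearGroup (Fin 2) F) = 1 := neg_eq_self_of_even e 1
  refine ⟨(C0 g0).map πS, (US F).map πS, ?_, ?_, ?_, ?_, ?_, fun g => ?_⟩
  · haveI := isCyclic_C0 h0
    exact isCyclic_of_surjective _ (πS.subgroupMap_surjective _)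
  · rw [card_map_πS' (by rw [n1]; exact one_mem _), card_C0 h0, gcd_two_even e, Nat.div_one]
  · refine ⟨⟨?_⟩⟩
    rintro ⟨_, _, ⟨s, rfl⟩, rfl⟩ ⟨_, _, ⟨t, rfl⟩, rfl⟩
    exact Subtype.ext (by simp only [Subgroup.coe_mul, ← map_mul, mul_comm s])
  · rintro _ ⟨a, ha, rfl⟩
    obtain ⟨t, rfl⟩ := mem_US.1 ha
    rw [← map_mul, ← pow_two, triS_one_pow]; simp [z, triS_one]
  · rw [card_map_πS' (by rw [n1]; exact one_mem _), card_US, gcd_two_even e, Nat.div_one]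
  obtain ⟨g, rfl⟩ := πS_surj g
  have c0 : g0.1 1 0 ≠ 0 := fun h => h0 (g0.1 0 0) (by
    rw [Matrix.trace_fin_two, Matrix.det_fin_two, h]; ring)
  let N : F → F → F := fun X Y => X ^ 2 + (g0.1 1 1 - g0.1 0 0) / g0.1 1 0 * X * Y - g0.1 0 1 / g0.1 1 0 * Y ^ 2
  have k : ∀ X Y, N X Y = 1 → ∃ a ∈ C0 g0, a.1 0 0 = X ∧ a.1 1 0 = Y := fun X Y h => by
    refine ⟨mS X (g0.1 0 1 / g0.1 1 0 * Y) Y (X + (g0.1 1 1 - g0.1 0 0) / g0.1 1 0 * Y) (by linear_combination h),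
      ?_, rfl, rfl⟩
    rw [mem_C0, mul_inv_eq_iff_eq_mul]
    ext i j
    fin_cases i <;> fin_cases j <;> simp [toGL_val, mS_val, Matrix.mul_apply, Fin.sum_univ_two] <;> field_simp <;> ring
  have an : ∀ X Y, N X Y = 0 → X = 0 ∧ Y = 0 := fun X Y h => by
    by_cases y : Y = 0
    · subst y; simpa [N] using h
    · refine absurd ?_ (h0 (g0.1 0 0 - g0.1 1 0 * X / Y))
      rw [Matrix.trace_fin_two, Matrix.det_fin_two]
      simp only [N] at h
      field_simp at h ⊢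
      linear_combination g0.1 1 0 * h
  obtain ⟨X, Y, n, h⟩ : ∃ X Y, ¬ (X = 0 ∧ Y = 0) ∧ N (g.1 0 0 * X + g.1 0 1 * Y) (g.1 1 0 * X + g.1 1 1 * Y) = N X Y := by
    obtain ⟨r, hr⟩ := sq (N (g.1 0 0) (g.1 1 0) - N 1 0)
    obtain ⟨s, hs⟩ := sq (N (g.1 0 1) (g.1 1 1) - N 0 1)
    have d := sl2_det g
    by_cases t : s = 0 ∧ r = 0
    · refine ⟨1, 0, by simp, ?_⟩
      simp only [mul_one, mul_zero, add_zero]
      linear_combination -hr + r * t.2
    · refine ⟨s, r, t, ?_⟩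
      simp only [N] at hr hs ⊢
      linear_combination -s ^ 2 * hr - r ^ 2 * hs + (g0.1 1 1 - g0.1 0 0) / g0.1 1 0 * s * r * d +
        (r ^ 2 * s ^ 2 + g.1 0 0 * g.1 0 1 * s * r + (g0.1 1 1 - g0.1 0 0) / g0.1 1 0 * s * r * g.1 0 1 * g.1 1 0 -
          g0.1 0 1 / g0.1 1 0 * g.1 1 0 * g.1 1 1 * s * r) * z
  obtain ⟨r, hr⟩ := sq (N X Y)
  have r0 : r ≠ 0 := by rintro rfl; exact n (an _ _ (by rw [← hr, mul_zero]))
  have sc : ∀ X Y, N (X / r) (Y / r) = N X Y / (r * r) := fun X Y => by simp only [N]; field_simp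
  obtain ⟨a, ha, a0, a1⟩ := k (X / r) (Y / r) (by rw [sc, ← hr, div_self (mul_ne_zero r0 r0)])
  obtain ⟨b, hb, b0, b1⟩ := k _ _ (by rw [sc, h, ← hr, div_self (mul_ne_zero r0 r0)])
  refine ⟨_, ⟨b, hb, rfl⟩, _, ⟨b⁻¹ * g * a, ?_, rfl⟩, _, ⟨a⁻¹, inv_mem ha, rfl⟩, by simp [mul_assoc]⟩
  have d := sl2_det b
  have u0 : (b⁻¹ * g * a).1 0 0 = 1 := by
    simp only [sl2_mul, sl2_inv]; simp [a0, a1]
    rw [b0, b1] at d
    linear_combination d
  have u1 : (b⁻¹ * g * a).1 1 0 = 0 := by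
    simp only [sl2_mul, sl2_inv]; simp [a0, a1, b0, b1]; ring
  have := sl2_det (b⁻¹ * g * a)
  refine mem_US'.2 ⟨mem_BS.2 u1, ?_⟩
  rw [u0, u1] at this
  rw [Matrix.trace_fin_two, u0]
  linear_combination this

end Cfsg.Agent.S2503
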