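import Cfsg.Statements.S2504
import Cfsg.Agent.H1.Sn2

set_option autoImplicit false
open Cfsg

namespace Cfsg.Agent.S2504

/-- The largest order of an abelian subgroup of the alternating group of degree n is 3^k when n = 3k, 4·3^(k−1) when n = 3k + 1, and 16·3^(k−2) when n = 3k + 2, for every k ≥ 2 (so for all degrees n ≥ 6). -/
theorem result (k : ℕ) (hk : 2 ≤ k) :
    IsGreatest {c : ℕ | ∃ A : Subgroup (alternatingGroup (Fin (3 * k))), IsMulCommutative A ∧ Nat.card A = c} (3 ^ k) ∧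
    IsGreatest {c : ℕ | ∃ A : Subgroup (alternatingGroup (Fin (3 * k + 1))), IsMulCommutative A ∧ Nat.card A = c}
      (4 * 3 ^ (k - 1)) ∧
    IsGreatest {c : ℕ | ∃ A : Subgroup (alternatingGroup (Fin (3 * k + 2))), IsMulCommutative A ∧ Nat.card A = c}
      (16 * 3 ^ (k - 2)) := by
  open CfsgH1 CfsgH1.Sn Equiv Equiv.Perm MulAction in
  open scoped commutatorElement in
  · obtain ⟨k, rfl⟩ : ∃ j, k = j + 2 := ⟨k - 2, by omega⟩
    refine ⟨⟨(Ab.pow _ _).alt, ?_⟩, ⟨?_, ?_⟩, ?_, ?_⟩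
    · rintro _ ⟨A, _, rfl⟩
      exact Subgroup.card_subtype _ A ▸ bound0 (by simp) _
    · exact mul_comm 4 _ ▸ ((Ab.pow _ (k + 1)).add (Ab.four _)).alt
    · rintro _ ⟨A, _, rfl⟩
      exact Subgroup.card_subtype _ A ▸ bound1 (k := k + 1) (by simp; omega) _
    · exact mul_comm 16 _ ▸ ((Ab.pow _ k).add ((Ab.four _).add (Ab.four _))).alt
    · rintro _ ⟨A, _, rfl⟩
      exact Subgroup.card_subtype _ A ▸ bound2' (k := k) (by simp; omega) _ (Subgroup.map_subtype_le _)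

end Cfsg.Agent.S2504
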