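import Cfsg.Statements.S2505
import Cfsg.Agent.H1.Sn2

set_option autoImplicit false
open Cfsg

namespace Cfsg.Agent.S2505

/-- The largest order of an abelian subgroup of the symmetric group of degree n is 3^k when n = 3k, 4·3^(k−1) when n = 3k + 1, and 2·3^k when n = 3k + 2, for every k ≥ 1. -/
theorem result (k : ℕ) (hk : 1 ≤ k) :
    IsGreatest {c : ℕ | ∃ A : Subgroup (Equiv.Perm (Fin (3 * k))), IsMulCommutative A ∧ Nat.card A = c} (3 ^ k) ∧
    IsGreatest {c : ℕ | ∃ A : Subgroup (Equiv.Perm (Fin (3 * k + 1))), IsMulCommutative A ∧ Nat.card A = c}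
      (4 * 3 ^ (k - 1)) ∧
    IsGreatest {c : ℕ | ∃ A : Subgroup (Equiv.Perm (Fin (3 * k + 2))), IsMulCommutative A ∧ Nat.card A = c}
      (2 * 3 ^ k) := by
  open CfsgH1 CfsgH1.Sn Equiv Equiv.Perm MulAction in
  open scoped commutatorElement in
  · obtain ⟨k, rfl⟩ : ∃ j, k = j + 1 := ⟨k - 1, by omega⟩
    refine ⟨⟨?_, ?_⟩, ⟨?_, ?_⟩, ?_, ?_⟩
    · exact (Ab.pow False _).imp fun _ h => ⟨h.1, h.2.1⟩
    · rintro _ ⟨A, _, rfl⟩
      exact bound0 (by simp) A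
    · exact mul_comm 4 _ ▸ ((Ab.pow False k).add (Ab.four _)).imp fun _ h => ⟨h.1, h.2.1⟩
    · rintro _ ⟨A, _, rfl⟩
      exact bound1 (by simp; omega) A
    · exact mul_comm 2 _ ▸ ((Ab.pow False _).add Ab.two).imp fun _ h => ⟨h.1, h.2.1⟩
    · rintro _ ⟨A, _, rfl⟩
      exact bound2 (by simp) A

end Cfsg.Agent.S2505
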