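import Mathlib
import Cfsg.Statements.S2506
import Cfsg.Agent.H1.Sn2

set_option autoImplicit false
open scoped Pointwise
open Cfsg

namespace Cfsg.Agent.S2506

open CfsgH1.Sn Equiv Equiv.Perm MulAction

section
variable {α : Type*} [Fintype α] [DecidableEq α]

def Gd (A : Subgroup (Perm α)) : Prop := ∀ x : α, (orbit A x).ncard = 3 ∨ ((orbit A x).ncard = 4 ∧ ∀ g ∈ A, g (g x) = x)

theorem sq4 {k : Perm α} (h1 : k ∈ alternatingGroup α) (h2 : k ^ 4 = 1) (h3 : k.support.card ≤ 4) : k ^ 2 = 1 := by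
  rw [← orderOf_dvd_iff_pow_eq_one, ← lcm_cycleType, Multiset.lcm_dvd]
  intro b hb
  have a1 : b ∣ 4 := (dvd_of_mem_cycleType hb).trans (orderOf_dvd_of_pow_eq_one h2)
  have a2 := two_le_of_mem_cycleType hb
  have a3 := Nat.le_of_dvd (by norm_num) a1
  interval_cases b
  · rfl
  · norm_num at a1
  · exfalso
    obtain ⟨s, hs⟩ := Multiset.exists_cons_of_mem hb
    have a4 := sum_cycleType k
    have a5 := sign_of_cycleType k
    rw [hs, Multiset.sum_cons] at a4
    have : s = 0 := by
      by_contra hn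
      obtain ⟨c, hc⟩ := Multiset.exists_mem_of_ne_zero hn
      have := two_le_of_mem_cycleType (σ := k) (n := c) (by rw [hs]; simp [hc])
      have := Multiset.single_le_sum (fun _ _ => Nat.zero_le _) c hc
      omega
    rw [hs, this, mem_alternatingGroup.1 h1] at a5
    exact absurd a5 (by decide)

theorem gd (A : Subgroup (Perm α)) [IsMulCommutative A] (hA : A ≤ alternatingGroup α) (a : ℕ)
    (ha : (thr A : Finset α).card = 3 * a) (h : 9 ^ a * 2 ^ (Fintype.card α - 3 * a) ≤ Nat.card A ^ 2) : Gd A := by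
  classical
  intro x
  by_cases hx : x ∈ (thr A : Finset α)
  · exact Or.inl (mem_thr.1 hx)
  right
  let O := (orbit A x).toFinset
  have hO : ∀ y ∈ O, y ∉ (thr A : Finset α) := fun y hy => by
    obtain ⟨g, rfl⟩ := Set.mem_toFinset.1 hy
    exact fun e => hx ((smul_thr g x).1 e)
  let K := fixingSubgroup A ((Oᶜ : Finset α) : Set α)
  have h1 : K.index ^ 2 ≤ 9 ^ a * 2 ^ (Fintype.card α - 3 * a - O.card) := by
    obtain ⟨a', h1, h2⟩ := three_part (α := α) (thr A) (fun g x => (smul_thr g x).2) fun _ => mem_thr.1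
    obtain rfl : a' = a := by omega
    have h3 := other_part (G := A) ((thr A)ᶜ \ O) (fun g y hy => by
      simp only [Finset.mem_sdiff, Finset.mem_compl, smul_thr, O, Set.mem_toFinset] at hy ⊢
      exact ⟨hy.1, fun e => hy.2 (by simpa using mem_orbit_of_mem_orbit g⁻¹ e)⟩) fun y hy => by
        simp only [Finset.mem_sdiff, Finset.mem_compl, mem_thr] at hy; exact hy.1
    rw [Finset.card_sdiff_of_subset (fun y hy => Finset.mem_compl.2 (hO y hy)), Finset.card_compl, ha] at h3
    have h4 : K = fixingSubgroup A ((thr A : Finset α) : Set α) ⊓ fixingSubgroup A (((thr A)ᶜ \ O : Finset α) : Set α) := by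
      rw [← fixingSubgroup_union]
      refine congrArg (fixingSubgroup A) ?_
      ext y
      have := hO y
      simp only [Finset.coe_compl, Set.mem_compl_iff, Finset.mem_coe, Set.mem_union, Finset.coe_sdiff, Set.mem_sdiff]
      tauto
    rw [h4]
    refine (Nat.pow_le_pow_left Subgroup.index_inf_le 2).trans ?_
    rw [mul_pow]
    refine Nat.mul_le_mul ((Nat.pow_le_pow_left h2 2).trans_eq ?_) h3
    rw [← pow_mul, mul_comm, pow_mul]; rfl
  let φ : K → O := fun k => ⟨k.1 • x, Set.mem_toFinset.2 ⟨k.1, rfl⟩⟩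
  have hφ : Function.Injective φ := fun k l e => by
    have e1 : k.1 • x = l.1 • x := congrArg Subtype.val e
    refine Subtype.ext (Subtype.ext (Equiv.ext fun y => ?_))
    by_cases hy : y ∈ O
    · obtain ⟨g, rfl⟩ := Set.mem_toFinset.1 hy
      change k.1 • g • x = l.1 • g • x
      rw [smul_smul, smul_smul, mul_comm', mul_comm' l.1, mul_smul, mul_smul, e1]
    · exact (k.2 ⟨y, by simpa using hy⟩).trans (l.2 ⟨y, by simpa using hy⟩).symm
  have h2 := Nat.card_le_card_of_injective φ hφ
  rw [Nat.card_eq_fintype_card (α := O), Fintype.card_coe] at h2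
  have h3 : O.card ≤ Fintype.card α - 3 * a := by
    rw [← ha, ← Finset.card_compl]; exact Finset.card_le_card fun y hy => Finset.mem_compl.2 (hO y hy)
  have h4 : 2 ^ O.card ≤ Nat.card K ^ 2 := by
    rw [← K.index_mul_card, mul_pow, ← Nat.sub_add_cancel h3, pow_add, ← mul_assoc] at h
    exact Nat.le_of_mul_le_mul_left (h.trans (Nat.mul_le_mul_right _ h1)) (by positivity)
  have hO3 : O.card = (orbit A x).ncard := by rw [Set.ncard_eq_toFinset_card']
  have h5 : O.card ≠ 3 := by rw [hO3]; exact fun e => hx (mem_thr.2 e)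
  have h6 := sq_le_two_pow _ h5
  have h7 : O.card ≤ Nat.card K := (Nat.pow_le_pow_iff_left two_ne_zero).1 (h6.trans h4)
  have hs : Function.Surjective φ := ((Nat.bijective_iff_injective_and_card φ).2 ⟨hφ, by
    rw [Nat.card_eq_fintype_card (α := O), Fintype.card_coe]; omega⟩).2
  have hsup : ∀ k : K, (k.1.1 : Perm α).support.card ≤ O.card := fun k => Finset.card_le_card fun y hy => by
    by_contra hn; exact mem_support.1 hy (k.2 ⟨y, by simpa using hn⟩)
  have h8 : O.card = 4 := by
    have h9 := h4.trans (Nat.pow_le_pow_left h2 2)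
    by_contra hn
    rcases (by omega : O.card ≤ 1 ∨ O.card = 2 ∨ 5 ≤ O.card) with e | e | e
    · interval_cases O.card <;> simp at h9
    · haveI : Subsingleton K := ⟨fun k l => Subtype.ext (Subtype.ext (by
        rw [le_two_trivial (hA k.1.2) ((hsup k).trans e.le), le_two_trivial (hA l.1.2) ((hsup l).trans e.le)]))⟩
      have := Nat.card_of_subsingleton (1 : K)
      omega
    · have : ∀ j, 5 ≤ j → j ^ 2 < 2 ^ j := fun j hj => by
        induction j, hj using Nat.le_induction with
        | base => norm_num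
        | succ j h1 ih => rw [pow_succ 2]; nlinarith
      have := this _ e
      omega
  refine ⟨hO3 ▸ h8, fun g hg => ?_⟩
  obtain ⟨k, hk⟩ := hs ⟨g x, Set.mem_toFinset.2 ⟨⟨g, hg⟩, rfl⟩⟩
  have e1 : k.1.1 x = g x := congrArg Subtype.val hk
  have e2 : k ^ 4 = 1 := by rw [← h8, ← le_antisymm h2 h7]; exact pow_card_eq_one'
  have e3 := sq4 (hA k.1.2) (congrArg (fun k : K => k.1.1) e2) (h8 ▸ hsup k)
  have e4 : g * k.1.1 = k.1.1 * g := congrArg Subtype.val (mul_comm' (⟨g, hg⟩ : A) k.1)
  rw [← e1, ← Perm.mul_apply, e4, Perm.mul_apply, ← e1, ← Perm.mul_apply, ← pow_two, e3, one_apply]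

theorem loc {β : Type*} [Fintype β] (a b : Perm β) (ha : a = 1 ∨ ∀ x, a x ≠ x) (hb : b = 1 ∨ ∀ x, b x ≠ x)
    (h : Fintype.card β = 3 ∨ (Fintype.card β = 4 ∧ a * a = 1 ∧ b * b = 1)) : a * b = b * a := by
  have key : ∀ {n} (e : β ≃ Fin n) (a : Perm β), (a = 1 ∨ ∀ x, a x ≠ x) → (e.permCongrHom a = 1 ∨ ∀ x, e.permCongrHom a x ≠ x) := by
    rintro n e a (rfl | h)
    · exact Or.inl (map_one _)
    · exact Or.inr fun x hx => h (e.symm x) (by simpa [← Equiv.eq_symm_apply] using hx)
  rcases h with h | ⟨h, h1, h2⟩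
  · let e := Fintype.equivFinOfCardEq h
    apply e.permCongrHom.injective
    rw [map_mul, map_mul]
    exact (by decide : ∀ a b : Perm (Fin 3), (a = 1 ∨ ∀ x, a x ≠ x) → (b = 1 ∨ ∀ x, b x ≠ x) → a * b = b * a) _ _ (key e a ha) (key e b hb)
  · let e := Fintype.equivFinOfCardEq h
    apply e.permCongrHom.injective
    rw [map_mul, map_mul]
    exact (by decide +kernel : ∀ a b : Perm (Fin 4), (a = 1 ∨ ∀ x, a x ≠ x) → (b = 1 ∨ ∀ x, b x ≠ x) → a * a = 1 → b * b = 1 → a * b = b * a)
      _ _ (key e a ha) (key e b hb) (by rw [← map_mul, h1, map_one]) (by rw [← map_mul, h2, map_one])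

theorem comm (A B : Subgroup (Perm α)) [IsMulCommutative A] [IsMulCommutative B] (hA : Gd A) (hB : Gd B)
    (h : ∀ x : α, orbit A x = orbit B x) (a : A) (b : B) : (a : Perm α) * b = b * a := by
  classical
  ext x
  have key : ∀ (A : Subgroup (Perm α)) [IsMulCommutative A] (a : A) (O : Set α), orbit A x = O → Gd A →
      ∃ a' : Perm O, (∀ y, (a' y : α) = a.1 y) ∧ (a' = 1 ∨ ∀ y, a' y ≠ y) ∧ (O.ncard ≠ 3 → a' * a' = 1) := by
    rintro A _ a _ rfl hA
    refine ⟨toPerm a, fun _ => rfl, ?_, fun h3 => ?_⟩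
    · by_contra hn
      push Not at hn
      obtain ⟨h1, ⟨_, g, rfl⟩, h2⟩ := hn
      apply h1
      ext ⟨_, k, rfl⟩
      have h3 : a • g • x = g • x := congrArg Subtype.val h2
      rw [smul_smul, mul_comm', mul_smul, smul_left_cancel_iff] at h3
      change a • k • x = k • x
      rw [smul_smul, mul_comm', mul_smul, h3]
    · ext ⟨_, k, rfl⟩
      exact ((hA (k • x)).resolve_left (by rwa [orbit_smul])).2 a a.2
  obtain ⟨a', a1, a2, a3⟩ := key A a _ rfl hA
  obtain ⟨b', b1, b2, b3⟩ := key B b _ (h x).symm hB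
  have := loc a' b' a2 b2 (by
    rw [← Nat.card_eq_fintype_card, Nat.card_coe_set_eq]
    rcases hA x with h | h
    · exact Or.inl h
    · exact Or.inr ⟨h.1, a3 (by omega), b3 (by omega)⟩)
  have := congrArg (fun s : Perm (orbit A x) => (s ⟨x, mem_orbit_self x⟩ : α)) this
  simpa [a1, b1] using this

theorem exg (A B : Subgroup (Perm α)) (hA : Gd A) (hB : Gd B) (h : (thr A : Finset α).card = (thr B : Finset α).card) :
    ∃ g : Perm α, ∀ x y, y ∈ orbit A x ↔ g y ∈ orbit B (g x) := by
  classical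
  let s : ∀ A : Subgroup (Perm α), orbitRel.Quotient A α → ℕ := fun A q => q.orbit.ncard
  have c1 : ∀ (A : Subgroup (Perm α)) (q : orbitRel.Quotient A α), Nat.card {x // (Quotient.mk'' x : orbitRel.Quotient A α) = q} = s A q := by
    intro A q
    exact Nat.card_congr (β := q.orbit) (Equiv.subtypeEquivRight fun x => orbitRel.Quotient.mem_orbit.symm)
  have c2 : ∀ (A : Subgroup (Perm α)) (c : ℕ), Nat.card {q // s A q = c} * c = Nat.card {x : α // (orbit A x).ncard = c} := by
    intro A c
    haveI := Fintype.ofFinite {q // s A q = c}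
    rw [← Nat.card_congr (Equiv.sigmaSubtypeFiberEquivSubtype (fun x : α => (Quotient.mk'' x : orbitRel.Quotient A α))
      (p := fun x => (orbit A x).ncard = c) (q := fun q => s A q = c) (fun x => Iff.rfl)), Nat.card_sigma,
      Finset.sum_congr rfl (g := fun _ => c) (fun q _ => (c1 A q.1).trans q.2)]
    simp
  have c3 : ∀ c, Nat.card {x : α // (orbit A x).ncard = c} = Nat.card {x : α // (orbit B x).ncard = c} := by
    intro c
    have t3 : ∀ A : Subgroup (Perm α), Nat.card {x : α // (orbit A x).ncard = 3} = (thr A : Finset α).card := fun A => by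
      rw [Nat.card_eq_fintype_card, Fintype.card_subtype]; congr 1
    have t4 : ∀ A : Subgroup (Perm α), Gd A → Nat.card {x : α // (orbit A x).ncard = 4} = Fintype.card α - (thr A : Finset α).card := fun A hA => by
      rw [Nat.card_eq_fintype_card, Fintype.card_subtype, ← Finset.card_compl]; congr 1
      ext x
      simp only [Finset.mem_filter, Finset.mem_univ, true_and, Finset.mem_compl, mem_thr]
      rcases hA x with h | h <;> simp [h]
    by_cases h3 : c = 3
    · rw [h3, t3, t3, h]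
    by_cases h4 : c = 4
    · rw [h4, t4 A hA, t4 B hB, h]
    haveI : IsEmpty {x : α // (orbit A x).ncard = c} := ⟨fun ⟨x, hx⟩ => by rcases hA x with h | h <;> omega⟩
    haveI : IsEmpty {x : α // (orbit B x).ncard = c} := ⟨fun ⟨x, hx⟩ => by rcases hB x with h | h <;> omega⟩
    simp
  have c4 : ∀ c, Nonempty ({q // s A q = c} ≃ {q // s B q = c}) := fun c => by
    rw [← Finite.card_eq]
    rcases c.eq_zero_or_pos with rfl | hc
    · have : ∀ A : Subgroup (Perm α), IsEmpty {q // s A q = 0} := fun A => ⟨fun ⟨q, hq⟩ =>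
        Set.ncard_ne_zero_of_mem (orbitRel.Quotient.mem_orbit.2 q.out_eq') (Set.toFinite _) hq⟩
      simp
    · exact Nat.eq_of_mul_eq_mul_right hc (by rw [c2, c2, c3])
  let e := Equiv.ofFiberEquiv fun c => (c4 c).some
  have he : ∀ q, s B (e q) = s A q := Equiv.ofFiberEquiv_map _
  have c5 : ∀ q, Nonempty ({x // e (Quotient.mk'' x) = q} ≃ {x // (Quotient.mk'' x : orbitRel.Quotient B α) = q}) := fun q => by
    rw [← Finite.card_eq, c1]
    obtain ⟨q, rfl⟩ := e.surjective q
    simp only [EmbeddingLike.apply_eq_iff_eq]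
    rw [c1, he]
  let g := Equiv.ofFiberEquiv fun q => (c5 q).some
  have hg : ∀ x, (Quotient.mk'' (g x) : orbitRel.Quotient B α) = e (Quotient.mk'' x) := Equiv.ofFiberEquiv_map _
  refine ⟨g, fun x y => ?_⟩
  rw [← orbitRel_apply, ← orbitRel_apply, ← Quotient.eq'', ← Quotient.eq'', hg, hg, EmbeddingLike.apply_eq_iff_eq]

theorem exg' (A B : Subgroup (Perm α)) (hA : Gd A) (hB : Gd B) (h : (thr A : Finset α).card = (thr B : Finset α).card) :
    ∃ g ∈ alternatingGroup α, ∀ x y, y ∈ orbit A x ↔ g y ∈ orbit B (g x) := by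
  obtain ⟨g, hg⟩ := exg A B hA hB h
  rcases Int.units_eq_one_or (sign g) with e | e
  · exact ⟨g, e, hg⟩
  obtain ⟨u⟩ : Nonempty α := by
    by_contra hn
    rw [not_nonempty_iff] at hn
    rw [Subsingleton.elim g 1, map_one] at e
    cases e
  obtain ⟨v, hv, huv⟩ := Set.exists_ne_of_one_lt_ncard (s := orbit A u) (by rcases hA u with h | h <;> omega) u
  have key : ∀ y, swap u v y ∈ orbit A y := fun y => by
    rw [swap_apply_def]
    split_ifs with h1 h2
    · rwa [h1]
    · rw [h2]; exact mem_orbit_symm.1 hv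
    · exact mem_orbit_self y
  refine ⟨g * swap u v, by simp [e, huv.symm], fun x y => ?_⟩
  rw [Perm.mul_apply, Perm.mul_apply, ← hg, orbit_eq_iff.2 (key x), ← orbit_eq_iff, ← orbit_eq_iff, orbit_eq_iff.2 (key y)]

theorem fin (A B : Subgroup (Perm α)) [IsMulCommutative A] [IsMulCommutative B] (hA : Gd A) (hB : Gd B)
    (h : (thr A : Finset α).card = (thr B : Finset α).card) :
    ∃ g ∈ alternatingGroup α, ∀ a ∈ A, ∀ b ∈ B, g * a * g⁻¹ * b = b * (g * a * g⁻¹) := by
  obtain ⟨g, hg, h1⟩ := exg' A B hA hB h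
  have h2 : ∀ x, orbit (A.map (MulAut.conj g).toMonoidHom) x = orbit B x := fun x => by
    ext y
    obtain ⟨x, rfl⟩ := g.surjective x
    obtain ⟨y, rfl⟩ := g.surjective y
    rw [← h1]
    constructor
    · rintro ⟨⟨_, a, ha, rfl⟩, e⟩
      have e' : g (a (g⁻¹ (g x))) = g y := e
      exact ⟨⟨a, ha⟩, g.injective (by simpa using e')⟩
    · rintro ⟨a, rfl⟩
      exact ⟨⟨_, a, a.2, rfl⟩, show g (a.1 (g⁻¹ (g x))) = g (a.1 x) by simp⟩
  refine ⟨g, hg, fun a ha b hb => comm (A.map (MulAut.conj g).toMonoidHom) B (fun x => ?_) hB h2 ⟨_, a, ha, rfl⟩ ⟨b, hb⟩⟩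
  obtain ⟨x, rfl⟩ := g.surjective x
  have h3 : (orbit B (g x)).ncard = (orbit A x).ncard := by
    rw [← Set.ncard_image_of_injective (orbit A x) g.injective]
    congr 1; ext y
    obtain ⟨y, rfl⟩ := g.surjective y
    rw [← h1, g.injective.mem_set_image]
  rw [h2, h3]
  refine (hA x).imp_right fun h => ⟨h.1, ?_⟩
  rintro _ ⟨a, ha, rfl⟩
  simpa using h.2 a ha

theorem num (A : Subgroup (Perm α)) [IsMulCommutative A] (hA : A ≤ alternatingGroup α) (k r : ℕ) (hr : r ≤ 2)
    (hk : Fintype.card α = 3 * k + 4 * r) (h : 4 ^ r * 3 ^ k ≤ Nat.card A) : Gd A ∧ (thr A : Finset α).card = 3 * k := by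
  obtain ⟨a, h0, h1, h2, h3, h4⟩ := split A
  suffices e : a = k by
    subst e
    refine ⟨gd A hA a h0 (le_trans (le_of_eq ?_) (Nat.pow_le_pow_left h 2)), h0⟩
    rw [hk, Nat.add_sub_cancel_left, pow_mul, mul_pow, ← pow_mul 4, ← pow_mul 3, mul_comm r, mul_comm a, pow_mul, pow_mul, mul_comm]
    norm_num
  by_contra hn
  rcases Nat.lt_or_ge k a with h5 | h5
  · have p0 : 0 < 3 ^ k := by positivity
    interval_cases r
    · omega
    · obtain rfl : a = k + 1 := by omega
      rw [show Fintype.card α - 3 * (k + 1) = 1 by omega] at h2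
      have := h4.trans (Nat.mul_le_mul h1 (show _ ≤ 1 by nlinarith))
      omega
    · obtain rfl | rfl : a = k + 1 ∨ a = k + 2 := by omega
      · rw [show Fintype.card α - 3 * (k + 1) = 5 by omega] at h2
        have := h4.trans (Nat.mul_le_mul h1 (show _ ≤ 5 by nlinarith))
        omega
      · rw [← Subgroup.index_bot, ← show fixingSubgroup A ((thr A : Finset α) : Set α) = ⊥ from
          eq_bot_iff.2 fun g hg => Subtype.ext (le_two_trivial (hA g.2) ((Finset.card_le_card (t := (thr A)ᶜ)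
            fun x hx => Finset.mem_compl.2 fun e => mem_support.1 hx (hg ⟨x, e⟩)).trans (by rw [Finset.card_compl]; omega)))] at h
        rw [pow_add] at h1
        omega
  · obtain ⟨b, rfl⟩ : ∃ b, k = a + (b + 1) := ⟨k - a - 1, by omega⟩
    rw [show Fintype.card α - 3 * a = 3 * (b + 1) + 4 * r by omega] at h2
    have h6 := Nat.pow_le_pow_left (h.trans (h4.trans (Nat.mul_le_mul_right _ h1))) 2
    rw [mul_pow (3 ^ a)] at h6
    have h7 := h6.trans (Nat.mul_le_mul_left _ h2)
    have h8 : 8 ^ (b + 1) < 9 ^ (b + 1) := Nat.pow_lt_pow_left (by norm_num) (by omega)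
    have e1 : (4 ^ r * 3 ^ (a + (b + 1))) ^ 2 = ((3 ^ a) ^ 2 * 16 ^ r) * 9 ^ (b + 1) := by
      rw [show 16 = 4 ^ 2 by norm_num, show 9 = 3 ^ 2 by norm_num, ← pow_mul 4, ← pow_mul 3 2]; ring
    have e2 : (3 ^ a) ^ 2 * 2 ^ (3 * (b + 1) + 4 * r) = ((3 ^ a) ^ 2 * 16 ^ r) * 8 ^ (b + 1) := by
      rw [show 16 = 2 ^ 4 by norm_num, show 8 = 2 ^ 3 by norm_num, ← pow_mul 2 4, ← pow_mul 2 3]; ring
    rw [e1, e2] at h7
    exact absurd (Nat.le_of_mul_le_mul_left h7 (by positivity)) (by omega)
end

/-- In the alternating group of any degree, any two abelian subgroups of the largest possible order (among abelian subgroups) are conjugate. -/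
theorem result (n : ℕ)
    (A B : Subgroup (alternatingGroup (Fin n))) (hA : IsMulCommutative A) (hB : IsMulCommutative B)
    (hAmax : ∀ C : Subgroup (alternatingGroup (Fin n)), IsMulCommutative C → Nat.card C ≤ Nat.card A)
    (hBmax : ∀ C : Subgroup (alternatingGroup (Fin n)), IsMulCommutative C → Nat.card C ≤ Nat.card B) :
    ∃ g : alternatingGroup (Fin n), B = MulAut.conj g • A := by
  have hc : ∀ N : Subgroup (alternatingGroup (Fin n)), Nat.card (N.map (alternatingGroup (Fin n)).subtype) = Nat.card N :=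
    fun N => Subgroup.card_map_of_injective Subtype.val_injective
  have main : ∀ k r, r ≤ 2 → n = 3 * k + 4 * r → ∃ g : alternatingGroup (Fin n), B = MulAut.conj g • A := by
    intro k r hr e
    obtain ⟨C, hC, hC'⟩ : ∃ C : Subgroup (alternatingGroup (Fin n)), IsMulCommutative C ∧ Nat.card C = 4 ^ r * 3 ^ k := by
      subst e
      interval_cases r
      · simpa using (Ab.pow _ k).alt
      · simpa [mul_comm] using ((Ab.pow _ k).add (Ab.four _)).alt
      · simpa [mul_comm] using ((Ab.pow _ k).add ((Ab.four _).add (Ab.four _))).alt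
    obtain ⟨a1, a2⟩ := num _ (Subgroup.map_subtype_le A) k r hr (by simpa using e) (by rw [hc, ← hC']; exact hAmax C hC)
    obtain ⟨b1, b2⟩ := num _ (Subgroup.map_subtype_le B) k r hr (by simpa using e) (by rw [hc, ← hC']; exact hBmax C hC)
    obtain ⟨g, hg, h⟩ := fin _ _ a1 b1 (a2.trans b2.symm)
    refine ⟨⟨g, hg⟩, ?_⟩
    set A' := MulAut.conj (⟨g, hg⟩ : alternatingGroup (Fin n)) • A with hA'
    haveI : IsMulCommutative A' := Subgroup.map_isMulCommutative _ _
    have h1 : ∀ a ∈ A', ∀ b ∈ B, a * b = b * a := by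
      rintro _ ⟨a, ha, rfl⟩ b hb
      exact Subtype.ext (h a ⟨a, ha, rfl⟩ b ⟨b, hb, rfl⟩)
    have h2 : IsMulCommutative (A' ⊔ B : Subgroup _) := by
      rw [← Subgroup.le_centralizer_iff_isMulCommutative]
      have h3 : A' ≤ Subgroup.centralizer B := fun a ha b hb => (h1 a ha b hb).symm
      refine sup_le (Subgroup.le_centralizer_iff.2 (sup_le A'.le_centralizer (Subgroup.le_centralizer_iff.1 h3)))
        (Subgroup.le_centralizer_iff.2 (sup_le h3 B.le_centralizer))
    have h3 : B = A' ⊔ B := Subgroup.eq_of_le_of_card_ge le_sup_right (hBmax _ h2)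
    have h4 : Nat.card A' = Nat.card A := Subgroup.card_map_of_injective (MulAut.conj _).injective
    exact (Subgroup.eq_of_le_of_card_ge (h3 ▸ le_sup_left) (h4 ▸ hAmax B hB)).symm
  by_cases h2 : n ≤ 2
  · refine ⟨1, ?_⟩
    haveI : Subsingleton (alternatingGroup (Fin n)) := ⟨fun a b => Subtype.ext (by
      rw [le_two_trivial a.2 ((Finset.card_le_univ _).trans (by simpa using h2)),
        le_two_trivial b.2 ((Finset.card_le_univ _).trans (by simpa using h2))])⟩
    exact Subsingleton.elim _ _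
  by_cases h5 : n = 5
  · subst h5
    haveI : Fact (Nat.Prime 5) := ⟨Nat.prime_five⟩
    have hG : Nat.card (alternatingGroup (Fin 5)) = 60 := by
      have := two_mul_card_alt (n := 5) (by norm_num); simp only [Nat.factorial] at this; omega
    obtain ⟨x, hx⟩ := exists_prime_orderOf_dvd_card' (G := alternatingGroup (Fin 5)) 5 (by rw [hG]; norm_num)
    have key : ∀ A : Subgroup (alternatingGroup (Fin 5)), IsMulCommutative A → 5 ≤ Nat.card A →
        Nat.card A = 5 ^ (Nat.card (alternatingGroup (Fin 5))).factorization 5 := by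
      intro A _ h
      rw [hG, show (60 : ℕ).factorization 5 = 1 by
        rw [show 60 = 5 * 12 by norm_num, Nat.factorization_mul (by norm_num) (by norm_num), Finsupp.add_apply,
          Nat.prime_five.factorization_self, Nat.factorization_eq_zero_of_not_dvd (by norm_num)]]
      rw [← hc] at h ⊢
      have hA := Subgroup.map_subtype_le A
      have hA' : IsMulCommutative (A.map (alternatingGroup (Fin 5)).subtype) := inferInstance
      generalize A.map (alternatingGroup (Fin 5)).subtype = A at *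
      obtain ⟨a, h0, h1, h2, h3, h4⟩ := split A
      simp only [Fintype.card_fin] at h2 h3
      obtain rfl | rfl : a = 0 ∨ a = 1 := by omega
      · rw [show 2 ^ (5 - 3 * 0) = 32 by norm_num] at h2
        have := h4.trans (Nat.mul_le_mul h1 (show _ ≤ 5 by nlinarith))
        omega
      · rw [← Subgroup.index_bot, ← show fixingSubgroup A ((thr A : Finset (Fin 5)) : Set (Fin 5)) = ⊥ from
          eq_bot_iff.2 fun g hg => Subtype.ext (le_two_trivial (hA g.2) ((Finset.card_le_card (t := (thr A)ᶜ)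
            fun x hx => Finset.mem_compl.2 fun e => mem_support.1 hx (hg ⟨x, e⟩)).trans (by rw [Finset.card_compl, h0]; simp)))] at h
        omega
    have h1 : Nat.card (Subgroup.zpowers x) = 5 := by rw [Nat.card_zpowers, hx]
    obtain ⟨g, hg⟩ := MulAction.exists_smul_eq (alternatingGroup (Fin 5))
      (Sylow.ofCard A (key A hA (h1.ge.trans (hAmax _ inferInstance)))) (Sylow.ofCard B (key B hB (h1.ge.trans (hBmax _ inferInstance))))
    exact ⟨g, (congrArg Sylow.toSubgroup hg).symm⟩
  rcases (by omega : n % 3 = 0 ∨ n % 3 = 1 ∨ n % 3 = 2) with h | h | h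
  · exact main (n / 3) 0 (by omega) (by omega)
  · exact main (n / 3 - 1) 1 (by omega) (by omega)
  · exact main (n / 3 - 2) 2 (by omega) (by omega)

end Cfsg.Agent.S2506
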