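import Mathlib
import Cfsg.Statements.S2508
import Cfsg.Agent.H8.P2a

set_option autoImplicit false
open Cfsg

namespace Cfsg.Agent.S2508

open CfsgH8

/-- Let F be a finite field with q elements, q odd and q ≥ 7. If q ≡ 1 (mod 4) the conjugacy class sizes of PSL(2,F) are exactly 1, (q² − 1)/2, q(q + 1)/2, q(q − 1) and q(q + 1); if q ≡ 3 (mod 4) they are exactly 1, (q² − 1)/2, q(q − 1)/2, q(q + 1) and q(q − 1). -/
theorem result {F : Type*} [Field F] [Fintype F]
    (hodd : ¬ 2 ∣ Fintype.card F) (h7 : 7 ≤ Fintype.card F) :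
    (Fintype.card F % 4 = 1 →
      Set.range (fun g : (Matrix.ProjectiveSpecialLinearGroup (Fin 2) F) => (Subgroup.centralizer ({g} : Set (Matrix.ProjectiveSpecialLinearGroup (Fin 2) F))).index) =
        {1, (Fintype.card F ^ 2 - 1) / 2, Fintype.card F * (Fintype.card F + 1) / 2,
          Fintype.card F * (Fintype.card F - 1), Fintype.card F * (Fintype.card F + 1)}) ∧
    (Fintype.card F % 4 = 3 →
      Set.range (fun g : (Matrix.ProjectiveSpecialLinearGroup (Fin 2) F) => (Subgroup.centralizer ({g} : Set (Matrix.ProjectiveSpecialLinearGroup (Fin 2) F))).index) =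
        {1, (Fintype.card F ^ 2 - 1) / 2, Fintype.card F * (Fintype.card F - 1) / 2,
          Fintype.card F * (Fintype.card F + 1), Fintype.card F * (Fintype.card F - 1)}) := by
  have e : Fintype.card F % 2 = 1 := by omega
  obtain ⟨a, b, c, d⟩ := exists_ci (F := F) (by rw [gcd_two_odd e]; omega)
  rw [gcd_two_odd e] at d
  obtain ⟨g, h1, h3⟩ := exists_ci_inv e
  refine ⟨fun h => ?_, fun h => ?_⟩
  all_goals
    ext n
    simp only [Set.mem_range, Set.mem_insert_iff, Set.mem_singleton_iff]
    refine ⟨?_, ?_⟩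
    · rintro ⟨g, rfl⟩
      have := ci_cases g
      rw [gcd_two_odd e] at this
      unfold ci at this
      omega
    · rintro (rfl | rfl | rfl | rfl | rfl) <;> first | assumption | exact ⟨g, h1 h⟩ | exact ⟨g, h3 h⟩

end Cfsg.Agent.S2508
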