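import Cfsg.Statements.S2510
import Cfsg.Agent.H6.Sx4

set_option autoImplicit false
open Cfsg

namespace Cfsg.Agent.S2510

open Polynomial Module CfsgH6.Sx in

/-- Let F be a finite field with q = p^a elements, n ≥ 2 (with q ≥ 4 when n = 2), L = PSL(n, F), and let r be a prime dividing q − 1 and not dividing n. Then for every m the direct product L × L × L × (ℤ/r)^m has the same set of element orders as L × L × L; and if n − 1 ≠ p^j for every j ≥ 0 (so never when n = 2, since 1 = p^0), then already L × L × (ℤ/r)^m has the same set of element orders as L × L. -/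
theorem result {F : Type*} [Field F] [Fintype F] (p a n r m : ℕ) (hp : p.Prime) (ha : 1 ≤ a) (hF : Fintype.card F = p ^ a)
    (hn : 2 ≤ n) (hn2 : n = 2 → 4 ≤ Fintype.card F) (hr : r.Prime) (hrq : r ∣ Fintype.card F - 1) (hrn : ¬ r ∣ n) :
    Set.range (orderOf : Matrix.ProjectiveSpecialLinearGroup (Fin n) F × Matrix.ProjectiveSpecialLinearGroup (Fin n) F × Matrix.ProjectiveSpecialLinearGroup (Fin n) F × Multiplicative (Fin m → ZMod r) → ℕ) =
      Set.range (orderOf : Matrix.ProjectiveSpecialLinearGroup (Fin n) F × Matrix.ProjectiveSpecialLinearGroup (Fin n) F × Matrix.ProjectiveSpecialLinearGroup (Fin n) F → ℕ) ∧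
    ((¬ ∃ j : ℕ, n - 1 = p ^ j) →
      Set.range (orderOf : Matrix.ProjectiveSpecialLinearGroup (Fin n) F × Matrix.ProjectiveSpecialLinearGroup (Fin n) F × Multiplicative (Fin m → ZMod r) → ℕ) =
        Set.range (orderOf : Matrix.ProjectiveSpecialLinearGroup (Fin n) F × Matrix.ProjectiveSpecialLinearGroup (Fin n) F → ℕ)) := by
  have := Fact.mk hp
  have : CharP F p := charP_of_card_eq_prime_pow hF
  obtain ⟨θ, M⟩ := mod_SL (F := F) n
  have : Nontrivial (Fin n → F) := by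
    have : Nonempty (Fin n) := ⟨⟨0, by omega⟩⟩
    infer_instance
  rw [← Nat.card_eq_fintype_card] at hrq
  obtain ⟨ζ, -, hζ⟩ := CfsgL0.GLn.exists_orderOf_of_dvd F hrq
  have hζ' : IsPrimitiveRoot ζ r := hζ ▸ IsPrimitiveRoot.orderOf ζ
  refine abc_lin p M (Q := Nat.card F - 1) (N := fun m => ∑ i ∈ Finset.range m, Nat.card F ^ i) hn
    (fun m hm h => ?_) (by simp) hr (fun g => ?_) (fun g ⟨E, e1, _, e3, e4, e5⟩ => ?_) ?_
    (fun m hm hmn => ?_) ?_ (pow_zmod m r)
  · exact CfsgL0.GLn.not_dvd_card_pow (F := F) p hm (geom_mul (Nat.card_pos (α := F)) m ▸ h.mul_right _)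
  · simpa using lin_single ((Group.isUnit g).map θ)
  · obtain ⟨i, j, h1, h2⟩ := exists_Z_det e1 hr.pos hζ' (by
      rw [Ne, hζ'.pow_eq_one_iff_dvd]; simpa using hrn)
    refine M.good e1 e3 e4 e5 h1 hr ?_ ?_ (iso_zero _) fun _ => h2 <;>
      rw [← pow_mul, mul_comm, pow_mul, hζ'.pow_eq_one, one_pow]
  · obtain ⟨K, _, _, _, b, h1, h2, h3⟩ := lin_torus (F := F) (m := n) (by omega)
    obtain ⟨g, -, -, k⟩ := M.ex (ex_zero b h1) fun _ => h3
    refine ⟨QuotientGroup.mk g, ?_⟩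
    obtain ⟨c, hc⟩ := (k _).1 dvd_rfl
    have hc0 : c ≠ 0 := by
      rintro rfl
      have hb : b = 0 := pow_eq_zero_iff (orderOf_pos _).ne' |>.1 (hc.trans (map_zero _))
      rw [hb, Algebra.norm_zero] at h3
      exact zero_ne_one h3
    change ∑ i ∈ Finset.range n, Nat.card F ^ i ∣ _
    rw [← h2, orderOf_dvd_iff_pow_eq_one, pow_mul, hc, ← map_pow, CfsgL0.GLn.pow_card_sub_one hc0,
      map_one]
  · obtain ⟨K, _, _, _, b, h1, h2, h3⟩ := lin_torus (F := F) hm
    obtain ⟨_, u2, u3⟩ := unip_facts (F := F) (n - m)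
    have : Nontrivial (AdjoinRoot ((X - 1 : F[X]) ^ (n - m))) :=
      Module.nontrivial_of_finrank_pos (R := F) (by omega)
    obtain ⟨g, -, k1, k⟩ := M.ex (ex_zero (b, AdjoinRoot.root ((X - 1 : F[X]) ^ (n - m))) (n := n)
      (by rw [finrank_prod]; omega)) fun _ => by rw [CfsgL0.GLn.norm_pair, h3, u3, one_mul]
    obtain ⟨c, hc⟩ := (k _).1 dvd_rfl
    obtain ⟨c1, c2⟩ := unip_dvd p (by omega) (CfsgL0.GLn.dvd_X_pow_sub_C.2 (congrArg Prod.snd hc))
    refine ⟨g, k1 ⟨(1, 0), by simp, by simp, by simp [Prod.ext_iff]⟩, ?_, c2⟩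
    change ∑ i ∈ Finset.range m, Nat.card F ^ i ∣ _
    rw [← h2, orderOf_dvd_iff_pow_eq_one]
    simpa [c1] using congrArg Prod.fst hc
  · obtain ⟨_, u2, u3⟩ := unip_facts (F := F) n
    obtain ⟨g, -, -, k⟩ := M.ex (ex_zero (AdjoinRoot.root ((X - 1 : F[X]) ^ n)) u2) fun _ => u3
    obtain ⟨c, hc⟩ := (k _).1 dvd_rfl
    exact ⟨_, (unip_dvd p (by omega) (CfsgL0.GLn.dvd_X_pow_sub_C.2 hc)).2⟩

end Cfsg.Agent.S2510
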