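import Cfsg.Statements.S2511
import Cfsg.Agent.H6.Sx5

set_option autoImplicit false
open Cfsg

namespace Cfsg.Agent.S2511

open Polynomial Module CfsgH5 CfsgH6.Sx in

/-- Let F be a finite field with q² elements, q = p^a, n ≥ 3 with (n, q) ≠ (3, 2), L = PSU(n, q) realised over F, and let r be a prime dividing q + 1 and not dividing n. Then for every m the direct product L × L × L × (ℤ/r)^m has the same set of element orders as L × L × L; and if n − 1 is not a power of p, then already L × L × (ℤ/r)^m has the same set of element orders as L × L. -/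
theorem result {F : Type*} [Field F] [Fintype F] (p a n q r m : ℕ) (hp : p.Prime) (ha : 1 ≤ a) (hq : q = p ^ a) (hF : Fintype.card F = q ^ 2)
    (hn : 3 ≤ n) (hn3 : ¬ (n = 3 ∧ q = 2)) (hr : r.Prime) (hrq : r ∣ q + 1) (hrn : ¬ r ∣ n) :
    Set.range (orderOf : Cfsg.PSU n F q × Cfsg.PSU n F q × Cfsg.PSU n F q × Multiplicative (Fin m → ZMod r) → ℕ) = Set.range (orderOf : Cfsg.PSU n F q × Cfsg.PSU n F q × Cfsg.PSU n F q → ℕ) ∧
    ((¬ ∃ j : ℕ, n - 1 = p ^ j) →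
      Set.range (orderOf : Cfsg.PSU n F q × Cfsg.PSU n F q × Multiplicative (Fin m → ZMod r) → ℕ) = Set.range (orderOf : Cfsg.PSU n F q × Cfsg.PSU n F q → ℕ)) := by
  have := Fact.mk hp
  have : CharP F p := charP_of_card_eq_prime_pow (show Fintype.card F = p ^ (a * 2) by rw [hF, hq, pow_mul])
  obtain ⟨σ, H⟩ := exists_UF hF
  obtain ⟨θ, M⟩ := mod_SU H (n := n) (by omega)
  have : Nontrivial (Fin n → F) := by
    have : Nonempty (Fin n) := ⟨⟨0, by omega⟩⟩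
    infer_instance
  obtain ⟨ζ, -, hζ⟩ := CfsgL0.GLn.exists_orderOf_of_dvd F (m := r) (H.card_units ▸ hrq.mul_left _)
  have hζ' : IsPrimitiveRoot ζ r := hζ ▸ IsPrimitiveRoot.orderOf ζ
  have hz : ∀ i, (ζ ^ i) ^ r = 1 := fun i => by
    rw [← pow_mul, mul_comm, pow_mul, hζ'.pow_eq_one, one_pow]
  have hz' : ∀ i, ζ ^ i * σ (ζ ^ i) = 1 := fun i => by
    obtain ⟨s, hs⟩ := hrq
    rw [H.norm_eq, hs, pow_mul, hz, one_pow]
  refine abc_lin p M (Q := q + 1) (N := Nu q) (by omega)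
    (fun m hm => not_dvd_Nu hp (hq ▸ dvd_pow_self p (by omega)) hm (by have := H.two_le; omega))
    (Nu_one q) hr (fun g => ?_) (fun g ⟨E, e1, e2, e3, e4, e5⟩ => ?_) ?_
    (fun m hm hmn => ?_) ?_ (pow_zmod m r)
  · simpa using uni_single H (hermC_nondeg H n) (M.iso g)
  · obtain ⟨i, j, h1, h2⟩ := exists_Z_det e1 hr.pos hζ' (by
      rw [Ne, hζ'.pow_eq_one_iff_dvd]; simpa using hrn)
    exact M.good e1 e3 e4 e5 h1 hr (hz i) (hz j) (Z_iso e1 e2 (hz' i) (hz' j)) fun _ => h2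
  · obtain ⟨R, h1, h2, -⟩ := uni_torus H (m := n) (by omega)
    obtain ⟨g, -, -, k⟩ := M.ex (h1.toSu H) fun _ => rfl
    obtain ⟨c, hc⟩ := (k _).1 dvd_rfl
    exact ⟨_, h2 _ _ hc⟩
  · obtain ⟨R, h1, -, h2⟩ := uni_torus H hm
    obtain ⟨g, -, k1, k⟩ := M.ex (((h1.add (uni_unip H (k := n - m) (by omega))).congr (m := n)
      (by omega) (fun _ _ => Iff.rfl) (one_mul _) id).toSu H) fun _ => rfl
    obtain ⟨c, hc⟩ := (k _).1 dvd_rfl
    obtain ⟨rfl, c2⟩ := unip_dvd p (by omega) hc.2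
    exact ⟨g, k1 ⟨hm, by omega⟩, h2 _ hc.1, c2⟩
  · obtain ⟨g, -, -, k⟩ := M.ex ((uni_unip H (k := n) (by omega)).toSu H) fun _ => rfl
    obtain ⟨c, hc⟩ := (k _).1 dvd_rfl
    exact ⟨_, (unip_dvd p (by omega) hc).2⟩

end Cfsg.Agent.S2511
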