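import Cfsg.Statements.S2512
import Cfsg.Agent.H6.Sx6
import Cfsg.Agent.H6.Wt3

set_option autoImplicit false
open Cfsg

namespace Cfsg.Agent.S2512

open Polynomial Module CfsgH5 CfsgH6.Sx in

/-- Let F be a finite field of odd order q = p^a, n ≥ 2 (with q ≥ 3 automatic), and L = PSp(2n, F). Then for every m the direct product L × L × L × (ℤ/2)^m has the same set of element orders as L × L × L; and if 2n − 1 is not a power of p, then already L × L × (ℤ/2)^m has the same set of element orders as L × L. -/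
theorem result {F : Type*} [Field F] [Fintype F] (p a n m : ℕ) (hp : p.Prime) (ha : 1 ≤ a) (hF : Fintype.card F = p ^ a) (hodd : Odd (Fintype.card F))
    (hn : 2 ≤ n) :
    Set.range (orderOf : Cfsg.PSp n F × Cfsg.PSp n F × Cfsg.PSp n F × Multiplicative (Fin m → ZMod 2) → ℕ) = Set.range (orderOf : Cfsg.PSp n F × Cfsg.PSp n F × Cfsg.PSp n F → ℕ) ∧
    ((¬ ∃ j : ℕ, 2 * n - 1 = p ^ j) →
      Set.range (orderOf : Cfsg.PSp n F × Cfsg.PSp n F × Multiplicative (Fin m → ZMod 2) → ℕ) = Set.range (orderOf : Cfsg.PSp n F × Cfsg.PSp n F → ℕ)) := by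
  have := Fact.mk hp
  have : CharP F p := charP_of_card_eq_prime_pow hF
  have h2 := CfsgH6.Wt.two_ne hodd
  obtain ⟨θ, M⟩ := mod_Sp (F := F) (n := n) (by omega)
  have : Nontrivial (Fin n ⊕ Fin n → F) := by
    have : Nonempty (Fin n) := ⟨⟨0, by omega⟩⟩
    infer_instance
  rw [← Nat.card_eq_fintype_card] at hodd
  have hp2 : p ≠ 2 := by
    rintro rfl
    exact h2 (CharP.cast_eq_zero F 2)
  have hdec : ∀ g, Dec (spForm F n) (θ g) → ∃ w : PSp n F,
      Nat.lcm (orderOf (QuotientGroup.mk g : PSp n F)) 2 ∣ orderOf w := fun g ⟨E, e1, e2, e3, e4, e5⟩ =>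
    M.good e1 e3 e4 e5 (a := 1) (b := -1) (fun e => h2 (by linear_combination e)) Nat.prime_two
      (by simp) (by simp) (Z_iso e1 e2 (by simp) (by simp)) False.elim
  have htor : ∀ N, N ∣ Nat.card F ^ n + 1 ∨ N ∣ Nat.card F ^ n - 1 →
      ∃ c : PSp n F, N ∣ orderOf c * 2 := fun N h => by
    obtain ⟨R, r1, r2, -⟩ := id_torus (P := FP.symp F) rfl (by omega) h
    obtain ⟨g, -, -, k⟩ := M.ex r1.toSp False.elim
    obtain ⟨c, hc⟩ := (k _).1 dvd_rfl
    exact ⟨_, (r2 _ _ hc).1⟩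
  obtain ⟨u, hu⟩ : ∃ u : PSp n F, p ^ Nat.clog p (2 * n) ∣ orderOf u := by
    obtain ⟨g, -, -, k⟩ := M.ex (symp_unip h2 (l := n) (by omega)).toSp False.elim
    obtain ⟨c, hc⟩ := (k _).1 dvd_rfl
    exact ⟨_, (unip_dvd p (by omega) hc).2⟩
  obtain ⟨y, y1, y2⟩ : ∃ y, Dec (spForm F n) (θ y) ∧
      p ^ Nat.clog p (2 * (n - 1)) ∣ orderOf (QuotientGroup.mk y : PSp n F) := by
    obtain ⟨g, -, k1, k⟩ := M.ex (((symp_unip h2 (l := n - 1) (by omega)).add
      (symp_unip h2 (l := 1) one_pos)).congr (m := 2 * n) (by omega) (fun _ _ => Iff.rfl) rfl id).toSp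
      False.elim
    obtain ⟨c, hc⟩ := (k _).1 dvd_rfl
    exact ⟨g, k1 ⟨by omega, by omega⟩, (unip_dvd p (by omega) hc.1).2⟩
  have h1n : 1 ≤ Nat.card F ^ n := Nat.one_le_pow _ _ Nat.card_pos
  obtain ⟨s, hs⟩ : Odd (Nat.card F ^ n) := hodd.pow
  obtain ⟨c, hc⟩ := htor (if Even s then Nat.card F ^ n + 1 else Nat.card F ^ n - 1)
    (by split_ifs <;> simp)
  refine spec_abc Nat.prime_two (pow_zmod m 2) c u _ (fun x => ?_) ?_
  swap
  · obtain ⟨w, hw⟩ := hdec y y1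
    exact ⟨w, (Nat.dvd_lcm_right _ _).trans hw⟩
  by_cases hx : 2 ∣ orderOf x
  · exact Or.inl ⟨x, Nat.lcm_dvd dvd_rfl hx⟩
  have hx' : (orderOf x).Coprime 2 := ((Nat.prime_two.coprime_iff_not_dvd).2 hx).symm
  obtain ⟨g, rfl⟩ := QuotientGroup.mk_surjective x
  rcases id_single rfl (spForm_nondeg n) (M.iso g) with h | ⟨k, hk, ⟨e, -, e2, e3⟩ | ⟨j, N, G0, hj, e1, e2, e3, e4⟩⟩
  · exact Or.inl (hdec g h)
  · rw [finrank_sum_fun] at e3
    have key : ∀ i, k ≤ p ^ i → orderOf (QuotientGroup.mk g : PSp n F) ∣ p ^ i := fun i hi => by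
      simpa using (M.ord_dvd g (1 * p ^ i)).2 ⟨_, pow_iff_dvd.2 (e2 ▸ pow_dvd_frob p (t := 1) (c := e) (by simp) hi)⟩
    by_cases hk2 : k ≤ p ^ Nat.clog p (2 * (n - 1))
    · obtain ⟨w, hw⟩ := hdec y y1
      exact Or.inl ⟨w, (Nat.lcm_dvd (((key _ hk2).trans y2).trans (Nat.dvd_lcm_left _ _))
        (Nat.dvd_lcm_right _ _)).trans hw⟩
    · have l1 := Nat.le_pow_clog hp.one_lt (2 * (n - 1))
      obtain ⟨b, hb⟩ : Odd (p ^ Nat.clog p (2 * (n - 1))) := (hp.odd_of_ne_two hp2).pow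
      exact Or.inr (Or.inr ⟨⟨Nat.clog p (2 * (n - 1)), by omega⟩,
        (key _ (e3.trans (Nat.le_pow_clog hp.one_lt _))).trans hu⟩)
  rw [finrank_sum_fun] at e1
  have key : ∀ i, k ≤ p ^ i → orderOf (QuotientGroup.mk g : PSp n F) ∣ N * p ^ i := fun i hi =>
    (M.ord_dvd _ _).2 ⟨_, pow_iff_dvd.2 (e3.trans (pow_dvd_frob p (c := 1) (by simpa using e4) hi))⟩
  by_cases hjn : j = n
  · subst hjn
    have hk1 : k = 1 := by nlinarith
    have k1 := key 0 (by simp [hk1])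
    rw [pow_zero, mul_one] at k1
    by_cases h4 : 4 ∣ N
    · obtain ⟨w, hw⟩ := htor N (by rcases e2 with rfl | rfl <;> simp)
      exact Or.inl ⟨w, Nat.lcm_dvd (hx'.dvd_of_dvd_mul_right (k1.trans hw))
        (Nat.dvd_of_mul_dvd_mul_right two_pos (h4.trans hw))⟩
    · refine Or.inr (Or.inl (hx'.dvd_of_dvd_mul_right (k1.trans (Dvd.dvd.trans ?_ hc))))
      split_ifs with h5
      · obtain ⟨b, rfl⟩ := h5
        rcases e2 with rfl | rfl
        · rfl
        · omega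
      · obtain ⟨b, rfl⟩ := Nat.not_even_iff_odd.1 h5
        rcases e2 with rfl | rfl
        · omega
        · rfl
  have hlt : j < n := lt_of_le_of_ne (by nlinarith) hjn
  obtain ⟨R, r1, -, r2, -⟩ := id_torus (P := FP.symp F) rfl hj (M := N)
    (by rcases e2 with rfl | rfl <;> simp)
  obtain ⟨z, -, k1, k2⟩ := M.ex ((r1.add (symp_unip h2 (l := n - j) (by omega))).congr (m := 2 * n)
    (by omega) (fun _ _ => Iff.rfl) rfl id).toSp False.elim
  obtain ⟨d, hd⟩ := (k2 _).1 dvd_rfl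
  obtain ⟨rfl, c2⟩ := unip_dvd p (by omega) hd.2
  obtain ⟨w, hw⟩ := hdec z (k1 ⟨by omega, by omega⟩)
  refine Or.inl ⟨w, (Nat.lcm_dvd ?_ (Nat.dvd_lcm_right _ _)).trans hw⟩
  have hk3 : k ≤ 2 * (n - j) := by
    rcases Nat.lt_or_ge k 2 with h | h
    · omega
    · have : j + k ≤ j * k + 1 := by nlinarith
      have : j * k ≤ n := by nlinarith
      omega
  refine (key _ (hk3.trans (Nat.le_pow_clog hp.one_lt _))).trans
    (Dvd.dvd.trans ?_ (Nat.dvd_lcm_left _ _))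
  refine Nat.Coprime.mul_dvd_of_dvd_of_dvd (Nat.Coprime.pow_right _
    ((hp.coprime_iff_not_dvd).2 ?_).symm) ((r2 _).1 hd.1) c2
  rcases e2 with rfl | rfl
  · intro h
    exact hp.one_lt.ne' (Nat.dvd_one.1 ((Nat.dvd_add_right
      (dvd_pow (CfsgL0.GLn.dvd_card p) hj.ne')).1 h))
  · exact CfsgL0.GLn.not_dvd_card_pow p hj

end Cfsg.Agent.S2512
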