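import Cfsg.Statements.S2513
import Mathlib
import Cfsg.Agent.L0.GLn1

set_option autoImplicit false
open Cfsg

namespace Cfsg.Agent.S2513

open CfsgL0.GLn Module

theorem aux {F : Type*} [Field F] [Fintype F] (hF : Fintype.card F = 2) (n k : ℕ) (hn : 2 ≤ n) (hk : (n + 3) / 2 ≤ k) :
    Set.range (orderOf : (Fin k → Matrix.ProjectiveSpecialLinearGroup (Fin n) F) → ℕ) =
      {d | d ∣ Monoid.exponent (Matrix.ProjectiveSpecialLinearGroup (Fin n) F)} := by
  have hc : Nat.card F = 2 := by rw [Nat.card_eq_fintype_card, hF]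
  have hu : ∀ c : F, c ≠ 0 → c = 1 := fun c h => by
    have := FiniteField.pow_card_sub_one_eq_one c h
    rwa [hF, pow_one] at this
  haveI : Nonempty (Fin n) := ⟨⟨0, by omega⟩⟩
  have hmk : ∀ (g : Matrix.SpecialLinearGroup (Fin n) F),
      orderOf (QuotientGroup.mk g : Matrix.ProjectiveSpecialLinearGroup (Fin n) F) =
        orderOf (g : Matrix (Fin n) (Fin n) F) := fun g => by
    rw [orderOf_eq_orderOf_iff]
    intro m
    rw [psl_pow_eq_one]
    refine ⟨?_, fun h => ⟨1, by rw [h, map_one]⟩⟩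
    rintro ⟨c, hc⟩
    have h0 : c ≠ 0 := by
      rintro rfl
      have := (g ^ m).det_coe
      rw [Matrix.SpecialLinearGroup.coe_pow, hc, map_zero, Matrix.det_zero] at this
      exact zero_ne_one this
    rw [hc, hu c h0, map_one]
  have hs : ∀ j, ∃ x : Matrix.ProjectiveSpecialLinearGroup (Fin n) F, 0 < j → j ≤ n → orderOf x = 2 ^ j - 1 := by
    intro j
    by_cases hj : 0 < j ∧ j ≤ n
    · obtain ⟨K, _, _, _, h1, h2⟩ := exists_ext (F := F) hj.1
      obtain ⟨a, ha0, ha⟩ := exists_orderOf_of_dvd K (dvd_refl _)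
      haveI : Module.Finite F K := Module.Finite.of_finite
      obtain ⟨g, hg, -⟩ := exists_SL (F := F) (K × (Fin (n - j) → F)) (n := n) (by simp [h1]; omega) (a, 1) (by
        rw [norm_pair, map_one, mul_one]
        exact hu _ (Algebra.norm_ne_zero_iff.2 ha0))
      refine ⟨QuotientGroup.mk g, fun _ _ => ?_⟩
      rw [hmk, ← hc, ← h2, ← ha, orderOf_eq_orderOf_iff]
      intro m
      rw [← Matrix.SpecialLinearGroup.coe_pow, ← Matrix.SpecialLinearGroup.coe_one, ← sl_inj, hg]
      simp [Prod.ext_iff]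
    · exact ⟨1, fun h1 h2 => absurd ⟨h1, h2⟩ hj⟩
  choose s hs using hs
  obtain ⟨u, hu2⟩ := Nat.prime_two.exists_orderOf_eq_pow_factorization_exponent
    (Matrix.ProjectiveSpecialLinearGroup (Fin n) F)
  let y : Fin k → Matrix.ProjectiveSpecialLinearGroup (Fin n) F := fun t => if t.val = 0 then u else s (n / 2 + t.val)
  have hE : Monoid.exponent (Matrix.ProjectiveSpecialLinearGroup (Fin n) F) ≠ 0 := Monoid.exponent_ne_zero_of_finite
  have hy : Monoid.exponent (Matrix.ProjectiveSpecialLinearGroup (Fin n) F) ∣ orderOf y := by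
    rw [Nat.dvd_iff_prime_pow_dvd_dvd]
    intro r a hr ha
    have ha' := (hr.pow_dvd_iff_le_factorization hE).1 ha
    by_cases h2 : r = 2
    · subst h2
      refine (pow_dvd_pow 2 ha').trans (hu2 ▸ ?_)
      have := orderOf_apply_dvd_orderOf (x := y) ⟨0, by omega⟩
      simpa [y] using this
    rcases Nat.eq_zero_or_pos a with rfl | ha0
    · simp
    obtain ⟨g, hg⟩ := hr.exists_orderOf_eq_pow_factorization_exponent (Matrix.ProjectiveSpecialLinearGroup (Fin n) F)
    obtain ⟨g, rfl⟩ := QuotientGroup.mk_surjective g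
    obtain ⟨b, hb⟩ : ∃ b, (Monoid.exponent (Matrix.ProjectiveSpecialLinearGroup (Fin n) F)).factorization r = b + 1 :=
      ⟨_, (Nat.sub_add_cancel (ha0.trans_le ha')).symm⟩
    rw [hmk, hb] at hg
    obtain ⟨i, hi1, hi2, hi⟩ := prime_pow_dvd (F := F) hr (by
      intro h
      have h2' : ((2 : ℕ) : F) = 0 := by rw [← hF]; exact FiniteField.cast_card_eq_zero F
      have := ((Nat.coprime_primes hr Nat.prime_two).2 h2).cast (R := F)
      rw [h, h2'] at this
      exact not_isCoprime_zero_zero this) hg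
    rw [hc] at hi
    have hj1 : i * (n / i) ≤ n := Nat.mul_div_le n i
    have hj2 : n < i * (n / i) + i := by
      have := Nat.div_add_mod n i
      have := Nat.mod_lt n hi1
      omega
    have hj3 : i ≤ i * (n / i) := Nat.le_mul_of_pos_right i (Nat.div_pos hi2 hi1)
    have hd : 2 ^ i - 1 ∣ 2 ^ (i * (n / i)) - 1 := Nat.pow_sub_one_dvd_pow_sub_one _ (dvd_mul_right _ _)
    generalize i * (n / i) = j at hj1 hj2 hj3 hd
    refine (pow_dvd_pow r (hb ▸ ha')).trans (hi.trans (hd.trans ?_))
    have := orderOf_apply_dvd_orderOf (x := y) ⟨j - n / 2, by omega⟩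
    simp only [y] at this
    rw [if_neg (by omega), show n / 2 + (j - n / 2) = j by omega, hs j (by omega) hj1] at this
    exact this
  ext d
  constructor
  · rintro ⟨x, rfl⟩
    refine orderOf_dvd_of_pow_eq_one (funext fun t => ?_)
    exact Monoid.pow_exponent_eq_one (x t)
  · intro hd
    exact ⟨y ^ (orderOf y / d), orderOf_pow_orderOf_div (orderOf_pos y).ne' (hd.trans hy)⟩

/-- Let F be the field with two elements, n ≥ 2, L = PSL(n, F) and k₀ = ⌊(n + 3)/2⌋. Then for every k ≥ k₀ the direct product of k copies of L has the same set of element orders as the direct product of k₀ copies of L. -/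
theorem result {F : Type*} [Field F] [Fintype F] (hF : Fintype.card F = 2) (n k : ℕ) (hn : 2 ≤ n) (hk : (n + 3) / 2 ≤ k) :
    Set.range (orderOf : (Fin k → Matrix.ProjectiveSpecialLinearGroup (Fin n) F) → ℕ) = Set.range (orderOf : (Fin ((n + 3) / 2) → Matrix.ProjectiveSpecialLinearGroup (Fin n) F) → ℕ) := by
  rw [aux hF n k hn hk, aux hF n _ hn le_rfl]

end Cfsg.Agent.S2513
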