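import Cfsg.Statements.S2514
import Cfsg.Agent.H3.Hv1
import Cfsg.Agent.H3.Mz

set_option autoImplicit false
open Cfsg

namespace Cfsg.Agent.S2514
open CfsgMz
theorem mx {G : Type*} [Group G] [Finite G] (x : G) : ∃ n, orderOf x ∣ n ∧ n ∈ Set.range (orderOf : G → ℕ) ∧
    ∀ m ∈ Set.range (orderOf : G → ℕ), n ∣ m → m = n := by
  obtain ⟨y, h1, h2⟩ := Set.exists_max_image {y : G | orderOf x ∣ orderOf y} orderOf (Set.toFinite _) ⟨x, dvd_rfl⟩
  refine ⟨_, h1, ⟨y, rfl⟩, ?_⟩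
  rintro _ ⟨z, rfl⟩ h
  exact le_antisymm (h2 z (dvd_trans h1 h)) (Nat.le_of_dvd (orderOf_pos z) h)

/-- For a finite group X write μ(X) for the set of element orders of X that are maximal under divisibility. Let G and H be finite groups and k ≥ 1 such that μ(H) ⊆ μ(G) and μ(G) has fewer than k elements outside μ(H). Then the direct product of k copies of G has the same set of element orders as the direct product of k − 1 copies of G with H. -/
theorem result {G H : Type*} [Group G] [Finite G] [Group H] [Finite H] (k : ℕ) (hk : 1 ≤ k)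
    (hsub : {n : ℕ | n ∈ Set.range (orderOf : H → ℕ) ∧ ∀ m ∈ Set.range (orderOf : H → ℕ), n ∣ m → m = n} ⊆ {n : ℕ | n ∈ Set.range (orderOf : G → ℕ) ∧ ∀ m ∈ Set.range (orderOf : G → ℕ), n ∣ m → m = n})
    (hfew : ({n : ℕ | n ∈ Set.range (orderOf : G → ℕ) ∧ ∀ m ∈ Set.range (orderOf : G → ℕ), n ∣ m → m = n} \ {n : ℕ | n ∈ Set.range (orderOf : H → ℕ) ∧ ∀ m ∈ Set.range (orderOf : H → ℕ), n ∣ m → m = n}).ncard < k) :
    Set.range (orderOf : (Fin k → G) → ℕ) = Set.range (orderOf : (Fin (k - 1) → G) × H → ℕ) := by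
  obtain ⟨k, rfl⟩ := Nat.exists_eq_add_of_le' hk
  show _ = Set.range (orderOf : (Fin k → G) × H → ℕ)
  ext n
  constructor
  · rintro ⟨g, rfl⟩
    choose m m1 m2 using fun i => mx (g i)
    by_cases h : ∃ i, m i ∈ Set.range (orderOf : H → ℕ)
    · obtain ⟨i, y, hy⟩ := h
      obtain ⟨z, hz⟩ := exists_order_of_dvd (x := y) (hy ▸ m1 i)
      refine ⟨(fun j => g (i.succAbove j), z), orderOf_eq_orderOf_iff.2 fun n => ?_⟩
      simp only [Prod.pow_mk, Prod.mk_eq_one, funext_iff, Pi.pow_apply, Pi.one_apply, Fin.forall_iff_succAbove i]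
      rw [← orderOf_dvd_iff_pow_eq_one (x := z), ← orderOf_dvd_iff_pow_eq_one (x := g i), hz, and_comm]
    push Not at h
    obtain ⟨i, j, ij, e⟩ : ∃ i j, i ≠ j ∧ m i = m j := by
      by_contra h2; push Not at h2
      refine hfew.not_ge (le_trans ?_ (Set.ncard_le_ncard_of_injOn (s := Set.univ) m
        (fun i _ => ⟨m2 i, fun a => h i a.1⟩) (fun i _ j _ e => by_contra fun a => h2 i j a e)
        (((Set.finite_range (orderOf : G → ℕ)).subset fun _ a => a.1.1))))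
      rw [Set.ncard_univ, Nat.card_eq_fintype_card, Fintype.card_fin]
    obtain ⟨y, hy⟩ := (m2 i).1
    obtain ⟨z, hz⟩ := exists_order_of_dvd (x := y) (n := (orderOf (g i)).lcm (orderOf (g j)))
      (hy ▸ Nat.lcm_dvd (m1 i) (e ▸ m1 j))
    obtain ⟨j, rfl⟩ := Fin.exists_succAbove_eq ij.symm
    refine ⟨(Function.update (fun j => g (i.succAbove j)) j z, 1), orderOf_eq_orderOf_iff.2 fun n => ?_⟩
    simp only [Prod.pow_mk, Prod.mk_eq_one, funext_iff, Pi.pow_apply, Pi.one_apply, Fin.forall_iff_succAbove i,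
      one_pow, and_true]
    rw [Function.forall_update_iff _ fun _ x => x ^ n = 1, ← orderOf_dvd_iff_pow_eq_one (x := z), hz, Nat.lcm_dvd_iff, orderOf_dvd_iff_pow_eq_one,
      orderOf_dvd_iff_pow_eq_one]
    exact ⟨fun h => ⟨h.1.1, fun l => (eq_or_ne l j).elim (fun e => e ▸ h.1.2) (h.2 l)⟩,
      fun h => ⟨⟨h.1, h.2 j⟩, fun l _ => h.2 l⟩⟩
  · rintro ⟨⟨g, h⟩, rfl⟩
    obtain ⟨m, m1, m2⟩ := mx h
    obtain ⟨y, hy⟩ := (hsub m2).1
    obtain ⟨z, hz⟩ := exists_order_of_dvd (x := y) (hy ▸ m1)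
    refine ⟨Fin.cons z g, orderOf_eq_orderOf_iff.2 fun n => ?_⟩
    simp only [Prod.pow_mk, Prod.mk_eq_one, funext_iff, Pi.pow_apply, Pi.one_apply, Fin.forall_fin_succ,
      Fin.cons_zero, Fin.cons_succ]
    rw [← orderOf_dvd_iff_pow_eq_one (x := z), ← orderOf_dvd_iff_pow_eq_one (x := h), hz, and_comm]


end Cfsg.Agent.S2514
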