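import Mathlib
import Cfsg.Statements.S2516

set_option autoImplicit false
open Cfsg

namespace Cfsg.Agent.S2516


/-- Let F be a field of characteristic p > 0, V a non-zero finite-dimensional F-vector space, G a finite group and ρ a representation of G on V; form the semidirect product V ⋊ G. For g ∈ G of order k, the coset Vg contains an element of order pk if and only if the minimal polynomial of ρ(g) does not divide 1 + X + ⋯ + X^(k−1). -/
theorem result {F : Type*} [Field F] (p : ℕ) [Fact p.Prime] [CharP F p] {V : Type*} [AddCommGroup V] [Module F V] [FiniteDimensional F V] [Nontrivial V]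
    {G : Type*} [Group G] [Finite G] (ρ : Representation F G V) (g : G) :
    (∃ x : Multiplicative V ⋊[(MulAutMultiplicative V).symm.toMonoidHom.comp
        ((DistribMulAction.toAddAut ((V →ₗ[F] V)ˣ) V).comp ρ.asGroupHom)] G,
        x.right = g ∧ orderOf x = p * orderOf g) ↔
      ¬ (minpoly F (ρ g) ∣ ∑ i ∈ Finset.range (orderOf g), (Polynomial.X : Polynomial F) ^ i) := by
  haveI hp : p.Prime := Fact.out
  set φ := (MulAutMultiplicative V).symm.toMonoidHom.comp ((DistribMulAction.toAddAut ((V →ₗ[F] V)ˣ) V).comp ρ.asGroupHom)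
  have k : ∀ (x : Multiplicative V ⋊[φ] G) (n : ℕ), (x ^ n).left.toAdd =
      Polynomial.aeval (ρ x.right) (∑ i ∈ Finset.range n, (Polynomial.X : Polynomial F) ^ i) x.left.toAdd := fun x n => by
    induction n with
    | zero => simp
    | succ n ih =>
      rw [pow_succ, SemidirectProduct.mul_left, toAdd_mul, ih, Finset.sum_range_succ, map_add, LinearMap.add_apply,
        show (x ^ n).right = x.right ^ n from map_pow SemidirectProduct.rightHom x n, map_pow (Polynomial.aeval _), Polynomial.aeval_X,
        ← map_pow ρ]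
      rfl
  have r : ∀ x : Multiplicative V ⋊[φ] G, x.right = g → x ^ orderOf g = .inl (x ^ orderOf g).left := fun x h =>
    SemidirectProduct.ext rfl ((map_pow SemidirectProduct.rightHom x _).trans (h ▸ pow_orderOf_eq_one _))
  rw [minpoly.dvd_iff]
  refine ⟨fun ⟨x, h, o⟩ e => ?_, fun n => ?_⟩
  · have : x ^ orderOf g = 1 := by
      rw [r x h, show (x ^ orderOf g).left = 1 from (k x _).trans (by rw [h, e]; rfl), map_one]
    have := Nat.le_of_dvd (orderOf_pos g) (o ▸ orderOf_dvd_of_pow_eq_one this)
    nlinarith [hp.two_le, orderOf_pos g]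
  · obtain ⟨v, hv⟩ := DFunLike.ne_iff.1 n
    refine ⟨⟨.ofAdd v, g⟩, rfl, ?_⟩
    have d : orderOf g ∣ orderOf (⟨.ofAdd v, g⟩ : Multiplicative V ⋊[φ] G) := orderOf_map_dvd SemidirectProduct.rightHom _
    have : orderOf ((⟨.ofAdd v, g⟩ : Multiplicative V ⋊[φ] G) ^ orderOf g) = p := orderOf_eq_prime (by
      rw [r _ rfl, ← map_pow]
      exact (congrArg _ (show (p • _ : V) = 0 by rw [← Nat.cast_smul_eq_nsmul F, CharP.cast_eq_zero, zero_smul])).trans (map_one _))
      fun e => hv ((k _ _).symm.trans (congrArg (·.left.toAdd) e))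
    rw [orderOf_pow' _ (orderOf_pos g).ne', Nat.gcd_eq_right d] at this
    rw [← this, Nat.div_mul_cancel d]

end Cfsg.Agent.S2516
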