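import Cfsg.Statements.S2531
import Cfsg.Agent.H1.Sn5

set_option autoImplicit false
open Cfsg

namespace Cfsg.Agent.S2531

section
open Projectivization
open scoped commutatorElement

variable {F V : Type*} [Field F] [AddCommGroup V] [Module F V]

theorem rep_mem (W : Submodule F V) (v : V) (hv : v ≠ 0) : (mk F v hv).rep ∈ W ↔ v ∈ W := by
  obtain ⟨a, e⟩ := exists_smul_eq_mk_rep F v hv
  rw [← e, Units.smul_def, W.smul_mem_iff a.ne_zero]

theorem card_pts [Finite F] [Finite V] (W : Submodule F V) (h : W ≠ ⊥) :
    (Nat.card {p : Projectivization F V // p.rep ∈ W} : ZMod (Nat.card F)) = 1 := by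
  have h1 := congrArg (Nat.cast : ℕ → ZMod (Nat.card F)) (card' F W)
  rw [Module.natCard_eq_pow_finrank (K := F) (V := W), Nat.card_congr (Equiv.ofBijective (fun p : Projectivization F W =>
    (⟨map W.subtype W.injective_subtype p, by rw [← p.mk_rep, map_mk, rep_mem]; exact p.rep.2⟩ :
      {p : Projectivization F V // p.rep ∈ W})) ⟨fun a b e => map_injective W.subtype W.injective_subtype (congrArg Subtype.val e), fun p =>
        ⟨mk F ⟨_, p.2⟩ fun e => p.1.rep_nonzero (congrArg Subtype.val e), Subtype.ext p.1.mk_rep⟩⟩)] at h1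
  simp [Nat.cast_sub (Nat.card_pos (α := F)), zero_pow (mt Submodule.finrank_eq_zero.1 h)] at h1
  linear_combination h1

end

/-- Let `F` be a finite field and `n ≥ 3`. No set of permutations of the points of the projective space of `Fⁿ`, each induced by an invertible semilinear transformation of `Fⁿ` (so a subset of the full projective semilinear group), is sharply 2-transitive on the points: it is impossible that for all pairs of distinct points `(a, b)` and `(c, d)` exactly one member of the set sends `a` to `c` and `b` to `d`. -/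
theorem result {F : Type*} [Field F] [Finite F]
    (n : ℕ) (hn : 3 ≤ n) (S : Set (Equiv.Perm (Projectivization F (Fin n → F))))
    (hS : ∀ s ∈ S, ∃ (σ : F ≃+* F) (f : (Fin n → F) →ₛₗ[(σ : F →+* F)] (Fin n → F)) (hf : Function.Injective f),
      ∀ x, s x = Projectivization.map f hf x) :
    ¬ (∀ a b c d : Projectivization F (Fin n → F), a ≠ b → c ≠ d →
        ∃! s, s ∈ S ∧ s a = c ∧ s b = d) := by
  open Projectivization in
  open scoped commutatorElement in
  · classical
    intro h
    have := Fintype.ofFinite F
    have := Fintype.ofFinite (Projectivization F (Fin n → F))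
    let i : Fin n := ⟨0, by omega⟩
    let W : Submodule F (Fin n → F) := LinearMap.ker (LinearMap.proj i)
    have h0 : (Pi.single i 1 : Fin n → F) ≠ 0 := by simp
    let x := mk F _ h0
    let B := Finset.univ.filter fun p : Projectivization F (Fin n → F) => p.rep ∈ W
    let T := Finset.univ.filter fun s => s ∈ S ∧ s x = x
    have h1 : x ∉ B := by rw [Finset.mem_filter_univ, rep_mem]; simp [W]
    have h2 : ∀ b ≠ x, ∀ D : Finset _, x ∉ D → (T.filter fun s => s b ∈ D).card = D.card := fun b hb D hD =>
      Finset.card_bij (fun s _ => s b) (fun s hs => (Finset.mem_filter.1 hs).2) (fun s hs t ht e => by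
        simp only [T, Finset.mem_filter, Finset.mem_univ, true_and] at hs ht
        exact (h x b x (s b) hb.symm fun a => hD (a ▸ hs.2)).unique ⟨hs.1.1, hs.1.2, rfl⟩ ⟨ht.1.1, ht.1.2, e.symm⟩) fun d hd => by
          obtain ⟨s, a, -⟩ := h x b x d hb.symm fun a => hD (a ▸ hd)
          exact ⟨s, by simp [T, a, hd], a.2.2⟩
    have h3 : ∀ s ∈ T, ((B.filter fun b => s b ∈ B).card : ZMod (Nat.card F)) = 1 := fun s hs => by
      obtain ⟨σ, f, hf, e⟩ := hS s (Finset.mem_filter.1 hs).2.1
      obtain ⟨u, v, a, b⟩ := Fintype.exists_ne_map_eq_of_card_lt (fun v : Fin n → F => (v i, f v i)) (by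
        simp only [Fintype.card_prod, Fintype.card_fun, Fintype.card_fin, ← sq]
        exact Nat.pow_lt_pow_right Fintype.one_lt_card hn)
      rw [← card_pts (W ⊓ W.comap f) fun c => a (sub_eq_zero.1 ((Submodule.eq_bot_iff _).1 c _ (by
        simpa [W, sub_eq_zero] using b))), Nat.card_eq_fintype_card (α := Subtype _), Fintype.card_subtype]
      congr 2
      ext p
      have : s p ∈ B ↔ f p.rep ∈ W := by rw [Finset.mem_filter_univ, e, ← p.mk_rep, map_mk, rep_mem, mk_rep]
      rw [Finset.mem_filter, this]
      simp [B]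
    have h4 : (B.card : ZMod (Nat.card F)) = 1 := by
      rw [← card_pts W fun c => by simpa using (Submodule.eq_bot_iff _).1 c (Pi.single ⟨1, by omega⟩ 1) (by simp [W, i]),
        Nat.card_eq_fintype_card (α := Subtype _), Fintype.card_subtype]
    obtain ⟨b, hb⟩ : B.Nonempty := Finset.nonempty_of_ne_empty fun e => by
      have : Fact (1 < Nat.card F) := ⟨Finite.one_lt_card⟩
      simp [e] at h4
    have h5 : (T.card : ZMod (Nat.card F)) = 0 := by
      have a := h2 b (fun e => h1 (e ▸ hb)) _ (Finset.notMem_erase x Finset.univ)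
      have c := card_pts (F := F) (V := Fin n → F) ⊤ fun c => h0 (c.le trivial)
      rw [Finset.filter_true_of_mem (s := T) fun s hs => Finset.mem_erase.2 ⟨fun e => h1 (Equiv.injective s
        (e.trans (Finset.mem_filter.1 hs).2.2.symm) ▸ hb), Finset.mem_univ _⟩, Finset.card_erase_of_mem (Finset.mem_univ _)] at a
      rw [a, Nat.cast_sub (Finset.card_pos.2 ⟨x, Finset.mem_univ _⟩)]
      simpa [sub_eq_zero] using c
    have h6 := congrArg (Nat.cast : ℕ → ZMod (Nat.card F)) (Finset.sum_card_bipartiteAbove_eq_sum_card_bipartiteBelow (s := T) (t := B) fun s b => s b ∈ B)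
    simp only [Finset.bipartiteAbove, Finset.bipartiteBelow] at h6
    rw [Nat.cast_sum, Finset.sum_congr rfl h3, Finset.sum_congr rfl fun b hb => h2 b (fun e => h1 (e ▸ hb)) B h1] at h6
    have : Fact (1 < Nat.card F) := ⟨Finite.one_lt_card⟩
    simp [h4, h5] at h6

end Cfsg.Agent.S2531
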