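import Mathlib
import Cfsg.Statements.S2534
import Cfsg.Agent.H8.Hs5

set_option autoImplicit false
open Cfsg

namespace Cfsg.Agent.S2534

open CfsgH8.Hs CfsgH1 CfsgH5.Sy Equiv Equiv.Perm

theorem key {n : ℕ} {π : Set ℕ} (h : IsDPiGroup π (alternatingGroup (Fin n))) (hn : NT π (Fintype.card (Fin n)))
    {ι : Type} [Fintype ι] [DecidableEq ι] {g : Fin n → ι} (hg : g.Surjective) {M : Multiset ℕ} (hM : Cs π n M)
    (h1 : ∀ p, p.Prime → ∀ k ∈ ty g, p ≤ k ∨ p ≤ (ty g).count k → p ∈ π) :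
    ∃ f : Fin n → Bool, ty f = M ∧ ∀ x ∈ Wf g, sign x = 1 → x ∈ Wf f := by
  obtain ⟨K, a, b⟩ := ex_max (π := π) (K := (Wf g).subgroupOf (alternatingGroup (Fin n))) fun p a b => by
    obtain ⟨k, c, d⟩ := prime_Wf hg a (b.trans (Subgroup.card_comap_dvd_of_injective _ _ (Subgroup.subtype_injective _)))
    exact h1 p a k c d
  obtain ⟨f, -, c, d⟩ := CL' (.inr rfl) (hallIn_top_iff.2 (hall_of_D h b)).map_subtype hn
  rw [Fintype.card_fin] at d
  exact ⟨f, d.uniq hM, fun x e e' => (c.le ⟨⟨x, e'⟩, a e, rfl⟩).2⟩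

theorem pair {α ι : Type} [Fintype α] [DecidableEq ι] {f : α → ι} {i : ι} (h : 1 < sz f i) :
    ∃ a b, a ≠ b ∧ f a = i ∧ f b = i := by
  obtain ⟨⟨a, c⟩, ⟨b, d⟩, e⟩ := Fintype.exists_pair_of_one_lt_card h
  exact ⟨a, b, fun g => e (Subtype.ext g), c, d⟩

/-- For `n ≥ 5` and a set of primes `π`, the alternating group of degree `n` satisfies the full Sylow analogue for `π` (its maximal `π`-subgroups are pairwise conjugate; for a finite group this says Hall `π`-subgroups exist, are all conjugate, and contain every `π`-subgroup up to conjugacy) if and only if either at most one prime of `π` divides its order or every prime dividing its order lies in `π`. -/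
theorem result (n : ℕ) (hn : 5 ≤ n) (π : Set ℕ) :
    Cfsg.IsDPiGroup π ↥(alternatingGroup (Fin n)) ↔
      ((∀ r s : ℕ, r.Prime → s.Prime → r ∈ π → s ∈ π → r ∣ Nat.card ↥(alternatingGroup (Fin n)) → s ∣ Nat.card ↥(alternatingGroup (Fin n)) → r = s) ∨
        ∀ r : ℕ, r.Prime → r ∣ Nat.card ↥(alternatingGroup (Fin n)) → r ∈ π) := by
  refine ⟨fun h => by_contra fun e => ?_, triv_D⟩
  have hn : NT π (Fintype.card (Fin n)) := by
    push Not at e
    obtain ⟨⟨r, s, a, b, c, d, e, f, g⟩, t, h, i, j⟩ := e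
    exact ⟨⟨r, s, a, b, g, c, d, a.dvd_factorial.1 (e.trans card_alt_dvd), b.dvd_factorial.1 (f.trans card_alt_dvd)⟩, t, h,
      h.dvd_factorial.1 (i.trans card_alt_dvd), j⟩
  obtain ⟨H, a⟩ := (C_of_D h).1
  obtain ⟨f0, -, -, hM⟩ := CL' (.inr rfl) (hallIn_top_iff.2 a).map_subtype hn
  rw [Fintype.card_fin] at hM
  generalize ty f0 = M at hM
  have n3 : ∀ p : ℕ, p ≤ 3 → p.Prime → p = 2 ∨ p = 3 := by decide
  rcases id hM with ⟨-, b, -, rfl⟩ | ⟨b, ⟨rfl, rfl⟩ | ⟨rfl, rfl⟩⟩
  · obtain ⟨g, g1, g2⟩ := ex_f (α := Fin n) (a := 2) (b := n - 2) (by omega) (by omega) (by simp; omega)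
    obtain ⟨f, f1, f2⟩ := key h hn g1 hM fun p c k d e => by
      have := Multiset.count_le_card k (ty g)
      generalize (ty g).count k = t at e this
      rw [g2] at d this
      simp at d this
      exact (b p c (by omega)).2 (by omega)
    have g3 : ∀ i, 1 < sz g i := fun i => by
      have := (mem_ty (f := g)).2 ⟨i, rfl⟩
      rw [g2] at this
      simp at this
      omega
    obtain ⟨i, hi⟩ := mem_ty.1 (show 1 ∈ ty f by simp [f1])
    obtain ⟨⟨x, rfl⟩, hx⟩ := Fintype.card_eq_one_iff.1 hi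
    obtain ⟨y, y1, y2⟩ : ∃ y, y ≠ x ∧ g x = g y := by
      obtain ⟨u, v, c, d, e⟩ := pair (g3 (g x))
      by_cases t : u = x
      · exact ⟨v, t ▸ c.symm, e.symm⟩
      · exact ⟨u, t, d.symm⟩
    obtain ⟨u, v, c, d, e⟩ := pair (g3 (!g x))
    have w := f2 _ (mul_mem (swap_W g y2) (swap_W g (d.trans e.symm))) (by simp [y1.symm, c])
    have w1 : (swap x y * swap u v) x = y := by
      rw [Perm.mul_apply, swap_apply_of_ne_of_ne (x := x) (by rintro rfl; simp at d) (by rintro rfl; simp at e), swap_apply_left]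
    generalize swap x y * swap u v = t at w w1
    have w2 : sz f (f y) = 1 := by
      rw [← hi, ← w1, ← sz_perm f t]
      exact Fintype.card_congr (Equiv.subtypeEquivRight fun z => (w z x).symm)
    have w3 : sz (sz f) 1 = 1 := by
      rw [← count_ty, f1]
      have : (1 : ℕ) ≠ n - 1 := by omega
      simp [this]
    obtain ⟨j, hj⟩ := Fintype.card_eq_one_iff.1 w3
    have w4 : f y = f x := congrArg Subtype.val ((hj ⟨_, w2⟩).trans (hj ⟨_, hi⟩).symm)
    exact y1 (congrArg Subtype.val (hx ⟨y, w4⟩))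
  · obtain ⟨f, f1, f2⟩ := key h hn (g := (![0, 0, 0, 1, 1, 1, 2] : Fin 7 → Fin 3)) (by decide) hM fun p c k d e => by
      have := Multiset.count_le_card k (ty (![0, 0, 0, 1, 1, 1, 2] : Fin 7 → Fin 3))
      generalize Multiset.count k (ty (![0, 0, 0, 1, 1, 1, 2] : Fin 7 → Fin 3)) = t at e this
      rw [show ty (![0, 0, 0, 1, 1, 1, 2] : Fin 7 → Fin 3) = {3, 3, 1} by decide +kernel] at d this
      simp at d this
      exact (b p c (by omega)).2 (n3 p (by omega) c)
    have w1 := f2 (swap 0 1 * swap 0 2) (show ∀ _ _, _ by decide +kernel) (by simp)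
    have w2 := f2 (swap 0 3 * swap 1 4 * swap 2 5 * swap 0 1) (show ∀ _ _, _ by decide +kernel) (by simp)
    change ∀ _ _, _ at w1 w2
    revert f1 w1 w2
    clear f2
    revert f
    decide +kernel
  · obtain ⟨f, f1, f2⟩ := key h hn (g := (![0, 0, 0, 1, 1, 1, 2, 2] : Fin 8 → Fin 3)) (by decide) hM fun p c k d e => by
      have := Multiset.count_le_card k (ty (![0, 0, 0, 1, 1, 1, 2, 2] : Fin 8 → Fin 3))
      generalize Multiset.count k (ty (![0, 0, 0, 1, 1, 1, 2, 2] : Fin 8 → Fin 3)) = t at e this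
      rw [show ty (![0, 0, 0, 1, 1, 1, 2, 2] : Fin 8 → Fin 3) = {3, 3, 2} by decide +kernel] at d this
      simp at d this
      exact (b p c (by omega)).2 (n3 p (by omega) c)
    have w1 := f2 (swap 0 1 * swap 0 2) (show ∀ _ _, _ by decide +kernel) (by simp)
    have w2 := f2 (swap 3 4 * swap 3 5) (show ∀ _ _, _ by decide +kernel) (by simp)
    have w3 := f2 (swap 0 1 * swap 6 7) (show ∀ _ _, _ by decide +kernel) (by simp)
    change ∀ _ _, _ at w1 w2 w3
    revert f1 w1 w2 w3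
    clear f2
    revert f
    decide +kernel

end Cfsg.Agent.S2534
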