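import Mathlib
import Cfsg.Statements.S2536
import Cfsg.Agent.H8.Hs5

set_option autoImplicit false
open Cfsg

namespace Cfsg.Agent.S2536

open CfsgH8.Hs CfsgH1

/-- Let `π` be a set of primes and `n` a natural number such that at least two primes of `π` divide `n!` but not every prime dividing `n!` lies in `π`. Then the symmetric group of degree `n` has a Hall `π`-subgroup if and only if either `n` is prime and the primes of `π` dividing `n!` are exactly the primes smaller than `n` (a point stabilizer is then such a subgroup), or `n ∈ {7, 8}` and the primes of `π` dividing `n!` are exactly 2 and 3. -/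
theorem result (n : ℕ) (π : Set ℕ)
    (h2 : ∃ r s : ℕ, r.Prime ∧ s.Prime ∧ r ≠ s ∧ r ∈ π ∧ s ∈ π ∧ r ≤ n ∧ s ≤ n)
    (hns : ∃ r : ℕ, r.Prime ∧ r ≤ n ∧ r ∉ π) :
    Cfsg.IsEPiGroup π (Equiv.Perm (Fin n)) ↔
      ((n.Prime ∧ ∀ r : ℕ, r.Prime → r ≤ n → (r ∈ π ↔ r < n)) ∨
       ((n = 7 ∨ n = 8) ∧ ∀ r : ℕ, r.Prime → r ≤ n → (r ∈ π ↔ (r = 2 ∨ r = 3)))) := by
  have hn : NT π (Fintype.card (Fin n)) := by rw [Fintype.card_fin]; exact ⟨h2, hns⟩
  refine ⟨fun ⟨H, a⟩ => ?_, fun a => ?_⟩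
  · obtain ⟨f, -, -, b⟩ := CL' (.inl rfl) (hallIn_top_iff.2 a) hn
    rw [Fintype.card_fin] at b
    exact b.imp (fun b => ⟨b.1, b.2.1⟩) fun b => ⟨b.2.imp And.left And.left, b.1⟩
  · obtain ⟨M, b⟩ : ∃ M, Cs π (Fintype.card (Fin n)) M := by
      rw [Fintype.card_fin]
      rcases a with ⟨a, b⟩ | ⟨a | a, b⟩
      · refine ⟨_, .inl ⟨a, b, ?_, rfl⟩⟩
        obtain ⟨r, s, r1, s1, c, r2, s2, r3, s3⟩ := h2
        have := (b r r1 r3).1 r2
        have := (b s s1 s3).1 s2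
        have := r1.two_le
        have := s1.two_le
        omega
      · exact ⟨_, .inr ⟨b, .inl ⟨a, rfl⟩⟩⟩
      · exact ⟨_, .inr ⟨b, .inr ⟨a, rfl⟩⟩⟩
    obtain ⟨K, c⟩ := ex_hall (.inl rfl) b
    exact ⟨K, hallIn_top_iff.1 c⟩

end Cfsg.Agent.S2536
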