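import Mathlib
import Cfsg.Statements.S2538
import Cfsg.Agent.H8.Hs5

set_option autoImplicit false
open Cfsg

namespace Cfsg.Agent.S2538

open CfsgH8.Hs CfsgH1

/-- For every `n` and every set of primes `π`, a subgroup of the alternating group of degree `n` is a Hall `π`-subgroup of it if and only if it is the intersection with the alternating group of some Hall `π`-subgroup of the symmetric group of degree `n`. -/
theorem result (n : ℕ) (π : Set ℕ)
    (M : Subgroup ↥(alternatingGroup (Fin n))) :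
    Cfsg.IsPiHall π M ↔ ∃ M₀ : Subgroup (Equiv.Perm (Fin n)), Cfsg.IsPiHall π M₀ ∧ M = M₀.subgroupOf (alternatingGroup (Fin n)) := by
  refine ⟨fun a => ?_, fun ⟨H, a, b⟩ => b ▸ hall_inf a⟩
  obtain ⟨H, b⟩ := E_iff.2 ⟨M, a⟩
  obtain ⟨g, rfl⟩ := (C_alt ⟨M, a⟩).2 _ M (hall_inf b) a
  refine ⟨_, hallIn_top_iff.1 ((hallIn_top_iff.2 b).smul_of_mem (Subgroup.mem_top g.1)), Subgroup.ext fun x => ?_⟩
  rw [Subgroup.mem_map_equiv, Subgroup.mem_subgroupOf, Subgroup.mem_subgroupOf, Subgroup.mem_pointwise_smul_iff_inv_smul_mem]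
  rfl

end Cfsg.Agent.S2538
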