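import Cfsg.Statements.S2551
import Cfsg.Agent.H1.Sn4
import Cfsg.Agent.S0256
import Cfsg.Agent.H5.SLBasic

set_option autoImplicit false
open Cfsg

namespace Cfsg.Agent.S2551

section
open CfsgH1 CfsgH1.Sn Equiv Equiv.Perm MulAction
open scoped commutatorElement

variable {F : Type*} [Field F] [Fintype F]

/-- The element fixes a hyperplane pointwise. -/
def Tv (t : GL (Fin 4) F) : Prop := ∃ φ : (Fin 4 → F) →+ F, ∀ x, φ x = 0 → t • x = x

omit [Fintype F] in
theorem Tv.conj {t : GL (Fin 4) F} (h : Tv t) (g : GL (Fin 4) F) : Tv (g * t * g⁻¹) := by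
  obtain ⟨φ, h⟩ := h
  exact ⟨φ.comp (DistribSMul.toAddMonoidHom _ g⁻¹), fun x hx => by rw [mul_smul, mul_smul, h (g⁻¹ • x) hx, smul_inv_smul]⟩

theorem Tv.five (hF : Fintype.card F = 2) {s t : GL (Fin 4) F} (hs : Tv s) (ht : Tv t) : orderOf (s * t) ≠ 5 := fun h => by
  classical
  have : Fact (Nat.Prime 5) := ⟨Nat.prime_five⟩
  obtain ⟨φ, hs⟩ := hs
  obtain ⟨ψ, ht⟩ := ht
  obtain ⟨x, y, h1, h2⟩ := Fintype.exists_ne_map_eq_of_card_lt (φ.prod ψ) (by simp [hF])
  rw [← sub_eq_zero, ← map_sub, Prod.ext_iff] at h2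
  have h3 := (IsPGroup.of_card (n := 1) (by rw [Nat.card_zpowers, h]; rfl) :
    IsPGroup 5 (Subgroup.zpowers (s * t))).card_modEq_card_fixedPoints (Fin 4 → F)
  let A := FixedPoints.addSubgroup (Subgroup.zpowers (s * t)) (Fin 4 → F)
  have h4 : Nat.card (Fin 4 → F) = 16 := by simp [hF]
  have h5 : Nat.card A ∣ 16 := h4 ▸ A.card_addSubgroup_dvd_card
  have h6 : 1 < Nat.card A := Finite.one_lt_card_iff_nontrivial.2 ⟨⟨x - y, fun g => mem_stabilizer_iff.1
    ((Subgroup.zpowers_le (H := stabilizer _ (x - y))).2 (show (s * t) • (x - y) = _ by rw [mul_smul, ht _ h2.2, hs _ h2.1]) g.2)⟩, 0,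
    fun e => h1 (sub_eq_zero.1 (congrArg Subtype.val e))⟩
  have h7 : 16 % 5 = Nat.card A % 5 := h4 ▸ h3
  have h8 : Nat.card A = 16 := by
    have := Nat.le_of_dvd (by norm_num) h5
    interval_cases Nat.card A <;> omega
  have h9 := AddSubgroup.eq_top_of_card_eq A (h8.trans h4.symm)
  rw [show s * t = 1 from Units.ext (Matrix.mulVec_injective (funext fun x => Eq.trans ((h9 ▸ AddSubgroup.mem_top x : x ∈ A)
    ⟨_, Subgroup.mem_zpowers _⟩) (Matrix.one_mulVec x).symm))] at h
  simp at h

/-- The elations with a fixed axis. -/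
def el : Multiplicative (F × F × F) →* GL (Fin 4) F := MonoidHom.toHomUnits
  { toFun a := !![1, 0, 0, a.toAdd.1; 0, 1, 0, a.toAdd.2.1; 0, 0, 1, a.toAdd.2.2; 0, 0, 0, 1]
    map_one' := by ext i j; fin_cases i <;> fin_cases j <;> rfl
    map_mul' a b := by ext i j; fin_cases i <;> fin_cases j <;> simp [Matrix.mul_apply, Fin.sum_univ_four, add_comm] }

omit [Fintype F] in
theorem el_fix (a : Multiplicative (F × F × F)) (x : Fin 4 → F) (h : x 3 = 0) : el a • x = x := by
  show (el a).1.mulVec x = x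
  ext i
  fin_cases i <;> simp [el, Matrix.mulVec, dotProduct, Fin.sum_univ_four, h]

omit [Fintype F] in
theorem el_inj : Function.Injective (el (F := F)) := fun a b e => by
  have e := fun i j => congrArg (fun g : GL (Fin 4) F => g.1 i j) e
  exact Prod.ext (e 0 3) (Prod.ext (e 1 3) (e 2 3))

theorem conj7 {x y : alternatingGroup (Fin 7)} (hx : orderOf x = 2) (hy : orderOf y = 2) : IsConj x y := by
  have key : ∀ z : alternatingGroup (Fin 7), orderOf z = 2 → z.1.cycleType = {2, 2} := fun z h => by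
    have ho : orderOf z.1 = 2 := by rwa [Subgroup.orderOf_coe]
    obtain ⟨k, hk⟩ := cycleType_prime_order (σ := z.1) (by rw [ho]; exact Nat.prime_two)
    have h1 := sum_cycleType_le z.1
    have h2 := even_of_alt z
    rw [ho] at hk
    rw [hk, Multiset.sum_replicate, smul_eq_mul] at h1 h2
    rw [Fintype.card_fin] at h1
    rw [Multiset.card_replicate, Nat.even_iff] at h2
    obtain rfl : k = 1 := by omega
    exact hk
  exact alternatingGroup.isConj_of (isConj_iff_cycleType_eq.2 ((key x hx).trans (key y hy).symm))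
    (by rw [← sum_cycleType, key x hx]; decide)

theorem cols (hF : Fintype.card F = 2) {v w : Fin 4 → F} (h1 : v ≠ 0) (h2 : w ≠ 0) (h3 : v ≠ w) :
    ∃ g : GL (Fin 4) F, g • Pi.single 0 1 = v ∧ g • Pi.single 1 1 = w := by
  have h4 : LinearIndependent F ![v, w] := (LinearIndependent.pair_iff' h1).2 fun a e => by
    have := FiniteField.pow_card a
    rw [hF, sq, mul_right_eq_self₀] at this
    rcases this with rfl | rfl
    exacts [h3 (by simpa using e), h2 (by simpa using e.symm)]
  obtain ⟨x, h5⟩ := exists_linearIndependent_snoc_of_lt_finrank h4 (by simp)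
  obtain ⟨y, h6⟩ := exists_linearIndependent_snoc_of_lt_finrank h5 (by simp)
  obtain ⟨g, hg⟩ := (Matrix.linearIndependent_cols_iff_isUnit (A := (Matrix.of (Fin.snoc (α := fun _ => Fin 4 → F)
    (Fin.snoc (α := fun _ => Fin 4 → F) ![v, w] x) y)).transpose)).1 h6
  exact ⟨g, (Matrix.mulVec_single_one _ _).trans (by rw [hg]; rfl), (Matrix.mulVec_single_one _ _).trans (by rw [hg]; rfl)⟩

end

/-- Let F be the field with 2 elements. GL_4(F) (≅ A_8) has a subgroup isomorphic to the alternating group A_7, and every such subgroup acts 2-transitively on the 15 non-zero vectors of F⁴: any ordered pair of distinct non-zero vectors is carried to any other by some element of the subgroup. -/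
theorem result {F : Type*} [Field F] [Fintype F] (hF : Fintype.card F = 2) : (∃ H : Subgroup (Matrix.GeneralLinearGroup (Fin 4) F), Nonempty (H ≃* alternatingGroup (Fin 7))) ∧ ∀ H : Subgroup (Matrix.GeneralLinearGroup (Fin 4) F), Nonempty (H ≃* alternatingGroup (Fin 7)) → ∀ v w v' w' : Fin 4 → F, v ≠ 0 → w ≠ 0 → v ≠ w → v' ≠ 0 → w' ≠ 0 → v' ≠ w' → ∃ g ∈ H, (g : Matrix (Fin 4) (Fin 4) F).mulVec v = v' ∧ (g : Matrix (Fin 4) (Fin 4) F).mulVec w = w' := by
  open CfsgH1 CfsgH1.Sn Equiv Equiv.Perm MulAction in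
  open scoped commutatorElement in
  · classical
    refine ⟨?_, fun H ⟨e⟩ => ?_⟩
    · obtain ⟨e⟩ := S0256.result hF
      have h1 : Subgroup.center (Matrix.SpecialLinearGroup (Fin 4) F) = ⊥ := Subgroup.card_eq_one.1 (by
        rw [CfsgH5.card_center_SL, Nat.card_eq_fintype_card, hF]; rfl)
      let φ := (Matrix.SpecialLinearGroup.toGL.comp ((QuotientGroup.quotientMulEquivOfEq h1).trans
        QuotientGroup.quotientBot).toMonoidHom).comp (e.symm.toMonoidHom.comp (altHom (viaEmbeddingHom Fin.castSuccEmb)))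
      exact ⟨φ.range, ⟨(MonoidHom.ofInjective ((Matrix.SpecialLinearGroup.toGL_injective.comp (MulEquiv.injective _)).comp
        (e.symm.injective.comp (altHom_inj (viaEmbeddingHom_injective _))))).symm⟩⟩
    have h1 : Disjoint H (el (F := F)).range := Subgroup.disjoint_def.2 fun {t} ht ⟨a, ha⟩ => by
      by_contra h2
      have := charP_of_card_eq_prime hF
      have h3 : orderOf (⟨t, ht⟩ : H) = 2 := by
        rw [← Subgroup.orderOf_coe]
        exact orderOf_eq_prime (show t ^ 2 = 1 by rw [← ha, ← map_pow, show a ^ 2 = 1 from Multiplicative.toAdd.injective (by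
          ext <;> simp [CharTwo.two_eq_zero]), map_one]) h2
      have h4 : ∀ x : alternatingGroup (Fin 7), orderOf x = 2 → Tv (e.symm x).1 := fun x hx => by
        obtain ⟨c, hc⟩ := isConj_iff.1 (e.symm.toMonoidHom.map_isConj (conj7 ((e.orderOf_eq _).trans h3) hx))
        have := Tv.conj (t := t) ⟨Pi.evalAddMonoidHom _ 3, ha ▸ el_fix a⟩ c
        rwa [show c.1 * t * c.1⁻¹ = (e.symm x).1 by simpa using congrArg Subtype.val hc] at this
      have : Fact (Nat.Prime 5) := ⟨Nat.prime_five⟩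
      refine (h4 ⟨swap 0 1 * swap 2 3, mem_alternatingGroup.2 (by decide)⟩ (orderOf_eq_prime (by decide) (by decide))).five hF
        (h4 ⟨swap 1 2 * swap 3 4, mem_alternatingGroup.2 (by decide)⟩ (orderOf_eq_prime (by decide) (by decide))) ?_
      rw [← Subgroup.coe_mul, Subgroup.orderOf_coe, ← map_mul, MulEquiv.orderOf_eq]
      exact orderOf_eq_prime (by decide) (by decide)
    have h2 := Subgroup.isComplement'_of_card_mul_and_disjoint (by
      rw [Nat.card_congr e.toEquiv, nat_card_alternatingGroup, ← Nat.card_congr (MonoidHom.ofInjective (f := el (F := F)) el_inj).toEquiv,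
        Matrix.card_GL_field]
      simp [hF, Fin.prod_univ_four, Nat.factorial]) h1
    have h3 : ∀ {v w : Fin 4 → F}, v ≠ 0 → w ≠ 0 → v ≠ w → ∃ g ∈ H, g • Pi.single 0 1 = v ∧ g • Pi.single 1 1 = w :=
      fun a b c => by
        obtain ⟨g, rfl, rfl⟩ := cols hF a b c
        obtain ⟨⟨h, _, a, rfl⟩, rfl⟩ := h2.2 g
        exact ⟨h, h.2, by rw [mul_smul, el_fix _ _ (by simp)], by rw [mul_smul, el_fix _ _ (by simp)]⟩
    intro v w v' w' a b c a' b' c'
    obtain ⟨g, hg, rfl, rfl⟩ := h3 a b c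
    obtain ⟨k, hk, rfl, rfl⟩ := h3 a' b' c'
    have h4 : ∀ x : Fin 4 → F, (k * g⁻¹) • g • x = k • x := fun x => by rw [mul_smul, inv_smul_smul]
    exact ⟨k * g⁻¹, mul_mem hk (inv_mem hg), h4 _, h4 _⟩

end Cfsg.Agent.S2551
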