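import Cfsg.Statements.S2683
import Cfsg.Agent.S2172
import Cfsg.Agent.S2680

set_option autoImplicit false
open Cfsg

namespace Cfsg.Agent.S2683

open CfsgH5 CfsgH5.CForm CfsgH5.In Module

open Classical in
theorem aux {F : Type*} [Field F] [Fintype F] [CharP F 2] {q : ℕ} (hF : Fintype.card F = q) {m s : ℕ} (h : Fintype.card F ≠ 2 ∨ m ≠ 2)
    (x : Cfsg.isometryGroup F ⇑(plusQ F m)) (hx : x ^ 2 = 1) (hs : (x.1.1 - 1).rank = s) : ∃ k a n N : _, m = s + k ∧ (a ↔ ∀ v, plusQ F m ((x.1.1 - 1).mulVec v) = 0) ∧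
      (if k = 0 ∧ a then 1 else 2) * Nat.card {g : Cfsg.Omega F ⇑(plusQ F m) // g.1 * x = x * g.1} = n * N ∧ (a → Even s) ∧ (s = 0 → a) ∧
      (∀ j, (s = 2 * j + 1 → n = spO q j) ∧ (s = 2 * j → a → n = spO q j) ∧ (s = 2 * j + 2 → ¬ a → n = q ^ (2 * j + 1) * spO q j)) ∧
      (a → N = q ^ (s * (2 * k) + s.choose 2) * if k = 0 then 1 else 2 * (q ^ (k * (k - 1)) * (q ^ k - 1) * ∏ i : Fin (k - 1), (q ^ (2 * ((i : ℕ) + 1)) - 1))) ∧
      ∀ r, s = r + 1 → ¬ a → N = 2 * (q ^ (r * (2 * k + 1) + r.choose 2) * spO q k) := by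
  have o : Iv _ (orthEquiv (plusQ F m) x).1 := iv_of (plusQ_nondeg F m) (fun _ => rfl) CharTwo.two_eq_zero (by rw [← map_pow, hx, map_one])
  rw [rank_eq (orthEquiv_apply (plusQ F m) x)] at hs
  have h1 := o.two_mul_le
  rw [finrank_sum_fun] at h1
  obtain ⟨k, rfl⟩ := Nat.exists_eq_add_of_le (show s ≤ m by omega)
  obtain ⟨n, n1, n2⟩ := cent_cases o
  rw [omega_cent (Fm.split_plus h) o (finrank_sum_fun _) _ rfl, hs] at n1
  rw [← hF, ← Nat.card_eq_fintype_card]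
  have ev := o.even
  rw [hs] at n2 ev
  refine ⟨k, _, n, _, rfl, S2172.alt_iff o, by simpa using n1, ev, fun e v => ?_, n2,
    fun a => fix_alt o (plusQ_isPlus _) a hs (finrank_sum_fun _), fun r e a => fix_non o a (hs.trans e) (e ▸ finrank_sum_fun _)⟩
  simp [LinearMap.range_eq_bot.1 (Submodule.finrank_eq_zero.1 (hs.trans e))]

/-- For the hyperbolic form Σ x_j y_j on F^(2m) over a finite field with q elements, q even (excluding m = 2 over the field of two elements), and an involution x of the orthogonal group with s = rank(x − 1) odd (type b_s; such x lie outside Ω): the elements of Ω (the commutator subgroup of the orthogonal group) commuting with x number q^(2m(s−1) − (3s² − 3s)/2) · |Sp_(s−1)(q)| · |Sp_(2m−2s)(q)|, where |Sp_2k(q)| = q^(k²) Π_(i=1)^k (q^(2i) − 1). -/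
theorem result {F : Type*} [Field F] [Fintype F] [CharP F 2] {q : ℕ} (hF : Fintype.card F = q) {m s : ℕ} (h : Fintype.card F ≠ 2 ∨ m ≠ 2) (x : ↥(Cfsg.isometryGroup F (Cfsg.quadFormPlus m F))) (hx : x ^ 2 = 1) (hs : (((x : Matrix.GeneralLinearGroup (Fin m ⊕ Fin m) F) : Matrix (Fin m ⊕ Fin m) (Fin m ⊕ Fin m) F) - 1).rank = s) (hodd : Odd s) : Nat.card {g : ↥(Cfsg.Omega F (Cfsg.quadFormPlus m F)) // (g : ↥(Cfsg.isometryGroup F (Cfsg.quadFormPlus m F))) * x = x * (g : ↥(Cfsg.isometryGroup F (Cfsg.quadFormPlus m F)))} = q ^ (2 * m * (s - 1) - (3 * s ^ 2 - 3 * s) / 2) * ((q : ℕ) ^ (((s - 1) / 2) ^ 2) * ∏ i : Fin ((s - 1) / 2), (q ^ (2 * ((i : ℕ) + 1)) - 1)) * ((q : ℕ) ^ ((m - s) ^ 2) * ∏ i : Fin (m - s), (q ^ (2 * ((i : ℕ) + 1)) - 1)) := by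
  obtain ⟨k, a, n, N, rfl, -, h1, h2, -, h3, -, h4⟩ := aux hF h x hx hs
  have ha : ¬ a := fun k => Nat.not_even_iff_odd.2 hodd (h2 k)
  obtain ⟨j, rfl⟩ := hodd
  rw [if_neg (by tauto), (h3 j).1 rfl, h4 _ rfl ha, mul_left_comm] at h1
  have := S2680.two_choose (2 * j)
  have : 2 * (2 * j + 1 + k) * (2 * j) = 8 * j ^ 2 + 4 * j + 4 * (j * k) := by ring
  have : (2 * j + 1) ^ 2 = 4 * j ^ 2 + 4 * j + 1 := by ring
  have : (2 * j) ^ 2 = 4 * j ^ 2 := by ring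
  have : 2 * j * (2 * k + 1) = 4 * (j * k) + 2 * j := by ring
  rw [add_tsub_cancel_right, add_tsub_cancel_left, show 2 * j / 2 = j by omega, ← spO_eq, ← spO_eq,
    show 2 * (2 * j + 1 + k) * (2 * j) - (3 * (2 * j + 1) ^ 2 - 3 * (2 * j + 1)) / 2 = 2 * j * (2 * k + 1) + (2 * j).choose 2 by omega]
  exact (Nat.eq_of_mul_eq_mul_left two_pos h1).trans (by ring)

end Cfsg.Agent.S2683
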