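import Cfsg.Statements.S2686
import Cfsg.Agent.H5.Op6

set_option autoImplicit false
open Cfsg

namespace Cfsg.Agent.S2686

open CfsgH5 CfsgH5.Au CfsgH5.Op CfsgH5.Au.Γ

/-- A criterion for the failure of local balance in almost simple groups with linear socle. Let F be a finite field of characteristic r and K = PSL_n(F) (n ≥ 2) simple. Let A be a group of automorphisms of K containing all inner automorphisms (an almost simple group with socle K), and β ∈ A an automorphism of prime order p ≠ r that is not inner-diagonal (not induced by conjugation by an invertible matrix). Then the largest normal subgroup of C_A(β) of order prime to p is nontrivial if and only if β is the composite of an inner-diagonal automorphism with the automorphism induced by a field automorphism applied entrywise (β is of field type) and p does not divide the number of fixed points of β on K. -/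
theorem result
    (F : Type*) [Field F] [Fintype F] (r : ℕ) [Fact r.Prime] [CharP F r] (n : ℕ) (hn : 2 ≤ n)
    (hK : IsSimpleGroup (Matrix.ProjectiveSpecialLinearGroup (Fin n) F))
    (𝒢 : Subgroup (MulAut (Matrix.ProjectiveSpecialLinearGroup (Fin n) F))) (hinn : ∀ k : Matrix.ProjectiveSpecialLinearGroup (Fin n) F, MulAut.conj k ∈ 𝒢)
    (p : ℕ) [Fact p.Prime] (hpr : p ≠ r) (β : MulAut (Matrix.ProjectiveSpecialLinearGroup (Fin n) F)) (hβ : β ∈ 𝒢) (hord : orderOf β = p)
    (hnot : ¬ Cfsg.IsInnerDiagonalAutPSL β) :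
    Cfsg.pPrimeCore p ↥(𝒢 ⊓ Subgroup.centralizer {β}) ≠ ⊥ ↔
      ((∃ γ φ : MulAut (Matrix.ProjectiveSpecialLinearGroup (Fin n) F), Cfsg.IsInnerDiagonalAutPSL γ ∧ Cfsg.IsFieldAutPSL φ ∧ β = φ.trans γ) ∧
        Nat.Coprime p (Nat.card ↥(MonoidHom.eqLocus β.toMonoidHom (MonoidHom.id (Matrix.ProjectiveSpecialLinearGroup (Fin n) F))))) := by
  have h2 : 2 ≤ Fintype.card (Fin n) := by simpa
  have hZ := (KS_SLV (F := F) h2).center_eq_bot (slE (Fin n) F)
  obtain ⟨θ, rfl | ⟨h3, rfl⟩⟩ := aut_PSL h2 β
  · have h : θ.σ ≠ 1 := fun h => by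
      obtain ⟨g, rfl⟩ := exists_lin h
      exact hnot (innerDiag_PSL.2 ⟨g, rfl⟩)
    obtain ⟨a, b⟩ := psl_field h2 h hpr hord
    refine (core_iff hZ hinn a b).trans (and_iff_right ?_).symm
    obtain ⟨g, hg⟩ := exists_mkΓ θ
    exact ⟨_, _, innerDiag_PSL.2 ⟨gl g, rfl⟩, ⟨θ.σ, stdField_PSL.2 rfl⟩,
      (congrArg _ hg.symm).trans (_root_.map_mul (ΨL (Fin n) F) _ _)⟩
  have k := hord ▸ pow_orderOf_eq_one (ΨL (Fin n) F θ * grL (Fin n) F)
  obtain rfl : p = 2 := (Fact.out : p.Prime).even_iff.1 (gf_order h3 k).2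
  obtain ⟨a, b⟩ := psl_graph (by simpa using h3) (fun e => hpr ((Nat.prime_dvd_prime_iff_eq Fact.out Nat.prime_two).1
    ((CharP.cast_eq_zero_iff F r 2).1 e)).symm) k
  have c := mt (coprime_fix hord).1 (not_coprime_card (slE (Fin n) F) (KS_SLV h2) (swap_SL h2))
  exact (core_iff hZ hinn a b).trans (iff_of_false c fun h => c h.2)

end Cfsg.Agent.S2686
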