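import Cfsg.Statements.S2687
import Cfsg.Agent.H5.Op7
import Cfsg.Agent.S0282

set_option autoImplicit false
open Cfsg

namespace Cfsg.Agent.S2687

open CfsgH5 CfsgH5.Au CfsgH5.Op CfsgH5.Au.Γ

/-- A criterion for the failure of local balance in almost simple groups with unitary socle. Let F be a finite field of characteristic r with q² elements and K = PSU_n(q) (n ≥ 3, the central quotient of the determinant-one isometries of the standard Hermitian form) simple. Let A be a group of automorphisms of K containing all inner automorphisms, and β ∈ A an automorphism of prime order p ≠ r that is not inner-diagonal (not induced by conjugation by a matrix of the general unitary group). Then the largest normal subgroup of C_A(β) of order prime to p is nontrivial if and only if β is the composite of an inner-diagonal automorphism with the automorphism induced by a field automorphism of F applied entrywise and p does not divide the number of fixed points of β on K. -/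
theorem result
    (F : Type*) [Field F] [Fintype F] (r : ℕ) [Fact r.Prime] [CharP F r] (q : ℕ) (hF : Fintype.card F = q ^ 2)
    (n : ℕ) (hn : 3 ≤ n) (hK : IsSimpleGroup (Cfsg.PSU n F q))
    (𝒢 : Subgroup (MulAut (Cfsg.PSU n F q))) (hinn : ∀ k : Cfsg.PSU n F q, MulAut.conj k ∈ 𝒢)
    (p : ℕ) [Fact p.Prime] (hpr : p ≠ r) (β : MulAut (Cfsg.PSU n F q)) (hβ : β ∈ 𝒢) (hord : orderOf β = p)
    (hnot : ¬ Cfsg.IsInnerDiagonalAutPSU β) :
    Cfsg.pPrimeCore p ↥(𝒢 ⊓ Subgroup.centralizer {β}) ≠ ⊥ ↔
      ((∃ γ φ : MulAut (Cfsg.PSU n F q), Cfsg.IsInnerDiagonalAutPSU γ ∧ (∃ σ : F ≃+* F, Cfsg.IsFieldAutPSUOf σ φ) ∧ β = φ.trans γ) ∧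
        Nat.Coprime p (Nat.card ↥(MonoidHom.eqLocus β.toMonoidHom (MonoidHom.id (Cfsg.PSU n F q))))) := by
  have H := frobq_UF hF
  have hZ := (KS_su H hn).center_eq_bot (suE H (by omega))
  have s := aut_PSU H hn (by
    rintro ⟨rfl, rfl⟩
    have := IsSimpleGroup.comm_iff_isSolvable.2 (Cfsg.Agent.S0282.result hF).2
    exact top_ne_bot ((eq_top_iff.2 fun a _ => Subgroup.mem_center_iff.2 fun b => this b a).symm.trans hZ))
  obtain ⟨θ, rfl⟩ := s β
  obtain ⟨g, hg, k⟩ := ΨSU_decomp H (by omega) θ
  have h : θ.1.σ ≠ 1 := fun h => hnot ((innerDiag_PSU H (by omega)).2 ⟨g, hg, k.trans (by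
    simp only [h, _root_.map_one]
    exact (congrArg _ (_root_.map_one _)).trans (mul_one _))⟩)
  obtain ⟨a, b⟩ := unit_core H (hermC_nondeg H n) (by simpa) (suE H (by omega)) h hpr hord
  refine (core_iff hZ hinn (fun y c d => ?_) a).trans (and_iff_right ?_).symm
  · obtain ⟨η, rfl⟩ := s y
    exact eq_one_of_coprime (b η c d)
  exact ⟨_, _, (innerDiag_PSU H (by omega)).2 ⟨g, hg, rfl⟩, ⟨_, (stdField_PSU H (by omega)).2 rfl⟩, k⟩

end Cfsg.Agent.S2687
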