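import Cfsg.Statements.S2730
import Cfsg.Agent.H5.Ch9

set_option autoImplicit false
open Cfsg

namespace Cfsg.Agent.S2730

open CfsgH5 CfsgH5.Au CfsgH5.Op CfsgH5.Au.Γ CfsgH5.Ch

theorem aux {F : Type*} [Field F] [Finite F] {m : ℕ} (hm : 2 ≤ m) : Function.Surjective (ΨSp (F := F) m) ∨
    (2 : F) = 0 ∧ ∃ γ : MulAut (Cfsg.PSp m F), (∀ β, β ∈ (ΨSp m).range ∨ β * γ⁻¹ ∈ (ΨSp m).range) ∧ ∀ θ σ,
      ¬ ∀ n ∈ NC (ΨSp m ⟨std _ σ, 1, isSim_std_sp m σ⟩), Commute (ΨSp m θ * γ) n := by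
  by_cases h : 3 ≤ m ∨ (2 ≤ m ∧ (2 : F) ≠ 0)
  · exact .inl (aut_PSp h)
  obtain rfl : m = 2 := by omega
  have h2 : (2 : F) = 0 := by simpa using h
  exact .inr ⟨h2, sp4_aut h2⟩

theorem mem_of_odd {A : Type*} [Group A] {R : Subgroup A} {γ x : A} (h : ∀ β, β ∈ R ∨ β * γ⁻¹ ∈ R)
    (k : Odd (orderOf x)) : x ∈ R := by
  by_contra c
  obtain ⟨n, k⟩ := k
  have := pow_mem (mul_mem ((h x).resolve_left c) (inv_mem ((h x⁻¹).resolve_left fun l => c (inv_mem_iff.1 l)))) (n + 1)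
  rw [mul_inv_rev, inv_inv, inv_inv, mul_assoc, inv_mul_cancel_left, ← pow_two, ← pow_mul, mul_add, pow_succ, ← k,
    pow_orderOf_eq_one, one_mul] at this
  exact c this

/-- A criterion for the failure of local balance in almost simple groups whose socle is a projective symplectic group PSp_{2m}(F) (m ≥ 2, (2m, |F|) ≠ (4, 2)). Let F be a finite field of characteristic r and K the (simple) group in question; let A be a group of automorphisms of K containing all inner automorphisms, and x ∈ A an automorphism of prime order p ≠ r that is not inner-diagonal (not induced by a conformal symplectic matrix). Then the largest normal subgroup of C_A(x) of order prime to p is nontrivial if and only if x is a field automorphism of K (conjugate under Aut(K) to a non-identity standard field automorphism) and p does not divide the number of fixed points of x on K. -/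
theorem result {F : Type*} [Field F] [Fintype F] {r : ℕ} [Fact r.Prime] [CharP F r] {m : ℕ} (hm : 2 ≤ m) (hs : m = 2 → 3 ≤ Fintype.card F) (hK : IsSimpleGroup (Cfsg.PSp m F)) (A : Subgroup (MulAut (Cfsg.PSp m F))) (hinn : ∀ k : Cfsg.PSp m F, MulAut.conj k ∈ A) {p : ℕ} [Fact p.Prime] (hpr : p ≠ r) (x : MulAut (Cfsg.PSp m F)) (hxA : x ∈ A) (hord : orderOf x = p) (hnot : ¬ Cfsg.IsInnerDiagonalAutPSp x) :
    Cfsg.pPrimeCore p ↥(A ⊓ Subgroup.centralizer {x}) ≠ ⊥ ↔ (Cfsg.IsFieldAutClassPSp x ∧ Nat.Coprime p (Nat.card ↥(MonoidHom.eqLocus x.toMonoidHom (MonoidHom.id (Cfsg.PSp m F))))) := by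
  have A := aux (F := F) hm
  obtain ⟨θ, rfl⟩ : x ∈ (ΨSp m).range := A.elim (· x) fun ⟨h2, γ, k, _⟩ => mem_of_odd k (hord ▸
    (Fact.out : p.Prime).odd_of_ne_two fun c => hpr (c.trans ((Nat.prime_dvd_prime_iff_eq Fact.out Nat.prime_two).1
      ((CharP.cast_eq_zero_iff F r 2).1 (by simpa using h2))).symm))
  have h : θ.1.σ ≠ 1 := fun h => by
    obtain ⟨θ, k⟩ := θ
    obtain ⟨g, rfl⟩ := exists_lin h
    exact hnot (innerDiag_PSp.2 ⟨⟨g, k⟩, rfl⟩)
  obtain ⟨δ, k, l⟩ := decomp_std cm_symp (spE m) θ (isSim_std_sp m _)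
  obtain ⟨α, -, t⟩ := lang_PSp hm θ.1.σ δ k (by
    rw [ord_σ _ _ (KS_sp hm) h hord]
    exact (congrArg (· ^ p) l).symm.trans (hord ▸ pow_orderOf_eq_one _))
  have e : α⁻¹ * ΨSp m θ * α⁻¹⁻¹ = ΨSp m ⟨std _ θ.1.σ, 1, isSim_std_sp m _⟩ :=
    (congrArg (fun z => α⁻¹ * z * α⁻¹⁻¹) (l.trans t)).trans (by group)
  obtain ⟨a, b⟩ := symp_core (spForm_nondeg m) (by simp; omega) (spE m) (θ := ⟨std _ θ.1.σ, 1, isSim_std_sp m _⟩) h hpr
    ((orderOf_conj_eq e).trans hord)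
  refine (core_iff ((KS_sp hm).center_eq_bot (spE m)) hinn (C1.conj e fun y c d => ?_) (C2.conj e a)).trans
    (and_iff_right ⟨α⁻¹, θ.1.σ, h, stdField_PSp.2 e⟩).symm
  obtain ⟨η, rfl⟩ : y ∈ (ΨSp m).range := A.elim (· y) fun ⟨_, γ, k, l⟩ => (k y).resolve_right fun ⟨η, o⟩ =>
    l η θ.1.σ (by rwa [o, inv_mul_cancel_right])
  exact eq_one_of_coprime (b η c d)

end Cfsg.Agent.S2730
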