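import Cfsg.Statements.S2731
import Cfsg.Agent.H5.Op4

set_option autoImplicit false
open Cfsg

namespace Cfsg.Agent.S2731

open CfsgH5 CfsgH5.Au CfsgH5.Op CfsgH5.Au.Γ
set_option maxHeartbeats 2000000

/-- A criterion for the failure of local balance in almost simple groups whose socle is an odd-dimensional orthogonal group Ω_{2m+1}(F) (m ≥ 3, |F| odd; the form x₀² + Σ xᵢ yᵢ). Let F be a finite field of characteristic r and K the (simple) group in question; let A be a group of automorphisms of K containing all inner automorphisms, and x ∈ A an automorphism of prime order p ≠ r that is not inner-diagonal (not induced by a similarity of the form). Then the largest normal subgroup of C_A(x) of order prime to p is nontrivial if and only if x is a field automorphism of K (conjugate under Aut(K) to a non-identity standard field automorphism) and p does not divide the number of fixed points of x on K. -/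
theorem result {F : Type*} [Field F] [Fintype F] {r : ℕ} [Fact r.Prime] [CharP F r] (hodd : Odd (Fintype.card F)) {m : ℕ} (hm : 3 ≤ m) (hK : IsSimpleGroup (Cfsg.POmega F (Cfsg.quadFormOdd m F))) (A : Subgroup (MulAut (Cfsg.POmega F (Cfsg.quadFormOdd m F)))) (hinn : ∀ k : Cfsg.POmega F (Cfsg.quadFormOdd m F), MulAut.conj k ∈ A) {p : ℕ} [Fact p.Prime] (hpr : p ≠ r) (x : MulAut (Cfsg.POmega F (Cfsg.quadFormOdd m F))) (hxA : x ∈ A) (hord : orderOf x = p) (hnot : ¬ Cfsg.IsInnerDiagonalAutPOmegaOdd m x) :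
    Cfsg.pPrimeCore p ↥(A ⊓ Subgroup.centralizer {x}) ≠ ⊥ ↔ (Cfsg.IsFieldAutClassPOmega (Cfsg.quadFormOdd m F) x ∧ Nat.Coprime p (Nat.card ↥(MonoidHom.eqLocus x.toMonoidHom (MonoidHom.id (Cfsg.POmega F (Cfsg.quadFormOdd m F)))))) := by
  have h2 := two_ne_of_odd hodd
  have hf := oddQ_nondeg h2 m
  have h5 := five_odd hm
  obtain ⟨θ, rfl⟩ := aut_POdd h2 hm x
  have h : θ.1.σ ≠ 1 := fun h => by
    obtain ⟨θ, k⟩ := θ
    obtain ⟨g, rfl⟩ := exists_lin h
    obtain ⟨g, rfl⟩ := gl_surjective g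
    exact hnot ⟨g, mem_GO.2 k, (induced_PO_lin hf h5 k).2 rfl⟩
  obtain ⟨a, b⟩ := orth_core hf h5 (omE hf h5) h hpr hord
  refine (core_iff ((KS_O hf h5).center_eq_bot (omE hf h5)) hinn (b (aut_POdd h2 hm)) a).trans (and_iff_right ?_).symm
  obtain ⟨δ, k, l⟩ := decomp_std cm_orth (omE hf h5) θ (isSim_std_odd m _)
  obtain ⟨α, -, t⟩ := lang_POdd h2 hm θ.1.σ δ k (by
    rw [ord_σ _ _ (KS_O hf h5) h hord]
    exact (congrArg (· ^ p) l).symm.trans (hord ▸ pow_orderOf_eq_one _))
  exact ⟨α⁻¹, _, θ.1.σ, h, (stdField_PO hf h5 (isSim_std_odd m _)).2 rfl,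
    (congrArg (fun z => α⁻¹ * z * α⁻¹⁻¹) (l.trans t)).trans (by group)⟩

end Cfsg.Agent.S2731
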