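import Cfsg.Statements.S2733
import Cfsg.Agent.H5.Op8

set_option autoImplicit false
open Cfsg

namespace Cfsg.Agent.S2733

open CfsgH5 CfsgH5.Au CfsgH5.Op CfsgH5.Au.Γ CfsgH5.Oe
set_option maxHeartbeats 8000000

theorem eq_two {F : Type*} [Field F] [Finite F] {V : Type*} [AddCommGroup V] [Module F V] [FiniteDimensional F V]
    {f : CForm (FP.orth F) V} {m : ℕ} (E : EV f m) {S : Type*} [Group S] (e : S ≃* f.E) {g : GO f} (d : E.dk g = -1)
    {p : ℕ} (pr : p.Prime) (ho : πS cm_orth e g ^ p = 1) : p = 2 := pr.eq_two_or_odd'.resolve_right fun o => by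
  obtain ⟨c, l⟩ := (E.π_eq_one e).1 ((_root_.map_pow _ _ _).trans ho)
  have := congrArg E.dk l
  rw [_root_.map_pow, d, o.neg_one_pow, E.dk_sc] at this
  exact absurd this (by decide)

/-- A criterion for the failure of local balance in almost simple groups whose socle is a minus-type orthogonal group PΩ⁻_{2m+2}(F) (m ≥ 3; the form Σ xᵢ yᵢ + z₁² + a z₁ z₂ + b z₂² with anisotropic binary part). Let F be a finite field of characteristic r and K the (simple) group in question; let A be a group of automorphisms of K containing all inner automorphisms, and x ∈ A an automorphism of prime order p ≠ r that is not inner-diagonal (not induced by a class-preserving similarity, classes read over a quadratic extension). Then the largest normal subgroup of C_A(x) of order prime to p is nontrivial if and only if x is a field automorphism of K (conjugate under Aut(K) to a non-identity standard field automorphism) and p does not divide the number of fixed points of x on K. -/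
theorem result {F : Type*} [Field F] [Fintype F] {r : ℕ} [Fact r.Prime] [CharP F r] {m : ℕ} (hm : 3 ≤ m) (a b : F) (hab : (∀ z₁ z₂ : F, z₁ ^ 2 + a * z₁ * z₂ + b * z₂ ^ 2 = 0 → z₁ = 0 ∧ z₂ = 0)) (hK : IsSimpleGroup (Cfsg.POmega F (Cfsg.quadFormMinus m F a b))) (A : Subgroup (MulAut (Cfsg.POmega F (Cfsg.quadFormMinus m F a b)))) (hinn : ∀ k : Cfsg.POmega F (Cfsg.quadFormMinus m F a b), MulAut.conj k ∈ A) {p : ℕ} [Fact p.Prime] (hpr : p ≠ r) (x : MulAut (Cfsg.POmega F (Cfsg.quadFormMinus m F a b))) (hxA : x ∈ A) (hord : orderOf x = p) (hnot : ¬ Cfsg.IsInnerDiagonalAutPOmegaMinus m a b x) :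
    Cfsg.pPrimeCore p ↥(A ⊓ Subgroup.centralizer {x}) ≠ ⊥ ↔ (Cfsg.IsFieldAutClassPOmegaMinus m x ∧ Nat.Coprime p (Nat.card ↥(MonoidHom.eqLocus x.toMonoidHom (MonoidHom.id (Cfsg.POmega F (Cfsg.quadFormMinus m F a b)))))) := by
  have E := evM hab (by omega : 2 ≤ m)
  have hs : Function.Surjective (ΨS cm_orth E.om) := aut_minus hab hm
  have hZ := E.KS.center_eq_bot E.om
  have pr : p.Prime := Fact.out
  obtain ⟨θ, rfl⟩ := hs x
  have ho : ΨS cm_orth E.om θ ^ p = 1 := hord ▸ pow_orderOf_eq_one _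
  by_cases h : θ.1.σ = 1
  · obtain ⟨θ, k⟩ := θ
    obtain ⟨g, rfl⟩ := exists_lin h
    have ho' : πS cm_orth E.om ⟨g, k⟩ ^ p = 1 := by rw [πS_def]; exact ho
    have d : E.dk ⟨g, k⟩ = -1 := (Int.units_eq_one_or _).resolve_left fun d =>
      hnot ((inndiag_of E _ (fun _ => preserves_minus hab (by omega : 2 ≤ m)) _).2 ⟨⟨g, k⟩, d, rfl⟩)
    obtain rfl := eq_two E E.om d pr ho'
    obtain ⟨a, b⟩ := graph_core E E.om hs (fun e => hpr ((Nat.prime_dvd_prime_iff_eq Fact.out Nat.prime_two).1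
      ((CharP.cast_eq_zero_iff F r 2).1 e)).symm) d ho'
    rw [πS_def] at a b
    have c := mt (coprime_fix hord).1 (even_card E E.om)
    exact (core_iff hZ hinn a b).trans (iff_of_false c fun h => c h.2)
  obtain ⟨c, d⟩ := orth_core E.nd E.five E.om h hpr hord
  refine (core_iff hZ hinn (d hs) c).trans (and_iff_right ?_).symm
  have o := E.ord_σ E.om h pr hord
  obtain ⟨a', b', k, k1, k2⟩ := exists_an_fix (σ := θ.1.σ) (o ▸ pr.eq_two_or_odd'.resolve_left fun e =>
    minusQ_not_isPlus m hab (E.isPlus_of_two E.om h (hord.trans e)))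
  have E' := evM k (by omega : 2 ≤ m)
  have s : IsSim (CForm.ofQuad (minusQ m a' b')) (std _ θ.1.σ) 1 :=
    isSim_orth one_ne_zero fun v => by simp [minusQ_coe, Cfsg.quadFormMinus, k1, k2]
  obtain ⟨t, ht⟩ := CForm.orth_exists_isIso_even (m + 1) E.nd E'.nd E.rk E'.rk
    (iff_of_false (minusQ_not_isPlus m hab) (minusQ_not_isPlus m k))
  obtain ⟨ψ, hψ⟩ := exists_transport E E.om E' E'.om ht
  obtain ⟨η, l1, l2⟩ := hψ ⟨_, 1, s⟩
  obtain ⟨α, -, l⟩ := E.lang E.om (θ := θ) (θ' := η) (by simp [l1]) (o ▸ ho) (by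
    rw [← _root_.map_pow, show η ^ _ = 1 from Subtype.ext ?_, _root_.map_one]
    rw [SubgroupClass.coe_pow, l1, ← inv_inv (lin t), inv_inv (lin t)⁻¹, conj_pow, ← _root_.map_pow, pow_orderOf_eq_one]
    simp) fun hp => (minusQ_not_isPlus m hab hp).elim
  refine ⟨a', b', α.trans ψ, _, k, h, k1, k2, (stdField_PO E'.nd E'.five s).2 (MulEquiv.ext fun y => ?_)⟩
  obtain ⟨y, rfl⟩ := ψ.surjective y
  refine Eq.trans ?_ (l2 y).symm
  rw [l]
  exact congrArg (fun z => ψ (α (ΨS cm_orth E.om θ (α.symm z)))) (ψ.symm_apply_apply y)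

end Cfsg.Agent.S2733
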