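import Cfsg.Statements.S2788
import Mathlib
import Cfsg.Agent.L0.Fpr3

set_option autoImplicit false
open Cfsg

namespace Cfsg.Agent.S2788

open Subgroup CfsgH2 CfsgL0 CfsgH8 Function

/-- Let H act faithfully by conjugation on the elementary abelian p-subgroup V of a finite group with H ≅ SL₂(F), F a field with p^n elements, S a Sylow p-subgroup of H, and A ≤ S a subgroup of order at least 3 acting quadratically on V ([V, A, A] = 1). Then |V/C_V(a)| ≥ p^n for every nonidentity a ∈ A. -/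
theorem result {G : Type*} [Group G] [Finite G] {p : ℕ} [Fact p.Prime] (V H : Subgroup G) (hV : Cfsg.IsElementaryAbelian p V) (hHV : H ≤ Subgroup.normalizer (V : Set G)) (hf : H ⊓ Subgroup.centralizer (V : Set G) = ⊥) {F : Type*} [Field F] [Fintype F] (n : ℕ) (hF : Fintype.card F = p ^ n) (hiso : Nonempty (↥H ≃* Matrix.SpecialLinearGroup (Fin 2) F)) (S : Sylow p ↥H) (T : Subgroup G) (hT : T = ((S : Subgroup ↥H).map H.subtype)) (A : Subgroup G) (hA : A ≤ T) (hA3 : 3 ≤ Nat.card A) (hquad : ⁅⁅V, A⁆, A⁆ = ⊥) : ∀ a ∈ A, a ≠ 1 → p ^ n ≤ ((V ⊓ Subgroup.centralizer ({a} : Set G))).relIndex V := by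
  have hp := ‹Fact p.Prime›
  subst hT
  obtain ⟨e⟩ := hiso
  intro a ha a1
  obtain ⟨s, hs, rfl⟩ := hA ha
  obtain ⟨k, hk⟩ := S.isPGroup' ⟨s, hs⟩
  have hk : e s ^ p ^ k = 1 := by rw [← map_pow, show s ^ p ^ k = 1 from congrArg Subtype.val hk, map_one]
  have s1 : e s ≠ 1 := fun h => a1 (by rw [e.map_eq_one_iff.1 h, map_one])
  have n0 : n ≠ 0 := fun h => Fintype.one_lt_card.ne' (by rw [hF, h, pow_zero])
  have : CharP F p := charP_of_card_eq_prime_pow hF
  have key : ∀ {r j : ℕ} (g), r.Prime → r ≠ p → r ^ (j + 1) ∣ orderOf (e s * (g * e s * g⁻¹)) →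
      (∀ d, r ^ (j + 1) ∣ p ^ d - 1 → 2 * n ∣ d) →
      p ^ n ≤ (V ⊓ centralizer ({H.subtype s} : Set G)).relIndex V := fun g h1 h2 h3 h4 => by
    obtain ⟨h, rfl⟩ := e.surjective g
    rw [← map_inv, ← map_mul, ← map_mul, ← map_mul, e.orderOf_eq] at h3
    have := (fpr_core hV hHV hf h1 h2 h3 h4).1
    rw [mul_comm, pow_mul] at this
    exact (Nat.pow_le_pow_iff_left two_ne_zero).1 this
  by_cases p2 : p = 2
  · subst p2
    obtain ⟨r, j, h1, h2, h3, h4⟩ := zs_two (n := n) (by omega)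
    obtain ⟨g, hg⟩ := sl2_even_prod hk s1
    exact key g h1 h2 (by rwa [hg, hF]) h4
  by_cases n1 : n = 1
  · subst n1
    obtain ⟨b, hb⟩ := (isPGroup_of_exp hV.2 : IsPGroup p V).exists_card_eq
    obtain ⟨d, -, hd⟩ := (Nat.dvd_prime_pow hp.out).1 (hb ▸ Dvd.intro_left _
      (card_mul_relIndex (inf_le_left : V ⊓ centralizer ({H.subtype s} : Set G) ≤ V)))
    rw [hd]
    refine Nat.pow_le_pow_right hp.out.pos (Nat.pos_of_ne_zero fun d0 => a1 ?_)
    rw [d0, pow_zero, relIndex_eq_one] at hd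
    exact mem_bot.1 (hf.le ⟨s.2, fun v hv => mem_centralizer_singleton_iff.1 (hd hv).2⟩)
  obtain ⟨r, h1, h2, h3, h4, h5⟩ := zs_odd (n := n) hp.out p2 (by omega)
  obtain ⟨g, hg⟩ := sl2_odd_prod hk s1 h1 h2 (by rwa [hF])
  exact key g h1 h3 (by rw [zero_add, pow_one, ← hg]; exact orderOf_map_dvd _ _) h5

end Cfsg.Agent.S2788
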