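import Cfsg.Statements.S2792
import Mathlib
import Cfsg.Agent.L0.Yos2

set_option autoImplicit false
open Cfsg

namespace Cfsg.Agent.S2792

open Cfsg Subgroup CfsgH2 CfsgL0

/-- Let S be a Sylow p-subgroup of the finite group G and W a subgroup of S weakly closed in S with respect to G. If S ∩ G' ≠ S ∩ (N_G(W))', then there are x ∈ S, z ∈ W and a maximal subgroup W₀ of W such that the iterated commutator [x, z; p−1] (with [x, z] = x⁻¹z⁻¹xz and [x, z; i+1] = [[x, z; i], z]) lies in W₀ but not in the Frattini subgroup of W₀; in particular [x, z; p−1] ≠ 1. -/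
theorem result {G : Type*} [Group G] [Finite G] {p : ℕ} [Fact p.Prime] (S : Sylow p G) (W : Subgroup G) (hW : Cfsg.IsWeaklyClosed W (S : Subgroup G)) (h : (S : Subgroup G) ⊓ commutator G ≠ (S : Subgroup G) ⊓ ⁅Subgroup.normalizer (W : Set G), Subgroup.normalizer (W : Set G)⁆) : ∃ x ∈ (S : Subgroup G), ∃ z ∈ W, ∃ W₀ : Subgroup ↥W, IsCoatom W₀ ∧ (fun y : G => y⁻¹ * z⁻¹ * y * z)^[p - 1] x ∈ W₀.map W.subtype ∧ (fun y : G => y⁻¹ * z⁻¹ * y * z)^[p - 1] x ∉ ((frattini ↥W₀).map W₀.subtype).map W.subtype := by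
  obtain ⟨K, k0, x, k1, k5, k2, -, z, k4, k3⟩ := yos_grp (syl_top S) hW h
  have hp := (Fact.out : p.Prime)
  refine ⟨x, k0 k1, z, k4, K.subgroupOf W, CfsgH1.isCoatom_of_index_prime (by rw [← relIndex, k2]; exact hp), ?_, fun e => k3 ?_⟩
  · rw [subgroupOf_map_subtype]
    refine ⟨ic_mem (k5 k4) _ x k1, ?_⟩
    have nW : (S : Subgroup G) ≤ N[W] := fun s hs => mem_norm_of_map_le (hW.2 s ((map_mono hW.1).trans
      (map_cj_eq (le_normalizer hs)).le)).le
    obtain ⟨n, hn⟩ := Nat.exists_eq_add_of_le' (Nat.sub_pos_of_lt hp.one_lt)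
    rw [hn]
    exact ic_mem (le_normalizer k4) n _ (by
      simpa only [inv_inv, mul_assoc] using mul_mem (conj_mem_of_norm (inv_mem (nW (k0 k1))) (inv_mem k4)) k4)
  · have pW := S.isPGroup'.to_le hW.1
    have : Φ[K.subgroupOf W].map W.subtype ≤ Φ[K] := by
      rw [map_phi _ (pW.to_subgroup _), subgroupOf_map_subtype]
      exact phi_mono (S.isPGroup'.to_le k0) inf_le_left
    exact this e

end Cfsg.Agent.S2792
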