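import Cfsg.Statements.S2896
import Mathlib
import Cfsg.Agent.H9.Loc

set_option autoImplicit false
open Cfsg

namespace Cfsg.Agent.S2896

/-- Let p be a prime dividing the order of the finite group G, S a Sylow p-subgroup of G and X a subgroup of S. (i) If some nontrivial element z of the centre of X has F*(C_G(z)) = O_p(C_G(z)), then F*(N_G(X)) = O_p(N_G(X)). (ii) G has parabolic characteristic p if and only if F*(C_G(z)) = O_p(C_G(z)) for every nontrivial z ∈ Ω₁(Z(S)). (iii) If F*(C_G(z)) = O_p(C_G(z)) for every element z of S of order p, then G has local characteristic p. -/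
theorem result {G : Type*} [Group G] [Finite G] {p : ℕ} [Fact p.Prime] (hdiv : p ∣ Nat.card G) (S : Sylow p G) (X : Subgroup G) (hX : X ≤ (S : Subgroup G)) : (∀ z : G, z ≠ 1 → z ∈ X → (∀ x ∈ X, x * z = z * x) → Cfsg.generalizedFittingSubgroup ↥(Subgroup.centralizer ({z} : Set G)) = Cfsg.pCore p ↥(Subgroup.centralizer ({z} : Set G)) → Cfsg.generalizedFittingSubgroup ↥(Subgroup.normalizer (X : Set G)) = Cfsg.pCore p ↥(Subgroup.normalizer (X : Set G))) ∧ (Cfsg.IsOfParabolicCharacteristic p G ↔ ∀ z : G, z ≠ 1 → z ∈ Cfsg.omegaOne p ((S : Subgroup G) ⊓ Subgroup.centralizer ((S : Subgroup G) : Set G)) → Cfsg.generalizedFittingSubgroup ↥(Subgroup.centralizer ({z} : Set G)) = Cfsg.pCore p ↥(Subgroup.centralizer ({z} : Set G))) ∧ ((∀ z : G, z ∈ (S : Subgroup G) → orderOf z = p → Cfsg.generalizedFittingSubgroup ↥(Subgroup.centralizer ({z} : Set G)) = Cfsg.pCore p ↥(Subgroup.centralizer ({z} : Set G))) → Cfsg.IsOfLocalCharacteristic p G) := by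
  open Subgroup CfsgH9 in
  refine ⟨fun z h1 h2 _ h => ?_, ?_, fun h => locP_top_iff.2 ⟨hdiv, locP_of_syl (syl_sylow S)
    fun x a b => ?_⟩⟩
  · have h := chP_iff_eq.2 h
    rw [← centralizer_zpowers, ← top_inf_eq (centralizer _)] at h
    have := chP_normalizer_of_le (S.isPGroup'.to_le hX) le_top (zpowers_le.2 h2) h
    rw [top_inf_eq] at this
    exact chP_iff_eq.1 this
  · rw [parab_top_iff (syl_sylow S)]
    exact ⟨fun h z a b => chP_iff_eq.1 (h z b a), fun h z a b => chP_iff_eq.2 (h z b a)⟩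
  · rw [top_inf_eq]; exact chP_iff_eq.2 (h x a b)

end Cfsg.Agent.S2896
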