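import Cfsg.Statements.S2898
import Mathlib
import Cfsg.Agent.H9.Loc

set_option autoImplicit false
open Cfsg

namespace Cfsg.Agent.S2898

/-- Let G be a finite group of even order with parabolic characteristic 2. If the centre of G ⧸ O(G) is trivial, then O(G) = 1. -/
theorem result {G : Type*} [Group G] [Finite G] (h2 : 2 ∣ Nat.card G) (hG : Cfsg.IsOfParabolicCharacteristic 2 G) [hN : (Cfsg.oddCore G).Normal] (hZ : Subgroup.center (G ⧸ Cfsg.oddCore G) = ⊥) : Cfsg.oddCore G = ⊥ := by
  open Subgroup CfsgH9 in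
  haveI : Fact (Nat.Prime 2) := ⟨Nat.prime_two⟩
  obtain ⟨T, hT⟩ := exists_syl 2 (⊤ : Subgroup G)
  have h := (parab_top_iff hT).1 hG
  set O := oddCore G with hO
  have oc : (Nat.card O).Coprime 2 := pPrimeCore_coprime 2
  have key : ∀ z ∈ OZ 2 T, z ≠ 1 → O ⊓ centralizer ({z} : Set G) = ⊥ := fun z a b =>
    le_bot_iff.1 ((chP_iff.1 (h z a b)).2 ▸ le_Opp (by simpa using (Sn.of_normal_top O).inf_right _)
      (coprime_of_le inf_le_left oc))
  by_contra h0
  have hC : centralizer (O : Set G) ≤ O := by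
    refine le_pPrimeCore (Sn.of_normal_top _) ((hT.inf_sn (Sn.of_normal_top _)).eq_bot_iff.1 ?_)
    by_contra h1
    obtain ⟨z, hz, h2⟩ := exists_ne_one_of_ne_bot (OZ_inf_ne_bot hT.pg inf_le_left
      (le_normalizer_inf le_normalizer (le_normalizer_normal _ _)) h1)
    have := key z hz.1 h2
    rw [inf_eq_left.2 (mem_centralizer_iff_le.1 hz.2.2)] at this
    exact h0 this
  obtain ⟨z, hz, h1⟩ := exists_ne_one_of_ne_bot (OZ_ne_bot hT.pg (hT.ne_bot (by simpa using h2)))
  have z2 : z ^ 2 = 1 := (mem_OZ.1 hz).2.2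
  have inv : ∀ x ∈ O, z * x * z⁻¹ = x⁻¹ := by
    let φ : O →* O := (MulAut.conjNormal z : MulAut O).toMonoidHom
    have fp : MonoidHom.FixedPointFree φ := fun x hx => by
      have : (x : G) ∈ O ⊓ centralizer ({z} : Set G) := ⟨x.2, mem_centralizer_singleton_iff.2 (by
        have := congrArg Subtype.val hx
        simp only [φ, MulEquiv.toMonoidHom_eq_coe, MonoidHom.coe_coe, MulAut.conjNormal_apply] at this
        rw [← mul_inv_eq_iff_eq_mul.1 this])⟩
      rw [key z hz h1, mem_bot] at this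
      exact Subtype.ext this
    have iv : Function.Involutive φ := fun x => Subtype.ext (by
      simp only [φ, MulEquiv.toMonoidHom_eq_coe, MonoidHom.coe_coe, MulAut.conjNormal_apply]
      calc z * (z * x * z⁻¹) * z⁻¹ = z ^ 2 * x * (z ^ 2)⁻¹ := by rw [sq]; group
        _ = x := by rw [z2]; group)
    intro x hx
    have := congrArg Subtype.val (congrFun (fp.coe_eq_inv_of_involutive iv) ⟨x, hx⟩)
    simpa [φ] using this
  have : (z : G ⧸ O) ∈ center (G ⧸ O) := by
    rw [mem_center_iff]
    intro g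
    induction g using QuotientGroup.induction_on with
    | H g =>
      rw [← QuotientGroup.mk_mul, ← QuotientGroup.mk_mul, QuotientGroup.eq]
      refine hC (mem_centralizer_iff.2 fun x hx => ?_)
      have a := inv x hx
      have b := inv (g * x * g⁻¹) (hN.conj_mem x hx g)
      have c : x = z⁻¹ * x⁻¹ * z := by rw [← a]; group
      calc x * ((g * z)⁻¹ * (z * g)) = z⁻¹ * (z * x * z⁻¹) * g⁻¹ * z * g := by group
        _ = z⁻¹ * g⁻¹ * (g * x * g⁻¹)⁻¹ * z * g := by rw [a]; group
        _ = _ := by rw [← b]; group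
  rw [hZ, mem_bot, QuotientGroup.eq_one_iff] at this
  have := key z hz h1 ▸ (show z ∈ O ⊓ centralizer ({z} : Set G) from
    ⟨this, mem_centralizer_singleton_iff.2 rfl⟩)
  exact h1 (mem_bot.1 this)

end Cfsg.Agent.S2898
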