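import Cfsg.Statements.S2905
import Mathlib
import Cfsg.Agent.H9.PMin

set_option autoImplicit false
open Cfsg

namespace Cfsg.Agent.S2905

/-- Let P be a finite p-minimal group (a Sylow p-subgroup S is not normal and lies in a unique maximal subgroup M of P) and let F be the normal core of M. Then: every subnormal subgroup N of P contained in M satisfies N ∩ S ≤ O_p(P); if O^p(P) has a normal Sylow p-subgroup then the order of P has at most two prime divisors; every normal subgroup N of P either contains O^p(P) or is contained in F; and O^p(P)F ⧸ F is a minimal normal subgroup of P ⧸ F. -/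
theorem result {P : Type*} [Group P] [Finite P] {p : ℕ} [Fact p.Prime] (hP : Cfsg.IsPMinimal p P) (S : Sylow p P) (M : Subgroup P) (hM : IsCoatom M) (hSM : (S : Subgroup P) ≤ M) [hF : M.normalCore.Normal] : (∀ N : Subgroup P, N.IsSubnormal → N ≤ M → N ⊓ (S : Subgroup P) ≤ Cfsg.pCore p P) ∧ ((∀ T : Sylow p ↥(Cfsg.pResidual p P), (T : Subgroup ↥(Cfsg.pResidual p P)).Normal) → (Nat.card P).primeFactors.card ≤ 2) ∧ (∀ N : Subgroup P, N.Normal → Cfsg.pResidual p P ≤ N ∨ N ≤ M.normalCore) ∧ (∀ N : Subgroup P, N.Normal → M.normalCore ≤ N → N ≤ Cfsg.pResidual p P ⊔ M.normalCore → N = M.normalCore ∨ N = Cfsg.pResidual p P ⊔ M.normalCore) ∧ M.normalCore < Cfsg.pResidual p P ⊔ M.normalCore := by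
  open Subgroup CfsgH9 in
  have h := um_of_pmin hP S hM hSM
  have hS := syl_sylow S
  have c : ∀ N : Subgroup P, N.Normal → Cfsg.pResidual p P ≤ N ∨ N ≤ M.normalCore := fun N hN =>
    (h.Oup_le_or hS le_top (normalizer_eq_top N).ge).symm.imp (Oup_top.ge.trans ·)
      normal_le_normalCore.2
  refine ⟨fun N hN l => h.inf_le hS (sn_top_iff.2 hN) l, fun k => ?_, c, fun N hN h1 h2 =>
    (c N hN).symm.imp (le_antisymm · h1) fun k => le_antisymm h2 (sup_le k h1),
    lt_of_le_of_ne le_sup_right fun e => h.Oup_not_le hS (Oup_top.le.trans (le_sup_left.trans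
      (e.ge.trans M.normalCore_le)))⟩
  haveI : (pCore p P).Normal := normal_of_top_le (Op_top (G := P) p ▸ le_normalizer_Op le_normalizer)
  haveI := pResidual_normal (G := P) (p := p)
  let f := QuotientGroup.mk' (pCore p P)
  have l : pCore p P ≤ S := Op_top (G := P) p ▸ hS.Op_le
  obtain ⟨T⟩ := (inferInstance : Nonempty (Sylow p (pResidual p P)))
  have hT := syl_of_sylow T
  haveI := k T
  have l2 := (hT.eq_Op (le_normalizer_map_subtype _)).ge.trans
    (le_pCore ((sn_Op p _).trans (.of_normal_top _)) (Op_isPGroup p _))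
  have c2 := (hT.map f).eq_bot_iff.1 (map_mk_eq_bot_iff.2 l2)
  have tp : (⊤ : Subgroup P).map f = ⊤ := map_top_of_surjective _ (QuotientGroup.mk'_surjective _)
  have h' : UM ((S : Subgroup P).map f) (M.map f) ⊤ := ⟨map_mono hSM, lt_top_iff_ne_top.2 fun e => by
      have := comap_map_mk (pCore p P) M
      rw [e, comap_top, sup_eq_left.2 (l.trans hSM)] at this
      exact hM.1 this.symm, fun X h1 h2 => by
    rw [← map_comap_mk _ X]
    refine map_mono (h.max _ (map_le_iff_le_comap.1 h1) (lt_top_iff_ne_top.2 fun e => h2.ne ?_))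
    rw [← map_comap_mk _ X, e, tp]⟩
  haveI : ((pResidual p P).map f).Normal := Normal.map inferInstance _ (QuotientGroup.mk'_surjective _)
  obtain ⟨q, hq, Q, -, h2, h3, h4⟩ := h'.exists_q (hS.pg.map f) (le_top.trans (normalizer_eq_top ((pResidual p P).map f)).ge) c2
    fun k => h.Oup_not_le hS (Oup_top.le.trans ((map_mk_le_map_mk_iff.1 k).trans
      (sup_le le_rfl (l.trans hSM))))
  haveI := Fact.mk hq
  obtain ⟨a, ha⟩ := (hS.pg.map f).exists_card_eq
  obtain ⟨b, hb⟩ := h2.exists_card_eq
  obtain ⟨d, hd⟩ := (pCore_isPGroup (G := P) p).exists_card_eq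
  have := card_sup_dvd h3
  rw [h4, card_top, ha, hb] at this
  refine (Finset.card_le_card (t := {p, q}) fun r hr => ?_).trans Finset.card_le_two
  obtain ⟨h5, h6, -⟩ := Nat.mem_primeFactors.1 hr
  rw [card_eq_card_quotient_mul_card_subgroup (pCore p P), hd] at h6
  have pp : ∀ s n, s.Prime → r ∣ s ^ n → r = s := fun s n hs e =>
    (Nat.prime_dvd_prime_iff_eq h5 hs).1 (h5.dvd_of_dvd_pow e)
  rcases (h5.dvd_mul).1 h6 with e | e
  · rcases (h5.dvd_mul).1 (e.trans this) with e | e
    · simp [pp _ _ Fact.out e]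
    · simp [pp _ _ hq e]
  · simp [pp _ _ Fact.out e]

end Cfsg.Agent.S2905
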