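import Cfsg.Statements.S2906
import Mathlib
import Cfsg.Agent.H9.PMin
import Cfsg.Agent.H9.Comp2

set_option autoImplicit false
open Cfsg

namespace Cfsg.Agent.S2906

/-- Let P be a finite p-minimal group with O_p(P) = 1, S a Sylow p-subgroup of P and K a component of P. Then O^p(P) = F*(P) = E(P) is generated by the S-conjugates of K, and the subgroup K·N_S(K) is again p-minimal. -/
theorem result {P : Type*} [Group P] [Finite P] {p : ℕ} [Fact p.Prime] (hP : Cfsg.IsPMinimal p P) (hOp : Cfsg.pCore p P = ⊥) (S : Sylow p P) (K : Subgroup P) (hK : Cfsg.IsComponent K) : Cfsg.pResidual p P = Cfsg.generalizedFittingSubgroup P ∧ Cfsg.generalizedFittingSubgroup P = Cfsg.layer P ∧ Cfsg.layer P = ⨆ s : ↥(S : Subgroup P), K.map (MulAut.conj (s : P)).toMonoidHom ∧ Cfsg.IsPMinimal p ↥(K ⊔ ((S : Subgroup P) ⊓ Subgroup.normalizer (K : Set P))) := by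
  open Subgroup CfsgH9 in
  obtain ⟨M, ⟨hM, hSM⟩, -⟩ := (hP S).2
  have h := um_of_pmin hP S hM hSM
  have hS := syl_sylow S
  have k := comp_top_iff.2 hK
  have sK := hS.inf_sn k.sn
  have nb : (S : Subgroup P) ⊓ K ≠ ⊥ := fun e => by
    haveI := h.nilpotent (L := Opp p ⊤) hS.pg (le_normalizer_Opp le_normalizer) (Opp_coprime _ _)
    exact k.qs.not_le_solvable (inferInstance : Group.IsSolvable (Opp p ⊤))
      (le_Opp k.sn (sK.eq_bot_iff.1 e))
  have nM : ¬ K ≤ M := fun l => nb (eq_bot_iff.2 (hOp ▸ inf_comm K _ ▸ h.inf_le hS k.sn l))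
  have top : ∀ Y : Subgroup P, ¬ Y ≤ M → Oup p ⊤ ≤ ncl S Y := fun Y n =>
    Oup_le_sup_of_isPGroup hS.pg (le_normalizer_ncl _ _) (h.eq_of_not_le le_sup_left le_top
      fun l => n ((le_ncl _ _).trans (le_sup_right.trans l))).ge
  have pf : ∀ {X : Subgroup P}, ⁅X, X⁆ = X → X ≤ Oup p ⊤ := fun e =>
    (Oup_eq_self_of_perfect e).ge.trans (Oup_mono le_top)
  have l1 := top K nM
  have l2 : ncl S K ≤ Lay ⊤ := k.ncl_le_Lay (le_top.trans le_normalizer)
  have l3 : Lay (⊤ : Subgroup P) ≤ Oup p ⊤ := pf (Lay_perfect _)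
  have l4 : Fs (⊤ : Subgroup P) ≤ Oup p ⊤ := by
    rw [Fs_eq]
    refine sup_le l3 ((Fit_le_Op_sup_Opp p _).trans ?_)
    rw [Op_top, hOp, bot_sup_eq]
    exact le_Oup le_top (Opp_coprime _ _)
  rw [← Oup_top, ← Fs_top, ← Lay_top]
  refine ⟨le_antisymm (l1.trans (l2.trans (Lay_le_Fs _))) l4, le_antisymm (l4.trans (l1.trans l2))
    (Lay_le_Fs _), (le_antisymm (l3.trans l1) l2).trans (ncl_eq_iSup _ _), ?_⟩
  set T := (S : Subgroup P) ⊓ normalizer (K : Set P)
  have nT : T ≤ normalizer (K : Set P) := inf_le_right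
  have lT : (S : Subgroup P) ⊓ K ≤ T := inf_le_inf_left _ le_normalizer
  have sT : Syl p T (K ⊔ T) := ⟨le_sup_right, hS.pg.to_le inf_le_left, fun d => sK.nd (by
    have e1 := card_mul_relIndex (le_sup_right : T ≤ K ⊔ T)
    have e2 := card_sup_mul_card_inf' nT
    have e3 := card_mul_relIndex sK.le
    rw [show K ⊓ T = (S : Subgroup P) ⊓ K from le_antisymm (le_inf (inf_le_right.trans inf_le_left) inf_le_left)
      (le_inf inf_le_right lT), ← e1, ← e3, mul_comm _ (Nat.card T), mul_assoc,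
      Nat.mul_right_inj Nat.card_pos.ne', mul_comm, Nat.mul_right_inj Nat.card_pos.ne'] at e2
    exact e2 ▸ d)⟩
  have um : UM T (M ⊓ (K ⊔ T)) (K ⊔ T) := ⟨le_inf (inf_le_left.trans hSM) le_sup_right,
    lt_of_le_of_ne inf_le_right fun e => nM (le_sup_left.trans (e.ge.trans inf_le_left)),
    fun X h1 h2 => le_inf ?_ h2.le⟩
  · refine (isPMinimal_iff sT).2 ⟨um.ncl_syl sT fun n => ?_, _, um⟩
    rcases k.le_or_comm_of_normalizes (A := S ⊓ K) le_top ((show (S : Subgroup P) ⊓ K = T ⊓ K from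
      le_antisymm (le_inf lT inf_le_right) (inf_le_inf_right _ inf_le_left)) ▸
        le_normalizer_inf (le_sup_left.trans n) le_normalizer) with e | e
    · exact k.qs.not_le_solvable (isSolvable_of_isPGroup sK.pg) e
    · exact nb (eq_bot_iff.2 (hOp ▸ le_pCore (.trans (.of_normal inf_le_right
        (le_normalizer_of_commutator_eq_bot e)) k.sn) sK.pg))
  have e := inf_sup_of_le_normalizer nT h1
  rw [sup_comm, inf_eq_right.2 h2.le] at e
  rw [e]
  refine sup_le (inf_le_left.trans hSM) (by_contra fun n => h2.not_ge (sup_le ?_ h1))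
  have l5 : K ≤ K ⊓ X ⊔ centralizer (K : Set P) := (pf k.perf).trans ((top _ n).trans (ncl_le_iff.2
    fun s hs => by
      rcases k.cj_eq_or_comm (le_normalizer (mem_top s)) with e | e
      · have m : s ∈ T := ⟨hs, cj_eq_iff.1 e⟩
        exact le_sup_of_le_left (cj_le_of_mem_normalizer (le_normalizer_inf nT (h1.trans le_normalizer) m)
          le_rfl)
      · exact le_sup_of_le_right ((cj_mono s inf_le_left).trans (comm_bot_iff.1 e))))
  have c : ⁅K ⊓ centralizer (K : Set P), K⁆ = ⊥ := comm_bot_iff.2 inf_le_right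
  have e2 := inf_sup_of_le_normalizer (A := K ⊓ X) (B := centralizer (K : Set P)) (C := K)
    (inf_le_left.trans (le_normalizer_centralizer le_normalizer)) inf_le_left
  rw [inf_eq_right.2 l5, inf_comm _ K] at e2
  have e3 := commutator_sup_central (N := K ⊓ X) (comm_bot_mono c le_rfl inf_le_left)
    (comm_bot_mono c le_rfl inf_le_left)
  rw [← e2, k.perf] at e3
  exact e3.le.trans ((commutator_le_left_of le_normalizer).trans inf_le_right)

end Cfsg.Agent.S2906
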