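import Cfsg.Statements.S2907
import Mathlib
import Cfsg.Agent.H2.BG0

set_option autoImplicit false
open Cfsg

namespace Cfsg.Agent.S2907

open Cfsg Subgroup CfsgH2
open scoped commutatorElement

/-- Let X be a finite semi-extraspecial p-group and x an element of X outside the centre. Then the index of C_X(x) in X equals the order of Z(X), and the commutators [x, y], y ∈ X, form exactly the centre Z(X). -/
theorem result {X : Type*} [Group X] [Finite X] {p : ℕ} [Fact p.Prime] (hX : Cfsg.IsSemiExtraspecial p X) (x : X) (hx : x ∉ Subgroup.center X) : (Subgroup.centralizer ({x} : Set X)).index = Nat.card ↥(Subgroup.center X) ∧ {z : X | ∃ y : X, z = x * y * x⁻¹ * y⁻¹} = (Subgroup.center X : Set X) := by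
  obtain ⟨⟨hp, -, hd⟩, h2⟩ := hX
  have hc : ∀ y, ⁅x, y⁆ ∈ center X := fun y => hd.le (commutator_mem_commutator (mem_top x) (mem_top y))
  let φ : X →* X := MonoidHom.mk' (fun y => ⁅x, y⁆) fun a b => by
    rw [commutator_mul_right', mem_center_iff.1 (hc b) a]; group
  have hk : φ.ker = C1[x] := by
    ext y
    rw [MonoidHom.mem_ker, mem_centralizer_singleton_iff]
    exact commutatorElement_eq_one_iff_mul_comm.trans eq_comm
  have hr : φ.range = center X := by
    have hl : φ.range ≤ center X := by rintro _ ⟨y, rfl⟩; exact hc y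
    by_contra hne
    obtain ⟨M, hM, h1⟩ := CfsgH1.exists_coatom_ge (H := φ.range.subgroupOf (center X))
      (fun e => hne (le_antisymm hl (subgroupOf_eq_top.1 e)))
    set Y := M.map (center X).subtype
    have hY : Y.subgroupOf (center X) = M := comap_map_eq_self_of_injective (subtype_injective _) _
    obtain ⟨hn, h3, h4⟩ := h2 Y (map_subtype_le _) (hY ▸ hM)
    set f := QuotientGroup.mk' Y
    have hf : Function.Surjective f := QuotientGroup.mk'_surjective Y
    have h5 : f x ∈ center (X ⧸ Y) := mem_center_iff.2 fun y => by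
      obtain ⟨y, rfl⟩ := hf y
      rw [eq_comm, ← commutatorElement_eq_one_iff_mul_comm, ← map_commutatorElement]
      exact (QuotientGroup.eq_one_iff _).2 ⟨⟨_, hc y⟩, h1 ⟨y, rfl⟩, rfl⟩
    rw [← h3.2.2, commutator_def, ← map_top_of_surjective f hf, ← map_commutator, ← commutator_def, hd] at h5
    obtain ⟨z, hz, e⟩ := h5
    have := map_subtype_le M (QuotientGroup.eq.1 e)
    exact hx (by simpa using (center X).mul_mem hz this)
  refine ⟨by rw [← hk, index_ker, hr], ?_⟩
  rw [← hr]
  ext z
  exact ⟨fun ⟨y, e⟩ => ⟨y, e.symm⟩, fun ⟨y, e⟩ => ⟨y, e.symm⟩⟩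

end Cfsg.Agent.S2907
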