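import Cfsg.Statements.S2908
import Mathlib
import Cfsg.Agent.H2.BG0

set_option autoImplicit false
open Cfsg

namespace Cfsg.Agent.S2908

open Cfsg Subgroup CfsgH2
open scoped commutatorElement

theorem aux {p : ℕ} [Fact p.Prime] (n : ℕ) : ∀ (G : Type*) [Group G] [Finite G] (P A B : Subgroup G), o[P] = n →
    PG[p, P] → PG[p, A] → ¬ p ∣ o[B] → A ≤ N[P] → B ≤ N[P] → A ≤ C[B] → ⁅P, B⁆ ≤ ⁅P, A⁆ → ⁅P, B⁆ = ⊥ := by
  induction n using Nat.strong_induction_on with
  | _ n ih =>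
  intro G _ _ P A B hn hP hA hB nA nB hAB h
  by_cases h0 : P = ⊥
  · simp [h0]
  set Z := P ⊓ C[(P ⊔ A : Subgroup G)]
  have hZ : Z ≠ ⊥ := inf_cent_ne_bot' (isPGroup_sup hP hA (Or.inr nA)) hP (sup_le le_normalizer nA) h0
  have c : P ⊔ A ≤ C[Z] := le_centralizer_iff.1 inf_le_right
  have n1 : P ≤ N[Z] := le_norm_of_le_cent (le_sup_left.trans c)
  have n2 : A ≤ N[Z] := le_norm_of_le_cent (le_sup_right.trans c)
  have n3 : B ≤ N[Z] := le_norm_inf nB (le_norm_cent (le_norm_sup nB (le_norm_of_le_cent (le_centralizer_iff.1 hAB))))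
  have h1 := ih _ (hn ▸ card_qt_lt (by rwa [inf_eq_right.2 inf_le_left])) _ (qt Z P) (qt Z A) (qt Z B) rfl
    (isPGroup_qt hP) (isPGroup_qt hA) (fun e => hB (e.trans card_qt_dvd)) (qt_le_norm nA) (qt_le_norm nB)
    (qt_le_cent hAB) (by rw [← qt_commutator n1 n3, ← qt_commutator n1 n2]; exact qt_mono h)
  rw [comm_eq_bot_iff, qt_le_cent_iff n1 n3] at h1
  have cop := coprime_of_not_dvd hB hP
  have hs : Sol[B] ∨ Sol[P] := Or.inr (by have := nil_of_pg hP; infer_instance)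
  have h2 := coprime_comm_sup_cent nB cop hs
  have h3 : ⁅P, A⁆ ≤ C[B] := commutator_le.2 fun x hx a ha => by
    rw [← h2] at hx
    obtain ⟨u, hu, v, hv, rfl⟩ := (mem_sup_of_norm' (inf_le_left.trans le_norm_comm_left)).1 hx
    have k := mem_cent_iff.1 (h1 hu).2
    have e : ⁅u * v, a⁆ = ⁅v, a⁆ := by
      have k1 := k _ (Subgroup.mul_mem _ (Subgroup.mul_mem _ (mem_sup_left hv.1) (mem_sup_right ha))
        (mem_sup_left (P.inv_mem hv.1)))
      rw [commutatorElement_def, commutatorElement_def]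
      calc u * v * a * (u * v)⁻¹ * a⁻¹ = u * (v * a * v⁻¹) * u⁻¹ * a⁻¹ := by group
        _ = _ := by rw [← k1]; group
    rw [e, commutatorElement_def]
    exact Subgroup.mul_mem _ (Subgroup.mul_mem _ (Subgroup.mul_mem _ hv.2 (hAB ha)) (Subgroup.inv_mem _ hv.2))
      (Subgroup.inv_mem _ (hAB ha))
  exact comm_eq_bot_iff.2 (le_centralizer_iff.1 (coprime_le_cent nB cop hs (h.trans h3)))

/-- Let P be a p-subgroup of a finite group, normalized by a p-subgroup A and by a subgroup B of order prime to p that commutes elementwise with A. If [P, B] ≤ [P, A], then B centralizes P. -/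
theorem result {G : Type*} [Group G] [Finite G] {p : ℕ} [Fact p.Prime] (P A B : Subgroup G) (hP : IsPGroup p ↥P) (hA : IsPGroup p ↥A) (hB : ¬ p ∣ Nat.card ↥B) (hnA : A ≤ Subgroup.normalizer (P : Set G)) (hnB : B ≤ Subgroup.normalizer (P : Set G)) (hAB : ⁅A, B⁆ = ⊥) (hcomm : ⁅P, B⁆ ≤ ⁅P, A⁆) : ⁅P, B⁆ = ⊥ := by
  exact aux _ G P A B rfl hP hA hB hnA hnB (comm_eq_bot_iff.1 hAB) hcomm

end Cfsg.Agent.S2908
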