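import Cfsg.Statements.S2909
import Mathlib
import Cfsg.Agent.S2908
import Cfsg.Agent.H9.Comp2

set_option autoImplicit false
open Cfsg

namespace Cfsg.Agent.S2909

open Cfsg Subgroup CfsgH2
open scoped commutatorElement

/-- Let p be a prime, E a normal p-subgroup of the finite group G, and U a non-cyclic elementary abelian p-subgroup of G such that either C_E(U) = C_E(u) for every nontrivial u ∈ U, or [E, U] = [E, ⟨u⟩] for every nontrivial u ∈ U. If R is a subgroup of order prime to p normalized by U, then [R, U] centralizes E. -/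
theorem result {G : Type*} [Group G] [Finite G] {p : ℕ} [Fact p.Prime] (E : Subgroup G) [E.Normal] (hE : IsPGroup p ↥E) (U : Subgroup G) (hU : Cfsg.IsElementaryAbelian p U) (hnc : ¬ IsCyclic ↥U) (hcond : (∀ u ∈ U, u ≠ 1 → E ⊓ Subgroup.centralizer (U : Set G) = E ⊓ Subgroup.centralizer ({u} : Set G)) ∨ (∀ u ∈ U, u ≠ 1 → ⁅E, U⁆ = ⁅E, Subgroup.zpowers u⁆)) (R : Subgroup G) (hR : ¬ p ∣ Nat.card ↥R) (hRU : U ≤ Subgroup.normalizer (R : Set G)) : ⁅R, U⁆ ≤ Subgroup.centralizer (E : Set G) := by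
  have hUp := elem_pgroup hU
  have cop := coprime_of_pgroup hUp hR
  set f := QuotientGroup.mk' C[E]
  have key : ∀ X : Subgroup G, ⁅X, U⁆ ≤ C[E] ↔ X ≤ C[U.map f].comap f := fun X => by
    rw [← map_le_iff_le_comap, ← comm_eq_bot_iff (K := U.map f), ← map_commutator, Subgroup.map_eq_bot_iff, QuotientGroup.ker_mk']
  refine (key R).2 (le_of_cent1 hU.1 hnc hRU cop fun u hu h1 => (key _).1 ?_)
  have nE : ∀ X : Subgroup G, X ≤ N[E] := fun X => le_normalizer_of_normal
  have hUu : U ≤ C1[u] := le_cent1_iff.2 (le_cent_self hU.1 hu)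
  have hB : ⁅R ⊓ C1[u], U⁆ ≤ R ⊓ C1[u] := comm_le_left (le_norm_inf hRU (hUu.trans le_normalizer))
  have hB' : ¬ p ∣ o[⁅R ⊓ C1[u], U⁆] := fun e => hR (e.trans (card_dvd_of_le (hB.trans inf_le_left)))
  have hc : ⁅R ⊓ C1[u], U⁆ ≤ C[zpowers u] := by rw [cent_zpowers]; exact hB.trans inf_le_right
  have hup : PG[p, zpowers u] := hUp.to_le (zpowers_le.2 hu)
  have n0 : R ⊓ C1[u] ≤ N[zpowers u] := le_norm_of_le_cent (by rw [cent_zpowers]; exact inf_le_right)
  rcases hcond with h | h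
  · have := CfsgH9.pxq hup hE (comm_eq_bot_iff.2 hc) (nE _) (nE _) (by
      refine comm_eq_bot_iff.2 (comm_le_cent_of_norm (le_norm_inf (nE _) (le_norm_cent n0)) ?_)
      rw [cent_zpowers, ← h u hu h1]; exact le_centralizer_iff.1 inf_le_right)
    rwa [CfsgH9.Oup_eq_self_of_coprime ((coprime_iff_not_dvd Fact.out).2 hB'), comm_eq_bot_iff] at this
  · refine le_centralizer_iff.1 (comm_eq_bot_iff.1 (Cfsg.Agent.S2908.result E (zpowers u) _ hE hup hB' (nE _) (nE _)
      (comm_eq_bot_iff.2 (le_centralizer_iff.1 hc)) ?_))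
    rw [← h u hu h1, commutator_comm]
    have n1 : R ⊓ C1[u] ≤ N[⁅E, U⁆] := by rw [h u hu h1]; exact le_norm_commutator (nE _) n0
    refine three_subgroup_le n1 le_norm_comm_right le_norm_comm_left ?_ ?_
    · rw [commutator_comm U]; exact comm_le_left n1
    · exact commutator_mono (comm_le_left (nE _)) le_rfl

end Cfsg.Agent.S2909
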