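import Cfsg.Statements.S2910
import Mathlib
import Cfsg.Agent.H2.Frob
import Cfsg.Agent.H2.BG0

set_option autoImplicit false
open Cfsg

namespace Cfsg.Agent.S2910

open Cfsg Subgroup CfsgH2

/-- Let p be an odd prime dividing the order of the finite group G and P a Sylow p-subgroup of G. If Ω₁(P) (generated by the elements of order dividing p) is contained in the centre of G, then G has a normal p-complement. In particular, if G is quasisimple then Ω₁(P) is not central in G. -/
theorem result {G : Type*} [Group G] [Finite G] {p : ℕ} [Fact p.Prime] (hp : p ≠ 2) (hdiv : p ∣ Nat.card G) (P : Sylow p G) (hZ : Cfsg.omegaOne p (P : Subgroup G) ≤ Subgroup.center G) : Cfsg.HasNormalPComplement p G ∧ ¬ Cfsg.IsQuasisimple G := by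
  have h : NPC p (⊤ : Subgroup G) := (syl_top P).frobenius_npc fun Q hQ _ g _ hn hc =>
    coprime_odd_faithful_omega (A := zpowers g) hp (by rwa [Nat.card_zpowers, ← coprime_iff_not_dvd Fact.out]) Q
      (P.2.to_le hQ) (zpowers_le.2 hn) (zpowers_le.2 (mem_cent_iff.2 fun a ha =>
        (mem_center_iff.1 (hZ (omegaOne_mono hQ ha)) g).symm)) (mem_zpowers g)
  refine ⟨npc_top_iff.2 h, fun hq => ?_⟩
  have h1 := h.sup_eq (syl_top P)
  have h2 : ⁅(⊤ : Subgroup G), (⊤ : Subgroup G)⁆ = ⊤ := hq.1.commutator_eq_top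
  set f := QuotientGroup.mk' O[{p}ᶜ, (⊤ : Subgroup G)]
  have h3 : (P : Subgroup G).map f = map f ⊤ := by
    have := congrArg (map f) h1
    rwa [Subgroup.map_sup, (Subgroup.map_eq_bot_iff _).2 (QuotientGroup.ker_mk' _).ge, bot_sup_eq] at this
  have h4 := eq_bot_of_le_commutator (nil_of_pg (P.2.map f)) le_rfl (by rw [h3, ← map_commutator, h2])
  rw [Subgroup.map_eq_bot_iff, QuotientGroup.ker_mk'] at h4
  exact not_dvd_piCoreOf (((syl_top P).dvd_card (by simpa using hdiv)).trans (card_dvd_of_le h4))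

end Cfsg.Agent.S2910
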