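import Cfsg.Statements.S2912
import Mathlib
import Cfsg.Agent.H9.Cp6

set_option autoImplicit false
open Cfsg

namespace Cfsg.Agent.S2912

/-- Let p and r be distinct primes, let E be an extraspecial subgroup of order p^(2w+1) of a finite group, and let A be an elementary abelian r-subgroup normalized by E on which E acts faithfully (C_E(A) = 1). If n ≥ 1 is least with p dividing rⁿ − 1 (the smallest dimension of a faithful representation of a group of order p over the field with r elements), then the order of A is at least r^(n·p^w). -/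
theorem result {G : Type*} [Group G] [Finite G] {p r : ℕ} [Fact p.Prime] [hr : Fact r.Prime] (hpr : p ≠ r) (E A : Subgroup G) (w : ℕ) (hE : Cfsg.IsExtraspecial p ↥E) (hEcard : Nat.card ↥E = p ^ (2 * w + 1)) (hA : Cfsg.IsElementaryAbelian r A) (hnorm : E ≤ Subgroup.normalizer (A : Set G)) (hfaith : E ⊓ Subgroup.centralizer (A : Set G) = ⊥) (n : ℕ) (hn : 1 ≤ n) (hdiv : p ∣ r ^ n - 1) (hmin : ∀ k : ℕ, 1 ≤ k → p ∣ r ^ k - 1 → n ≤ k) : r ^ (n * p ^ w) ≤ Nat.card ↥A := by
  open Subgroup Cfsg CfsgH3 CfsgH2 Function CfsgCP in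
  have w0 := (extraspecial_iff.1 hE).1
  have hp : p.Prime := Fact.out
  obtain ⟨z1, z⟩ := wx_comm w0 hA hnorm hpr.symm hfaith
  have l := comm_le_left (inf_le_left.trans hnorm : E ⊓ centralizer (E : Set G) ≤ _)
  have n1 := le_norm_commutator hnorm (le_norm_center (H := E))
  obtain ⟨D, a, b⟩ := wx_dim w0 hEcard (elem_of_le hA l) n1 hpr.symm z
  have c := card_modEq_inf_cent (isPGroup_of_card' w0.cardZ) (inf_le_left.trans n1)
  rw [z, card_bot, a] at c
  have r1 : ∀ k, 1 ≤ r ^ k := fun k => Nat.one_le_pow _ _ hr.out.pos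
  have d0 : D ≠ 0 := fun e => z1 (card_eq_one.1 (by rw [a, e, pow_zero]))
  have key : ∀ k, r ^ k ≡ 1 [MOD p] → n ∣ k := fun k hk => by
    have h1 : r ^ n ≡ 1 [MOD p] := ((Nat.modEq_iff_dvd' (r1 n)).2 hdiv).symm
    have h2 : r ^ (k % n) ≡ 1 [MOD p] := by
      have := (h1.pow (k / n)).mul_right (r ^ (k % n))
      rw [← pow_mul, ← pow_add, Nat.div_add_mod, one_pow, one_mul] at this
      exact this.symm.trans hk
    by_contra e
    exact (hmin _ (Nat.pos_of_ne_zero fun z => e (Nat.dvd_of_mod_eq_zero z))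
      ((Nat.modEq_iff_dvd' (r1 _)).1 h2.symm)).not_gt (Nat.mod_lt _ hn)
  have n2 := key (p - 1) (Nat.ModEq.pow_card_sub_one_eq_one hp ((Nat.coprime_primes hr.out hp).2 hpr.symm))
  have n3 : n.Coprime (p ^ _) := Nat.Coprime.pow_right w (Nat.Coprime.symm (hp.coprime_iff_not_dvd.2
    fun e => (Nat.le_of_dvd (by have := hp.two_le; omega) (e.trans n2)).not_gt (by have := hp.pos; omega)))
  exact (Nat.pow_le_pow_right hr.out.pos (Nat.le_of_dvd (Nat.pos_of_ne_zero d0)
    (n3.mul_dvd_of_dvd_of_dvd (key D c) b))).trans (a ▸ card_le_of_le l)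

end Cfsg.Agent.S2912
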