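import Cfsg.Statements.S2924
import Mathlib
import Cfsg.Agent.H9.Pump2

set_option autoImplicit false
open Cfsg

namespace Cfsg.Agent.S2924

/-- Let X be a finite group and Y an elementary abelian 2-subgroup of X of order at least 8 such that C_X(x) has no components (E(C_X(x)) = 1) for every nontrivial x ∈ Y, and F*(C_X(z)) = O₂(C_X(z)) for some nontrivial z ∈ Y. Then the subgroup generated by the cores O(C_X(y)), y ∈ Y nontrivial, has odd order and is normalized by N_X(Y). -/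
theorem result {X : Type*} [Group X] [Finite X] (Y : Subgroup X) (hY : Cfsg.IsElementaryAbelian 2 Y) (h8 : 8 ≤ Nat.card ↥Y) (hE : ∀ x ∈ Y, x ≠ 1 → Cfsg.layer ↥(Subgroup.centralizer ({x} : Set X)) = ⊥) (hz : ∃ z ∈ Y, z ≠ 1 ∧ Cfsg.generalizedFittingSubgroup ↥(Subgroup.centralizer ({z} : Set X)) = Cfsg.pCore 2 ↥(Subgroup.centralizer ({z} : Set X))) : Odd (Nat.card ↥(⨆ y : {y : X // y ∈ Y ∧ y ≠ 1}, (Cfsg.oddCore ↥(Subgroup.centralizer ({(y : X)} : Set X))).map (Subgroup.centralizer ({(y : X)} : Set X)).subtype)) ∧ Subgroup.normalizer (Y : Set X) ≤ Subgroup.normalizer ((⨆ y : {y : X // y ∈ Y ∧ y ≠ 1}, (Cfsg.oddCore ↥(Subgroup.centralizer ({(y : X)} : Set X))).map (Subgroup.centralizer ({(y : X)} : Set X)).subtype : Subgroup X) : Set X) := by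
  open Subgroup CfsgH9 in
  obtain ⟨z, hzY, hz1, hz⟩ := hz
  have hz' : ChP 2 (centralizer ({z} : Set X)) := chP_iff_eq.2 hz
  have z2 : z * z = 1 := by rw [← sq]; exact hY.2 z hzY
  have c : ∀ {x y : X}, x ∈ Y → y ∈ Y → x ∈ centralizer ({y} : Set X) := fun a b =>
    ea_le_centralizer_singleton hY b a
  have h0 : ∀ x ∈ Y, x ≠ 1 → ChP 2 (centralizer ({x} : Set X) ⊓ centralizer (zpowers z : Set X)) :=
    fun x a b => by
      have := hz'.inf_centralizer (isPGroup_zpowers_of_prime (ea_orderOf hY a b))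
        (zpowers_le.2 (c a hzY))
      rwa [centralizer_zpowers, inf_comm, ← centralizer_zpowers z] at this
  have n : ∀ {x y : X}, x ∈ Y → y ∈ Y → x ∈ normalizer (Opp 2 (centralizer ({y} : Set X)) : Set X) :=
    fun a b => le_normalizer_Opp le_normalizer (c a b)
  have h1 : ∀ x ∈ Y, x ≠ 1 → ∀ o ∈ Opp 2 (centralizer ({x} : Set X)), z * o * z⁻¹ = o⁻¹ :=
    fun x a b o ho => inverts_of_fpf z2 (n hzY a) (eq_bot_iff.2 ((le_inf le_rfl (inf_le_inf
      (Opp_le 2 _) (centralizer_zpowers z).ge)).trans (((inf_le_inf_right _ inf_le_left).trans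
      (Opp_inf_le_Opp (inf_le_left.trans le_normalizer))).trans (chP_iff.1 (h0 x a b)).2.le))) ho
  have h2 : ∀ x ∈ Y, x ≠ 1 → PLay 2 (centralizer ({x} : Set X)) = ⊥ := fun x a b => by
    refine PLay_eq_bot_iff.2 fun K hK => ?_
    have d := comm_zpowers_le_of_inverts (h1 x a b) (le_normalizer_Opp le_normalizer) (n hzY a)
    rcases hK.le_or_comm (sn_inf_centralizer (le_normalizer_Opp (p := 2) le_normalizer)) with e | e
    · exact Lay_eq_bot_iff.1 (by rw [Lay, hE x a b, Subgroup.map_bot]) K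
        (hK.comp_of_comm (comm_bot_iff.2 (e.trans inf_le_right)))
    · refine hK.PLay_ne_bot (isPGroup_zpowers_of_prime (ea_orderOf hY hzY hz1))
        (zpowers_le.2 (c hzY a)) ?_ (h0 x a b).PLay_eq_bot
      rw [Subgroup.commutator_comm]
      refine comm_le_of_perfect hK.pqs.perf (zpowers_le.2 (n hzY a))
        (hK.le.trans (le_normalizer_Opp le_normalizer)) ?_
      rw [Subgroup.commutator_comm]
      refine (commutator_mono le_rfl (le_inf ?_ ((commutator_mono le_rfl hK.le).trans d))).trans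
        (e.trans (Opp_mono hK.sn))
      exact (commutator_mono (zpowers_le.2 (c hzY a)) hK.le).trans
        (commutator_le_right_of le_normalizer)
  have h3 : ∀ x ∈ Y, x ≠ 1 → ∀ B ≤ Y, ∀ w ∈ B, w ≠ 1 → Opp 2 (centralizer ({x} : Set X)) ⊓
      centralizer (B : Set X) ≤ Opp 2 (centralizer ({w} : Set X)) := fun x a b B hB w d e =>
    (inf_le_inf_left _ (centralizer_le_centralizer_singleton d)).trans
      (Opp_centralizer_inf_le (ea_orderOf hY a b) (c a (hB d)) (h2 w (hB d) e))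
  have y0 : Y ≠ ⊥ := ne_bot_of_pow_le (p := 2) (k := 3) (by norm_num) h8
  have h4 : ∀ x ∈ Y, x ≠ 1 → ∀ y ∈ Y, y ≠ 1 → Opp 2 (centralizer ({x} : Set X)) ≤
      centralizer (Opp 2 (centralizer ({y} : Set X)) : Set X) := fun x a b y d e => by
    refine ea_le_of_hyp hY y0 (fun _ h => n h a) (Opp_coprime 2 _) fun B hB => ?_
    rw [← comm_bot_iff, comm_bot_iff']
    refine ea_le_of_hyp hY y0 (fun _ h => n h d) (Opp_coprime 2 _) fun B' hB' => ?_
    obtain ⟨w, w1, w2⟩ := exists_ne_one_of_ne_bot (hB.inf_ne_bot hY hB'.1 (hB'.pow_le (k := 2) h8))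
    exact comm_bot_iff'.1 (comm_bot_mono (comm_of_inverts (h1 w (hB.1 w1.1) w2))
      (h3 x a b B hB.1 w w1.1 w2) (h3 y d e B' hB'.1 w w1.2 w2))
  refine ⟨odd_iff_coprime_two.2 (coprime_of_le_commuting (fun i => Opp_coprime 2 _) fun i j =>
    (h4 _ i.2.1 i.2.2 _ j.2.1 j.2.2).trans (centralizer_le_normalizer _)),
    le_normalizer_iff_cj.2 fun g hg => ?_⟩
  rw [cj, Subgroup.map_iSup]
  refine iSup_le fun y => le_iSup_of_le ⟨g * y * g⁻¹, (mem_normalizer_iff.1 hg _).1 y.2.1,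
    fun e => y.2.2 (by simpa using e)⟩ (le_of_eq ?_)
  change cj g (Opp 2 _) = Opp 2 _
  rw [cj_Opp, cj_centralizer_singleton]

end Cfsg.Agent.S2924
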