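import Cfsg.Statements.S2925
import Mathlib
import Cfsg.Agent.H9.PT

set_option autoImplicit false
open Cfsg

namespace Cfsg.Agent.S2925

/-- Let K be a component of the finite group X and T a Sylow 2-subgroup of X. If some abelian normal subgroup Y of T does not normalize K, then K ⧸ Z(K) has abelian Sylow 2-subgroups. -/
theorem result {X : Type*} [Group X] [Finite X] (K : Subgroup X) (hK : Cfsg.IsComponent K) (T : Sylow 2 X) (Y : Subgroup X) (hYT : Y ≤ (T : Subgroup X)) (hYn : (Y.subgroupOf (T : Subgroup X)).Normal) (hYab : IsMulCommutative ↥Y) (hnot : ¬ Y ≤ Subgroup.normalizer (K : Set X)) (P : Sylow 2 (↥K ⧸ Subgroup.center ↥K)) : IsMulCommutative ↥(P : Subgroup (↥K ⧸ Subgroup.center ↥K)) := by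
  open Subgroup CfsgH9 in
  haveI : Fact (Nat.Prime 2) := ⟨Nat.prime_two⟩
  have h := comp_top_iff.2 hK
  obtain ⟨y, hy, hyn⟩ := not_forall₂.1 hnot |>.imp fun y h => (⟨h.1, h.2⟩ : y ∈ Y ∧ _)
  have hc := (h.cj_eq_or_comm (g := y) (le_normalizer (mem_top y))).resolve_left fun e => hyn (cj_eq_iff.1 e)
  have hS := (syl_sylow T).inf_sn h.1
  have hTY := (normal_subgroupOf_iff_le_normalizer hYT).1 hYn
  have hYY := isMulCommutative_iff_forall.1 hYab
  have key : ∀ s ∈ (T : Subgroup X) ⊓ K, ∀ t ∈ (T : Subgroup X) ⊓ K,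
      (t * s)⁻¹ * (s * t) ∈ centralizer (K : Set X) := by
    intro s hs t ht
    have m : ∀ s ∈ (T : Subgroup X) ⊓ K, s * (y * s⁻¹ * y⁻¹) ∈ Y := fun s hs => by
      have := Y.mul_mem (le_normalizer_iff_forall.1 hTY s hs.1 y hy) (Y.inv_mem hy)
      simpa [mul_assoc] using this
    have c : ∀ s ∈ K, y * s⁻¹ * y⁻¹ ∈ centralizer (K : Set X) := fun s hs =>
      comm_bot_iff.1 hc (conj_mem_cj y (K.inv_mem hs))
    have e := hYY _ (m s hs) _ (m t ht)
    have c1 := c s hs.2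
    have c2 := c t ht.2
    have c3 := mem_centralizer_iff.1 c1 t ht.2
    have c4 := mem_centralizer_iff.1 c2 s hs.2
    generalize y * s⁻¹ * y⁻¹ = a at *
    generalize y * t⁻¹ * y⁻¹ = b at *
    have : (t * s)⁻¹ * (s * t) = b * a * (a * b)⁻¹ := by
      rw [mul_assoc, ← mul_assoc a, ← c3, mul_assoc t b, ← mul_assoc b, ← c4] at e
      rw [inv_mul_eq_iff_eq_mul, ← mul_assoc, eq_mul_inv_iff_mul_eq]
      simpa [mul_assoc] using e
    rw [this]
    exact mul_mem (mul_mem c2 c1) (inv_mem (mul_mem c1 c2))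
  have hP := (hS.subgroupOf le_rfl).map (QuotientGroup.mk' (center K))
  rw [subgroupOf_self, map_top_of_surjective _ (QuotientGroup.mk'_surjective _)] at hP
  obtain ⟨g, -, e⟩ := hP.conj (syl_sylow P)
  rw [← e, isMulCommutative_iff_comm, ← cj_commutator, cj_eq_bot, comm_bot_iff_forall]
  rintro _ ⟨a, ha, rfl⟩ _ ⟨b, hb, rfl⟩
  rw [← map_mul, ← map_mul, eq_comm]
  refine QuotientGroup.eq.2 (mem_center_iff.2 fun k => Subtype.ext ?_)
  exact mem_centralizer_iff.1 (key a ha b hb) k k.2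

end Cfsg.Agent.S2925
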