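import Cfsg.Statements.S2939
import Cfsg.Agent.H2.SC

set_option autoImplicit false
open Cfsg

namespace Cfsg.Agent.S2939
open CfsgH2
section
open Subgroup Function
open scoped commutatorElement

theorem cr_iff {G : Type*} [Group G] {A B : Set G} {g : G} :
    Cfsg.conjRight g A ⊆ B ↔ ∀ a ∈ A, g⁻¹ * a * g ∈ B := Set.image_subset_iff

end

/-- Let p be a prime dividing the order of the finite group G and 𝓕 a family of subgroups of G closed under conjugation, with conjugates taken as X^g = g⁻¹Xg. Then 𝓕 controls Sylow p-intersections in G (any two distinct Sylow p-subgroups S and T with S ∩ T ≠ 1 are joined by a chain S = S₀, S₁, …, Sₙ = T of Sylow p-subgroups where, for each i, some member Xᵢ of 𝓕 meets both S_{i-1} and Sᵢ in Sylow p-subgroups of Xᵢ, satisfies S ∩ T ≤ Sᵢ ∩ Xᵢ, and contains an element xᵢ with Sᵢ^{xᵢ} = S_{i-1}) if and only if 𝓕 strongly controls p-fusion in G (whenever A is a subset of a Sylow p-subgroup S, A contains an element other than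 1, and A^g ⊆ S, the element g factorises as g = y₁⋯yₙy with y ∈ N_G(S) and each yᵢ in a member Yᵢ of 𝓕 that meets S in a Sylow p-subgroup of Yᵢ, with A^{y₁⋯yᵢ} ⊆ S ∩ Yᵢ for each i). -/
theorem result {G : Type*} [Group G] [Finite G] {p : ℕ} [Fact p.Prime] (hdiv : p ∣ Nat.card G) (𝓕 : Set (Subgroup G)) (h𝓕 : Cfsg.IsNormalSet 𝓕) : Cfsg.ControlsSylowIntersections p 𝓕 ↔ Cfsg.FamilyStronglyControlsFusion p 𝓕 := by
  open Subgroup Function in open scoped commutatorElement in
  rw [cs_top_iff]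
  constructor
  · intro h S A g a ⟨x, hx, x1⟩ b
    have s := syl_top S
    have l : ∀ y ∈ A, y ∈ (S : Subgroup G) ⊓ (S : Subgroup G).map (cj g) := fun y hy =>
      ⟨a hy, mem_map_cj.2 (cr_iff.1 b y hy)⟩
    have c := h S _ s (s.map_cj_mem (mem_top g)) fun e => x1 (mem_bot.1 (e ▸ l x hx))
    obtain ⟨u, e, c'⟩ : ∃ u, (S : Subgroup G).map (cj u) = (S : Subgroup G).map (cj g) ∧
        Relation.ReflTransGen (fun u v => ∃ Y, (Y ∈ Cfsg.sylowMembers p 𝓕 (S : Subgroup G) ∧
          u⁻¹ * v ∈ Y) ∧ Cfsg.conjRight v A ⊆ (S : Set G) ∩ (Y : Set G)) 1 u := by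
      generalize (S : Subgroup G) ⊓ (S : Subgroup G).map (cj g) = D at l c
      generalize (S : Subgroup G).map (cj g) = T at c
      induction c with
      | refl => exact ⟨1, map_cj_one _, .refl⟩
      | tail _ e i =>
        obtain ⟨u, f, i⟩ := i
        obtain ⟨-, -, -, d, X, m, s, -, d2, x, hx, e⟩ := e
        have f2 := congrArg (map (cj x)) (f.trans e.symm)
        rw [map_cj_cj, map_cj_cj_inv] at f2
        refine ⟨x * u, f2, i.tail ⟨X.map (cj u⁻¹), ⟨sm_iff.2 ⟨nset_cj h𝓕 _ ⟨X, m, rfl⟩, ?_⟩,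
          mem_map_cj.2 (by simpa [mul_assoc] using hx)⟩, cr_iff.2 fun y hy =>
            ⟨mem_map_cj.1 (f2.ge (d (l y hy))), mem_map_cj.2 ?_⟩⟩⟩
        · simpa only [← f, map_cj_inf, map_cj_inv_cj] using s.map_cj u⁻¹
        · simpa [mul_assoc] using mul_mem (mul_mem (inv_mem hx) (d2 (l y hy))) hx
    obtain ⟨n, c, e0, rfl, h⟩ := rtg_iff.1 c'
    choose Y h1 h2 using h
    have k : ∀ i, Fin.partialProd (fun i : Fin n => (c i.castSucc)⁻¹ * c i.succ) i = c i := fun i => by
      simpa [e0] using congrFun (Fin.partialProd_left_inv c) i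
    refine ⟨n, Y, fun i => (c i.castSucc)⁻¹ * c i.succ, (c (Fin.last n))⁻¹ * g,
      map_cj_eq_iff.1 (by rw [← map_cj_cj, ← e, map_cj_inv_cj]), h1, ?_, fun i => ?_⟩
    · have := k (Fin.last n)
      rw [Fin.partialProd, List.take_of_length_le (by simp)] at this
      rw [this]; group
    · have := h2 i
      rwa [← k i.succ] at this
  · intro h S T s t d
    obtain ⟨g, -, rfl⟩ := s.conj t
    obtain ⟨S, rfl⟩ := s.exists_top
    obtain ⟨n, Y, y, y0, h0, h1, h2, h3⟩ := h S (((S : Subgroup G) ⊓ (S : Subgroup G).map (cj g) :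
      Subgroup G) : Set G) g (fun _ a => a.1) (exists_ne_one d)
      (cr_iff.2 fun _ a => mem_map_cj.1 a.2)
    refine rtg_iff.2 ⟨n, fun i => (S : Subgroup G).map (cj (Fin.partialProd y i)), by simp, ?_,
      fun i => ?_⟩
    · simp only [h2, ← map_cj_cj, map_cj_eq h0, Fin.partialProd]
      rw [List.take_of_length_le (by simp)]
    have k : ∀ j : Fin n, ∀ a ∈ (S : Subgroup G) ⊓ (S : Subgroup G).map (cj g),
        (Fin.partialProd y j.succ)⁻¹ * a * Fin.partialProd y j.succ ∈ (S : Subgroup G) ⊓ Y j :=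
      fun j => cr_iff.1 (h3 j)
    obtain ⟨m1, m2⟩ := sm_iff.1 (h1 i).1
    have e : (Y i).map (cj (Fin.partialProd y i.succ)) =
        (Y i).map (cj (Fin.partialProd y i.castSucc)) := by
      rw [Fin.partialProd_succ, ← map_cj_cj, map_cj_of_mem (h1 i).2]
    refine ⟨s.map_cj_mem (mem_top _), s.map_cj_mem (mem_top _), ?_,
      fun a ha => mem_map_cj.2 (k i a ha).1, _, nset_cj h𝓕 (Fin.partialProd y i.succ) ⟨_, m1, rfl⟩,
      by rw [e, ← map_cj_inf]; exact m2.map_cj _, by rw [← map_cj_inf]; exact m2.map_cj _,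
      fun a ha => mem_map_cj.2 (k i a ha).2, _, conj_mem_map_cj (h1 i).2, ?_⟩
    · rcases Fin.eq_zero_or_eq_succ i.castSucc with f | ⟨j, f⟩ <;> rw [f]
      · simp
      · exact fun a ha => mem_map_cj.2 (k j a ha).1
    · rw [map_cj_cj, Fin.partialProd_succ]; congr 2; group

end Cfsg.Agent.S2939
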