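import Cfsg.Statements.S2955
import Cfsg.Agent.H2.SC

set_option autoImplicit false
open Cfsg

namespace Cfsg.Agent.S2955
open CfsgH2

/-- Let p be a prime dividing the order of the finite group G and 𝓕 a conjugation-closed family of subgroups that controls Sylow p-intersections in G. Suppose the Sylow p-subgroups of G are chain-connected: any two of them are joined by a chain of Sylow p-subgroups, consecutive ones distinct with nontrivial intersection, all containing the intersection of the two ends (equivalently, the graph on the Sylow p-subgroups whose edges are the distinct pairs meeting nontrivially is connected). Then for every Sylow p-subgroup S, G is generated by N_G(S) together with the members of 𝓕 that meet S in a Sylow p-subgroup of themselves. -/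
theorem result {G : Type*} [Group G] [Finite G] (p : ℕ) [Fact p.Prime] (hdiv : p ∣ Nat.card G)
    (𝓕 : Set (Subgroup G)) (h𝓕 : Cfsg.IsNormalSet 𝓕) (hc : Cfsg.ControlsSylowIntersections p 𝓕)
    (hconn : Cfsg.IsSylowChainConnected p G) (S : Sylow p G) :
    (⨆ X ∈ Cfsg.sylowMembers p 𝓕 (S : Subgroup G), X) ⊔ Subgroup.normalizer ((S : Subgroup G) : Set G) = ⊤ := by
  open Subgroup Function in open scoped commutatorElement in
  set H := (⨆ X ∈ Cfsg.sylowMembers p 𝓕 (S : Subgroup G), X) ⊔ N[(S : Subgroup G)]
  have k1 : ∀ {D P Q : Subgroup G}, Ch p 𝓕 ⊤ D P Q → (∃ h ∈ H, P.map (cj h) = S) →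
      ∃ h ∈ H, Q.map (cj h) = S := fun c a => by
    induction c with
    | refl => exact a
    | tail _ e i =>
      obtain ⟨h, hh, f⟩ := i
      obtain ⟨-, -, -, -, X, m, s, -, -, x, hx, rfl⟩ := e
      have : X.map (cj h) ≤ H := le_trans (le_iSup₂_of_le _ (sm_iff.2 ⟨nset_cj h𝓕 h ⟨X, m, rfl⟩, by
        rw [← f, ← map_cj_inf]; exact s.map_cj h⟩) le_rfl) le_sup_left
      refine ⟨h * x⁻¹, ?_, by rw [← map_cj_cj, f]⟩
      simpa using mul_mem (this (conj_mem_map_cj (inv_mem hx))) hh
  refine top_le_iff.1 fun g _ => ?_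
  obtain ⟨T, e⟩ := ((syl_top S).map_cj_mem (mem_top g)).exists_top
  obtain ⟨n, c, e0, e1, -, h⟩ := hconn S T
  have k2 : ∀ i, ∃ h ∈ H, (c i : Subgroup G).map (cj h) = S := fun i => by
    induction i using Fin.induction with
    | zero => exact ⟨1, one_mem _, by rw [map_cj_one, e0]⟩
    | succ i j => exact k1 (cs_top_iff.1 hc _ _ (syl_top _) (syl_top _) (h i).2) j
  obtain ⟨h, hh, f⟩ := k2 (Fin.last n)
  rw [e1, e, map_cj_cj] at f
  exact (mul_mem_cancel_left hh).1 (mem_sup_right (map_cj_eq_iff.1 f))

end Cfsg.Agent.S2955
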