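import Cfsg.Statements.S2957
import Cfsg.Agent.H2.SC

set_option autoImplicit false
open Cfsg

namespace Cfsg.Agent.S2957
open CfsgH2

/-- Let p be a prime dividing the order of the finite group G, f an equivariant assignment of a set of subgroups f(P) of P to every p-subgroup P, each normalized by N_G(P), and S a Sylow p-subgroup. If G = G₁G₂ for subgroups G₁, G₂ both containing S and both regular for f (in each Gᵢ, the family of normalizers in Gᵢ of the members of f(P), P a Sylow p-subgroup of Gᵢ, controls Sylow p-intersections), then G itself is regular for f. -/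
theorem result {G : Type*} [Group G] [Finite G] (p : ℕ) [Fact p.Prime] (hdiv : p ∣ Nat.card G)
    (f : Subgroup G → Set (Subgroup G)) (hf : Cfsg.IsNormalizerFunctor p f) (S : Sylow p G)
    (G₁ G₂ : Subgroup G) (h₁ : (S : Subgroup G) ≤ G₁) (h₂ : (S : Subgroup G) ≤ G₂)
    (hprod : ∀ g : G, ∃ g₁ ∈ G₁, ∃ g₂ ∈ G₂, g = g₁ * g₂)
    (hr₁ : Cfsg.IsFunctorRegular p f G₁) (hr₂ : Cfsg.IsFunctorRegular p f G₂) :
    Cfsg.IsFunctorRegular p f ⊤ := by
  open Subgroup Function in open scoped commutatorElement in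
  have s := syl_top S
  have n := ff_normal hf
  refine reg_top fun P Q a b d => ?_
  obtain ⟨x, -, rfl⟩ := s.conj a
  obtain ⟨y, -, rfl⟩ := s.conj b
  obtain ⟨g, rfl⟩ : ∃ g, y = x * g := ⟨x⁻¹ * y, by group⟩
  rw [← map_cj_cj, ← map_cj_inf] at d ⊢
  refine Ch.map_cj n ?_ x
  have d := mt map_cj_eq_bot.2 d
  obtain ⟨U, u, l1, l2⟩ := exists_mid s h₁ h₂ hprod g
  refine (((reg_cs hr₁).ch (s.mono h₁ le_top) (u.mono (l2.trans inf_le_left) le_top) d inf_le_left
    l1).lift hf s).1.trans ?_
  have u2 := u.map_cj_mem (mem_top g⁻¹)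
  have := (((reg_cs hr₂).ch (u2.mono (map_cj_le_iff.2 (by
    rw [inv_inv]; exact l2.trans inf_le_right)) le_top) (s.mono h₂ le_top)
    (mt map_cj_eq_bot.1 d) (map_mono l1) (map_cj_le_iff.2 (by
      rw [inv_inv]; exact inf_le_right))).lift hf u2).1.map_cj n g
  rwa [map_cj_cj_inv, map_cj_cj_inv] at this

end Cfsg.Agent.S2957
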