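import Cfsg.Statements.S2958
import Cfsg.Agent.H2.Base

set_option autoImplicit false
open Cfsg

namespace Cfsg.Agent.S2958
open CfsgH2

/-- Let X, A, B be subgroups of a group G such that G is generated by the conjugates of X and every conjugate of X is contained in A or in B. Then A = G or B = G. -/
theorem result {G : Type*} [Group G] (X A B : Subgroup G) (hgen : (⨆ g : G, X.map (MulAut.conj g).toMonoidHom) = ⊤) (hcover : ∀ g : G, X.map (MulAut.conj g).toMonoidHom ≤ A ∨ X.map (MulAut.conj g).toMonoidHom ≤ B) : A = ⊤ ∨ B = ⊤ := by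
  open Subgroup Function in open scoped commutatorElement in
  simp only [cj_def] at hgen hcover
  by_cases h : ∀ g, X.map (cj g) ≤ B
  · exact .inr (top_le_iff.1 (hgen.ge.trans (iSup_le h)))
  obtain ⟨g, hg⟩ := not_forall.1 h
  set U := ⨆ (g : G) (_ : ¬ X.map (cj g) ≤ B), X.map (cj g)
  have k : ∀ b ∈ B, U.map (cj b) ≤ U := fun b hb => map_cj_le_iff.2 (iSup₂_le fun x hx =>
    map_cj_le_iff.1 (by
      rw [map_cj_cj]
      exact le_iSup₂_of_le (b * x) (fun l => hx (by
        rw [← map_cj_cj] at l; exact (map_cj_le_iff.1 l).trans (map_cj_of_mem (inv_mem hb)).le))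
        le_rfl))
  have n : ⊤ ≤ N[U] := hgen.ge.trans (iSup_le fun x => by
    by_cases c : X.map (cj x) ≤ B
    · exact fun y hy => map_cj_eq_iff.1 (le_antisymm (k y (c hy))
        (le_map_cj_iff.2 (k _ (inv_mem (c hy)))))
    · exact (le_iSup₂_of_le x c le_rfl : _ ≤ U).trans le_normalizer)
  refine .inl (top_le_iff.1 (hgen.ge.trans (iSup_le fun x => le_trans ?_
    (iSup₂_le fun x hx => (hcover x).resolve_right hx : U ≤ A))))
  rw [show x = x * g⁻¹ * g by group, ← map_cj_cj]
  exact map_cj_le_of_norm (le_iSup₂_of_le g hg le_rfl) (n trivial)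

end Cfsg.Agent.S2958
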