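import Mathlib
import Cfsg.Statements.S2963

set_option autoImplicit false
open Cfsg

namespace Cfsg.Agent.S2963

open MulAction Pointwise

theorem odd_choose (a r : ℕ) (hr : r < 2 ^ a) : ¬ 2 ∣ (2 ^ a + r).choose (2 ^ a) := by
  rw [Nat.add_choose_eq, ← Finset.add_sum_erase _ _ (show (2 ^ a, 0) ∈ Finset.HasAntidiagonal.antidiagonal (2 ^ a) by simp)]
  have : 2 ∣ ∑ x ∈ (Finset.HasAntidiagonal.antidiagonal (2 ^ a)).erase (2 ^ a, 0), (2 ^ a).choose x.1 * r.choose x.2 := by
    apply Finset.dvd_sum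
    rintro ⟨i, j⟩ h
    simp only [Finset.mem_erase, ne_eq, Prod.mk.injEq] at h
    have h2 : i + j = 2 ^ a := Finset.HasAntidiagonal.mem_antidiagonal.1 h.2
    have h1 := h.1
    clear h
    by_cases hi : i = 0
    · rw [Nat.choose_eq_zero_of_lt (n := r) (by omega)]; simp
    · exact Dvd.dvd.mul_right (Nat.prime_two.dvd_choose_pow hi (by omega)) _
  simp only [Nat.choose_self, Nat.choose_zero_right]
  omega

/-- Let n be odd. If the symmetric group of degree n is a minimal parabolic group for the prime 2, that is, a Sylow 2-subgroup is not normal and lies in exactly one maximal subgroup, then n = 2^m + 1 for some natural number m. -/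
theorem result (n : ℕ) (hn : Odd n) (h : Cfsg.IsPMinimal 2 (Equiv.Perm (Fin n))) : ∃ m : ℕ, n = 2 ^ m + 1 := by
  by_contra hc
  push Not at hc
  obtain ⟨S⟩ : Nonempty (Sylow 2 (Equiv.Perm (Fin n))) := inferInstance
  obtain ⟨h1, M, -, hM⟩ := h S
  have hn1 : n ≠ 1 := by
    rintro rfl
    exact h1 (Subgroup.normal_of_isMulCommutative _)
  obtain ⟨t, ht⟩ := hn
  have ha1 := Nat.pow_log_le_self 2 (show n ≠ 0 by omega)
  have ha2 := Nat.lt_pow_succ_log_self (b := 2) (by norm_num) n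
  have ha0 : 1 ≤ Nat.log 2 n := by
    exact Nat.log_pos (by norm_num) (by omega)
  have ha3 := hc (Nat.log 2 n)
  generalize Nat.log 2 n = a at *
  obtain ⟨r, hr⟩ : ∃ r, n = 2 ^ a + r := ⟨n - 2 ^ a, by omega⟩
  have hev : 2 ∣ 2 ^ a := dvd_pow_self 2 (by omega)
  have h2a : 2 ≤ 2 ^ a := Nat.le_of_dvd (by positivity) hev
  obtain ⟨s, hs⟩ := S.isPGroup'.nonempty_fixed_point_of_prime_not_dvd_card (Set.powersetCard (Fin n) (2 ^ a)) (by
    rw [Set.powersetCard.card, Nat.card_fin]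
    conv_rhs => enter [2, 1]; rw [hr]
    exact odd_choose a r (by omega))
  obtain ⟨b, hb⟩ := S.isPGroup'.nonempty_fixed_point_of_prime_not_dvd_card (Fin n) (by rw [Nat.card_fin]; omega)
  have hsc : ((s : Finset (Fin n)) : Set (Fin n)).ncard = 2 ^ a := by rw [Set.ncard_coe_finset]; exact s.2
  have hsc' : ((s : Finset (Fin n)) : Set (Fin n))ᶜ.ncard = r := by
    have := Set.ncard_add_ncard_compl ((s : Finset (Fin n)) : Set (Fin n))
    rw [Nat.card_fin] at this; omega
  have : Nontrivial (Fin n) := Fin.nontrivial_iff_two_le.2 (by omega)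
  have e1 := hM (stabilizer (Equiv.Perm (Fin n)) ((s : Finset (Fin n)) : Set (Fin n))) ⟨Equiv.Perm.isCoatom_stabilizer
    (Set.nonempty_of_ncard_ne_zero (by omega)) (Set.nonempty_of_ncard_ne_zero (by omega)) (by rw [Nat.card_fin]; omega), fun g hg => by
      have := congrArg (fun x : Set.powersetCard (Fin n) (2 ^ a) => ((x : Finset (Fin n)) : Set (Fin n))) (hs ⟨g, hg⟩)
      rw [mem_stabilizer_iff, ← Finset.coe_smul_finset]
      exact this⟩
  have e2 := hM (stabilizer (Equiv.Perm (Fin n)) b) ⟨IsPreprimitive.isCoatom_stabilizer_of_isPreprimitive _ b, fun g hg => hb ⟨g, hg⟩⟩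
  obtain ⟨c, hcb, hc⟩ : ∃ c, c ≠ b ∧ (c ∈ (s : Finset (Fin n)) ↔ b ∈ (s : Finset (Fin n))) := by
    by_cases hbs : b ∈ (s : Finset (Fin n))
    · obtain ⟨c, h1, h2⟩ := Set.exists_ne_of_one_lt_ncard (s := ((s : Finset (Fin n)) : Set (Fin n))) (by omega) b
      exact ⟨c, h2, iff_of_true h1 hbs⟩
    · obtain ⟨c, h1, h2⟩ := Set.exists_ne_of_one_lt_ncard (s := ((s : Finset (Fin n)) : Set (Fin n))ᶜ) (by omega) b
      exact ⟨c, h2, iff_of_false h1 hbs⟩
  have : Equiv.swap b c ∈ stabilizer (Equiv.Perm (Fin n)) b := by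
    rw [e2, ← e1, mem_stabilizer_iff]
    ext x
    rw [Set.mem_smul_set_iff_inv_smul_mem]
    simp only [Equiv.swap_inv, Equiv.Perm.smul_def, Finset.mem_coe, Equiv.swap_apply_def]
    split_ifs with h1 h2
    · rw [h1, hc]
    · rw [h2, hc]
    · rfl
  exact hcb (by simpa using this)

end Cfsg.Agent.S2963
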