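import Cfsg.Statements.S2984
import Mathlib
import Cfsg.Agent.H9.BBlk

set_option autoImplicit false
open Cfsg

namespace Cfsg.Agent.S2984

/-- Let G be a finite group of characteristic p (C_G(O_p(G)) ≤ O_p(G)), T a Sylow p-subgroup and E a B(T)-block of G, with W_E = [Ω₁(Z(O_p(E))), E]. Then E = O^p(E·O_p(G)), W_E ≤ Ω₁(Z(O_p(G))), and [W_E, J(T)] ≠ 1, where J(T) is generated by the elementary abelian p-subgroups of T of largest order. -/
theorem result {G : Type*} [Group G] [Finite G] {p : ℕ} [Fact p.Prime] (hG : Subgroup.centralizer (Cfsg.pCore p G : Set G) ≤ Cfsg.pCore p G) (T : Sylow p G) (E : Subgroup G) (hE : Cfsg.IsBaumannBlock p (T : Subgroup G) E) : Cfsg.pResidualOf p (E ⊔ Cfsg.pCore p G) = E ∧ ⁅Cfsg.omegaOneCenter p (Cfsg.pCoreOf p E), E⁆ ≤ Cfsg.omegaOneCenter p (Cfsg.pCore p G) ∧ ⁅⁅Cfsg.omegaOneCenter p (Cfsg.pCoreOf p E), E⁆, Cfsg.thompsonSubgroupOf p (T : Subgroup G)⁆ ≠ ⊥ := by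
  open Subgroup CfsgH9 in
  open scoped commutatorElement in
  have t := syl_sylow T
  have pQ := pCore_isPGroup (G := G) p
  have n := blk_norm t hE pQ le_normalizer_of_normal le_normalizer_of_normal
  have c := blk_cent t hE pQ
  have e1 : Oup p E = E := (Oup_eq E).symm.trans hE.1
  have nW := le_normalizer_OZ (p := p) (le_normalizer_Op (p := p) (le_normalizer (H := E)))
  have l := commutator_le_left_of nW
  have l2 : ⁅OZ p (Op p E), E⁆ ≤ OZ p (pCore p G) := le_OZ ((comm_bot_iff.1 c).trans hG) c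
    fun a ha => (mem_OZ.1 (l ha)).2.2
  refine ⟨(Oup_eq _).trans (le_antisymm (Oup_le_sup_of_isPGroup pQ n (sup_comm _ _).le)
    (e1.ge.trans (Oup_mono le_sup_left))), l2, fun k => (blk_irr hE).1 (le_inf le_rfl ?_)⟩
  have l3 : ⁅OZ p (Op p E), E⁆ ≤ OZ p (thompsonSubgroupOf p (T : Subgroup G)) := by
    refine le_trans ?_ CfsgL0.omega_cent_J.le
    exact le_om (le_inf ((l2.trans (OZ_le _)).trans ((Op_top p).ge.trans t.Op_le)) (comm_bot_iff.1 k))
      fun a ha => (mem_OZ.1 (l ha)).2.2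
  have l4 : baumannSubgroupOf p (T : Subgroup G) ≤ centralizer ((⁅OZ p (Op p E), E⁆ : Subgroup G) : Set G) :=
    inf_le_right.trans (centralizer_le (CfsgL0.ZJ_eq (e := p) (P := (T : Subgroup G)) ▸ l3))
  have l5 := hE.2.1.ge.trans ((commutator_mono le_rfl l4).trans (commutator_le_right_of
    (le_normalizer_centralizer (le_normalizer_commutator nW le_normalizer))))
  have := comm_Oup_eq_bot ((Op_isPGroup p E).to_le (OZ_le (p := p) _)) nW (by
    rw [e1]; exact comm_bot_iff'.2 l5)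
  rw [e1] at this
  exact comm_bot_iff.1 this

end Cfsg.Agent.S2984
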