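import Cfsg.Statements.S2989
import Cfsg.Agent.H2.PU10

set_option autoImplicit false
open Cfsg

namespace Cfsg.Agent.S2989
open CfsgH2

/-- Let G be a finite group and S a Sylow p-subgroup of G in the basic pushing-up situation (G ≠ 1, C_G(O_p(G)) ≤ O_p(G), S lies in a unique maximal subgroup of G, and some quotient of G is isomorphic to PSL₂ over a field of order a power of p), and suppose that S centralizes Z(J(S)), where J(S) is generated by the abelian subgroups of S of largest order (that is, J̃(S) = C_S(Z(J(S))) = S). Call a subgroup R of S centrally large if |R|·|Z(R)| is as large as possible among subgroups of S, and let S_Φ be the subgroup generated by the Frattini subgroups Φ(Q) of those minimal centrally large subgroups Q of S whose Ω₁(Z(Q)) has the largest order among minimal centrally large subgroups. Then Z(S) or S_Φ is normal in G; and if S_Φ = 1, the minimal centrally large subgroups of S are exactly the abelian subgroups of S of largest order, and at least one of them is elementary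 abelian. -/
theorem result {G : Type*} [Group G] [Finite G] {p : ℕ} [Fact p.Prime] (S : Subgroup G) (hE : Cfsg.IsPushingUpSituation p S) (hJ : S ≤ Subgroup.centralizer (Cfsg.centerThompsonAOf S : Set G)) : ((S ⊓ Subgroup.centralizer (S : Set G)).Normal ∨ ((Cfsg.frattiniOfMinimalCLJoin p ↥S).map S.subtype).Normal) ∧ (Cfsg.frattiniOfMinimalCLJoin p ↥S = ⊥ → (∀ Q : Subgroup ↥S, Cfsg.IsMinimalCentrallyLarge Q ↔ Q ∈ Cfsg.maxAbelianSubgroups ↥S) ∧ ∃ A ∈ Cfsg.maxAbelianSubgroups ↥S, Cfsg.IsElementaryAbelian p A) := by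
  open Subgroup Function in open scoped commutatorElement in
  open Subgroup Function in open scoped commutatorElement in
  open CfsgL0 CfsgBG in
  have pS : PG[p, S] := by obtain ⟨-, ⟨T, rfl⟩, -⟩ := hE; exact T.isPGroup'
  have oz : ∀ P : Subgroup S, o[ΩZ[p, P.map S.subtype]] = o[ΩZ[p, P]] := fun P => by
    rw [inj_OZ S.subtype_injective, card_map_of_injective S.subtype_injective]
  refine ⟨?_, fun e => ?_⟩
  · rw [← top_le_norm_iff, ← top_le_norm_iff]
    rcases pu_r1 hE hJ with k | ⟨M, R, Z, h⟩
    · exact .inl (norm_of_central k)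
    have x : ∀ P, MCa S P → o[ΩZ[p, P]] ≤ maxOmegaCenterOfMinimalCL p S := fun P m => by
      rw [← map_subgroupOf_eq_of_le m.le, oz]; exact le_mz m.sub
    refine .inr fun g hg => mem_norm_of_map_le (map_le_iff_le_comap.2 (map_le_iff_le_comap.2
      (iSup_le fun ⟨P, hP, e⟩ => map_le_iff_le_comap.1 (map_le_iff_le_comap.1 ?_))))
    obtain ⟨X, l, m, c, f⟩ : ∃ X ≤ R, MCa S X ∧ o[ΩZ[p, P.map S.subtype]] ≤ o[ΩZ[p, X]] ∧
        Φ[P.map S.subtype] = Φ[X] := by
      by_cases k : P.map S.subtype ≤ R
      · exact ⟨_, k, MCa_sub.1 hP, le_rfl, rfl⟩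
      · exact h.mc_phi (MCa_sub.1 hP) k fun X m => (x X m).trans ((oz P).trans e).ge
    have m' := m.cj ((map_cj_le_of_norm l (h.nQ hg)).trans h.QS)
    change (Φ[P].map S.subtype):^g ≤ _
    rw [map_phi _ (pS.to_subgroup P), f, map_phi _ (pS.to_le m.le), ← map_subgroupOf_eq_of_le m'.le,
      ← map_phi _ (pS.to_subgroup _)]
    refine map_mono (le_iSup_of_le ⟨_, m'.sub, le_antisymm (le_mz m'.sub) ?_⟩ le_rfl)
    change _ ≤ o[ΩZ[p, (X:^g).subgroupOf S]]
    rw [← oz, map_subgroupOf_eq_of_le m'.le, inj_OZ (cj_injective g), card_map_cj]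
    exact ((oz P).trans e).ge.trans c
  · obtain ⟨P, m, c⟩ := exists_mz (G := S) p
    have el : IsElementaryAbelian p P := elem_of_phi_eq_bot (pS.to_subgroup P)
      (le_bot_iff.1 (e ▸ le_iSup_of_le ⟨P, m, c⟩ le_rfl))
    exact ⟨mcl_iff_maxab m el.1, P, (mcl_iff_maxab m el.1 P).1 m, el⟩

end Cfsg.Agent.S2989
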