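import Cfsg.Statements.S2990
import Cfsg.Agent.H2.PU10

set_option autoImplicit false
open Cfsg

namespace Cfsg.Agent.S2990
open CfsgH2

/-- Let G be a finite group and S a Sylow p-subgroup of G in the basic pushing-up situation (G ≠ 1, C_G(O_p(G)) ≤ O_p(G), S lies in a unique maximal subgroup of G, and some quotient of G is isomorphic to PSL₂ over a field of order a power of p), and suppose that S centralizes Z(J(S)), where J(S) is generated by the abelian subgroups of S of largest order (that is, J̃(S) = C_S(Z(J(S))) = S). Call a subgroup R of S centrally large if |R|·|Z(R)| is as large as possible among subgroups of S, let Q be a minimal centrally large subgroup of S and let S_MCL be the subgroup generated by all minimal centrally large subgroups of S. Then the derived subgroup [Q, Q] is characteristic in S; Z(S) ∩ [Q, Q] or S_MCL is normal in G; and if [Q, Q] = 1, the minimal centrally large subgroups of S are exactly the abelian subgroups of S of largest order. -/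
theorem result {G : Type*} [Group G] [Finite G] {p : ℕ} [Fact p.Prime] (S : Subgroup G) (hE : Cfsg.IsPushingUpSituation p S) (hJ : S ≤ Subgroup.centralizer (Cfsg.centerThompsonAOf S : Set G)) (Q : Subgroup ↥S) (hQ : Cfsg.IsMinimalCentrallyLarge Q) : (⁅Q, Q⁆).Characteristic ∧ (((S ⊓ Subgroup.centralizer (S : Set G)) ⊓ (⁅Q, Q⁆).map S.subtype).Normal ∨ ((Cfsg.minimalCentrallyLargeJoin ↥S).map S.subtype).Normal) ∧ (⁅Q, Q⁆ = ⊥ → ∀ R : Subgroup ↥S, Cfsg.IsMinimalCentrallyLarge R ↔ R ∈ Cfsg.maxAbelianSubgroups ↥S) := by
  open Subgroup Function in open scoped commutatorElement in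
  open Subgroup Function in open scoped commutatorElement in
  open CfsgL0 CfsgBG in
  refine ⟨mcl_char hQ, ?_, fun e => mcl_iff_maxab hQ (ab_iff_comm_bot.2 e)⟩
  rw [← top_le_norm_iff, ← top_le_norm_iff]
  rcases pu_r1 hE hJ with k | ⟨M, R, Z, h⟩
  · exact .inl (norm_of_central (inf_le_left.trans k))
  by_cases k : ∀ P, MCa S P → P ≤ R
  · refine .inr fun g hg => mem_norm_of_map_le (map_le_iff_le_comap.2 (map_le_iff_le_comap.2
      (sSup_le fun P hP => map_le_iff_le_comap.1 (map_le_iff_le_comap.1 ?_))))
    have m := (MCa_sub.1 hP).cj ((map_cj_le_of_norm (k _ (MCa_sub.1 hP)) (h.nQ hg)).trans h.QS)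
    exact (map_subgroupOf_eq_of_le m.le).ge.trans (map_mono (le_sSup m.sub))
  · simp only [not_forall] at k
    obtain ⟨P, m, k⟩ := k
    rw [map_commutator, (MCa_sub.1 hQ).der m]
    exact .inl (norm_of_central (h.mc_der m k))

end Cfsg.Agent.S2990
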