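import Cfsg.Statements.S2998
import Mathlib
import Cfsg.Agent.L0.IsoP

set_option autoImplicit false
open Cfsg

namespace Cfsg.Agent.S2998

open Cfsg Subgroup CfsgH2 CfsgL0

/-- Let G be a finite group, p a prime, P a Sylow p-subgroup of G and x ∈ P an element such that N_G(R) ≤ C_G(x) for every nontrivial subgroup R of P. Then P ≤ C_G(x); every G-conjugate of x lying in P equals x (so g ∈ C_G(x) whenever g x g⁻¹ ∈ P); and for every normal subgroup N of G, the image of x in G ⧸ N has the same property with respect to the image of P: the normalizer of every nontrivial subgroup of the image of P centralizes the image of x. -/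
theorem result {G : Type*} [Group G] [Finite G] {p : ℕ} [Fact p.Prime] (P : Sylow p G) (x : G) (hxP : x ∈ (P : Subgroup G)) (hlc : ∀ R : Subgroup G, R ≤ (P : Subgroup G) → R ≠ ⊥ → Subgroup.normalizer (R : Set G) ≤ Subgroup.centralizer ({x} : Set G)) : (P : Subgroup G) ≤ Subgroup.centralizer ({x} : Set G) ∧ (∀ g : G, g * x * g⁻¹ ∈ (P : Subgroup G) → g * x * g⁻¹ = x) ∧ ∀ (N : Subgroup G) [N.Normal], ∀ R : Subgroup (G ⧸ N), R ≤ (P : Subgroup G).map (QuotientGroup.mk' N) → R ≠ ⊥ → Subgroup.normalizer (R : Set (G ⧸ N)) ≤ Subgroup.centralizer ({(QuotientGroup.mk x : G ⧸ N)} : Set (G ⧸ N)) := by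
  have hP := syl_top P
  have h1 : (P : Subgroup G) ≤ C1[x] := by
    by_cases h0 : (P : Subgroup G) = ⊥
    · rw [h0]; exact bot_le
    · exact le_normalizer.trans (hlc _ le_rfl h0)
  refine ⟨h1, fun g hg => ?_, fun N _ R hR h0 g hg => ?_⟩
  · by_cases h0 : x = 1
    · simp [h0]
    have h2 : C1[g * x * g⁻¹] ≤ C1[x] := by
      rw [← cent_zpowers (g * x * g⁻¹)]
      refine (cent_le_norm _).trans (hlc _ (zpowers_le.2 hg) ?_)
      simpa using h0
    rw [centralizer_conj] at h2
    obtain ⟨c, hc, n, hn, rfl⟩ := (hP.mono h1 le_top).frattini (mem_norm_of_map_le h2)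
    exact mem_cent1.1 (Subgroup.mul_mem _ hc (hlc _ le_rfl (fun e => h0 (mem_bot.1 (e ▸ hxP))) hn))
  · obtain ⟨g, rfl⟩ := QuotientGroup.mk'_surjective N g
    set f := QuotientGroup.mk' N
    have hf : Function.Surjective f := QuotientGroup.mk'_surjective N
    set H := R.comap f
    have hPH : ((P : Subgroup G) ⊓ H).map f = R := by
      refine le_antisymm ((map_mono inf_le_right).trans (map_comap_le _ _)) fun r hr => ?_
      obtain ⟨y, hy, rfl⟩ := hR hr
      exact ⟨y, ⟨hy, hr⟩, rfl⟩
    have hH : H = ((P : Subgroup G) ⊓ H) ⊔ N := by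
      conv_lhs => rw [show H = R.comap f from rfl, ← hPH, comap_map_eq, QuotientGroup.ker_mk']
    have hS : Syl p ((P : Subgroup G) ⊓ H) H := by
      refine ⟨inf_le_right, hP.pg.to_le inf_le_left, ?_⟩
      have h3 := (hP.inf_norm (K := N) le_top le_normalizer_of_normal).nd
      have h4 : (((P : Subgroup G) ⊓ H)).relIndex H = ((P : Subgroup G) ⊓ N).relIndex N := by
        have k1 := card_sup_mul_card_inf (H := (P : Subgroup G) ⊓ H) (K := N) le_normalizer_of_normal
        have hNH : N ≤ H := hH ▸ le_sup_right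
        rw [← hH, inf_assoc, inf_eq_right.2 hNH, ← card_mul_relIndex (inf_le_right : (P : Subgroup G) ⊓ H ≤ H),
          ← card_inf_mul_relIndex (P : Subgroup G) N, mul_assoc, mul_comm (relIndex _ H)] at k1
        rw [inf_relIndex_right (P : Subgroup G) N]
        exact Nat.eq_of_mul_eq_mul_left (card_pos' _) (Nat.eq_of_mul_eq_mul_left (card_pos' _) k1)
      rw [h4]; exact h3
    have hg' : g ∈ N[H] := mem_norm_of_conj fun y hy => by
      show f _ ∈ R
      simpa using conj_mem_of_norm hg hy
    obtain ⟨c, hc, n, hn, rfl⟩ := hS.frattini hg'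
    have hne : (P : Subgroup G) ⊓ H ≠ ⊥ := fun e => h0 (by rw [← hPH, e, Subgroup.map_bot])
    have k : ∀ y ∈ C1[x], f y ∈ C1[(QuotientGroup.mk x : G ⧸ N)] := fun y hy =>
      mem_centralizer_singleton_iff.2 (by
      have := congrArg f (mem_centralizer_singleton_iff.1 hy)
      rwa [map_mul, map_mul] at this)
    rw [map_mul]
    refine Subgroup.mul_mem _ ?_ (k _ (hlc _ inf_le_left hne hn))
    obtain ⟨y, hy, e⟩ := hR hc
    rw [← e]; exact k _ (h1 hy)

end Cfsg.Agent.S2998
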