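import Cfsg.Statements.S2999
import Cfsg.Agent.H2.NP3

set_option autoImplicit false
open Cfsg

namespace Cfsg.Agent.S2999
open CfsgH2

/-- Let p be a prime and let P and V be subgroups of a finite group with V elementary abelian, P normalizing V and acting faithfully on it (P ∩ C(V) = 1). Suppose P is p-minimal (a Sylow p-subgroup T of P is not normal and lies in a unique maximal subgroup M of P) and A ≤ T is an elementary abelian subgroup such that: |V/C_V(A)| ≤ |A| while |A₀|·|C_V(A₀)| < |A|·|C_V(A)| for every nontrivial proper subgroup A₀ of A; [C_V(T), P] ≠ 1; and P = ⟨A, xAx⁻¹⟩ for every x ∈ P outside M. Then, with q = |A|, there is a field F with q elements such that P ≅ SL₂(F), C_V(A) = [V, A]·C_V(P), and P acts on V/C_V(P) as SL₂(F) on its natural two-dimensional module. -/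
theorem result {G : Type*} [Group G] [Finite G] {p : ℕ} [Fact p.Prime] (V P : Subgroup G) (hV : Cfsg.IsElementaryAbelian p V) (hPV : P ≤ Subgroup.normalizer (V : Set G)) (hfaith : P ⊓ Subgroup.centralizer (V : Set G) = ⊥) (hmin : Cfsg.IsPMinimal p ↥P) (T : Sylow p ↥P) (M : Subgroup ↥P) (hM : IsCoatom M) (hTM : (T : Subgroup ↥P) ≤ M) (A : Subgroup G) (hAT : A ≤ ((T : Subgroup ↥P).map P.subtype)) (hAel : Cfsg.IsElementaryAbelian p A) (hi : Nat.card ↥V ≤ Nat.card ↥A * Nat.card ↥(V ⊓ Subgroup.centralizer ((A : Subgroup G) : Set G)) ∧ ∀ A₀ : Subgroup G, A₀ ≤ A → A₀ ≠ ⊥ → A₀ ≠ A → Nat.card ↥A₀ * Nat.card ↥(V ⊓ Subgroup.centralizer ((A₀ : Subgroup G) : Set G)) < Nat.card ↥A * Nat.card ↥(V ⊓ Subgroup.centralizer ((A : Subgroup G) : Set G))) (hii : ⁅(V ⊓ Subgroup.centralizer ((((T : Subgroup ↥P).map P.subtype) : Subgroup G) : Set G)), P⁆ ≠ ⊥) (hiii : ∀ x : ↥P, x ∉ M → A ⊔ A.map (MulAut.conj (x : G)).toMonoidHom = P) :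 ∃ (F : Type) (_ : Field F) (_ : Fintype F), Fintype.card F = Nat.card ↥A ∧ Nonempty (↥P ≃* Matrix.SpecialLinearGroup (Fin 2) F) ∧ (V ⊓ Subgroup.centralizer ((A : Subgroup G) : Set G)) = ⁅V, A⁆ ⊔ (V ⊓ Subgroup.centralizer ((P : Subgroup G) : Set G)) ∧ Cfsg.ActsAsSL2OnSection F ⊤ P V (V ⊓ Subgroup.centralizer ((P : Subgroup G) : Set G)) := by
  open Subgroup Function in open scoped commutatorElement in
  open CfsgL0 CfsgBG in
  obtain ⟨u, nT⟩ := um_of_pmin hmin T hM hTM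
  have AP := hAT.trans u.syl.le
  have fa : ∀ B ≤ A, ⁅V, B⁆ ≠ ⊥ → B ≠ ⊥ := fun B _ h e => h (by rw [e, commutator_bot_right])
  have g : GA p V P (M.map P.subtype) A := ⟨hV, hPV, hfaith, AP,
    quad_of_min hV (AP.trans hPV) (bo_of hAel hi.1 hi.2) fun B h1 h2 h3 _ =>
      by_contra fun n => (hi.2 B h1 (fa B h1 h2) n).ne h3, hi.1,
    fun x hx x0 => hiii ⟨x, hx⟩ fun e => x0 ⟨_, e, rfl⟩,
    fun e => nT (by rw [u.syl.eq_of_pgroup e]; exact le_normalizer)⟩
  obtain ⟨dj, hO⟩ := sl2q u nT g hAT hi.2 fun e => hii (comm_eq_bot_iff.2 e)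
  obtain ⟨x, hx, x0⟩ := SetLike.not_le_iff_exists.1 u.nle
  have n := g.nat dj hx x0
  obtain ⟨F, _, _, -, -, hF, -⟩ := exists_field (u.syl.pg.to_le hAT) n.ne_bot
  have s := g.s2 dj u.nle F hF
  exact ⟨F, _, _, hF, s.iso hV hPV hfaith hO, g.gen x hx x0 ▸ n.Z_eq,
    s.acts hPV le_rfl le_sup_left hV.1⟩

end Cfsg.Agent.S2999
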