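import Cfsg.Statements.S3003
import Mathlib
import Cfsg.Agent.H9.Pump2

set_option autoImplicit false
open Cfsg

namespace Cfsg.Agent.S3003

/-- Let G be a finite group, p a prime and Q a large p-subgroup of G: C_G(Q) ≤ Q and N_G(U) ≤ N_G(Q) for every nontrivial subgroup U of C_G(Q). Let Q ≤ G₁ ≤ G, let R be a subgroup of order prime to p normalized by G₁, and let U ≤ G₁ be a p-subgroup. If U contains a nontrivial element which is G₁-conjugate to an element of Z(Q), then C_R(U) = 1. In particular, if U is elementary abelian of order at least p² and every maximal subgroup of U contains a nontrivial element G₁-conjugate into Z(Q), then R = 1. -/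
theorem result {G : Type*} [Group G] [Finite G] {p : ℕ} [Fact p.Prime] (Q : Subgroup G) (hQp : IsPGroup p ↥Q) (hlarge : Cfsg.IsLarge Q) (G₁ : Subgroup G) (hQG : Q ≤ G₁) (R : Subgroup G) (hR : (Nat.card ↥R).Coprime p) (hGR : G₁ ≤ Subgroup.normalizer (R : Set G)) (U : Subgroup G) (hUG : U ≤ G₁) (hUp : IsPGroup p ↥U) : ((∃ x ∈ U, x ≠ 1 ∧ ∃ g ∈ G₁, g * x * g⁻¹ ∈ Q ⊓ Subgroup.centralizer (Q : Set G)) → R ⊓ Subgroup.centralizer (U : Set G) = ⊥) ∧ (Cfsg.IsElementaryAbelian p U → p ^ 2 ≤ Nat.card ↥U → (∀ U₀ : Subgroup G, U₀ ≤ U → IsCoatom (U₀.subgroupOf U) → ∃ x ∈ U₀, x ≠ 1 ∧ ∃ g ∈ G₁, g * x * g⁻¹ ∈ Q ⊓ Subgroup.centralizer (Q : Set G)) → R = ⊥) := by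
  open Subgroup CfsgH9 in
  have key : ∀ V : Subgroup G, (∃ x ∈ V, x ≠ 1 ∧ ∃ g ∈ G₁, g * x * g⁻¹ ∈ Q ⊓ centralizer (Q : Set G)) →
      R ⊓ centralizer (V : Set G) = ⊥ := by
    rintro V ⟨x, hx, h1, g, hg, hz⟩
    have h2 : centralizer ({g * x * g⁻¹} : Set G) ≤ normalizer (Q : Set G) := by
      refine le_trans ?_ (hlarge.2 (zpowers (g * x * g⁻¹)) (zpowers_le.2 hz.2) (by simpa using h1))
      rw [← centralizer_zpowers]; exact centralizer_le_normalizer _
    have h3 : ⁅Q, R ⊓ centralizer ({g * x * g⁻¹} : Set G)⁆ = ⊥ := by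
      rw [eq_bot_iff, ← inf_eq_bot_of_p_pp hQp hR]
      exact le_inf (commutator_le_left_of (inf_le_right.trans h2))
        ((commutator_mono le_rfl inf_le_left).trans (commutator_le_right_of (hQG.trans hGR)))
    have h4 : R ⊓ centralizer ({g * x * g⁻¹} : Set G) = ⊥ := by
      rw [eq_bot_iff, ← inf_eq_bot_of_p_pp hQp hR]
      exact le_inf ((comm_bot_iff'.1 h3).trans hlarge.1) inf_le_left
    rw [← cj_centralizer_singleton, ← cj_eq_of_mem_normalizer (hGR hg), ← cj_inf, cj_eq_bot] at h4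
    exact eq_bot_iff.2 ((inf_le_inf_left _ (centralizer_le_centralizer_singleton hx)).trans h4.le)
  refine ⟨key U, fun hE h2 h => eq_bot_iff.2 (ea_le_of_hyp hE (ne_bot_of_pow_le two_ne_zero h2)
    (hUG.trans hGR) hR fun B hB => (key B (h B hB.1 ⟨fun e => hB.lt.not_ge (subgroupOf_eq_top.1 e),
      fun Y hY => ?_⟩)).le)⟩
  have h1 : B < Y.map U.subtype := by
    rw [← map_subgroupOf_eq_of_le hB.1]
    exact (map_lt_map_iff_of_injective U.subtype_injective).2 hY
  have := hB.eq_of_lt h1 (map_subtype_le _)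
  exact map_injective U.subtype_injective (this.trans (map_subtype_top U).symm)

end Cfsg.Agent.S3003
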