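import Cfsg.Statements.S3008
import Mathlib
import Cfsg.Agent.L0.CD2

set_option autoImplicit false
open Cfsg

namespace Cfsg.Agent.S3008

open Cfsg Subgroup CfsgH2 CfsgL0 CfsgH1

/-- Let P be a finite p-group, with J(P) generated by its abelian subgroups of largest order and J̃(P) = C_P(Z(J(P))); call R ≤ P centrally large if |R|·|Z(R)| is as large as possible, and let P_MCL be generated by the minimal centrally large subgroups. Then: for every centrally large Q, Q·J(P) ⊇ J̃(P); some minimal centrally large subgroup of P is normalized by both J(P) and P_MCL; if P = J(P) and d(P)² = |P|·|Z(P)|, where d(P) is the largest order of an abelian subgroup, then every minimal centrally large subgroup of P is abelian; and if every minimal centrally large subgroup is abelian then J̃(P) = J(P). -/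
theorem result {p : ℕ} [Fact p.Prime] (P : Type*) [Group P] [Finite P] (hP : IsPGroup p P) : (∀ Q : Subgroup P, Cfsg.IsCentrallyLarge Q → Subgroup.centralizer ((Cfsg.thompsonSubgroupA P ⊓ Subgroup.centralizer (Cfsg.thompsonSubgroupA P : Set P) : Subgroup P) : Set P) ≤ Q ⊔ Cfsg.thompsonSubgroupA P) ∧ (∃ Q : Subgroup P, Cfsg.IsMinimalCentrallyLarge Q ∧ Cfsg.thompsonSubgroupA P ≤ Subgroup.normalizer (Q : Set P) ∧ Cfsg.minimalCentrallyLargeJoin P ≤ Subgroup.normalizer (Q : Set P)) ∧ (Cfsg.thompsonSubgroupA P = ⊤ → (∀ A ∈ Cfsg.maxAbelianSubgroups P, Nat.card ↥A ^ 2 = Nat.card P * Nat.card ↥(Subgroup.center P)) → ∀ Q : Subgroup P, Cfsg.IsMinimalCentrallyLarge Q → IsMulCommutative ↥Q) ∧ ((∀ Q : Subgroup P, Cfsg.IsMinimalCentrallyLarge Q → IsMulCommutative ↥Q) → Subgroup.centralizer ((Cfsg.thompsonSubgroupA P ⊓ Subgroup.centralizer (Cfsg.thompsonSubgroupA P : Set P) : Subgroup P) : Set P) = Cfsg.thompsonSubgroupA P) := by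
  have := hP.isNilpotent
  refine ⟨fun Q hQ => CL.Jt_le hQ, exists_mcl_norm, fun hJ h Q hQ => ?_, fun h => ?_⟩
  · obtain ⟨A, hA⟩ := exists_maxab (G := P)
    have h1 := cl_iff'.1 (CL.sup_J hQ.1)
    rw [hJ, sup_top_eq, cent_top, top_inf_eq, card_top, ← h A hA, sq] at h1
    have h2 := mcl_of_sq hA.1 h1.ge
    exact ab_iff_comm_bot.2 ((mcl_comm hQ h2).trans (ab_iff_comm_bot.1 hA.1))
  · obtain ⟨R, hR⟩ := exists_cl (G := P)
    obtain ⟨Q, -, hQ⟩ := exists_mcl hR
    have h1 : Q ≤ thompsonSubgroupA P := le_sSup ((mcl_iff_maxab hQ (h Q hQ) Q).1 hQ)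
    refine le_antisymm ((CL.Jt_le hQ.1).trans (sup_le h1 le_rfl)) ?_
    exact le_centralizer_iff.1 inf_le_right

end Cfsg.Agent.S3008
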