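import Cfsg.Statements.S3009
import Mathlib
import Cfsg.Agent.H9.NatQ

set_option autoImplicit false
open Cfsg

namespace Cfsg.Agent.S3009

/-- Let p be a prime and let G and V be subgroups of a finite group with V elementary abelian and normalized by G, and G isomorphic to SL₂(F) for a finite field F with pⁿ elements. Suppose G acts irreducibly and nontrivially on V by conjugation (no G-invariant subgroups of V other than 1 and V, and [V, G] ≠ 1), and let S be a Sylow p-subgroup of G and V₀ = C_V(S). If [V, S, S] = 1 or |V| ≤ |V₀|², then G acts on V as SL₂(F) on its natural two-dimensional module; in particular |V| = |F|². -/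
theorem result {X : Type*} [Group X] [Finite X] {p : ℕ} [Fact p.Prime] (G V : Subgroup X) (hV : Cfsg.IsElementaryAbelian p V) (hGV : G ≤ Subgroup.normalizer (V : Set X)) (F : Type) [Field F] [Fintype F] (n : ℕ) (hF : Fintype.card F = p ^ n) (hG : Nonempty (↥G ≃* Matrix.SpecialLinearGroup (Fin 2) F)) (hirr : ∀ U : Subgroup X, U ≤ V → G ≤ Subgroup.normalizer (U : Set X) → U = ⊥ ∨ U = V) (hnt : ⁅V, G⁆ ≠ ⊥) (S : Sylow p ↥G) (hyp : ⁅⁅V, (S : Subgroup ↥G).map G.subtype⁆, (S : Subgroup ↥G).map G.subtype⁆ = ⊥ ∨ Nat.card ↥V ≤ Nat.card ↥(V ⊓ Subgroup.centralizer (((S : Subgroup ↥G).map G.subtype : Subgroup X) : Set X)) ^ 2) : Cfsg.ActsAsSL2OnSection F ⊤ G V ⊥ := by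
  open Subgroup Cfsg CfsgH2 Function in
  open scoped commutatorElement in
  open CfsgJW CfsgL0 Matrix Multiplicative in open scoped commutatorElement MatrixGroups IsMulCommutative in
  haveI := charP_of_card_eq_prime_pow hF
  obtain ⟨e⟩ := hG
  obtain ⟨i, ii, ri, hT⟩ : ∃ i : SL(2, F) →* X, Injective i ∧ i.range = G ∧
      (uH (F := F)).range.map i = (S : Subgroup G).map G.subtype := by
    let i : SL(2, F) →* X := G.subtype.comp e.symm.toMonoidHom
    have ri : i.range = G := by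
      rw [MonoidHom.range_comp, MonoidHom.range_eq_top.2 e.symm.surjective, map_subtype_top]
    have s2 := (syl_uH (F := F) (p := p)).map i
    rw [← MonoidHom.range_eq_map, ri] at s2
    obtain ⟨g, hg, k⟩ := s2.conj (syl_sub S)
    exact ⟨(CfsgH2.cj g).comp i, (CfsgH2.cj_injective _).comp (G.subtype_injective.comp e.symm.injective),
      by rw [MonoidHom.range_comp, ri, map_cj_of_mem hg], (Subgroup.map_map _ _ _).symm.trans k⟩
  have pT : IsPGroup p ((S : Subgroup G).map G.subtype) := S.isPGroup'.map _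
  generalize (S : Subgroup G).map G.subtype = T at hyp hT pT
  have mG : ∀ g, i g ∈ G := fun g => ri.le ⟨g, rfl⟩
  have mT : ∀ t, i (uT t) ∈ T := fun t => hT.le ⟨_, mem_uH.2 ⟨t, rfl⟩, rfl⟩
  have cT : ∀ x, x ∈ C[T] ↔ ∀ t, i (uT t) * x * (i (uT t))⁻¹ = x := fun x =>
    ⟨fun h t => by rw [mem_cent_iff.1 h _ (mT t), mul_inv_cancel_right], fun h =>
      mem_cent_iff.2 fun y hy => by
        obtain ⟨_, k, rfl⟩ := hT.ge hy
        obtain ⟨t, rfl⟩ := mem_uH.1 k
        exact mul_inv_eq_iff_eq_mul.1 (h t)⟩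
  have TG : T ≤ G := hT ▸ ri ▸ map_le_range _ _
  have nV := TG.trans hGV
  have c0 : ∀ x ∈ V, (∀ t, i (uT t) * x * (i (uT t))⁻¹ = x) → (∀ t, i (lT t) * x * (i (lT t))⁻¹ = x) →
      x = 1 := fun x hx h1 h2 => by
    rcases hirr _ (inf_le_left (b := C[G])) (le_norm_inf hGV (le_norm_cent le_normalizer)) with h | h
    · refine mem_bot.1 (h.le ⟨hx, mem_cent_iff.2 fun g hg => ?_⟩)
      obtain ⟨g, rfl⟩ := ri.ge hg
      exact mem_centralizer_singleton_iff.1 ((sl2_gen (Γ := C1[x].comap i)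
        (fun t => mem_centralizer_singleton_iff.2 (mul_inv_eq_iff_eq_mul.1 (h1 t)))
        fun t => mem_centralizer_singleton_iff.2 (mul_inv_eq_iff_eq_mul.1 (h2 t))).ge (mem_top g))
    · exact absurd (comm_eq_bot_iff.2 (h.ge.trans inf_le_right)) hnt
  have V0 : V ≠ ⊥ := fun h => hnt (by rw [h, commutator_bot_left])
  have pV := elem_pgroup hV
  have conj_mul_conj : ∀ a b x : X, a * b * x * (a * b)⁻¹ = a * (b * x * b⁻¹) * a⁻¹ :=
    fun a b x => by group
  have cw : ∀ (g h k : SL(2, F)) x, g * h = h * k → i k * x * (i k)⁻¹ = x →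
      i g * (i h * x * (i h)⁻¹) * (i g)⁻¹ = i h * x * (i h)⁻¹ := fun g h k x e1 e2 => by
    rw [← conj_mul_conj, ← map_mul, e1, map_mul, conj_mul_conj, e2]
  have q : ⁅V, T⁆ ≤ C[T] := by
    refine hyp.elim comm_eq_bot_iff.1 fun hc => ?_
    have lV : V ⊓ C[T] ⊔ ⁅V, T⁆ ≤ V := sup_le inf_le_left (comm_le_left nV)
    let N : Subgroup X := ⨅ g : SL(2, F), (V ⊓ C[T] ⊔ ⁅V, T⁆).map (CfsgH2.cj (i g)⁻¹)
    have mN : ∀ x, x ∈ N ↔ ∀ g, i g * x * (i g)⁻¹ ∈ V ⊓ C[T] ⊔ ⁅V, T⁆ := fun x => by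
      simp only [N, mem_iInf, mem_map_cj, inv_inv]
    have l1 : N ≤ V ⊓ C[T] ⊔ ⁅V, T⁆ := fun x hx => by simpa using (mN x).1 hx 1
    rcases hirr N (l1.trans lV) fun g hg => mem_norm_of_conj fun x hx => (mN _).2 fun k => by
      obtain ⟨g, rfl⟩ := ri.ge hg
      rw [← conj_mul_conj, ← map_mul]
      exact (mN x).1 hx _ with h | h
    · have w1 : i (nT 1 one_ne_zero) ∈ N[V] := hGV (mG _)
      have d : (V ⊓ C[T]).map (CfsgH2.cj (i (CfsgJW.nT 1 one_ne_zero))) ⊓ (V ⊓ C[T] ⊔ ⁅V, T⁆) = ⊥ := by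
        refine eq_bot_iff.2 (h ▸ ?_)
        rintro x ⟨⟨y, hy, rfl⟩, hx⟩
        have k : ∀ t, i (lT t) * CfsgH2.cj (i (CfsgJW.nT 1 one_ne_zero)) y * (i (lT t))⁻¹ =
            CfsgH2.cj (i (CfsgJW.nT 1 one_ne_zero)) y :=
          fun t => cw _ _ _ y (lT_nT t 1 _) ((cT y).1 hy.2 _)
        generalize CfsgH2.cj (i (CfsgJW.nT 1 one_ne_zero)) y = x at hx k
        refine (mN _).2 fun g => ?_
        by_cases g0 : g.1 1 1 = 0
        · refine mem_sup_left ⟨conj_mem_of_norm (hGV (mG g)) (lV hx), (cT _).2 fun t =>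
            cw _ _ (lT (-(t * g.1 1 0 ^ 2))) x ?_ (k _)⟩
          have := g.2
          rw [det_fin_two, g0] at this
          apply Subtype.ext; simp only [sl_mul]; ext a b
          fin_cases a <;> fin_cases b <;> simp [uT, lT, mul_apply, g0]
          linear_combination (-(t * g.1 1 0)) * this
        · have m : i (g * lT (-(g.1 1 0 / g.1 1 1))) ∈ N[T] := hT ▸ mem_norm_map i (mem_norm_uH (by
            rw [sl_mul]; simp [lT, mul_apply, mul_div_cancel₀ _ g0]))
          have m2 : i (g * lT (-(g.1 1 0 / g.1 1 1))) ∈ N[V] := hGV (mG _)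
          rw [← k (-(g.1 1 0 / g.1 1 1)), ← conj_mul_conj, ← map_mul]
          exact conj_mem_of_norm (mem_norm_sup (mem_norm_inf m2 (norm_le_norm_cent _ m))
            (mem_norm_commutator m2 m)) hx
      have l2 : (V ⊓ C[T]).map (CfsgH2.cj (i (CfsgJW.nT 1 one_ne_zero))) ≤ V :=
        map_cj_le_of_norm inf_le_left w1
      have := card_le_of_le (sup_le l2 lV)
      rw [card_sup_of_disj (.inl (l2.trans (le_norm_of_le_cent (le_cent_of_comm hV.1 lV)))) d,
        card_map_cj] at this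
      have k := Nat.le_of_mul_le_mul_left (this.trans (hc.trans_eq (sq _))) Nat.card_pos
      exact le_sup_right.trans ((eq_of_le_of_card_ge le_sup_left k).ge.trans inf_le_right)
    · by_contra n
      haveI := (isPGroup_sup pV pT (.inr nV)).isNilpotent
      have a := comm_le_left nV
      refine (CfsgH1.commutator_lt_of_isNilpotent (a.trans le_sup_left) le_sup_right
        le_norm_comm_right fun e => n (e ▸ bot_le)).not_ge ((commutator_mono (h.ge.trans l1) le_rfl).trans ?_)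
      have b : V ≤ N[⁅⁅V, T⁆, T⁆] := le_norm_of_le_cent (le_cent_of_comm hV.1
        ((comm_le_left le_norm_comm_right).trans a))
      exact comm_sup_le (inf_le_left.trans b) (a.trans b) ((comm_eq_bot_iff.2 inf_le_right).le.trans
        bot_le) le_rfl
  haveI := hV.1
  let ρ : SL(2, F) →* MulAut V := V.normalizerMonoidHom.comp (i.codRestrict _ fun g => hGV (mG g))
  have hρ : ∀ g (v : V), (ρ g v : X) = i g * v * (i g)⁻¹ := fun _ _ => rfl
  obtain ⟨x, hx, x0⟩ := (bot_or_exists_ne_one _).resolve_left (inf_cent_ne_bot' pT pV nV V0)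
  obtain ⟨κ, ik, hκ⟩ := natq (W := Additive V) (fun g => (ρ g).toMonoidHom.toAdditive)
    (fun g h w => by rw [map_mul]; rfl) (fun w => by rw [map_one]; rfl)
    (fun s t w => Subtype.ext ((cT _).1 (q (by
      rw [commutator_comm]
      have := commutator_mem_commutator (mT t) w.toMul.2
      rwa [commutatorElement_def, ← div_eq_mul_inv] at this)) s))
    (fun w h1 h2 => Subtype.ext (c0 _ w.toMul.2 (fun t => congrArg Subtype.val (h1 t))
      fun t => congrArg Subtype.val (h2 t))) (Additive.ofMul ⟨x, hx.1⟩)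
    (fun s => Subtype.ext ((cT x).1 hx.2 s)) fun h => x0 (congrArg Subtype.val h)
  let κ' : Pl F →* V := AddMonoidHom.toMultiplicativeLeft κ
  have cκ : ∀ g v, i g * κ' (ofAdd v) * (i g)⁻¹ = κ' (ofAdd (g.1 *ᵥ v)) := fun g v =>
    (congrArg Subtype.val (hκ g v)).symm
  have sk : Surjective κ' := by
    rcases hirr (κ'.range.map V.subtype) (map_subtype_le _) fun g hg => mem_norm_of_conj (by
      obtain ⟨g, rfl⟩ := ri.ge hg
      rintro _ ⟨_, ⟨v, rfl⟩, rfl⟩
      exact ⟨_, ⟨_, rfl⟩, (cκ g v.toAdd).symm⟩) with h | h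
    · have : κ ![1, 0] = κ 0 := (Subtype.ext (mem_bot.1 (h.le ⟨_, ⟨ofAdd ![1, 0], rfl⟩, rfl⟩))).trans
        κ.map_zero.symm
      simpa using congrFun (ik this) 0
    · intro v
      obtain ⟨_, ⟨w, rfl⟩, k⟩ := h.ge v.2
      exact ⟨w, Subtype.ext k⟩
  have ik' : Injective κ' := ik
  let ψ : V ≃* Pl F := (MulEquiv.ofBijective κ' ⟨ik', sk⟩).symm
  let r := ((MonoidHom.ofInjective ii).trans (MulEquiv.subgroupCongr ri)).symm
  have hr : ∀ g : G, i (r g) = g := fun g => congrArg Subtype.val (r.symm_apply_apply g)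
  refine ⟨hGV, bot_le, r.toMonoidHom, ψ.toMonoidHom, MonoidHom.range_eq_top.2 r.surjective,
    ψ.surjective, fun u => ?_, fun g u => ?_⟩
  · rw [mem_bot, OneMemClass.coe_eq_one]; exact ψ.map_eq_one_iff
  · obtain ⟨v, rfl⟩ := sk u
    have k : ∀ v, ψ.toMonoidHom (κ' v) = v := ψ.apply_symm_apply
    exact ⟨κ' (ofAdd ((r g).1 *ᵥ v.toAdd)), by rw [← cκ, hr]; rfl, by rw [k, k]; rfl⟩

end Cfsg.Agent.S3009
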