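import Mathlib
import Cfsg.Statements.S3011
import Cfsg.Agent.S0200

set_option autoImplicit false
open Cfsg

namespace Cfsg.Agent.S3011

theorem aux {G : Type*} [Group G] [Finite G] {V : Subgroup G} (hS : IsSidkiPair V) {a b h k : G} (ha : a ∈ V) (hb : b ∈ V)
    (t : ∀ w ∈ V, w ≠ 1 → w = a ∨ w = b ∨ w = a * b) (h1 : h ≠ 1) (k1 : k ≠ 1) (oh : Odd (orderOf h)) (ok : Odd (orderOf k))
    (ah : a * h * a⁻¹ = h⁻¹) (bh : b * h * b⁻¹ = h) (ak : a * k * a⁻¹ = k) (bk : b * k * b⁻¹ = k⁻¹) : False := by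
  have n : ∀ x : G, Odd (orderOf x) → x⁻¹ = x → x = 1 := fun x o e =>
    orderOf_eq_one_iff.1 (Nat.eq_one_of_dvd_coprimes (Nat.coprime_two_right.2 o) dvd_rfl
      (orderOf_dvd_of_pow_eq_one (by rw [sq, ← eq_inv_iff_mul_eq_one, e])))
  have m : ∀ x y z : G, x * (y * z) * x⁻¹ = x * y * x⁻¹ * (x * z * x⁻¹) := fun x y z => by group
  have i : ∀ x y : G, x * y⁻¹ * x⁻¹ = (x * y * x⁻¹)⁻¹ := fun x y => by group
  have p : ∀ y : G, a * b * y * (a * b)⁻¹ = a * (b * y * b⁻¹) * a⁻¹ := fun y => by group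
  have o' : Odd (orderOf (h * k * h⁻¹)) := ((MulAut.conj h).orderOf_eq k).symm ▸ ok
  have c : Commute h k := by
    obtain ⟨r, hr⟩ := exists_pow_eq_self_of_coprime (n := 2 ^ 2) ((Nat.coprime_two_left.2 oh).pow_left 2)
    rw [← hr]
    refine Commute.pow_left ?_ r
    obtain ⟨w, hw, w1, e⟩ := hS _ b hb o' (by rw [m, m, i, bh, bk]; group)
    rw [← mul_inv_eq_iff_eq_mul] at e
    rcases t w hw w1 with rfl | rfl | rfl
    · rw [m, m, i, ah, ak] at e
      refine (pow_mul h 2 2).symm ▸ Commute.pow_left ?_ 2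
      exact (show h ^ 2 * k = h * (h * k * h⁻¹) * h by simp [sq, mul_assoc]).trans (by rw [← e]; simp [sq, mul_assoc])
    · rw [m, m, i, bh, bk] at e
      exact absurd (n k ok (by simpa using e)) k1
    · rw [p, m b, m b, i, bh, bk, m, m, i, i, ah, ak] at e
      have e' : h⁻¹ * k * h = h * k⁻¹ * h⁻¹ := inv_injective (by simpa [mul_assoc] using e)
      calc h ^ 2 ^ 2 * k = h ^ 3 * (h * k * h⁻¹) * h := by group
        _ = h * (h * k⁻¹ * h⁻¹) * h ^ 3 := by rw [← e]; simp [pow_succ, mul_assoc]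
        _ = k * h ^ 2 ^ 2 := by rw [← e']; group
  have o : Odd (orderOf (h * k)) := (oh.mul ok).of_dvd_nat c.orderOf_mul_dvd_mul_orderOf
  have q : a * b * (h * k) * (a * b)⁻¹ = (h * k)⁻¹ := by rw [p, m b, bh, bk, m, i, ah, ak, c.eq, mul_inv_rev]
  obtain ⟨w, hw, w1, e⟩ := hS _ _ (mul_mem ha hb) o q
  rw [← mul_inv_eq_iff_eq_mul] at e
  rcases t w hw w1 with rfl | rfl | rfl
  · exact h1 (n h oh (by simpa [m, ah, ak] using e))
  · exact k1 (n k ok (by simpa [m, bh, bk] using e))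
  · obtain rfl := eq_inv_of_mul_eq_one_left (n _ o (q.symm.trans e))
    exact k1 (n k ok (by rwa [i, ak, inv_inv] at ah))

/-- Let G be a finite group and V a nontrivial elementary abelian 2-subgroup of G of order at most 4 such that, whenever an element of V inverts an element h of G of odd order, some nontrivial element of V commutes with h. Then V meets O₂(G) nontrivially. (The case of order at most 4 has a short argument from the Baer–Suzuki theorem.) -/
theorem result {G : Type*} [Group G] [Finite G] (V : Subgroup G) (hV : Cfsg.IsElementaryAbelian 2 V) (hV1 : V ≠ ⊥) (hS : Cfsg.IsSidkiPair V) (h4 : Nat.card V ≤ 4) : V ⊓ Cfsg.pCore 2 G ≠ ⊥ := by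
  intro e
  haveI := Fact.mk Nat.prime_two
  have inv : ∀ v ∈ V, v ≠ 1 → ∃ h, h ≠ 1 ∧ Odd (orderOf h) ∧ v * h * v⁻¹ = h⁻¹ := fun v hv v1 =>
    S0200.result v (orderOf_eq_prime (hV.2 v hv) v1) fun N hN p m =>
      v1 ((Subgroup.eq_bot_iff_forall _).1 e v ⟨hv, (le_sSup (s := {N : Subgroup G | N.Normal ∧ IsPGroup 2 N}) ⟨hN, p⟩ :) m⟩)
  have n : ∀ x : G, Odd (orderOf x) → x⁻¹ = x → x = 1 := fun x o e =>
    orderOf_eq_one_iff.1 (Nat.eq_one_of_dvd_coprimes (Nat.coprime_two_right.2 o) dvd_rfl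
      (orderOf_dvd_of_pow_eq_one (by rw [sq, ← eq_inv_iff_mul_eq_one, e])))
  have t : ∀ a ∈ V, ∀ b ∈ V, a ≠ 1 → b ≠ 1 → a ≠ b → ∀ w ∈ V, w ≠ 1 → w = a ∨ w = b ∨ w = a * b := fun a ha b hb a1 b1 ab w hw w1 => by
    classical
    by_contra! c
    have h1 : a * b ≠ 1 := fun e => ab (mul_right_cancel (e.trans ((sq b).symm.trans (hV.2 b hb)).symm))
    have := Set.ncard_le_ncard (s := ({w, 1, a, b, a * b} : Set G)) (t := V) (by
      simp only [Set.insert_subset_iff, Set.singleton_subset_iff]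
      exact ⟨hw, one_mem V, ha, hb, mul_mem ha hb⟩)
    rw [Set.ncard_insert_of_notMem (by simp [c, w1]), Set.ncard_insert_of_notMem (by simp [a1.symm, b1.symm, h1.symm]),
      Set.ncard_insert_of_notMem (by simp [ab, b1]), Set.ncard_pair (by simp [a1])] at this
    exact absurd (this.trans h4) (by decide)
  obtain ⟨⟨a, ha⟩, a1⟩ := (Subgroup.ne_bot_iff_exists_ne_one).1 hV1
  have a1 : a ≠ 1 := fun e => a1 (Subtype.ext e)
  obtain ⟨h, h1, oh, ah⟩ := inv a ha a1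
  obtain ⟨b, hb, b1, bh⟩ := hS h a ha oh ah
  obtain ⟨k, k1, ok, bk⟩ := inv b hb b1
  obtain ⟨w, hw, w1, wk⟩ := hS k b hb ok bk
  rw [← mul_inv_eq_iff_eq_mul] at bh wk
  have wb : w ≠ b := fun e => k1 (n k ok (by rw [← bk, ← e, wk]))
  refine aux hS hw hb (t w hw b hb w1 b1 wb) h1 k1 oh ok ?_ bh wk bk
  rcases t a ha b hb a1 b1 (fun e => h1 (n h oh (by rw [← ah, e, bh]))) w hw w1 with rfl | rfl | rfl
  exacts [ah, absurd rfl wb, (show _ = a * (b * h * b⁻¹) * a⁻¹ by group).trans (by rw [bh, ah])]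

end Cfsg.Agent.S3011
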