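import Cfsg.Statements.S3012
import Mathlib
import Cfsg.Agent.H2.BG0
import Cfsg.Agent.L0.Isolated

set_option autoImplicit false
open Cfsg

namespace Cfsg.Agent.S3012

open Cfsg Subgroup CfsgH2 CfsgL0

/-- Let G be a finite group, V a nontrivial elementary abelian 2-subgroup of G satisfying the Sidki pair condition (every odd-order element inverted by an element of V commutes with a nontrivial element of V), and K a normal subgroup of G with V ∩ K = 1. Then the image of V in G/K satisfies the Sidki pair condition in G/K. -/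
theorem result {G : Type*} [Group G] [Finite G] (V K : Subgroup G) [K.Normal] (hV : Cfsg.IsElementaryAbelian 2 V) (hV1 : V ≠ ⊥) (hS : Cfsg.IsSidkiPair V) (hVK : V ⊓ K = ⊥) : Cfsg.IsSidkiPair (V.map (QuotientGroup.mk' K)) := by
  set f := QuotientGroup.mk' K
  have hf : Function.Surjective f := QuotientGroup.mk'_surjective K
  have inj : ∀ w ∈ V, w ≠ 1 → f w ≠ 1 := fun w hw h1 h =>
    h1 (mem_bot.1 (hVK ▸ (⟨hw, (QuotientGroup.eq_one_iff w).1 h⟩ : w ∈ V ⊓ K)))
  rintro h _ ⟨v, hv, rfl⟩ ho hi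
  obtain ⟨m, hm⟩ := exists_eq_sq_pow ho
  obtain ⟨k, hk⟩ := hf (h ^ m)
  have hv2 : v * v = 1 := by rw [← sq]; exact hV.2 v hv
  have hv' : v⁻¹ = v := inv_eq_of_mul_eq_one_right hv2
  set t := k * v * k⁻¹ * v⁻¹ with ht
  have e1 : f t = h := by
    simp only [ht, map_mul, map_inv, hk]
    have : f v * (h ^ m)⁻¹ * (f v)⁻¹ = h ^ m := by rw [← inv_pow, ← conj_pow, ← conj_inv, hi, inv_inv]
    calc h ^ m * f v * (h ^ m)⁻¹ * (f v)⁻¹ = h ^ m * (f v * (h ^ m)⁻¹ * (f v)⁻¹) := by group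
      _ = (h * h) ^ m := by rw [this, ← pow_two, ← pow_mul, ← pow_two, ← pow_mul, mul_comm]
      _ = h := hm.symm
  have e2 : v * t * v⁻¹ = t⁻¹ := by
    rw [ht]
    calc v * (k * v * k⁻¹ * v⁻¹) * v⁻¹ = v * k * v * k⁻¹ * (v * v)⁻¹ := by group
      _ = v * k * v⁻¹ * k⁻¹ := by rw [hv2, hv']; group
      _ = _ := by group
  obtain ⟨a, ha, b, hb, e3, h1, h2⟩ := exists_pi_parts {2} t
  have hb' : Odd (orderOf b) := Nat.odd_iff.2 (Nat.two_dvd_ne_zero.1 ((piN_compl_singleton Nat.prime_two).1 h2))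
  have ha' : f a = 1 := by
    obtain ⟨j, hj⟩ := (piN_singleton Nat.prime_two (orderOf_pos a).ne').1 h1
    obtain ⟨i, rfl⟩ := mem_zpowers_iff.1 ha
    refine eq_one_of_odd_of_pow_two_pow (k := j) (ho.of_dvd_nat ?_) (by rw [← map_pow, ← hj, pow_orderOf_eq_one, map_one])
    rw [map_zpow, e1]; exact orderOf_dvd_of_mem_zpowers (zpow_mem_zpowers h i)
  have e4 : f b = h := by rw [← e1, e3, map_mul, ha', one_mul]
  obtain ⟨w, hw, h3, h4⟩ := hS b v hv hb' (by
    obtain ⟨i, rfl⟩ := mem_zpowers_iff.1 hb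
    rw [← conj_zpow, e2, inv_zpow])
  exact ⟨f w, mem_map_of_mem f hw, inj w hw h3, by rw [← e4, ← map_mul, ← map_mul, h4]⟩

end Cfsg.Agent.S3012
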