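import Cfsg.Statements.S3013
import Mathlib
import Cfsg.Agent.H2.BG0
import Cfsg.Agent.L0.Isolated

set_option autoImplicit false
open Cfsg

namespace Cfsg.Agent.S3013

open Cfsg Subgroup CfsgH2 CfsgL0

/-- Let G be a finite group and V a nontrivial elementary abelian 2-subgroup of G satisfying the Sidki pair condition. Let v ∈ V and let x be an element of odd order inverted by v, and put C = C_G(v) ∩ C_G(x), the centralizer of the dihedral subgroup generated by v and x. Then C ∩ V is nontrivial and satisfies the Sidki pair condition inside C: every odd-order element of C inverted by an element of C ∩ V commutes with a nontrivial element of C ∩ V. -/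
theorem result {G : Type*} [Group G] [Finite G] (V : Subgroup G) (hV : Cfsg.IsElementaryAbelian 2 V) (hV1 : V ≠ ⊥) (hS : Cfsg.IsSidkiPair V) (v x : G) (hv : v ∈ V) (hx : Odd (orderOf x)) (hinv : v * x * v⁻¹ = x⁻¹) (C : Subgroup G) (hC : C = Subgroup.centralizer ({v} : Set G) ⊓ Subgroup.centralizer ({x} : Set G)) : C ⊓ V ≠ ⊥ ∧ Cfsg.IsSidkiPair ((C ⊓ V).subgroupOf C) := by
  have hc : ∀ a ∈ V, ∀ b ∈ V, a * b = b * a := isMulComm_iff.1 hV.1
  subst hC
  constructor
  · obtain ⟨w, hw, h1, h2⟩ := hS x v hv hx hinv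
    exact fun e => h1 (mem_bot.1 (e ▸ (⟨⟨mem_centralizer_singleton_iff.2 (hc w hw v hv),
      mem_centralizer_singleton_iff.2 h2⟩, hw⟩ : w ∈ C1[v] ⊓ C1[x] ⊓ V)))
  rintro ⟨h, hh⟩ ⟨u, hu⟩ huV ho hi
  replace huV : u ∈ V := huV.2
  replace ho : Odd (orderOf h) := by rwa [← Subgroup.orderOf_coe] at ho
  replace hi : u * h * u⁻¹ = h⁻¹ := congrArg Subtype.val hi
  have c1 := mem_centralizer_singleton_iff.1 hh.1
  have c2 := mem_centralizer_singleton_iff.1 hh.2
  have c3 := mem_centralizer_singleton_iff.1 hu.2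
  have e1 : v * (h * x) * v⁻¹ = h * x⁻¹ := by
    calc v * (h * x) * v⁻¹ = (v * h) * x * v⁻¹ := by group
      _ = h * (v * x * v⁻¹) := by rw [← c1]; group
      _ = _ := by rw [hinv]
  obtain ⟨w, hw, h1, h2⟩ := hS (h * x) (u * v) (V.mul_mem huV hv)
    ((ho.mul hx).of_dvd_nat (Commute.orderOf_mul_dvd_mul_orderOf c2)) (by
      calc u * v * (h * x) * (u * v)⁻¹ = u * (v * (h * x) * v⁻¹) * u⁻¹ := by group
        _ = (u * h * u⁻¹) * (u * x * u⁻¹)⁻¹ := by rw [e1]; group
        _ = (h * x)⁻¹ := by rw [hi, c3, c2]; group)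
  have k1 : h * x ∈ C1[w] := mem_centralizer_singleton_iff.2 h2.symm
  have kv : v ∈ C1[w] := mem_centralizer_singleton_iff.2 (hc v hv w hw)
  have k2 : h * x⁻¹ ∈ C1[w] := e1 ▸ Subgroup.mul_mem _ (Subgroup.mul_mem _ kv k1) (Subgroup.inv_mem _ kv)
  have k3 : x ∈ C1[w] := by
    refine mem_of_pow_mem_coprime (n := 2) ?_ (Nat.coprime_two_right.2 hx)
    have := Subgroup.mul_mem _ (Subgroup.inv_mem _ k2) k1
    convert this using 1; rw [sq]; group
  have k4 : h ∈ C1[w] := by simpa using Subgroup.mul_mem _ k1 (Subgroup.inv_mem _ k3)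
  have hw' : w ∈ C1[v] ⊓ C1[x] := ⟨mem_centralizer_singleton_iff.2 (hc w hw v hv),
    mem_centralizer_singleton_iff.2 (mem_centralizer_singleton_iff.1 k3).symm⟩
  exact ⟨⟨w, hw'⟩, ⟨hw', hw⟩, fun e => h1 (congrArg Subtype.val e), Subtype.ext (mem_centralizer_singleton_iff.1 k4).symm⟩

end Cfsg.Agent.S3013
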