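import Cfsg.Statements.S3015
import Mathlib
import Cfsg.Agent.L0.M1

set_option autoImplicit false
open Cfsg

namespace Cfsg.Agent.S3015

open Cfsg Subgroup CfsgH2 CfsgL0

/-- Let G be a finite non-abelian simple group, M a maximal subgroup of G and H a normal subgroup of M of prime index in M. Then G is generated by H together with one of its conjugates. -/
theorem result {G : Type*} [Group G] [Finite G] [IsSimpleGroup G] (hG : ¬ IsMulCommutative G) (M H : Subgroup G) (hmaxM : IsCoatom M) (hHM : H ≤ M) (hHn : (H.subgroupOf M).Normal) (hidx : (H.relIndex M).Prime) : ∃ g : G, H ⊔ H.map (MulAut.conj g).toMonoidHom = ⊤ := by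
  by_contra hc
  push Not at hc
  have hn := (normal_subgroupOf_iff' hHM).1 hHn
  have hne : H ≠ M := by rintro rfl; rw [relIndex_self] at hidx; exact Nat.not_prime_one hidx
  have hM0 : M ≠ ⊥ := fun e => hne (by rw [e] at hHM ⊢; exact le_bot_iff.1 hHM)
  have nn : ∀ K : Subgroup G, K ≤ M → K ≠ ⊥ → N[K] ≠ ⊤ := fun K h1 h2 e =>
    (normal_of_top_le_norm e.ge).eq_bot_or_eq_top.elim h2 fun e2 => hmaxM.1 (top_le_iff.1 (e2 ▸ h1))
  have hNM : N[M] = M := (hmaxM.le_iff.1 le_normalizer).resolve_left (nn M le_rfl hM0)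
  haveI : Fact (H.relIndex M).Prime := ⟨hidx⟩
  obtain ⟨K, h1, h2, h3⟩ := gamma_triple hHM (fun g => by
    rcases eq_or_eq_of_relIndex_prime hidx (le_inf le_sup_left hHM : H ≤ (H ⊔ H.map (cj g)) ⊓ M) inf_le_right with e | e
    · exact e
    exfalso
    have e2 : H ⊔ H.map (cj g) = M := (hmaxM.le_iff.1 (e.ge.trans inf_le_left)).resolve_left (hc g)
    have l : H.map (cj g) ≤ M := le_sup_right.trans e2.le
    have hg : g ∉ M := fun hg => hne (by rw [← e2, map_cj_eq (hn hg), sup_idem])
    set p := H.relIndex M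
    have r1 : piRes {p} (H.map (cj g)) ≤ piRes {p} H := by
      rw [← piRes_piRes (M := H.map (cj g))]
      refine piRes_mono (piRes_le_of (l.trans hn) (PiN.of_dvd (PiN.of_prime hidx rfl) ?_))
      rw [← relIndex_sup_of_norm (l.trans hn), sup_comm, e2]
    rw [piRes_map_cj] at r1
    have r2 : M ≤ N[piRes {p} H] := hn.trans norm_le_norm_piRes
    have r3 : piRes {p} H = ⊥ := by
      by_contra h0
      rcases hmaxM.le_iff.1 r2 with e3 | e3
      · exact nn _ (piRes_le.trans hHM) h0 e3
      · exact hg (e3 ▸ mem_norm_of_map_le r1)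
    have r4 : PG[p, M] := by
      have := piN_relIndex_piRes (π := {p}) (M := H)
      rw [r3, relIndex_bot_left] at this
      rw [isPGroup_iff_piN, ← card_mul_relIndex hHM]
      exact this.mul (PiN.of_prime hidx rfl)
    have r5 : (H.map (cj g)).relIndex M = p := by
      have := card_mul_relIndex l
      rw [card_map_cj, ← card_mul_relIndex hHM] at this
      exact Nat.eq_of_mul_eq_mul_left (card_pos' H) this
    have r6 := le_norm_of_relIndex_prime r4 l (r5 ▸ hidx)
    have h0 : H ≠ ⊥ := by
      rintro rfl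
      rw [Subgroup.map_bot, sup_idem] at e2; exact hM0 e2.symm
    rw [normalizer_map_cj, (hmaxM.le_iff.1 hn).resolve_left (nn H hHM h0)] at r6
    exact hg (hNM ▸ map_cj_eq_iff.1 (eq_of_le_of_card_le r6 (card_map_cj g M).le).symm)) hne
    (fun K => eq_or_eq_of_relIndex_prime hidx) hmaxM
  rcases h1.eq_bot_or_eq_top with e | e
  · subst e
    rw [bot_inf_eq] at h2
    subst h2
    rcases h3 rfl with h | h | ⟨-, g, hg, h⟩
    · exact nn M le_rfl hM0 (normalizer_eq_top M)
    · exact hG (isMulComm_top_iff.1 (comm_self_eq_bot_iff.1 (le_bot_iff.1 h)))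
    · rw [relIndex_bot_left] at hidx
      exact hg (hNM ▸ map_cj_eq_iff.1 (eq_of_le_of_card_le (le_of_inf_ne_bot hidx h) (card_map_cj g M).le).symm)
  · rw [e, top_inf_eq] at h2; exact hne h2.symm

end Cfsg.Agent.S3015
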