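import Cfsg.Statements.S3017
import Mathlib
import Cfsg.Agent.L0.EC

set_option autoImplicit false
open Cfsg

namespace Cfsg.Agent.S3017

open Subgroup CfsgH2 CfsgL0.EC

/-- Let G be a finite group and H an abelian 2-subgroup of G that is extremely closed (for every g, the subgroup generated by H and g H g⁻¹ meets N_G(H) exactly in H). Then G = N_G(H) O(G), where O(G) is the largest normal subgroup of odd order. For H of order 2 this is Glauberman's Z*-statement. -/
theorem result {G : Type*} [Group G] [Finite G] (H : Subgroup G) (hH2 : IsPGroup 2 H) (hHab : IsMulCommutative H) (hcl : Cfsg.IsExtremelyClosed H) : Subgroup.normalizer (H : Set G) ⊔ Cfsg.oddCore G = ⊤ := by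
  have ec : EC H := fun g => by
    have e := hcl g
    rw [cj_def] at e
    have s : Syl 2 H (H ⊔ H.map (CfsgH2.cj g)) := Syl.of_norm le_sup_left (e.symm ▸ Syl.self hH2)
    have n := s.npc_of_norm_le_cent (e.le.trans (le_cent_of_comm hHab le_rfl))
    exact ⟨_, not_dvd_piCoreOf, le_sup_left.trans le_norm_piCoreOf, (n.sup_eq s).symm ▸ le_sup_right⟩
  rw [eq_top_iff, sup_comm, Cfsg.oddCore, pPrimeCore_eq']
  exact fun g _ => conj_norm hH2 not_dvd_piCoreOf (le_top.trans le_norm_piCoreOf)
    (main _ G H rfl hH2 hHab ec g)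

end Cfsg.Agent.S3017
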