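import Cfsg.Statements.S3020
import Mathlib
import Cfsg.Agent.H2.BG0

set_option autoImplicit false
open Cfsg

namespace Cfsg.Agent.S3020

open Cfsg Subgroup CfsgH2

/-- Let G be a finite group, p a prime and H an abelian p-subgroup of G that is extremely closed (for every g, the subgroup generated by H and g H g⁻¹ meets N_G(H) exactly in H). Then for every g ∈ G, the subgroup T generated by H and g H g⁻¹ is the product of H with O_{p'}(T), and H meets O_{p'}(T) trivially; that is, O_{p'}(T) is a normal p-complement of H in T. -/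
theorem result {G : Type*} [Group G] [Finite G] {p : ℕ} [Fact p.Prime] (H : Subgroup G) (hHp : IsPGroup p H) (hHab : IsMulCommutative H) (hcl : Cfsg.IsExtremelyClosed H) (g : G) (T : Subgroup G) (hT : T = H ⊔ H.map (MulAut.conj g).toMonoidHom) : H ⊔ (Cfsg.pPrimeCore p ↥T).map T.subtype = T ∧ H ⊓ (Cfsg.pPrimeCore p ↥T).map T.subtype = ⊥ := by
  have h1 : T ⊓ N[H] = H := hT ▸ hcl g
  have h2 : Syl p H T := Syl.of_norm (hT ▸ le_sup_left) (by rw [h1]; exact Syl.self hHp)
  have h3 := h2.npc_of_norm_le_cent (h1.le.trans (le_cent_self hHab))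
  rw [map_pPrimeCore_subtype]
  exact ⟨by rw [sup_comm, h3.sup_eq h2], inf_eq_bot_of_piN (isPGroup_iff_piN.1 hHp) piN_piCoreOf⟩

end Cfsg.Agent.S3020
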