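import Cfsg.Statements.S3021
import Mathlib
import Cfsg.Agent.H2.BG0

set_option autoImplicit false
open Cfsg

namespace Cfsg.Agent.S3021

open Cfsg Subgroup CfsgH2

/-- Let G be a finite group, p a prime and H a p-subgroup of G that is extremely closed (for every g, the subgroup generated by H and g H g⁻¹ meets N_G(H) exactly in H). Then every p-subgroup Q of G containing H has N_G(Q) ≤ N_G(H); in particular every Sylow p-subgroup P of G containing H normalizes H, and H is strongly closed in P with respect to G. -/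
theorem result {G : Type*} [Group G] [Finite G] {p : ℕ} [Fact p.Prime] (H : Subgroup G) (hHp : IsPGroup p H) (hcl : Cfsg.IsExtremelyClosed H) : (∀ Q : Subgroup G, IsPGroup p Q → H ≤ Q → Subgroup.normalizer (Q : Set G) ≤ Subgroup.normalizer (H : Set G)) ∧ ∀ P : Sylow p G, H ≤ (P : Subgroup G) → (P : Subgroup G) ≤ Subgroup.normalizer (H : Set G) ∧ Cfsg.IsStronglyClosed H (P : Subgroup G) := by
  have h2 : ∀ g, Syl p H (H ⊔ H.map (cj g)) := fun g =>
    Syl.of_norm le_sup_left (by rw [show (H ⊔ H.map (cj g)) ⊓ N[H] = H from hcl g]; exact Syl.self hHp)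
  have h1 : ∀ Q : Subgroup G, IsPGroup p Q → H ≤ Q → N[Q] ≤ N[H] := fun Q hQ hl g hg =>
    mem_norm_of_map_le (le_sup_right.trans
      ((h2 g).eq_of_pgroup (hQ.to_le (sup_le hl (map_cj_le_of_norm hl hg)))).ge)
  refine ⟨h1, fun P hP => ⟨le_normalizer.trans (h1 _ P.2 hP), hP, fun x hx g hg => ?_⟩⟩
  exact (hcl g).le ⟨mem_sup_right (conj_mem_map_cj hx), h1 _ P.2 hP (le_normalizer hg)⟩

end Cfsg.Agent.S3021
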