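import Cfsg.Statements.S3022
import Cfsg.Agent.H2.PU12

set_option autoImplicit false
open Cfsg

namespace Cfsg.Agent.S3022
open CfsgH2

/-- Let G be a finite group all of whose non-abelian simple sections are known simple groups, such that a Sylow 2-subgroup of G lies in exactly one maximal subgroup of G and C_G(O₂(G)) ≤ O₂(G). Let S be a Sylow 2-subgroup of G and A a group of automorphisms of S of odd order. Then some nontrivial A-invariant subgroup of S is normal in G. -/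
theorem result {G : Type*} [Group G] [Finite G] (hK : Cfsg.IsKGroup G) (hirr : ∀ S : Sylow 2 G, ∃! M : Subgroup G, IsCoatom M ∧ (S : Subgroup G) ≤ M) (hchar : Subgroup.centralizer (Cfsg.pCore 2 G : Set G) ≤ Cfsg.pCore 2 G) (S : Sylow 2 G) (A : Subgroup (MulAut ↥(S : Subgroup G))) (hA : Odd (Nat.card A)) : ∃ U : Subgroup G, U ≠ ⊥ ∧ U.Normal ∧ U ≤ (S : Subgroup G) ∧ ∀ a ∈ A, ∀ x : ↥(S : Subgroup G), (x : G) ∈ U → ((a x : ↥(S : Subgroup G)) : G) ∈ U := by
  open Subgroup Function in open scoped commutatorElement in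
  open Subgroup Function in open scoped commutatorElement in
  open CfsgL0 CfsgBG in
  by_contra no
  obtain ⟨M, -, u⟩ := um_top (syl_top S) (hirr S)
  have c := con_top_iff.1 hchar
  have h0 : (S : Subgroup G) ≠ ⊥ := fun e => u.nle (by
    have q := le_bot_iff.1 (u.syl.pCoreOf_le.trans e.le)
    rw [CfsgH2.Con, q, cent_bot] at c
    exact (le_inf le_rfl le_top).trans (c.trans bot_le))
  have ch : ∀ K ≤ (S : Subgroup G), (K.subgroupOf S).Characteristic → ⊤ ≤ N[K] → K = ⊥ := fun K l k n =>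
    by_contra fun e => no ⟨K, e, top_le_norm_iff.1 n, l, fun a _ x hx =>
      (characteristic_iff_map_le.1 k a) ⟨x, hx, rfl⟩⟩
  obtain ⟨L, M', t, cL, k, VJ, c2⟩ := u.rank1 c (fun n => J_ne_bot dvd_rfl u.syl.pg h0 (ch _ J_le char_J n))
    fun n => omega_center_ne_bot dvd_rfl u.syl.pg h0 (ch _ OZ_le char_OZ n)
  haveI := char_Bm (p := 2) (S := (S : Subgroup G))
  obtain ⟨r, hr⟩ := exists_restrict (inf_le_left : Bm[2, (S : Subgroup G)] ≤ S)
  let I := (MulAut.conj : (S : Subgroup G) →* _).range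
  haveI : I.Normal := ⟨by
    rintro _ ⟨s, rfl⟩ a
    exact ⟨a s, by ext x; simp⟩⟩
  obtain ⟨_, ⟨α, hα, rfl⟩, e⟩ := t.push2 cL ((A ⊔ I).map r) fun K l n f => by_contra fun e => no
    ⟨K, e, top_le_norm_iff.1 (by_contra fun g => k (n.trans ((le_inf le_top le_rfl).trans (u.norm_le'
      (fun s hs => mem_norm_of_conj fun x hx => by
        simpa [hr] using f _ (mem_map_of_mem r (mem_sup_right ⟨⟨s, hs⟩, rfl⟩)) ⟨x, l hx⟩ hx) g)))),
      l.trans inf_le_left, fun a ha x hx => by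
        simpa [hr] using f _ (mem_map_of_mem r (mem_sup_left ha)) ⟨x, l hx⟩ hx⟩
  obtain ⟨m, hm⟩ := hA
  obtain ⟨z, hz, z0⟩ := e m
  obtain ⟨a, ha, i, hi, rfl⟩ := (mem_sup_of_norm (le_top.trans (normalizer_eq_top I).ge)).1 hα
  obtain ⟨s, es⟩ : (a * i) ^ (2 * m + 1) ∈ I := by
    rw [← QuotientGroup.eq_one_iff, QuotientGroup.mk_pow, QuotientGroup.mk_mul, (QuotientGroup.eq_one_iff i).2 hi,
      mul_one, ← QuotientGroup.mk_pow, ← hm, show a ^ Nat.card A = 1 from
        congrArg Subtype.val (pow_card_eq_one' (x := (⟨a, ha⟩ : A))), QuotientGroup.mk_one]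
  rw [← map_pow, hr, ← es] at z0
  have q : O[{2}, (⊤ : Subgroup G)] ⊓ L ≤ O[{2}, L] := inf_piCoreOf_le le_top
  have zQ : (z : G) ∈ O[{2}, (⊤ : Subgroup G)] := c2 ⟨z.2.1, cent_anti
    ((le_inf OZ_le (VJ.trans ((le_inf J_le (le_centralizer_iff.1 OZ_cent)).trans t.um.syl.le))).trans q)
      (OZ_cent hz)⟩
  exact z0 (q ⟨conj_mem_of_norm (le_norm_piCoreOf (mem_top _)) zQ,
      t.um.syl.le (conj_mem_of_norm (norm_Bm (le_normalizer s.2)) z.2)⟩)

end Cfsg.Agent.S3022
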