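import Cfsg.Statements.S3025
import Cfsg.Agent.H3.Hv1
import Cfsg.Agent.H9.Loc

set_option autoImplicit false
open Cfsg

namespace Cfsg.Agent.S3025
open Subgroup

/-- Let F be a finite group and H a nontrivial subgroup of F that is contained in every nontrivial subgroup of F which H normalizes. Then F has a nontrivial normal subgroup N contained in every nontrivial normal subgroup of F (a unique minimal normal subgroup), N is simple, and one of the following holds: C_F(N) = 1; or H = N has prime order p, C_F(N) is cyclic of order a power of p, and F/C_F(N) is cyclic of order dividing p − 1; or H = N has order 2, N is central in F, and F is a generalized quaternion group. -/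
theorem result {F : Type*} [Group F] [Finite F] (H : Subgroup F) (hH : H ≠ ⊥)
    (hmin : ∀ R : Subgroup F, R ≠ ⊥ → H ≤ Subgroup.normalizer (R : Set F) → H ≤ R) :
    ∃ N : Subgroup F, N.Normal ∧ N ≠ ⊥ ∧ (∀ M : Subgroup F, M.Normal → M ≠ ⊥ → N ≤ M) ∧ IsSimpleGroup ↥N ∧
      (Subgroup.centralizer (N : Set F) = ⊥ ∨
       (H = N ∧ (Nat.card N).Prime ∧ IsCyclic ↥(Subgroup.centralizer (N : Set F)) ∧
          (∃ k : ℕ, 1 ≤ k ∧ Nat.card ↥(Subgroup.centralizer (N : Set F)) = Nat.card N ^ k) ∧
          (∃ g : F, Subgroup.centralizer (N : Set F) ⊔ Subgroup.zpowers g = ⊤) ∧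
          (Subgroup.centralizer (N : Set F)).index ∣ Nat.card N - 1) ∨
       (H = N ∧ Nat.card N = 2 ∧ Subgroup.centralizer (N : Set F) = ⊤ ∧
          ∃ k : ℕ, 1 ≤ k ∧ Nonempty (F ≃* QuaternionGroup (2 ^ k)))) := by
  set N := normalClosure (H : Set F) with hN
  have HN : H ≤ N := le_normalClosure
  have N0 : N ≠ ⊥ := fun e => hH (le_bot_iff.1 (e ▸ HN))
  have um : ∀ M : Subgroup F, M.Normal → M ≠ ⊥ → N ≤ M := fun M hM h0 =>
    normalClosure_le_normal (hmin M h0 (by rw [normalizer_eq_top]; exact le_top))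
  have sim : ∀ K : Subgroup F, K ≠ ⊥ → N ≤ normalizer (K : Set F) → N ≤ K := by
    intro K h0 hK
    have : H ≤ K.normalCore := fun h hh g => by
      have := hmin (K.comap (MulAut.conj g).toMonoidHom) (fun e => h0 (by
        rw [← map_comap_eq_self_of_surjective (f := (MulAut.conj g).toMonoidHom) (MulAut.conj g).surjective K, e,
          Subgroup.map_bot])) (fun x hx => mem_normalizer_iff.2 fun y => by
            have := mem_normalizer_iff.1 (hK (normalClosure_normal.conj_mem x (HN hx) g)) (g * y * g⁻¹)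
            show g * y * g⁻¹ ∈ K ↔ g * (x * y * x⁻¹) * g⁻¹ ∈ K
            rw [this]; exact iff_of_eq (by congr 1; group)) hh
      exact this
    exact (normalClosure_le_normal this).trans K.normalCore_le
  haveI : Nontrivial N := (nontrivial_iff_ne_bot N).2 N0
  haveI hs : IsSimpleGroup N := ⟨fun K hK => by
    by_cases h0 : K = ⊥
    · exact .inl h0
    refine .inr (eq_top_iff.2 fun x _ => ?_)
    obtain ⟨y, hy, e⟩ := sim (K.map N.subtype) (fun e => h0 ((map_eq_bot_iff_of_injective _ N.subtype_injective).1 e))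
      (fun n hn => mem_normalizer_fintype fun _ ⟨z, hz, e⟩ => ⟨_, hK.conj_mem z hz ⟨n, hn⟩, by rw [← e]; rfl⟩) x.2
    rwa [← Subtype.ext e]⟩
  refine ⟨N, inferInstance, N0, um, hs, ?_⟩
  set C := centralizer (N : Set F) with hC
  by_cases h0 : C = ⊥
  · exact .inl h0
  right
  have NC : N ≤ C := um C inferInstance h0
  haveI : IsMulCommutative N := le_centralizer_iff_isMulCommutative.1 NC
  have pr : (Nat.card N).Prime := by
    letI : CommGroup N := { (inferInstance : Group N) with mul_comm := fun a b => mul_comm' a b }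
    exact IsSimpleGroup.prime_card
  set p := Nat.card N with hp
  haveI := Fact.mk pr
  have eH : H = N := by
    rcases (Nat.dvd_prime pr).1 (card_dvd_of_le HN) with e | e
    · exact absurd (card_eq_one.1 e) hH
    · exact eq_of_le_of_card_ge HN e.ge
  have z : ∀ c ∈ C, c ≠ 1 → N ≤ zpowers c := fun c hc c1 => sim _ (zpowers_ne_bot.2 c1) fun n hn =>
    mem_normalizer_fintype fun _ ⟨k, e⟩ => by
      rw [← e, (Commute.zpow_right (hc n hn) k).eq, mul_inv_cancel_right]; exact ⟨k, rfl⟩
  have pg : IsPGroup p C := by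
    refine IsPGroup.of_card (Nat.eq_prime_pow_of_unique_prime_dvd Nat.card_pos.ne' fun {q} hq hd => ?_)
    haveI := Fact.mk hq
    obtain ⟨c, hc⟩ := exists_prime_orderOf_dvd_card' q hd
    have := card_dvd_of_le (z c c.2 fun e => hq.one_lt.ne (by rw [← hc, show c = 1 from Subtype.ext e, orderOf_one]))
    rw [Nat.card_zpowers, orderOf_coe, hc] at this
    exact ((Nat.prime_dvd_prime_iff_eq pr hq).1 this).symm
  have rk : Cfsg.PRankLE p 1 C := fun A _ hA => by
    rw [pow_one, ← card_map_of_injective C.subtype_injective]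
    refine card_le_of_le ?_
    rintro _ ⟨a, ha, rfl⟩
    by_cases a1 : a = 1
    · simp [a1]
    have := z a a.2 fun e => a1 (Subtype.ext e)
    rw [eq_of_le_of_card_ge this (by
      rw [Nat.card_zpowers, orderOf_coe]; exact Nat.le_of_dvd pr.pos (orderOf_dvd_of_pow_eq_one (hA a ha)))]
    exact mem_zpowers _
  haveI : IsCyclic N := isCyclic_of_prime_card hp.symm
  haveI : IsCyclic (MulAut N) := by
    haveI := ZMod.isCyclic_units_prime pr
    exact isCyclic_of_surjective _ (IsCyclic.mulAutMulEquiv N).symm.surjective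
  have ker : (MulAut.conjNormal (H := N)).ker = C := by
    ext g
    rw [MonoidHom.mem_ker, hC, mem_centralizer_iff]
    refine ⟨fun e n hn => ?_, fun e => ?_⟩
    · have := congrArg Subtype.val (DFunLike.congr_fun e ⟨n, hn⟩)
      simp only [MulAut.conjNormal_apply, MulAut.one_apply] at this
      exact (mul_inv_eq_iff_eq_mul.1 this).symm
    · ext n
      simp [← e n n.2]
  have idx : C.index ∣ p - 1 := by
    rw [← ker, index_ker, ← Nat.totient_prime pr, ← IsCyclic.card_mulAut]
    exact card_subgroup_dvd_card _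
  rcases CfsgH9.cyc_or_quat_of_rank_one pg rk with cy | ⟨e2, k, hk, ⟨e⟩⟩
  · obtain ⟨k, hk⟩ := pg.exists_card_eq
    obtain ⟨⟨_, g, rfl⟩, hg⟩ := IsCyclic.exists_generator (α := (MulAut.conjNormal (H := N)).range)
    refine .inl ⟨eH, pr, cy, ⟨k, Nat.pos_of_ne_zero fun e => h0 (card_eq_one.1 (by rw [hk, e, pow_zero])), hk⟩,
      ⟨g, eq_top_iff.2 fun x _ => ?_⟩, idx⟩
    obtain ⟨n, hn⟩ := hg ⟨_, x, rfl⟩
    have : x * (g ^ n)⁻¹ ∈ C := by
      have := congrArg Subtype.val hn
      simp only [SubgroupClass.coe_zpow] at this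
      rw [← ker, MonoidHom.mem_ker, map_mul, map_inv, map_zpow, this, mul_inv_cancel]
    simpa using mul_mem_sup this (zpow_mem (mem_zpowers g) n)
  · have : C = ⊤ := index_eq_one.1 (by rw [e2] at idx; simpa using idx)
    exact .inr ⟨eH, e2, this, k, hk, ⟨(topEquiv.symm.trans (MulEquiv.subgroupCongr this.symm)).trans e⟩⟩


end Cfsg.Agent.S3025
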