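import Cfsg.Statements.S3027
import Mathlib
import Cfsg.Agent.H2.BG0

set_option autoImplicit false
open Cfsg

namespace Cfsg.Agent.S3027

open Cfsg Subgroup CfsgH2
open scoped commutatorElement

/-- Let G be a finite group and D a normal subgroup of G such that G/D is perfect (that is, G = G′D). Then among the subnormal subgroups B of G with BD = G there is a least one, and it is normal in G. -/
theorem result {G : Type*} [Group G] [Finite G] (D : Subgroup G) [D.Normal] (hperf : ⁅(⊤ : Subgroup G), (⊤ : Subgroup G)⁆ ⊔ D = ⊤) :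
    ∃ B : Subgroup G, B.Normal ∧ B ⊔ D = ⊤ ∧ ∀ B' : Subgroup G, B'.IsSubnormal → B' ⊔ D = ⊤ → B ≤ B' := by
  set f := QuotientGroup.mk' D
  have hf : Function.Surjective f := QuotientGroup.mk'_surjective D
  have e : ∀ X : Subgroup G, X ⊔ D = ⊤ ↔ X.map f = ⊤ := fun X => by
    rw [show X ⊔ D = (X.map f).comap f by rw [comap_map_eq, QuotientGroup.ker_mk']]
    exact ⟨fun h => by rw [← map_comap_eq_self_of_surjective hf (X.map f), h, map_top_of_surjective _ hf],
      fun h => by rw [h, comap_top]⟩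
  have cm : ∀ X Y : Subgroup G, X ⊔ D = ⊤ → Y ⊔ D = ⊤ → X ≤ N[Y] → Y ≤ N[X] → (X ⊓ Y) ⊔ D = ⊤ := by
    intro X Y h1 h2 h3 h4
    refine top_le_iff.1 (le_trans ?_ (sup_le_sup_right (le_inf (comm_le_left h4) (comm_le_right h3)) D))
    rw [e] at h1 h2 hperf
    refine ((e _).2 ?_).ge
    rw [map_commutator, map_top_of_surjective _ hf] at hperf
    rw [map_commutator, h1, h2, hperf]
  obtain ⟨B, -, ⟨h1, h2⟩, h3⟩ := exists_minimal_le (fun B : Subgroup G => B.Normal ∧ B ⊔ D = ⊤) (H := ⊤)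
    ⟨inferInstance, top_sup_eq D⟩
  have key : ∀ X ≤ B, B ≤ N[X] → X ⊔ D = ⊤ → B ≤ X := by
    intro X k1 k2 k3
    obtain ⟨Y, k4, ⟨k5, k6⟩, k7⟩ := exists_minimal_le (fun Y : Subgroup G => B ≤ N[Y] ∧ Y ⊔ D = ⊤) (H := X) ⟨k2, k3⟩
    have hY := k4.trans k1
    have : Y.Normal := normal_of_top_le_norm fun g _ => by
      have n1 : B ≤ N[Y.map (cj g)] := by
        rw [normalizer_map_cj, ← map_cj_normal g B]; exact map_mono k5
      have l1 : Y.map (cj g) ≤ B := by rw [← map_cj_normal g B]; exact map_mono hY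
      have := k7 _ ⟨le_norm_inf k5 n1, cm _ _ k6 (by
        rw [← map_cj_normal g D, ← Subgroup.map_sup, k6, map_cj_eq_top]) (hY.trans n1) (l1.trans k5)⟩ inf_le_left
      exact map_cj_eq_iff.1 (eq_of_le_of_card_le (this.ge.trans inf_le_right) (card_map_cj g Y).le).symm
    exact (h3 Y ⟨this, k6⟩ hY).ge.trans k4
  refine ⟨B, h1, h2, fun B' hs => ?_⟩
  induction hs with
  | top => exact fun _ => le_top
  | step H K hl hK hn ih =>
    intro h
    have k1 := ih (top_le_iff.1 (h.ge.trans (sup_le_sup_right hl D)))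
    have k2 := k1.trans ((normal_subgroupOf_iff' hl).1 hn)
    exact (key _ inf_le_left (le_norm_inf le_normalizer k2) (cm _ _ h2 h k2 le_normalizer_of_normal)).trans inf_le_right

end Cfsg.Agent.S3027
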