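import Cfsg.Statements.S3044
import Mathlib
import Cfsg.Agent.H9.IsoM

set_option autoImplicit false
open Cfsg

namespace Cfsg.Agent.S3044

/-- Let G be a finite group, p a prime, S a Sylow p-subgroup of G and P a p-minimal subgroup of G containing S (S is not normal in P and lies in exactly one maximal subgroup of P). Let L be the subgroup generated by N_G(S) and all p-minimal subgroups of G containing S other than P, and suppose P is isolated: O_p(L) is not contained in O_p(P). Put Y for the normal closure of O^p(P) in G. Then G = YL; P is again isolated in the subgroup YS (the subgroup L₀ generated by N_{YS}(S) and the p-minimal subgroups of YS containing S other than P has O_p(L₀) not contained in O_p(P)); and either Y = O^p(P), or p divides |Y/O_p(Y)|, Y/O_p(Y) is generated by its components (a central product of quasisimple groups), and S permutes these components transitively by conjugation. -/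
theorem result {G : Type*} [Group G] [Finite G] {p : ℕ} [Fact p.Prime] (S : Sylow p G) (P : Subgroup G) (hSP : (S : Subgroup G) ≤ P) (hPmin : Cfsg.IsPMinimal p ↥P)
    (L Y : Subgroup G)
    (hL : L = Subgroup.normalizer ((S : Subgroup G) : Set G) ⊔ ⨆ P' : {P' : Subgroup G // (S : Subgroup G) ≤ P' ∧ Cfsg.IsPMinimal p ↥P' ∧ P' ≠ P}, (P' : Subgroup G))
    (hiso : ¬ (Cfsg.pCore p ↥L).map L.subtype ≤ (Cfsg.pCore p ↥P).map P.subtype)
    (hY : Y = Subgroup.normalClosure (((Cfsg.pResidual p ↥P).map P.subtype : Subgroup G) : Set G)) :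
    Y ⊔ L = ⊤ ∧
    ¬ (Cfsg.pCore p ↥((Subgroup.normalizer ((S : Subgroup G) : Set G) ⊓ (Y ⊔ (S : Subgroup G))) ⊔
          ⨆ P' : {P' : Subgroup G // (S : Subgroup G) ≤ P' ∧ P' ≤ Y ⊔ (S : Subgroup G) ∧ Cfsg.IsPMinimal p ↥P' ∧ P' ≠ P}, (P' : Subgroup G))).map
        (Subgroup.subtype _) ≤ (Cfsg.pCore p ↥P).map P.subtype ∧
    ((Cfsg.pResidual p ↥P).map P.subtype = Y ∨
     ∃ _ : (Cfsg.pCore p ↥Y).Normal,
       p ∣ Nat.card (↥Y ⧸ Cfsg.pCore p ↥Y) ∧ Cfsg.layer (↥Y ⧸ Cfsg.pCore p ↥Y) = ⊤ ∧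
       ∀ K₁ K₂ : Subgroup (↥Y ⧸ Cfsg.pCore p ↥Y), Cfsg.IsComponent K₁ → Cfsg.IsComponent K₂ →
         ∃ s ∈ (S : Subgroup G), ((K₂.comap (QuotientGroup.mk' (Cfsg.pCore p ↥Y))).map Y.subtype) = (((K₁.comap (QuotientGroup.mk' (Cfsg.pCore p ↥Y))).map Y.subtype)).map (MulAut.conj s).toMonoidHom) := by
  open Subgroup CfsgH9 in
  have hS := syl_sylow S
  have h0 : IsoM p (S : Subgroup G) P L (Op p L) := isoM_of hS hSP (hL ▸ le_sup_left)
    (fun P' a b c => hL ▸ le_sup_of_le_right (le_iSup (fun P' : {P' : Subgroup G //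
      (S : Subgroup G) ≤ P' ∧ IsPMinimal p P' ∧ P' ≠ P} => (P' : Subgroup G)) ⟨P', a, b, c⟩)) hiso
  have hQ : pCore p G ≤ Op p L := le_Op (Sn.of_normal ((Op_top (G := G) p ▸ hS.Op_le).trans h0.SL)
    le_normalizer_of_normal) (pCore_isPGroup p)
  have h := h0.map _ hQ
  have hO : Op p (⊤ : Subgroup (G ⧸ pCore p G)) = ⊥ := by rw [Op_top, pCore_quotient_pCore]
  rw [Oup_eq] at hY ⊢
  have sj := QuotientGroup.mk'_surjective (pCore p G)
  haveI : Y.Normal := hY ▸ normalClosure_normal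
  have y1 : Oup p P ≤ Y := hY ▸ le_normalClosure
  have y2 : ∀ N : Subgroup G, N.Normal → Oup p P ≤ N → Y ≤ N := fun N _ a =>
    hY ▸ normalClosure_le_normal a
  refine ⟨h0.top y1, fun e => hiso (le_trans (le_Op (Sn.of_normal ?_ ?_) (Op_isPGroup p L)) e), ?_⟩
  · exact h0.AS.trans (le_sup_of_le_left (le_inf le_normalizer le_sup_right))
  · refine le_trans (sup_le (inf_le_left.trans (hL ▸ le_sup_left)) (iSup_le fun ⟨P', a, _, b, c⟩ =>
      hL ▸ le_sup_of_le_right (le_iSup (fun P' : {P' : Subgroup G //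
        (S : Subgroup G) ≤ P' ∧ IsPMinimal p P' ∧ P' ≠ P} => (P' : Subgroup G)) ⟨P', a, b, c⟩))) h0.nA
  haveI : (Y.map (QuotientGroup.mk' (pCore p G))).Normal := Normal.map inferInstance _ sj
  have z1 : Oup p (P.map (QuotientGroup.mk' (pCore p G))) ≤ Y.map (QuotientGroup.mk' _) :=
    (map_Oup (p := p) (QuotientGroup.mk' (pCore p G)) P).ge.trans (map_mono y1)
  have z2 : ∀ N : Subgroup (G ⧸ pCore p G), N.Normal → Oup p (P.map (QuotientGroup.mk' _)) ≤ N →
      Y.map (QuotientGroup.mk' _) ≤ N := fun N _ a => map_le_iff_le_comap.2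
    (y2 _ inferInstance (map_le_iff_le_comap.1 (by rwa [map_Oup])))
  refine (h.main hO z1 z2).imp (fun e => Oup_eq_of_map_eq hS hSP y1 y2 (by rw [map_Oup, e]))
    fun ⟨hd, K, hK, e⟩ => ?_
  have nY : (pCore p Y).Normal := inferInstance
  obtain ⟨g, g1, g2, g3⟩ := exists_quot_hom (p := p) Y
  have nt : ∀ X : Subgroup (G ⧸ pCore p G),
      X ≤ normalizer ((⊤ : Subgroup (G ⧸ pCore p G)) : Set _) := fun X => le_top.trans le_normalizer
  refine ⟨nY, ?_, ?_, fun K₁ K₂ a b => ?_⟩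
  · rwa [← g3, card_map_of_injective g1, card_top] at hd
  · rw [← Lay_top]
    refine map_injective g1 ?_
    rw [map_Lay g1, g3]
    refine le_antisymm (Lay_le _) (e.le.trans (ncl_le_iff.2 fun y hy => ?_))
    exact ((hK.cj_of_mem (nt _ (mem_top y))).mono ((cj_le_ncl hy).trans e.ge) le_top).le_Lay
  have k1 : ∀ J : Subgroup (Y ⧸ pCore p Y), IsComponent J →
      ∃ s ∈ (S : Subgroup G), J.map g = cj (QuotientGroup.mk' _ s) K := fun J hJ => by
    have h1 := (comp_map_iff g1).2 (comp_top_iff.2 hJ)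
    rw [g3] at h1
    obtain ⟨_, ⟨s, hs, rfl⟩, h2⟩ := hK.eq_cj_of_le_ncl (h1.trans (Sn.of_normal_top _)) (nt _)
      (h1.le.trans e.le)
    exact ⟨s, hs, h2⟩
  have k2 : ∀ J : Subgroup (Y ⧸ pCore p Y), (J.comap (QuotientGroup.mk' (pCore p Y))).map Y.subtype =
      (J.map g).comap (QuotientGroup.mk' (pCore p G)) ⊓ Y := fun J => by
    refine le_antisymm ?_ ?_
    · rintro _ ⟨y, hy, rfl⟩
      exact ⟨⟨_, hy, g2 y⟩, y.2⟩
    · rintro y ⟨⟨x, hx, e⟩, hy⟩
      refine ⟨⟨y, hy⟩, ?_, rfl⟩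
      have : x = QuotientGroup.mk' _ (⟨y, hy⟩ : Y) := g1 (e.trans (g2 ⟨y, hy⟩).symm)
      rw [this] at hx
      exact hx
  obtain ⟨s₁, h1, e1⟩ := k1 K₁ a
  obtain ⟨s₂, h2, e2⟩ := k1 K₂ b
  refine ⟨s₂ * s₁⁻¹, mul_mem h2 (inv_mem h1), ?_⟩
  rw [k2, k2, e1, e2]
  change _ = cj _ _
  rw [cj_inf, cj_normal _ Y]
  congr 1
  ext x
  simp only [mem_comap, mem_cj, map_mul, map_inv, mul_inv_rev, inv_inv, mul_assoc,
    inv_mul_cancel_left, inv_mul_cancel, mul_one]

end Cfsg.Agent.S3044
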