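import Cfsg.Statements.S3045
import Mathlib
import Cfsg.Agent.H9.IsoM

set_option autoImplicit false
open Cfsg

namespace Cfsg.Agent.S3045

/-- Let G be a finite group, p a prime, S a Sylow p-subgroup of G and P a p-minimal subgroup of G containing S. Let L be the subgroup generated by N_G(S) and all p-minimal subgroups of G containing S other than P, and suppose O_p(L) is not contained in O_p(P). Put Y for the normal closure of O^p(P) in G. Then O^p(P) is contained in the preimage in G of F*(G/O_p(G)); and if Y is solvable, then Y = O^p(P) and Y/O_p(Y) is a t-group of nilpotency class at most 2 for some prime t ≠ p. -/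
theorem result {G : Type*} [Group G] [Finite G] {p : ℕ} [Fact p.Prime] (S : Sylow p G) (P : Subgroup G) (hSP : (S : Subgroup G) ≤ P) (hPmin : Cfsg.IsPMinimal p ↥P)
    (L Y : Subgroup G)
    (hL : L = Subgroup.normalizer ((S : Subgroup G) : Set G) ⊔ ⨆ P' : {P' : Subgroup G // (S : Subgroup G) ≤ P' ∧ Cfsg.IsPMinimal p ↥P' ∧ P' ≠ P}, (P' : Subgroup G))
    (hiso : ¬ (Cfsg.pCore p ↥L).map L.subtype ≤ (Cfsg.pCore p ↥P).map P.subtype)
    (hY : Y = Subgroup.normalClosure (((Cfsg.pResidual p ↥P).map P.subtype : Subgroup G) : Set G)) [hn : (Cfsg.pCore p G).Normal] :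
    (Cfsg.pResidual p ↥P).map P.subtype ≤ (Cfsg.generalizedFittingSubgroup (G ⧸ Cfsg.pCore p G)).comap (QuotientGroup.mk' (Cfsg.pCore p G)) ∧
    (Group.IsSolvable ↥Y → (Cfsg.pResidual p ↥P).map P.subtype = Y ∧
       ∃ _ : (Cfsg.pCore p ↥Y).Normal, ∃ t : ℕ, t.Prime ∧ t ≠ p ∧ IsPGroup t (↥Y ⧸ Cfsg.pCore p ↥Y) ∧
         ∃ _ : Group.IsNilpotent (↥Y ⧸ Cfsg.pCore p ↥Y), Group.nilpotencyClass (↥Y ⧸ Cfsg.pCore p ↥Y) ≤ 2) := by
  open Subgroup CfsgH9 in
  have hS := syl_sylow S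
  have h0 : IsoM p (S : Subgroup G) P L (Op p L) := isoM_of hS hSP (hL ▸ le_sup_left)
    (fun P' a b c => hL ▸ le_sup_of_le_right (le_iSup (fun P' : {P' : Subgroup G //
      (S : Subgroup G) ≤ P' ∧ IsPMinimal p P' ∧ P' ≠ P} => (P' : Subgroup G)) ⟨P', a, b, c⟩)) hiso
  have hQ : pCore p G ≤ Op p L := le_Op (Sn.of_normal ((Op_top (G := G) p ▸ hS.Op_le).trans h0.SL)
    le_normalizer_of_normal) (pCore_isPGroup p)
  have h := h0.map _ hQ
  have hO : Op p (⊤ : Subgroup (G ⧸ pCore p G)) = ⊥ := by rw [Op_top, pCore_quotient_pCore]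
  rw [Oup_eq] at hY ⊢
  have sj := QuotientGroup.mk'_surjective (pCore p G)
  refine ⟨map_le_iff_le_comap.1 (by rw [map_Oup, ← Fs_top]; exact h.le_Fs hO), fun hs => ?_⟩
  haveI : Y.Normal := hY ▸ normalClosure_normal
  have y1 : Oup p P ≤ Y := hY ▸ le_normalClosure
  have y2 : ∀ N : Subgroup G, N.Normal → Oup p P ≤ N → Y ≤ N := fun N _ a =>
    hY ▸ normalClosure_le_normal a
  haveI : (Y.map (QuotientGroup.mk' (pCore p G))).Normal := Normal.map inferInstance _ sj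
  have z1 : Oup p (P.map (QuotientGroup.mk' (pCore p G))) ≤ Y.map (QuotientGroup.mk' _) :=
    (map_Oup (p := p) (QuotientGroup.mk' (pCore p G)) P).ge.trans (map_mono y1)
  have z2 : ∀ N : Subgroup (G ⧸ pCore p G), N.Normal → Oup p (P.map (QuotientGroup.mk' _)) ≤ N →
      Y.map (QuotientGroup.mk' _) ≤ N := fun N _ a => map_le_iff_le_comap.2
    (y2 _ inferInstance (map_le_iff_le_comap.1 (by rwa [map_Oup])))
  have z3 : Y.map (QuotientGroup.mk' (pCore p G)) ≤ Fs ⊤ :=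
    z2 _ (normal_of_top_le (le_normalizer_Fs le_normalizer)) (h.le_Fs hO)
  have z4 : Group.IsSolvable (Y.map (QuotientGroup.mk' (pCore p G))) :=
    solvable_of_surjective (MonoidHom.subgroupMap_surjective _ Y)
  have z5 : Y.map (QuotientGroup.mk' (pCore p G)) ≤ Fit ⊤ := by
    rw [← Fs_inf_centralizer_Lay]
    exact le_inf z3 (comm_bot_iff'.1 (Lay_comm_of_solvable le_top le_normalizer_of_normal z4))
  obtain ⟨e, t, pt, tp, tY, c⟩ := h.nil hO z1 z2 z5
  have nY : (pCore p Y).Normal := inferInstance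
  obtain ⟨g, g1, g2, g3⟩ := exists_quot_hom (p := p) Y
  have c' : ⁅⁅(⊤ : Subgroup (Y ⧸ pCore p Y)), (⊤ : Subgroup (Y ⧸ pCore p Y))⁆,
      (⊤ : Subgroup (Y ⧸ pCore p Y))⁆ = ⊥ := by
    refine (map_eq_bot_iff_of_injective _ g1).1 ?_
    rw [Subgroup.map_commutator, Subgroup.map_commutator, g3, c]
  have ni : Group.IsNilpotent (Y ⧸ pCore p Y) :=
    Subgroup.nilpotent_iff_lowerCentralSeries.2 ⟨2, c'⟩
  refine ⟨Oup_eq_of_map_eq hS hSP y1 y2 (by rw [map_Oup, e]), nY, t, pt, tp, fun x => ?_, ni,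
    Subgroup.lowerCentralSeries_eq_bot_iff_nilpotencyClass_le.1 c'⟩
  obtain ⟨k, hk⟩ := tY ⟨g x, g3.le ⟨x, mem_top x, rfl⟩⟩
  exact ⟨k, g1 (by rw [map_pow, map_one]; exact congrArg Subtype.val hk)⟩

end Cfsg.Agent.S3045
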