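import Cfsg.Statements.S3048
import Mathlib
import Cfsg.Agent.H9.Pump2
import Cfsg.Agent.H9.Join
import Cfsg.Agent.H9.Diag
import Cfsg.Agent.H9.Bal
import Cfsg.Agent.H9.Resid

set_option autoImplicit false
universe u
open Cfsg

namespace Cfsg.Agent.S3048

section
open Subgroup CfsgH9
open scoped commutatorElement

section
variable {G : Type*} [Group G] [Finite G] {V : Subgroup G}

theorem eq_one_of {x : G} {k : ℕ} (hk : Odd k) (h1 : x ^ k = 1) (h2 : x * x = 1) : x = 1 := by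
  obtain ⟨m, rfl⟩ := hk
  rwa [pow_succ, pow_mul, pow_two, h2, one_pow, one_mul] at h1

theorem odd_mul' {a b : G} (h : a * b = b * a) (ha : Odd (orderOf a)) (hb : Odd (orderOf b)) :
    Odd (orderOf (a * b)) :=
  (ha.mul hb).of_dvd_nat (Commute.orderOf_mul_dvd_mul_orderOf h)

theorem sq1 (hV : IsElementaryAbelian 2 V) {v : G} (hv : v ∈ V) : v * v = 1 := by
  rw [← pow_two]; exact (ea_iff.1 hV).2 v hv

theorem odd_mem (hV : IsElementaryAbelian 2 V) {B : Subgroup G} (hn : V ≤ normalizer (B : Set G))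
    {h : G} (hh : h ∈ V ⊔ B) (ho : Odd (orderOf h)) : h ∈ B := by
  obtain ⟨r, hr, b, hb, rfl⟩ := (mem_sup_of_le_normalizer hn).1 hh
  have h1 : (r * b) ^ 2 ∈ B := by
    have := mul_mem ((mem_normalizer_iff.1 (hn hr) b).1 hb) hb
    rwa [inv_eq_of_mul_eq_one_right (sq1 hV hr), mul_assoc, ← pow_two] at this
  exact zpowers_le.2 h1 (mem_zpowers_pow_iff.2 (Nat.coprime_two_left.2 ho))

theorem quot (hV : IsElementaryAbelian 2 V) (hS : IsSidkiPair V) (N : Subgroup G) [N.Normal]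
    (hN : V ⊓ N = ⊥) : IsSidkiPair (V.map (QuotientGroup.mk' N)) := by
  rintro h _ ⟨v, hv, rfl⟩ ho hi
  obtain ⟨y, rfl⟩ := QuotientGroup.mk'_surjective N h
  obtain ⟨a, m, hm, e⟩ := Nat.exists_eq_two_pow_mul_odd
    (orderOf_pos (y * (v * y⁻¹ * v⁻¹))).ne'
  have vv := inv_eq_of_mul_eq_one_right (sq1 hV hv)
  have h1 : v * (y * (v * y⁻¹ * v⁻¹)) * v⁻¹ = (y * (v * y⁻¹ * v⁻¹))⁻¹ := by
    simp only [mul_inv_rev, inv_inv, mul_assoc, vv, sq1 hV hv, mul_one]
  obtain ⟨w, hw, w1, h2⟩ := hS ((y * (v * y⁻¹ * v⁻¹)) ^ 2 ^ a) v hv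
    (hm.of_dvd_nat (orderOf_dvd_of_pow_eq_one (by rw [← pow_mul, ← e, pow_orderOf_eq_one])))
    (by rw [← conj_pow, h1, inv_pow])
  refine ⟨_, ⟨w, hw, rfl⟩, fun h => w1 (mem_bot.1 (hN ▸ (⟨hw, (QuotientGroup.eq_one_iff w).1 h⟩ :
    w ∈ V ⊓ N))), ?_⟩
  have h3 := congrArg (QuotientGroup.mk' N) h2
  have h4 : QuotientGroup.mk' N (y * (v * y⁻¹ * v⁻¹)) = QuotientGroup.mk' N y ^ 2 := by
    rw [map_mul, map_mul, map_mul, map_inv, map_inv, ← conj_inv, hi, inv_inv, pow_two]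
  rw [map_mul, map_mul, map_pow, h4, ← pow_mul, ← pow_succ'] at h3
  obtain ⟨k, hk⟩ := (mem_zpowers_pow_iff (g := QuotientGroup.mk' N y) (k := 2 ^ (a + 1))).2
    (Nat.Coprime.pow_left _ (Nat.coprime_two_left.2 ho))
  rw [← hk]
  exact Commute.zpow_right h3 k

end

theorem claim {G : Type u} [Group G] [Finite G] {R B : Subgroup G} (hR : IsElementaryAbelian 2 R)
    (hmin : ∀ (H : Type u) [Group H] [Finite H] (W : Subgroup H), Nat.card H < Nat.card G →
      IsElementaryAbelian 2 W → W ≠ ⊥ → IsSidkiPair W → W ⊓ pCore 2 H ≠ ⊥)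
    (hO : Op 2 (⊤ : Subgroup G) = ⊥) (h0 : R ≠ ⊥) (hn : R ≤ normalizer (B : Set G)) (hB : Sn B ⊤)
    (hc : ∀ x ∈ R, x ∈ centralizer (B : Set G) → x = 1) (ht : R ⊔ B ≠ ⊤) :
    ∃ r ∈ R, ∃ b ∈ B, Odd (orderOf b) ∧ r * b * r⁻¹ = b⁻¹ ∧ ∀ w ∈ R, w * b = b * w → w = 1 := by
  by_contra hcon
  refine hmin (R ⊔ B : Subgroup G) (R.subgroupOf _) (card_lt_of_ne_top ht) (ea_subgroupOf hR _)
    (fun h => h0 ?_) (fun h v hv ho hi => ?_) ?_
  · rwa [subgroupOf_eq_bot, disjoint_iff, inf_eq_left.2 le_sup_left] at h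
  · by_contra h2
    rw [← Subgroup.orderOf_coe] at ho
    refine hcon ⟨v, hv, h, odd_mem hR hn h.2 ho, ho, congrArg Subtype.val hi, fun w hw e => ?_⟩
    by_contra w1
    exact h2 ⟨⟨w, mem_sup_left hw⟩, hw, fun e => w1 (congrArg Subtype.val e), Subtype.ext e⟩
  · rw [eq_bot_iff]
    rintro w ⟨h1, h2⟩
    have n1 : R ⊔ B ≤ normalizer (B : Set G) := sup_le hn le_normalizer
    have n2 : R ⊔ B ≤ normalizer (Op 2 (R ⊔ B) : Set G) := le_normalizer_Op le_normalizer
    have h3 : Op 2 (R ⊔ B) ⊓ B ≤ ⊥ := hO ▸ le_Op ((Sn.of_normal inf_le_right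
      (le_normalizer_inf (le_sup_right.trans n2) le_normalizer)).trans hB)
      ((Op_isPGroup 2 _).to_le inf_le_left)
    have h4 : ⁅Op 2 (R ⊔ B), B⁆ = ⊥ := le_bot_iff.1 (le_trans (le_inf
      (commutator_le_left_of (le_sup_right.trans n2))
      (commutator_le_right_of ((Op_le 2 _).trans n1))) h3)
    exact mem_bot.2 (Subtype.ext (hc w h1 (comm_bot_iff.1 h4 ⟨w, h2, rfl⟩)))

theorem two {G : Type u} [Group G] [Finite G] {V B : Subgroup G} (hV : IsElementaryAbelian 2 V)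
    (hS : IsSidkiPair V)
    (hmin : ∀ (H : Type u) [Group H] [Finite H] (W : Subgroup H), Nat.card H < Nat.card G →
      IsElementaryAbelian 2 W → W ≠ ⊥ → IsSidkiPair W → W ⊓ pCore 2 H ≠ ⊥)
    (hO : Op 2 (⊤ : Subgroup G) = ⊥) (hn : V ≤ normalizer (B : Set G)) (hB : Sn B ⊤)
    (ht : V ⊔ B ≠ ⊤) {a y : G} (ha : Odd (orderOf a)) (hy : y ∈ V) (hi : y * a * y⁻¹ = a⁻¹)
    (hyB : y ∈ centralizer (B : Set G)) (haB : a ∈ centralizer (B : Set G))
    (h1 : ∀ x ∈ V, x * a = a * x → x ∈ centralizer (B : Set G) → x = 1) : False := by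
  obtain ⟨w0, hw0, w01, e0⟩ := hS a y hy ha hi
  obtain ⟨r, ⟨hr, hra⟩, b, hb, ob, ib, hf⟩ := claim (R := V ⊓ centralizer ({a} : Set G)) (B := B)
    (ea_of_le hV inf_le_left) hmin hO (fun h => w01 (mem_bot.1 (h ▸
      (⟨hw0, mem_centralizer_singleton_iff.2 e0⟩ : w0 ∈ V ⊓ centralizer ({a} : Set G)))))
    (inf_le_left.trans hn) hB (fun x hx => h1 x hx.1 (mem_centralizer_singleton_iff.1 hx.2))
    (fun h => ht (top_le_iff.1 (h.ge.trans (sup_le_sup_right inf_le_left _))))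
  have hra' : r * a = a * r := mem_centralizer_singleton_iff.1 hra
  have ab : b * a = a * b := mem_centralizer_iff.1 haB b hb
  have yb : y * b * y⁻¹ = b := mul_inv_eq_iff_eq_mul.2 (mem_centralizer_iff.1 hyB b hb).symm
  obtain ⟨w, hw, w1, e⟩ := hS (a * b) (r * y) (mul_mem hr hy) (odd_mul' ab.symm ha ob) (by
    have h2 : r * a⁻¹ * r⁻¹ = a⁻¹ := by
      rw [← conj_inv, hra', mul_inv_cancel_right]
    calc r * y * (a * b) * (r * y)⁻¹ = r * (y * a * y⁻¹) * r⁻¹ * (r * (y * b * y⁻¹) * r⁻¹) := by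
          group
      _ = (a * b)⁻¹ := by rw [hi, yb, h2, ib, ← ab, mul_inv_rev])
  obtain ⟨z, hz⟩ : ∃ z, z = b * (w * b * w⁻¹)⁻¹ := ⟨_, rfl⟩
  have zB : z ∈ B := hz ▸ mul_mem hb (inv_mem ((mem_normalizer_iff.1 (hn hw) b).1 hb))
  have h2 : w * a * w⁻¹ = a * z := by
    rw [hz, ← mul_assoc a, eq_mul_inv_iff_mul_eq, conj_mul, e, mul_inv_cancel_right]
  have za : z * a = a * z := mem_centralizer_iff.1 haB z zB
  have yz : y * z * y⁻¹ = z := mul_inv_eq_iff_eq_mul.2 (mem_centralizer_iff.1 hyB z zB).symm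
  have h3 : z = 1 := by
    refine eq_one_of ha ?_ ?_
    · have := congrArg (· ^ orderOf a) h2
      rwa [conj_pow, Commute.mul_pow za.symm, pow_orderOf_eq_one, mul_one, mul_inv_cancel, one_mul,
        eq_comm] at this
    · have h4 : y * (w * a * w⁻¹) * y⁻¹ = w * (y * a * y⁻¹) * w⁻¹ := by
        have := ea_mul_comm hV hy hw
        calc y * (w * a * w⁻¹) * y⁻¹ = y * w * a * (y * w)⁻¹ := by group
          _ = _ := by rw [this]; group
      rw [h2, ← conj_mul, hi, yz, ← conj_inv, h2, ← za, mul_inv_rev, mul_right_inj] at h4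
      exact mul_eq_one_iff_eq_inv.2 h4
  rw [h3, mul_one, mul_inv_eq_iff_eq_mul] at h2
  refine w1 (hf w ⟨hw, mem_centralizer_singleton_iff.2 h2⟩ ?_)
  apply mul_left_cancel (a := a)
  rw [← mul_assoc, ← h2, mul_assoc, e, mul_assoc]

theorem ex_odd {G : Type*} [Group G] [Finite G] {K : Subgroup G} (h : QS K) :
    ∃ a ∈ K, a ≠ 1 ∧ Odd (orderOf a) := by
  haveI : Fact (Nat.Prime 2) := ⟨Nat.prime_two⟩
  by_contra hcon
  have : IsPGroup 2 K := fun x => by
    obtain ⟨a, m, hm, e⟩ := Nat.exists_eq_two_pow_mul_odd (orderOf_pos (x : G)).ne'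
    refine ⟨a, Subtype.ext ?_⟩
    by_contra h1
    exact hcon ⟨_, pow_mem x.2 (2 ^ a), h1, hm.of_dvd_nat (orderOf_dvd_of_pow_eq_one (by
      rw [← pow_mul, ← e, pow_orderOf_eq_one]))⟩
  haveI := this.isNilpotent
  exact h.not_solvable inferInstance

end

/-- Minimal counterexample reduction for the Sidki pair problem. Let G be a finite group and V a nontrivial elementary abelian 2-subgroup satisfying the Sidki pair condition with V ∩ O₂(G) = 1. Suppose that for every finite group H of smaller order, every nontrivial elementary abelian 2-subgroup W of H satisfying the Sidki pair condition meets O₂(H) nontrivially, and that the same holds in G for every such subgroup W of order smaller than that of V. Then the generalized Fitting subgroup F*(G) is a non-abelian simple group and G = V F*(G). -/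
theorem result {G : Type u} [Group G] [Finite G] (V : Subgroup G) (hV : Cfsg.IsElementaryAbelian 2 V) (hV1 : V ≠ ⊥) (hS : Cfsg.IsSidkiPair V) (hVO : V ⊓ Cfsg.pCore 2 G = ⊥) (hminG : ∀ (H : Type u) [Group H] [Finite H] (W : Subgroup H), Nat.card H < Nat.card G → Cfsg.IsElementaryAbelian 2 W → W ≠ ⊥ → Cfsg.IsSidkiPair W → W ⊓ Cfsg.pCore 2 H ≠ ⊥) (hminV : ∀ W : Subgroup G, Nat.card W < Nat.card V → Cfsg.IsElementaryAbelian 2 W → W ≠ ⊥ → Cfsg.IsSidkiPair W → W ⊓ Cfsg.pCore 2 G ≠ ⊥) : IsSimpleGroup ↥(Cfsg.generalizedFittingSubgroup G) ∧ ¬ IsMulCommutative ↥(Cfsg.generalizedFittingSubgroup G) ∧ V ⊔ Cfsg.generalizedFittingSubgroup G = ⊤ := by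
  open Subgroup CfsgH9 in
  haveI : Fact (Nat.Prime 2) := ⟨Nat.prime_two⟩
  have nt : ∀ X : Subgroup G, X ≤ normalizer ((⊤ : Subgroup G) : Set G) := fun X =>
    le_top.trans le_normalizer
  have hQ : ∀ (N : Subgroup G) [N.Normal], N ≠ ⊥ → V ⊓ N = ⊥ →
      ∃ v ∈ V, v ≠ 1 ∧ QuotientGroup.mk' N v ∈ pCore 2 (G ⧸ N) := fun N _ h0 h => by
    obtain ⟨_, ⟨⟨v, hv, rfl⟩, h1⟩, h2⟩ := exists_ne_one_of_ne_bot (hminG (G ⧸ N)
      (V.map (QuotientGroup.mk' N)) (card_quotient_lt h0) (ea_map _ hV)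
      (fun e => hV1 (by rwa [inf_eq_left.2 (map_mk_eq_bot_iff.1 e)] at h)) (quot hV hS N h))
    exact ⟨v, hv, fun e => h2 (by rw [e, map_one]), h1⟩
  have hO : Op 2 (⊤ : Subgroup G) = ⊥ := by
    rw [Op_top]
    by_contra h
    obtain ⟨v, hv, v1, h1⟩ := hQ _ h hVO
    rw [pCore_quotient_pCore, mem_bot] at h1
    exact v1 (mem_bot.1 (hVO ▸ (⟨hv, (QuotientGroup.eq_one_iff v).1 h1⟩ : v ∈ V ⊓ pCore 2 G)))
  have hFo : ∀ x ∈ Fit (⊤ : Subgroup G), Odd (orderOf x) := fun x hx => by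
    have := Fit_le_Op_sup_Opp 2 ⊤ hx
    rw [hO, bot_sup_eq] at this
    exact Nat.coprime_two_right.1 ((Opp_coprime 2 ⊤).coprime_dvd_left (orderOf_dvd_natCard _ this))
  have hVF : ∀ x ∈ V, x ∈ Fit (⊤ : Subgroup G) → x = 1 := fun x hx h =>
    eq_one_of (hFo x h) (pow_orderOf_eq_one x) (sq1 hV hx)
  have hVC : ∀ x ∈ V, x ∈ centralizer (Fs (⊤ : Subgroup G) : Set G) → x = 1 := fun x hx h =>
    hVF x hx (centralizer_Fs_le_Fit ⊤ ⟨mem_top x, h⟩)
  have nos : ∀ B : Subgroup G, V ≤ normalizer (B : Set G) → Sn B ⊤ →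
      (∀ x ∈ V, x ∈ centralizer (B : Set G) → x = 1) → V ⊔ B = ⊤ := fun B h1 h2 h3 => by
    by_contra h
    obtain ⟨r, hr, b, -, ob, ib, hf⟩ := claim hV hminG hO hV1 h1 h2 h3 h
    obtain ⟨w, hw, w1, e⟩ := hS b r hr ob ib
    exact w1 (hf w hw e)
  have nF : ∀ X : Subgroup G, X ≤ normalizer (Fs (⊤ : Subgroup G) : Set G) := fun X =>
    le_normalizer_Fs (nt X)
  have hG := nos _ (nF V) (sn_Fs ⊤) hVC
  have hF : Fit (⊤ : Subgroup G) = ⊥ := by
    by_contra hF
    obtain ⟨p, pp, hp⟩ := exists_Op_ne_bot_of_Fit hF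
    haveI := Fact.mk pp
    have z0 : Fit (⊤ : Subgroup G) ⊓ centralizer (Fs (⊤ : Subgroup G) : Set G) ≠ ⊥ := fun h =>
      exists_mem_center_of_normal (Op_isPGroup p ⊤) le_rfl le_normalizer hp (le_bot_iff.1 (h ▸
        le_inf (inf_le_left.trans (Op_le_Fit p ⊤)) (comm_bot_iff.1 (by
          rw [Fs_eq]
          exact comm_bot_sup_right (comm_bot_mono (comm_bot_symm (Lay_comm_Op p ⊤)) inf_le_left le_rfl)
            (comm_bot_mono (comm_bot_sup_right (comm_bot_iff.2 inf_le_right)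
              (comm_bot_mono (Op_commutator_Opp ⊤) inf_le_left le_rfl)) le_rfl
              (Fit_le_Op_sup_Opp p ⊤))))))
    obtain ⟨N, hN, ⟨N0, Nn⟩, hmin⟩ := exists_min_subgroup (P := fun K => K ≠ ⊥ ∧ K.Normal)
      ⟨z0, normal_of_top_le (le_normalizer_inf (le_normalizer_Fit (nt _))
        (le_normalizer_centralizer (nF _)))⟩
    have NF : N ≤ Fit ⊤ := hN.trans inf_le_left
    have NC : N ≤ centralizer (Fs (⊤ : Subgroup G) : Set G) := hN.trans inf_le_right
    have dich : ∀ x ∈ V, N ⊓ centralizer ({x} : Set G) = ⊥ ∨ N ≤ centralizer ({x} : Set G) :=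
      fun x hx => by
        by_cases h : N ⊓ centralizer ({x} : Set G) = ⊥
        · exact Or.inl h
        refine Or.inr (inf_eq_left.1 (hmin _ inf_le_left ⟨h, normal_of_top_le (hG.ge.trans
          (sup_le (le_normalizer_inf le_normalizer_of_normal ?_) ?_))⟩))
        · rw [← centralizer_zpowers]
          exact le_normalizer_centralizer (ea_le_normalizer hV (zpowers_le.2 hx))
        · exact (le_centralizer_iff.1 (inf_le_left.trans NC)).trans (centralizer_le_normalizer _)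
    obtain ⟨v, hv, v1, h1⟩ := hQ N N0 (eq_bot_iff.2 fun x hx => mem_bot.2 (hVF x hx.1 (NF hx.2)))
    have hM : ∀ x ∈ Fs (⊤ : Subgroup G), x⁻¹ * (v * x * v⁻¹) ∈ N := by
      let M := (pCore 2 (G ⧸ N)).comap (QuotientGroup.mk' N) ⊓ Fs (⊤ : Subgroup G)
      let f : M →* pCore 2 (G ⧸ N) :=
        ((QuotientGroup.mk' N).comp M.subtype).codRestrict _ fun x => x.2.1
      haveI := (pCore_isPGroup (G := G ⧸ N) 2).isNilpotent
      have h2 : Group.IsNilpotent M := Subgroup.isNilpotent_of_ker_le_center f (fun x hx =>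
        mem_center_iff.2 fun g => Subtype.ext (mem_centralizer_iff.1
          (NC ((QuotientGroup.eq_one_iff _).1 (congrArg Subtype.val hx))) g g.2.2))
      have h3 : M ≤ Fit ⊤ := le_Fit (Sn.of_normal le_top
        (le_normalizer_inf le_normalizer_of_normal (nF _))) h2
      intro x hx
      have h4 : x⁻¹ * (v * x * v⁻¹) ∈ M := ⟨by
        have := mul_mem (Normal.conj_mem inferInstance v (show v ∈ (pCore 2 (G ⧸ N)).comap
          (QuotientGroup.mk' N) from h1) x⁻¹) (inv_mem (show v ∈ (pCore 2 (G ⧸ N)).comap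
          (QuotientGroup.mk' N) from h1))
        rw [inv_inv, mul_assoc, mul_assoc, ← mul_assoc v] at this
        exact this,
        (Fs ⊤).mul_mem ((Fs ⊤).inv_mem hx) ((mem_normalizer_iff.1 (nF _ (mem_top v)) x).1 hx)⟩
      obtain ⟨k, hk⟩ := exists_orderOf_of_mem (pCore_isPGroup 2) h4.1
      have h5 := (Nat.coprime_two_left.2 (hFo _ (h3 h4))).pow_left k
      rw [← hk] at h5
      exact (QuotientGroup.eq_one_iff _).1 (orderOf_eq_one_iff.1
        (h5.eq_one_of_dvd (orderOf_map_dvd _ _)))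
    have vv := sq1 hV hv
    have vi := inv_eq_of_mul_eq_one_right vv
    have hfp : N ⊓ centralizer ({v} : Set G) = ⊥ := (dich v hv).resolve_right fun h =>
      v1 (hVC v hv (mem_centralizer_iff.2 fun x hx => by
        have h2 := mem_centralizer_singleton_iff.1 (h (hM x hx))
        have h3 := eq_one_of (hFo _ (NF (hM x hx))) (pow_orderOf_eq_one _) (by
          have h4 : x⁻¹ * (v * x * v⁻¹) = v * (x⁻¹ * (v * x * v⁻¹)) * v⁻¹ := by
            rw [← h2, mul_inv_cancel_right]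
          nth_rewrite 1 [h4]
          have e1 : ∀ y, v * (v * y) = y := fun y => by rw [← mul_assoc, vv, one_mul]
          simp only [vi, mul_assoc, vv, mul_one, mul_inv_cancel_left, inv_mul_cancel_left, e1])
        rw [inv_mul_eq_one, eq_mul_inv_iff_mul_eq] at h3
        exact h3))
    have hinv : ∀ n ∈ N, v * n * v⁻¹ = n⁻¹ := fun n hn =>
      inverts_of_fpf vv (le_normalizer_of_normal (mem_top v)) hfp hn
    have NB : N ≤ centralizer ((Fs ⊤ ⊓ centralizer ({v} : Set G) : Subgroup G) : Set G) :=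
      NC.trans (centralizer_anti inf_le_left)
    have hB : Fs ⊤ ≤ Fs ⊤ ⊓ centralizer ({v} : Set G) ⊔ N := fun x hx => by
      obtain ⟨k, hk⟩ := hFo _ (NF (hM x hx))
      obtain ⟨n, hn⟩ : ∃ n, n = x⁻¹ * (v * x * v⁻¹) := ⟨_, rfl⟩
      have nN : n ∈ N := hn ▸ hM x hx
      rw [← hn] at hk
      have h2 : n ^ (k + 1) * n ^ (k + 1) = n := by
        rw [← pow_add, show k + 1 + (k + 1) = 2 * k + 1 + 1 by ring, ← hk, pow_succ,
          pow_orderOf_eq_one, one_mul]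
      have h3 : x * n ^ (k + 1) ∈ Fs ⊤ ⊓ centralizer ({v} : Set G) :=
        ⟨mul_mem hx (Fit_le_Fs ⊤ (NF (pow_mem nN _))), mem_centralizer_singleton_iff.2 (by
          rw [eq_comm, ← mul_inv_eq_iff_eq_mul, ← conj_mul, hinv _ (pow_mem nN _),
            ← mul_inv_cancel_left x (v * x * v⁻¹), ← hn, mul_assoc, mul_right_inj,
            mul_inv_eq_iff_eq_mul, h2])⟩
      have := mul_mem_sup h3 (inv_mem (pow_mem nN (k + 1)))
      rwa [mul_inv_cancel_right] at this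
    obtain ⟨n, hn, n1⟩ := exists_ne_one_of_ne_bot N0
    have VB : V ≤ normalizer ((Fs ⊤ ⊓ centralizer ({v} : Set G) : Subgroup G) : Set G) := by
      refine le_normalizer_inf (nF _) ?_
      rw [← centralizer_zpowers]
      exact le_normalizer_centralizer (ea_le_normalizer hV (zpowers_le.2 hv))
    refine two hV hS hminG hO VB ((Sn.of_normal inf_le_left (hB.trans (sup_le le_normalizer
      (NB.trans (centralizer_le_normalizer _))))).trans (sn_Fs ⊤)) (fun h => n1 ?_)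
      (hFo n (NF hn)) hv (hinv n hn) (mem_centralizer_iff_le.2 inf_le_right) (NB hn)
      fun x hx e hc => hVC x hx (centralizer_anti hB ?_)
    · exact mem_bot.1 (hfp ▸ (⟨hn, (odd_mem hV VB (h.ge (mem_top n)) (hFo n (NF hn))).2⟩ :
        n ∈ N ⊓ centralizer ({v} : Set G)))
    · rw [CfsgH9.centralizer_sup]
      refine ⟨hc, mem_centralizer_iff_le.2 ((dich x hx).resolve_left fun h => n1 (mem_bot.1 (h ▸
        (⟨hn, mem_centralizer_singleton_iff.2 e.symm⟩ : n ∈ N ⊓ centralizer ({x} : Set G)))))⟩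
  have hE : Fs (⊤ : Subgroup G) = Lay ⊤ := by rw [Fs_eq, hF, sup_bot_eq]
  rw [← Fs_top]
  suffices h : ∃ K, Comp K (⊤ : Subgroup G) ∧ Lay ⊤ = K by
    obtain ⟨K, hK, e⟩ := h
    refine ⟨?_, ?_, hG⟩ <;> rw [hE, e]
    · exact hK.qs.isSimpleGroup (le_bot_iff.1 ((center_le_Fit hK.sn).trans hF.le))
    · exact hK.qs.not_isMulCommutative
  rw [hE] at hG hVC nF
  have hZ : ∀ K, Comp K (⊤ : Subgroup G) → ∀ a ∈ K, a ∈ centralizer (K : Set G) → a = 1 :=
    fun K hK a h1 h2 => mem_bot.1 (hF ▸ center_le_Fit hK.sn ⟨h1, h2⟩)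
  obtain ⟨K, hK⟩ := exists_comp_of_Lay_ne_bot (H := (⊤ : Subgroup G)) fun h => hV1 (eq_bot_iff.2
    fun x hx => mem_bot.2 (hVC x hx (by rw [h]; simp [mem_centralizer_iff])))
  have sA := hK.sn_ncl (nt V)
  have nA := le_normalizer_ncl V K
  obtain ⟨a, ha, a1, oa⟩ := ex_odd hK.qs
  have hall : ∀ L, Comp L (⊤ : Subgroup G) → L ≤ ncl V K := fun L hL => by
    by_contra hLA
    have VB : V ≤ normalizer ((Lay ⊤ ⊓ centralizer (ncl V K : Set G) : Subgroup G) : Set G) :=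
      le_normalizer_inf (nF _) (le_normalizer_centralizer nA)
    have sB : Sn (Lay ⊤ ⊓ centralizer (ncl V K : Set G)) ⊤ :=
      (sn_inf_centralizer (hK.Lay_le_normalizer_ncl (nt V))).trans (sn_Lay ⊤)
    have tB : V ⊔ (Lay ⊤ ⊓ centralizer (ncl V K : Set G)) ≠ ⊤ := fun h =>
      a1 (hZ K hK a ha (centralizer_anti (le_ncl V K) (odd_mem hV VB (h.ge (mem_top a)) oa).2))
    have hAB : Lay ⊤ ≤ ncl V K ⊔ (Lay ⊤ ⊓ centralizer (ncl V K : Set G)) :=
      Lay_le_iff.2 fun J hJ => (hJ.le_or_comm sA).elim (fun h => h.trans le_sup_left)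
        fun h => (le_inf hJ.le_Lay (comm_bot_iff.1 h)).trans le_sup_right
    obtain ⟨c, hc, c1, oc⟩ := ex_odd hL.qs
    obtain ⟨y, hy, b, hb, ob, ib, hf⟩ := claim (R := V ⊓ centralizer
      ((Lay ⊤ ⊓ centralizer (ncl V K : Set G) : Subgroup G) : Set G)) (B := ncl V K)
      (ea_of_le hV inf_le_left) hminG hO (fun h => tB (nos _ VB sB fun x h1 h2 =>
        mem_bot.1 (h.le ⟨h1, h2⟩))) (inf_le_left.trans nA) sA
      (fun x hx h => hVC x hx.1 (centralizer_anti hAB (by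
        rw [CfsgH9.centralizer_sup]; exact ⟨h, hx.2⟩)))
      (fun h => c1 (hZ L hL c hc (comm_bot_iff'.1 ((hL.le_or_comm sA).resolve_left hLA)
        (odd_mem hV nA ((h.ge.trans (sup_le_sup_right inf_le_left _)) (mem_top c)) oc))))
    exact two hV hS hminG hO VB sB tB ob hy.1 ib hy.2 (le_centralizer_iff.1 inf_le_right hb)
      fun x hx e h => hf x ⟨hx, h⟩ e
  by_cases hn : V ≤ normalizer (K : Set G)
  · exact ⟨K, hK, le_antisymm (Lay_le_iff.2 fun L hL => (hall L hL).trans (ncl_le le_rfl hn))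
      hK.le_Lay⟩
  exfalso
  obtain ⟨v, hv, vn⟩ := SetLike.not_le_iff_exists.1 hn
  have out : ∀ w : G, w ∉ normalizer (K : Set G) → ∀ b ∈ K,
      w * b * w⁻¹ ∈ centralizer (K : Set G) := fun w hw b hb =>
    comm_bot_iff.1 ((hK.cj_eq_or_comm (nt _ (mem_top w))).resolve_left fun e => hw (cj_eq_iff.1 e))
      (conj_mem_cj w hb)
  by_cases h0 : V ⊓ normalizer (K : Set G) = ⊥
  · have vv := sq1 hV hv
    have vi := inv_eq_of_mul_eq_one_right vv
    have c1 := out v vn _ (inv_mem ha)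
    have cm : a * (v * a⁻¹ * v⁻¹) = v * a⁻¹ * v⁻¹ * a := mem_centralizer_iff.1 c1 a ha
    have oh := odd_mul' cm oa (by
      rw [show orderOf (v * a⁻¹ * v⁻¹) = orderOf a⁻¹ from (MulAut.conj v).orderOf_eq _,
        orderOf_inv]; exact oa)
    have hi : v * (a * (v * a⁻¹ * v⁻¹)) * v⁻¹ = (a * (v * a⁻¹ * v⁻¹))⁻¹ := by
      simp only [mul_inv_rev, inv_inv, mul_assoc, vi, vv, mul_one]
    obtain ⟨w, hw, w1, e⟩ := hS _ v hv oh hi
    refine a1 (hZ K hK a ha ((mul_mem_cancel_right c1).1 ?_))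
    by_cases hwv : w = v
    · rw [hwv] at e
      rw [e, mul_inv_cancel_right] at hi
      rw [eq_one_of oh (pow_orderOf_eq_one _) (mul_eq_one_iff_eq_inv.2 hi)]
      exact one_mem _
    · have h1 := mul_mem (out w (fun h => w1 (mem_bot.1 (h0.le ⟨hw, h⟩))) a ha)
        (out (w * v) (fun h => hwv (by
          have := mem_bot.1 (h0.le ⟨mul_mem hw hv, h⟩)
          rwa [mul_eq_one_iff_eq_inv, vi] at this)) _ (inv_mem ha))
      rw [← mul_inv_eq_iff_eq_mul.2 e]
      convert h1 using 1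
      group
  · obtain ⟨u, hu, b, hb, ob, ib, hf⟩ := claim (R := V ⊓ normalizer (K : Set G)) (B := K)
      (ea_of_le hV inf_le_left) hminG hO h0 inf_le_right hK.sn
      (fun x hx h => hVC x hx.1 (centralizer_anti (Lay_le_iff.2 hall) (mem_centralizer_iff_le.2
        (ncl_le (mem_centralizer_iff_le.1 h) (by
          rw [← centralizer_zpowers]
          exact le_normalizer_centralizer (ea_le_normalizer hV (zpowers_le.2 hx.1)))))))
      (fun h => vn (sup_le inf_le_right le_normalizer (h.ge (mem_top v))))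
    obtain ⟨w, hw, w1, e⟩ := hS b u hu.1 ob ib
    have h1 := out w (fun h => w1 (hf w ⟨hw, h⟩ e)) b hb
    rw [e, mul_inv_cancel_right] at h1
    exact h0 (eq_bot_iff.2 fun x hx => mem_bot.2 (hf x hx (by rw [hZ K hK b hb h1]; simp)))

end Cfsg.Agent.S3048
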