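import Cfsg.Statements.S3049
import Mathlib
import Cfsg.Agent.H9.Comp2
import Cfsg.Agent.H9.Resid
import Cfsg.Agent.L0.ZJ
import Cfsg.Agent.L0.IsoP
import Cfsg.Agent.H2.Frob

set_option autoImplicit false
open Cfsg

namespace Cfsg.Agent.S3049

/-- Let G be a finite group and p an odd prime with O_{p'}(G) = 1. Suppose that G has p-rank at most 2 (no elementary abelian subgroup of order p³) and that some element x of order p is isolated in G (no G-conjugate of x other than x commutes with x) and not central. Then the generalized Fitting subgroup F*(G) is a non-abelian simple group. Since O_{p'}(G) = 1, such an x is not central modulo O_{p'}(G): the hypotheses describe a counterexample to the Z*_p statement in p-rank at most 2. -/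
theorem result {G : Type*} [Group G] [Finite G] {p : ℕ} [Fact p.Prime] (hp : p ≠ 2) (hcore : Cfsg.pPrimeCore p G = ⊥)
    (hrank : Cfsg.PRankLE p 2 G) (x : G) (hx : orderOf x = p) (hiso : Cfsg.IsIsolated x) (hnc : x ∉ Subgroup.center G) :
    IsSimpleGroup ↥(Cfsg.generalizedFittingSubgroup G) ∧ ¬ IsMulCommutative ↥(Cfsg.generalizedFittingSubgroup G) := by
  open Subgroup Cfsg CfsgH2 Function in
  open scoped commutatorElement in
  have pp : p.Prime := Fact.out
  have xp : x ^ p = 1 := hx ▸ pow_orderOf_eq_one x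
  obtain ⟨T, sT, hT⟩ := exists_syl_ge (M := ⊤) (p := p)
    (isPGroup_of_exp (elem_zpowers xp).2) le_top
  have xT : x ∈ T := hT (mem_zpowers x)
  have Tx : T ≤ C1[x] := CfsgL0.iso_le_cent hiso sT.pg xT
  have o1 : CfsgH9.Opp p (⊤ : Subgroup G) = ⊥ := (CfsgH9.Opp_top p).trans hcore
  have pF : PG[p, CfsgH9.Fit (⊤ : Subgroup G)] := by
    rw [CfsgH9.Fit_eq_Op_of_Opp_eq_bot o1]; exact CfsgH9.Op_isPGroup p ⊤
  have nF : (⊤ : Subgroup G) ≤ N[CfsgH9.Fit (⊤ : Subgroup G)] :=
    CfsgH9.le_normalizer_Fit le_normalizer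
  have FT : CfsgH9.Fit (⊤ : Subgroup G) ≤ T := sT.le_of_norm pF le_top (le_top.trans nF)
  have syl : ∀ K, CfsgH9.Comp K (⊤ : Subgroup G) → Syl p (T ⊓ K) K := fun K hK => by
    have h1 := sT.inf_norm (K := CfsgH9.Lay ⊤) le_top
      (le_top.trans (CfsgH9.le_normalizer_Lay le_normalizer))
    have h2 := h1.inf_norm hK.le_Lay (inf_le_right.trans hK.Lay_le_normalizer)
    rwa [inf_assoc, inf_eq_right.2 hK.le_Lay] at h2
  have nn : ∀ K, CfsgH9.Comp K (⊤ : Subgroup G) → ¬ NPC p K := fun K hK h => by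
    have h1 : O[{p}ᶜ, K] = ⊥ := by
      have h2 : (Nat.card O[{p}ᶜ, K]).Coprime p := (piN_compl_singleton' pp).1 piN_piCoreOf
      exact le_bot_iff.1 ((CfsgH9.le_Opp ((CfsgH9.Sn.of_normal piCoreOf_le
        le_norm_piCoreOf).trans hK.sn) h2).trans o1.le)
    have h3 := h.sup_eq (syl K hK)
    rw [h1, bot_sup_eq] at h3
    have := nil_of_pg (h3 ▸ (syl K hK).pg)
    exact hK.qs.not_solvable inferInstance
  obtain ⟨K, hK, xK⟩ : ∃ K, CfsgH9.Comp K (⊤ : Subgroup G) ∧ x ∉ C[K] := by
    by_contra! h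
    have h1 : ⁅zpowers x, CfsgH9.Fs (⊤ : Subgroup G)⁆ = ⊥ := by
      rw [CfsgH9.Fs_eq]
      refine CfsgH9.comm_bot_sup_right (CfsgH9.comm_bot_symm (CfsgH9.comm_Lay_iff.2 fun K hK =>
        CfsgH9.comm_bot_iff'.2 (zpowers_le.2 (h K hK)))) (CfsgH9.comm_bot_iff'.2 ?_)
      rw [CfsgH9.centralizer_zpowers]
      exact FT.trans Tx
    have h2 := CfsgH9.le_Fit_of_comm_Fs' le_top h1 (mem_zpowers x)
    exact hnc (mem_center_iff.2 fun g => mem_centralizer_singleton_iff.1
      (CfsgL0.iso_norm_le hiso pF h2 (nF (mem_top g))))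
  have key : ∀ z ∈ T, orderOf z = p → z ∉ C[K] := by
    intro z zT oz zK
    have zp : z ^ p = 1 := oz ▸ pow_orderOf_eq_one z
    have Kz : K ≤ C1[z] := fun k hk => mem_centralizer_singleton_iff.2 (zK k hk)
    have xz : x ∉ zpowers z := fun h => xK (zpowers_le.2 zK h)
    refine nn K hK ((syl K hK).frobenius_npc fun Q hQ _ g gK gQ og => ?_)
    have pQ : PG[p, Q] := (syl K hK).pg.to_le hQ
    refine CfsgL0.piRes_le_cent_of_omega (D := zpowers g) hp pQ (zpowers_le.2 gQ)
      (piRes_le.trans (zpowers_le.2 ?_))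
      (mem_piRes (mem_zpowers g) ((piN_compl_singleton' pp).2 og))
    suffices h : omegaOne p Q ≤ C1[g] from fun u hu => mem_centralizer_singleton_iff.1 (h hu)
    refine omegaOne_le_of fun u uQ up => ?_
    have zg : zpowers z ≤ C1[g] := zpowers_le.2
      (mem_centralizer_singleton_iff.2 (mem_centralizer_singleton_iff.1 (Kz gK)).symm)
    by_cases uz : u ∈ zpowers z
    · exact zg uz
    have e1 : IsElementaryAbelian p (zpowers u ⊔ zpowers z : Subgroup G) :=
      elem_sup (elem_zpowers up) (elem_zpowers zp) (by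
        rw [CfsgH9.centralizer_zpowers]; exact zpowers_le.2 (Kz (hQ uQ).2))
    have e2 : IsElementaryAbelian p ((zpowers u ⊔ zpowers z) ⊔ zpowers x : Subgroup G) :=
      elem_sup e1 (elem_zpowers xp) (by
        rw [CfsgH9.centralizer_zpowers]
        exact (sup_le (zpowers_le.2 (hQ uQ).1) (zpowers_le.2 zT)).trans Tx)
    set E := (zpowers u ⊔ zpowers z) ⊔ zpowers x
    have full : ∀ a ∈ E, a ∉ zpowers z → zpowers a ⊔ zpowers z = E := fun a ha az => by
      have l : zpowers a ⊔ zpowers z ≤ E :=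
        sup_le (zpowers_le.2 ha) (le_sup_right.trans le_sup_left)
      refine eq_of_le_of_card_ge l ((hrank E e2.1 e2.2).trans ?_)
      obtain ⟨k, hk⟩ := ((isPGroup_of_exp e2.2).to_le l).exists_card_eq
      have lt := card_lt_of_lt (lt_of_le_of_ne (le_sup_right : zpowers z ≤ zpowers a ⊔ zpowers z)
        fun e => az (e.ge (mem_sup_left (mem_zpowers a))))
      rw [Nat.card_zpowers, oz, hk] at lt
      rw [hk]
      refine Nat.pow_le_pow_right pp.pos ?_
      by_contra! h
      interval_cases k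
      · exact absurd pp.one_lt (by simpa using lt.le)
      · simp at lt
    have uE : u ∈ E := mem_sup_left (mem_sup_left (mem_zpowers u))
    have xE : x ∈ E := mem_sup_right (mem_zpowers x)
    have xR : x ∈ Q ⊔ zpowers z :=
      sup_le_sup_right (zpowers_le.2 uQ) _ ((full u uE uz).ge xE)
    have gx := CfsgL0.iso_norm_le hiso (sT.pg.to_le (sup_le (hQ.trans inf_le_left)
      (zpowers_le.2 zT))) xR (mem_norm_sup gQ (cent_le_norm _ (by
        rw [CfsgH9.centralizer_zpowers]; exact Kz gK)))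
    exact sup_le (zpowers_le.2 (mem_centralizer_singleton_iff.2
      (mem_centralizer_singleton_iff.1 gx).symm)) zg ((full x xE xz).ge uE)
  have F0 : CfsgH9.Fit (⊤ : Subgroup G) = ⊥ := by
    by_contra h
    obtain ⟨z, hz, oz⟩ := CfsgH9.exists_orderOf_prime_of_ne_bot pF h
    exact key z (FT hz) oz (CfsgH9.comm_bot_iff'.1 hK.comm_Fit hz)
  have L0 : CfsgH9.Lay (⊤ : Subgroup G) = K := by
    refine le_antisymm (CfsgH9.Lay_le_iff.2 fun L hL => ?_) hK.le_Lay
    refine ((hL.eq_or_comm hK).resolve_right fun h => ?_).le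
    obtain ⟨z, hz, oz⟩ := CfsgH9.exists_orderOf_prime_of_ne_bot (syl L hL).pg
      ((syl L hL).ne_bot (by_contra fun d => nn L hL (NPC.of_not_dvd d)))
    exact key z hz.1 oz (CfsgH9.comm_bot_iff.1 h hz.2)
  rw [← CfsgH9.Fs_top, CfsgH9.Fs_eq, F0, L0, sup_bot_eq]
  exact ⟨hK.qs.isSimpleGroup (le_bot_iff.1 ((CfsgH9.center_le_Fit hK.sn).trans F0.le)),
    hK.qs.not_isMulCommutative⟩

end Cfsg.Agent.S3049
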