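import Cfsg.Statements.S3054
import Cfsg.Agent.H5.Dk3

set_option autoImplicit false
open Cfsg

namespace Cfsg.Agent.S3054

open Subgroup in
theorem exists_transv {A : Type*} [CommGroup A] [Finite A] {p : ℕ} [hp : Fact p.Prime] (hc : Nat.card A = p ^ 2)
    (ex : ∀ b : A, b ^ p = 1) (z a : A) (ha : a ≠ 1) (hz : z ∉ zpowers a) :
    ∃ φ : MulAut A, orderOf φ = p ∧ ∃ b ∈ zpowers a, b ≠ 1 ∧ φ z = z * b ∧ φ b = b := by
  have c1 : Nat.card (zpowers a) = p := by rw [Nat.card_zpowers, orderOf_eq_prime (ex a) ha]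
  have c2 : Nat.card (A ⧸ zpowers a) = p := by
    have := (zpowers a).card_mul_index
    rw [c1, hc, sq] at this
    exact Nat.eq_of_mul_eq_mul_left hp.out.pos this
  let e := mulEquivOfPrimeCardEq c2 c1
  let ψ : A →* A := (zpowers a).subtype.comp (e.toMonoidHom.comp (QuotientGroup.mk' _))
  have k : ∀ b, ψ b = 1 ↔ b ∈ zpowers a := fun b => by
    rw [← QuotientGroup.eq_one_iff, ← e.map_eq_one_iff]
    exact ⟨fun h => Subtype.ext h, fun h => congrArg Subtype.val h⟩
  have m : ∀ b, ψ b ∈ zpowers a := fun b => (e (QuotientGroup.mk' _ b)).2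
  have s : ∀ b, ψ (ψ b) = 1 := fun b => (k _).2 (m b)
  let φ : MulAut A :=
    { toFun := fun b => b * ψ b
      invFun := fun b => b * (ψ b)⁻¹
      left_inv := fun b => by simp [s]
      right_inv := fun b => by simp [s]
      map_mul' := fun b c => by rw [map_mul]; ac_rfl }
  have φa : ∀ b, φ b = b * ψ b := fun _ => rfl
  have it : ∀ n : ℕ, ∀ b, (φ ^ n) b = b * ψ b ^ n := fun n => by
    induction n with
    | zero => simp
    | succ n ih => intro b; rw [pow_succ, MulAut.mul_apply, ih, φa, map_mul, s, mul_one, pow_succ', mul_assoc]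
  have n1 : ψ z ≠ 1 := fun h => hz ((k z).1 h)
  refine ⟨φ, orderOf_eq_prime (MulEquiv.ext fun b => by rw [it, ex, mul_one]; rfl) fun h => n1 ?_, ψ z, m z, n1, rfl,
    by rw [φa, s, mul_one]⟩
  have := φa z
  rw [h] at this
  exact (mul_eq_left.1 this.symm)

/-- Let p be an odd prime and G a finite group with a Sylow p-subgroup P that is extraspecial of order p³ and exponent p. Suppose P contains three distinct subgroups A of order p² (each is elementary abelian of rank 2) such that every automorphism of A of order p is induced by conjugation by an element of G; equivalently the automorphism group induced on A by its normalizer contains the special linear group of A. Then p ≤ 13. -/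
theorem result {G : Type*} [Group G] [Finite G]
    {p : ℕ} [Fact p.Prime] (hp : p ≠ 2) (P : Sylow p G) (hE : Cfsg.IsExtraspecial p ↥P)
    (hcard : Nat.card P = p ^ 3) (hexp : Monoid.exponent ↥P = p)
    (A : Fin 3 → Subgroup G) (hA : Function.Injective A) (hAP : ∀ i, A i ≤ (P : Subgroup G))
    (hAcard : ∀ i, Nat.card ↥(A i) = p ^ 2)
    (hSL : ∀ i, ∀ φ : MulAut ↥(A i), orderOf φ = p → ∃ g : G, ∀ a : ↥(A i), (φ a : G) = g * (a : G) * g⁻¹) :
    p ≤ 13 := by
  open CfsgH5.Dk CfsgH2 Subgroup in open scoped commutatorElement IsMulCommutative in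
  · obtain ⟨x, y, h⟩ := exists_xs P hE hcard hexp
    have pp : p.Prime := Fact.out
    have hz := h.cz h.hx h.hy
    set Q : Subgroup G := ↑P
    have idx : ∀ i, (A i).relIndex Q = p := fun i => by
      have := card_mul_relIndex (hAP i)
      rw [hAcard, h.card, pow_succ p 2] at this
      exact Nat.eq_of_mul_eq_mul_left (pow_pos pp.pos 2) this
    have ab : ∀ i, IsMulCommutative (A i) := fun i => isMulComm_of_card_sq (hAcard i)
    have cA : ∀ i, ∀ u ∈ Q, u ∉ Z[Q] → A i ≤ C1[u] → Q ⊓ C1[u] = A i := fun i u hu h1 l =>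
      (eq_or_eq_of_relIndex_prime (idx i ▸ pp) (le_inf (hAP i) l) inf_le_left).resolve_right fun e =>
        h1 ⟨hu, mem_cent_iff.2 fun v hv => mem_centralizer_singleton_iff.1 (e.ge hv).2⟩
    have key : ∀ i, ∃ b ∈ A i, b ∉ Z[Q] ∧ Opp ⁅x, y⁆ b := fun i => by
      obtain ⟨a, a1, a2⟩ : ∃ a ∈ A i, a ∉ Z[Q] := SetLike.not_le_iff_exists.1 fun l => by
        have := card_le_of_le l
        rw [hAcard, h.w.cardZ] at this
        nlinarith [pp.two_le]
      have zA : ⁅x, y⁆ ∈ A i := (cA i a (hAP i a1) a2 (le_cent1_iff.2 (le_cent_self (ab i) a1))).le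
        ⟨hz.1, mem_centralizer_singleton_iff.2 (commute_of_mem_cent hz.2 (hAP i a1)).eq⟩
      have oa : orderOf a = p := orderOf_eq_prime (h.ex a (hAP i a1)) fun e => a2 (e ▸ one_mem _)
      have dj : ∀ b ∈ zpowers a, b ∈ Z[Q] → b = 1 := fun b b1 b2 => by
        by_contra e
        have := zpowers_eq_of_prime (K := zpowers a) (by rwa [Nat.card_zpowers, oa]) b1 e
        exact a2 ((zpowers_le.2 b2) (this.ge (mem_zpowers a)))
      haveI := ab i
      have mz : ∀ b : A i, b ∈ zpowers (⟨a, a1⟩ : A i) → b.1 ∈ zpowers a := fun b ⟨k, hk⟩ =>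
        ⟨k, congrArg Subtype.val hk⟩
      obtain ⟨φ, o, b, b1, b2, b3, b4⟩ := exists_transv (A := A i) (hAcard i)
        (fun b => Subtype.ext (h.ex b.1 (hAP i b.2))) ⟨_, zA⟩ ⟨a, a1⟩
        (fun e => a2 (by rw [show a = 1 from congrArg Subtype.val e]; exact one_mem _))
        fun e => h.z0 (dj _ (mz _ e) hz)
      obtain ⟨g, hg⟩ := hSL i φ o
      refine ⟨b.1, b.2, fun k => b2 (Subtype.ext (dj _ (mz b b1) k)), g, ?_, ?_⟩
      · rw [← hg ⟨_, zA⟩, b3]; rfl
      · rw [← hg b, b4]
    choose b b1 b2 b3 using key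
    have := h.bound hp (syl_top P) Finset.univ b (fun i _ => hAP i (b1 i)) (fun i _ => b2 i) (fun i _ j _ c => by
      have e1 := cA i (b i) (hAP i (b1 i)) (b2 i) (le_cent1_iff.2 (le_cent_self (ab i) (b1 i)))
      have m : b j ∈ A i := e1.le ⟨hAP j (b1 j), mem_centralizer_singleton_iff.2 c.symm.eq⟩
      exact hA ((cA i (b j) (hAP j (b1 j)) (b2 j) (le_cent1_iff.2 (le_cent_self (ab i) m))).symm.trans
        (cA j (b j) (hAP j (b1 j)) (b2 j) (le_cent1_iff.2 (le_cent_self (ab j) (b1 j)))))) fun i _ => b3 i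
    rw [Finset.card_univ, Fintype.card_fin] at this
    by_contra k
    have : 17 ≤ p := by
      by_contra k'
      have : p = 14 ∨ p = 15 ∨ p = 16 := by omega
      rcases this with e | e | e <;> exact absurd (e ▸ pp) (by norm_num)
    omega

end Cfsg.Agent.S3054
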