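import Cfsg.Statements.S3055
import Cfsg.Agent.H5.Dk3

set_option autoImplicit false
open Cfsg

namespace Cfsg.Agent.S3055

open CfsgH5.Dk CfsgH2 Subgroup in
open scoped commutatorElement in
theorem opp {G : Type*} [Group G] [Finite G] {p : ℕ} [hp : Fact p.Prime] {Q : Subgroup G} {x y a g : G}
    (h : XS p Q x y) (sy : Syl p Q ⊤) (h1 : a ∉ Z[Q]) (ha : a ∈ Q) (e : g * ⁅x, y⁆ * g⁻¹ = a) : Opp ⁅x, y⁆ a := by
  have hz := h.cz h.hx h.hy
  have zz := h.zz
  have oz := h.oz
  set z := ⁅x, y⁆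
  have s2 : Syl p (Q.map (cj g)) C1[a] := (sy.map_cj_mem (mem_top g)).mono
    (by rw [← e, centralizer_conj]; exact map_mono (le_cent1_iff.2 hz.2)) le_top
  obtain ⟨c, cy, hV⟩ := s2.exists_le_conj (Q := zpowers z) (h.w.pg.to_le (zpowers_le.2 hz.1))
    (zpowers_le.2 (mem_centralizer_singleton_iff.2 (commute_of_mem_cent hz.2 ha).eq))
  rw [map_cj_cj] at hV
  have hz' : c * g * z * (c * g)⁻¹ = a := by
    rw [show c * g * z * (c * g)⁻¹ = c * a * c⁻¹ by rw [← e]; group, mem_centralizer_singleton_iff.1 cy]; group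
  set k := c * g
  have m : k⁻¹ * z * k ∈ Q := mem_map_cj.1 (hV (mem_zpowers z))
  obtain ⟨u, hu, u1⟩ := Cfsg.Agent.S3053.surj h.w m (fun hc => h1 (by
    obtain ⟨j, hj⟩ := mem_zpowers_iff.1 (zz.ge ⟨m, hc⟩)
    have l : zpowers z ≤ zpowers a := zpowers_le.2 ⟨j, by
      change a ^ j = z
      rw [← hz', conj_zpow, hj]; group⟩
    have := eq_of_le_of_card_ge l (by
      rw [Nat.card_zpowers, Nat.card_zpowers, oz]
      exact Nat.le_of_dvd hp.out.pos (orderOf_dvd_of_pow_eq_one (h.ex a ha)))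
    rw [← zz, this]; exact mem_zpowers a)) hz
  refine ⟨k * u * k⁻¹, ?_, ?_⟩
  · rw [show k * u * k⁻¹ * z * (k * u * k⁻¹)⁻¹ = k * (u * (k⁻¹ * z * k) * u⁻¹) * k⁻¹ by group, u1, ← hz']
    group
  · rw [← hz', show k * u * k⁻¹ * (k * z * k⁻¹) * (k * u * k⁻¹)⁻¹ = k * (u * z * u⁻¹) * k⁻¹ by group,
      ← (commute_of_mem_cent hz.2 hu).eq, mul_inv_cancel_right]

/-- Let p be an odd prime and G a finite group with a Sylow p-subgroup P that is extraspecial of order p³ and exponent p. If all nonidentity elements of P are conjugate in G, then p ≤ 7. -/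
theorem result {G : Type*} [Group G] [Finite G]
    {p : ℕ} [Fact p.Prime] (hp : p ≠ 2) (P : Sylow p G) (hE : Cfsg.IsExtraspecial p ↥P)
    (hcard : Nat.card P = p ^ 3) (hexp : Monoid.exponent ↥P = p)
    (hconj : ∀ x y : ↥P, x ≠ 1 → y ≠ 1 → ∃ g : G, g * (x : G) * g⁻¹ = (y : G)) :
    p ≤ 7 := by
  open CfsgH5.Dk CfsgH2 Subgroup in
  obtain ⟨x, y, h⟩ := exists_xs P hE hcard hexp
  have pp : p.Prime := Fact.out
  haveI : NeZero p := ⟨pp.ne_zero⟩
  let b : Option (ZMod p) → G := fun o => o.elim y fun i => x * y ^ i.val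
  have bQ : ∀ o, b o ∈ (P : Subgroup G) := fun o => by
    cases o with
    | none => exact h.hy
    | some i => exact Subgroup.mul_mem _ h.hx (Subgroup.pow_mem _ h.hy _)
  have bc : ∀ o, CfsgH5.Dk.cd p x y (b o) = o.elim ![0, 1] fun i => ![1, i] := fun o => by
    cases o with
    | none => exact h.cd_y
    | some i =>
      change CfsgH5.Dk.cd p x y (x * y ^ i.val) = _
      rw [h.cd_mul h.hx (Subgroup.pow_mem _ h.hy _), h.cd_pow h.hy, h.cd_x, h.cd_y]
      ext j; fin_cases j <;> simp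
  have bZ : ∀ o, b o ∉ (P : Subgroup G) ⊓ Subgroup.centralizer ((P : Subgroup G) : Set G) := fun o k => by
    have := h.cd_Z k
    rw [bc] at this
    cases o with
    | none => simpa using congrFun this 1
    | some i => simpa using congrFun this 0
  have hz := h.cz h.hx h.hy
  have := h.bound hp (CfsgH2.syl_top P) Finset.univ b (fun o _ => bQ o) (fun o _ => bZ o) (fun i _ j _ c => by
      have e := h.bt_comm c
      rw [h.bt_eq (bQ i) (bQ j), bc, bc] at e
      cases i <;> cases j <;> simp at e ⊢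
      exact (sub_eq_zero.1 e).symm) fun o _ => by
    obtain ⟨g, hg⟩ := hconj ⟨_, hz.1⟩ ⟨_, bQ o⟩ (fun e => h.z0 (congrArg Subtype.val e))
      fun e => bZ o (by rw [show b o = 1 from congrArg Subtype.val e]; exact Subgroup.one_mem _)
    exact opp h (CfsgH2.syl_top P) (bZ o) (bQ o) hg
  rw [Finset.card_univ, Fintype.card_option, ZMod.card] at this
  by_contra k
  have : p = 11 ∨ p = 13 ∨ 17 ≤ p := by
    by_contra k'
    have : p < 17 := by omega
    interval_cases p <;> first | omega | exact absurd pp (by norm_num)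
  omega

end Cfsg.Agent.S3055
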