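import Cfsg.Statements.S3057
import Mathlib
import Cfsg.Agent.H9.Loc
import Cfsg.Agent.H1.Sep

set_option autoImplicit false
open Cfsg

namespace Cfsg.Agent.S3057

/-- Let p be a prime and G a finite p-solvable group of order divisible by p, with Sylow p-subgroup P. Then the Sylow p-subgroups of G fail to be chain-connected through nontrivial intersections (equivalently, G has a strongly p-embedded subgroup) if and only if O_p(G) = 1 and P is cyclic or, for p = 2, generalized quaternion. -/
theorem result {G : Type*} [Group G] [Finite G]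
    (p : ℕ) [Fact p.Prime] (hdiv : p ∣ Nat.card G) (hsol : Cfsg.IsPSolvable p G) (P : Sylow p G) :
    ¬ Cfsg.IsSylowChainConnected p G ↔
      Cfsg.pCore p G = ⊥ ∧ (IsCyclic ↥P ∨ (p = 2 ∧ ∃ n : ℕ, Nonempty (↥P ≃* QuaternionGroup (2 ^ n)))) := by
  open Subgroup CfsgH9 in
  rw [not_chainConnected_iff]
  have h0 : (P : Subgroup G) ≠ ⊥ := (syl_sylow P).ne_bot (by simpa using hdiv)
  constructor
  · rintro ⟨M, h⟩
    refine ⟨by rw [← Op_top, h.Op_eq_bot], ?_⟩
    have : PRankLE p 1 (P : Subgroup G) := by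
      by_contra hc
      obtain ⟨A, h1, h2, h3⟩ := not_pRankLE_iff.1 hc
      obtain ⟨S, s1, s2, s3⟩ := h.exists_syl
      obtain ⟨g, -, hg⟩ := s2.exists_cj_le (ea_isPGroup h2) le_top
      have a : Opp p ⊤ ≤ M := h.le_of_rank (ea_cj g h2) (by rwa [card_cj]) (hg.trans s1.le) le_top
        (le_top.trans (le_normalizer_Opp le_normalizer)) (Opp_coprime p _)
      have b := s2.inf_sn (sn_Oppp (p := p) ⊤)
      have c : Oppp p ⊤ ≤ M := by
        rw [← syl_Oppp_sup b]; exact sup_le (inf_le_left.trans s1.le) a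
      have d := b.eq_bot_iff.2 (h.coprime_of_normal c (le_normalizer_Oppp le_normalizer))
      have e := syl_Oppp_sup b
      rw [d, bot_sup_eq, Oppp_top, Opp_top] at e
      haveI : (pPrimeCore p G).Normal := by rw [← Opp_top]; exact normal_of_top_le (le_normalizer_Opp le_normalizer)
      have f := CfsgH1.centralizer_pCore_le (CfsgH1.IsPSolvable.quotient' hsol (pPrimeCore p G))
        (pPrimeCore_quotient_pPrimeCore p)
      have g1 : pCore p (G ⧸ pPrimeCore p G) = ⊥ := by
        have := im_Oppp' (p := p) (f := tf (QuotientGroup.mk' (pPrimeCore p G))) (H := ⊤) le_rfl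
          (by rw [kr_tf_mk, inf_top_eq, Opp_top])
        rw [im_tf_mk_top, Op_top, Oppp_top, ← e, im_tf] at this
        rw [← this, map_mk_eq_bot_iff]
      rw [g1] at f
      have g2 : (⊤ : Subgroup G) ≤ pPrimeCore p G := by
        rw [← map_mk_eq_bot_iff, ← le_bot_iff]
        exact le_trans (fun y _ => by simp [mem_centralizer_iff]) f
      exact coprime_iff_not_dvd.1 (coprime_of_le g2 (pPrimeCore_coprime p)) (by simpa using hdiv)
    rcases cyc_or_quat_of_rank_one P.isPGroup' this with h | ⟨h, n, -, e⟩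
    exacts [Or.inl h, Or.inr ⟨h, n, e⟩]
  · rintro ⟨a, b⟩
    have h : PRankLE p 1 (P : Subgroup G) := by
      rcases b with h | ⟨-, n, ⟨e⟩⟩
      exacts [pRankLE_one_of_isCyclic h, pRankLE_one_of_quaternion e]
    exact ⟨_, spe_of_rank_one' (syl_sylow P) h0 h (by rwa [Op_top])⟩

end Cfsg.Agent.S3057
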