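import Cfsg.Statements.S3058
import Mathlib
import Cfsg.Agent.H9.Loc

set_option autoImplicit false
open Cfsg

namespace Cfsg.Agent.S3058

/-- Let p be a prime and G a finite group whose Sylow p-subgroups are not chain-connected through nontrivial intersections (so G has a strongly p-embedded subgroup). If N and M are normal subgroups of G whose orders are both divisible by p, then the order of N ∩ M is divisible by p. Consequently, among the normal subgroups of G whose order is divisible by p there is a smallest one (the intersection of all of them). -/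
theorem result {G : Type*} [Group G] [Finite G]
    (p : ℕ) [Fact p.Prime] (hG : ¬ Cfsg.IsSylowChainConnected p G)
    (N M : Subgroup G) [N.Normal] [M.Normal] (hN : p ∣ Nat.card N) (hM : p ∣ Nat.card M) :
    p ∣ Nat.card ↥(N ⊓ M) := by
  open Subgroup CfsgH9 in
  obtain ⟨H, h⟩ := not_chainConnected_iff.1 hG
  by_contra hc
  have hc := coprime_iff_not_dvd.2 hc
  obtain ⟨S, s1, s2, s3⟩ := h.exists_syl
  have a := s2.inf_sn (Sn.of_normal_top N)
  have b := s2.inf_sn (Sn.of_normal_top M)
  obtain ⟨x, hx, ox⟩ := exists_orderOf_prime_of_ne_bot a.pg (a.ne_bot hN)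
  obtain ⟨y, hy, oy⟩ := exists_orderOf_prime_of_ne_bot b.pg (b.ne_bot hM)
  have e : S ⊓ (N ⊓ M) = ⊥ := inf_eq_bot_of_p_pp s1.pg hc
  have c : ⁅zpowers x, zpowers y⁆ = ⊥ := by
    rw [← le_bot_iff, ← e]
    exact le_inf ((commutator_mono (zpowers_le.2 hx.1) (zpowers_le.2 hy.1)).trans
      (commutator_le_left_of le_normalizer)) ((commutator_mono (zpowers_le.2 hx.2)
      (zpowers_le.2 hy.2)).trans (commutator_le_inf N M))
  have hyx : y ∉ zpowers x := fun z => ne_one_of_orderOf_prime oy (by
    rw [← mem_bot, ← e]; exact ⟨hy.1, zpowers_le.2 hx.2 z, hy.2⟩)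
  have d : N ⊓ M ≤ H := h.le_of_rank (ea_sup (ea_zpowers_of_orderOf ox) (ea_zpowers_of_orderOf oy) c)
    (by rw [card_sup_zpowers oy hyx (le_normalizer_of_commutator_eq_bot (comm_bot_symm c)
      (mem_zpowers y)), Nat.card_zpowers, ox, sq])
    (sup_le (zpowers_le.2 (s1.le hx.1)) (zpowers_le.2 (s1.le hy.1))) le_top
    (le_normalizer_normal _ _) hc
  have f := syl_sup_of_coprime b.pg hc (le_normalizer_normal _ _)
  have g : N ≤ normalizer ((S ⊓ M ⊔ N ⊓ M : Subgroup G) : Set G) :=
    le_normalizer_of_commutator_le le_sup_right ((commutator_mono (sup_le inf_le_right inf_le_right)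
      le_rfl).trans ((commutator_le_inf M N).trans (inf_comm M N).le))
  have k : N ≤ H := fun n hn => by
    obtain ⟨u, hu, v, hv, rfl⟩ := f.frattini g hn
    exact mul_mem (sup_le (inf_le_left.trans s1.le) d hu)
      (h.normalizer_le b.pg (b.ne_bot hM) (inf_le_left.trans s1.le) ⟨mem_top _, hv⟩)
  exact coprime_iff_not_dvd.1 (h.coprime_of_normal k (le_normalizer_normal _ _)) hN

end Cfsg.Agent.S3058
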