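import Cfsg.Statements.S3061
import Mathlib
import Cfsg.Agent.H2.BG0
import Cfsg.Agent.H9.Diag

set_option autoImplicit false
open Cfsg

namespace Cfsg.Agent.S3061

open Cfsg Subgroup CfsgH2
open scoped commutatorElement

/-- Let S be a finite p-group. Then D*(S) itself belongs to the family that generates it: D*(S) is abelian, and every x ∈ S with ⟨D*(S), x⟩ of class at most two centralizes D*(S). Hence D*(S) is the unique maximal member of that family. -/
theorem result {S : Type*} [Group S] [Finite S] {p : ℕ} [Fact p.Prime] (hS : IsPGroup p S) :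
    Cfsg.dStar S ∈ Cfsg.dStarFamily S := by
  have l1 : ∀ A ∈ dStarFamily S, ∀ B : Subgroup S, Ab[B] → A ≤ N[B] → B ≤ C[A] := by
    intro A hA B hB hn
    by_contra h
    obtain ⟨x, hx, hx', h1⟩ := CfsgH9.exists_mem_not_mem_of_isPGroup (Z := B ⊓ C[A]) (hS.to_subgroup A) (hS.to_subgroup B)
      hn (le_norm_inf hn (le_norm_cent le_normalizer)) (le_norm_of_le_cent (le_cent_of_comm hB inf_le_left))
      (fun e => h (e.trans inf_le_right))
    refine hx' ⟨hx, mem_cent_iff.2 (hA.2 x ?_)⟩
    have c : A ⊔ zpowers x ≤ C[(B ⊓ C[A] : Subgroup S)] :=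
      sup_le (le_centralizer_iff.1 inf_le_right) (zpowers_le.2 (le_cent_of_comm hB inf_le_left hx))
    have n := le_norm_of_le_cent c
    have n1 := le_sup_left.trans n
    have n2 := le_sup_right.trans n
    refine comm_eq_bot_iff.2 (le_trans ((isMulComm_qt_iff n).1 ?_) (le_centralizer_iff.1 c))
    rw [qt_sup n1 n2]
    exact isMulComm_sup (isMulComm_qt hA.1) (isMulComm_qt inferInstance)
      ((qt_le_cent_iff n1 n2).2 (by rw [commutator_comm]; exact h1))
  have l2 : ∀ A ∈ dStarFamily S, ∀ g, A.map (cj g) ∈ dStarFamily S := by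
    intro A hA g
    refine ⟨by have := hA.1; infer_instance, fun x hx a ha => ?_⟩
    have := hA.2 (g⁻¹ * x * g) (by
      rw [← map_cj_eq_bot (g := g), map_commutator, map_commutator, Subgroup.map_sup, MonoidHom.map_zpowers]
      convert hx <;> simp [mul_assoc]) _ (mem_map_cj.1 ha)
    calc a * x = g * (g⁻¹ * a * g * (g⁻¹ * x * g)) * g⁻¹ := by group
      _ = x * a := by rw [this]; group
  have l3 : ∀ L : Subgroup S, Ab[sSup {A | A ∈ dStarFamily S ∧ A ≤ L}] := by
    intro L
    induction L using WellFoundedLT.induction with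
    | ind L ih =>
    refine isMulComm_of_le_cent (sSup_le fun A hA => le_centralizer_iff.1 (sSup_le fun B hB => ?_))
    rcases hA.2.eq_or_lt with e | e
    · exact (hB.2.trans e.ge).trans (le_cent_self hA.1.1)
    obtain ⟨M, h1, h2, h3, h4⟩ := exists_maximal_sub (hS.to_subgroup L) e
    have hlt : M < L := lt_of_le_of_ne h2 (by
      rintro rfl; rw [relIndex_self] at h4; exact (Fact.out : p.Prime).one_lt.ne h4)
    refine le_centralizer_iff.1 (le_trans (le_sSup (s := {A | A ∈ dStarFamily S ∧ A ≤ M}) ⟨hA.1, h1⟩) (l1 B hB.1 _ (ih M hlt) fun g hg => ?_))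
    refine mem_norm_of_map_le (map_le_iff_le_comap.2 (sSup_le fun X hX => map_le_iff_le_comap.1 ?_))
    exact le_sSup ⟨l2 X hX.1 g, map_cj_le_of_norm hX.2 (h3 (hB.2 hg))⟩
  refine ⟨isMulComm_of_le (l3 ⊤) (sSup_le_sSup fun X hX => ⟨hX, le_top⟩), fun x hx => mem_cent_iff.1 (le_cent1_iff.1 (sSup_le fun A hA => ?_))⟩
  have h1 : A ⊔ zpowers x ≤ dStar S ⊔ zpowers x := sup_le_sup_right (le_sSup hA) _
  exact le_cent1_iff.2 (mem_cent_iff.2 (hA.2 x (le_bot_iff.1 (hx ▸ commutator_mono (commutator_mono h1 h1) h1))))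

end Cfsg.Agent.S3061
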