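import Cfsg.Statements.S3062
import Cfsg.Agent.H1.Misc1
import Cfsg.Agent.H2.BG0
import Cfsg.Agent.L0.Repl
import Cfsg.Agent.S3061

set_option autoImplicit false
open Cfsg

namespace Cfsg.Agent.S3062

section
open Subgroup CfsgH2 CfsgL0
open CfsgH1 hiding card_inf_mul_relIndex card_lt_of_lt card_lt_of_ne_top card_map_mul_card_inf_ker card_mul_relIndex card_subgroupOf card_sup_dvd card_sup_mul_card_inf coprime_le_sup_cent exists_card_prime_le isNilpotent_map isNilpotent_of_le isPGroup_pCore isSolvable_map isSolvable_of_le le_pCore le_pPrimeCore relIndex_map_dvd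
open scoped CfsgH1
open scoped commutatorElement

section
open scoped commutatorElement
variable {G : Type*} [Group G] {A : Subgroup G} {x : G}

theorem tri (hA : Ab[A]) (n : x ∈ N[A]) (q : ⁅⁅A, zpowers x⁆, zpowers x⁆ = ⊥) : ⁅⁅A ⊔ zpowers x, A ⊔ zpowers x⁆, A ⊔ zpowers x⁆ = ⊥ := by
  have c : A ⊔ zpowers x ≤ C[⁅A, zpowers x⁆] :=
    sup_le (le_cent_of_comm hA (comm_le_left (zpowers_le.2 n))) (le_centralizer_iff.1 (comm_eq_bot_iff.1 q))
  have n := le_norm_of_le_cent c
  have n1 := le_sup_left.trans n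
  have n2 := le_sup_right.trans n
  refine comm_eq_bot_iff.2 (le_trans ((isMulComm_qt_iff n).1 ?_) (le_centralizer_iff.1 c))
  rw [qt_sup n1 n2]
  exact isMulComm_sup (isMulComm_qt hA) (isMulComm_qt inferInstance) ((qt_le_cent_iff n1 n2).2 le_rfl)

theorem fam_cj (hA : A ∈ dStarFamily G) (g : G) : A.map (CfsgH2.cj g) ∈ dStarFamily G := by
  refine ⟨by have := hA.1; infer_instance, fun x hx a ha => ?_⟩
  have := hA.2 (g⁻¹ * x * g) (by
    rw [← map_cj_eq_bot (g := g), map_commutator, map_commutator, Subgroup.map_sup, MonoidHom.map_zpowers]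
    convert hx <;> simp [mul_assoc]) _ (mem_map_cj.1 ha)
  calc a * x = g * (g⁻¹ * a * g * (g⁻¹ * x * g)) * g⁻¹ := by group
    _ = x * a := by rw [this]; group

theorem dStar_normal [Finite G] : (dStar G).Normal :=
  normal_of_top_le_norm fun g _ => mem_norm_sSup fun _ h => fam_cj h g
end

end

/-- Let S be a finite p-group, J(S) the subgroup generated by the abelian subgroups of S of largest order and Z(J(S)) its centre. Then Z(S) ≤ D*(S) ≤ Z(J(S)), and every maximal normal abelian subgroup of S contains D*(S). -/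
theorem result {S : Type*} [Group S] [Finite S] {p : ℕ} [Fact p.Prime]
    (hS : IsPGroup p S) :
    Subgroup.center S ≤ Cfsg.dStar S ∧
    Cfsg.dStar S ≤ Cfsg.thompsonSubgroupA S ⊓ Subgroup.centralizer (Cfsg.thompsonSubgroupA S : Set S) ∧
    ∀ A : Subgroup S, A.Normal → IsMulCommutative A →
      (∀ B : Subgroup S, B.Normal → IsMulCommutative B → A ≤ B → B = A) → Cfsg.dStar S ≤ A := by
  open Subgroup CfsgH2 CfsgL0 in
  open CfsgH1 hiding card_inf_mul_relIndex card_lt_of_lt card_lt_of_ne_top card_map_mul_card_inf_ker card_mul_relIndex card_subgroupOf card_sup_dvd card_sup_mul_card_inf coprime_le_sup_cent exists_card_prime_le isNilpotent_map isNilpotent_of_le isPGroup_pCore isSolvable_map isSolvable_of_le le_pCore le_pPrimeCore relIndex_map_dvd in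
  open scoped CfsgH1 in
  open scoped commutatorElement in
  · obtain ⟨ab, hD⟩ := Cfsg.Agent.S3061.result hS
    have nD := top_le_norm_iff.2 (dStar_normal (G := S))
    have k : ∀ A : Subgroup S, Ab[A] → dStar S ≤ N[A] → dStar S ≤ C[A] := fun A hA n => le_centralizer_iff.1 fun x hx => mem_cent_iff.2 (hD x (tri ab (nD (mem_top x)) (by
      have := zpowers_le.2 hx
      exact le_bot_iff.1 ((commutator_mono (commutator_mono le_rfl this) this).trans (by
        rw [le_bot_iff, comm_eq_bot_iff]; exact le_cent_of_comm hA (comm_le_right n) |> le_centralizer_iff.1)))))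
    have m : ∀ A, ME 0 ⊤ A → dStar S ≤ A := fun A hA => by_contra fun c => by
      obtain ⟨B, b1, -, b2, b3, -⟩ := hA.replace' (S := ⊤) (hS.to_subgroup _) le_rfl le_normalizer le_top nD (fun _ => el_zero.2 ab)
        ((comm_eq_bot_iff.2 (le_cent_self ab)).le.trans bot_le) c
      exact b2 (b1.le_of_cent le_top (el_zero.2 ab) (k B b1.ab b3))
    refine ⟨le_sSup ⟨inferInstance, fun x _ a ha => (mem_center_iff.1 ha x).symm⟩, le_inf ?_ (le_centralizer_iff.1 (sSup_le fun A hA => ?_)), fun A n hA h => ?_⟩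
    · obtain ⟨A, hA⟩ := exists_ME 0 (⊤ : Subgroup S)
      exact (m A hA).trans (le_sSup (maxAb_eq.ge (ME_top.1 hA)))
    · exact le_cent_of_comm hA.1 (m A (ME_top.2 (maxAb_eq.le hA)))
    · haveI := dStar_normal (G := S)
      exact le_sup_right.trans (h (A ⊔ dStar S) inferInstance (isMulComm_sup hA ab (le_centralizer_iff.1 (k A hA (le_top.trans (top_le_norm_iff.2 n))))) le_sup_left).le

end Cfsg.Agent.S3062
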