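import Cfsg.Statements.S3060
import Cfsg.Agent.H1.Misc1
import Cfsg.Agent.H2.BG0
import Cfsg.Agent.L0.WS
import Cfsg.Agent.S3062

set_option autoImplicit false
open Cfsg

namespace Cfsg.Agent.S3060

section
open Subgroup CfsgH2
open CfsgH1 hiding card_inf_mul_relIndex card_lt_of_lt card_lt_of_ne_top card_map_mul_card_inf_ker card_mul_relIndex card_subgroupOf card_sup_dvd card_sup_mul_card_inf coprime_le_sup_cent exists_card_prime_le isNilpotent_map isNilpotent_of_le isPGroup_pCore isSolvable_map isSolvable_of_le le_pCore le_pPrimeCore relIndex_map_dvd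
open scoped CfsgH1
open CfsgL0 hiding comm_zpowers_le
open scoped CfsgL0
open scoped commutatorElement

section
open scoped commutatorElement
variable {G : Type*} [Group G] {A S T : Subgroup G} {x : G}

/-- Membership in the family inside an ambient group. -/
def Fm (S A : Subgroup G) : Prop :=
  A ≤ S ∧ Ab[A] ∧ ∀ x ∈ S, ⁅⁅A ⊔ zpowers x, A ⊔ zpowers x⁆, A ⊔ zpowers x⁆ = ⊥ → x ∈ C[A]

theorem fm_iff {B : Subgroup S} : Fm S (B.map S.subtype) ↔ B ∈ dStarFamily S := by
  have i := S.subtype_injective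
  have k : ∀ x : S, (⁅⁅B.map S.subtype ⊔ zpowers (x : G), B.map S.subtype ⊔ zpowers (x : G)⁆, B.map S.subtype ⊔ zpowers (x : G)⁆ = ⊥ → (x : G) ∈ C[B.map S.subtype]) ↔
      (⁅⁅B ⊔ zpowers x, B ⊔ zpowers x⁆, B ⊔ zpowers x⁆ = ⊥ → ∀ a ∈ B, a * x = x * a) := fun x => by
    rw [← mem_cent_iff, ← inj_mem_cent i, ← map_eq_bot_iff_of_injective _ i, map_commutator, map_commutator, Subgroup.map_sup, MonoidHom.map_zpowers]; rfl
  exact ⟨fun h => ⟨(inj_isMulComm i).1 h.2.1, fun x => (k x).1 (h.2.2 x x.2)⟩, fun h => ⟨map_subtype_le _, (inj_isMulComm i).2 h.1, fun x hx => (k ⟨x, hx⟩).2 (h.2 _)⟩⟩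

theorem Fm.le (h : Fm S A) : A ≤ dStarOf S := by
  obtain ⟨B, -, rfl⟩ := exists_map_eq_le (f := S.subtype) (L := ⊤) (H := A) (by rw [map_subtype_top]; exact h.1)
  exact map_mono (le_sSup (fm_iff.1 h))

theorem Fm.cj (h : Fm S A) (g : G) : Fm (S.map (CfsgH2.cj g)) (A.map (CfsgH2.cj g)) := by
  have i := CfsgH2.cj_injective g
  refine ⟨map_mono h.1, (inj_isMulComm i).2 h.2.1, ?_⟩
  rintro _ ⟨x, hx, rfl⟩ q
  refine (inj_mem_cent i).2 (h.2.2 x hx ?_)
  rwa [← MonoidHom.map_zpowers, ← Subgroup.map_sup, ← map_commutator, ← map_commutator, map_eq_bot_iff_of_injective _ i] at q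
end

end

/-- The D*-Theorem. For a finite p-group S let D*(S) be the subgroup generated by the abelian subgroups A of S such that every x ∈ S with ⟨A, x⟩ of nilpotency class at most two centralizes A. Let p be an odd prime and H a finite p-stable group with Sylow p-subgroup S. Here H is p-stable in the following sense: the largest normal p-subgroup O_p(H) contains its centralizer in H, and for every normal p-subgroup P of H, every element acting quadratically on P has image in O_p(H/C_H(P)). Then D*(S) is a normal subgroup of H. -/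
theorem result {G : Type*} [Group G] [Finite G] {p : ℕ} [Fact p.Prime] (hp : p ≠ 2)
    (hc : Subgroup.centralizer (Cfsg.pCore p G : Set G) ≤ Cfsg.pCore p G)
    (hst : ∀ (P : Subgroup G) [P.Normal], IsPGroup p P → Cfsg.IsPStableOn p P) (S : Sylow p G) :
    (Cfsg.dStarOf (S : Subgroup G)).Normal := by
  open Subgroup CfsgH2 in
  open CfsgH1 hiding card_inf_mul_relIndex card_lt_of_lt card_lt_of_ne_top card_map_mul_card_inf_ker card_mul_relIndex card_subgroupOf card_sup_dvd card_sup_mul_card_inf coprime_le_sup_cent exists_card_prime_le isNilpotent_map isNilpotent_of_le isPGroup_pCore isSolvable_map isSolvable_of_le le_pCore le_pPrimeCore relIndex_map_dvd in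
  open scoped CfsgH1 in
  open CfsgL0 hiding comm_zpowers_le in
  open scoped CfsgL0 in
  open scoped commutatorElement in
  · have hS : Syl p (S : Subgroup G) ⊤ := syl_top S
    have f : ∀ P : Subgroup G, IsPGroup p P → Fm P (dStarOf P) := fun P h => fm_iff.2 (Cfsg.Agent.S3061.result h)
    have st := nst_top_of hst
    have fD := f _ hS.pg
    have nD : (S : Subgroup G) ≤ N[dStarOf (S : Subgroup G)] := haveI := S3062.dStar_normal (G := S); le_norm_map_subtype _
    have lO := hS.pCoreOf_le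
    have l := st.ab_le_core (con_top_iff.1 hc) hS fD.1 fD.2.1 (lO.trans nD)
    set D := dStarOf (S : Subgroup G)
    have l1 : ∀ g, Fm O[{p}, ⊤] (D.map (CfsgH2.cj g)) := fun g => by
      have := Fm.cj (S := O[{p}, ⊤]) ⟨l, fD.2.1, fun x hx => fD.2.2 x (lO hx)⟩ g
      rwa [map_cj_eq (le_norm_piCoreOf (mem_top g))] at this
    set W := sSup {U | ∃ g, U = D.map (CfsgH2.cj g)}
    have pO : IsPGroup p O[{p}, (⊤ : Subgroup G)] := hS.pg.to_le lO
    have lW : W ≤ dStarOf O[{p}, ⊤] := sSup_le (by rintro _ ⟨g, rfl⟩; exact (l1 g).le)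
    have ab : Ab[W] := isMulComm_of_le (f _ pO).2.1 lW
    have l2 := lW.trans (f _ pO).1
    have nW : ⊤ ≤ N[W] := fun g _ => mem_norm_sSup (by rintro _ ⟨h, rfl⟩; exact ⟨g * h, map_cj_cj _ _ _⟩)
    have dW : D ≤ W := le_sSup ⟨1, (map_cj_of_mem (one_mem _)).symm⟩
    have : Fm S W := ⟨l2.trans lO, ab, fun x hx q => le_cent1_iff.1 (sSup_le (by
      rintro _ ⟨g, rfl⟩
      obtain ⟨c, hc, n, -, rfl, k⟩ := (st W le_top (pO.to_le l2) nW).frattini hS le_top (pO.to_le l2) nW (mem_top g)
      obtain ⟨k1, k2⟩ := k x hx (le_bot_iff.1 (q ▸ commutator_mono (commutator_mono le_sup_left le_sup_right) le_sup_right))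
      have h1 := sup_le_sup_right dW (zpowers (n⁻¹ * x * n))
      have := fD.2.2 _ k1 (le_bot_iff.1 (S3062.tri ab (nW (mem_top _)) k2 ▸ commutator_mono (commutator_mono h1 h1) h1))
      rw [← map_cj_cj, map_cj_eq (centralizer_le_normalizer _ (cent_anti dW hc)), le_cent1_iff, centralizer_map_cj]
      exact mem_map_cj.2 this))⟩
    exact (le_antisymm this.le dW : W = D) ▸ normal_of_top_le_norm nW

end Cfsg.Agent.S3060
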