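import Cfsg.Statements.S3063
import Mathlib
import Cfsg.Agent.L0.CD2

set_option autoImplicit false
open Cfsg

namespace Cfsg.Agent.S3063

open Cfsg Subgroup CfsgH2 CfsgL0 CfsgH1
open scoped commutatorElement

/-- A weak replacement Theorem for metabelian p-groups: let S be a finite p-group whose derived subgroup is abelian and A an abelian subgroup of S of largest possible order. Then the normal closure of A in S contains an abelian subgroup B of the same order as A that is normal in S. -/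
theorem result {S : Type*} [Group S] [Finite S] {p : ℕ} [Fact p.Prime]
    (hS : IsPGroup p S) (hmeta : IsMulCommutative ↥(commutator S))
    (A : Subgroup S) (hA : A ∈ Cfsg.maxAbelianSubgroups S) :
    ∃ B ∈ Cfsg.maxAbelianSubgroups S, B.Normal ∧ B ≤ Subgroup.normalClosure (A : Set S) := by
  have := hS.isNilpotent
  obtain ⟨Z, ⟨h, hl⟩, hm⟩ := Set.exists_max_image {Z : Subgroup S | Z ∈ maxAbelianSubgroups S ∧ Z ≤ normalClosure (A : Set S)}
    (fun Z => ∑ i ∈ Finset.range (Group.nilpotencyClass S + 1), o[Z ⊓ Subgroup.upperCentralSeries S i])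
    (Set.toFinite _) ⟨A, hA, le_normalClosure⟩
  refine ⟨Z, h, normal_of_top_le_norm fun w _ => ?_, hl⟩
  by_contra hw2
  set Z' := Z.map (CfsgH2.cj w) with hZ'
  have h' : Ab[Z'] := by have := h.1; infer_instance
  set E := Z ⊓ Z'
  set M := Z ⊔ Z'
  have hφ : ∀ z ∈ Z, ⁅z, w⁆ = z * (w * z⁻¹ * w⁻¹) := fun z _ => by rw [commutatorElement_def]; group
  have hc : ∀ z ∈ Z, w * z⁻¹ * w⁻¹ ∈ Z' := fun z hz => conj_mem_map_cj (Z.inv_mem hz)
  set T := closure ((fun z => ⁅z, w⁆) '' (Z : Set S))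
  have hTM : T ≤ M := (closure_le _).2 (by
    rintro _ ⟨z, hz, rfl⟩
    simp only [hφ z hz]
    exact M.mul_mem (mem_sup_left hz) (mem_sup_right (hc z hz)))
  have hT : Ab[T] := isMulComm_of_le hmeta ((closure_le _).2 (by
    rintro _ ⟨z, hz, rfl⟩
    exact commutator_mem_commutator (mem_top _) (mem_top _)))
  have hEM : E ≤ C[M] := by
    rw [cent_sup]
    exact inf_le_inf (le_cent_of_comm h.1 le_rfl) (le_cent_of_comm h' le_rfl)
  have hD : Ab[E ⊔ T] := isMulComm_sup (isMulComm_of_le h.1 inf_le_left) hT (hEM.trans (cent_anti hTM))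
  set D := E ⊔ T
  have hDM : D ≤ M := sup_le (inf_le_left.trans le_sup_left) hTM
  have key : ∀ i, o[Z ⊓ Subgroup.upperCentralSeries S (i + 1)] * o[E ⊓ Subgroup.upperCentralSeries S i] ≤
      o[D ⊓ Subgroup.upperCentralSeries S i] * o[E ⊓ Subgroup.upperCentralSeries S (i + 1)] := by
    intro i
    rw [← Nat.card_prod]
    refine card_le_of_fiber (E ⊓ Subgroup.upperCentralSeries S (i + 1))
      (fun x : ↥(Z ⊓ Subgroup.upperCentralSeries S (i + 1)) × ↥(E ⊓ Subgroup.upperCentralSeries S i) =>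
        (⟨⁅(x.1 : S), w⁆ * x.2, D.mul_mem (mem_sup_right (subset_closure ⟨x.1, x.1.2.1, rfl⟩)) (mem_sup_left x.2.2.1),
          Subgroup.mul_mem _ (Subgroup.mem_upperCentralSeries_succ_iff.1 x.1.2.2 w) x.2.2.2⟩ :
            ↥(D ⊓ Subgroup.upperCentralSeries S i)))
      (fun x => x.1) ?_ ?_
    · rintro ⟨⟨a, ha⟩, ⟨e, he⟩⟩ ⟨⟨b, hb⟩, ⟨e', he'⟩⟩ hh
      replace hh : ⁅a, w⁆ * e = ⁅b, w⁆ * e' := congrArg Subtype.val hh
      refine ⟨⟨Z.mul_mem (Z.inv_mem hb.1) ha.1, ?_⟩, Subgroup.mul_mem _ (Subgroup.inv_mem _ hb.2) ha.2⟩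
      rw [hφ a ha.1, hφ b hb.1] at hh
      have : b⁻¹ * a = (w * b⁻¹ * w⁻¹) * e' * e⁻¹ * (w * a⁻¹ * w⁻¹)⁻¹ := by
        calc b⁻¹ * a = b⁻¹ * (a * (w * a⁻¹ * w⁻¹) * e) * e⁻¹ * (w * a⁻¹ * w⁻¹)⁻¹ := by group
          _ = _ := by rw [hh]; group
      show b⁻¹ * a ∈ Z'
      rw [this]
      exact Z'.mul_mem (Z'.mul_mem (Z'.mul_mem (hc b hb.1) he'.1.2) (Z'.inv_mem he.1.2)) (Z'.inv_mem (hc a ha.1))
    · rintro ⟨⟨a, ha⟩, ⟨e, he⟩⟩ ⟨⟨b, hb⟩, ⟨e', he'⟩⟩ hh (h2 : a = b)
      subst h2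
      replace hh : ⁅a, w⁆ * e = ⁅a, w⁆ * e' := congrArg Subtype.val hh
      obtain rfl := mul_left_cancel hh
      rfl
  have top : ∀ i, Group.nilpotencyClass S ≤ i → Subgroup.upperCentralSeries S i = ⊤ := fun i hi =>
    top_le_iff.1 ((Subgroup.upperCentralSeries_nilpotencyClass (G := S)).ge.trans (Subgroup.upperCentralSeries_mono S hi))
  have hZD : o[Z] ≤ o[D] := by
    have := key (Group.nilpotencyClass S)
    rw [top _ le_rfl, top _ (Nat.le_succ _)] at this
    simp only [inf_top_eq] at this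
    exact Nat.le_of_mul_le_mul_right this (card_pos' _)
  refine absurd (hm D ⟨⟨hD, fun X h1 => (h.2 X h1).trans hZD⟩, hDM.trans (sup_le hl ?_)⟩)
    (not_le.2 (Finset.sum_lt_sum (fun i _ => ?_) ?_))
  · rw [← map_cj_normal w (normalClosure (A : Set S))]; exact map_mono hl
  · have k1 := card_mul_card_le (A := Z ⊓ Subgroup.upperCentralSeries S i) (B := E ⊓ Subgroup.upperCentralSeries S (i + 1))
      (L := Z ⊓ Subgroup.upperCentralSeries S (i + 1))
      (inf_le_inf_left _ (Subgroup.upperCentralSeries_mono S (Nat.le_succ i))) (inf_le_inf_right _ inf_le_left)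
    have k2 : Z ⊓ Subgroup.upperCentralSeries S i ⊓ (E ⊓ Subgroup.upperCentralSeries S (i + 1)) ≤
        E ⊓ Subgroup.upperCentralSeries S i := fun x hx => ⟨hx.2.1, hx.1.2⟩
    exact Nat.le_of_mul_le_mul_right ((k1.trans (Nat.mul_le_mul_left _ (card_le_of_le k2))).trans (key i))
      (card_pos' _)
  · by_contra hh
    push Not at hh
    have : ∀ i ≤ Group.nilpotencyClass S,
        o[Z ⊓ Subgroup.upperCentralSeries S i] ≤ o[E ⊓ Subgroup.upperCentralSeries S i] := by
      intro i hi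
      induction i with
      | zero => simp
      | succ i ih =>
        have k1 := (key i).trans (Nat.mul_le_mul_right _
          ((hh i (Finset.mem_range.2 (by omega))).trans (ih (by omega))))
        rw [mul_comm] at k1
        exact Nat.le_of_mul_le_mul_left k1 (card_pos' _)
    have k := this _ le_rfl
    rw [top _ le_rfl] at k
    simp only [inf_top_eq] at k
    have e : E = Z := eq_of_le_of_card_ge inf_le_left k
    have e2 : Z = Z' := eq_of_le_of_card_ge (e.ge.trans inf_le_right) (card_map_cj w Z).le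
    exact hw2 (map_cj_eq_iff.1 e2.symm)

end Cfsg.Agent.S3063
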