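import Cfsg.Statements.S3064
import Mathlib
import Cfsg.Agent.L0.IsoP

set_option autoImplicit false
open Cfsg

namespace Cfsg.Agent.S3064

open Cfsg Subgroup CfsgH2 CfsgL0

theorem aux {p : ℕ} [Fact p.Prime] (n : ℕ) : ∀ (G : Type*) [Group G] [Finite G] (x : G), Nat.card G = n →
    PG[p, zpowers x] → IsIsolated x → (∀ H : Subgroup G, ¬ p ∣ o[H] → x ∈ N[H] → x ∈ C[H]) → x ∈ center G := by
  induction n using Nat.strong_induction_on with
  | _ n ih =>
  intro G _ _ x hn hp hiso hb
  have sub : ∀ M : Subgroup G, M ≠ ⊤ → x ∈ M → M ≤ C1[x] := by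
    intro M hM hx g hg
    have := ih _ (hn ▸ card_lt_of_ne_top hM) M ⟨x, hx⟩ rfl (by
      obtain ⟨k, hk⟩ := pgroup_pow_eq_one hp (mem_zpowers x)
      exact isPGroup_zpowers (k := k) (Subtype.ext hk)) (iso_subtype hiso hx) (fun H h1 h2 => by
        have := hb (H.map M.subtype) (by rwa [card_map_of_injective M.subtype_injective])
          (le_normalizer_map M.subtype (mem_map_of_mem M.subtype h2))
        exact mem_cent_iff.2 fun y hy => Subtype.ext (mem_cent_iff.1 this _ (mem_map_of_mem _ hy)))
    exact mem_centralizer_singleton_iff.2 (congrArg Subtype.val (mem_center_iff.1 this ⟨g, hg⟩))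
  by_contra hx
  have hC : C1[x] ≠ ⊤ := fun e => hx (mem_center_iff.2 fun g => mem_centralizer_singleton_iff.1 (e.ge (mem_top g)))
  have fin : (∀ g, Commute x (g * x * g⁻¹)) → False := fun h =>
    hx (mem_center_iff.2 fun g => mul_inv_eq_iff_eq_mul.1 (hiso g (h g)))
  by_cases h : ∃ N : Subgroup G, N.Normal ∧ N ≠ ⊥ ∧ N ≤ C1[x]
  · obtain ⟨N, hN, h0, hl⟩ := h
    have hxN := le_cent1_iff.1 hl
    have hc : C[N] = ⊤ := by
      by_contra hne
      exact fin fun g => (mem_centralizer_singleton_iff.1
        (sub _ hne hxN ((inferInstance : C[N].Normal).conj_mem x hxN g))).symm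
    obtain ⟨X, hX, hq⟩ := exists_prime_le h0
    have hXc : ∀ a ∈ X, ∀ g, a * g = g * a := fun a ha g => mem_cent_iff.1 (hc.ge (mem_top g)) a (hX ha)
    have hXn : X.Normal := ⟨fun a ha g => by rw [← hXc a ha g]; simpa using ha⟩
    set f := QuotientGroup.mk' X
    have hf : Function.Surjective f := QuotientGroup.mk'_surjective X
    have := ih _ (hn ▸ card_quot_lt (ne_bot_of_card_prime hq)) (G ⧸ X) (f x) rfl (by
      rw [← MonoidHom.map_zpowers]; exact hp.map f) (iso_map hiso hp hf) (fun H h1 h2 => by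
        set K := H.comap f
        have hXK : X ≤ K := fun y hy => by
          rw [mem_comap, QuotientGroup.mk'_apply, (QuotientGroup.eq_one_iff y).2 hy]; exact one_mem _
        have hxK : x ∈ N[K] := mem_norm_of_conj fun y hy => by
          show f _ ∈ H
          simpa using conj_mem_of_norm h2 hy
        have hcard := card_map_mul_card_inf_ker f K
        rw [map_comap_eq_self_of_surjective hf, QuotientGroup.ker_mk', inf_eq_right.2 hXK] at hcard
        have hK : x ∈ C[K] := by
          by_cases e : p ∣ o[X]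
          · have hXp : o[X] = p := ((Nat.prime_dvd_prime_iff_eq Fact.out hq).1 e).symm
            have hS : Syl p X K := ⟨hXK, isPGroup_of_card' hXp, by
              rw [← card_mul_relIndex hXK, mul_comm] at hcard
              rwa [← Nat.eq_of_mul_eq_mul_left (card_pos' X) hcard]⟩
            have := (hS.npc_of_norm_le_cent fun y _ => mem_cent_iff.2 fun a ha => hXc a ha y).sup_eq hS
            rw [← this, cent_sup]
            exact ⟨hb _ not_dvd_piCoreOf (norm_le_norm_piCoreOf hxK), mem_cent_iff.2 fun a ha => hXc a ha x⟩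
          · refine hb K ?_ hxK
            rw [← hcard]
            exact fun hd => ((Fact.out : p.Prime).dvd_mul.1 hd).elim h1 e
        refine mem_cent_iff.2 fun y hy => ?_
        obtain ⟨y, rfl⟩ := hf y
        rw [← map_mul, ← map_mul, mem_cent_iff.1 hK y hy])
    refine fin fun g => ?_
    have h2 : g * x * g⁻¹ * x⁻¹ ∈ X := by
      rw [← QuotientGroup.eq_one_iff]
      show f _ = 1
      simp only [map_mul, map_inv]
      rw [mem_center_iff.1 this (f g)]; group
    have h3 := hXc _ h2 x
    show x * (g * x * g⁻¹) = g * x * g⁻¹ * x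
    calc x * (g * x * g⁻¹) = x * (g * x * g⁻¹ * x⁻¹) * x := by group
      _ = _ := by rw [← h3]; group
  · push Not at h
    have h1 : x ≠ 1 := by rintro rfl; exact hx (one_mem _)
    obtain ⟨K, hK⟩ := CfsgH1.exists_frob_of_ti (lt_top_iff_ne_top.2 hC) (fun e => h1 (mem_bot.1 (e ▸ self_mem_cent1 x)))
      (fun g _ hg => by
        by_contra hne
        have hxN : x ∈ C[(C1[x] ⊓ C1[x].map (CfsgH2.cj g) : Subgroup G)] := le_cent1_iff.1 inf_le_left
        have hyN : g * x * g⁻¹ ∈ C[(C1[x] ⊓ C1[x].map (CfsgH2.cj g) : Subgroup G)] :=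
          le_cent1_iff.1 (by rw [centralizer_conj]; exact inf_le_right)
        have hne2 : N[(C1[x] ⊓ C1[x].map (CfsgH2.cj g) : Subgroup G)] ≠ ⊤ := fun e =>
          h _ (normal_of_top_le_norm e.ge) hne inf_le_left
        exact hg (mem_cent1.2 (hiso g (mem_centralizer_singleton_iff.1
          (sub _ hne2 (cent_le_norm _ hxN) (cent_le_norm _ hyN))).symm)))
    have hd : p ∣ o[C1[x]] := (dvd_card_of_pgroup hp (by simpa using h1)).trans
      (card_dvd_of_le (zpowers_le.2 (self_mem_cent1 x)))
    have := hb K (fun e => (Fact.out : p.Prime).one_lt.ne' (Nat.eq_one_of_dvd_coprimes hK.coprime hd e))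
      (hK.norm (self_mem_cent1 x))
    exact h K hK.normal hK.ker_ne (le_cent1_iff.2 this)

/-- Let S be a Sylow p-subgroup of the finite group G and x an element of S such that (i) x is the only G-conjugate of x lying in S, and (ii) x centralizes every subgroup of order prime to p that it normalizes. Then x lies in the centre of G. -/
theorem result {G : Type*} [Group G] [Finite G] {p : ℕ} [Fact p.Prime]
    (S : Sylow p G) (x : G) (hx : x ∈ S)
    (hU : ∀ g : G, g⁻¹ * x * g ∈ S → g⁻¹ * x * g = x)
    (hb : ∀ H : Subgroup G, (Nat.card H).Coprime p → (∀ h ∈ H, x * h * x⁻¹ ∈ H) → ∀ h ∈ H, x * h = h * x) :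
    x ∈ Subgroup.center G := by
  refine aux (p := p) _ G x rfl (S.2.to_le (zpowers_le.2 hx)) (iso_of_syl (syl_top S) hx fun g hg => ?_) fun H h1 h2 => ?_
  · simpa using hU g⁻¹ (by rw [inv_inv]; exact hg)
  · exact mem_cent_iff.2 fun h hh => (hb H ((coprime_iff_not_dvd Fact.out).2 h1) (fun h hh => conj_mem_of_norm h2 hh) h hh).symm

end Cfsg.Agent.S3064
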