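import Cfsg.Statements.S3065
import Mathlib
import Cfsg.Agent.H9.Gl2

set_option autoImplicit false
open Cfsg

namespace Cfsg.Agent.S3065

/-- Let G be a finite non-abelian simple group with a nontrivial Sylow 2-subgroup S (that is, G has even order). If the automorphism group of S is solvable, then the outer automorphism group Out(G) = Aut(G)/Inn(G) is solvable. -/
theorem result {G : Type*} [Group G] [Finite G] [IsSimpleGroup G]
    (hG : ¬ IsMulCommutative G) (S : Sylow 2 G) (hS1 : (S : Subgroup G) ≠ ⊥) (hS : Group.IsSolvable (MulAut ↥S)) :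
    Group.IsSolvable (Cfsg.Out G) := by
  open Subgroup CfsgH9 in
  have h0 : Cfsg.pPrimeCore 2 G = ⊥ := by
    rcases (inferInstance : (Cfsg.pPrimeCore 2 G).Normal).eq_bot_or_eq_top with e | e
    · exact e
    · exact absurd (isPGroup_coprime_eq_bot S.2 (coprime_of_le (le_top.trans e.ge)
        (pPrimeCore_coprime 2))) hS1
  open SemidirectProduct in
  obtain ⟨T, hT⟩ : ∃ T, T = (S : Subgroup G).map (inl : G →* Hol G) := ⟨_, rfl⟩
  obtain ⟨A, hA⟩ : ∃ A, A = (SemidirectProduct.inr : MulAut G →* Hol G).range := ⟨_, rfl⟩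
  have h1 : Group.IsSolvable (MulAut T) := by
    rw [hT]
    exact solvable_of_surjective (f := (MulAut.congr ((S : Subgroup G).equivMapOfInjective _
      SemidirectProduct.inl_injective)).toMonoidHom) (MulEquiv.surjective _)
  have h2 : Group.IsSolvable (A ⊓ normalizer (T : Set (Hol G)) : Subgroup (Hol G)) := by
    refine isSolvable_of_im (f := T.normalizerMonoidHom) inf_le_right ?_ inferInstance
    rw [kr_normalizerMonoidHom]
    refine glaub_solvable (hol_Opp h0) ((syl_sylow S).map_of_injective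
      SemidirectProduct.inl_injective) ?_ (hT ▸ inf_le_left) ?_
    · rintro x ⟨-, h, -⟩
      rw [hA] at h
      obtain ⟨φ, rfl⟩ := h
      exact hol_norm fun _ _ => mem_top _
    · refine isSolvable_of_le (K := ⊥) ?_ inferInstance
      rintro x ⟨⟨-, h, -⟩, h'⟩
      rw [hA] at h
      obtain ⟨φ, rfl⟩ := h
      have : φ = 1 := MulEquiv.ext fun x => hol_cent.1 h' x (mem_top x)
      rw [this, map_one]; exact one_mem _
  refine solvable_of_surjective (f := ((QuotientGroup.mk' (Cfsg.Inn G)).comp
    SemidirectProduct.rightHom).comp (A ⊓ normalizer (T : Set (Hol G))).subtype) fun y => ?_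
  obtain ⟨φ, rfl⟩ := QuotientGroup.mk'_surjective _ y
  obtain ⟨g, -, hg⟩ := ((syl_sylow S).map φ.toMonoidHom).conj
    ((map_top_of_surjective φ.toMonoidHom φ.surjective).symm ▸ syl_sylow S)
  refine ⟨⟨SemidirectProduct.inr (MulAut.conj g * φ), hA ▸ ⟨_, rfl⟩, hT ▸ hol_norm fun a ha => ?_⟩, ?_⟩
  · rw [← hg]
    exact conj_mem_cj g ⟨a, ha, rfl⟩
  · simp only [MonoidHom.comp_apply, coe_subtype, SemidirectProduct.rightHom_inr, map_mul]
    rw [QuotientGroup.mk'_apply, (QuotientGroup.eq_one_iff (N := Cfsg.Inn G) _).2 (MonoidHom.mem_range.2 ⟨g, rfl⟩), one_mul]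

end Cfsg.Agent.S3065
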