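import Cfsg.Statements.S3071
import Mathlib
import Cfsg.Agent.L0.Quad4

set_option autoImplicit false
open Cfsg

namespace Cfsg.Agent.S3071

open Cfsg Subgroup CfsgH2 CfsgL0

/-- Let p be an odd prime and S a Sylow p-subgroup of the finite group G such that, for every subgroup P with Z(S) ≤ P ≤ S, the normalizer N_G(P) has no section isomorphic to SL₂(p). Let J(S) be the subgroup generated by the abelian subgroups of S of largest order. Then two elements of S are conjugate in G if and only if they are conjugate in N_G(Z(J(S))). -/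
theorem result {G : Type*} [Group G] [Finite G] {p : ℕ} [Fact p.Prime]
    (hp : p ≠ 2) (S : Sylow p G)
    (hfree : ∀ P : Subgroup G, (S : Subgroup G) ⊓ Subgroup.centralizer ((S : Subgroup G) : Set G) ≤ P → P ≤ S →
      ¬ ∃ (H K : Subgroup G) (hK : (K.subgroupOf H).Normal), H ≤ Subgroup.normalizer (P : Set G) ∧
        Nonempty ((H ⧸ K.subgroupOf H) ≃* Matrix.SpecialLinearGroup (Fin 2) (ZMod p))) :
    ∀ x ∈ S, ∀ y ∈ S, (∃ g : G, g * x * g⁻¹ = y) ↔
      ∃ n ∈ Subgroup.normalizer (Cfsg.centerThompsonAOf (S : Subgroup G) : Set G), n * x * n⁻¹ = y := by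
  have hW := iw_cf (G := G) (wZJ_char (dvd_zero p))
  have h := (fsf_single hW (syl_top S)).1 (fsf_of_wpZ hW (fun P _ => by rw [iw_ZJ]; exact center_le_ZJ)
    (syl_top S) fun F f1 f2 => by
      have := (fsf_ZJa hp (G := N[F]) (fun _ _ _ _ hs => pst_of_sl hp hs fun c =>
        hfree F f2 f1 (Sec.exists_le c)) _ ⊤ (Sec.self ⊤)).map (cf_single (wZJ_char (dvd_zero p)))
        (subtype_injective _)
      rwa [map_subtype_top, if_single, ← top_inf_eq N[F]] at this)
  refine fun x hx y hy => ⟨?_, fun ⟨n, _, e⟩ => ⟨n, e⟩⟩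
  rintro ⟨g, rfl⟩
  obtain ⟨n, n1, n2⟩ := h (closure {x}) ((closure_le _).2 (by simpa)) g trivial
    (closure_map_cj_le.2 (by simpa))
  rw [iw_ZJ, ← ZJA_eq] at n1
  exact ⟨n, n1.2, mem_cent_closure.1 n2 x rfl⟩

end Cfsg.Agent.S3071
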