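import Cfsg.Statements.S3073
import Mathlib
import Cfsg.Agent.H2.KThm

set_option autoImplicit false
universe u
open Cfsg

namespace Cfsg.Agent.S3073

open Cfsg Subgroup CfsgH2

/-- For an odd prime p, every finite p-group S has a characteristic subgroup K with C_S(K) ≤ K such that, whenever S is (isomorphic to) a Sylow p-subgroup of a finite group G, G has a normal p-complement if and only if N_G(K)/C_G(K) is a p-group, i.e. every element of N_G(K) of order prime to p centralizes K (K transported into G along the isomorphism). -/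
theorem result (p : ℕ) [Fact p.Prime] (hp : p ≠ 2)
    (S : Type u) [Group S] [Finite S] (hS : IsPGroup p S) :
    ∃ K : Subgroup S, K.Characteristic ∧ Subgroup.centralizer (K : Set S) ≤ K ∧
      ∀ (G : Type u) [Group G] [Finite G] (P : Sylow p G) (e : ↥(P : Subgroup G) ≃* S),
        Cfsg.HasNormalPComplement p G ↔
          ∀ g ∈ Subgroup.normalizer (((K.comap (e : ↥(P : Subgroup G) →* S)).map (P : Subgroup G).subtype : Subgroup G) : Set G),
            (orderOf g).Coprime p →
              g ∈ Subgroup.centralizer (((K.comap (e : ↥(P : Subgroup G) →* S)).map (P : Subgroup G).subtype : Subgroup G) : Set G) := by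
  have hch := (kL_char (p := p)).2
  refine ⟨kInfLower S, characteristic_iff_map_eq.2 fun φ => hch S S hS φ, ?_, fun G _ _ P e => ?_⟩
  · have := IsK.cent_le (G := S) (Or.inl rfl) (P := ⊤) (hS.to_subgroup ⊤)
    have e : inducedFunctor kInfLower (⊤ : Subgroup S) = kInfLower S := hch _ S (hS.to_subgroup ⊤) topEquiv
    rwa [e, top_inf_eq] at this
  have e1 : ((kInfLower S).comap (e : ↥(P : Subgroup G) →* S)).map (P : Subgroup G).subtype =
      inducedFunctor kInfLower (P : Subgroup G) := by
    rw [← hch _ S P.2 e]
    exact congrArg _ (comap_map_eq_self_of_injective e.injective _)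
  rw [e1]
  set K := inducedFunctor kInfLower (P : Subgroup G)
  have hK : K ≤ P := map_subtype_le _
  have hKp : IsPGroup p K := P.2.to_le hK
  rw [npc_top_iff]
  refine ⟨fun h g hg hc => h.mem_cent hKp le_top (mem_top g) hg hc, fun h => IsK.npc (Or.inl rfl) hp (syl_top P) ?_⟩
  have hn : (P : Subgroup G) ≤ N[K] := by
    have : (kInfLower ↥(P : Subgroup G)).Characteristic := characteristic_iff_map_eq.2 fun φ => hch _ _ P.2 φ
    exact le_norm_map_subtype _
  have h1 : Syl p (P ⊓ C[K]) C[K] := (syl_top P).inf_norm le_top (le_norm_cent hn)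
  have h2 : NPC p C[K] := h1.npc_of_norm_le_cent (inf_le_left.trans (cent_anti (IsK.cent_le (Or.inl rfl) P.2)))
  exact (h2.mono (piRes_le_iff.2 h)).of_piRes_npc

end Cfsg.Agent.S3073
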