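import Cfsg.Statements.S3074
import Mathlib
import Cfsg.Agent.L0.Quad2

set_option autoImplicit false
open Cfsg

namespace Cfsg.Agent.S3074

open Cfsg Subgroup CfsgH2 CfsgL0

/-- Let p be an odd prime. A Sylow p-subgroup of Qd(p), the split extension of an elementary abelian group of order p² by SL₂(p) acting naturally, is extraspecial of order p³ and exponent p. -/
theorem result (p : ℕ) [Fact p.Prime] (hp : p ≠ 2) (P : Sylow p ↥(Cfsg.qd p)) :
    Cfsg.IsExtraspecial p ↥P ∧ Nat.card P = p ^ 3 ∧ Monoid.exponent ↥P = p := by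
  obtain ⟨j, i, π, q⟩ := exists_isQd (MulEquiv.refl (qd p))
  haveI := q.finite
  obtain ⟨j, i, π, q, hP⟩ := q.exists_syl (syl_top P)
  obtain ⟨e, -, e2⟩ := q.exists_coord
  have pg := P.isPGroup'
  change IsExtraspecial p (P : Subgroup (qd p)) ∧ Nat.card (P : Subgroup (qd p)) = _ ∧
    Monoid.exponent (P : Subgroup (qd p)) = p
  rw [hP] at pg ⊢
  generalize (uH.range.comap π : Subgroup (qd p)) = S at *
  have e0 : e (0, 0, 0) = 1 := by simpa using e2 0 0 0 0 0 0
  have hz : ∀ a b c, e (a, b, c) ∈ center S ↔ a = 0 ∧ b = 0 := fun a b c => by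
    rw [mem_center_iff, e.surjective.forall]
    simp only [Prod.forall, e2, e.injective.eq_iff, Prod.mk.injEq]
    refine ⟨fun h => ⟨by simpa using (h 0 1 0).2.2.symm, by simpa using (h 1 0 0).2.2⟩, ?_⟩
    rintro ⟨rfl, rfl⟩ a b c'
    simp [add_comm]
  have pw : ∀ a b c (n : ℕ), e (a, b, c) ^ n = e (n * a, n * b, n * c + n.choose 2 * (a * b)) :=
    fun a b c n => by
      induction n with
      | zero => simp [e0]
      | succ n ih => rw [pow_succ, ih, e2, Nat.choose_succ_succ' n 1]; congr 3 <;> simp <;> ring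
  have ex : ∀ x : S, x ^ p = 1 := fun x => by
    obtain ⟨⟨a, b, c⟩, rfl⟩ := e.surjective x
    rw [pw, (ZMod.natCast_eq_zero_iff _ _).2 ((Fact.out : p.Prime).dvd_choose_self two_ne_zero
      (lt_of_le_of_ne (Fact.out : p.Prime).two_le hp.symm))]
    simp [e0]
  have iv : ∀ a b c, (e (a, b, c))⁻¹ = e (-a, -b, a * b - c) := fun a b c =>
    inv_eq_of_mul_eq_one_right (by rw [e2]; simp [e0])
  have hc : commutator S = center S := le_antisymm (commutator_le.2 fun x _ y _ => by
      obtain ⟨⟨a, b, c⟩, rfl⟩ := e.surjective x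
      obtain ⟨⟨a', b', c'⟩, rfl⟩ := e.surjective y
      simp [commutatorElement_def, iv, e2, hz]) fun x hx => by
    obtain ⟨⟨a, b, c⟩, rfl⟩ := e.surjective x
    obtain ⟨rfl, rfl⟩ := (hz _ _ _).1 hx
    exact mem_eq (commutator_mem_commutator (mem_top (e (c, 0, 0))) (mem_top (e (0, 1, 0))))
      (by simp [commutatorElement_def, iv, e2])
  refine ⟨⟨⟨pg, ?_, hc⟩, ?_⟩, by simp [← Nat.card_congr e, pow_succ, mul_assoc], ?_⟩
  · rw [← CfsgH1.frattiniOf_top]
    haveI := pg.isNilpotent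
    exact le_antisymm (phi_le_of (p := p) hc.le fun x _ => ex x ▸ one_mem _)
      (hc.ge.trans (comm_le_phi inferInstance))
  · refine (Nat.card_congr (Equiv.ofBijective (fun c : ZMod p => (⟨e (0, 0, c), (hz _ _ _).2 ⟨rfl, rfl⟩⟩ :
      center S)) ⟨fun a b h => by simpa using h, fun ⟨x, hx⟩ => ?_⟩)).symm.trans (Nat.card_zmod p)
    obtain ⟨⟨a, b, c⟩, rfl⟩ := e.surjective x
    obtain ⟨rfl, rfl⟩ := (hz _ _ _).1 hx
    exact ⟨c, rfl⟩
  · haveI : Nontrivial S := e.symm.nontrivial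
    exact (Monoid.exponent_eq_prime_iff Fact.out).2 fun x hx => orderOf_eq_prime (ex x) hx

end Cfsg.Agent.S3074
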