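import Cfsg.Statements.S3075
import Mathlib
import Cfsg.Agent.L0.Quad2

set_option autoImplicit false
open Cfsg

namespace Cfsg.Agent.S3075

open Cfsg Subgroup CfsgH2 CfsgL0 Matrix
open scoped MatrixGroups

/-- Let p be an odd prime and N a finite group with a normal elementary abelian subgroup A of order p² that is its own centralizer in N, such that N/A is isomorphic to SL₂(p) (over any field F with p elements). Then N splits over A: some subgroup U of N satisfies A ∩ U = 1 and AU = N. -/
theorem result {N : Type*} [Group N] [Finite N] {p : ℕ} [Fact p.Prime] (hp : p ≠ 2)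
    (A : Subgroup N) [A.Normal] (hAcomm : IsMulCommutative A) (hAcard : Nat.card A = p ^ 2) (hAexp : Monoid.exponent ↥A = p)
    (hAself : Subgroup.centralizer (A : Set N) = A)
    {F : Type*} [Field F] [Fintype F] (hF : Fintype.card F = p) (e : N ⧸ A ≃* Matrix.SpecialLinearGroup (Fin 2) F) :
    ∃ U : Subgroup N, A ⊓ U = ⊥ ∧ A ⊔ U = ⊤ := by
  haveI : CharP F p := charP_of_card_eq_prime hF
  let π : N →* SL(2, F) := e.toMonoidHom.comp (QuotientGroup.mk' A)
  have sπ : Function.Surjective π := e.surjective.comp (QuotientGroup.mk'_surjective A)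
  have kπ : ∀ x, π x = 1 ↔ x ∈ A := fun x => (map_eq_one_iff _ e.injective).trans (QuotientGroup.eq_one_iff x)
  have pA : PG[p, A] := IsPGroup.of_card hAcard
  haveI : (zpowers (-1 : SL(2, F))).Normal := normalizer_eq_top_iff.1 (top_le_iff.1
    fun g _ => mem_norm_zpowers (by simp))
  obtain ⟨T, hT⟩ := exists_syl (p := 2) ((zpowers (-1)).comap π)
  have e1 : T.map π = zpowers (-1) := by
    have := hT.map π
    rw [map_comap_eq_self_of_surjective sπ] at this
    exact this.eq_of_pgroup (CfsgH2.isPGroup_zpowers (k := 1) (by simp))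
  have top : A ⊔ N[T] = ⊤ := top_le_iff.1 fun l _ => by
    obtain ⟨k, hk, n, hn, rfl⟩ := hT.frattini (g := l) ((normalizer_eq_top _).ge trivial)
    obtain ⟨t, ht, e⟩ := e1.ge hk
    rw [show k * n = k * t⁻¹ * (t * n) by group]
    exact mul_mem_sup ((kπ _).1 (by simp [e])) (mul_mem (le_normalizer ht) hn)
  refine ⟨N[T], by_contra fun h0 => ?_, top⟩
  have co : o[T].Coprime o[A] := hT.pg.coprime_card_of_ne _ _ hp.symm _ _ pA
  have c1 : T ≤ C[A ⊓ N[T]] := le_centralizer_iff.1 (comm_eq_bot_iff.1 (eq_bot_iff.2 (le_trans (le_inf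
    (comm_le_right inf_le_right) ((commutator_mono inf_le_left le_top).trans (commutator_le_left _ _)))
    (inf_eq_bot_of_coprime' co).le)))
  have c2 : ¬ T ≤ C[A] := fun c => by
    obtain ⟨t, ht, e⟩ := e1.ge (mem_zpowers _)
    rw [(kπ _).2 (hAself ▸ c ht)] at e
    have := congrArg (fun M : SL(2, F) => M.1 0 0) e
    change (1 : F) = -1 at this
    exact hp ((Nat.prime_dvd_prime_iff_eq Fact.out Nat.prime_two).1
      ((CharP.cast_eq_zero_iff F p 2).1 (by push_cast; linear_combination this)))
  have nB : ⊤ ≤ N[A ⊓ N[T]] := top.ge.trans (sup_le (((le_cent_self hAcomm).trans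
    (cent_anti inf_le_left)).trans (cent_le_norm _)) (le_norm_inf le_normalizer_of_normal le_normalizer))
  have lt : A ⊓ N[T] < A := lt_of_le_of_ne inf_le_left fun e => c2 (e ▸ c1)
  have k : ∀ x, (π x) ^ p = 1 → x ∈ stab A (A ⊓ N[T]) := fun x hx => by
    obtain ⟨k, hk⟩ := pgroup_pow_eq_one pA ((kπ (x ^ p)).1 (by rwa [map_pow]))
    obtain ⟨L, l1, l2, -, l3, l4, -⟩ := exists_step_down (CfsgH2.isPGroup_zpowers (k := 1 + k)
      (by rwa [pow_add, pow_mul, pow_one])) pA lt (le_top.trans nB) le_normalizer_of_normal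
    have := card_mul_relIndex l2
    rw [l3, hAcard, sq, Nat.mul_left_inj (Fact.out : p.Prime).ne_zero] at this
    rw [← eq_of_le_prime (this ▸ Fact.out) l1 h0] at l4
    exact le_stab (le_top.trans nB) l4 (mem_zpowers x)
  have k2 : ∀ x, x ∈ stab A (A ⊓ N[T]) := fun x => by
    obtain ⟨y, hy, e⟩ : π x ∈ (stab A (A ⊓ N[T])).map π :=
      SL2.transvection_induction (· ∈ (stab A (A ⊓ N[T])).map π) (fun i j h c => by
        obtain ⟨y, hy⟩ := sπ (SpecialLinearGroup.transvection h c)
        refine ⟨y, k y ?_, hy⟩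
        rw [hy]
        have : ∀ n : ℕ, SpecialLinearGroup.transvection h c ^ n =
            SpecialLinearGroup.transvection h (n * c) := fun n => by
          induction n with
          | zero => simp
          | succ n ih => rw [pow_succ, ih, ← SpecialLinearGroup.transvection_add]; congr 1; push_cast; ring
        simp [this]) (fun _ _ => mul_mem) _
    rw [← mul_inv_cancel_left y x]
    exact mul_mem hy (k _ (by simp [e]))
  exact c2 (coprime_le_cent le_normalizer_of_normal co (.inr (isSolvable_of_pgroup pA))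
    ((comm_le_of_le_stab fun x _ => k2 x).trans (le_centralizer_iff.1 c1)))

end Cfsg.Agent.S3075
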