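import Cfsg.Statements.S3076
import Mathlib
import Cfsg.Agent.H2.PL1

set_option autoImplicit false
open Cfsg

namespace Cfsg.Agent.S3076

open Cfsg Subgroup CfsgH2

/-- Let P be a Sylow p-subgroup of the finite group G and H ≤ P a subgroup with N_P(H) a Sylow p-subgroup of N_G(H). Let N be the preimage in N_G(H) of O_p(N_G(H)/C_G(H)). Then H is a Sylow p-subgroup of N if and only if C_P(H) ≤ H and O_{p',p}(N_G(H)) = H·C_G(H). -/
theorem result {G : Type*} [Group G] [Finite G] {p : ℕ} [Fact p.Prime]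
    (P : Sylow p G) (H : Subgroup G) (hHP : H ≤ (P : Subgroup G))
    (hSyl : ¬ p ∣ ((P : Subgroup G) ⊓ Subgroup.normalizer (H : Set G)).relIndex (Subgroup.normalizer (H : Set G)))
    [hC : ((Subgroup.centralizer (H : Set G)).subgroupOf (Subgroup.normalizer (H : Set G))).Normal] :
    (H ≤ ((Cfsg.pCore p (↥(Subgroup.normalizer (H : Set G)) ⧸
              (Subgroup.centralizer (H : Set G)).subgroupOf (Subgroup.normalizer (H : Set G)))).comap
            (QuotientGroup.mk' _)).map (Subgroup.normalizer (H : Set G)).subtype ∧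
      ¬ p ∣ H.relIndex (((Cfsg.pCore p (↥(Subgroup.normalizer (H : Set G)) ⧸
              (Subgroup.centralizer (H : Set G)).subgroupOf (Subgroup.normalizer (H : Set G)))).comap
            (QuotientGroup.mk' _)).map (Subgroup.normalizer (H : Set G)).subtype)) ↔
    ((P : Subgroup G) ⊓ Subgroup.centralizer (H : Set G) ≤ H ∧
      (Cfsg.pPrimePCore p ↥(Subgroup.normalizer (H : Set G))).map (Subgroup.normalizer (H : Set G)).subtype =
        H ⊔ Subgroup.centralizer (H : Set G)) := by
  rw [map_pPrimePCore]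
  set f := QuotientGroup.mk' (C[H].subgroupOf N[H])
  have hf : Function.Surjective f := QuotientGroup.mk'_surjective _
  set X := ((pCore p _).comap f).map N[H].subtype with hX
  have hH : PG[p, H] := P.2.to_le hHP
  have hS : Syl p (P ⊓ N[H]) N[H] := ⟨inf_le_right, P.2.to_le inf_le_left, hSyl⟩
  have hSC : Syl p (P ⊓ C[H]) C[H] := by
    have := hS.inf_norm (cent_le_norm H) (inf_le_right.trans (norm_le_norm_cent H))
    rwa [inf_assoc, inf_eq_right.2 (cent_le_norm H)] at this
  have x1 : X ≤ N[H] := map_subtype_le _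
  have x2 : N[H] ≤ N[X] := le_norm_map_subtype _
  have x3 : ∀ Y ≤ N[H], N[H] ≤ N[Y] → PiN {p} (C[H].relIndex Y) → Y ≤ X := by
    intro Y h1 h2 h3
    have : (Y.subgroupOf N[H]).Normal := (normal_subgroupOf_iff' h1).2 h2
    have := this.map f hf
    have h4 : (Y.subgroupOf N[H]).map f ≤ pCore p _ := le_pCore (isPGroup_iff_piN.2 (by
      have := relIndex_ker (Y.subgroupOf N[H]) f
      rw [QuotientGroup.ker_mk', relIndex_subgroupOf h1] at this
      rwa [← this]))
    exact fun y hy => ⟨⟨y, h1 hy⟩, h4 (mem_map_of_mem f hy), rfl⟩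
  have x4 : C[H] ≤ X := x3 _ (cent_le_norm H) (norm_le_norm_cent H) (by rw [relIndex_self]; exact PiN.one)
  have x5 : H ≤ X := x3 _ le_normalizer le_rfl
    ((isPGroup_iff_piN.1 hH).of_dvd (relIndex_dvd_card _ _))
  have x6 : PiN {p} (C[H].relIndex X) := by
    have := relIndex_ker ((pCore p _).comap f) f
    rw [QuotientGroup.ker_mk', map_comap_eq_self_of_surjective hf] at this
    rw [← relIndex_subgroupOf x1, show X.subgroupOf N[H] = _ from comap_map_eq_self_of_injective (subtype_injective _) _, this]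
    exact isPGroup_iff_piN.1 isPGroup_pCore
  have x7 : (P : Subgroup G) ⊓ C[H] ≤ H → NPC p X := fun h => by
    have h2 : NPC p C[H] := hSC.npc_of_norm_le_cent (inf_le_left.trans (cent_anti h))
    exact (h2.mono (piRes_le_of (x1.trans (norm_le_norm_cent H)) x6)).of_piRes_npc
  constructor
  · rintro ⟨-, h⟩
    have h1 : Syl p H X := ⟨x5, hH, h⟩
    have h2 : (P : Subgroup G) ⊓ C[H] ≤ H := h1.le_of_norm' hSC.pg (inf_le_right.trans x4) (inf_le_right.trans (cent_le_norm H))
    refine ⟨h2, ?_⟩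
    rw [sup_comm, h1.sup_eq_of_index x4 x6]
    refine le_antisymm (x3 _ Opp_le le_norm_Opp ?_) (le_Opp x1 x2 (x7 h2))
    have h3 : O[{p}ᶜ, Opp p N[H]] ≤ C[H] := by
      have := core'_norm_le_cent (H := ⊤) hH le_top
      rwa [core'_Opp, ← top_inf_eq N[H]]
    exact PiN.of_dvd npc_Opp (relIndex_dvd_of_le_left _ h3)
  · rintro ⟨h1, h2⟩
    have e : X = H ⊔ C[H] := le_antisymm (h2 ▸ le_Opp x1 x2 (x7 h1)) (sup_le x5 x4)
    refine ⟨x5, ?_⟩
    rw [e, sup_comm, relIndex_sup_of_norm (cent_le_norm H)]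
    exact hSC.not_dvd_of_le h1

end Cfsg.Agent.S3076
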