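import Cfsg.Statements.S3078
import Mathlib
import Cfsg.Agent.L0.Repl
import Cfsg.Agent.L0.CD2

set_option autoImplicit false
open Cfsg

namespace Cfsg.Agent.S3078

open Cfsg Subgroup CfsgH2 CfsgL0

/-- A replacement Theorem for abelian subgroups of p-groups, p odd. Let G be a finite p-group with p odd, A an abelian subgroup of G, and B a subgroup of nilpotency class at most 2 with [B, B] ≤ A, such that A normalizes B but B does not normalize A. Then there is an abelian subgroup A* of G of the same order as A with A ∩ B strictly contained in A* ∩ B, A* contained in N_G(A) and in the normal closure of A, the exponent of A* dividing the exponent of A, and with the subgroup generated by the elements of order dividing p in A of order at most that of the corresponding subgroup of A* (the rank of A is at most the rank of A*). -/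
theorem result {G : Type*} [Group G] [Finite G] {p : ℕ} [Fact p.Prime] (hp : p ≠ 2) (hG : IsPGroup p G) (A B : Subgroup G) (hA : IsMulCommutative A) (hB2 : ⁅⁅B, B⁆, B⁆ = ⊥) (hBA : ⁅B, B⁆ ≤ A) (hAB : A ≤ Subgroup.normalizer (B : Set G)) (hBnA : ¬ B ≤ Subgroup.normalizer (A : Set G)) : ∃ Astar : Subgroup G, IsMulCommutative Astar ∧ Nat.card Astar = Nat.card A ∧ A ⊓ B < Astar ⊓ B ∧ Astar ≤ Subgroup.normalizer (A : Set G) ∧ Astar ≤ Subgroup.normalClosure (A : Set G) ∧ Monoid.exponent Astar ∣ Monoid.exponent A ∧ Nat.card (Cfsg.omegaOne p A) ≤ Nat.card (Cfsg.omegaOne p Astar) := by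
  have hS : PG[p, A ⊔ B] := hG.to_subgroup _
  have nB : A ⊔ B ≤ N[B] := sup_le hAB le_normalizer
  obtain ⟨b, h1, h2, h3⟩ := exists_rh hS le_sup_right nB le_sup_left hBnA
  have h : RH (A ⊔ B) B A b := ⟨le_sup_right, nB, le_sup_left, hA, hBA, h1, h2⟩
  have hab := h.ab_Rs hS (fun e => absurd e hp)
  refine ⟨Rs A b, hab, h.card_Rs, h.lt_inf h3, h.Rs_le.trans inf_le_right, RH.Rs_le_H.trans (sup_le le_normalClosure ?_),
    Monoid.exponent_dvd_of_forall_pow_eq_one fun x => Subtype.ext (h.exp_H hS hp (fun a ha =>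
      congrArg Subtype.val (Monoid.pow_exponent_eq_one (⟨a, ha⟩ : A))) x (RH.Rs_le_H x.2)), ?_⟩
  · rw [← map_cj_normal b⁻¹ (normalClosure (A : Set G))]; exact map_mono le_normalClosure
  set Z := A ⊓ A.map (CfsgH2.cj b⁻¹)
  have sc : SmallClass p (A ⊔ A.map (CfsgH2.cj b⁻¹)) := Or.inl ⟨hp, h.H_der.trans (le_centralizer_iff.1 h.Z_cent)⟩
  have e1 := (elem_omegaOne (p := p) hA).2
  have e2 := (elem_omegaOne (p := p) (isMulComm_of_le hA (inf_le_left : Z ≤ A))).2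
  have hc : ∀ a ∈ A, b⁻¹ * a⁻¹ * b ∈ A.map (CfsgH2.cj b⁻¹) := fun a ha => by
    simpa using conj_mem_map_cj (g := b⁻¹) (A.inv_mem ha)
  refine Nat.le_of_mul_le_mul_right ?_ (card_pos' (omegaOne p Z))
  rw [← Nat.card_prod]
  refine card_le_of_fiber (omegaOne p Z) (fun x : omegaOne p A × omegaOne p Z =>
    (⟨x.1.1 * (b⁻¹ * x.1.1⁻¹ * b) * x.2.1, Subgroup.mul_mem _ (mem_omegaOne
      (mem_sup_right (subset_closure ⟨x.1.1, omegaOne_le x.1.2, by group⟩))
      (sc.mul_pow_eq_one (mem_sup_left (omegaOne_le x.1.2)) (mem_sup_right (hc _ (omegaOne_le x.1.2))) (e1 _ x.1.2) (by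
        have := conj_pow (a := b⁻¹) (b := x.1.1⁻¹) (i := p)
        rw [inv_inv, inv_pow, e1 _ x.1.2] at this
        rw [this]; group)))
      (omegaOne_mono le_sup_left x.2.2)⟩ : omegaOne p (Rs A b))) (fun x => x.1.1) ?_ ?_
  · rintro ⟨⟨a, ha⟩, ⟨e, he⟩⟩ ⟨⟨c, hc'⟩, ⟨e', he'⟩⟩ hh
    replace hh : a * (b⁻¹ * a⁻¹ * b) * e = c * (b⁻¹ * c⁻¹ * b) * e' := congrArg Subtype.val hh
    have k : c⁻¹ * a ∈ omegaOne p A := Subgroup.mul_mem _ (Subgroup.inv_mem _ hc') ha
    refine mem_omegaOne ⟨omegaOne_le k, ?_⟩ (e1 _ k)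
    have : c⁻¹ * a = (b⁻¹ * c⁻¹ * b) * e' * e⁻¹ * (b⁻¹ * a⁻¹ * b)⁻¹ := by
      calc c⁻¹ * a = c⁻¹ * (a * (b⁻¹ * a⁻¹ * b) * e) * e⁻¹ * (b⁻¹ * a⁻¹ * b)⁻¹ := by group
        _ = _ := by rw [hh]; group
    show c⁻¹ * a ∈ A.map (CfsgH2.cj b⁻¹)
    rw [this]
    exact Subgroup.mul_mem _ (Subgroup.mul_mem _ (Subgroup.mul_mem _ (hc c (omegaOne_le hc')) (omegaOne_le he').2)
      (Subgroup.inv_mem _ (omegaOne_le he).2)) (Subgroup.inv_mem _ (hc a (omegaOne_le ha)))
  · rintro ⟨⟨a, ha⟩, ⟨e, he⟩⟩ ⟨⟨c, hc'⟩, ⟨e', he'⟩⟩ hh (h2 : a = c)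
    subst h2
    replace hh : a * (b⁻¹ * a⁻¹ * b) * e = a * (b⁻¹ * a⁻¹ * b) * e' := congrArg Subtype.val hh
    obtain rfl := mul_left_cancel hh
    rfl

end Cfsg.Agent.S3078
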