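import Cfsg.Statements.S3087
import Mathlib

set_option autoImplicit false
open Cfsg

namespace Cfsg.Agent.S3087

/-- Let p be a prime, G a finite group acting linearly on a finite vector space V over the field with p elements, W a G-invariant subspace, and A a subgroup of G with |A|·|C_V(A)| ≥ |B|·|C_V(B)| for every subgroup B of A. Then |A|·|C_W(A)| ≥ |B|·|C_W(B)| for every subgroup B of A that contains C_A(W); that is, the image of A in the group induced on W satisfies the same maximality condition. -/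
theorem result {G V : Type*} [Group G] [Finite G] [AddCommGroup V] [Finite V] (p : ℕ) [Fact p.Prime] [Module (ZMod p) V]
    (ρ : Representation (ZMod p) G V) (W : Submodule (ZMod p) V) (hW : ∀ g : G, ∀ w ∈ W, ρ g w ∈ W)
    (A : Subgroup G)
    (hP : ∀ B : Subgroup G, B ≤ A →
      Nat.card ↥B * Nat.card {v : V // ∀ b ∈ B, ρ b v = v} ≤ Nat.card ↥A * Nat.card {v : V // ∀ a ∈ A, ρ a v = v})
    (B : Subgroup G) (hBA : B ≤ A) (hCB : ∀ a ∈ A, (∀ w ∈ W, ρ a w = w) → a ∈ B) :
    Nat.card ↥B * Nat.card {w : W // ∀ b ∈ B, ρ b w = w} ≤ Nat.card ↥A * Nat.card {w : W // ∀ a ∈ A, ρ a w = w} := by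
  let F : Subgroup G → Submodule (ZMod p) V := fun B =>
    { carrier := {v | ∀ b ∈ B, ρ b v = v}
      add_mem' := fun {x y} hx hy b hb => by rw [map_add, hx b hb, hy b hb]
      zero_mem' := fun b _ => map_zero _
      smul_mem' := fun c x hx b hb => by rw [map_smul, hx b hb] }
  have e1 : ∀ B : Subgroup G, Nat.card {v : V // ∀ b ∈ B, ρ b v = v} = Nat.card (F B) := fun B => rfl
  have e2 : ∀ B : Subgroup G, Nat.card {w : W // ∀ b ∈ B, ρ b w = w} = Nat.card ↥(W ⊓ F B) := fun B =>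
    Nat.card_congr ⟨fun w => ⟨w.1.1, w.1.2, w.2⟩, fun w => ⟨⟨w.1, w.2.1⟩, w.2.2⟩, fun _ => rfl, fun _ => rfl⟩
  have h := hP B hBA
  rw [e1, e1] at h
  rw [e2, e2]
  have c : ∀ U : Submodule (ZMod p) V, Nat.card U = p ^ Module.finrank (ZMod p) U := fun U => by
    rw [Module.natCard_eq_pow_finrank (K := ZMod p), Nat.card_zmod]
  have hle : F A ≤ F B := fun v hv b hb => hv b (hBA hb)
  have k := Submodule.finrank_sup_add_finrank_inf_eq (W ⊓ F B) (F A)
  have e3 : W ⊓ F B ⊓ F A = W ⊓ F A := by rw [inf_assoc, inf_eq_right.2 hle]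
  rw [e3] at k
  have k2 : Nat.card ↥(W ⊓ F B) * Nat.card (F A) ≤ Nat.card (F B) * Nat.card ↥(W ⊓ F A) := by
    rw [c, c, c, c, ← pow_add, ← pow_add, ← k]
    exact Nat.pow_le_pow_right (Fact.out : p.Prime).pos
      (Nat.add_le_add_right (Submodule.finrank_mono (sup_le inf_le_right hle)) _)
  have pos : 0 < Nat.card (F A) := Nat.card_pos
  refine Nat.le_of_mul_le_mul_right ?_ pos
  calc Nat.card B * Nat.card ↥(W ⊓ F B) * Nat.card (F A) ≤ Nat.card B * Nat.card (F B) * Nat.card ↥(W ⊓ F A) := by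
        rw [mul_assoc, mul_assoc]; exact Nat.mul_le_mul_left _ k2
    _ ≤ Nat.card A * Nat.card (F A) * Nat.card ↥(W ⊓ F A) := Nat.mul_le_mul_right _ h
    _ = _ := by ring

end Cfsg.Agent.S3087
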