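import Cfsg.Statements.S3153
import Mathlib
import Cfsg.Agent.H9.Loc
import Cfsg.Agent.H9.PComp
import Cfsg.Agent.H9.Gen
import Cfsg.Agent.H9.QS
import Cfsg.Agent.H9.EA
import Cfsg.Agent.H9.Syl

set_option autoImplicit false
open Cfsg

namespace Cfsg.Agent.S3153

section
open Subgroup CfsgH9
open scoped commutatorElement

theorem zp2 {G : Type*} [Group G] [Finite G] {t x : G} (ht : orderOf t = 2) (hx : x ∈ zpowers t) :
    x = 1 ∨ x = t := by
  obtain ⟨k, hk⟩ := (mem_powers_iff_mem_zpowers.2 hx)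
  simp only at hk
  rw [← pow_mod_orderOf, ht] at hk
  rcases Nat.mod_two_eq_zero_or_one k with h | h
  · rw [h, pow_zero] at hk; exact Or.inl hk.symm
  · rw [h, pow_one] at hk; exact Or.inr hk.symm

theorem four {G : Type*} [Group G] [Finite G] {t u : G} (ht : orderOf t = 2) (hu : orderOf u = 2)
    (hc : t * u = u * t) (hne : u ≠ t) (O : Subgroup G) [O.Normal] (hO : (Nat.card O).Coprime 2)
    (h1 : ∀ y ∈ O, y * t = t * y → y * u = u * y) (h2 : ∀ y ∈ O, y * u = u * y → y * t = t * y) :
    O ≤ centralizer ({t * u} : Set G) := by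
  haveI : Fact (Nat.Prime 2) := ⟨Nat.prime_two⟩
  have tt : t * t = 1 := by rw [← pow_two, ← ht, pow_orderOf_eq_one]
  have uu : u * u = 1 := by rw [← pow_two, ← hu, pow_orderOf_eq_one]
  have t1 : t ≠ 1 := by rintro rfl; simp at ht
  have u1 : u ≠ 1 := by rintro rfl; simp at hu
  have e1 : ∀ x, t * (t * x) = x := fun x => by rw [← mul_assoc, tt, one_mul]
  have e2 : ∀ x, u * (t * x) = t * (u * x) := fun x => by rw [← mul_assoc, ← hc, mul_assoc]
  have hsq : ∀ x : G, (x = 1 ∨ x = t ∨ x = u ∨ x = t * u) → x * x = 1 := by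
    rintro x (rfl | rfl | rfl | rfl) <;> simp [mul_assoc, e1, e2, tt, uu]
  let A : Subgroup G :=
    { carrier := {x | x = 1 ∨ x = t ∨ x = u ∨ x = t * u}
      one_mem' := Or.inl rfl
      mul_mem' := by
        rintro a b (rfl | rfl | rfl | rfl) (rfl | rfl | rfl | rfl) <;>
          simp [mul_assoc, e1, e2, tt, uu, ← hc]
      inv_mem' := fun {x} hx => by rwa [inv_eq_of_mul_eq_one_right (hsq x hx)] }
  have hA : IsPGroup 2 A := fun x => ⟨1, Subtype.ext (by simpa [pow_two] using hsq x x.2)⟩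
  refine le_of_centralizers (A := A) (comm_bot_iff_forall.2 ?_) (fun h => ?_)
    le_normalizer_of_normal ?_ ?_
  · rintro a (rfl | rfl | rfl | rfl) b (rfl | rfl | rfl | rfl) <;>
      simp [mul_assoc, e1, e2, tt, uu, ← hc]
  · obtain ⟨a, ha, e⟩ := exists_zpowers_of_isCyclic h
    have hta : t ∈ zpowers a := e ▸ Or.inr (Or.inl rfl)
    have hua : u ∈ zpowers a := e ▸ Or.inr (Or.inr (Or.inl rfl))
    have a1 : a ≠ 1 := by
      rintro rfl
      rw [zpowers_one_eq_bot] at hta
      exact t1 hta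
    have ho : orderOf a = 2 := orderOf_eq_prime (by rw [pow_two]; exact hsq a ha) a1
    exact hne (((zp2 ho hua).resolve_left u1).trans ((zp2 ho hta).resolve_left t1).symm)
  · obtain ⟨k, hk⟩ := hA.exists_card_eq
    rw [hk]
    exact Nat.Coprime.pow_left _ hO.symm
  · rintro a (rfl | rfl | rfl | rfl) a1 y ⟨hy, hy'⟩
    · exact absurd rfl a1
    · have h3 := mem_centralizer_singleton_iff.1 hy'
      exact mem_centralizer_singleton_iff.2 (by
        rw [← mul_assoc, h3, mul_assoc, h1 y hy h3, mul_assoc])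
    · have h3 := mem_centralizer_singleton_iff.1 hy'
      exact mem_centralizer_singleton_iff.2 (by
        rw [← mul_assoc, h2 y hy h3, mul_assoc, h3, mul_assoc])
    · exact hy'

end

/-- Let X be a finite group and P a standard subgroup of X whose centralizer has 2-rank at most 1 and whose centre has odd order. Let S be a Sylow 2-subgroup of N_X(P) and t an involution of S centralizing P. Suppose some element g of X normalizes S, does not lie in S, has its square in S, and conjugates t into P·C_X(P). Then P commutes elementwise with the largest normal odd-order subgroup O(X) of X; consequently every t-invariant 2-component of X containing P is quasisimple. -/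
theorem result {X : Type*} [Group X] [Finite X] (P : Subgroup X) (hP : Cfsg.IsStandardSubgroup P)
    (hr : Cfsg.PRankLE 2 1 ↥(Subgroup.centralizer (P : Set X))) (hZ : Odd (Nat.card ↥(Subgroup.center ↥P)))
    (S : Sylow 2 ↥(Subgroup.normalizer (P : Set X))) (t : X) (ht : orderOf t = 2) (htS : t ∈ (S : Subgroup ↥(Subgroup.normalizer (P : Set X))).map (Subgroup.normalizer (P : Set X)).subtype)
    (htP : t ∈ Subgroup.centralizer (P : Set X))
    (g : X) (hgN : ∀ s ∈ (S : Subgroup ↥(Subgroup.normalizer (P : Set X))).map (Subgroup.normalizer (P : Set X)).subtype, g * s * g⁻¹ ∈ (S : Subgroup ↥(Subgroup.normalizer (P : Set X))).map (Subgroup.normalizer (P : Set X)).subtype)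
    (hgS : g ∉ (S : Subgroup ↥(Subgroup.normalizer (P : Set X))).map (Subgroup.normalizer (P : Set X)).subtype) (hg2 : g ^ 2 ∈ (S : Subgroup ↥(Subgroup.normalizer (P : Set X))).map (Subgroup.normalizer (P : Set X)).subtype)
    (hgt : g * t * g⁻¹ ∈ P ⊔ Subgroup.centralizer (P : Set X)) :
    ⁅P, Cfsg.oddCore X⁆ = ⊥ ∧
      ∀ L : Subgroup X, Cfsg.IsPComponent 2 L → P ≤ L → (∀ l ∈ L, t * l * t⁻¹ ∈ L) → Cfsg.IsQuasisimple ↥L := by
  open Subgroup CfsgH9 in
  haveI : Fact (Nat.Prime 2) := ⟨Nat.prime_two⟩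
  have qs : QS P := qs_iff.2 hP.1
  have hT := syl_of_sylow S
  generalize (S : Subgroup ↥(normalizer (P : Set X))).map (normalizer (P : Set X)).subtype = T at *
  have t1 : t ≠ 1 := by rintro rfl; simp at ht
  have hco : ∀ y : X, orderOf (y * t * y⁻¹) = 2 := fun y => by
    rw [← ht]; exact (MulAut.conj y).orderOf_eq t
  have hne1 : ∀ y : X, y * t * y⁻¹ ≠ 1 := fun y h => by
    have := hco y
    rw [h, orderOf_one] at this
    omega
  have hCN : ∀ y : X, y * t = t * y → y ∈ normalizer (P : Set X) := fun y hy => by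
    by_contra h
    rw [hP.2.2.2] at h
    have h1 := hP.2.1.2 y h
    have h2 : t ∈ centralizer (P : Set X) ⊓
        (centralizer (P : Set X)).map (MulAut.conj y).toMonoidHom :=
      ⟨htP, t, htP, by simp [hy]⟩
    have h3 := orderOf_dvd_natCard _ h2
    rw [ht] at h3
    exact (Nat.not_even_iff_odd.2 h1) (even_iff_two_dvd.2 h3)
  have hZT : ∀ s ∈ T, s * t * s⁻¹ = t := fun s hs => by
    have h1 : s ∈ normalizer (centralizer (P : Set X) : Set X) := hP.2.2.2 ▸ hT.le hs
    have h2 : s * t * s⁻¹ ∈ T ⊓ centralizer (P : Set X) :=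
      ⟨T.mul_mem (T.mul_mem hs htS) (T.inv_mem hs), (mem_normalizer_iff.1 h1 t).1 htP⟩
    have hp : IsPGroup 2 (T ⊓ centralizer (P : Set X) : Subgroup X) := hT.pg.to_le inf_le_left
    have hr' := pRankLE_mono hr (inf_le_right : T ⊓ centralizer (P : Set X) ≤ _)
    have h3 := om_eq_zpowers_of_rank_one hp hr' h2 (hco s)
    have h4 := om_eq_zpowers_of_rank_one hp hr' (x := t) ⟨htS, htP⟩ ht
    exact (zp2 ht (by rw [← h4, h3]; exact mem_zpowers _)).resolve_left (hne1 s)
  have hg2' := hZT _ hg2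
  have hut : (g * t * g⁻¹) * t * (g * t * g⁻¹)⁻¹ = t := hZT _ (hgN t htS)
  have ho := hco g
  have hu1 := hne1 g
  have hgu : g * (g * t * g⁻¹) * g⁻¹ = t := by
    refine Eq.trans ?_ hg2'
    simp only [pow_two, mul_inv_rev, mul_assoc]
  have hne : g * t * g⁻¹ ≠ t := fun h => by
    have h1 := hCN g (mul_inv_eq_iff_eq_mul.1 h)
    have h2 : g ∈ normalizer (T : Set X) := mem_normalizer_fintype hgN
    have h3 : IsPGroup 2 (zpowers g) := by
      obtain ⟨k, hk⟩ := hT.pg ⟨_, hg2⟩
      have hk' : g ^ 2 ^ (k + 1) = 1 := by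
        rw [pow_succ', pow_mul]; exact congrArg Subtype.val hk
      rintro ⟨x, n, rfl⟩
      exact ⟨k + 1, Subtype.ext (by
        show (g ^ n) ^ 2 ^ (k + 1) = 1
        rw [← zpow_natCast, ← zpow_mul, mul_comm, zpow_mul, zpow_natCast, hk', one_zpow])⟩
    have h4 := hT.eq_of_le (IsPGroup.to_sup_of_normal_left' hT.pg h3 (zpowers_le.2 h2)) le_sup_left
      (sup_le hT.le (zpowers_le.2 h1))
    exact hgS (h4 ▸ mem_sup_right (mem_zpowers g))
  generalize hu : g * t * g⁻¹ = u at *
  have hc : u * t = t * u := mul_inv_eq_iff_eq_mul.1 hut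
  have uu : u ^ 2 = 1 := by rw [← ho, pow_orderOf_eq_one]
  have hCPN : centralizer (P : Set X) ≤ normalizer (P : Set X) := centralizer_le_normalizer _
  have huN : u ∈ normalizer (P : Set X) := sup_le le_normalizer hCPN hgt
  have huC : u ∉ centralizer (P : Set X) := fun h =>
    hne ((zp2 ht (mem_zpowers_of_rank_one hr h htP uu ht hc)).resolve_left hu1)
  obtain ⟨p, hp, c, hcC, hp2, hc2, hpc⟩ : ∃ p ∈ P, ∃ c ∈ centralizer (P : Set X), p ^ 2 = 1 ∧
      c ^ 2 = 1 ∧ p * c = u := by
    have h1 : u ∈ ((P ⊔ centralizer (P : Set X) : Subgroup X) : Set X) := hgt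
    rw [coe_mul_of_right_le_normalizer_left _ _ hCPN] at h1
    obtain ⟨p, hp, c, hcC, e⟩ := h1
    simp only at e
    have cm : Commute p c := mem_centralizer_iff.1 hcC p hp
    have h2 : p ^ 2 * c ^ 2 = 1 := by rw [← cm.mul_pow, e, uu]
    have h3 : p ^ 2 ∈ centralizer (P : Set X) := by
      rw [eq_inv_of_mul_eq_one_left h2]; exact inv_mem (pow_mem hcC 2)
    have h4 : (⟨p ^ 2, pow_mem hp 2⟩ : P) ∈ center P :=
      mem_center_iff.2 fun y => Subtype.ext (mem_centralizer_iff.1 h3 y y.2)
    obtain ⟨m, hm⟩ := hZ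
    have h5 : (p ^ 2) ^ (2 * m + 1) = 1 := by
      have := orderOf_dvd_natCard _ h4
      rw [hm, orderOf_dvd_iff_pow_eq_one] at this
      exact congrArg Subtype.val this
    have h6 : p ^ (2 * m + 1) * c ^ (2 * m + 1) = u := by
      rw [← cm.mul_pow, e, pow_succ, pow_mul, uu, one_pow, one_mul]
    have h7 : (p ^ (2 * m + 1)) ^ 2 = 1 := by rw [← pow_mul, mul_comm, pow_mul, h5]
    refine ⟨_, pow_mem hp _, _, pow_mem hcC _, h7, ?_, h6⟩
    have := uu
    rwa [← h6, (cm.pow_pow _ _).mul_pow, h7, one_mul] at this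
  have hpt : p * t = t * p := mem_centralizer_iff.1 htP p hp
  have hct : c * t = t * c := by
    apply mul_left_cancel (a := p)
    rw [← mul_assoc, hpc, hc, ← mul_assoc, hpt, mul_assoc, hpc]
  have hcz := zp2 ht (mem_zpowers_of_rank_one hr hcC htP hc2 ht hct)
  have p1 : p ≠ 1 := by
    rintro rfl
    rw [one_mul] at hpc
    exact huC (hpc ▸ hcC)
  have hpo : orderOf p = 2 := orderOf_eq_prime hp2 p1
  have hodd : ∀ M : Subgroup X, (Nat.card M).Coprime 2 → ¬ P ≤ M := fun M hM h => by
    have := orderOf_dvd_natCard _ (h hp)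
    rw [hpo] at this
    exact absurd (Nat.Coprime.eq_one_of_dvd hM.symm this) (by norm_num)
  have hO : (Nat.card (pPrimeCore 2 X)).Coprime 2 := by
    rw [← Opp_top]; exact Opp_coprime 2 ⊤
  have key : ∀ y ∈ pPrimeCore 2 X, y * t = t * y → y * u = u * y := fun y hy h => by
    have h1 : ⁅zpowers y, P⁆ ≤ pPrimeCore 2 X ⊓ P :=
      le_inf ((commutator_mono (zpowers_le.2 hy) le_top).trans (commutator_le_left _ _))
        (commutator_le_right_of (zpowers_le.2 (hCN y h)))
    have h2 : ⁅pPrimeCore 2 X ⊓ P, P⁆ = ⊥ := by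
      exact (qs.norm _ inf_le_right ((le_inf le_normalizer_of_normal le_normalizer).trans
        inf_normalizer_le_normalizer_inf)).resolve_left fun e => hodd _ hO (e.ge.trans inf_le_left)
    have h3 := comm_bot_iff_forall.1 (comm_bot_of_perfect qs.perf (comm_bot_mono h2 h1 le_rfl))
      y (mem_zpowers y) p hp
    have h4 : y * c = c * y := by
      rcases hcz with rfl | rfl
      · simp
      · exact h
    rw [← hpc, ← mul_assoc, h3, mul_assoc, h4, mul_assoc]
  have key2 : ∀ y ∈ pPrimeCore 2 X, y * u = u * y → y * t = t * y := fun y hy h => by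
    have h1 := key (g * y * g⁻¹) (Normal.conj_mem inferInstance y hy g) (by
      rw [← hgu, conj_mul, conj_mul, h])
    rw [← hu, conj_mul, conj_mul] at h1
    simpa using h1
  have hw := four ht ho hc.symm hne _ hO key key2
  have hw' : t * u ∈ centralizer (pPrimeCore 2 X : Set X) :=
    mem_centralizer_iff.2 fun y hy => mem_centralizer_singleton_iff.1 (hw hy)
  have main : P ≤ centralizer (pPrimeCore 2 X : Set X) := by
    rcases qs.norm (centralizer (pPrimeCore 2 X : Set X) ⊓ P) inf_le_right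
      ((le_inf le_normalizer_of_normal le_normalizer).trans
        inf_normalizer_le_normalizer_inf) with e | e
    · exact e.ge.trans inf_le_left
    · exfalso
      have h1 : ⁅zpowers (t * u), P⁆ ≤ centralizer (pPrimeCore 2 X : Set X) ⊓ P :=
        le_inf ((commutator_mono (zpowers_le.2 hw') le_top).trans (commutator_le_left _ _))
          (commutator_le_right_of (zpowers_le.2 (mul_mem (hCPN htP) huN)))
      have h2 := comm_bot_iff.1 (comm_bot_of_perfect qs.perf (comm_bot_mono e h1 le_rfl))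
        (mem_zpowers _)
      exact huC (by simpa using mul_mem (inv_mem htP) h2)
  refine ⟨comm_bot_iff.2 main, fun L hL hPL _ => ?_⟩
  have hL' := pcomp_top_iff.2 hL
  have h1 : Opp 2 L ≤ pPrimeCore 2 X := Opp_top (G := X) 2 ▸ Opp_mono hL'.sn
  refine qs_iff.1 (hL'.pqs.qs_iff.2 ?_)
  rcases hL'.pqs.norm (centralizer (pPrimeCore 2 X : Set X) ⊓ L) inf_le_right
    ((le_inf le_normalizer_of_normal le_normalizer).trans
      inf_normalizer_le_normalizer_inf) with e | e
  · exact comm_bot_mono (comm_bot_iff.2 (e.ge.trans inf_le_left)) le_rfl h1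
  · exact absurd (qs.perf.ge.trans ((commutator_mono (le_inf main hPL) hPL).trans e))
      (hodd _ (Opp_coprime 2 L))

end Cfsg.Agent.S3153
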