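import Cfsg.Statements.S3155
import Cfsg.Agent.H3.Hv1

set_option autoImplicit false
open Cfsg

namespace Cfsg.Agent.S3155

/-- Let B be the direct product of three cyclic groups of order 4. Then the automorphism of B inverting every element is not the square of any automorphism of B. -/
theorem result {B : Type*} [CommGroup B] [Finite B] (hB : Nonempty (B ≃* Multiplicative (ZMod 4 × ZMod 4 × ZMod 4)))
    (τ : B ≃* B) : τ.trans τ ≠ MulEquiv.inv B := by
  intro h
  obtain ⟨e⟩ := hB
  let f : (ZMod 4 × ZMod 4 × ZMod 4) →+ (ZMod 4 × ZMod 4 × ZMod 4) :=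
        { toFun := fun v => (e (τ (e.symm (Multiplicative.ofAdd v)))).toAdd
          map_zero' := by simp
          map_add' := by intro a b; simp [ofAdd_add] }
  have hf : ∀ v, f v = (e (τ (e.symm (Multiplicative.ofAdd v)))).toAdd := fun v => rfl
  have hff : ∀ v, f (f v) = -v := by
    intro v
    have := DFunLike.congr_fun h (e.symm (Multiplicative.ofAdd v))
    simp only [MulEquiv.trans_apply, MulEquiv.inv_apply] at this
    rw [hf, hf]; simp [this]
  let L := f.toZModLinearMap 4
  have hL : L ∘ₗ L = (-1 : ZMod 4) • LinearMap.id := by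
    refine LinearMap.ext fun v => ?_
    simpa [L] using hff v
  have hd := congrArg LinearMap.det hL
  rw [LinearMap.det_comp, LinearMap.det_smul, LinearMap.det_id] at hd
  have h3 : Module.finrank (ZMod 4) (ZMod 4 × ZMod 4 × ZMod 4) = 3 := by
    haveI : Nontrivial (ZMod 4) := ⟨⟨0, 1, by decide⟩⟩
    rw [Module.finrank_prod, Module.finrank_prod, Module.finrank_self]
  rw [h3] at hd
  revert hd
  generalize LinearMap.det L = d
  revert d
  decide


end Cfsg.Agent.S3155
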