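import Mathlib
import Cfsg.Statements.S3156
import Cfsg.Agent.H8.U3f

set_option autoImplicit false
open Cfsg

namespace Cfsg.Agent.S3156

open CfsgH8 CfsgH5

/-- If a finite group T is isomorphic to a Sylow 2-subgroup of the projective special unitary group of dimension 3 with parameter 4 (realised over the field with 16 elements), then no subgroup of the automorphism group of T is isomorphic to the symmetric group of degree 3. -/
theorem result {T : Type*} [Group T] [Finite T] (hT : (∃ (F : Type) (_ : Field F) (_ : Fintype F), Fintype.card F = 16 ∧ ∃ S : Sylow 2 (Cfsg.PSU 3 F 4), Nonempty (T ≃* ↥(S : Subgroup (Cfsg.PSU 3 F 4))))) (H : Subgroup (MulAut T)) : ¬ Nonempty (↥H ≃* Equiv.Perm (Fin 3)) := by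
  rintro ⟨f⟩
  obtain ⟨F, _, _, hF, S, ⟨e1⟩⟩ := hT
  haveI : CharP F 2 := charP_of_card_eq_prime_pow (p := 2) (f := 4) hF
  obtain ⟨σ, hU⟩ := exists_UF (F := F) (q := 2 ^ 2) hF
  haveI hs : Fact (∀ a, σ (σ a) = a) := ⟨hU.invol⟩
  obtain ⟨α, hα⟩ := exists_alpha hU.ne_id hs.out
  obtain ⟨e2⟩ := sylow_PSU3_iso hU S
  let j : Equiv.Perm (Fin 3) →* MulAut (Hs σ) :=
    (MulAut.congr (e1.trans e2)).toMonoidHom.comp (H.subtype.comp f.symm.toMonoidHom)
  have hj : Function.Injective j := (MulAut.congr (e1.trans e2)).injective.comp (H.subtype_injective.comp f.symm.injective)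
  set ρ := j (Equiv.swap 0 1 * Equiv.swap 1 2) with hρ
  set τ := j (Equiv.swap 0 1) with hτ
  have h1 : ρ * ρ * ρ = 1 := by
    rw [hρ, ← map_mul, ← map_mul, ← map_one j]; congr 1; decide
  have h2 : τ * τ = 1 := by
    rw [hτ, ← map_mul, ← map_one j]; congr 1; decide
  have h3 : ρ * τ * ρ = τ := by
    rw [hρ, hτ, ← map_mul, ← map_mul]; congr 1; decide
  have h4 : ρ ≠ 1 := fun h => absurd (hj (h.trans (map_one j).symm)) (by decide)
  obtain ⟨l, hl, φ, hφ⟩ := Hs.aut_form hα ρ
  obtain ⟨m, hm, ψ, hψ⟩ := Hs.aut_form hα τ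
  obtain ⟨φ0, f1, f2, f3⟩ := exists_frob8 (p := 2) (f := 4) hF
  have e3 : ∀ y, l * φ (l * φ (l * φ y)) = y := fun y => by
    have := congrArg (fun θ : MulAut (Hs σ) => (θ (Hs.lift hα y)).y) h1
    simpa [hφ, Hs.lift] using this
  have e4 : ∀ y, m * ψ (m * ψ y) = y := fun y => by
    have := congrArg (fun θ : MulAut (Hs σ) => (θ (Hs.lift hα y)).y) h2
    simpa [hψ, Hs.lift] using this
  have e5 : l * φ (m * ψ l) = m := by
    have := congrArg (fun θ : MulAut (Hs σ) => (θ (Hs.lift hα 1)).y) h3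
    simpa [hφ, hψ, Hs.lift] using this
  have g1 : φ = 1 := by
    have a1 : φ ^ 3 = 1 := by
      ext y
      have b1 := e3 y
      have b2 := e3 1
      simp only [map_mul, map_one, mul_one] at b1 b2
      change φ (φ (φ y)) = y
      linear_combination b1 - φ (φ (φ y)) * b2
    have a2 : φ ^ 4 = 1 := by rw [← card_ringAut8 (p := 2) (f := 4) hF]; exact pow_card_eq_one'
    rw [pow_succ, a1, one_mul] at a2
    exact a2
  subst g1
  have l3 : l * (l * l) = 1 := by simpa using e3 1
  have g2 : ψ l = l := by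
    have a1 : ψ ^ 2 = 1 := by
      ext y
      have b1 := e4 y
      have b2 := e4 1
      simp only [map_mul, map_one, mul_one] at b1 b2
      change ψ (ψ y) = y
      linear_combination b1 - ψ (ψ y) * b2
    obtain ⟨k, rfl⟩ := f3 ψ
    simp only at a1 ⊢
    rw [← zpow_natCast, ← zpow_mul, ← orderOf_dvd_iff_zpow_eq_one, f2] at a1
    obtain ⟨c, hc⟩ := a1
    have a2 : k = 2 * c := by push_cast at hc; omega
    have a3 : φ0 ^ (2 : ℤ) ∈ MulAction.stabilizer (F ≃+* F) l := by
      change φ0 (φ0 l) = l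
      rw [f1, f1]
      linear_combination l * l3
    rw [a2, zpow_mul]
    exact zpow_mem a3 c
  have g3 : l = 1 := by
    rw [g2] at e5
    have : l * l = 1 := mul_left_cancel₀ hm (by simpa [mul_comm, mul_left_comm] using e5)
    rwa [this, mul_one] at l3
  have g4 : ρ ^ 2 = 1 := (Hs.kerA_ea hU).2 ρ fun a => by rw [hφ, g3]; simp
  rw [← pow_two, g4, one_mul] at h1
  exact h4 h1

end Cfsg.Agent.S3156
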