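import Mathlib
import Cfsg.Statements.S3162
import Cfsg.Agent.H8.U3f

set_option autoImplicit false
open Cfsg

namespace Cfsg.Agent.S3162

open CfsgH8 CfsgH5

/-- Let S be a Sylow 2-subgroup of the special unitary group of dimension 3 with parameter q = 2^n (n ≥ 2; realised over the field with q² elements). Then the largest normal 2-subgroup of the automorphism group of S is elementary abelian of order 2^(2n²), and the automorphism group has order 2^(2n²) · 2n(q² − 1). -/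
theorem result {S : Type*} [Group S] [Finite S] (n : ℕ) (hn : 2 ≤ n) {F : Type*} [Field F] [Fintype F] (hF : Fintype.card F = 4 ^ n)
    (P : Sylow 2 ↥(Cfsg.SU 3 F (2 ^ n))) (hS : Nonempty (S ≃* ↥(P : Subgroup ↥(Cfsg.SU 3 F (2 ^ n))))) :
    Cfsg.IsElementaryAbelian 2 (Cfsg.pCore 2 (MulAut S)) ∧ Nat.card ↥(Cfsg.pCore 2 (MulAut S)) = 2 ^ (2 * n ^ 2) ∧
      Nat.card (MulAut S) = 2 ^ (2 * n ^ 2) * (2 * n * ((2 ^ n) ^ 2 - 1)) := by
  have hF' : Fintype.card F = (2 ^ n) ^ 2 := by rw [hF, ← pow_mul, mul_comm, pow_mul]; norm_num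
  haveI : CharP F 2 := charP_of_card_eq_prime_pow (p := 2) (f := n * 2) (by rw [hF', pow_mul])
  obtain ⟨σ, H⟩ := exists_UF hF'
  haveI hs : Fact (∀ a, σ (σ a) = a) := ⟨H.invol⟩
  obtain ⟨e1⟩ := hS
  obtain ⟨e2⟩ := sylow_SU3_iso H P
  let E := MulAut.congr (e1.trans e2)
  have hE := CfsgH1.map_pCore_equiv 2 E
  rw [Hs.pCore_eq H] at hE
  have hm : ∀ θ ∈ Cfsg.pCore 2 (MulAut S), E θ ∈ Hs.kerA σ := fun θ hθ => hE ▸ ⟨θ, hθ, rfl⟩
  obtain ⟨h1, h2⟩ := Hs.kerA_ea H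
  refine ⟨⟨⟨⟨fun a b => Subtype.ext (E.injective ?_)⟩⟩, fun a ha => E.injective ?_⟩, ?_, ?_⟩
  · rw [Subgroup.coe_mul, Subgroup.coe_mul, map_mul, map_mul]
    exact congrArg Subtype.val (h1.is_comm.comm ⟨_, hm _ a.2⟩ ⟨_, hm _ b.2⟩)
  · rw [map_pow, map_one]
    exact h2 _ (hm _ ha)
  · rw [← Hs.card_kerA H, ← hE]
    exact (Subgroup.card_map_of_injective E.injective).symm
  · rw [← Hs.card_aut H]
    exact Nat.card_congr E.toEquiv

end Cfsg.Agent.S3162
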