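import Cfsg.Statements.S3178
import Cfsg.Agent.H3.Hv2

set_option autoImplicit false
open Cfsg

namespace Cfsg.Agent.S3178
open Subgroup CfsgH2 CfsgHv MulAction
open CfsgH4 (GQ mul_inv_mem_of_relIndex_two mem_cent_of_odd_cyclic gq_of_equiv npc_of_cyclic)
open scoped commutatorElement

/-- Groups with a modular Sylow 2-subgroup have a normal 2-complement. Let S, of order 2^(n+1) with n ≥ 3, be a Sylow 2-subgroup of a finite group G, and suppose S contains an element a of order 2^n and an involution b with b a b⁻¹ = a^(2^(n-1) + 1); so S is the non-abelian 2-group with a cyclic subgroup of index 2 that is neither dihedral, semidihedral nor generalized quaternion. Then G has a normal 2-complement. -/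
theorem result {G : Type*} [Group G] [Finite G]
    (S : Sylow 2 G) (n : ℕ) (hn : 3 ≤ n) (hS : Nat.card ↥(S : Subgroup G) = 2 ^ (n + 1))
    (a b : G) (ha : a ∈ (S : Subgroup G)) (hb : b ∈ (S : Subgroup G))
    (hao : orderOf a = 2 ^ n) (hbo : orderOf b = 2) (hrel : b * a * b⁻¹ = a ^ (2 ^ (n - 1) + 1)) :
    Cfsg.HasNormalPComplement 2 G := by
  obtain ⟨m, rfl⟩ : ∃ m, n = m + 1 := ⟨n - 1, by omega⟩
  rw [Nat.add_sub_cancel, pow_succ'] at hrel
  have hz := half_sq hao
  have z1 := half_ne_one hao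
  have b2 : b * b = 1 := CfsgL0.inv_mul_self hbo
  have bn : b ∉ zpowers a := fun h => by
    rw [← commute_of_mem_zpowers (mem_zpowers a) h, mul_inv_cancel_right, left_eq_mul] at hrel
    exact z1 hrel
  have nb : b ∈ N[zpowers a] := mem_norm_zpowers (hrel ▸ mul_mem (mem_zpowers a) (pow_mem (mem_zpowers a) _))
  have h : Cy2 (S : Subgroup G) a b m := ⟨hao, bn, eq_of_le_of_card_le (sup_le (zpowers_le.2 ha) (zpowers_le.2 hb))
    (by rw [card_sup_zpowers_prime Nat.prime_two nb (by rw [pow_two, b2]; exact one_mem _) bn, Nat.card_zpowers, hao, hS,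
      pow_succ 2 (m + 1)]), by rw [pow_two, b2]; exact one_mem _, nb⟩
  have hV := h.omega_modular (by omega) (by rw [pow_two, b2]) hrel
  set V := omegaOne 2 (S : Subgroup G)
  set z := a ^ 2 ^ m with hzd
  have zo : orderOf z = 2 := CfsgL0.orderOf_two_iff.2 ⟨hz, z1⟩
  have zS : z ∈ (S : Subgroup G) := pow_mem ha _
  have zV : z ∈ V := mem_omegaOne zS (by rw [pow_two, hz])
  have bV : b ∈ V := mem_omegaOne hb (by rw [pow_two, b2])
  have cz : Commute a z := (Commute.refl a).pow_right _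
  have zC := h.half_central
  -- squares in `S`
  have sq : ∀ y ∈ (S : Subgroup G), y * y ∈ zpowers a := fun y hy => by
    rw [← pow_two, ← h.relIndex]; exact pow_relIndex_mem' h.le_norm hy
  have nz : N[V] ≤ C1[z] := fun g hg => by
    have s1 := ((syl_top S).mono le_norm_omegaOne le_top).inf_norm (CfsgH2.cent_le_norm V) (le_norm_cent le_norm_omegaOne)
    obtain ⟨c, hc, k, hk, rfl⟩ := s1.frattini (norm_le_norm_cent _ hg)
    refine mul_mem (cent_le_cent1 zV hc) (mem_centralizer_singleton_iff.2 (mul_inv_eq_iff_eq_mul.1 ?_))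
    obtain ⟨l, rfl⟩ : ∃ l, m = l + 2 := ⟨m - 2, by omega⟩
    have hw : a ^ 2 ^ (l + 1) ∈ (S : Subgroup G) ⊓ C[V] := by
      refine mem_inf.2 ⟨pow_mem ha _, mem_cent_iff.2 fun v hv => ?_⟩
      have e1 : b * a ^ 2 ^ (l + 1) * b⁻¹ = a ^ 2 ^ (l + 1) := by
        rw [← conj_pow, hrel, cz.mul_pow, pow_succ' 2 l, pow_mul z, pow_two z, hz, one_pow, mul_one]
      rcases h.mem_iff.1 (omegaOne_le hv) with h1 | h1
      · exact commute_of_mem_zpowers h1 (pow_mem (mem_zpowers a) _)
      · have := commute_of_mem_zpowers h1 (pow_mem (mem_zpowers a) (2 ^ (l + 1)))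
        calc v * a ^ 2 ^ (l + 1) = v * b⁻¹ * (b * a ^ 2 ^ (l + 1) * b⁻¹) * b := by group
          _ = _ := by rw [e1, this]; group
    have h3 := sq _ (conj_mem_of_norm hk hw).1
    have e2 : k * a ^ 2 ^ (l + 1) * k⁻¹ * (k * a ^ 2 ^ (l + 1) * k⁻¹) = k * z * k⁻¹ := by
      rw [hzd, pow_succ 2 (l + 1), pow_mul, pow_two]; group
    rw [e2] at h3
    exact (eq_half_of_sq hao h3 (CfsgL0.conj_mul_self hz k)).resolve_left (by simpa using z1)
  refine npc_top_iff.2 ((syl_top S).frobenius_npc fun Q hQ _ g _ hn hc => ?_)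
  have go : Odd (orderOf g) := Nat.coprime_two_right.1 hc
  have pQ := S.isPGroup'.to_le hQ
  have hW : g ∈ C[omegaOne 2 Q] := by
    have l1 : omegaOne 2 Q ≤ V := omegaOne_mono hQ
    have nW := norm_le_norm_omegaOne (p := 2) hn
    rcases l1.eq_or_lt with e | e
    · rw [e] at nW ⊢
      exact cent_of_four hV.card.dvd zV zo go nW (nz nW)
    · have h4 := mul_card_dvd_of_lt hV.pg e
      rw [hV.card, pow_two] at h4
      refine cent_of_relIndex (W := ⊥) (hV.pg.to_le l1) bot_le ?_ go nW (by rw [cent_bot]; trivial)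
      rw [relIndex_bot_left]
      exact Nat.dvd_of_mul_dvd_mul_right two_pos h4
  obtain ⟨x, -, hx⟩ := exists_sup_of_cyc (V := V) le_norm_omegaOne (h.sup.ge.trans (sup_le le_sup_right
      ((zpowers_le.2 bV).trans le_sup_left))) (le_norm_omegaOne ha) hQ
  exact cent_of_sup pQ hx go hn (cent_anti (le_omegaOne inf_le_left fun y hy => hV.exp y hy.2) hW)


end Cfsg.Agent.S3178
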