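import Cfsg.Statements.S3180
import Cfsg.Agent.H3.Hv1

set_option autoImplicit false
open Cfsg

namespace Cfsg.Agent.S3180
open Subgroup CfsgH2 CfsgHv MulAction

/-- Let P be a Sylow p-subgroup of a finite group J and P₁ a subgroup of P that is weakly closed in P with respect to J. If J acts on a set and two points, each fixed by every element of P₁, lie in one J-orbit, then they lie in one orbit of the normalizer of P₁ in J. -/
theorem result {J : Type*} [Group J] [Finite J]
    {p : ℕ} [Fact p.Prime] (P : Sylow p J) (P₁ : Subgroup J) (hW : Cfsg.IsWeaklyClosed P₁ (P : Subgroup J))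
    {Ω : Type*} [MulAction J Ω] (x y : Ω) (hx : ∀ g ∈ P₁, g • x = x) (hy : ∀ g ∈ P₁, g • y = y)
    (hc : ∃ g : J, g • x = y) :
    ∃ g ∈ Subgroup.normalizer (P₁ : Set J), g • x = y := by
  obtain ⟨g, rfl⟩ := hc
  have hp1 : IsPGroup p P₁ := P.isPGroup'.to_le hW.1
  have l1 : P₁ ≤ stabilizer J (g • x) := fun a ha => hy a ha
  have l2 : P₁.map (cj g) ≤ stabilizer J (g • x) := map_cj_le_iff'.2 fun a ha => by
    simp [mem_stabilizer_iff, smul_smul, mul_assoc, mul_smul, hx a ha]
  obtain ⟨Q, hQ, hle⟩ := exists_syl_ge hp1 l1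
  obtain ⟨h, hh, h3⟩ := hQ.exists_conj_le (hp1.map _) l2
  obtain ⟨k, -, h4⟩ := (syl_top P).exists_conj_le hQ.pg le_top
  have e1 : P₁.map (cj k) = P₁ := hW.2 k ((map_mono hle).trans h4)
  have e2 : P₁.map (cj (k * (h * g))) = P₁ := hW.2 _ (by
    rw [cj_def, ← map_cj_cj, ← map_cj_cj]; exact (map_mono h3).trans h4)
  have := N[P₁].mul_mem (N[P₁].inv_mem (map_cj_eq_iff.1 e1)) (map_cj_eq_iff.1 e2)
  rw [inv_mul_cancel_left] at this
  exact ⟨h * g, this, by rw [mul_smul]; exact hh⟩


end Cfsg.Agent.S3180
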