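import Cfsg.Statements.S3183
import Cfsg.Agent.H3.Hv1

set_option autoImplicit false
open Cfsg

namespace Cfsg.Agent.S3183
open Subgroup CfsgH2 CfsgHv MulAction

/-- Let G be a finite group in which the intersection of any two distinct Sylow 2-subgroups is contained in the centre of some Sylow 2-subgroup, and let S be a Sylow 2-subgroup. Then for every x in S the centralizer of x in S is a Sylow 2-subgroup of the centralizer of x in G (no 2-subgroup centralizing x is larger), and for every other Sylow 2-subgroup T the intersection S ∩ T lies in both the centre of S and the centre of T. -/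
theorem result {G : Type*} [Group G] [Finite G]
    (hCI : ∀ S T : Sylow 2 G, S ≠ T → ∃ U : Sylow 2 G,
      (S : Subgroup G) ⊓ (T : Subgroup G) ≤ (Subgroup.center ↥(U : Subgroup G)).map (U : Subgroup G).subtype)
    (S : Sylow 2 G) :
    (∀ x ∈ (S : Subgroup G), ∀ P : Subgroup G, IsPGroup 2 ↥P → P ≤ Subgroup.centralizer ({x} : Set G) →
        Nat.card ↥P ≤ Nat.card ↥((S : Subgroup G) ⊓ Subgroup.centralizer ({x} : Set G))) ∧
    (∀ T : Sylow 2 G, T ≠ S →
        (S : Subgroup G) ⊓ (T : Subgroup G) ≤
          (Subgroup.center ↥(S : Subgroup G)).map (S : Subgroup G).subtype ⊓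
            (Subgroup.center ↥(T : Subgroup G)).map (T : Subgroup G).subtype) := by
  have key : ∀ n, ∀ S T : Subgroup G, Syl 2 S ⊤ → Syl 2 T ⊤ → S ≠ T → (S ⊓ T).index = n → S ⊓ T ≤ C[S] := by
    intro n
    induction n using Nat.strong_induction_on with
    | _ n ih =>
    intro S T hS hT hne hn
    obtain ⟨S', rfl⟩ := hS.exists_top
    obtain ⟨T', rfl⟩ := hT.exists_top
    obtain ⟨U, hU⟩ := hCI S' T' fun h => hne (by rw [h])
    rw [map_center_subtype] at hU
    set D : Subgroup G := S' ⊓ T'
    have hUC : (U : Subgroup G) ≤ C[D] := le_centralizer_iff.1 (hU.trans inf_le_right)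
    have h1 : Syl 2 (U : Subgroup G) N[D] := (syl_top U).mono (hUC.trans (cent_le_norm _)) le_top
    have h2 := lt_inf_norm (nil_of_pg hS.pg) (syl_inf_lt hS hT hne)
    obtain ⟨g, hg, h3⟩ := h1.exists_le_conj (hS.pg.to_le (inf_le_left : (S' : Subgroup G) ⊓ N[D] ≤ _)) inf_le_right
    have h4 : (U : Subgroup G).map (cj g) ≤ C[D] := map_cj_le_of_norm hUC (norm_le_norm_cent _ hg)
    by_cases e : (S' : Subgroup G) = (U : Subgroup G).map (cj g)
    · exact le_centralizer_iff.1 (e ▸ h4)
    · have h5 := h2.trans_le (le_inf inf_le_left h3)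
      exact h5.le.trans (ih _ (hn ▸ index_lt_of_lt h5) _ _ hS ((syl_top U).map_cj_mem (mem_top g)) e rfl)
  refine ⟨fun x hx P hP hle => ?_, fun T hT => ?_⟩
  · obtain ⟨T, hT, h1⟩ := exists_syl_ge (M := ⊤) (isPGroup_sup hP (S.isPGroup'.to_le (zpowers_le.2 hx))
      (Or.inl (le_norm_of_le_cent (cent_zpowers x ▸ hle)))) le_top
    by_cases e : (S : Subgroup G) = T
    · exact card_le_of_le (le_inf (e ▸ le_sup_left.trans h1) hle)
    · have := key _ _ _ (syl_top S) hT e rfl (mem_inf.2 ⟨hx, h1 (mem_sup_right (mem_zpowers x))⟩)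
      rw [inf_eq_left.2 (le_cent1_iff.2 this)]
      exact (syl_top S).card_le hP le_top
  · have hne : (S : Subgroup G) ≠ T := fun h => hT (Sylow.ext h.symm)
    rw [map_center_subtype, map_center_subtype]
    refine le_inf (le_inf inf_le_left (key _ _ _ (syl_top S) (syl_top T) hne rfl)) (le_inf inf_le_right ?_)
    rw [inf_comm]; exact key _ _ _ (syl_top T) (syl_top S) hne.symm rfl


end Cfsg.Agent.S3183
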