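import Cfsg.Statements.S3190
import Cfsg.Agent.H3.Hv1

set_option autoImplicit false
open Cfsg

namespace Cfsg.Agent.S3190
open Subgroup CfsgH2 CfsgHv MulAction
open scoped commutatorElement

/-- Let p be an odd prime and, inside a finite group, let P be a p-subgroup normalized by a Klein four-group T. Let R be a subgroup of P, normal in P and normalized by T, such that P is the product of R with the centralizer of T in P. If T centralizes the centre of P, then T centralizes the centre of R. -/
theorem result {X : Type*} [Group X] [Finite X]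
    {p : ℕ} (hp : p.Prime) (hodd : Odd p) (P T R : Subgroup X) (hP : IsPGroup p ↥P) (hT : IsKleinFour ↥T)
    (hTP : T ≤ Subgroup.normalizer (P : Set X)) (hRP : R ≤ P) (hRn : (R.subgroupOf P).Normal)
    (hTR : T ≤ Subgroup.normalizer (R : Set X)) (hfac : R ⊔ (P ⊓ Subgroup.centralizer (T : Set X)) = P)
    (hZ : T ≤ Subgroup.centralizer (((Subgroup.center ↥P).map P.subtype : Subgroup X) : Set X)) :
    T ≤ Subgroup.centralizer (((Subgroup.center ↥R).map R.subtype : Subgroup X) : Set X) := by
  haveI := Fact.mk hp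
  rw [map_center_subtype] at hZ ⊢
  have hn : P ≤ N[R] := (normal_subgroupOf_iff' hRP).1 hRn
  have nZ : T ≤ N[Z[R]] := hTR.trans norm_le_norm_center
  have pZ : PG[p, Z[R]] := hP.to_le (inf_le_left.trans hRP)
  have hc : o[T].Coprime o[Z[R]] := by
    refine coprime_of_not_dvd ?_ pZ
    rw [klein_card hT]
    intro h
    have := (Nat.prime_dvd_prime_iff_eq hp Nat.prime_two).1 (hp.dvd_of_dvd_pow (n := 2) h)
    subst this; exact absurd hodd (by decide)
  have h1 := coprime_comm_inf_cent (isMulComm_cent_inf R) nZ hc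
  have l1 : ⁅Z[R], T⁆ ≤ Z[R] := comm_le_left nZ
  have h2 : P ≤ N[⁅Z[R], T⁆] := by
    rw [← hfac]
    refine sup_le (le_norm_of_le_cent (le_cent_center.trans (cent_anti l1))) ?_
    exact le_norm_commutator (inf_le_left.trans (hn.trans norm_le_norm_center))
      (inf_le_right.trans (cent_le_norm _))
  by_contra h3
  have h4 : ⁅Z[R], T⁆ ≠ ⊥ := fun h => h3 (le_centralizer_iff.1 (comm_eq_bot_iff.1 h))
  refine inf_cent_ne_bot' hP (pZ.to_le l1) h2 h4 (le_bot_iff.1 (h1 ▸ le_inf inf_le_left ?_))
  exact le_trans (inf_le_inf_right _ (l1.trans (inf_le_left.trans hRP))) (le_centralizer_iff.1 hZ)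


end Cfsg.Agent.S3190
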