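import Cfsg.Statements.S3195
import Cfsg.Agent.H3.Hv3
import Cfsg.Agent.S0200

set_option autoImplicit false
open Cfsg

namespace Cfsg.Agent.S3195
open Subgroup CfsgH2 CfsgHv MulAction

/-- Let A be a Klein four-subgroup of a finite group G. If every G-conjugate of every involution of A commutes with some involution of A (its centralizer meets A nontrivially), then A meets the largest normal 2-subgroup O₂(G) nontrivially. -/
theorem result {G : Type*} [Group G] [Finite G]
    (A : Subgroup G) (hA : IsKleinFour ↥A)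
    (h : ∀ a ∈ A, a ≠ 1 → ∀ g : G, A ⊓ Subgroup.centralizer ({g * a * g⁻¹} : Set G) ≠ ⊥) :
    A ⊓ Cfsg.pCore 2 G ≠ ⊥ := by
  intro h0
  have hc : ∀ a ∈ A, a ≠ 1 → ∀ g : G, ∃ d ∈ A, d ≠ 1 ∧ Commute d (g * a * g⁻¹) := fun a ha a1 g => by
    obtain ⟨d, hd, d1⟩ := exists_ne_one (h a ha a1 g)
    exact ⟨d, hd.1, d1, mem_centralizer_singleton_iff.1 hd.2⟩
  have cm : ∀ {a b : G}, a ∈ A → b ∈ A → Commute a b := fun ha hb => klein_comm hA ha hb
  have cj2 : ∀ {a r : G}, a * r * a⁻¹ = r⁻¹ → r * a * r⁻¹ = r ^ 2 * a := fun {a r} e => by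
    have : a * r⁻¹ = r * a := by
      have := congrArg Inv.inv e
      rw [inv_inv] at this
      conv_rhs => rw [← this]
      group
    rw [mul_assoc, this, sq, mul_assoc]
  have key : ∀ a ∈ A, a ≠ 1 → ∃ r : G, r ≠ 1 ∧ Odd (orderOf r) ∧ a * r * a⁻¹ = r⁻¹ ∧
      ∃ b ∈ A, b ≠ 1 ∧ b ≠ a ∧ Commute r b := fun a ha a1 => by
    obtain ⟨r, r1, ro, e⟩ := Cfsg.Agent.S0200.result a
      (orderOf_eq_prime (by rw [sq]; exact klein_sq hA ha) a1) fun N _ hN hm =>
        a1 (mem_bot.1 (h0 ▸ mem_inf.2 ⟨ha, le_pCore hN hm⟩))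
    obtain ⟨d, hd, d1, c⟩ := hc a ha a1 r
    rw [cj2 e] at c
    have c2 : Commute r d := comm_of_sq ro (by simpa using (c.mul_right (cm hd ha).inv_right).symm)
    exact ⟨r, r1, ro, e, d, hd, d1, fun e' => r1 (eq_one_of_comm_inv ro e (e' ▸ c2)), c2⟩
  obtain ⟨a0, ha0, a01, -⟩ := klein_other hA 1
  obtain ⟨r, r1, ro, er0, b, hb, b1, ba0, rb⟩ := key a0 ha0 a01
  obtain ⟨s, s1, so, es, a, ha, a1, ab, sa⟩ := key b hb b1
  have er : a * r * a⁻¹ = r⁻¹ := by
    rcases klein_mem hA ha0 hb a01 b1 ba0.symm ha with h | h | h | h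
    · exact absurd h a1
    · rw [h, er0]
    · exact absurd h ab
    · rw [h, ← er0, mul_assoc a0 b, ← rb.eq]; group
  have es' : a * b * s * (a * b)⁻¹ = s⁻¹ := by
    rw [mul_inv_rev, mul_assoc a, mul_assoc a, ← mul_assoc (b * s), es, ← mul_assoc, ← sa.inv_left.eq]; group
  have er' : a * b * r * (a * b)⁻¹ = r⁻¹ := by
    rw [← er, mul_assoc a b, ← rb.eq]; group
  have ab1 : a * b ≠ 1 := fun e => ab (mul_right_cancel (e.trans (klein_sq hA hb).symm))
  obtain ⟨d, hd, d1, c⟩ := hc a ha a1 (s⁻¹ * r)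
  have c1 : Commute (s * d * s⁻¹) (r ^ 2 * a) := by
    rw [← cj2 er]
    simpa [mul_assoc] using c.conj s
  rcases klein_mem hA ha hb a1 b1 ab hd with h | h | h | h
  · exact d1 h
  · rw [h, sa.eq, mul_inv_cancel_right] at c1
    exact r1 (eq_one_of_comm_inv ro er (comm_of_sq ro
      (by simpa using (c1.mul_right (Commute.refl a).inv_right).symm)))
  · rw [h, cj2 es] at c1
    have c2 : Commute r (s ^ 2 * b) := comm_of_sq ro (by
      simpa using (c1.mul_right ((sa.pow_left 2).mul_left (cm hb ha)).inv_right).symm)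
    have c3 : Commute s r := comm_of_sq so (by simpa using (c2.mul_right rb.inv_right).symm)
    have ers : a * b * (r * s) * (a * b)⁻¹ = (r * s)⁻¹ := by
      rw [← conj_mul, es', er', mul_inv_rev, c3.inv_inv.eq]
    have rso : Odd (orderOf (r * s)) := (ro.mul so).of_dvd_nat c3.symm.orderOf_mul_dvd_mul_orderOf
    obtain ⟨d, hd, d1, c⟩ := hc (a * b) (mul_mem ha hb) ab1 (r * s)
    rw [cj2 ers] at c
    have c4 : Commute (r * s) d := comm_of_sq rso (by
      simpa only [mul_inv_cancel_right] using (c.mul_right (cm hd (mul_mem ha hb)).inv_right).symm)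
    rcases klein_mem hA ha hb a1 b1 ab hd with h | h | h | h
    · exact d1 h
    · exact r1 (eq_one_of_comm_inv ro er (by simpa using (h ▸ c4 : Commute (r * s) a).mul_left sa.inv_left))
    · exact s1 (eq_one_of_comm_inv so es (by simpa using rb.inv_left.mul_left (h ▸ c4 : Commute (r * s) b)))
    · have := eq_one_of_comm_inv rso ers (h ▸ c4)
      exact r1 (eq_one_of_comm_inv ro er (by rw [eq_inv_of_mul_eq_one_left this]; exact sa.inv_left))
  · rw [h, cj2 es'] at c1
    have c2 : Commute r (s ^ 2 * (a * b)) := comm_of_sq ro (by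
      simpa using (c1.mul_right ((sa.pow_left 2).mul_left (cm (mul_mem ha hb) ha)).inv_right).symm)
    have c3 : Commute r (s ^ 2 * a) := by simpa [mul_assoc] using c2.mul_right rb.inv_right
    have e3 : s ^ 2 * r⁻¹ * (s ^ 2)⁻¹ = r := by
      rw [← er]
      have := c3.eq
      calc _ = (s ^ 2 * a * r) * (s ^ 2 * a)⁻¹ := by group
        _ = r := by rw [← this]; group
    have e4 : s ^ 2 * r * (s ^ 2)⁻¹ = r⁻¹ := by
      conv_rhs => rw [← e3]
      group
    have o2 : Odd (orderOf (s ^ 2)) := so.of_dvd_nat (orderOf_pow_dvd 2)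
    exact r1 (eq_one_of_comm_inv ro e4 (comm_of_sq o2
      (mem_centralizer_singleton_iff.1 (CfsgH1.mem_cent1_of_sq e4))).symm)


end Cfsg.Agent.S3195
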