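import Cfsg.Statements.S3196
import Cfsg.Agent.H2.Pq4
import Cfsg.Agent.H1.TT2

set_option autoImplicit false
open Cfsg

namespace Cfsg.Agent.S3196
open CfsgH2
section
open Subgroup Function
open scoped commutatorElement

variable {G : Type*} [Group G] {p : ℕ} {D : Set G}

theorem pg_closure {S : Set G} (h1 : ∀ a ∈ S, a ^ p = 1) (h2 : ∀ a ∈ S, ∀ b ∈ S, Commute a b) : PG[p, closure S] := by
  haveI := isMulCommutative_closure h2
  refine isPGroup_of_exp fun x hx => ?_
  induction hx using closure_induction with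
  | mem x hx => exact h1 x hx
  | one => exact one_pow p
  | mul x y hx hy a b => rw [Commute.mul_pow (comm_of_isMulComm this hx hy), a, b, one_mul]
  | inv x _ a => rw [inv_pow, a, inv_one]

theorem cm {x y u w : G} (h : u ∈ zpowers x ⊔ zpowers y) (a : Commute x w) (b : Commute y w) : Commute u w :=
  mem_centralizer_singleton_iff.1 ((sup_le (zpowers_le.2 (mem_centralizer_singleton_iff.2 a))
    (zpowers_le.2 (mem_centralizer_singleton_iff.2 b)) : _ ≤ C1[w]) h)

theorem cm1 {x u w : G} (h : u ∈ zpowers x) (a : Commute x w) : Commute u w := cm (mem_sup_left h) a a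

structure PS (p : ℕ) (D : Set G) : Prop where
  ord : ∀ x ∈ D, orderOf x = p
  cj : ∀ x ∈ D, ∀ g, g * x * g⁻¹ ∈ D
  ex : ∃ a ∈ D, ∃ b ∈ D, Commute a b ∧ b ∉ zpowers a
  ln : ∀ x ∈ D, ∀ y ∈ D, Commute x y → ∀ z ∈ zpowers x ⊔ zpowers y, z ≠ 1 → z ∈ D
  bs : ∀ x ∈ D, ∀ y ∈ D, Commute x y → y ∉ zpowers x → ∀ w ∈ D, ∃ z ∈ zpowers x ⊔ zpowers y, z ≠ 1 ∧ Commute z w

variable [Finite G] [hp : Fact p.Prime] (h : PS p D)
include h

theorem PS.sw {x u : G} (hx : x ∈ D) (hu : u ∈ zpowers x) (u1 : u ≠ 1) : x ∈ zpowers u :=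
  (zpowers_eq_of_prime (by rw [Nat.card_zpowers, h.ord x hx]; exact hp.out) hu u1).ge (mem_zpowers x)

theorem PS.exch {x y u : G} (hy : y ∈ D) (c : Commute x y) (hu : u ∈ zpowers x ⊔ zpowers y) (u1 : u ∉ zpowers x) :
    zpowers x ⊔ zpowers u = zpowers x ⊔ zpowers y := by
  have y1 : y ∉ zpowers x := fun e => u1 (sup_le le_rfl (zpowers_le.2 e) hu)
  have e := relIndex_sup_zpowers_prime hp.out (mem_norm_zpowers (g := y) (by rw [← c.eq, mul_inv_cancel_right]; exact mem_zpowers x))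
    (by rw [← h.ord y hy, pow_orderOf_eq_one]; exact one_mem _) y1
  exact (eq_or_eq_of_relIndex_prime (e ▸ hp.out) le_sup_left (sup_le le_sup_left (zpowers_le.2 hu))).resolve_left
    fun a => u1 (a ▸ mem_sup_right (mem_zpowers u))

theorem PS.exch' {x y u w : G} (hy : y ∈ D) (c : Commute x y) (hu : u ∈ zpowers x ⊔ zpowers y) (u1 : u ∉ zpowers x)
    (a : Commute x w) (b : Commute u w) : Commute y w := cm (h.exch hy c hu u1 ▸ mem_sup_right (mem_zpowers y)) a b

theorem PS.key (hR : ∀ v ∈ D, ∃ w ∈ D, ¬ Commute v w) {x w : G} (hx : x ∈ D) (hw : w ∈ D) : Commute w (x * w * x⁻¹) := by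
  by_contra n
  have xw : ¬ Commute x w := fun c => n (by rw [c.eq, mul_inv_cancel_right])
  obtain ⟨x2, b1, b2, b3⟩ : ∃ y ∈ D, Commute x y ∧ y ∉ zpowers x := by
    obtain ⟨a, ha, b, hb, c, d⟩ := h.ex
    obtain ⟨z, z1, z2, z3⟩ := h.bs a ha b hb c d x hx
    by_cases e : z ∈ zpowers x
    · have e1 : x ∈ zpowers a ⊔ zpowers b := zpowers_le.2 z1 (h.sw hx e z2)
      by_cases f : a ∈ zpowers x
      · exact ⟨b, hb, cm e1 c (.refl b), fun g => d (zpowers_le.2 (h.sw hx f fun k => by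
          have := h.ord a ha; rw [k, orderOf_one] at this; exact hp.out.ne_one this.symm) g)⟩
      · exact ⟨a, ha, cm e1 (.refl a) c.symm, f⟩
    · exact ⟨z, h.ln a ha b hb c z z1 z2, z3.symm, e⟩
  obtain ⟨z, z1, z2, zw⟩ := h.bs x hx x2 b1 b2 b3 w hw
  have zD := h.ln x hx x2 b1 b2 z z1 z2
  have zx : Commute z x := cm z1 (.refl x) b2.symm
  have xz : x ∉ zpowers z := fun e => xw (cm1 e zw)
  have yD : x * z⁻¹ ∈ D := h.ln z zD x hx zx _ (mul_mem (mem_sup_right (mem_zpowers x)) (mem_sup_left (inv_mem (mem_zpowers z))))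
    fun e => xz (mul_inv_eq_one.1 e ▸ mem_zpowers x)
  have yw : ¬ Commute (x * z⁻¹) w := fun c => xw (by simpa using c.mul_left zw)
  have e0 : x * w * x⁻¹ = x * z⁻¹ * w * (x * z⁻¹)⁻¹ := by
    rw [mul_assoc x z⁻¹, zw.inv_left.eq]; group
  have c1 : ∀ u ∈ D, Commute u w → Commute u z := fun u hu c => by
    by_cases e : u ∈ zpowers w
    · exact cm1 e zw.symm
    obtain ⟨a, a1, a2, a3⟩ := h.bs w hw u hu c.symm e x hx
    obtain ⟨b, b1, b2, b3⟩ := h.bs w hw u hu c.symm e _ yD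
    have a4 : a ∉ zpowers w := fun f => xw (cm1 (h.sw hw f a2) a3).symm
    have a5 : Commute a w := cm a1 (.refl w) c
    have b5 : Commute b w := cm b1 (.refl w) c
    have aD := h.ln w hw u hu c.symm a a1 a2
    by_cases f : b ∈ zpowers a
    · have := cm1 (h.sw aD f b2) b3
      exact h.exch' hu c.symm a1 a4 zw.symm (by simpa using this.inv_right.mul_right a3)
    rw [← h.exch hu c.symm a1 a4, sup_comm] at b1
    exact absurd (h.exch' hw a5 b1 f ((a3.mul_right a5).mul_right a3.inv_right)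
      (e0 ▸ (b3.mul_right b5).mul_right b3.inv_right)) n
  obtain ⟨t, ht, zt⟩ := hR z zD
  obtain ⟨a, a1, a2, a3⟩ := h.bs z zD x hx zx xz t ht
  have a4 : a ∉ zpowers z := fun f => zt (cm1 (h.sw zD f a2) a3)
  have aD := h.ln z zD x hx zx a a1 a2
  have a5 : Commute a z := cm a1 (.refl z) zx.symm
  obtain ⟨u, u1, u2, u3⟩ := h.bs a aD t ht a3 (fun f => zt (cm1 f a5).symm) w hw
  exact zt (h.exch' ht a3 u1 (fun f => xw (h.exch' hx zx a1 a4 zw (cm1 (h.sw aD f u2) u3))) a5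
    (c1 u (h.ln a aD t ht a3 u u1 u2) u3)).symm

theorem PS.rad : ∃ v ∈ D, ∀ w ∈ D, Commute v w := by
  by_contra c
  push Not at c
  have o : ∀ x ∈ D, x ^ p = 1 := fun x hx => h.ord x hx ▸ pow_orderOf_eq_one x
  have k : ∀ x ∈ D, ∀ w ∈ D, ∀ a ∈ zpowers x, Commute w (a * w * a⁻¹) := fun x hx w hw a ha => by
    by_cases e : a = 1
    · simp [e]
    · exact h.key c (h.ln x hx x hx (.refl x) a (mem_sup_left ha) e) hw
  have m : ∀ x ∈ D, x ∈ pCore p G := fun x hx => CfsgH1.mem_pCore_of_baer fun g => by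
    have hw := h.cj x hx g
    refine ⟨closure {y | ∃ a ∈ zpowers x, a * (g * x * g⁻¹) * a⁻¹ = y}, pg_closure ?_ ?_,
      subset_closure ⟨1, one_mem _, by simp [CfsgH1.cn]⟩, mem_norm_of_map_le ?_⟩
    · rintro _ ⟨a, -, rfl⟩; exact o _ (h.cj _ hw a)
    · rintro _ ⟨a, ha, rfl⟩ _ ⟨b, hb, rfl⟩
      simpa [mul_assoc] using k x hx _ (h.cj _ hw a) (b * a⁻¹) (mul_mem hb (inv_mem ha))
    · rw [MonoidHom.map_closure, closure_le]
      rintro _ ⟨_, ⟨a, ha, rfl⟩, rfl⟩
      exact subset_closure ⟨x * a, mul_mem (mem_zpowers x) ha, by simp [cj_apply, mul_assoc]⟩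
  have l : ∀ i, ∃ v ∈ D, v ∈ (pCore p G).lowerCentralSeries i := fun i => by
    induction i with
    | zero => obtain ⟨a, ha, -⟩ := h.ex; exact ⟨a, ha, m a ha⟩
    | succ i ih =>
      obtain ⟨v, hv, a⟩ := ih
      obtain ⟨x, hx, b⟩ := c v hv
      refine ⟨⁅v, x⁆, h.ln v hv _ (h.cj v hv x) (h.key c hx hv) _ ?_ (mt commutatorElement_eq_one_iff_commute.1 b),
        commutator_mem_commutator a (m x hx)⟩
      simpa [commutatorElement_def, mul_assoc] using mul_mem (mem_sup_left (mem_zpowers v))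
        (mem_sup_right (inv_mem (mem_zpowers (x * v * x⁻¹))))
  obtain ⟨n, hn⟩ := (isNilpotent_iff_lowerCentralSeries _).1 (isPGroup_pCore (p := p) (G := G)).isNilpotent
  obtain ⟨v, hv, a⟩ := l n
  have := h.ord v hv
  rw [(mem_bot (x := v)).1 (hn ▸ a), orderOf_one] at this
  exact hp.out.ne_one this.symm

end

/-- Let p be a prime and K a set of subgroups of order p of a finite group G, closed under conjugation, such that at least two distinct members of K commute elementwise, and whenever two distinct members X, Y of K commute: every subgroup of order p of the group XY they generate belongs to K, and every member W of K has centralizer meeting XY nontrivially. Then some member V of K commutes elementwise with every member of K and lies in O_p(G); in particular G is not simple. -/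
theorem result {G : Type*} [Group G] [Finite G]
    {p : ℕ} (hp : p.Prime) (K : Set (Subgroup G)) (hK : ∀ X ∈ K, Nat.card ↥X = p)
    (hKc : ∀ X ∈ K, ∀ g : G, X.map (MulAut.conj g).toMonoidHom ∈ K)
    (hex : ∃ X ∈ K, ∃ Y ∈ K, X ≠ Y ∧ ∀ x ∈ X, ∀ y ∈ Y, x * y = y * x)
    (ha : ∀ X ∈ K, ∀ Y ∈ K, X ≠ Y → (∀ x ∈ X, ∀ y ∈ Y, x * y = y * x) →
      ∀ Z : Subgroup G, Z ≤ X ⊔ Y → Nat.card ↥Z = p → Z ∈ K)
    (hb : ∀ X ∈ K, ∀ Y ∈ K, X ≠ Y → (∀ x ∈ X, ∀ y ∈ Y, x * y = y * x) →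
      ∀ W ∈ K, (X ⊔ Y) ⊓ Subgroup.centralizer (W : Set G) ≠ ⊥) :
    (∃ V ∈ K, (∀ W ∈ K, ∀ v ∈ V, ∀ w ∈ W, v * w = w * v) ∧ V ≤ Cfsg.pCore p G) ∧ ¬ IsSimpleGroup G := by
  open Subgroup Function in open scoped commutatorElement in
  · haveI := Fact.mk hp
    let D : Set G := {x | zpowers x ∈ K}
    have o : ∀ x ∈ D, orderOf x = p := fun x hx => (Nat.card_zpowers x).symm.trans (hK _ hx)
    have gen : ∀ X ∈ K, ∃ x, zpowers x = X := fun X a => isCyclic_iff_zpowers.1 (isCyclic_of_card_prime hp (hK X a))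
    have cc : ∀ {x y : G}, Commute x y → ∀ a ∈ zpowers x, ∀ b ∈ zpowers y, a * b = b * a := fun c a ha b hb =>
      cm1 ha (cm1 hb c.symm).symm
    have ne : ∀ {x y : G}, y ∉ zpowers x → zpowers x ≠ zpowers y := fun a e => a (e ▸ mem_zpowers _)
    obtain ⟨X, x1, Y, y1, xy, c⟩ := hex
    obtain ⟨a, rfl⟩ := gen X x1
    obtain ⟨b, rfl⟩ := gen Y y1
    have ab : b ∉ zpowers a := fun e => xy (eq_of_le_of_card_le (zpowers_le.2 e) ((hK _ x1).trans (hK _ y1).symm).le).symm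
    have cj : ∀ x ∈ D, ∀ g, g * x * g⁻¹ ∈ D := fun x hx g => by
      have := hKc _ hx g
      rwa [MonoidHom.map_zpowers] at this
    have h : PS p D := ⟨o, cj, ⟨a, x1, b, y1, c a (mem_zpowers a) b (mem_zpowers b), ab⟩, fun x hx y hy d z hz z1 => by
      by_cases e : y ∈ zpowers x
      · rw [sup_eq_left.2 (zpowers_le.2 e)] at hz
        exact (congrArg (· ∈ K) (zpowers_eq_of_prime (hK _ hx ▸ hp) hz z1)).mpr hx
      · exact ha _ hx _ hy (ne e) (cc d) _ (zpowers_le.2 hz) (card_zpowers_eq hp ((elem_sup (elem_of_card_prime hp (hK _ hx))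
          (elem_of_card_prime hp (hK _ hy)) fun a ha => mem_cent_iff.2 fun b hb => (cc d a ha b hb).symm).2 z hz) z1),
      fun x hx y hy d e w hw => by
        obtain ⟨z, z1, z2⟩ := exists_ne_one (hb _ hx _ hy (ne e) (cc d) _ hw)
        exact ⟨z, z1.1, z2, (mem_cent_iff.1 z1.2 w (mem_zpowers w)).symm⟩⟩
    obtain ⟨v, hv, r⟩ := h.rad
    have m : v ∈ pCore p G := CfsgH1.mem_pCore_of_baer fun g => ⟨zpowers (g * v * g⁻¹), isPGroup_of_card' (hK _ (cj v hv g)),
      mem_zpowers _, mem_norm_zpowers (by rw [(r _ (cj v hv g)).eq, mul_inv_cancel_right]; exact mem_zpowers _)⟩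
    refine ⟨⟨_, hv, fun W w1 => ?_, zpowers_le.2 m⟩, fun s => ?_⟩
    · obtain ⟨w, rfl⟩ := gen W w1
      exact cc (r w w1)
    · have e := (s.eq_bot_or_eq_top_of_normal (pCore p G) inferInstance).resolve_left fun e => by
        have := o v hv
        rw [(mem_bot (x := v)).1 (e ▸ m), orderOf_one] at this
        exact hp.ne_one this.symm
      obtain ⟨Z, -, z2, z3⟩ := exists_central_card_p (e ▸ isPGroup_pCore : PG[p, (⊤ : Subgroup G)]) le_normalizer
        (o v hv ▸ orderOf_dvd_of_mem (mem_top v))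
      have := (s.eq_bot_or_eq_top_of_normal Z (normal_of_top_le_norm (le_norm_of_le_cent (le_centralizer_iff.1 z2)))).resolve_left
        (ne_bot_of_card_prime (z3 ▸ hp))
      exact ab ((eq_of_le_of_card_le (this ▸ le_top : zpowers a ≤ Z) (z3.trans (hK _ x1).symm).le).ge (this ▸ mem_top b))

end Cfsg.Agent.S3196
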