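import Cfsg.Statements.S3200
import Cfsg.Agent.H3.Hv3
import Cfsg.Agent.H1.KW

set_option autoImplicit false
open Cfsg

namespace Cfsg.Agent.S3200
open Subgroup CfsgH2 CfsgHv MulAction
theorem aux {H : Type*} [Group H] [Finite H] {D : Subgroup H} (hD : Hall {2}ᶜ D ⊤) :
    ∃ P : Sylow 2 H, IsComplement' (P : Subgroup H) D := by
  obtain ⟨P⟩ : Nonempty (Sylow 2 H) := inferInstance
  have h := hall_singleton.2 (syl_top P)
  exact ⟨P, isComplement'_of_coprime (by rw [h.card_mul hD, card_top]) (h.pi.coprime hD.pi)⟩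

/-- Let H be a finite group in which a Sylow 2-subgroup has an abelian complement (an abelian subgroup meeting it trivially whose product with it is all of H). Then H is solvable, and every subgroup and every quotient group of H again has a Sylow 2-subgroup with an abelian complement. -/
theorem result {H : Type*} [Group H] [Finite H]
    (S : Sylow 2 H) (C : Subgroup H) (hC : IsMulCommutative ↥C) (hSC : Subgroup.IsComplement' (S : Subgroup H) C) :
    Group.IsSolvable H ∧
    (∀ L : Subgroup H, ∃ (P : Sylow 2 ↥L) (D : Subgroup ↥L), IsMulCommutative ↥D ∧ Subgroup.IsComplement' (P : Subgroup ↥L) D) ∧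
    (∀ (N : Subgroup H) [N.Normal], ∃ (P : Sylow 2 (H ⧸ N)) (D : Subgroup (H ⧸ N)),
      IsMulCommutative ↥D ∧ Subgroup.IsComplement' (P : Subgroup (H ⧸ N)) D) := by
  have hs : Sol[(⊤ : Subgroup H)] := CfsgH1.Fac.isSolvable (A := S) (B := C)
    (CfsgH1.fac_top_iff.2 fun g => by
      obtain ⟨⟨a, b⟩, rfl⟩ := hSC.2 g
      exact ⟨a, a.2, b, b.2, rfl⟩) S.isPGroup'.isNilpotent (by letI : CommGroup C := {(inferInstance : Group C) with mul_comm := hC.is_comm.comm}; exact CommGroup.isNilpotent)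
  haveI : Group.IsSolvable H := solvable_of_surjective (f := (⊤ : Subgroup H).subtype) fun x => ⟨⟨x, trivial⟩, rfl⟩
  have hc : Hall {2}ᶜ C ⊤ := ⟨le_top, by
      rw [← hSC.symm.index_eq_card]; exact (piN_compl_singleton Nat.prime_two).2 S.not_dvd_index, by
      rw [compl_compl, relIndex_top_right, hSC.index_eq_card]; exact isPGroup_iff_piN.1 S.isPGroup'⟩
  refine ⟨this, fun L => ?_, fun N _ => ?_⟩
  · obtain ⟨D, hD⟩ := exists_hall {2}ᶜ (M := (⊤ : Subgroup L)) inferInstance
    obtain ⟨P, hP⟩ := aux hD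
    obtain ⟨g, -, hg⟩ := hc.exists_conj_le hs (piN_map L.subtype hD.pi) le_top
    refine ⟨P, D, isMulComm_iff.2 fun a ha b hb => Subtype.ext (cj_injective g ?_), hP⟩
    simp only [coe_mul, map_mul]
    exact comm_of_isMulComm hC (hg ⟨_, ⟨_, ha, rfl⟩, rfl⟩) (hg ⟨_, ⟨_, hb, rfl⟩, rfl⟩)
  · have := hc.map (QuotientGroup.mk' N)
    rw [map_top_of_surjective _ (QuotientGroup.mk'_surjective N)] at this
    obtain ⟨P, hP⟩ := aux this
    exact ⟨P, _, inferInstance, hP⟩


end Cfsg.Agent.S3200
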