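import Cfsg.Statements.S3201
import Cfsg.Agent.H2.Pq4
import Cfsg.Agent.H4.G2

set_option autoImplicit false
open Cfsg

namespace Cfsg.Agent.S3201
open CfsgH2

/-- Let S be a finite 2-group whose centre Z(S) has n ≥ 2 distinct maximal subgroups C₁, …, Cₙ with trivial intersection such that each quotient S/Cᵢ is a non-abelian group with exactly one involution (a generalized quaternion group). Then S is the internal direct product of an elementary abelian subgroup and a non-abelian subgroup with exactly one involution. -/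
theorem result {S : Type*} [Group S] [Finite S]
    (hS : IsPGroup 2 S) (n : ℕ) (hn : 2 ≤ n) (C : Fin n → Subgroup ↥(Subgroup.center S))
    (hCmax : ∀ i, IsCoatom (C i)) (hCinj : Function.Injective C) (hCint : ⨅ i, C i = ⊥)
    (hCq : ∀ i, ∃ (_ : ((C i).map (Subgroup.center S).subtype).Normal),
      ¬ IsMulCommutative (S ⧸ (C i).map (Subgroup.center S).subtype) ∧
      ∃! x : S ⧸ (C i).map (Subgroup.center S).subtype, orderOf x = 2) :
    ∃ E Q : Subgroup S, Cfsg.IsInternalDirectProduct E Q ⊤ ∧ Cfsg.IsElementaryAbelian 2 E ∧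
      ¬ IsMulCommutative ↥Q ∧ ∃! x : ↥Q, orderOf x = 2 := by
  open Subgroup Function in open scoped commutatorElement in
  · let N := fun i => (C i).map (center S).subtype
    have lN : ∀ i, N i ≤ center S := fun i => map_subtype_le _
    have nb : ∀ x, (∀ i, x ∈ N i) → x = 1 := fun x h => by
      have := (mem_bot (x := (⟨x, lN ⟨0, by omega⟩ (h _)⟩ : center S))).1 (hCint ▸ mem_iInf.2 fun i => by
        obtain ⟨y, hy, rfl⟩ := h i; exact hy)
      exact congrArg Subtype.val this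
    have el : ∀ x ∈ center S, x ^ 2 = 1 := fun x hx => nb _ fun i => ⟨⟨x, hx⟩ ^ 2, frattini_le_coatom (hCmax i)
      (by rw [← CfsgH1.frattiniOf_top]; exact pow_mem_phi ((hS.to_subgroup _).to_subgroup ⊤) trivial), rfl⟩
    have un : ∀ i x y, x ∉ N i → y ∉ N i → x ^ 2 ∈ N i → y ^ 2 ∈ N i → x⁻¹ * y ∈ N i := fun i x y a b c d => by
      obtain ⟨_, -, t, -, h⟩ := hCq i
      have o : ∀ x, x ∉ N i → x ^ 2 ∈ N i → (x : S ⧸ N i) = t := fun x a c => h _ (orderOf_eq_prime
        (by rwa [← QuotientGroup.mk_pow, QuotientGroup.eq_one_iff]) (mt (QuotientGroup.eq_one_iff x).1 a))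
      exact QuotientGroup.eq.1 ((o x a c).trans (o y b d).symm)
    have ex : ∀ i, ∃ t ∈ center S, t ∉ N i := fun i => by
      obtain ⟨t, -, ht⟩ := SetLike.exists_of_lt (hCmax i).lt_top
      exact ⟨t, t.2, fun e => ht ((mem_map_iff_mem (subtype_injective _)).1 e)⟩
    have k1 : ∀ i x, x ^ 2 ∈ N i → x ∈ center S := fun i x a => by
      by_contra c
      obtain ⟨t, t1, t2⟩ := ex i
      exact c ((mul_mem_cancel_left (inv_mem t1)).1 (lN i (un i t x t2 (fun e => c (lN i e)) (el t t1 ▸ one_mem _) a)))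
    have k2 : ∀ x y, x ∉ center S → y ∉ center S → x ^ 2 ∈ center S → y ^ 2 ∈ center S → x ^ 2 = y ^ 2 := fun x y a b c d =>
      inv_mul_eq_one.1 (nb _ fun i => un i _ _ (mt (k1 i x) a) (mt (k1 i y) b) (el _ c ▸ one_mem _) (el _ d ▸ one_mem _))
    let i : Fin n := ⟨0, by omega⟩
    obtain ⟨_, h1, h2⟩ := hCq i
    let π := QuotientGroup.mk' (N i)
    have sj : Surjective π := QuotientGroup.mk'_surjective _
    obtain c | ⟨a, b, m, h⟩ := CfsgH4.cyc_or_gq ((hS.to_quotient (N i)).to_subgroup ⊤) fun y _ z _ a b _ => h2.unique a b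
    · exact absurd (isMulComm_top_iff.1 (isMulComm_of_cyclic c)) h1
    obtain ⟨a, rfl⟩ := sj a
    obtain ⟨b, rfl⟩ := sj b
    obtain ⟨m, rfl⟩ := Nat.exists_eq_add_of_le' h.pos
    have k3 : ∀ x, π x ^ 2 = π a ^ 2 ^ (m + 1) → x ∉ center S ∧ x ^ 2 ∈ center S := fun x e =>
      ⟨fun c => half_ne_one h.ord (by rw [← e, ← map_pow, el x c, map_one]), k1 i _ ((QuotientGroup.eq_one_iff _).1 (by
        rw [← QuotientGroup.mk'_apply, map_pow, map_pow, e, sq, half_sq h.ord]))⟩
    have b1 := k3 b h.sq'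
    have u1 := k3 (a ^ 2 ^ m) (by rw [map_pow, ← pow_mul, ← pow_succ])
    have a1 := k3 (a * b) (by
      rw [← h.sq', map_mul, sq, sq, mul_assoc, ← mul_assoc (π b), mul_inv_eq_iff_eq_mul.1 h.inv]; group)
    have e1 := k2 _ _ b1.1 u1.1 b1.2 u1.2
    have e2 := k2 _ _ a1.1 b1.1 a1.2 b1.2
    have e3 : b * a * b⁻¹ = a⁻¹ := by
      rw [sq, sq, ← mul_assoc, mul_left_inj] at e2
      rw [mul_inv_eq_iff_eq_mul, eq_inv_mul_iff_mul_eq, ← mul_assoc, e2]
    have c1 := card_sup_zpowers_dvd (H := zpowers a) (mem_norm_zpowers (e3 ▸ inv_mem (mem_zpowers a)))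
      (e1 ▸ pow_mem (npow_mem_zpowers a _) 2)
    have c2 : orderOf a ∣ 2 ^ (m + 2) := orderOf_dvd_of_pow_eq_one (by rw [pow_succ, pow_succ, pow_mul, pow_mul, el _ u1.2])
    have e4 : (zpowers a ⊔ zpowers b).map π = ⊤ := by
      rw [Subgroup.map_sup, MonoidHom.map_zpowers, MonoidHom.map_zpowers, h.sup]
    let f := π.comp (zpowers a ⊔ zpowers b).subtype
    have f1 : Surjective f := fun y => by
      obtain ⟨x, hx, rfl⟩ := e4.ge (mem_top y); exact ⟨⟨x, hx⟩, rfl⟩
    have f2 : Bijective f := f1.bijective_of_nat_card_le (by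
      rw [← card_top (G := S ⧸ N i), h.card, pow_succ]
      refine Nat.le_of_dvd (by positivity) (c1.trans (Nat.mul_dvd_mul_right ?_ 2))
      rwa [Nat.card_zpowers])
    let e := MulEquiv.ofBijective f f2
    refine ⟨N i, zpowers a ⊔ zpowers b, ⟨le_top, le_top, fun x hx y _ => (mem_center_iff.1 (lN i hx) y).symm,
      eq_bot_iff.2 fun x hx => ?_, ?_⟩, ⟨isMulComm_iff.2 fun x hx y _ => (mem_center_iff.1 (lN i hx) y).symm,
        fun x hx => el x (lN i hx)⟩, fun c => h1 ⟨⟨fun x y => ?_⟩⟩, ?_⟩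
    · exact congrArg Subtype.val (f2.1 (a₁ := ⟨x, hx.2⟩) (a₂ := 1) (((QuotientGroup.eq_one_iff x).2 hx.1).trans (map_one f).symm))
    · rw [sup_comm, ← QuotientGroup.ker_mk' (N i), ← comap_map_eq, e4, comap_top]
    · obtain ⟨x, rfl⟩ := f1 x
      obtain ⟨y, rfl⟩ := f1 y
      rw [← map_mul, ← map_mul, c.is_comm.comm]
    · exact (e.toEquiv.existsUnique_congr fun x => by rw [← MulEquiv.orderOf_eq e x]; rfl).2 h2

end Cfsg.Agent.S3201
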