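import Cfsg.Statements.S3202
import Cfsg.Agent.H2.Pq4
import Cfsg.Agent.H4.G2

set_option autoImplicit false
open Cfsg

namespace Cfsg.Agent.S3202
open CfsgH2

/-- Let S be a finite 2-group of 2-rank exactly 2 and D a maximal subgroup of the centre of S such that S/D is a non-abelian group with exactly one involution (a generalized quaternion group). Then S has a nontrivial cyclic characteristic subgroup. -/
theorem result {S : Type*} [Group S]
    [Finite S] (hS : IsPGroup 2 S) (hr2 : Cfsg.PRankLE 2 2 S) (hr1 : ¬ Cfsg.PRankLE 2 1 S)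
    (D : Subgroup ↥(Subgroup.center S)) (hD : IsCoatom D)
    (hq : ∃ (_ : (D.map (Subgroup.center S).subtype).Normal),
      ¬ IsMulCommutative (S ⧸ D.map (Subgroup.center S).subtype) ∧
      ∃! x : S ⧸ D.map (Subgroup.center S).subtype, orderOf x = 2) :
    ∃ C : Subgroup S, C ≠ ⊥ ∧ IsCyclic ↥C ∧ C.Characteristic := by
  open Subgroup Function in open scoped commutatorElement in
  · obtain ⟨_, h1, x, hx, h2⟩ := hq
    set N := D.map (center S).subtype
    let π := QuotientGroup.mk' N
    have sj : Surjective π := QuotientGroup.mk'_surjective N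
    obtain c | ⟨a, b, m, h⟩ := CfsgH4.cyc_or_gq ((hS.to_quotient N).to_subgroup ⊤) fun y _ z _ a b _ => (h2 y a).trans (h2 z b).symm
    · exact absurd (isMulComm_top_iff.1 (isMulComm_of_cyclic c)) h1
    obtain ⟨a, rfl⟩ := sj a
    obtain ⟨b, rfl⟩ := sj b
    have nc : N ≤ C[(⊤ : Subgroup S)] := by rw [cent_top]; exact map_subtype_le D
    have e : (zpowers (π a)).comap π = N ⊔ zpowers a := by
      rw [← MonoidHom.map_zpowers, comap_map_eq, QuotientGroup.ker_mk', sup_comm]
    haveI := normal_of_top_le_norm h.le_norm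
    have e1 : N ⊔ zpowers a ⊔ zpowers b = ⊤ := by
      rw [sup_assoc, sup_comm, ← QuotientGroup.ker_mk' N, ← comap_map_eq, Subgroup.map_sup, MonoidHom.map_zpowers,
        MonoidHom.map_zpowers, h.sup, comap_top]
    have := commutator_eq_zpowers (isMulComm_sup_zpowers (isMulComm_of_le (isMulComm_cent_inf ⊤) (le_inf le_top nc))
      (le_centralizer_iff.1 nc trivial)) (b := b) (by rw [← e]; exact le_normalizer_of_normal (mem_top b)) (by rw [← e]; exact mem_comap.2 (map_pow π b 2 ▸ h.sq)) rfl
      (le_centralizer_iff.1 nc trivial)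
    rw [e1] at this
    refine ⟨commutator S, fun c => h1 ?_, isCyclic_iff_zpowers.2 ⟨_, this.symm⟩, inferInstance⟩
    rw [← isMulComm_top_iff, ← comm_self_eq_bot_iff, ← map_top_of_surjective π sj, ← map_commutator]
    exact (congrArg _ c).trans (Subgroup.map_bot π)

end Cfsg.Agent.S3202
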