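import Cfsg.Statements.S3208
import Cfsg.Agent.H3.Hv1

set_option autoImplicit false
open Cfsg

namespace Cfsg.Agent.S3208
open Subgroup CfsgH2 CfsgHv MulAction

/-- Let j be an involution of a finite group G, H a subgroup of G, and T a Sylow 2-subgroup of H ∩ C_G(j) containing j such that ⟨j⟩ is a characteristic subgroup of T. Then T is a Sylow 2-subgroup of H. -/
theorem result {G : Type*} [Group G] [Finite G]
    (j : G) (hj : orderOf j = 2) (H T : Subgroup G) (hT : T ≤ H ⊓ Subgroup.centralizer ({j} : Set G)) (h2 : IsPGroup 2 ↥T)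
    (hSyl : ¬ 2 ∣ T.relIndex (H ⊓ Subgroup.centralizer ({j} : Set G))) (hjT : j ∈ T)
    (hchar : ((Subgroup.zpowers j).subgroupOf T).Characteristic) :
    ¬ 2 ∣ T.relIndex H := by
  have hS : Syl 2 T (H ⊓ C1[j]) := ⟨hT, h2, hSyl⟩
  refine (Syl.of_norm (hT.trans inf_le_left) (hS.mono (le_inf (hT.trans inf_le_left) le_normalizer) ?_)).nd
  refine inf_le_inf_left _ fun g hg => ?_
  have h1 := norm_le_norm_map_subtype ((zpowers j).subgroupOf T) hg
  rw [subgroupOf_map_subtype, inf_eq_left.2 (zpowers_le.2 hjT)] at h1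
  have h3 := eq_of_orderOf_two (C := zpowers j) inferInstance (conj_mem_of_norm h1 (mem_zpowers j)) (mem_zpowers j)
    (by rw [orderOf_conj', hj]) hj
  rw [mem_centralizer_singleton_iff]
  exact mul_inv_eq_iff_eq_mul.1 h3


end Cfsg.Agent.S3208
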