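import Mathlib
import Cfsg.Statements.S3209
import Cfsg.Agent.H8.P2a

set_option autoImplicit false
open Cfsg

namespace Cfsg.Agent.S3209

open CfsgH8

theorem aux {G F : Type*} [Group G] [Field F] [Fintype F] (hF : Odd (Fintype.card F)) {L : Subgroup G}
    (e : L ≃* Matrix.SpecialLinearGroup (Fin 2) F) {j : G} (hj : orderOf j = 2) (h : j ∈ L) :
    (∀ a ∈ L, a ^ 2 = 1 → a = 1 ∨ a = j) ∧ ∃ x ∈ L, x ^ 2 = j ∧ ∀ a ∈ L, a ^ 2 = j → ∃ g ∈ L, g * x * g⁻¹ = a := by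
  have od := Nat.odd_iff.1 hF
  have k : ∀ a : L, a.1 ^ 2 = 1 → a.1 ≠ 1 → e a = -1 := fun a h1 h2 =>
    eq_neg_one_of_sq od (by rw [← map_pow, e.map_eq_one_iff]; exact Subtype.ext h1)
      (mt e.map_eq_one_iff.1 (mt Subtype.ext_iff.1 h2))
  have ej := k ⟨j, h⟩ (hj ▸ pow_orderOf_eq_one j) (by rintro rfl; simp at hj)
  refine ⟨fun a ha h1 => or_iff_not_imp_left.2 fun h2 => congrArg Subtype.val (e.injective ((k ⟨a, ha⟩ h1 h2).trans ej.symm)),
    e.symm (cS 0), (e.symm _).2, congrArg Subtype.val (e.injective (?_ : e (_ ^ 2) = e ⟨j, h⟩)), fun a ha h1 => ?_⟩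
  · rw [map_pow, e.apply_symm_apply, ej, sq, sq_eq_neg_one_of_trace (trace_cS 0)]
  have s : e ⟨a, ha⟩ * e ⟨a, ha⟩ = -1 := by rw [← ej, ← map_mul, ← sq]; exact congrArg e (Subtype.ext h1)
  have t := trace_eq_zero_of_isSc_sq (isSc_SL2.2 (.inr s)) fun t => neg_one_ne_one_SL od (by
    rcases isSc_SL2.1 t with t | t <;> simpa [t] using s.symm)
  obtain ⟨g, hg⟩ := isConj_iff.1 ((reg_of_trace_zero od (trace_cS 0)).isConj_SL ((trace_cS 0).trans t.symm))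
  exact ⟨e.symm g, (e.symm g).2, congrArg Subtype.val (e.injective (by simpa using hg) : e.symm g * e.symm (cS 0) *
    (e.symm g)⁻¹ = ⟨a, ha⟩)⟩

/-- Let L₁ ≅ SL₂(q₁) and L₂ ≅ SL₂(q₂), q₁ and q₂ odd, be elementwise-commuting subgroups of a finite group meeting in ⟨j⟩ for an involution j. Then L₁L₂ has exactly two conjugacy classes of involutions: the central involution j, and one further class (there is an involution x ≠ j in L₁L₂, and every involution of L₁L₂ other than j is conjugate to x by an element of L₁L₂). -/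
theorem result {G : Type*} [Group G] [Finite G]
    {F₁ : Type*} [Field F₁] [Fintype F₁] {F₂ : Type*} [Field F₂] [Fintype F₂]
    (hF₁ : Odd (Fintype.card F₁)) (hF₂ : Odd (Fintype.card F₂)) (L₁ L₂ : Subgroup G)
    (e₁ : ↥L₁ ≃* Matrix.SpecialLinearGroup (Fin 2) F₁) (e₂ : ↥L₂ ≃* Matrix.SpecialLinearGroup (Fin 2) F₂)
    (hc : ∀ x ∈ L₁, ∀ y ∈ L₂, x * y = y * x) (j : G) (hj : orderOf j = 2) (hm : L₁ ⊓ L₂ = Subgroup.zpowers j) :
    ∃ x ∈ L₁ ⊔ L₂, orderOf x = 2 ∧ x ≠ j ∧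
      ∀ y ∈ L₁ ⊔ L₂, orderOf y = 2 → y = j ∨ ∃ g ∈ L₁ ⊔ L₂, g * x * g⁻¹ = y := by
  have m : j ∈ L₁ ⊓ L₂ := hm ▸ Subgroup.mem_zpowers j
  obtain ⟨a1, x, hx, x2, c1⟩ := aux hF₁ e₁ hj m.1
  obtain ⟨a2, y, hy, y2, c2⟩ := aux hF₂ e₂ hj m.2
  have j2 : j ^ 2 = 1 := hj ▸ pow_orderOf_eq_one j
  have j1 : j ≠ 1 := by rintro rfl; simp at hj
  have z : ∀ a ∈ L₁, a ∈ L₂ → a ^ 2 = 1 := fun a h h' => by
    obtain ⟨n, rfl⟩ := Subgroup.mem_zpowers_iff.1 (hm.le ⟨h, h'⟩)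
    rw [← zpow_natCast, ← zpow_mul, mul_comm, zpow_mul, zpow_natCast, j2, one_zpow]
  have n : x * y ∉ L₂ := fun h => j1 (x2 ▸ z x hx ((mul_mem_cancel_right hy).1 h))
  haveI := Fact.mk Nat.prime_two
  refine ⟨x * y, Subgroup.mul_mem_sup hx hy, orderOf_eq_prime ?_ (by rintro e; exact n (e ▸ one_mem _)),
    by rintro e; exact n (e ▸ m.2), fun w hw o => ?_⟩
  · rw [Commute.mul_pow (hc x hx y hy), x2, y2, ← sq, j2]
  obtain ⟨a, ha, b, hb, rfl⟩ : ∃ a ∈ L₁, ∃ b ∈ L₂, a * b = w := by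
    rw [← SetLike.mem_coe, Subgroup.coe_mul_of_right_le_normalizer_left _ _ fun b hb =>
      Subgroup.mem_normalizer_iff.2 fun a => ⟨fun h => by rwa [← hc a h b hb, mul_inv_cancel_right], fun h => by
        have := hc _ h b hb
        rw [inv_mul_cancel_right, mul_assoc b a, mul_right_inj, ← mul_assoc] at this
        rwa [this]⟩] at hw
    exact hw
  have w2 : a ^ 2 * b ^ 2 = 1 := by rw [← Commute.mul_pow (hc a ha b hb), ← o, pow_orderOf_eq_one]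
  have w1 : a * b ≠ 1 := by rintro e; simp [e] at o
  rcases a1 (a ^ 2) (pow_mem ha 2) (z _ (pow_mem ha 2) (eq_inv_of_mul_eq_one_left w2 ▸ inv_mem (pow_mem hb 2))) with e | e
  · rw [e, one_mul] at w2
    rcases a1 a ha e with rfl | rfl <;> rcases a2 b hb w2 with rfl | rfl <;> simp_all [← sq]
  · obtain ⟨g, hg, rfl⟩ := c1 a ha e
    obtain ⟨h, hh, rfl⟩ := c2 b hb (by rw [e, ← j2, sq j, mul_right_inj] at w2; exact w2)
    refine .inr ⟨g * h, Subgroup.mul_mem_sup hg hh, ?_⟩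
    have := hc g⁻¹ (inv_mem hg) _ (mul_mem (mul_mem hh hy) (inv_mem hh))
    rw [mul_assoc (g * x), this, mul_inv_rev, mul_assoc g h, ← mul_assoc h, ← hc x hx h hh]
    simp only [mul_assoc]

end Cfsg.Agent.S3209
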