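import Mathlib
import Cfsg.Statements.S3210
import Cfsg.Agent.S0251
import Cfsg.Agent.H8.Dick3

set_option autoImplicit false
open Cfsg

namespace Cfsg.Agent.S3210

open CfsgH8

/-- Directly indecomposable, in a strong sense. -/
def Ind (P : Type*) [Group P] : Prop := Nontrivial P ∧ ∀ X Y : Subgroup P, (∀ x ∈ X, ∀ y ∈ Y, x * y = y * x) →
  (∀ g, ∃ x ∈ X, ∃ y ∈ Y, g = x * y) → X = ⊥ ∨ Y = ⊥

theorem ind {F : Type*} [Field F] [Fintype F] (h : Odd (Fintype.card F)) :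
    Ind (Matrix.ProjectiveSpecialLinearGroup (Fin 2) F) := by
  have n : πS (triS 1 (1 : F)) * πS (loS 1) ≠ πS (loS 1) * πS (triS 1 (1 : F)) := fun e => by
    rw [← map_mul, ← map_mul, πS_eq_iff] at e
    rcases e with e | e
    · simpa [sl2_mul] using congrArg (·.1 0 0) e
    · have a := congrArg (·.1 0 1) e
      have b := congrArg (·.1 0 0) e
      have c := congrArg (·.1 1 1) e
      simp [sl2_mul] at a b c
      exact one_ne_zero (α := F) (by linear_combination b - a)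
  refine ⟨⟨_, _, n⟩, fun X Y c d => ?_⟩
  have m : ∀ x ∈ X, ∀ g, g * x * g⁻¹ ∈ X := fun x hx g => by
    obtain ⟨a, ha, b, hb, rfl⟩ := d g
    rw [mul_assoc a, ← c x hx b hb, mul_inv_rev, ← mul_assoc, ← mul_assoc, mul_inv_cancel_right]
    exact mul_mem (mul_mem ha hx) (inv_mem ha)
  have := Fintype.one_lt_card (α := F)
  rw [Nat.odd_iff] at h
  by_cases h3 : Fintype.card F = 3
  · obtain ⟨e⟩ := S0251.result h3
    have k : ∀ x y : alternatingGroup (Fin 4), x ≠ 1 → y ≠ 1 → (∀ g, g * x * g⁻¹ * y = y * (g * x * g⁻¹)) → x ^ 2 = 1 ∧ y ^ 2 = 1 := by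
      decide +kernel
    have k' : ∀ x ∈ X, ∀ y ∈ Y, x ≠ 1 → y ≠ 1 → x ^ 2 = 1 ∧ y ^ 2 = 1 := fun x hx y hy a b => by
      simpa only [← map_pow, e.map_eq_one_iff] using k (e x) (e y) (by simpa) (by simpa) (e.surjective.forall.2 fun g => by
        simpa using congrArg e (c _ (m x hx g) y hy))
    by_contra! z
    obtain ⟨⟨x, hx⟩, x1⟩ := Subgroup.ne_bot_iff_exists_ne_one.1 z.1
    obtain ⟨⟨y, hy⟩, y1⟩ := Subgroup.ne_bot_iff_exists_ne_one.1 z.2
    obtain ⟨a, ha, b, hb, t⟩ := d (e.symm ⟨c[0, 1, 2], Equiv.Perm.mem_alternatingGroup.2 (by decide)⟩)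
    have a2 : a ^ 2 = 1 := (em (a = 1)).elim (by simp +contextual) fun s => (k' a ha y hy s (by simpa using y1)).1
    have b2 : b ^ 2 = 1 := (em (b = 1)).elim (by simp +contextual) fun s => (k' x hx b hb (by simpa using x1) s).2
    have := congrArg (· ^ 2) t
    simp only [(show Commute a b from c a ha b hb).mul_pow, a2, b2, one_mul, ← map_pow, e.symm.map_eq_one_iff] at this
    exact absurd this (by decide)
  haveI := simple_PSL2 (F := F) (by omega)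
  refine (Subgroup.Normal.eq_bot_or_eq_top ⟨m⟩).imp_right fun e => eq_bot_iff.2 fun y hy => ?_
  rcases (Subgroup.normal_of_characteristic
    (Subgroup.center (Matrix.ProjectiveSpecialLinearGroup (Fin 2) F))).eq_bot_or_eq_top with z | z
  · exact z.le (Subgroup.mem_center_iff.2 fun g => c g (e.ge trivial) y hy)
  · exact absurd (Subgroup.mem_center_iff.1 (z.ge trivial) _) n

variable {G : Type*} [Group G]

theorem dec {A B : Subgroup G} (c : ∀ x ∈ A, ∀ y ∈ B, x * y = y * x) {m : G} (h : m ∈ A ⊔ B) : ∃ x ∈ A, ∃ y ∈ B, m = x * y := by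
  have : m ∈ ((A ⊔ B : Subgroup G) : Set G) := h
  rw [Subgroup.coe_mul_of_left_le_normalizer_right _ _ (le_trans (b := Subgroup.centralizer B)
    (fun x hx y hy => (c x hx y hy).symm) (Subgroup.centralizer_le_normalizer _))] at this
  obtain ⟨x, hx, y, hy, e⟩ := this
  exact ⟨x, hx, y, hy, e.symm⟩

theorem key {P : Type*} [Group P] (hP : Ind P) {L₁ L₂ A B : Subgroup G} (φ : L₁ →* P) (s : Function.Surjective φ)
    (k : ∀ a, φ a = 1 ↔ a.1 ∈ L₂) (c : ∀ x ∈ L₁, ∀ y ∈ L₂, x * y = y * x) (c' : ∀ x ∈ A, ∀ y ∈ B, x * y = y * x)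
    (e : A ⊔ B = L₁ ⊔ L₂) : A ≤ L₂ ∨ B ≤ L₂ := by
  choose a ha b hb t using fun m : (L₁ ⊔ L₂ : Subgroup G) => dec c m.2
  have w : ∀ m (x : L₁), ∀ y ∈ L₂, m.1 = x * y → φ ⟨a m, ha m⟩ = φ x := fun m x y hy h => by
    rw [eq_comm, ← inv_mul_eq_one, ← map_inv, ← map_mul, k]
    have : (x⁻¹ * ⟨a m, ha m⟩ : L₁).1 = y * (b m)⁻¹ := by
      simp [inv_mul_eq_iff_eq_mul, ← mul_assoc, ← h, t m]
    exact this ▸ mul_mem hy (inv_mem (hb m))
  let Φ : (L₁ ⊔ L₂ : Subgroup G) →* P := .mk' (fun m => φ ⟨a m, ha m⟩) fun m n => by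
    rw [← map_mul]
    refine w _ _ _ (mul_mem (hb m) (hb n)) ?_
    change m.1 * n.1 = a m * a n * _
    rw [mul_assoc, ← mul_assoc (a n), c _ (ha n) _ (hb m), mul_assoc, ← mul_assoc, ← t, ← t]
  have l : ∀ {C : Subgroup G}, C ≤ L₁ ⊔ L₂ → (C.subgroupOf _).map Φ = ⊥ → C ≤ L₂ := fun h z x hx => by
    rw [show x = _ from t ⟨x, h hx⟩]
    exact mul_mem ((k _).1 (z.le ⟨⟨x, h hx⟩, hx, rfl⟩)) (hb _)
  refine (hP.2 _ _ ?_ fun g => ?_).imp (l (e ▸ le_sup_left)) (l (e ▸ le_sup_right))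
  · rintro _ ⟨x, hx, rfl⟩ _ ⟨y, hy, rfl⟩
    rw [← map_mul, ← map_mul, show x * y = y * x from Subtype.ext (c' _ hx _ hy)]
  · obtain ⟨g, rfl⟩ := s g
    obtain ⟨x, hx, y, hy, h⟩ := dec c' (e.ge (Subgroup.mem_sup_left g.2))
    exact ⟨_, ⟨⟨x, e.le (Subgroup.mem_sup_left hx)⟩, hx, rfl⟩, _, ⟨⟨y, e.le (Subgroup.mem_sup_right hy)⟩, hy, rfl⟩,
      ((map_mul Φ _ _).symm.trans (w _ g 1 (one_mem _) (by simp [h]))).symm⟩

theorem ker {F : Type*} [Field F] [Fintype F] (h : Odd (Fintype.card F)) {L : Subgroup G}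
    (e : L ≃* Matrix.SpecialLinearGroup (Fin 2) F) {j : G} (hj : orderOf j = 2) (m : j ∈ L) (a : L) :
    (πS.comp e.toMonoidHom) a = 1 ↔ a.1 ∈ Subgroup.zpowers j := by
  have j1 : j ≠ 1 := fun t => by simp [t] at hj
  have t : e ⟨j, m⟩ = -1 := eq_neg_one_of_sq (Nat.odd_iff.1 h) (by
    rw [← map_pow, e.map_eq_one_iff]; exact Subtype.ext (hj ▸ pow_orderOf_eq_one j)) (by simpa)
  refine ⟨fun k => ?_, fun ⟨i, k⟩ => ?_⟩
  · rcases isSc_SL2.1 (πS_eq_one.1 k) with k | k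
    · rw [e.map_eq_one_iff.1 k]; exact one_mem _
    · rw [e.injective (k.trans t.symm)]; exact Subgroup.mem_zpowers j
  · rw [show a = ⟨j, m⟩ ^ i from Subtype.ext k.symm, map_zpow, show (πS.comp e.toMonoidHom) ⟨j, m⟩ = 1 from
      (congrArg πS t).trans ((πS_neg 1).trans (map_one _)), one_zpow]

/-- Let G be a finite group with subgroups L₁ ≅ SL₂(q₁) and L₂ ≅ SL₂(q₂), q₁ and q₂ odd prime powers, which commute elementwise and meet in ⟨j⟩ for an involution j, and suppose L₁L₂ has index 2 in C_G(j). Then every element n of C_G(j) outside L₁L₂ either normalizes both L₁ and L₂, or conjugates L₁ onto L₂; in the second case q₁ = q₂ and there is an element n′ of C_G(j) outside L₁L₂ conjugating L₁ onto L₂ with n′² ∈ ⟨j⟩. -/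
theorem result {G : Type*} [Group G] [Finite G]
    {F₁ : Type*} [Field F₁] [Fintype F₁] {F₂ : Type*} [Field F₂] [Fintype F₂]
    (hF₁ : Odd (Fintype.card F₁)) (hF₂ : Odd (Fintype.card F₂)) (L₁ L₂ : Subgroup G)
    (e₁ : ↥L₁ ≃* Matrix.SpecialLinearGroup (Fin 2) F₁) (e₂ : ↥L₂ ≃* Matrix.SpecialLinearGroup (Fin 2) F₂)
    (hc : ∀ x ∈ L₁, ∀ y ∈ L₂, x * y = y * x) (j : G) (hj : orderOf j = 2) (hm : L₁ ⊓ L₂ = Subgroup.zpowers j)
    (hle : L₁ ⊔ L₂ ≤ Subgroup.centralizer ({j} : Set G)) (hi : (L₁ ⊔ L₂).relIndex (Subgroup.centralizer ({j} : Set G)) = 2) (n : G) (hn : n ∈ Subgroup.centralizer ({j} : Set G)) (hn' : n ∉ L₁ ⊔ L₂) :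
    (L₁.map (MulAut.conj n).toMonoidHom = L₁ ∧ L₂.map (MulAut.conj n).toMonoidHom = L₂) ∨
      (L₁.map (MulAut.conj n).toMonoidHom = L₂ ∧ Fintype.card F₁ = Fintype.card F₂ ∧
        ∃ n' ∈ Subgroup.centralizer ({j} : Set G), n' ∉ L₁ ⊔ L₂ ∧ L₁.map (MulAut.conj n').toMonoidHom = L₂ ∧ n' ^ 2 ∈ Subgroup.zpowers j) := by
  have j1 : j ∈ L₁ ⊓ L₂ := hm.ge (Subgroup.mem_zpowers j)
  have k1 : ∀ a, (πS.comp e₁.toMonoidHom) a = 1 ↔ a.1 ∈ L₂ := fun a =>
    (ker hF₁ e₁ hj j1.1 a).trans (by rw [← hm]; simp)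
  have k2 : ∀ a, (πS.comp e₂.toMonoidHom) a = 1 ↔ a.1 ∈ L₁ := fun a =>
    (ker hF₂ e₂ hj j1.2 a).trans (by rw [← hm]; simp)
  have nm : (L₁ ⊔ L₂).map (MulAut.conj n).toMonoidHom = L₁ ⊔ L₂ :=
    Subgroup.mem_normalizer_iff_map_conj_eq.1 ((Subgroup.normal_subgroupOf_iff_le_normalizer hle).1
      (Subgroup.normal_of_index_eq_two hi) hn)
  rw [Subgroup.map_sup] at nm
  have c' : ∀ x ∈ L₁.map (MulAut.conj n).toMonoidHom, ∀ y ∈ L₂.map (MulAut.conj n).toMonoidHom, x * y = y * x := by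
    rintro _ ⟨x, hx, rfl⟩ _ ⟨y, hy, rfl⟩
    rw [← map_mul, hc x hx y hy, map_mul]
  have d : ∀ L : Subgroup G, Nat.card (L.map (MulAut.conj n).toMonoidHom) = Nat.card L := fun L =>
    Subgroup.card_map_of_injective (MulAut.conj n).injective
  have z : ∀ (L : Subgroup G) q, 1 < q → Nat.card L = q * (q + 1) * (q - 1) → ¬ L.map (MulAut.conj n).toMonoidHom ≤ L₁ ⊓ L₂ :=
    fun L q h e l => by
      have := Subgroup.card_le_of_le l
      rw [d, e, hm, Nat.card_zpowers, hj] at this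
      exact absurd ((Nat.mul_le_mul (Nat.mul_le_mul h (Nat.succ_le_succ h)) (Nat.sub_pos_of_lt h)).trans this) (by decide)
  rcases key (ind hF₁) _ (πS_surj.comp e₁.surjective) k1 hc c' nm with a | a <;>
    rcases key (ind hF₂) _ (πS_surj.comp e₂.surjective) k2 (fun x a y b => (hc y b x a).symm) c' (nm.trans (sup_comm _ _))
      with b | b
  · exact absurd (le_inf b a) (z _ _ Fintype.one_lt_card ((Nat.card_congr e₁.toEquiv).trans card_SL2'))
  · have a' := Subgroup.card_le_of_le a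
    have b' := Subgroup.card_le_of_le b
    rw [d] at a' b'
    have ea := Subgroup.eq_of_le_of_card_ge a (by rwa [d])
    have eb := Subgroup.eq_of_le_of_card_ge b (by rwa [d])
    refine .inr ⟨ea, ?_, ?_⟩
    · have := le_antisymm a' b'
      rw [Nat.card_congr e₁.toEquiv, Nat.card_congr e₂.toEquiv, card_SL2', card_SL2'] at this
      have m : StrictMono fun q : ℕ => (q + 1) * (q + 1 + 1) * (q + 1 - 1) := fun x y h => by
        simp only [add_tsub_cancel_right]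
        exact Nat.mul_lt_mul_of_le_of_lt (by gcongr) h (by positivity)
      obtain ⟨x, hx⟩ := Nat.exists_eq_add_one.2 (Fintype.card_pos (α := F₁))
      obtain ⟨y, hy⟩ := Nat.exists_eq_add_one.2 (Fintype.card_pos (α := F₂))
      rw [hx, hy] at this ⊢
      rw [m.injective this]
    obtain ⟨x, hx, y, hy, t⟩ := dec hc (m := n ^ 2) ((Subgroup.sq_mem_of_index_two hi ⟨n, hn⟩ :))
    have u : n * x⁻¹ * n⁻¹ ∈ L₂ := a ⟨_, L₁.inv_mem hx, rfl⟩
    have v : n * y * n⁻¹ ∈ L₁ := b ⟨y, hy, rfl⟩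
    refine ⟨n * x⁻¹, mul_mem hn (hle (Subgroup.mem_sup_left (inv_mem hx))), fun h => hn' (by
      simpa using mul_mem h (Subgroup.mem_sup_left hx)), ?_, hm.le ⟨?_, ?_⟩⟩
    · rw [← ea, map_mul, MulAut.mul_def, MulEquiv.toMonoidHom_eq_coe, MulEquiv.coe_monoidHom_trans, ← Subgroup.map_map]
      congr 1
      exact Subgroup.mem_normalizer_iff_map_conj_eq.1 (Subgroup.le_normalizer (inv_mem hx))
    · have : (n * x⁻¹) ^ 2 = n * y * n⁻¹ * x⁻¹ := by
        rw [← show x⁻¹ * n ^ 2 = y by rw [t, inv_mul_cancel_left]]; simp [sq, mul_assoc]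
      rw [this]
      exact L₁.mul_mem v (inv_mem hx)
    · have : (n * x⁻¹) ^ 2 = n * x⁻¹ * n⁻¹ * y := by
        rw [← show n ^ 2 * x⁻¹ = y by rw [t, hc x hx y hy, mul_inv_cancel_right]]; simp [sq, mul_assoc]
      rw [this]
      exact L₂.mul_mem u hy
  · exact .inl ⟨Subgroup.eq_of_le_of_card_ge b (d _).ge, Subgroup.eq_of_le_of_card_ge a (d _).ge⟩
  · exact absurd (le_inf b a) (z _ _ Fintype.one_lt_card ((Nat.card_congr e₂.toEquiv).trans card_SL2'))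

end Cfsg.Agent.S3210
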