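import Cfsg.Statements.S3211
import Cfsg.Agent.H1.SK

set_option autoImplicit false
open Cfsg

namespace Cfsg.Agent.S3211

/-- Let G be a finite group with subgroups L₁ ≅ SL₂(q₁) and L₂ ≅ SL₂(q₂), q₁ and q₂ odd prime powers, which commute elementwise and meet in ⟨j⟩ for an involution j, and suppose L₁L₂ has index 2 in C_G(j). If some n ∈ C_G(j) with n² = j interchanges L₁ and L₂ under conjugation (so that C_G(j) = L₁L₂⟨n⟩), then G = C_G(j)O(G). -/
theorem result {G : Type*} [Group G] [Finite G]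
    {F₁ : Type*} [Field F₁] [Fintype F₁] {F₂ : Type*} [Field F₂] [Fintype F₂]
    (hF₁ : Odd (Fintype.card F₁)) (hF₂ : Odd (Fintype.card F₂)) (L₁ L₂ : Subgroup G)
    (e₁ : ↥L₁ ≃* Matrix.SpecialLinearGroup (Fin 2) F₁) (e₂ : ↥L₂ ≃* Matrix.SpecialLinearGroup (Fin 2) F₂)
    (hc : ∀ x ∈ L₁, ∀ y ∈ L₂, x * y = y * x) (j : G) (hj : orderOf j = 2) (hm : L₁ ⊓ L₂ = Subgroup.zpowers j)
    (hle : L₁ ⊔ L₂ ≤ Subgroup.centralizer ({j} : Set G)) (hi : (L₁ ⊔ L₂).relIndex (Subgroup.centralizer ({j} : Set G)) = 2) (n : G) (hn : n ∈ Subgroup.centralizer ({j} : Set G))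
    (hn2 : n ^ 2 = j) (hswap : L₁.map (MulAut.conj n).toMonoidHom = L₂) :
    Subgroup.centralizer ({j} : Set G) ⊔ Cfsg.oddCore G = ⊤ := by
  open Subgroup CfsgH2 in
  open CfsgH1 hiding card_inf_mul_relIndex card_lt_of_lt card_lt_of_ne_top card_map_mul_card_inf_ker card_mul_relIndex card_subgroupOf card_sup_dvd card_sup_mul_card_inf coprime_le_sup_cent exists_card_prime_le isNilpotent_map isNilpotent_of_le isPGroup_pCore isSolvable_map isSolvable_of_le le_pCore le_pPrimeCore relIndex_map_dvd in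
  open scoped CfsgH1 in
  open scoped commutatorElement in
  · haveI : Fact (Nat.Prime 2) := ⟨Nat.prime_two⟩
    have j1 := (hm.ge (mem_zpowers j)).1
    have k₁ := sk_of_equiv hF₁ e₁ hj j1
    have k₂ := sk_of_equiv hF₂ e₂ hj (hm.ge (mem_zpowers j)).2
    have c : L₁ ≤ C[L₂] := fun x hx => mem_cent_iff.2 fun y hy => (hc x hx y hy).symm
    have jj := mul_self_of_two hj
    have s1 : ∀ x ∈ L₁, n * x * n⁻¹ ∈ L₂ := fun x hx => hswap.le ⟨x, hx, rfl⟩
    have s0 : ∀ x ∈ C1[j], n * (n * x * n⁻¹) * n⁻¹ = x := fun x hx => by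
      rw [show n * (n * x * n⁻¹) * n⁻¹ = n ^ 2 * x * (n ^ 2)⁻¹ by rw [pow_two]; group, hn2, ← mem_centralizer_singleton_iff.1 hx, mul_inv_cancel_right]
    have s2 : ∀ x ∈ L₂, n * x * n⁻¹ ∈ L₁ := fun x hx => by
      obtain ⟨y, hy, rfl⟩ := hswap.ge hx
      exact (s0 y (hle (mem_sup_left hy))).symm ▸ hy
    have zc : ∀ {a x}, a ∈ zpowers j → x ∈ C1[j] → x * a * x⁻¹ = a := fun ha hx =>
      mul_inv_eq_iff_eq_mul.2 (mem_centralizer_singleton_iff.1 (zpowers_le.2 (mem_centralizer_singleton_iff.2 (mem_centralizer_singleton_iff.1 hx).symm) ha)).symm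
    have n1 : n ∉ L₁ ⊔ L₂ := fun h => by
      obtain ⟨x, hx, e⟩ := k₁.ex
      have : n * x * n⁻¹ ∈ zpowers j := hm.le ⟨conj_mem_of_norm (sup_le le_normalizer (le_norm_of_le_cent (le_centralizer_iff.1 c)) h) hx, s1 x hx⟩
      have a : n * x * n⁻¹ * (n * x * n⁻¹) = 1 := by rcases (mem_zp2 hj).1 this with a | a <;> rw [a] <;> simp [jj]
      rw [conj_mul, e, zc (mem_zpowers j) hn] at a
      exact ne_one_of_two hj a
    rw [sup_comm]
    refine (CfsgH4.inZStar_of_isolated (k₁.isolated k₂ c hj hm fun u hu u2 => not_not.1 fun u1 => ?_)).sup_eq ⟨1, hj⟩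
    obtain ⟨x, hx, y, hy, e⟩ := (mem_sup_of_norm (le_norm_of_le_cent c)).1 ((mul_mem_iff_of_index_two (H := (L₁ ⊔ L₂).subgroupOf C1[j]) hi (a := ⟨u, hu⟩) (b := ⟨n, hn⟩⁻¹)).2
      (iff_of_false u1 fun a => n1 (inv_mem_iff.1 a)))
    obtain rfl : u = x * y * n := (eq_mul_of_mul_inv_eq e.symm)
    have e1 : x * (n * y * n⁻¹) * (y * (n * x * n⁻¹)) * j = 1 := by
      rw [← u2, ← hn2, mul_assoc x, hc _ (s2 y hy) _ (mul_mem hy (s1 x hx)), pow_two]; group
    have a : x * (n * y * n⁻¹) ∈ zpowers j := hm.le ⟨mul_mem hx (s2 y hy), by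
      rw [mul_assoc] at e1
      exact eq_inv_of_mul_eq_one_left e1 ▸ L₂.inv_mem (mul_mem (mul_mem hy (s1 x hx)) (hm.ge (mem_zpowers j)).2)⟩
    have b := zc a hn
    rw [← conj_mul, s0 y (hle (mem_sup_right hy))] at b
    rw [show y * (n * x * n⁻¹) = y * (n * x * n⁻¹ * y) * y⁻¹ by group, b, zc a (hle (mem_sup_right hy))] at e1
    rcases (mem_zp2 hj).1 a with a | a <;> rw [a] at e1 <;> exact ne_one_of_two hj (by simpa [jj] using e1)

end Cfsg.Agent.S3211
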