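import Mathlib
import Cfsg.Statements.S3213
import Cfsg.Agent.H8.PslC

set_option autoImplicit false
open Cfsg

namespace Cfsg.Agent.S3213

open CfsgH8 Module

theorem five : ∀ x : Matrix.SpecialLinearGroup (Fin 2) (ZMod 5), x ^ 3 = 1 → x ≠ 1 →
    ∃ g ∈ ([⟨!![0, 1; 4, 2], by decide⟩, ⟨!![1, 3; 2, 2], by decide⟩] : List (Matrix.SpecialLinearGroup (Fin 2) (ZMod 5))),
      (x * (g * x * g⁻¹) * (x * (g * x * g⁻¹))) ^ 5 = 1 ∧ x * (g * x * g⁻¹) * (x * (g * x * g⁻¹)) ≠ 1 := by
  decide +kernel

theorem aux {F V : Type*} [Field F] [AddCommGroup V] [Module F V] [FiniteDimensional F V] (h3 : (3 : F) = 0)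
    (d : finrank F V = 4) (B : V →ₗ[F] V →ₗ[F] F) (s : ∀ u v, B u v = -B v u) (n : ∀ u, (∀ v, B u v = 0) → u = 0)
    (f : V →ₗ[F] V) (f3 : ∀ v, f (f (f v)) = v) (i : ∀ u v, B (f u) (f v) = B u v)
    (k : finrank F (LinearMap.ker (f - .id)) ≤ 2) :
    finrank F (LinearMap.ker (f - .id)) = 2 ∧ ∀ v w, f v = v → f w = w → B v w = 0 := by
  set N := f - .id with hN
  have e : ∀ v, N v = f v - v := fun _ => rfl
  have a : ∀ u v, B (f u) v = B u (f (f v)) := fun u v => by rw [← i u, f3]
  have b : ∀ u v, B (N (N u)) v = -B (N (N v)) u := fun u v => by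
    rw [← s]
    simp only [e, map_sub, LinearMap.sub_apply, a, f3]
    linear_combination (B u (f v) - B u (f (f v))) * h3
  have r := N.finrank_range_add_finrank_ker
  have l : LinearMap.range (N ∘ₗ N) ≤ LinearMap.ker N := by
    rintro _ ⟨v, rfl⟩
    simp only [LinearMap.mem_ker, LinearMap.comp_apply, e, map_sub, f3]
    linear_combination (norm := module) h3 • (f v - f (f v))
  have l' : LinearMap.range N ≤ LinearMap.ker N := by
    rcases le_or_gt (finrank F (LinearMap.range (N ∘ₗ N))) 1 with h | h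
    · obtain ⟨w, hw⟩ := finrank_le_one_iff.1 h
      rintro _ ⟨u, rfl⟩
      refine n _ fun v => ?_
      obtain ⟨c, hc⟩ := hw ⟨_, u, rfl⟩
      obtain ⟨c', hc'⟩ := hw ⟨_, v, rfl⟩
      have hc : c • w.1 = N (N u) := congrArg Subtype.val hc
      have hc' : c' • w.1 = N (N v) := congrArg Subtype.val hc'
      have t := b u u
      by_cases z : c = 0
      · simp [← hc, z]
      rw [← hc, map_smul, LinearMap.smul_apply, smul_eq_mul] at t
      rw [b, ← hc', map_smul, LinearMap.smul_apply, (mul_eq_zero.1 (show c * B w u = 0 by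
        linear_combination -t + c * B w u * h3)).resolve_left z, smul_zero, neg_zero]
    · rwa [← Submodule.eq_of_le_of_finrank_le (LinearMap.range_comp_le_range N N) (by have := Submodule.finrank_mono l; omega)]
  have := Submodule.finrank_mono l'
  refine ⟨by omega, fun v w hv hw => ?_⟩
  obtain ⟨u, rfl⟩ := (Submodule.eq_of_le_of_finrank_le l' (by omega)).ge (show v ∈ _ from sub_eq_zero.2 hv)
  rw [e, map_sub, LinearMap.sub_apply, ← i u, hw, sub_self]

/-- Let F be the field with 3 elements and K the field with 5 elements. For every injective homomorphism φ from SL₂(K) into the symplectic group Sp₄(F) (4 × 4 matrices g with g J gᵀ = J for the standard alternating matrix J) and every element x of order 3 of SL₂(K), the vectors of F⁴ fixed by φ(x) form a 2-dimensional subspace that is totally isotropic for the alternating form defined by J. -/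
theorem result {F : Type*} [Field F] [Fintype F] (hF : Fintype.card F = 3)
    {K : Type*} [Field K] [Fintype K] (hK : Fintype.card K = 5)
    (φ : Matrix.SpecialLinearGroup (Fin 2) K →* ↥(Matrix.symplecticGroup (Fin 2) F)) (hφ : Function.Injective φ)
    (x : Matrix.SpecialLinearGroup (Fin 2) K) (hx : orderOf x = 3) :
    Module.finrank F ↥(LinearMap.ker (Matrix.toLin' ((φ x : Matrix (Fin 2 ⊕ Fin 2) (Fin 2 ⊕ Fin 2) F)) - LinearMap.id)) = 2 ∧
      ∀ v w : Fin 2 ⊕ Fin 2 → F, (φ x : Matrix (Fin 2 ⊕ Fin 2) (Fin 2 ⊕ Fin 2) F).mulVec v = v →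
        (φ x : Matrix (Fin 2 ⊕ Fin 2) (Fin 2 ⊕ Fin 2) F).mulVec w = w →
          dotProduct v ((Matrix.J (Fin 2) F).mulVec w) = 0 := by
  classical
  haveI := Fact.mk Nat.prime_five
  obtain ⟨e⟩ := sl_congr (ι := Fin 2) (hK.trans (ZMod.card 5).symm)
  have x3 : x ^ 3 = 1 := hx ▸ pow_orderOf_eq_one x
  obtain ⟨g, -, y5, y1⟩ := five (e x) (by rw [← map_pow, x3, map_one]) fun h => by simp [e.map_eq_one_iff.1 h] at hx
  obtain ⟨g, rfl⟩ := e.surjective g
  simp only [← map_inv, ← map_mul, ← map_pow, ne_eq, e.map_eq_one_iff] at y5 y1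
  let ρ : Matrix.SpecialLinearGroup (Fin 2) K →* Module.End F (Fin 2 ⊕ Fin 2 → F) :=
    (Matrix.toLinAlgEquiv' (R := F)).toMonoidHom.comp ((Submonoid.subtype _).comp φ)
  have r : ∀ a b v, ρ a (ρ b v) = ρ (a * b) v := fun a b v => by rw [map_mul]; rfl
  have d : finrank F (Fin 2 ⊕ Fin 2 → F) = 4 := by simp
  have y0 : ∀ v, ρ (x * (g * x * g⁻¹) * (x * (g * x * g⁻¹))) v = v → v = 0 := by
    generalize x * (g * x * g⁻¹) * (x * (g * x * g⁻¹)) = y at *
    have m := Equiv.Perm.card_fixedPoints_modEq (f := (ρ y : _ → _)) (p := 5) (n := 1) (funext fun v => by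
      change ρ y (ρ y (ρ y (ρ y (ρ y v)))) = v
      simp only [r, show y * (y * (y * (y * y))) = 1 by simpa [pow_succ, mul_assoc] using y5, map_one, Module.End.one_apply])
    have c : Fintype.card (Function.fixedPoints (ρ y)) = 3 ^ finrank F (LinearMap.ker (ρ y - 1)) := by
      rw [← hF, ← Module.card_eq_pow_finrank]
      exact Fintype.card_congr (Equiv.subtypeEquivRight fun v => sub_eq_zero.symm)
    rw [Module.card_eq_pow_finrank (K := F), hF, d] at m
    have l := d ▸ (LinearMap.ker (ρ y - 1)).finrank_le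
    have n : finrank F (LinearMap.ker (ρ y - 1)) ≠ 4 := fun h => y1 (hφ (Subtype.ext (Matrix.toLin'.injective
      (LinearMap.ext fun v => by
        simpa using (show (φ y).1.mulVec v = v from sub_eq_zero.1 ((Submodule.eq_top_of_finrank_eq (h.trans d.symm)).ge trivial))))))
    have : finrank F (LinearMap.ker (ρ y - 1)) = 0 := by
      have m := m.trans (show _ ≡ _ [MOD 5] from congrArg (· % 5) c)
      generalize finrank F (LinearMap.ker (ρ y - 1)) = k at *
      interval_cases k <;> simp_all [Nat.ModEq]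
    exact fun v hv => (Submodule.finrank_eq_zero.1 this).le (sub_eq_zero.2 hv)
  refine aux (by simpa [hF] using FiniteField.cast_card_eq_zero F) d (Matrix.toLinearMap₂' F (Matrix.J (Fin 2) F))
    (fun u v => ?_) (fun u h => ?_) (ρ x) (fun v => ?_) (fun u v => ?_) ?_ |>.imp_right fun h v w a b => by
      simpa [Matrix.toLinearMap₂'_apply'] using h v w a b
  · simp [Matrix.toLinearMap₂'_apply', Matrix.J, Matrix.fromBlocks_mulVec, dotProduct, Matrix.neg_mulVec]
    ring
  · simp only [Matrix.toLinearMap₂'_apply', Matrix.dotProduct_mulVec] at h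
    have := congrArg (Matrix.vecMul · (Matrix.J (Fin 2) F)) (dotProduct_eq_zero _ h)
    simpa [Matrix.J_squared, Matrix.vecMul_neg] using this
  · simp only [r, show x * (x * x) = 1 by simpa [pow_succ, mul_assoc] using x3, map_one, Module.End.one_apply]
  · change Matrix.toLinearMap₂' F _ ((φ x).1.mulVec u) ((φ x).1.mulVec v) = _
    rw [Matrix.toLinearMap₂'_apply', Matrix.toLinearMap₂'_apply', ← Matrix.vecMul_transpose, Matrix.mulVec_mulVec,
      Matrix.dotProduct_mulVec, Matrix.vecMul_vecMul, ← mul_assoc, SymplecticGroup.mem_iff'.1 (φ x).2, Matrix.dotProduct_mulVec]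
  · by_contra! h
    have i : Function.Injective (ρ g) := fun a b t => by simpa [r] using congrArg (ρ g⁻¹) t
    have s := Submodule.finrank_sup_add_finrank_inf_eq (LinearMap.ker (ρ x - LinearMap.id)) ((LinearMap.ker (ρ x - LinearMap.id)).map (ρ g))
    rw [← (Submodule.equivMapOfInjective _ i _).finrank_eq, (Submodule.eq_bot_iff (_ ⊓ _)).2, finrank_bot] at s
    · have := d ▸ (LinearMap.ker (ρ x - LinearMap.id) ⊔ (LinearMap.ker (ρ x - LinearMap.id)).map (ρ g)).finrank_le
      omega
    rintro _ ⟨a, v, b, rfl⟩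
    have : ρ (x * (g * x * g⁻¹)) (ρ g v) = ρ g v := by
      rw [← r, r (_ * _), inv_mul_cancel_right, ← r, show ρ x v = v from sub_eq_zero.1 b]
      exact sub_eq_zero.1 a
    exact y0 _ (by rw [← r, this, this])

end Cfsg.Agent.S3213
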