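import Cfsg.Statements.S3215
import Cfsg.Agent.H2.Pq4

set_option autoImplicit false
open Cfsg

namespace Cfsg.Agent.S3215
open CfsgH2

/-- Let H be a finite solvable group with no nontrivial normal subgroup of odd order in which the centralizer of every involution has a normal 2-complement. Let X be a Hall 2'-subgroup of H (odd order, index a power of 2) and Y = O₂(H). Then no non-identity element of X commutes with a non-identity element of Y (so for X ≠ 1 the group XY is a Frobenius group with kernel Y), every Sylow subgroup of X is cyclic, XY is normal in H, and H/XY is a cyclic 2-group. -/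
theorem result {H : Type*} [Group H] [Finite H] (hsol : Group.IsSolvable H)
    (hO : Cfsg.oddCore H = ⊥)
    (hI : ∀ t : H, orderOf t = 2 → Cfsg.HasNormalPComplement 2 ↥(Subgroup.centralizer ({t} : Set H)))
    (X : Subgroup H) (hXodd : Odd (Nat.card X)) (hXidx : ∃ k : ℕ, X.index = 2 ^ k) :
    (∀ x ∈ X, x ≠ 1 → ∀ y ∈ Cfsg.pCore 2 H, y ≠ 1 → x * y ≠ y * x) ∧
      (∀ (p : ℕ) [Fact p.Prime] (P : Sylow p ↥X), IsCyclic ↥(P : Subgroup ↥X)) ∧
      (X ⊔ Cfsg.pCore 2 H).Normal ∧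
      ∀ hN : (X ⊔ Cfsg.pCore 2 H).Normal, IsCyclic (H ⧸ (X ⊔ Cfsg.pCore 2 H)) ∧ IsPGroup 2 (H ⧸ (X ⊔ Cfsg.pCore 2 H)) := by
  open Subgroup Function in open scoped commutatorElement in
  · open CfsgBG in
    set Y := pCore 2 H with hY
    have pY : IsPGroup 2 Y := isPGroup_pCore
    have nY : ∀ A : Subgroup H, A ≤ N[Y] := fun A => le_top.trans (top_le_norm_iff.2 inferInstance)
    have sT : Group.IsSolvable (⊤ : Subgroup H) := inferInstance
    have cY : C[Y] ≤ Y := by
      have := cent_fit_le sT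
      rwa [fit_eq_core (p := 2) (pPrimeCore_eq'.symm.trans hO), ← pCore_eq', top_inf_eq] at this
    have k0 : ∀ t : H, orderOf t = 2 → ∀ x ∈ C1[t], (orderOf x).Coprime 2 → x ∈ C[Y ⊓ C1[t]] := fun t ht x hx o =>
      (npc_iff.1 (hI t ht)).mem_cent (pY.to_le inf_le_left) inf_le_right hx
        (mem_norm_inf (nY ⊤ trivial) (le_normalizer hx)) o
    have k1 : ∀ x : H, (orderOf x).Coprime 2 → x ≠ 1 → Y ⊓ C1[x] = ⊥ := fun x o x1 => by
      by_contra c
      obtain ⟨t, ht, e⟩ := exists_prime_order_mem Nat.prime_two (dvd_card_of_pgroup (pY.to_le inf_le_left) c)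
      refine x1 (eq_one_of_coprime_order pY (cY (zpowers_le.1 (coprime_nil_cent pY.isNilpotent (nY _) (coprime_of_not_dvd
        (by rw [Nat.card_zpowers]; exact (coprime_iff_not_dvd Nat.prime_two).1 o) pY) ?_))) o)
      rw [cent_zpowers]
      exact (inf_le_inf_left _ (cent_le_cent1 ht)).trans (le_cent1_iff.2 (k0 t e x
        (mem_centralizer_singleton_iff.2 (mem_centralizer_singleton_iff.1 ht.2).symm) o))
    have oX : ∀ x ∈ X, (orderOf x).Coprime 2 := fun x hx => (Odd.of_dvd_nat hXodd (orderOf_dvd_of_mem hx)).coprime_two_right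
    have hX : Hall {2}ᶜ X ⊤ := ⟨le_top, (piN_compl_singleton Nat.prime_two).2 hXodd.not_two_dvd_nat, by
      rw [compl_compl, relIndex_top_right]; exact (piN_singleton Nat.prime_two (index_pos X).ne').2 hXidx⟩
    by_cases Y0 : Y = ⊥
    · have e : ∀ A : Subgroup H, A = ⊥ := fun A => eq_bot_iff.2 (le_trans (by rw [Y0, cent_bot]; exact le_top) (cY.trans Y0.le))
      haveI : Subsingleton H := ⟨fun a b => (mem_bot.1 (e ⊤ ▸ mem_top a)).trans (mem_bot.1 (e ⊤ ▸ mem_top b)).symm⟩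
      exact ⟨fun x _ a => absurd (Subsingleton.elim _ _) a, fun _ _ _ => inferInstance, by rw [e (X ⊔ Y)]; infer_instance,
        fun _ => ⟨inferInstance, IsPGroup.of_card (n := 0) Nat.card_unique⟩⟩
    have k2 : ∀ (p : ℕ) [Fact p.Prime], ∀ P ≤ X, IsPGroup p P → IsCyclic P := fun p hp P a b => by
      by_cases p2 : p = 2
      · rw [eq_bot_of_pgroup_of_not_dvd b (p2 ▸ (odd_of_le hXodd a).not_two_dvd_nat)]; infer_instance
      by_contra c
      obtain ⟨E, e1, e2, e3⟩ := exists_elem2_of_not_cyclic p2 b c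
      exact Y0 (eq_bot_iff.2 (le_of_cent1 e2.1 (not_cyclic_of_elem hp.out e2 e3 le_rfl) (nY E) (coprime_of_not_dvd
        (odd_of_le hXodd (e1.trans a)).not_two_dvd_nat pY) fun x hx x1 => (k1 x (oX x (a (e1 hx))) x1).le))
    have sq := isSolvable_qt (K := Y) sT
    have o2 : O[{2}, qt Y ⊤] = ⊥ := by rw [hY, pCore_eq']; exact piCoreOf_qt_self
    have f1 : F[qt Y ⊤] ≤ qt Y X := (hX.qt (nY ⊤)).le_of_norm (fit_piN (by rwa [compl_compl])) fit_le
      (.inl ((qt_mono le_top).trans le_norm_fit))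
    have f2 : IsCyclic F[qt Y ⊤] := nil_cyc_of_cores fit_nil fun p _ _ => by
      obtain ⟨P, hP⟩ := exists_syl (p := p) X
      obtain ⟨g, -, e⟩ := (hP.qt (K := Y) (nY X)).exists_le_conj isPGroup_piCoreOf (piCoreOf_le.trans f1)
      exact isCyclic_of_le ((inj_isCyclic (cj_injective g)).2 (isCyclic_qt (k2 p P hP.le hP.pg))) e
    have f3 : ⁅qt Y ⊤, qt Y ⊤⁆ ≤ F[qt Y ⊤] := (le_inf commutator_self_le (commutator_le_cent_of_cyclic f2 le_norm_fit)).trans
      (cent_fit_le sq)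
    have f4 : ⁅(⊤ : Subgroup H), ⊤⁆ ≤ X ⊔ Y := by
      rw [← qt_le_qt (nY _) (nY _), qt_commutator (nY _) (nY _)]; exact f3.trans f1
    have f5 := hX.pi'_of_le (le_sup_left : X ≤ X ⊔ Y)
    rw [compl_compl] at f5
    refine ⟨fun x a b y c d e => d (mem_bot.1 (k1 x (oX x a) b ▸ mem_inf.2 ⟨c, mem_centralizer_singleton_iff.2 e.symm⟩)),
      fun p _ P => (inj_isCyclic (subtype_injective X)).1 (k2 p _ (map_subtype_le _) (P.2.map _)),
      normal_of_top_le_norm (le_norm_of_commutator_le f4 le_top), fun _ => ⟨?_, isPGroup_iff_piN.2 (by rwa [relIndex_top_right] at f5)⟩⟩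
    set L := qc Y F[qt Y ⊤] with hL
    have nL : ⊤ ≤ N[L] := le_norm_qc (nY _) le_norm_fit
    have lL : L ≤ X ⊔ Y := by rw [← qc_qt (nY X)]; exact qc_mono f1
    have h0 := hX.inf_norm le_top (.inl (le_top.trans nL))
    have eL : (X ⊓ L) ⊔ Y = L := by rw [← sup_inf_of_norm' (.inl (nY X)) le_qc, inf_eq_right.2 lL]
    by_cases X0 : X ⊓ L = ⊥
    · rw [X0, bot_sup_eq, hL, eq_comm, qc_eq_self] at eL
      have : Y = ⊤ := top_le_iff.1 ((qt_eq_bot (nY _)).1 (not_not.1 fun c => fit_ne_bot sq c eL))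
      haveI := QuotientGroup.subsingleton_iff.2 (top_le_iff.1 (this.ge.trans le_sup_right) : X ⊔ Y = ⊤)
      infer_instance
    have e1 := h0.frattini_sup inferInstance le_top nL
    rw [top_inf_eq] at e1
    obtain ⟨T, hT⟩ := exists_syl (p := 2) N[X ⊓ L]
    obtain ⟨x, hx, x1⟩ := exists_ne_one X0
    have d1 : N[X ⊓ L] ⊓ Y = ⊥ := eq_bot_iff.2 (k1 x (oX x hx.1) x1 ▸ le_inf inf_le_right (le_trans (comm_eq_bot_iff.1
      (eq_bot_iff.2 (inf_eq_bot_of_piN h0.pi (by rw [compl_compl]; exact isPGroup_iff_piN.1 pY) ▸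
        le_inf (comm_le_right inf_le_left) ((commutator_mono inf_le_right le_rfl).trans (comm_le_left (nY _)))))) (cent_le_cent1 hx)))
    have sY : Syl 2 Y (X ⊔ Y) := ⟨le_sup_right, pY, by
      rw [relIndex_sup_of_norm (nY X)]; exact fun e => hXodd.not_two_dvd_nat (e.trans (relIndex_dvd_card Y X))⟩
    have ab : IsMulCommutative T := comm_self_eq_bot_iff.1 (eq_bot_iff.2 (d1 ▸ le_inf (commutator_self_le.trans hT.le)
      (sY.le_of_norm' (hT.pg.to_le commutator_self_le) ((commutator_mono le_top le_top).trans f4) (nY _))))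
    have cT : IsCyclic T := isCyclic_of_comm_of_prk hT.pg ab (by
      by_contra c
      obtain ⟨U, u1, u2⟩ := exists_el_of_le (show 2 ≤ prk 2 T by omega)
      refine X0 (eq_bot_iff.2 (le_of_cent1 u2.comm (u2.not_cyclic Nat.prime_two le_rfl) (u1.trans hT.le) (coprime_of_pgroup u2.pg
        ((piN_compl_singleton Nat.prime_two).1 h0.pi)) fun u hu u3 y hy => ?_))
      by_contra y1
      have o := orderOf_eq_prime (u2.exp u hu) u3
      refine inf_cent_ne_bot' (u2.pg.to_le (zpowers_le.2 hu)) pY (nY _) Y0 (eq_bot_iff.2 (k1 y (oX y hy.1.1) y1 ▸ le_inf inf_le_left ?_))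
      rw [cent_zpowers]
      exact le_cent1_iff.2 (k0 u o y hy.2 (oX y hy.1.1)))
    have e2 : (X ⊔ Y) ⊔ T = ⊤ := by
      rw [eq_top_iff, ← e1, ← hT.piRes_sup]
      exact sup_le (lL.trans le_sup_left) (sup_le_sup_right ((piRes_mono le_top).trans (piRes_le_of
        (top_le_norm_iff.2 ‹_›) f5)) _)
    obtain ⟨t, rfl⟩ := isCyclic_iff_zpowers.1 cT
    refine (isCyclic_top_iff).1 (isCyclic_iff_zpowers.2 ⟨(t : H ⧸ (X ⊔ Y)), ?_⟩)
    rw [← map_top_of_surjective _ (QuotientGroup.mk'_surjective (X ⊔ Y)), ← e2, Subgroup.map_sup, MonoidHom.map_zpowers,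
      (Subgroup.map_eq_bot_iff _).2 (QuotientGroup.ker_mk' _).ge, bot_sup_eq]; rfl

end Cfsg.Agent.S3215
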