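import Cfsg.Statements.S3225
import Mathlib
import Cfsg.Agent.L0.TT

set_option autoImplicit false
open Cfsg

namespace Cfsg.Agent.S3225

open Cfsg Subgroup CfsgH2 CfsgL0

/-- Let G be a finite group of even order with no subgroup of index 2, S a Sylow 2-subgroup of G and M a subgroup of index 2 in S such that, for some n ≥ 1, every element of S outside M has order greater than 2^(n−1). Then every element of S of order 2ⁿ is conjugate in G to an element of M. -/
theorem result {G : Type*} [Group G] [Finite G] (hev : Even (Nat.card G))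
    (hG : ∀ H : Subgroup G, H.index ≠ 2) (S : Sylow 2 G) (M : Subgroup G) (hMS : M ≤ (S : Subgroup G)) (hM : M.relIndex (S : Subgroup G) = 2)
    (n : ℕ) (hn : 1 ≤ n) (hord : ∀ y ∈ (S : Subgroup G), y ∉ M → 2 ^ (n - 1) < orderOf y)
    (x : G) (hx : x ∈ (S : Subgroup G)) (hxn : orderOf x = 2 ^ n) :
    ∃ g : G, g * x * g⁻¹ ∈ M := by
  by_contra h
  push Not at h
  obtain ⟨K, -, h1, -⟩ := tt_ext (Syl.odd_index (syl_top S)) hM (T := zpowers x)
    (isPGroup_zpowers (k := n) (hxn ▸ pow_orderOf_eq_one x)) (zpowers_le.2 (self_mem_cent1 x)) (mem_zpowers x)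
    (fun k g h1 h2 h3 => by
      by_contra h4
      have h5 := hord _ h1 h4
      have e : orderOf (g⁻¹ * x ^ k * g) = orderOf (x ^ k) := by simpa using orderOf_conj' g⁻¹ (x ^ k)
      rw [e, orderOf_pow_of_dvd (by omega) h3, hxn] at h5
      have h6 : 2 ^ n / k ≤ 2 ^ n / 2 := Nat.div_le_div_left h2 two_pos
      obtain ⟨m, rfl⟩ : ∃ m, n = m + 1 := ⟨n - 1, by omega⟩
      rw [pow_succ, Nat.mul_div_cancel _ two_pos] at h6
      simp only [Nat.add_sub_cancel, pow_succ] at h5
      omega) (fun g _ => by simpa using h g⁻¹)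
  exact hG K h1

end Cfsg.Agent.S3225
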