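import Cfsg.Statements.S3246
import Mathlib
import Cfsg.Agent.H9.Loc
import Cfsg.Agent.H9.PbC

set_option autoImplicit false
open Cfsg

namespace Cfsg.Agent.S3246

/-- Let G be a finite group whose Sylow 2-subgroup S has a self-centralizing normal subgroup of rank at least 3. Suppose that either every maximal 2-local subgroup of G is 2-constrained with no nontrivial normal subgroup of odd order, or the centralizer of every involution of G is 2-constrained with no nontrivial normal subgroup of odd order. Then S normalizes no nontrivial subgroup of G of odd order and every 2-local subgroup of G is 2-constrained. -/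
theorem result {G : Type*} [Group G] [Finite G]
    (S : Sylow 2 G) (A : Subgroup G) (hA : Cfsg.IsSCN (S : Subgroup G) A) (hA3 : ¬ Cfsg.PRankLE 2 2 ↥A)
    (h : (∀ M : Subgroup G, Cfsg.IsMaximalTwoLocal M → Cfsg.IsPConstrained 2 ↥M ∧ Cfsg.oddCore ↥M = ⊥) ∨
      (∀ t : G, orderOf t = 2 → Cfsg.IsPConstrained 2 ↥(Subgroup.centralizer ({t} : Set G)) ∧
        Cfsg.oddCore ↥(Subgroup.centralizer ({t} : Set G)) = ⊥)) :
    (∀ X : Subgroup G, Odd (Nat.card ↥X) → (S : Subgroup G) ≤ Subgroup.normalizer (X : Set G) → X = ⊥) ∧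
      (∀ T : Subgroup G, IsPGroup 2 ↥T → T ≠ ⊥ → Cfsg.IsPConstrained 2 ↥(Subgroup.normalizer (T : Set G))) := by
  open Subgroup Cfsg CfsgH2 Function in
  open scoped commutatorElement in
  have conv : ∀ M : Subgroup G, IsPConstrained 2 M ∧ oddCore M = ⊥ → CfsgH9.ChP 2 M := by
    rintro M ⟨h1, h2⟩
    have h3 : CfsgH9.Opp 2 M = ⊥ := by rw [CfsgH9.Opp, show pPrimeCore 2 M = ⊥ from h2, Subgroup.map_bot]
    rw [CfsgH9.isPConstrained_iff_PLay, CfsgH9.PLay_eq_Lay h3] at h1
    exact CfsgH9.chP_iff.2 ⟨h1, h3⟩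
  have sS : Syl 2 (S : Subgroup G) ⊤ := syl_top S
  have loc : CfsgH9.LocP 2 (⊤ : Subgroup G) := by
    rcases h with h | h
    · intro R _ h1 h2
      obtain ⟨M, m1, m2, m3⟩ := exists_maximal_ge (fun M : Subgroup G => IsTwoLocal M) (H := N[R])
        ⟨R, h1, h2, rfl⟩
      have := (conv M (h M ⟨m2, m3⟩)).inf_normalizer h1 (le_normalizer.trans m1)
      rwa [inf_eq_right.2 m1, ← top_inf_eq N[R]] at this
    · refine CfsgH9.locP_of_syl ⟨sS.le, sS.pg, sS.nd⟩ fun x _ hx => ?_
      rw [top_inf_eq]; exact conv _ (h x hx)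
  refine ⟨fun X hX hn => ?_, fun T h1 h2 => ?_⟩
  swap
  · have := loc T le_top h1 h2
    rw [top_inf_eq, CfsgH9.chP_iff] at this
    rw [CfsgH9.isPConstrained_iff_PLay, CfsgH9.PLay_eq_Lay this.2]
    exact this.1
  have ab : Ab[A] := isMulComm_of_le_cent (hA.2.2.ge.trans inf_le_right)
  have nc : ¬ Cyc[A] := fun hc => hA3 fun B _ hB => by
    obtain ⟨b, rfl⟩ := CfsgPB.exists_gen (inferInstance : Cyc[B])
    rw [Nat.card_zpowers]
    exact (Nat.le_of_dvd two_pos (orderOf_dvd_of_pow_eq_one (hB b (mem_zpowers b)))).trans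
      (by norm_num)
  obtain ⟨W, w1, w2, w3⟩ := exists_normal_el2_of_comm sS.pg (sS.pg.to_le hA.1) hA.2.1 ab nc
  have WS : W ≤ S := w1.trans hA.1
  have pW : PG[2, W] := sS.pg.to_le WS
  have c4 : o[W] = 4 := w3.card
  have ncW : ¬ Cyc[W] := not_cyclic_of_elem Nat.prime_two w3.el w3.card le_rfl
  refine le_bot_iff.1 (le_of_cent1 w3.el.1 ncW (WS.trans hn)
    (coprime_of_pgroup pW hX.not_two_dvd_nat) fun w hw w0 => ?_)
  have ch := loc.centralizer_singleton (mem_top w)
    (orderOf_eq_prime (w3.el.2 _ hw) w0)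
  rw [top_inf_eq, CfsgH9.ChP, CfsgH9.Op, map_pCore_subtype] at ch
  set Q := O[{2}, C1[w]]
  have pQ : PG[2, Q] := isPGroup_piCoreOf
  have nQ : C1[w] ≤ N[Q] := le_norm_piCoreOf
  have i1 : C1[w].relIndex S ≤ 2 := by
    have h1 := relIndex_cent1_le (H := S) (K := ⁅W, (S : Subgroup G)⁆) (a := w) fun x hx => by
      rw [commutator_comm]; exact commutator_mem_commutator hx hw
    have h2 := commutator_lt_of_nilpotent (nil_of_pg sS.pg) WS w2
      (fun e => w0 (by rwa [e, mem_bot] at hw))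
    have h3 := card_dvd_of_le h2.le
    have h4 := card_lt_of_lt h2
    rw [c4] at h3 h4
    have : o[⁅W, (S : Subgroup G)⁆] ≠ 3 := fun e => by rw [e] at h3; omega
    omega
  set T := C1[w] ⊓ (S : Subgroup G)
  have i2 : T.relIndex Q ≤ 2 := by
    have h1 := card_sup_mul_card_inf (H := T) (K := Q) (inf_le_left.trans nQ)
    have h2 := sS.card_le (isPGroup_sup (sS.pg.to_le (inf_le_right : T ≤ S)) pQ
      (Or.inl (inf_le_left.trans nQ))) le_top
    have h3 := card_inf_mul_relIndex C1[w] S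
    have h4 := card_inf_mul_relIndex T Q
    rw [← h4, ← mul_assoc, mul_right_comm] at h1
    have h5 := Nat.eq_of_mul_eq_mul_right (card_pos' _) h1
    refine Nat.le_of_mul_le_mul_left ?_ (card_pos' T)
    rw [← h5]
    exact h2.trans (h3.ge.trans (Nat.mul_le_mul_left _ i1))
  set Y := X ⊓ C1[w]
  have oY : Odd o[Y] := odd_of_le hX inf_le_left
  have hQY : Q ⊓ Y = ⊥ := inf_eq_bot_of_coprime' (coprime_of_pgroup pQ oY.not_two_dvd_nat)
  have h1 : Y ≤ C[T ⊓ Q] := by
    rw [le_centralizer_iff, ← comm_eq_bot_iff, eq_bot_iff, ← hQY]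
    refine le_inf ((commutator_mono inf_le_right le_rfl).trans
      (comm_le_left (inf_le_right.trans nQ))) (comm_le_right (inf_le_left.trans ?_))
    exact le_norm_inf (inf_le_right.trans hn) (inf_le_left.trans le_normalizer)
  have h2 : Y ≤ C[Q] := by
    have := relIndex_pos T Q
    rcases (by omega : T.relIndex Q = 1 ∨ T.relIndex Q = 2) with e | e
    · rwa [inf_eq_right.2 (relIndex_eq_one.1 e)] at h1
    · intro y hy
      exact CfsgH4.mem_cent_of_relIndex_two pQ inf_le_right (by rwa [inf_relIndex_right])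
        (oY.of_dvd_nat (orderOf_dvd_of_mem hy)) (nQ hy.2) (h1 hy)
  rw [← hQY]
  exact le_inf ((le_inf inf_le_right h2).trans ch) le_rfl

end Cfsg.Agent.S3246
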