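import Cfsg.Statements.S3247
import Cfsg.Agent.H2.Pq4
import Cfsg.Agent.H9.PLay

set_option autoImplicit false
open Cfsg

namespace Cfsg.Agent.S3247
open CfsgH2
section
open Subgroup Function
open scoped commutatorElement

open CfsgH9 in
theorem aux {G : Type*} [Group G] [Finite G] {p : ℕ} [Fact p.Prime] {H K P : Subgroup G} (h : IsPConstrained p H)
    (hK : K ≤ H) (hP : IsPGroup p P) (h1 : P ≤ K) (h2 : K ≤ N[P]) (hC : H ⊓ C[P] ≤ K) : PLay p K = ⊥ := by
  rw [← Oupp_PLay, Oupp_eq_bot_iff]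
  exact (Opp_coprime p H).coprime_dvd_left (card_dvd_of_le ((PLay_le_Lbar K).trans (Lbar_le_Opp_of_PLay_eq_bot
    (isPConstrained_iff_PLay.1 h) hK (le_Op (Sn.of_normal h1 h2) hP) hC)))

end

/-- Let G be a finite group and p a prime; here a p-local subgroup means the normalizer of a nontrivial p-subgroup, other than G itself. If every p-local subgroup of G that is maximal among p-local subgroups is p-constrained, or if the centralizer of every element of order p of G is p-constrained, then every p-local subgroup of G is p-constrained. -/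
theorem result {G : Type*} [Group G] [Finite G] (p : ℕ) [hp : Fact p.Prime]
    (h : (∀ M : Subgroup G, (∃ T : Subgroup G, IsPGroup p ↥T ∧ T ≠ ⊥ ∧ M = Subgroup.normalizer (T : Set G)) → M ≠ ⊤ →
        (∀ M' : Subgroup G, (∃ T' : Subgroup G, IsPGroup p ↥T' ∧ T' ≠ ⊥ ∧ M' = Subgroup.normalizer (T' : Set G)) → M' ≠ ⊤ → M ≤ M' → M = M') →
        Cfsg.IsPConstrained p ↥M) ∨
      (∀ x : G, orderOf x = p → Cfsg.IsPConstrained p ↥(Subgroup.centralizer ({x} : Set G))))
    (T : Subgroup G) (hT : IsPGroup p ↥T) (hT1 : T ≠ ⊥) (hTG : Subgroup.normalizer (T : Set G) ≠ ⊤) :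
    Cfsg.IsPConstrained p ↥(Subgroup.normalizer (T : Set G)) := by
  open Subgroup Function in open scoped commutatorElement in
  · rw [CfsgH9.isPConstrained_iff_PLay]
    rcases h with h | h
    · obtain ⟨M, m1, ⟨m2, m3⟩, m4⟩ := exists_maximal_ge (fun M : Subgroup G => (∃ T : Subgroup G, IsPGroup p T ∧ T ≠ ⊥ ∧ M = N[T]) ∧ M ≠ ⊤)
        ⟨⟨T, hT, hT1, rfl⟩, hTG⟩
      exact aux (h M m2 m3 fun M' a b c => (m4 M' ⟨a, b⟩ c).symm) m1 hT le_normalizer le_rfl (inf_le_right.trans (cent_le_norm T))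
    · obtain ⟨x, hx, e⟩ := exists_prime_order_mem hp.out (dvd_card_of_pgroup (hT.to_le inf_le_left) (center_ne_bot hT hT1))
      have := aux (h x e) (K := N[T] ⊓ C1[x]) inf_le_right hT (le_inf le_normalizer (le_cent1_iff.2 hx.2)) inf_le_left
        (le_inf (inf_le_right.trans (cent_le_norm T)) inf_le_left)
      refine eq_bot_iff.2 (this ▸ CfsgH9.PLay_le_PLay_of_le (le_inf (CfsgH9.PLay_le _) ?_) inf_le_left)
      exact (CfsgH9.PLay_le_Lbar _).trans ((comm_eq_bot_iff.1 (CfsgH9.Lbar_comm_Op _)).trans (cent_le_cent1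
        (CfsgH9.le_Op (CfsgH9.Sn.of_normal le_normalizer le_rfl) hT hx.1)))

end Cfsg.Agent.S3247
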