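import Cfsg.Statements.S3269
import Mathlib
import Cfsg.Agent.S0215
import Cfsg.Agent.H4.G2
import Cfsg.Agent.H2.BG0

set_option autoImplicit false
open Cfsg

namespace Cfsg.Agent.S3269

open Cfsg Subgroup CfsgH2
open scoped IsMulCommutative

theorem aux {G : Type*} [Group G] [Finite G] {S Q R : Subgroup G} (h : IsInternalDirectProduct Q R S)
    {a b : G} {m : ℕ} (hQ : CfsgH4.GQ Q a b m) {g : G} (hg : g ∈ N[S])
    (h1 : g * a ^ 2 ^ m * g⁻¹ ∉ R) : g * a ^ 2 ^ m * g⁻¹ = a ^ 2 ^ m := by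
  obtain ⟨hQS, hRS, hc, -, hs⟩ := h
  have hQR : Q ≤ C[R] := fun x hx y hy => (hc x hx y hy).symm
  have nR : S ≤ N[R] := hs ▸ sup_le (le_norm_of_le_cent hQR) le_normalizer
  have nQ : S ≤ N[Q] := hs ▸ sup_le le_normalizer (le_norm_of_le_cent (le_centralizer_iff.1 hQR))
  have h2 : Q.map (cj g) ≤ C[R] := le_cent_of_inf_eq_bot ((map_cj_le_of_norm hQS hg).trans nR)
    (hRS.trans (by rw [normalizer_map_cj, ← map_cj_eq hg]; exact map_mono nQ)) (by
      by_contra h0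
      obtain ⟨x, hx, ho⟩ := exists_prime_order_mem Nat.prime_two (dvd_card_of_pgroup
        ((hQ.toCy2.pg.map (cj g)).to_inf_left) h0)
      obtain ⟨⟨y, hy, rfl⟩, hx⟩ := hx
      rw [cj_apply, orderOf_conj'] at ho
      exact h1 (hQ.eq_of_two hy ho ▸ hx))
  have key : ∀ x ∈ Q, ∃ q ∈ Q, ∃ r, r ∈ C[S] ∧ g * x * g⁻¹ = q * r := fun x hx => by
    obtain ⟨q, hq, r, hr, e⟩ := (mem_sup_of_norm (le_norm_of_le_cent hQR)).1
      (hs.ge (conj_mem_of_norm hg (hQS hx)))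
    refine ⟨q, hq, r, ?_, e.symm⟩
    rw [← hs, cent_sup]
    refine ⟨le_centralizer_iff.1 hQR hr, ?_⟩
    rw [show r = q⁻¹ * (g * x * g⁻¹) by rw [← e]; group]
    exact C[R].mul_mem (inv_mem (hQR hq)) (h2 (conj_mem_map_cj hx))
  obtain ⟨k, rfl⟩ := Nat.exists_eq_add_of_le' hQ.pos
  have hc' : a ^ 2 ^ k ∈ zpowers a := pow_mem (mem_zpowers a) _
  obtain ⟨q, hq, r, hr, e⟩ := key _ (hQ.ale hc')
  obtain ⟨q', hq', r', hr', e'⟩ := key _ hQ.bmem
  refine hQ.eq_of_two ?_ (by rw [orderOf_conj', hQ.ord_t])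
  have e1 : a ^ 2 ^ (k + 1) = a ^ 2 ^ k * (b * a ^ 2 ^ k * b⁻¹)⁻¹ := by
    rw [hQ.inverts hQ.bmem hQ.nmem hc', inv_inv, pow_succ, pow_mul, sq]
  have e2 : g * a ^ 2 ^ (k + 1) * g⁻¹ = q * r * (q' * r' * (q * r) * (q' * r')⁻¹)⁻¹ := by
    rw [e1, ← e, ← e']; group
  have c1 := mem_cent_iff.1 hr' _ (e ▸ conj_mem_of_norm hg (hQS (hQ.ale hc')))
  have c2 := mem_cent_iff.1 hr _ (hQS (inv_mem hq'))
  have c3 := mem_cent_iff.1 hr _ (hQS (mul_mem (mul_mem hq' hq) (inv_mem hq')))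
  have e3 : q' * r' * (q * r) * (q' * r')⁻¹ = r * (q' * q * q'⁻¹) := by
    rw [mul_assoc q' r', ← c1, ← c3, mul_assoc _ q'⁻¹, c2]; group
  rw [e2, e3, mem_cent_iff.1 hr q (hQS hq), ← c3]
  rw [show r * q * (q' * q * q'⁻¹ * r)⁻¹ = r * (q * r⁻¹) * (q' * q * q'⁻¹)⁻¹ by group,
    mem_cent_iff.1 (inv_mem hr) q (hQS hq), mul_inv_cancel_left]
  exact mul_mem hq (inv_mem (mul_mem (mul_mem hq' hq) (inv_mem hq')))

/-- Let G be a finite group whose Sylow 2-subgroup S is an internal direct product Q × R with Q generalized quaternion (of order at least 8) and R a subgroup all of whose involutions are central in R. Then G is not simple. In particular no finite simple group has a Sylow 2-subgroup that is a direct product of one or more generalized quaternion groups. -/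
theorem result {G : Type*} [Group G] [Finite G]
    (S : Sylow 2 G) (Q R : Subgroup G) (hQR : Cfsg.IsInternalDirectProduct Q R (S : Subgroup G))
    (n : ℕ) (hn : 1 ≤ n) (eQ : ↥Q ≃* QuaternionGroup (2 ^ n))
    (hR : ∀ r ∈ R, orderOf r = 2 → ∀ s ∈ R, r * s = s * r) :
    ¬ IsSimpleGroup G := by
  classical
  intro hG
  obtain ⟨a, b, hQ⟩ := CfsgH4.gq_of_equiv hn eQ
  have h := hQR
  obtain ⟨hQS, hRS, hc, hi, hs⟩ := h
  have hQR' : Q ≤ C[R] := fun x hx y hy => (hc x hx y hy).symm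
  have key : ∀ x ∈ (S : Subgroup G), x * x = 1 → x ∈ C[(S : Subgroup G)] := fun x hx h2 => by
    obtain ⟨q, hq, r, hr, rfl⟩ := (mem_sup_of_norm (le_norm_of_le_cent hQR')).1 (hs.ge hx)
    have e : q * q = (r * r)⁻¹ := by
      rw [eq_inv_iff_mul_eq_one, ← h2, mul_assoc q r, ← mul_assoc r q, ← hc q hq r hr]; group
    have h1 : q * q = 1 := mem_bot.1 (hi ▸ ⟨Q.mul_mem hq hq, e ▸ R.inv_mem (R.mul_mem hr hr)⟩)
    rw [← hs, cent_sup]
    refine mul_mem ⟨?_, hQR' hq⟩ ⟨le_centralizer_iff.1 hQR' hr, ?_⟩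
    · rcases hQ.eq_of_sq hq h1 with rfl | rfl
      · exact one_mem _
      · exact fun y hy => eq_mul_of_mul_inv_eq (hQ.eq_of_two (mul_mem (mul_mem hy hq) (inv_mem hy))
          (by rw [orderOf_conj', hQ.ord_t]))
    · by_cases h0 : r = 1
      · exact h0 ▸ one_mem _
      · exact fun s hs => (hR r hr (orderOf_eq_prime (by rw [sq, ← inv_eq_one, ← e, h1]) h0) s hs).symm
  set z := a ^ 2 ^ n
  have hz : z * z = 1 := by rw [← sq, ← hQ.ord_t, pow_orderOf_eq_one]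
  set V := omegaOne 2 ((S : Subgroup G) ⊓ C[(S : Subgroup G)])
  have hV : IsElementaryAbelian 2 V := elem_omegaOne (isMulComm_cent_inf _)
  haveI : Ab[V] := hV.1
  have nV : N[(S : Subgroup G)] ≤ N[V] := norm_le_norm_center.trans norm_le_norm_omegaOne
  have hzV : z ∈ V := mem_omegaOne ⟨hQS hQ.tmem, key _ (hQS hQ.tmem) hz⟩ (by rwa [sq])
  haveI := Fintype.ofFinite V
  set T : Finset V := Finset.univ.filter fun w => ∃ g ∈ N[(S : Subgroup G)], g * z * g⁻¹ = w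
  set u : V := ∏ w ∈ T, w
  have h1 : ∀ g ∈ N[(S : Subgroup G)], g * u * g⁻¹ = u := fun g hg => by
    have := map_prod (V.normalizerMonoidHom ⟨g, nV hg⟩) (fun w => w) T
    rw [Finset.prod_equiv (V.normalizerMonoidHom ⟨g, nV hg⟩).toEquiv (t := T) (g := fun w => w)
      (f := fun w => V.normalizerMonoidHom ⟨g, nV hg⟩ w) ?_ fun _ _ => rfl] at this
    · exact congrArg Subtype.val this
    · intro w
      simp only [T, Finset.mem_filter, Finset.mem_univ, true_and]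
      refine ⟨fun ⟨k, hk, e⟩ => ⟨g * k, mul_mem hg hk, ?_⟩, fun ⟨k, hk, e⟩ => ⟨g⁻¹ * k, mul_mem (inv_mem hg) hk, ?_⟩⟩
      · change _ = g * w * g⁻¹
        rw [← e]; group
      · change _ = g * w * g⁻¹ at e
        rw [show (w : G) = g⁻¹ * (g * w * g⁻¹) * g by group, ← e]; group
  have h2 : (u : G) ≠ 1 := fun h0 => by
    have hT : (⟨z, hzV⟩ : V) ∈ T := Finset.mem_filter.2 ⟨Finset.mem_univ _, 1, one_mem _, by simp⟩
    have e := Finset.mul_prod_erase T (fun w => w) hT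
    have h3 : ∏ w ∈ T.erase ⟨z, hzV⟩, w ∈ R.subgroupOf V := prod_mem fun w hw => by
      obtain ⟨h4, h5⟩ := Finset.mem_erase.1 hw
      obtain ⟨-, g, hg, e⟩ := Finset.mem_filter.1 h5
      by_contra h6
      exact h4 (Subtype.ext (e.symm.trans (aux hQR hQ hg (e ▸ h6))))
    have e2 := congrArg Subtype.val e
    rw [coe_mul, show ((∏ w ∈ T, w : V) : G) = 1 from h0, mul_eq_one_iff_eq_inv] at e2
    have : z ∈ (⊥ : Subgroup G) := hi ▸ ⟨hQ.tmem, (show z = _ from e2) ▸ R.inv_mem h3⟩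
    have h7 : orderOf z = 2 := hQ.ord_t
    simp [mem_bot.1 this] at h7
  have hu : (u : G) ∈ (S : Subgroup G) ⊓ C[(S : Subgroup G)] := omegaOne_le u.2
  have h4 : (u : G) ^ 2 = 1 := hV.2 _ u.2
  obtain ⟨N, hN, h5, h6⟩ := S0215.result S u (orderOf_eq_prime h4 h2) hu.1 fun g hg => by
    obtain ⟨k, hk, e⟩ := (syl_top S).fusion_cent (mem_top g) hu.2 (key _ hg (by
      rw [← sq, conj_pow, h4]; simp))
    rw [← e, h1 k hk.2]
  rcases hN.eq_bot_or_eq_top with rfl | rfl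
  · rcases (inferInstance : (center G).Normal).eq_bot_or_eq_top with e | e
    · refine h2 (mem_bot.1 (e ▸ mem_center_iff.2 fun g => ?_))
      have := mem_bot.1 (h6 g)
      rw [mul_inv_eq_one, mul_inv_eq_iff_eq_mul] at this
      exact this.symm
    · have := hQ.inv
      rw [mem_center_iff.1 (e.ge (mem_top a)) b, mul_inv_cancel_right, eq_inv_iff_mul_eq_one] at this
      exact hQ.sq_a_ne this
  · exact h5.not_two_dvd_nat (orderOf_eq_prime h4 h2 ▸ orderOf_dvd_of_mem (mem_top (u : G)))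

end Cfsg.Agent.S3269
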