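import Cfsg.Statements.S3276
import Cfsg.Agent.H3.Hv3
import Cfsg.Agent.L0.Invol

set_option autoImplicit false
open Cfsg

namespace Cfsg.Agent.S3276
open Subgroup CfsgH2 CfsgHv MulAction
open scoped commutatorElement

/-- Let x and y be commuting, non-conjugate involutions of a finite group G, and suppose that for every involution u commuting with x, each conjugate of y that commutes with u also commutes with y. Then the normal closure of y is a proper, normal, elementary abelian 2-subgroup of G; and if y is the only involution of that normal closure commuting with x, it has order at most 4. -/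
theorem result {G : Type*} [Group G] [Finite G] (x y : G) (hx : orderOf x = 2) (hy : orderOf y = 2)
    (hxy : Commute x y) (hnc : ¬ IsConj x y)
    (hstar : ∀ u : G, orderOf u = 2 → Commute u x → ∀ g : G, Commute (g * y * g⁻¹) u → Commute (g * y * g⁻¹) y) :
    Subgroup.normalClosure ({y} : Set G) ≠ ⊤ ∧ Cfsg.IsElementaryAbelian 2 (Subgroup.normalClosure ({y} : Set G)) ∧
      ((∀ u ∈ Subgroup.normalClosure ({y} : Set G), orderOf u = 2 → Commute u x → u = y) →
        Nat.card ↥(Subgroup.normalClosure ({y} : Set G)) ≤ 4) := by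
  have x2 := CfsgL0.inv_mul_self hx
  have y2 := CfsgL0.inv_mul_self hy
  have c2 : ∀ g : G, g * y * g⁻¹ * (g * y * g⁻¹) = 1 := fun g => by
    rw [conj_mul, y2]; simp
  have h1 : ∀ g : G, Commute (g * y * g⁻¹) y := fun g => by
    rcases CfsgL0.conj_or_common x2 (c2 g) with ⟨k, hk⟩ | ⟨m, -, h1, h2, h3⟩
    · exact absurd ((isConj_iff.2 ⟨_, hk⟩).trans (isConj_iff.2 ⟨g, rfl⟩).symm) hnc
    · exact hstar _ h1 h2 g h3.symm
  have mc : ∀ {a : G}, a ∈ Group.conjugatesOfSet ({y} : Set G) → ∃ g, g * y * g⁻¹ = a := fun ha => by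
    obtain ⟨_, h, ha⟩ := Group.mem_conjugatesOfSet_iff.1 ha
    exact isConj_iff.1 (Set.mem_singleton_iff.1 h ▸ ha)
  have h2 : ∀ a ∈ Group.conjugatesOfSet ({y} : Set G), ∀ b ∈ Group.conjugatesOfSet ({y} : Set G), a * b = b * a := by
    intro a ha b hb
    obtain ⟨g, rfl⟩ := mc ha
    obtain ⟨h, rfl⟩ := mc hb
    have := congrArg (fun t => h * t * h⁻¹) (h1 (h⁻¹ * g)).eq
    simpa [mul_assoc] using this
  have ab : Ab[normalClosure ({y} : Set G)] := isMulCommutative_closure h2
  have ex : ∀ a ∈ normalClosure ({y} : Set G), a * a = 1 := by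
    intro a ha
    induction ha using closure_induction with
    | mem a ha =>
      obtain ⟨g, rfl⟩ := mc ha
      exact c2 g
    | one => simp
    | mul a b ha hb h1 h2 =>
      rw [mul_assoc, ← mul_assoc b, comm_of_isMulComm ab hb ha, mul_assoc a, h2, mul_one, h1]
    | inv a _ h => rw [← mul_inv_rev, h, inv_one]
  refine ⟨fun ht => hnc ?_, ⟨ab, fun a ha => by rw [sq, ex a ha]⟩, fun h => ?_⟩
  · have : normalClosure ({y} : Set G) ≤ zpowers y := by
      refine (closure_le _).2 fun a ha => ?_
      obtain ⟨g, rfl⟩ := mc ha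
      rw [comm_of_isMulComm ab (ht ▸ mem_top g) (ht ▸ mem_top _)]; simp
    rw [eq_of_orderOf_two inferInstance (this (ht ▸ mem_top x)) (mem_zpowers y) hx hy]
  · have hn : x ∈ N[normalClosure ({y} : Set G)] := top_le_norm_iff.2 inferInstance (mem_top x)
    have l : normalClosure ({y} : Set G) ⊓ C1[x] ≤ zpowers y := by
      rintro u ⟨h1, h2⟩
      by_cases u1 : u = 1
      · simp [u1]
      · rw [h u h1 (CfsgL0.orderOf_two_iff.2 ⟨ex u h1, u1⟩) (mem_centralizer_singleton_iff.1 h2)]
        exact mem_zpowers y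
    have l2 : (CfsgH1.commHom ab hn).range ≤ normalClosure ({y} : Set G) ⊓ C1[x] := by
      refine le_inf (CfsgH1.range_commHom_le ab hn) ?_
      rintro _ ⟨a, rfl⟩
      have xi : x⁻¹ = x := inv_eq_of_mul_eq_one_right x2
      have ai : (a : G)⁻¹ = a := inv_eq_of_mul_eq_one_right (ex _ a.2)
      have := comm_of_isMulComm ab (conj_mem_of_norm hn a.2) a.2
      rw [CfsgH1.commHom_apply, mem_centralizer_singleton_iff, commutatorElement_def, ai]
      rw [xi] at this ⊢
      calc x * a * x * a * x = a * (x * a * x) * x := by rw [this]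
        _ = a * x * a * (x * x) := by group
        _ = (x * x) * a * x * a := by rw [x2]; group
        _ = _ := by group
    have c1 := card_le_of_le l
    have c3 := card_le_of_le l2
    rw [Nat.card_zpowers, hy] at c1
    rw [← CfsgH1.card_range_commHom ab hn]
    nlinarith


end Cfsg.Agent.S3276
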