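import Cfsg.Statements.S3299
import Mathlib
import Cfsg.Agent.L0.LX1
import Cfsg.Agent.H9.Tech2

set_option autoImplicit false
open Cfsg

namespace Cfsg.Agent.S3299

/-- Let G be a finite group with no nontrivial 2-group quotient (O^2(G) = G), z an involution of G with H = C_G(z), and suppose E = O_2(H) is extraspecial with C_G(E) ≤ E and of order 2^(2n+1) with n ≥ 2. Then E is contained in every normal subgroup of H of index 2. -/
theorem result {G : Type*} [Group G] [Finite G] (hres : Cfsg.pResidual 2 G = ⊤) (z : G) (hz : orderOf z = 2)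
    (E : Subgroup G) (hE : E = (Cfsg.pCore 2 ↥(Subgroup.centralizer ({z} : Set G))).map (Subgroup.centralizer ({z} : Set G)).subtype)
    (hext : Cfsg.IsExtraspecial 2 ↥E) (hcent : Subgroup.centralizer (E : Set G) ≤ E) (n : ℕ) (hn : 2 ≤ n) (hcard : Nat.card ↥E = 2 ^ (2 * n + 1))
    (K : Subgroup G) (hKH : K ≤ Subgroup.centralizer ({z} : Set G))
    (hKn : ∀ h ∈ Subgroup.centralizer ({z} : Set G), K.map (MulAut.conj h).toMonoidHom = K)
    (hKi : K.relIndex (Subgroup.centralizer ({z} : Set G)) = 2) : E ≤ K := by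
  open Subgroup Cfsg CfsgH2 Function in
  open scoped commutatorElement in
  open CfsgL0 in open scoped commutatorElement in
  have pE : PG[2, E] := hext.1.1
  have h : LE E z := le_of_cen hext hz (hE ▸ map_subtype_le _) hcent (hE ▸ le_norm_map_subtype _)
  have big : 8 < o[E] := by
    rw [hcard]; exact Nat.pow_lt_pow_right (a := 2) (m := 3) one_lt_two (by omega)
  have nK : C1[z] ≤ N[K] := fun x hx => map_cj_eq_iff.1 (hKn x hx)
  have dK : ⁅C1[z], C1[z]⁆ ≤ K := commutator_le_of_relIndex_prime nK (hKi ▸ Nat.prime_two)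
  have zd : ∀ A ≤ E, ¬ Ab[A] → z ∈ ⁅A, A⁆ := fun A l k =>
    zpowers_le.1 ((eq_bot_or_eq_of_prime (by rw [Nat.card_zpowers, hz]; exact Nat.prime_two)
      ((commutator_mono l l).trans h.der)).resolve_left (mt comm_self_eq_bot_iff.1 k)).ge
  have zK : z ∈ K := dK (commutator_mono h.le h.le (zd E le_rfl h.nab))
  by_contra c
  obtain ⟨e, he, eK⟩ := SetLike.not_le_iff_exists.1 c
  obtain ⟨t, ht, tK, t2⟩ : ∃ t ∈ E, t ∉ K ∧ t * t = 1 := by
    by_contra! k
    have sq : ∀ x ∈ E, x ∉ K → x * x = z := fun x hx xK =>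
      ((mem_zp2 h.z2).1 (h.sq hx)).resolve_left (k x hx xK)
    have f : ∀ d ∈ K ⊓ E, e * d * e⁻¹ = d⁻¹ := fun d hd => by
      have := (sq _ (mul_mem hd.2 he) fun m => eK ((K.mul_mem_cancel_left hd.1).1 m)).trans (sq e he eK).symm
      calc _ = d⁻¹ * (d * e * (d * e)) * (e * e)⁻¹ := by group
        _ = _ := by rw [this]; group
    have ab : Ab[K ⊓ E] := isMulComm_iff.2 fun a ha b hb => inv_injective (by
      rw [mul_inv_rev b, ← f _ (mul_mem ha hb), ← f a ha, ← f b hb]; group)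
    have a := h.wx.card_cent_le (inf_le_right : K ⊓ E ≤ E)
    have b := card_le_of_le (le_inf (inf_le_right : K ⊓ E ≤ E) (le_cent_self ab))
    have d := card_inf_mul_relIndex K E
    have i := (relIndex_le_of_le_right h.le (relIndex_pos K _).ne').trans hKi.le
    have : o[E] ≤ o[K ⊓ E] * 2 := d ▸ Nat.mul_le_mul_left _ i
    nlinarith
  have t1 : t ∉ zpowers z := fun m => tK (zpowers_le.2 zK m)
  obtain ⟨S, s, lS, sz, -, nS⟩ := syl_of_cen pE h.zp hcent hz (le_top : E ≤ ⊤)
  have tz : ∀ g, g * t * g⁻¹ ≠ z := fun g e => by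
    obtain ⟨T, sT, l⟩ := exists_syl_ge (pE.to_le inf_le_left) (inf_le_inf_right C1[t] h.le)
    obtain ⟨R, sR, l'⟩ := exists_syl_ge sT.pg (sT.le.trans inf_le_right)
    have lt : T < R := lt_of_le_of_ne l' fun f => by
      subst f
      have a := sR.map_cj g
      rw [← centralizer_conj, e] at a
      have b : Syl 2 T C1[z] := (s.mono sz le_top).of_card_ge sT.pg (sT.le.trans inf_le_left)
        (((s.mono sz le_top).card_eq_card a).trans (card_map_cj _ _)).le
      exact t1 (h.cenE.le (le_cent1_iff.1 ((b.le_of_norm pE h.le (b.le.trans h.nor)).trans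
        (sT.le.trans inf_le_right))))
    obtain ⟨x, hx, xT⟩ := SetLike.exists_of_lt (lt_inf_norm sR.pg.isNilpotent lt)
    have zT : z ∈ ⁅T, T⁆ := commutator_mono l l (zd _ inf_le_left (h.nab_P big ht))
    have cT : z ∈ C[T] := le_cent1_iff.1 (sT.le.trans inf_le_left)
    have m1 := conj_mem_of_norm (mem_norm_commutator hx.2 hx.2) zT
    have m2 := conj_mem_of_norm (norm_le_norm_cent _ hx.2) cT
    have m3 := dK (commutator_mono (sT.le.trans inf_le_left) (sT.le.trans inf_le_left) m1)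
    rcases (mem_v4 h.z2 t2 (h.cz ht)).1 (h.cent_P ht t1 t2 ⟨(sT.le (commutator_self_le m1)).1,
      cent_anti l m2⟩) with f | f | f | f
    · exact h.z1 (by simpa using f)
    · exact xT (sT.eq_of_le (sR.pg.to_le inf_le_left) (le_inf l' (sT.le.trans inf_le_left))
        (le_inf inf_le_right (inf_le_left.trans sR.le)) ▸
          ⟨hx.1, mem_centralizer_singleton_iff.2 (mul_inv_eq_iff_eq_mul.1 f)⟩)
    · exact tK (f ▸ m3)
    · exact tK ((mul_mem_cancel_left zK).1 (f ▸ m3))
  haveI := normal_subgroupOf_of_le_normalizer nK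
  obtain ⟨g, g1, g2⟩ := CfsgH9.extremal_transfer (S := C1[z]) (T := K) (R := E ⊓ C1[t])
    (Nat.odd_iff.2 (Nat.two_dvd_ne_zero.1 (by simpa using s.not_dvd_of_le sz)))
    (isCyclic_of_prime_card (p := 2) hKi) (by rwa [pow_two]) (h.le ht) tK hKH
    (s.le_commutator_of_piRes (pResidual_eq.symm.trans hres) (lS ht)) (pE.to_le inf_le_left) inf_le_right
  have w : g⁻¹ * z * g ∈ C[E ⊓ C1[t]] := by
    rw [← mem_map_cj, ← centralizer_map_cj, ← le_cent1_iff]; exact g2
  have zP : z ∈ E ⊓ C1[t] := ⟨h.zQ, mem_centralizer_singleton_iff.2 (h.cz ht).symm⟩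
  rcases (mem_v4 h.z2 t2 (h.cz ht)).1 (h.cent_P ht t1 t2 ⟨cent_le_cent1 zP w, w⟩) with f | f | f | f
  · exact h.z1 (by simpa [mul_assoc, inv_mul_eq_one] using f)
  · have := conj_mem_of_norm' (nK (x := g) (mem_centralizer_singleton_iff.2 (by
      rw [mul_assoc, inv_mul_eq_iff_eq_mul] at f; exact f.symm))) g1
    exact tK (by simpa [mul_assoc] using this)
  · exact tz g (by rw [← f]; group)
  · obtain ⟨y, -, e⟩ := h.sep0 ht t1
    exact tz (g * y) (by rw [show g * y * t * (g * y)⁻¹ = g * (y * t * y⁻¹) * g⁻¹ by group, e, h.cz ht, ← f]; group)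

end Cfsg.Agent.S3299
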