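import Cfsg.Statements.S3300
import Cfsg.Agent.H1.TX

set_option autoImplicit false
open Cfsg

namespace Cfsg.Agent.S3300

/-- Let G be a finite group with no nontrivial 2-group quotient (O^2(G) = G), z an involution of G with H = C_G(z), and suppose E = O_2(H) is extraspecial with C_G(E) ≤ E and of order 2^(2n+1) with n ≥ 3. If H has a normal subgroup of index 2, then z is conjugate in G to an element of E other than z. -/
theorem result {G : Type*} [Group G] [Finite G] (hres : Cfsg.pResidual 2 G = ⊤) (z : G) (hz : orderOf z = 2)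
    (E : Subgroup G) (hE : E = (Cfsg.pCore 2 ↥(Subgroup.centralizer ({z} : Set G))).map (Subgroup.centralizer ({z} : Set G)).subtype)
    (hext : Cfsg.IsExtraspecial 2 ↥E) (hcent : Subgroup.centralizer (E : Set G) ≤ E) (n : ℕ) (hn : 3 ≤ n) (hcard : Nat.card ↥E = 2 ^ (2 * n + 1))
    (K : Subgroup G) (hKH : K ≤ Subgroup.centralizer ({z} : Set G))
    (hKn : ∀ h ∈ Subgroup.centralizer ({z} : Set G), K.map (MulAut.conj h).toMonoidHom = K)
    (hKi : K.relIndex (Subgroup.centralizer ({z} : Set G)) = 2) :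
    ∃ g : G, g * z * g⁻¹ ∈ E ∧ g * z * g⁻¹ ≠ z := by
  open Subgroup CfsgH2 in
  open CfsgH1 hiding SS card_inf_mul_relIndex card_lt_of_lt card_lt_of_ne_top card_map_mul_card_inf_ker card_mul_relIndex card_subgroupOf card_sup_dvd card_sup_mul_card_inf coprime_le_sup_cent exists_card_prime_le isNilpotent_map isNilpotent_of_le isPGroup_pCore isSolvable_map isSolvable_of_le le_pCore le_pPrimeCore relIndex_map_dvd in
  open scoped CfsgH1 in
  open scoped commutatorElement in
  · haveI : Fact (Nat.Prime 2) := ⟨Nat.prime_two⟩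
    rw [map_pCore_subtype] at hE
    have l : E ≤ C1[z] := hE ▸ piCoreOf_le
    have h := XZ.lx_of_core (ne_one_of_two hz) hext l (hE ▸ le_norm_piCoreOf) (hcent (le_cent1_iff.1 l)) (inf_le_right.trans hcent)
    by_contra! wc
    haveI := normal_of_index_eq_two (H := K.subgroupOf C1[z]) hKi
    have cA : Nat.card (C1[z] ⧸ K.subgroupOf C1[z]) = 2 := hKi
    haveI := isCyclic_of_prime_card cA
    letI : CommGroup (C1[z] ⧸ K.subgroupOf C1[z]) := IsCyclic.commGroup
    have key := h.transfer hres (QuotientGroup.mk' (K.subgroupOf C1[z])) (k := 1) (j := 1) rfl (fun a => by rw [mul_one, ← cA, pow_card_eq_one']) fun c hc h2 M hM i y hy y1 B b1 hB => by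
      have i' : (M ⊓ E).relIndex E = 2 := by rwa [inf_relIndex_right]
      have := halve hc (R := M ⊓ E) (k := 1) (p := (· ≠ ((1 : G) : G ⧸ C1[z]))) (fun ω hω => by
        obtain ⟨g, rfl⟩ := QuotientGroup.mk_surjective ω
        obtain ⟨N, n1, n2, n3, n4⟩ := exists_half (h.pg.to_le inf_le_right) (ω := (g : G ⧸ C1[z])) fun k : ∀ d ∈ M ⊓ E, _ => hω (by
          have : g * z * g⁻¹ ∈ C[M ⊓ E] := le_cent1_iff.1 fun e he => mem_centralizer_singleton_iff.2 (by
            have := mem_centralizer_singleton_iff.1 (QuotientGroup.eq.1 (k _ (inv_mem he)))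
            simp only [smul_eq_mul, mul_inv_rev, inv_inv] at this
            calc e * (g * z * g⁻¹) = g * (g⁻¹ * e * g * z) * g⁻¹ := by group
              _ = _ := by rw [this]; group)
          exact QuotientGroup.eq.2 (by
            simpa using mem_centralizer_singleton_iff.2 (mul_inv_eq_iff_eq_mul.1 (wc g (h.mem_of_cent_two inf_le_right i' this (mul_self_of_two (h.map_cj g).ord))))))
        obtain ⟨x, hx, x1⟩ := SetLike.exists_of_lt (lt_of_le_of_ne n1 fun e => by simp [e] at n3)
        have lE := n1.trans inf_le_right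
        have zd : z ∈ ⁅N, N⁆ := h.mem_der lE fun ab => by
          have a1 := CfsgH2.card_mul_relIndex n1
          have a2 := CfsgH2.card_mul_relIndex (inf_le_right : M ⊓ E ≤ E)
          have a3 := (Nat.mul_le_mul_left _ (card_le_of_le (le_inf lE (le_cent_self ab)))).trans (h.wx.card_cent_le lE)
          obtain ⟨n, rfl⟩ := Nat.exists_eq_add_of_le hn
          rw [i', ← a1, n3, hcard, show 2 * (3 + n) + 1 = 2 * n + 5 + 1 + 1 by ring, pow_succ, pow_succ, Nat.mul_left_inj two_ne_zero, Nat.mul_left_inj two_ne_zero] at a2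
          rw [a2, hcard, ← pow_add, ← pow_succ, Nat.pow_le_pow_iff_right one_lt_two] at a3
          omega
        refine ⟨N, n1, n3, n4, x, hx, x1, fun B _ hB => ?_⟩
        have hm : ∀ a ∈ N, ∀ b ∈ N, ∏ ω ∈ B, c (a * b) ω = (∏ ω ∈ B, c a ω) * ∏ ω ∈ B, c b ω := fun a _ b hb => coc_mul hc hB hb
        have z1 : ∀ u ∈ zpowers z, u ∈ N ∧ ∏ ω ∈ B, c u ω = 1 := fun u hu =>
          ⟨comm_le_left le_normalizer (zpowers_le.2 zd hu), hom_der (ν := fun a => ∏ ω ∈ B, c a ω) hm (zpowers_le.2 zd hu)⟩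
        refine ⟨fun r hr => ?_, by rw [pow_one, (z1 _ (pow_two x ▸ h.sq_mem hx.2)).2]⟩
        have u := z1 _ (h.comm_mem (inv_mem hx.2) (lE hr))
        rw [pow_one, show x⁻¹ * r * x = ⁅x⁻¹, r⁆ * r by rw [commutatorElement_def]; group, hm _ u.1 _ hr, u.2, one_mul, ← pow_two, ← Finset.prod_pow]
        exact Finset.prod_eq_one fun _ _ => h2 _ _) B b1 fun g hg => hB g hg.1
      exact ⟨fun r hr => this _ ⟨by rw [mul_assoc, mul_assoc, ← mul_assoc y⁻¹]; exact M.mul_mem (M.inv_mem hr) (conj_mem_of_norm' hy.2 hr),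
        E.mul_mem (conj_mem_of_norm' (hM hr) (E.inv_mem hy.1)) hy.1⟩, this _ ⟨zpowers_le.2 (h.toXZ.mem_of_two i) (pow_two y ▸ h.sq_mem hy.1), E.mul_mem hy.1 hy.1⟩⟩
    have : K.subgroupOf C1[z] = ⊤ := eq_top_iff.2 fun a _ => (QuotientGroup.eq_one_iff a).1 ((pow_one _).symm.trans (key a))
    rw [relIndex, this, index_top] at hKi
    omega

end Cfsg.Agent.S3300
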