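import Cfsg.Statements.S3301
import Cfsg.Agent.H1.TX

set_option autoImplicit false
open Cfsg

namespace Cfsg.Agent.S3301

/-- Let G be a finite group with no nontrivial 2-group quotient (O^2(G) = G), z an involution of G with H = C_G(z), and suppose E = O_2(H) is extraspecial with C_G(E) ≤ E. Then the Sylow 2-subgroups of H/[H, H] are elementary abelian: every element of 2-power order of the abelianization of H has order at most 2. -/
theorem result {G : Type*} [Group G] [Finite G] (hres : Cfsg.pResidual 2 G = ⊤) (z : G) (hz : orderOf z = 2)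
    (E : Subgroup G) (hE : E = (Cfsg.pCore 2 ↥(Subgroup.centralizer ({z} : Set G))).map (Subgroup.centralizer ({z} : Set G)).subtype)
    (hext : Cfsg.IsExtraspecial 2 ↥E) (hcent : Subgroup.centralizer (E : Set G) ≤ E) :
    ∀ q : Abelianization ↥(Subgroup.centralizer ({z} : Set G)), (∃ k : ℕ, orderOf q = 2 ^ k) → q ^ 2 = 1 := by
  open Subgroup CfsgH2 in
  open CfsgH1 hiding SS card_inf_mul_relIndex card_lt_of_lt card_lt_of_ne_top card_map_mul_card_inf_ker card_mul_relIndex card_subgroupOf card_sup_dvd card_sup_mul_card_inf coprime_le_sup_cent exists_card_prime_le isNilpotent_map isNilpotent_of_le isPGroup_pCore isSolvable_map isSolvable_of_le le_pCore le_pPrimeCore relIndex_map_dvd in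
  open scoped CfsgH1 in
  open scoped commutatorElement in
  · haveI : Fact (Nat.Prime 2) := ⟨Nat.prime_two⟩
    rw [map_pCore_subtype] at hE
    have l : E ≤ C1[z] := hE ▸ piCoreOf_le
    have h := XZ.lx_of_core (ne_one_of_two hz) hext l (hE ▸ le_norm_piCoreOf) (hcent (le_cent1_iff.1 l)) (inf_le_right.trans hcent)
    haveI : Finite (Abelianization C1[z]) := Finite.of_surjective _ QuotientGroup.mk_surjective
    obtain ⟨s, m, hm, e⟩ := Nat.exists_eq_two_pow_mul_odd (Nat.card_pos (α := Abelianization C1[z])).ne'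
    have key : ∀ i, (∀ a : Abelianization C1[z], (a ^ (m * 2 ^ i)) ^ 2 = 1) → ∀ a : Abelianization C1[z], (a ^ m) ^ 2 = 1 := fun i => by
      induction i with
      | zero => simp
      | succ i ih =>
        refine fun k => ih fun a => ?_
        obtain ⟨a, rfl⟩ := QuotientGroup.mk_surjective a
        refine h.transfer hres ((powMonoidHom (m * 2 ^ i)).comp Abelianization.of) (j := 2) rfl (fun a => ?_) (fun c hc h4 M hM i y hy y1 B _ hB => ?_) a
        · have := k (Abelianization.of a)
          rwa [pow_succ 2 i, ← mul_assoc, pow_mul, ← pow_mul _ 2] at this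
        have hm : ∀ a ∈ M, ∀ b ∈ M, ∏ ω ∈ B, c (a * b) ω = (∏ ω ∈ B, c a ω) * ∏ ω ∈ B, c b ω := fun a _ b hb => coc_mul hc hB hb
        refine ⟨fun r hr => h.four (ν := fun a => ∏ ω ∈ B, c a ω) hM i hy.1 y1 hm (fun a => (Finset.prod_pow _ _ _).symm.trans (Finset.prod_eq_one fun _ _ => h4 _ _)) hr
          (by rw [mul_assoc, mul_assoc, ← mul_assoc y⁻¹]; exact mul_mem (inv_mem hr) (conj_mem_of_norm' hy.2 hr)) rfl, ?_⟩
        have a := pow_two y ▸ h.sq_mem hy.1
        refine (qf_pow (φ := fun a => ∏ ω ∈ B, c a ω) hm (zpowers_le.2 (h.toXZ.mem_of_two i) a) 2).symm.trans ?_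
        rw [show (y * y) ^ 2 = 1 by rcases (mem_zp2 hz).1 a with a | a <;> rw [a] <;> simp [pow_two, mul_self_of_two hz]]
        exact hom_one (ν := fun a => ∏ ω ∈ B, c a ω) hm
    rintro q ⟨k, hk⟩
    have := key s (fun a => by rw [mul_comm m, ← e, pow_card_eq_one', one_pow]) q
    rw [← pow_mul, ← orderOf_dvd_iff_pow_eq_one, hk] at this
    exact orderOf_dvd_iff_pow_eq_one.1 (hk ▸ ((Nat.coprime_two_left.2 hm).pow_left k).dvd_of_dvd_mul_left this)

end Cfsg.Agent.S3301
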