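import Cfsg.Statements.S3305
import Cfsg.Agent.H3.Hv3

set_option autoImplicit false
open Cfsg

namespace Cfsg.Agent.S3305
open Subgroup CfsgH2 CfsgHv MulAction

/-- If any two distinct Sylow 2-subgroups of the finite group G intersect in a cyclic group, then the same holds in every quotient group G/H, H a normal subgroup of G. -/
theorem result {G : Type*} [Group G] [Finite G]
    (hC : ∀ S T : Sylow 2 G, S ≠ T → IsCyclic ↥((S : Subgroup G) ⊓ (T : Subgroup G))) (H : Subgroup G) [H.Normal] :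
    ∀ S T : Sylow 2 (G ⧸ H), S ≠ T → IsCyclic ↥((S : Subgroup (G ⧸ H)) ⊓ (T : Subgroup (G ⧸ H))) := by
  intro S T hne
  have hf := QuotientGroup.mk'_surjective H
  obtain ⟨R, hR⟩ := exists_syl 2 (((S : Subgroup (G ⧸ H)) ⊓ T).comap (QuotientGroup.mk' H))
  have e : R.map (QuotientGroup.mk' H) = (S : Subgroup (G ⧸ H)) ⊓ T := by
    have := hR.map (QuotientGroup.mk' H)
    rw [map_comap_eq_self_of_surjective hf] at this
    exact this.eq_of_pgroup (S.isPGroup'.to_le inf_le_left)
  obtain ⟨S1, s1, l1, e1⟩ := exists_syl_lift hf (syl_top S) hR.pg (e.le.trans inf_le_left)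
  obtain ⟨T1, t1, l2, e2⟩ := exists_syl_lift hf (syl_top T) hR.pg (e.le.trans inf_le_right)
  obtain ⟨S1, rfl⟩ := s1.exists_top
  obtain ⟨T1, rfl⟩ := t1.exists_top
  have := hC S1 T1 fun h => hne (Sylow.ext (by rw [← e1, ← e2, h]))
  haveI : IsCyclic R := Subgroup.isCyclic_of_le (le_inf l1 l2)
  rw [← e]
  exact isCyclic_of_surjective _ ((QuotientGroup.mk' H).subgroupMap_surjective R)


end Cfsg.Agent.S3305
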