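import Cfsg.Statements.S3303
import Cfsg.Agent.H3.Hv3
import Cfsg.Agent.S3305
import Cfsg.Agent.H2.OddStab
import Cfsg.Agent.L0.PCon

set_option autoImplicit false
open Cfsg

namespace Cfsg.Agent.S3303
open Subgroup CfsgH2 CfsgHv MulAction
open CfsgH4 (mem_cent_of_odd_cyclic)

/-- Let G be a finite solvable group in which the intersection of any two distinct Sylow 2-subgroups is cyclic. Then G/O(G) has a normal Sylow 2-subgroup, where O(G) is the largest normal subgroup of odd order. -/
theorem result {G : Type*} [Group G] [Finite G] (hs : Group.IsSolvable G)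
    (hC : ∀ S T : Sylow 2 G, S ≠ T → IsCyclic ↥((S : Subgroup G) ⊓ (T : Subgroup G))) :
    ∃ P : Sylow 2 (G ⧸ Cfsg.oddCore G), (P : Subgroup (G ⧸ Cfsg.oddCore G)).Normal := by
  have h := Cfsg.Agent.S3305.result hC (oddCore G)
  obtain ⟨P⟩ : Nonempty (Sylow 2 (G ⧸ oddCore G)) := inferInstance
  refine ⟨P, ?_⟩
  by_contra hn
  obtain ⟨g, hg⟩ : ∃ g, g ∉ N[(P : Subgroup (G ⧸ oddCore G))] := by
    by_contra h; push Not at h; exact hn (normal_of_top_le_norm fun g _ => h g)
  obtain ⟨T, hT⟩ := ((syl_top P).map_cj_mem (mem_top g)).exists_top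
  have c := h P T fun e => hg (map_cj_eq_iff.1 (by rw [← hT, e]))
  have hc : C[pCore 2 (G ⧸ oddCore G)] ≤ pCore 2 (G ⧸ oddCore G) :=
    con_top_iff.2 (con_of_core' inferInstance CfsgL0.core'_quot)
  haveI : IsCyclic (pCore 2 (G ⧸ oddCore G)) := Subgroup.isCyclic_of_le (H' := (P : Subgroup _) ⊓ T)
    (by rw [pCore_eq']; exact le_inf (syl_top P).pCoreOf_le (syl_top T).pCoreOf_le)
  have := pg_of_odd_cent hc fun g hg =>
    mem_cent_of_odd_cyclic isPGroup_pCore this hg (top_le_norm_iff.2 inferInstance (mem_top g))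
  exact hn (by rw [(syl_top P).eq_of_pgroup this]; infer_instance)


end Cfsg.Agent.S3303
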