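import Cfsg.Statements.S3304
import Mathlib
import Cfsg.Agent.L0.GL23
import Cfsg.Agent.H8.FC6
import Cfsg.Agent.H9.Loc
import Cfsg.Agent.H1.Sep
import Cfsg.Agent.H2.Pq4

set_option autoImplicit false
open Cfsg

namespace Cfsg.Agent.S3304

open CfsgL0 Subgroup CfsgH2 CfsgH4 Cfsg

/-- the normal four-subgroup of `S₄` -/
def V4 : Subgroup (Equiv.Perm (Fin 4)) where
  carrier := {s | s * s = 1 ∧ Equiv.Perm.sign s = 1}
  mul_mem' := by intro a b; simp only [Set.mem_setOf_eq]; revert a b; decide +kernel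
  one_mem' := by simp
  inv_mem' := by intro a; simp only [Set.mem_setOf_eq]; revert a; decide +kernel

theorem core {X : Type*} [Group X] [Finite X] (hC : C[pCore 2 X] ≤ pCore 2 X) (hn : ∀ P : Sylow 2 X, ¬ (P : Subgroup X).Normal)
    (h : ∀ x ∈ pCore 2 X, ∀ y ∈ pCore 2 X, orderOf x = 2 → orderOf y = 2 → Commute x y → x = y) :
    Nonempty (X ≃* GL (Fin 2) (ZMod 3)) ∨ (Nat.card X = 48 ∧ Nat.card (center X) = 2 ∧ Nonempty (X ⧸ center X ≃* Equiv.Perm (Fin 4)) ∧
      ∀ P : Sylow 2 X, Nonempty ((P : Subgroup X) ≃* QuaternionGroup 4)) := by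
  have : Fact (Nat.Prime 2) := ⟨Nat.prime_two⟩
  have pF := CfsgH1.isPGroup_pCore (G := X) 2
  have nF (P : Subgroup X) [P.Normal] (s : Syl 2 P ⊤) : False := by
    obtain ⟨Q, rfl⟩ := s.exists_top
    exact hn Q ‹_›
  obtain ⟨g, ho, hg⟩ : ∃ g : X, Odd (orderOf g) ∧ g ∉ C[pCore 2 X] := by
    by_contra! k
    refine nF ⊤ (.self (isPGroup_iff_piN.2 fun p hp d => by_contra fun n => ?_))
    obtain ⟨x, -, ox⟩ := exists_prime_order_mem hp d
    obtain ⟨j, hj⟩ := pgroup_mem_order pF (hC (k x (ox ▸ hp.odd_of_ne_two n)))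
    exact n ((Nat.prime_dvd_prime_iff_eq hp Nat.prime_two).1 (hp.dvd_of_dvd_pow (ox.symm.trans hj).dvd))
  obtain ⟨a, b, m, q⟩ := (cyc_or_gq pF h).resolve_left fun k => hg (cent_of_cyc pF (Nat.card_zpowers g ▸ ho) le_normalizer_of_normal k
    (mem_zpowers g))
  obtain rfl := CfsgH8.FC.GQ_one q ho (le_normalizer_of_normal (mem_top g)) hg
  obtain ⟨f, hf, h12⟩ := CfsgH8.FC.q8_hom' q ho hg
  have oz := q.ord_t
  have zc : a ^ 2 ^ 1 ∈ center X := mem_center_iff.2 fun x => mul_inv_eq_iff_eq_mul.1 (q.eq_of_two (Normal.conj_mem inferInstance _ q.tmem x)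
    (((MulAut.conj x).orderOf_eq _).trans oz))
  have cz : C[pCore 2 X] = zpowers (a ^ 2 ^ 1) := le_antisymm (fun x hx => (q.eq_of_sq (hC hx) (q.sq_of_cent (hC hx) hx)).elim
    (fun e => e ▸ one_mem _) fun e => e ▸ mem_zpowers _) (zpowers_le.2 (center_le_centralizer _ zc))
  have cX : center X = f.ker := hf ▸ le_antisymm (center_le_centralizer _) (cz ▸ zpowers_le.2 zc)
  have c2 : o[f.ker] = 2 := by rw [hf, cz, Nat.card_zpowers, oz]
  have d := card_subgroup_dvd_card f.range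
  have c24 : Nat.card (Equiv.Perm (Fin 4)) = 24 := by rw [Nat.card_perm, Nat.card_fin]; rfl
  have k := f.ker.card_mul_index
  rw [← hf] at h12
  rw [← index_ker, c24] at d
  have i24 : f.ker.index = 24 := by
    obtain ⟨j, hj⟩ := h12
    have := Nat.le_of_dvd (by norm_num) d
    have : j ≤ 2 := by omega
    interval_cases j
    · simp [hj] at d
    · refine (nF (pCore 2 X) ⟨le_top, pF, ?_⟩).elim
      have := (pCore 2 X).card_mul_index
      rw [q.card, ← k, c2, hj] at this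
      rw [relIndex_top_right]; omega
    · exact hj
  have c48 : Nat.card X = 48 := by rw [← k, c2, i24]
  have fs : Function.Surjective f := MonoidHom.range_eq_top.1 (eq_top_of_card_eq _ (by rw [← index_ker, i24, c24]))
  by_cases ht : ∃ t, orderOf t = 2 ∧ t ∉ pCore 2 X
  · obtain ⟨t, ot, nt⟩ := ht
    have tt : t * t = 1 := by rw [← sq, ← ot, pow_orderOf_eq_one]
    have nV : V4.Normal := ⟨fun s hs u => by revert hs; change _ ∧ _ → _ ∧ _; revert s u; decide +kernel⟩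
    have : f t ∉ V4 := fun k => nt (CfsgH1.le_pCore (N := V4.comap f) ((isPGroup_of_exp (H := V4) fun x hx => (sq x).trans hx.1).comap_of_ker_isPGroup f
      (.of_card (n := 1) c2)) k)
    obtain ⟨u, h1, h2⟩ := (by decide +kernel : ∀ s : Equiv.Perm (Fin 4), s * s = 1 → ¬ (s * s = 1 ∧ Equiv.Perm.sign s = 1) →
      ∃ u, (s * (u * s * u⁻¹)) ^ 3 = 1 ∧ (s * (u * s * u⁻¹)) ^ 2 ≠ 1) (f t) (by rw [← map_mul, tt, map_one]) this
    obtain ⟨u, rfl⟩ := fs u
    obtain ⟨e⟩ := q.toCy2.quaternion q.sq' q.inv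
    refine .inl (gl23_of c48 e (y := (t * (u * t * u⁻¹)) ^ 2) (t := t) ?_ tt ?_ fun k => h2 (by simpa using hf.ge k))
    · rw [← pow_mul, mul_comm, pow_mul, ← c2]
      exact orderOf_dvd_iff_pow_eq_one.1 (orderOf_dvd_of_mem (by simpa [MonoidHom.mem_ker] using h1))
    · rw [← conj_pow, ← inv_pow, ← mul_assoc, tt, one_mul, mul_inv_rev, conj_inv, inv_eq_of_mul_eq_one_right tt]
  refine .inr ⟨c48, cX ▸ c2, ⟨(QuotientGroup.quotientMulEquivOfEq cX).trans (QuotientGroup.quotientKerEquivOfSurjective f fs)⟩, fun P => ?_⟩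
  push Not at ht
  have l := CfsgH1.pCore_le_sylow P
  rcases cyc_or_gq P.isPGroup' fun x _ y _ ox oy c => h x (ht x ox) y (ht y oy) ox oy c with k | ⟨c, e, m, q'⟩
  · exact (q.sq_a_ne (q.sq_of_cent q.amem fun y hy => setLike_mul_comm (l hy) (l q.amem))).elim
  have h1 := q'.card ▸ (syl_top P).pow_dvd (k := 4) (by rw [card_top, c48]; norm_num)
  have h2 := c48 ▸ q'.card ▸ card_subgroup_dvd_card (P : Subgroup X)
  obtain rfl : m = 2 := by
    have := (Nat.pow_dvd_pow_iff_le_right one_lt_two).1 h1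
    by_contra n
    exact absurd ((pow_dvd_pow 2 (by omega : 5 ≤ m + 2)).trans h2) (by norm_num)
  exact q'.toCy2.quaternion q'.sq' q'.inv

/-- Let G be a finite solvable group in which the intersection of any two distinct Sylow 2-subgroups has 2-rank at most 1 (contains no Klein four-group). Write Q = G/O(G), O(G) the largest normal subgroup of odd order. Then Q has a normal Sylow 2-subgroup; or Q is isomorphic to GL(2,3); or Q has order 48, centre of order 2 with central quotient isomorphic to the symmetric group of degree 4, and generalized quaternion Sylow 2-subgroups of order 16 (the binary octahedral group). The last two are the two representation groups of the symmetric group of degree 4. -/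
theorem result {G : Type*} [Group G] [Finite G] (hs : Group.IsSolvable G)
    (hI : ∀ S T : Sylow 2 G, S ≠ T → Cfsg.PRankLE 2 1 ↥((S : Subgroup G) ⊓ (T : Subgroup G))) :
    (∃ P : Sylow 2 (G ⧸ Cfsg.oddCore G), (P : Subgroup (G ⧸ Cfsg.oddCore G)).Normal) ∨
    Nonempty ((G ⧸ Cfsg.oddCore G) ≃* GL (Fin 2) (ZMod 3)) ∨
    (Nat.card (G ⧸ Cfsg.oddCore G) = 48 ∧ Nat.card ↥(Subgroup.center (G ⧸ Cfsg.oddCore G)) = 2 ∧
      Nonempty ((G ⧸ Cfsg.oddCore G) ⧸ Subgroup.center (G ⧸ Cfsg.oddCore G) ≃* Equiv.Perm (Fin 4)) ∧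
      ∀ P : Sylow 2 (G ⧸ Cfsg.oddCore G), Nonempty (↥(P : Subgroup (G ⧸ Cfsg.oddCore G)) ≃* QuaternionGroup 4)) := by
  classical
  have : Fact (Nat.Prime 2) := ⟨Nat.prime_two⟩
  refine or_iff_not_imp_left.2 fun hn => ?_
  push Not at hn
  refine core (CfsgH1.centralizer_pCore_le (CfsgH1.isPSolvable_of_isSolvable Nat.prime_two) (CfsgH1.pPrimeCore_quotient_pPrimeCore 2)) hn
    fun x hx y hy ox oy c => ?_
  let π := QuotientGroup.mk' (oddCore G)
  have πs : Function.Surjective π := QuotientGroup.mk'_surjective _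
  have od : ¬ 2 ∣ o[π.ker] := by
    rw [QuotientGroup.ker_mk']; exact CfsgH1.not_dvd_card_pPrimeCore 2
  have mt {S : Subgroup G} (s : Syl 2 S ⊤) : Syl 2 (S.map π) ⊤ := map_top_of_surjective π πs ▸ s.map π
  obtain ⟨P⟩ : Nonempty (Sylow 2 (G ⧸ oddCore G)) := inferInstance
  obtain ⟨P', hP⟩ : ∃ P' : Sylow 2 (G ⧸ oddCore G), P ≠ P' := by
    by_contra! k
    have : Subsingleton (Sylow 2 (G ⧸ oddCore G)) := ⟨fun a b => (k a).symm.trans (k b)⟩
    exact hn P (Sylow.normal_of_subsingleton P)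
  obtain ⟨S, hS⟩ := exists_syl 2 (⊤ : Subgroup G)
  have lF := (mt hS).le_of_norm (CfsgH1.isPGroup_pCore 2) le_top le_normalizer_of_normal
  obtain ⟨x, xS, rfl⟩ := lF hx
  obtain ⟨y, yS, rfl⟩ := lF hy
  have e1 {w} (hw : w ∈ S) (e : π w = 1) : w = 1 :=
    (eq_bot_of_pgroup_of_not_dvd (hS.pg.to_le (inf_le_left (b := π.ker))) fun k => od (k.trans (card_dvd_of_le inf_le_right))).le ⟨hw, e⟩
  have lift (Q : Sylow 2 (G ⧸ oddCore G)) : ∃ T : Sylow 2 G, S ⊓ (pCore 2 _).comap π ≤ T ∧ (T : Subgroup G).map π = Q := by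
    obtain ⟨T, hT, l⟩ := exists_syl_ge (hS.pg.to_le inf_le_left) (inf_le_right.trans (comap_mono (f := π) (CfsgH1.pCore_le_sylow Q)))
    have s := hT.trans le_top (by rw [relIndex_top_right, index_comap_of_surjective _ πs]; exact Q.not_dvd_index)
    obtain ⟨T, rfl⟩ := s.exists_top
    exact ⟨T, l, ((mt s).eq_of_le Q.isPGroup' (map_le_iff_le_comap.2 hT.le) le_top).symm⟩
  obtain ⟨T, l, e⟩ := lift P
  obtain ⟨T', l', e'⟩ := lift P'
  have y2 : orderOf y = 2 := orderOf_eq_prime (e1 (pow_mem yS 2) ((map_pow π y 2).trans (orderOf_dvd_iff_pow_eq_one.1 oy.dvd)))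
    fun k => by simp [k] at oy
  have := CfsgH9.mem_zpowers_of_rank_one (hI T T' fun k => hP (Sylow.ext (by rw [← e, ← e', k]))) ⟨l ⟨xS, hx⟩, l' ⟨xS, hx⟩⟩
    ⟨l ⟨yS, hy⟩, l' ⟨yS, hy⟩⟩ (e1 (pow_mem xS 2) ((map_pow π x 2).trans (orderOf_dvd_iff_pow_eq_one.1 ox.dvd))) y2
    (mul_inv_eq_one.1 (e1 (mul_mem (mul_mem xS yS) (inv_mem (mul_mem yS xS))) (by simp only [map_mul, map_inv, c.eq, mul_inv_cancel])))
  obtain ⟨n, hn, rfl⟩ := mem_zpowers_iff_mem_range_orderOf.1 this |> Finset.mem_image.1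
  rw [y2, Finset.mem_range] at hn
  interval_cases n
  · simp at ox
  · rw [pow_one]

end Cfsg.Agent.S3304
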