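import Cfsg.Statements.S3306
import Mathlib
import Cfsg.Agent.L0.CI

set_option autoImplicit false
open Cfsg

namespace Cfsg.Agent.S3306

open Subgroup CfsgH2 CfsgL0.CI

/-- Let G be a finite nonsolvable group in which any two distinct Sylow 2-subgroups intersect in a cyclic group, and let N be a solvable normal subgroup of G. Then the image of N in G/O(G) is a cyclic 2-group contained in the centre of G/O(G) (O(G) the largest normal subgroup of odd order). In other words the solvable radical of G is V·O(G) with V a cyclic 2-group central modulo O(G). -/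
theorem result {G : Type*} [Group G] [Finite G] (hns : ¬ Group.IsSolvable G)
    (hC : ∀ S T : Sylow 2 G, S ≠ T → IsCyclic ↥((S : Subgroup G) ⊓ (T : Subgroup G)))
    (N : Subgroup G) [N.Normal] (hN : Group.IsSolvable ↥N) :
    IsCyclic ↥(N.map (QuotientGroup.mk' (Cfsg.oddCore G))) ∧ IsPGroup 2 ↥(N.map (QuotientGroup.mk' (Cfsg.oddCore G))) ∧
      N.map (QuotientGroup.mk' (Cfsg.oddCore G)) ≤ Subgroup.center (G ⧸ Cfsg.oddCore G) := by
  have sj := QuotientGroup.mk'_surjective (Cfsg.oddCore G)
  have hC' := quot sj fun S T hS hT h => by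
    obtain ⟨S, rfl⟩ := hS.exists_top
    obtain ⟨T, rfl⟩ := hT.exists_top
    exact hC S T fun e => h (by rw [e])
  have hO : O[{2}ᶜ, (⊤ : Subgroup (G ⧸ Cfsg.oddCore G))] = ⊥ :=
    pPrimeCore_eq'.symm.trans (CfsgH1.pPrimeCore_quotient_pPrimeCore 2)
  have hns' : ¬ Group.IsSolvable (G ⧸ Cfsg.oddCore G) := fun h => by
    haveI : Group.IsSolvable (Cfsg.oddCore G) := ft_of_not_dvd not_dvd_pPrimeCore
    exact hns (solvable_of_ker_le_range (Cfsg.oddCore G).subtype (QuotientGroup.mk' (Cfsg.oddCore G)) (by simp))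
  have hc := core_cyc hns' hC'
  haveI := Subgroup.Normal.map ‹N.Normal› _ sj
  have h := sol_le hO hc (N.map (QuotientGroup.mk' (Cfsg.oddCore G))) (isSolvable_map _ hN)
  exact ⟨Subgroup.isCyclic_of_le h, isPGroup_piCoreOf.to_le h, h.trans (central hO hc hC')⟩

end Cfsg.Agent.S3306
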