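import Cfsg.Statements.S3315
import Cfsg.Agent.H8.U3f
import Cfsg.Agent.H5.Au13

set_option autoImplicit false
open Cfsg

namespace Cfsg.Agent.S3315

open CfsgH5 CfsgH8

theorem key {F : Type*} [Field F] {σ : F →+* F} [hs : Fact (∀ a, σ (σ a) = a)] [CharP F 2] {q : ℕ} (H : UF σ q)
    (θ : MulAut (Hs σ)) (h : ∀ a, (θ (θ a)).y = a.y) {a : Hs σ} (ha : a.y = 0) : θ a = a := by
  haveI := H.fin
  obtain ⟨α, hα⟩ := exists_alpha H.ne_id hs.out
  obtain ⟨l, hl, φ, hφ⟩ := Hs.aut_form hα θ
  have h1 : ∀ y, l * φ l * φ (φ y) = y := fun y => by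
    have := h (Hs.lift hα y)
    rw [hφ, hφ, map_mul] at this
    rw [mul_assoc]; exact this
  have h2 : l * φ l = 1 := by simpa using h1 1
  by_cases e : φ = RingEquiv.refl F
  · subst e
    refine Hs.kerA_fix H (fun a => ?_) ha
    have : l = 1 := pow_two_pow_eq_one (k := 1) (by simpa [sq] using h2)
    simpa [this] using hφ a
  obtain ⟨q', H'⟩ := Au.gf_UF e (RingEquiv.ext fun y => by have := h1 y; rwa [h2, one_mul] at this)
  obtain rfl : q = q' := Nat.pow_left_injective two_ne_zero (H.card.symm.trans H'.card)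
  have h3 : ∀ y, φ y = σ y := fun y => (H'.pow y).trans (H.pow y).symm
  obtain ⟨y, hy⟩ := H.exists_norm (Hs.fix_of_y ha)
  have : a = Hs.lift hα y * Hs.lift hα y := Hs.ext (by rw [ha, Hs.sq_y]) (by rw [Hs.sq_z, ← hy]; rfl)
  rw [this, map_mul]
  refine Hs.sq_eq ?_
  rw [hφ, h3, map_mul, hs.out]
  rw [h3] at h2
  linear_combination (Hs.lift hα y).y * σ (Hs.lift hα y).y * h2

/-- Let S be a Sylow 2-subgroup of SU₃(2ⁿ), n ≥ 2 (realised over the field with 4ⁿ elements). If a finite 2-group R contains a subgroup S' of index 2 isomorphic to S, then the centre of S' is contained in the centre of R. -/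
theorem result {R : Type*} [Group R] [Finite R]
    (hR : IsPGroup 2 R) (n : ℕ) (hn : 2 ≤ n) {F : Type*} [Field F] [Fintype F] (hF : Fintype.card F = 4 ^ n)
    (P : Sylow 2 ↥(Cfsg.SU 3 F (2 ^ n))) (S' : Subgroup R) (hS : Nonempty (↥S' ≃* ↥(P : Subgroup ↥(Cfsg.SU 3 F (2 ^ n)))))
    (hidx : S'.index = 2) :
    (Subgroup.center ↥S').map S'.subtype ≤ Subgroup.center R := by
  have hF' : Fintype.card F = (2 ^ n) ^ 2 := by rw [hF, ← pow_mul, mul_comm, pow_mul]; norm_num
  obtain ⟨σ, H⟩ := exists_UF hF'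
  have h2 : (2 : F) = 0 := by
    have := FiniteField.cast_card_eq_zero F
    rw [hF'] at this
    exact pow_eq_zero_iff (by omega : n ≠ 0) |>.1 (by simpa using this)
  have := CharTwo.of_one_ne_zero_of_two_eq_zero one_ne_zero h2
  have := Fact.mk H.invol
  obtain ⟨α, hα⟩ := exists_alpha H.ne_id H.invol
  obtain ⟨e1⟩ := sylow_SU3_iso H P
  obtain ⟨e0⟩ := hS
  let e := e0.trans e1
  haveI := Subgroup.normal_of_index_eq_two hidx
  rintro _ ⟨z, hz, rfl⟩
  refine Subgroup.mem_center_iff.2 fun r => ?_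
  have hz' : (e z).y = 0 := (Hs.mem_center hα).1 (Subgroup.mem_center_iff.2 fun b => by
    obtain ⟨b, rfl⟩ := e.surjective b
    rw [← map_mul, ← map_mul, Subgroup.mem_center_iff.1 hz])
  have := key H (MulAut.congr e (MulAut.conjNormal r)) (fun a => by
    obtain ⟨a, rfl⟩ := e.surjective a
    let s : S' := ⟨r * r, Subgroup.mul_self_mem_of_index_two hidx r⟩
    have : MulAut.congr e (MulAut.conjNormal r) (MulAut.congr e (MulAut.conjNormal r) (e a)) = e (s * a * s⁻¹) := by
      simp only [MulAut.congr_apply, MulEquiv.trans_apply, MulEquiv.symm_apply_apply]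
      congr 1
      ext; simp [s, mul_assoc]
    rw [this]; simp) hz'
  simp only [MulAut.congr_apply, MulEquiv.trans_apply, MulEquiv.symm_apply_apply] at this
  have := congrArg Subtype.val (e.injective this)
  rw [MulAut.conjNormal_apply, mul_inv_eq_iff_eq_mul] at this
  exact this

end Cfsg.Agent.S3315
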