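import Mathlib
import Cfsg.Statements.S3335
import Cfsg.Agent.H8.Cox

set_option autoImplicit false
open Cfsg

namespace Cfsg.Agent.S3335

open CfsgH8

def rels (m : ℕ) : Set (FreeGroup (Fin m)) :=
      ({g : FreeGroup (Fin m) | ∃ i : Fin m, i.val = 0 ∧ g = FreeGroup.of i ^ 3} ∪
       {g | ∃ i : Fin m, 1 ≤ i.val ∧ g = FreeGroup.of i ^ 2} ∪
       {g | ∃ i j : Fin m, j.val = i.val + 1 ∧ g = (FreeGroup.of i * FreeGroup.of j) ^ 3} ∪
       {g | ∃ i j : Fin m, i.val + 1 < j.val ∧ g = (FreeGroup.of i * FreeGroup.of j) ^ 2})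

theorem lift_rels {m : ℕ} {H : Type*} [Group H] (f : Fin m → H) (h1 : ∀ i : Fin m, i.val = 0 → f i ^ 3 = 1)
    (h2 : ∀ i : Fin m, 1 ≤ i.val → f i ^ 2 = 1) (h3 : ∀ i j : Fin m, j.val = i.val + 1 → (f i * f j) ^ 3 = 1)
    (h4 : ∀ i j : Fin m, i.val + 1 < j.val → (f i * f j) ^ 2 = 1) : ∀ r ∈ rels m, FreeGroup.lift f r = 1 := by
  rintro r (((⟨i, hi, rfl⟩ | ⟨i, hi, rfl⟩) | ⟨i, j, hi, rfl⟩) | ⟨i, j, hi, rfl⟩)
  · simpa using h1 i hi
  · simpa using h2 i hi
  · simpa using h3 i j hi
  · simpa using h4 i j hi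

theorem inv_pow_one {H : Type*} [Group H] {a b : H} {k : ℕ} (h : (a * b) ^ k = 1) : (a⁻¹ * b⁻¹) ^ k = 1 := by
  have : a⁻¹ * b⁻¹ = b * (a * b)⁻¹ * b⁻¹ := by group
  rw [this, conj_pow, inv_pow, h]; simp

theorem main (m : ℕ) : Nonempty (PresentedGroup (rels m) ≃* alternatingGroup (Fin (m + 2))) := by
  classical
  let G := PresentedGroup (rels m)
  let X : Fin m → G := PresentedGroup.of
  have hX : ∀ r ∈ rels m, FreeGroup.lift X r = 1 := fun r hr => by
    have : FreeGroup.lift X = PresentedGroup.mk (rels m) := by ext i; simp [X]; rfl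
    rw [this]
    exact PresentedGroup.one_of_mem hr
  have x1 : ∀ i : Fin m, i.val = 0 → X i ^ 3 = 1 := fun i hi => by
    simpa using hX _ (Or.inl (Or.inl (Or.inl ⟨i, hi, rfl⟩)))
  have x2 : ∀ i : Fin m, 1 ≤ i.val → X i ^ 2 = 1 := fun i hi => by
    simpa using hX _ (Or.inl (Or.inl (Or.inr ⟨i, hi, rfl⟩)))
  have x3 : ∀ i j : Fin m, j.val = i.val + 1 → (X i * X j) ^ 3 = 1 := fun i j hi => by
    simpa using hX _ (Or.inl (Or.inr ⟨i, j, hi, rfl⟩))
  have x4 : ∀ i j : Fin m, i.val + 1 < j.val → (X i * X j) ^ 2 = 1 := fun i j hi => by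
    simpa using hX _ (Or.inr ⟨i, j, hi, rfl⟩)
  have x2' : ∀ i : Fin m, 1 ≤ i.val → (X i)⁻¹ = X i := fun i hi =>
    inv_eq_of_mul_eq_one_right (by rw [← pow_two, x2 i hi])
  let α : G →* G := PresentedGroup.toGroup (lift_rels (fun i => (X i)⁻¹) (fun i hi => by rw [inv_pow, x1 i hi, inv_one])
    (fun i hi => by rw [inv_pow, x2 i hi, inv_one]) (fun i j hi => inv_pow_one (x3 i j hi)) (fun i j hi => inv_pow_one (x4 i j hi)))
  have hα : ∀ i, α (X i) = (X i)⁻¹ := fun i => PresentedGroup.toGroup.of _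
  have hαα : ∀ g, α (α g) = g := by
    have : α.comp α = MonoidHom.id G := by
      apply PresentedGroup.ext
      intro i
      change α (α (X i)) = X i
      rw [hα, map_inv, hα, inv_inv]
    exact fun g => DFunLike.congr_fun this g
  let t : Equiv.Perm (G × Bool) := ⟨fun p => (α p.1, !p.2), fun p => (α p.1, !p.2), fun p => by simp [hαα], fun p => by simp [hαα]⟩
  let L : G →* Equiv.Perm (G × Bool) := MonoidHom.mk' (fun g => Equiv.prodCongr (Equiv.mulLeft g) (Equiv.refl Bool))
    (fun a b => by ext p <;> simp [mul_assoc])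
  have htt : t * t = 1 := by ext p <;> simp [t, hαα]
  have htL : ∀ g, t * L g * t = L (α g) := by
    intro g; ext p <;> simp [t, L, hαα]
  let s : ℕ → Equiv.Perm (G × Bool) := fun k => match k with
    | 0 => t
    | i + 1 => if h : i < m then t * L (X ⟨i, h⟩) else 1
  have s0 : s 0 = t := rfl
  have s1 : ∀ i (h : i < m), s (i + 1) = t * L (X ⟨i, h⟩) := fun i h => dif_pos h
  have s2 : ∀ i (h : i < m) j (h' : j < m), s (i + 1) * s (j + 1) = L ((X ⟨i, h⟩)⁻¹ * X ⟨j, h'⟩) := by
    intro i h j h'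
    rw [s1 i h, s1 j h', ← mul_assoc, htL, hα, ← map_mul]
  obtain ⟨hfin, hc⟩ := cox_card_le (s := s) (m + 1)
    (fun i hi => by
      rcases i with _ | i
      · exact htt
      · rw [s2 i (by omega) i (by omega), inv_mul_cancel, map_one])
    (fun i hi => by
      rcases i with _ | i
      · rw [s0, s1 0 (by omega), ← mul_assoc, htt, one_mul, ← map_pow, x1 _ rfl, map_one]
      · rw [s2 i (by omega) (i + 1) (by omega), ← map_pow, ← x2' ⟨i + 1, _⟩ (by simp), inv_pow_one (x3 _ _ rfl), map_one])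
    (fun i j hi hj => by
      obtain ⟨j, rfl⟩ : ∃ k, j = k + 1 := ⟨j - 1, by omega⟩
      rcases i with _ | i
      · rw [s0, s1 j (by omega), ← mul_assoc, htt, one_mul, htL, hα, x2' _ (by simp; omega)]
      · rw [s2 i (by omega) j (by omega), s2 j (by omega) i (by omega)]
        congr 1
        have := inv_pow_one (x4 ⟨i, by omega⟩ ⟨j, by omega⟩ (by simp; omega))
        rw [x2' ⟨j, _⟩ (by simp; omega), pow_two, mul_eq_one_iff_eq_inv] at this
        rw [this, mul_inv_rev, inv_inv])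
  set C := Subgroup.closure (s '' Set.Iio (m + 1)) with hC
  have htC : t ∈ C := Subgroup.subset_closure ⟨0, by simp, rfl⟩
  have hLC : ∀ g, L g ∈ C := by
    intro g
    have : g ∈ C.comap L := by
      refine PresentedGroup.generated_by _ _ (fun i => ?_) g
      have h1 : s (i + 1) ∈ C := Subgroup.subset_closure ⟨i + 1, by simp, rfl⟩
      rw [s1 i i.2] at h1
      exact (mul_mem_cancel_left htC).1 h1
    exact this
  let F : G × Bool → C := fun p => if p.2 then ⟨L p.1, hLC _⟩ else ⟨L p.1 * t, mul_mem (hLC _) htC⟩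
  have hF : Function.Injective F := by
    have h1 : ∀ p, (F p).1 (1, true) = p := by
      rintro ⟨g, _ | _⟩ <;> simp [F, L, t]
    intro p q h
    rw [← h1 p, ← h1 q, h]
  haveI : Finite (G × Bool) := Finite.of_injective F hF
  haveI : Finite G := Finite.of_injective (fun g : G => (g, true)) fun a b h => congrArg Prod.fst h
  have hcG := (Nat.card_le_card_of_injective F hF).trans hc
  rw [Nat.card_prod] at hcG
  let r : ℕ → Equiv.Perm (Fin (m + 2)) := fun k => if h : k < m + 1 then Equiv.swap ⟨k, by omega⟩ ⟨k + 1, by omega⟩ else 1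
  have r0 : ∀ k (h : k < m + 1), r k = Equiv.swap ⟨k, by omega⟩ ⟨k + 1, by omega⟩ := fun k h => dif_pos h
  have r1 : ∀ k, k < m + 1 → r k * r k = 1 := fun k h => by rw [r0 k h, Equiv.swap_mul_self]
  have r2 : ∀ k, k + 1 < m + 1 → (r k * r (k + 1)) ^ 3 = 1 := fun k h => by
    rw [r0 k (by omega), r0 (k + 1) h]
    refine swap_braid ?_ ?_ ?_ <;> simp [Fin.ext_iff] <;> omega
  have r3 : ∀ k l, k + 1 < l → l < m + 1 → r k * r l = r l * r k := fun k l h h' => by
    rw [r0 k (by omega), r0 l h']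
    refine swap_comm4 ?_ ?_ ?_ ?_ <;> simp [Fin.ext_iff] <;> omega
  have r4 : ∀ k l, k + 1 < l → l < m + 1 → (r k * r l) ^ 2 = 1 := fun k l h h' => by
    rw [pow_two]
    nth_rewrite 1 [r3 k l h h']
    rw [mul_assoc, ← mul_assoc (r k), r1 k (by omega), one_mul, r1 l h']
  have r5 : ∀ k l, 1 < l → l < m + 1 → r 0 * r k * (r 0 * r l) = r 0 * (r k * r l) * (r 0)⁻¹ := fun k l h h' => by
    rw [r3 0 l h h', inv_eq_of_mul_eq_one_right (r1 0 (by omega))]
    simp only [mul_assoc]
  let ψ : G →* Equiv.Perm (Fin (m + 2)) := PresentedGroup.toGroup (lift_rels (fun i => r 0 * r (i + 1))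
    (fun i hi => by rw [hi]; exact r2 0 (by have := i.2; omega))
    (fun i hi => r4 0 _ (by omega) (by have := i.2; omega))
    (fun i j hi => by
      have := j.2
      rw [r5 _ _ (by omega) (by omega), conj_pow, hi, r2 _ (by omega)]; simp)
    (fun i j hi => by
      have := j.2
      rw [r5 _ _ (by omega) (by omega), conj_pow, r4 _ _ (by omega) (by omega)]; simp))
  have hψ : ∀ i, ψ (X i) = r 0 * r (i + 1) := fun i => PresentedGroup.toGroup.of _
  have hsg : ∀ k, k < m + 1 → Equiv.Perm.sign (r k) = -1 := fun k h => by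
    rw [r0 k h, Equiv.Perm.sign_swap]; simp
  have hA : ∀ g, ψ g ∈ alternatingGroup (Fin (m + 2)) := by
    intro g
    have : g ∈ (alternatingGroup (Fin (m + 2))).comap ψ := by
      refine PresentedGroup.generated_by _ _ (fun i => ?_) g
      change ψ (X i) ∈ alternatingGroup _
      rw [hψ, Equiv.Perm.mem_alternatingGroup, map_mul, hsg 0 (by omega), hsg _ (by have := i.2; omega)]
      simp
    exact this
  have hK : ∀ σ : Equiv.Perm (Fin (m + 2)), σ ∈ ψ.range ∨ r 0 * σ ∈ ψ.range := by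
    intro σ
    have : σ ∈ Submonoid.closure (Set.range fun i : Fin (m + 1) ↦ Equiv.swap i.castSucc i.succ) := by
      rw [Equiv.Perm.mclosure_swap_castSucc_succ]; trivial
    induction this using Submonoid.closure_induction_left with
    | one => exact Or.inl (one_mem _)
    | mul_left x hx y _ ih =>
      obtain ⟨⟨k, hk⟩, rfl⟩ := hx
      have e : Equiv.swap (Fin.castSucc ⟨k, hk⟩) (Fin.succ ⟨k, hk⟩) = r k := (r0 k hk).symm
      simp only
      rw [e]
      rcases k with _ | k
      · rcases ih with h | h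
        · right; rwa [← mul_assoc, r1 0 hk, one_mul]
        · exact Or.inl h
      · have h1 : r 0 * r (k + 1) ∈ ψ.range := ⟨X ⟨k, by omega⟩, hψ _⟩
        rcases ih with h | h
        · right; rw [← mul_assoc]; exact mul_mem h1 h
        · left
          have h2 := mul_mem (inv_mem h1) h
          rwa [mul_inv_rev, mul_assoc, inv_mul_cancel_left, inv_eq_of_mul_eq_one_right (r1 _ hk)] at h2
  have hs : Function.Surjective (ψ.codRestrict _ hA) := by
    rintro ⟨σ, hσ⟩
    rcases hK σ with ⟨g, hg⟩ | ⟨g, hg⟩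
    · exact ⟨g, Subtype.ext hg⟩
    · have h1 := hA g
      rw [hg, Equiv.Perm.mem_alternatingGroup, map_mul, hsg 0 (by omega), Equiv.Perm.mem_alternatingGroup.1 hσ] at h1
      simp at h1
  refine ⟨MulEquiv.ofBijective _ (hs.bijective_of_nat_card_le ?_)⟩
  have h2 := two_mul_nat_card_alternatingGroup (α := Fin (m + 2))
  rw [Nat.card_perm, Nat.card_fin] at h2
  simp only [Nat.card_eq_fintype_card, Fintype.card_bool] at hcG
  change Nat.card G ≤ _
  change _ ≤ (m + 2).factorial at hcG
  omega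

/-- A presentation of the alternating group of degree n ≥ 3 on generators x_1, …, x_{n−2} (indexed here by 0, …, n−3): the first generator cubes to 1, every other generator squares to 1, the product of two consecutive generators has order dividing 3, and the product of two generators at distance at least 2 has order dividing 2. The group so presented is isomorphic to the alternating group of degree n. -/
theorem result (n : ℕ) (hn : 3 ≤ n) :
    Nonempty (PresentedGroup
      ({g : FreeGroup (Fin (n - 2)) | ∃ i : Fin (n - 2), i.val = 0 ∧ g = FreeGroup.of i ^ 3} ∪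
       {g | ∃ i : Fin (n - 2), 1 ≤ i.val ∧ g = FreeGroup.of i ^ 2} ∪
       {g | ∃ i j : Fin (n - 2), j.val = i.val + 1 ∧ g = (FreeGroup.of i * FreeGroup.of j) ^ 3} ∪
       {g | ∃ i j : Fin (n - 2), i.val + 1 < j.val ∧ g = (FreeGroup.of i * FreeGroup.of j) ^ 2})
      ≃* alternatingGroup (Fin n)) := by
  obtain ⟨m, rfl⟩ : ∃ m, n = m + 2 := ⟨n - 2, by omega⟩
  exact main m

end Cfsg.Agent.S3335
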