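import Cfsg.Statements.S3349
import Cfsg.Agent.H3.Hv1

set_option autoImplicit false
open Cfsg

namespace Cfsg.Agent.S3349
open Subgroup CfsgH2
open scoped commutatorElement

/-- Let Q be a finite extraspecial p-group and α an automorphism of Q fixing every element of some maximal abelian subgroup of Q. Then the order of α is a power of p. -/
theorem result {Q : Type*} [Group Q] [Finite Q]
    (p : ℕ) [Fact p.Prime] (hQ : Cfsg.IsExtraspecial p Q) (α : MulAut Q)
    (A : Subgroup Q) (hA : IsMulCommutative A) (hmax : ∀ B : Subgroup Q, A ≤ B → IsMulCommutative B → B = A)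
    (hfix : ∀ a ∈ A, α a = a) :
    ∃ k : ℕ, orderOf α = p ^ k := by
  have hC : ∀ c, (∀ a ∈ A, a * c = c * a) → c ∈ A := fun c hc => by
    have := hmax (A ⊔ zpowers c) le_sup_left (isMulComm_sup hA inferInstance (by
      rw [le_centralizer_iff, zpowers_le]; exact hc))
    exact this ▸ mem_sup_right (mem_zpowers c)
  have hn : ∀ q, ∀ a ∈ A, q * a * q⁻¹ ∈ A := fun q a ha => by
    have : ⁅q, a⁆ ∈ center Q := hQ.1.2.2 ▸ commutator_mem_commutator (mem_top q) (mem_top a)
    have := A.mul_mem (hC _ fun b _ => mem_center_iff.1 this b) ha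
    rwa [commutatorElement_def, inv_mul_cancel_right] at this
  have h1 : ∀ q, q⁻¹ * α q ∈ A := fun q => hC _ fun a ha => by
    have := hfix _ (hn q a ha)
    rw [map_mul, map_mul, map_inv, hfix a ha] at this
    calc a * (q⁻¹ * α q) = q⁻¹ * (q * a * q⁻¹) * α q := by group
      _ = _ := by rw [← this]; group
  have h2 : ∀ (n : ℕ) q, (α ^ n) q = q * (q⁻¹ * α q) ^ n := fun n q => by
    induction n with
    | zero => simp
    | succ n ih => rw [pow_succ', MulAut.mul_apply, ih, map_mul, map_pow, hfix _ (h1 q), pow_succ', ← mul_assoc, mul_inv_cancel_left]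
  obtain ⟨k, hk⟩ := hQ.1.1.exists_card_eq
  have : α ^ p ^ k = 1 := MulEquiv.ext fun q => by rw [h2, ← hk, pow_card_eq_one', mul_one]; rfl
  obtain ⟨j, -, hj⟩ := (Nat.dvd_prime_pow Fact.out).1 (orderOf_dvd_of_pow_eq_one this)
  exact ⟨j, hj⟩


end Cfsg.Agent.S3349
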