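import Cfsg.Statements.S3366
import Cfsg.Agent.H5.Ct1
import Cfsg.Agent.H5.Nse
import Cfsg.Agent.S0245
import Cfsg.Agent.S0246

set_option autoImplicit false
open Cfsg

namespace Cfsg.Agent.S3366

section
open Matrix
variable {R : Type*} [CommRing R]

/-- Matrices fixing the first basis vector. -/
def W (v : Fin 2 → R) (s : R) (A : Matrix (Fin 2) (Fin 2) R) : Matrix (Fin 2 ⊕ Fin 2) (Fin 2 ⊕ Fin 2) R :=
  fromBlocks !![1, v 0 * A 1 0 - v 1 * A 0 0; 0, A 0 0] !![s, v 0 * A 1 1 - v 1 * A 0 1; v 0, A 0 1]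
    !![0, 0; 0, A 1 0] !![1, 0; v 1, A 1 1]

theorem W_mul (v u : Fin 2 → R) (s t : R) (A B : Matrix (Fin 2) (Fin 2) R) (h : A.det = 1) :
    W v s A * W u t B = W (v + A *ᵥ u) (s + t + (v 0 * (A *ᵥ u) 1 - v 1 * (A *ᵥ u) 0)) (A * B) := by
  rw [det_fin_two] at h
  ext i j
  rcases i with i | i <;> rcases j with j | j <;> fin_cases i <;> fin_cases j <;>
    simp [W, Matrix.mul_apply, Fintype.sum_sum_type, Fin.sum_univ_two, mulVec, dotProduct] <;>
    first | ring1 | linear_combination (u 1 * B 0 0 - u 0 * B 1 0) * h | linear_combination (u 1 * B 0 1 - u 0 * B 1 1) * h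

theorem W_mem (v : Fin 2 → R) (s : R) (A : Matrix (Fin 2) (Fin 2) R) (h : A.det = 1) :
    W v s A ∈ symplecticGroup (Fin 2) R := by
  rw [det_fin_two] at h
  rw [SymplecticGroup.mem_iff']
  ext i j
  rcases i with i | i <;> rcases j with j | j <;> fin_cases i <;> fin_cases j <;>
    simp [W, J, Matrix.mul_apply, Fintype.sum_sum_type, Fin.sum_univ_two, Matrix.one_apply] <;>
    first | ring1 | linear_combination h | linear_combination -h

theorem of_comm {F : Type*} [Field F] {s : F} (hs : s ≠ 0) (g : Matrix (Fin 2 ⊕ Fin 2) (Fin 2 ⊕ Fin 2) F)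
    (hg : g ∈ symplecticGroup (Fin 2) F) (c : g * W 0 s 1 = W 0 s 1 * g) :
    (g (.inl 0) (.inl 0) = 1 ∨ g (.inl 0) (.inl 0) = -1) ∧ (g (.inl 0) (.inl 0) = 1 →
      ∃ v t A, A.det = 1 ∧ g = W v t A) := by
  rw [SymplecticGroup.mem_iff'] at hg
  have c1 := congrFun (congrFun c (.inl 0)) (.inr 0)
  have c2 := congrFun (congrFun c (.inl 1)) (.inr 0)
  have c3 := congrFun (congrFun c (.inr 0)) (.inr 0)
  have c4 := congrFun (congrFun c (.inr 1)) (.inr 0)
  have c5 := congrFun (congrFun c (.inl 0)) (.inl 1)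
  have c6 := congrFun (congrFun c (.inl 0)) (.inr 1)
  have h1 := congrFun (congrFun hg (.inl 0)) (.inr 0)
  have h2 := congrFun (congrFun hg (.inl 1)) (.inr 1)
  have h3 := congrFun (congrFun hg (.inl 1)) (.inr 0)
  have h4 := congrFun (congrFun hg (.inr 1)) (.inr 0)
  simp [W, J, Matrix.mul_apply, Fintype.sum_sum_type, Fin.sum_univ_two, Matrix.one_apply] at c1 c2 c3 c4 c5 c6 h1 h2 h3 h4
  have a1 : g (.inr 0) (.inr 0) = g (.inl 0) (.inl 0) := mul_left_cancel₀ hs (by linear_combination -c1)
  have a2 := c2.resolve_right hs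
  have a3 := c3.resolve_right hs
  have a4 := c4.resolve_right hs
  have a5 := c5.resolve_left hs
  have a6 := c6.resolve_left hs
  rw [a1] at h1 h3 h4
  simp only [a2, a3, a4, a5, a6] at h1 h2 h3 h4
  refine ⟨mul_self_eq_one_iff.1 (by linear_combination -h1), fun e => ⟨![g (.inl 1) (.inr 0), g (.inr 1) (.inr 0)],
    g (.inl 0) (.inr 0), !![g (.inl 1) (.inl 1), g (.inl 1) (.inr 1); g (.inr 1) (.inl 1), g (.inr 1) (.inr 1)],
    by rw [det_fin_two_of]; linear_combination -h2, ?_⟩⟩
  rw [e] at h3 h4 a1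
  ext i j
  rcases i with i | i <;> rcases j with j | j <;> fin_cases i <;> fin_cases j <;>
    simp [W, e, a1, a2, a3, a4, a5, a6] <;>
    first | linear_combination h3 | linear_combination -h3 | linear_combination h4 | linear_combination -h4

end

/-- Let X be a finite group with O₃(X) extraspecial of order 27 and exponent 3, X/O₃(X) isomorphic to SL(2,3), O₂(X) = 1, and a Sylow 3-subgroup of X containing an elementary abelian subgroup of order 27. Then X is isomorphic to the centralizer in PSp(4,3) of a 3-central element of order 3 (an element of order 3 in the centre of a Sylow 3-subgroup). -/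
theorem result {X : Type*} [Group X] [Finite X]
    (hR : Cfsg.IsExtraspecial 3 (Cfsg.pCore 3 X)) (hRcard : Nat.card (Cfsg.pCore 3 X) = 27)
    (hRexp : ∀ r ∈ Cfsg.pCore 3 X, r ^ 3 = 1)
    (e : X ⧸ Cfsg.pCore 3 X ≃* Matrix.SpecialLinearGroup (Fin 2) (ZMod 3))
    (hO2 : Cfsg.pCore 2 X = ⊥)
    (hE : ∃ E : Subgroup X, IsMulCommutative E ∧ (∀ a ∈ E, a ^ 3 = 1) ∧ Nat.card E = 27)
    (F : Type*) [Field F] [Fintype F] (hF : Fintype.card F = 3) :
    ∃ (c : Cfsg.PSp 2 F) (S : Sylow 3 (Cfsg.PSp 2 F)), orderOf c = 3 ∧ c ∈ (S : Subgroup (Cfsg.PSp 2 F)) ∧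
      c ∈ Subgroup.centralizer ((S : Subgroup (Cfsg.PSp 2 F)) : Set (Cfsg.PSp 2 F)) ∧
      Nonempty (X ≃* Subgroup.centralizer ({c} : Set (Cfsg.PSp 2 F))) := by
  open CfsgH5.Dk CfsgH2 Subgroup Matrix in
  · set R := Cfsg.pCore 3 X
    obtain ⟨w, nab⟩ := extraspecial_iff.1 hR
    obtain ⟨x, hx, y, hy, c⟩ := exists_not_commute nab
    have h : XS 3 R x y := ⟨w, hRcard, hRexp, hx, hy, c⟩
    let π : X →* S3 := e.toMonoidHom.comp (QuotientGroup.mk' R)
    have hπ : Function.Surjective π := e.surjective.comp (QuotientGroup.mk'_surjective R)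
    have hk : π.ker = R := by
      ext g
      rw [MonoidHom.mem_ker, ← QuotientGroup.eq_one_iff]
      exact e.map_eq_one_iff
    have cX : Nat.card X = 648 := by
      rw [← R.card_mul_index, hRcard, show R.index = 24 from (Nat.card_congr e.toEquiv).trans cardS3]
    obtain ⟨v, s, A, det, mA, mv, ms, inj, z, z1, z2, z3⟩ := model h π hπ hk (fun t t2 tc => by
      haveI : (zpowers t).Normal := ⟨fun a ha g => by
        rwa [mem_center_iff.1 (zpowers_le.2 tc ha) g, mul_inv_cancel_right]⟩
      have : zpowers t ≤ Cfsg.pCore 2 X := le_sSup ⟨inferInstance, fun ⟨a, k, hk⟩ => ⟨1, Subtype.ext (by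
        change a ^ 2 ^ 1 = 1
        rw [← hk, pow_one, ← zpow_natCast, ← _root_.zpow_mul, mul_comm, _root_.zpow_mul, zpow_natCast, t2,
          _root_.one_zpow])⟩⟩
      rw [hO2] at this
      exact mem_bot.1 (this (mem_zpowers t))) hE
    let φ : ZMod 3 ≃+* F := ZMod.ringEquivOfPrime F Nat.prime_three hF
    have dφ : ∀ B : Matrix (Fin 2) (Fin 2) (ZMod 3), (B.map φ).det = φ B.det := fun B => by
      simp [det_fin_two]
    let Φ : X →* symplecticGroup (Fin 2) F := MonoidHom.mk'
      (fun g => ⟨W (φ ∘ v g) (φ (s g)) ((A g).map φ), W_mem _ _ _ (by rw [dφ, det, map_one])⟩) fun g k => by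
        apply Subtype.ext
        change W _ _ _ = W _ _ _ * W _ _ _
        rw [W_mul _ _ _ _ _ _ (by rw [dφ, det, map_one]), mA, mv, ms]
        congr 1
        · ext i; fin_cases i <;> simp [mulVec, dotProduct, Fin.sum_univ_two, vecHead, vecTail]
        · simp [mulVec, dotProduct, Fin.sum_univ_two]
        · ext i j; simp [Matrix.mul_apply, Fin.sum_univ_two]
    have Φv : ∀ g, (Φ g).1 = W (φ ∘ v g) (φ (s g)) ((A g).map φ) := fun _ => rfl
    have Φi : Function.Injective Φ := (injective_iff_map_eq_one Φ).2 fun g hg => by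
      have e1 : W (φ ∘ v g) (φ (s g)) ((A g).map φ) = 1 := congrArg Subtype.val hg
      have a := fun i j => congrFun (congrFun e1 i) j
      have a1 := a (.inl 1) (.inr 0)
      have a2 := a (.inr 1) (.inr 0)
      have a3 := a (.inl 0) (.inr 0)
      have a4 := a (.inl 1) (.inl 1)
      have a5 := a (.inl 1) (.inr 1)
      have a6 := a (.inr 1) (.inl 1)
      have a7 := a (.inr 1) (.inr 1)
      simp [W, Matrix.one_apply] at a1 a2 a3 a4 a5 a6 a7
      refine inj g ?_ a3 ?_
      · ext i; fin_cases i <;> simp [a1, a2]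
      · ext i j; fin_cases i <;> fin_cases j <;> simp [a4, a5, a6, a7]
    have su : ∀ u t B, B.det = 1 → ∃ g, (Φ g).1 = W u t B := fun u t B hB => by
      let θ : X → (Fin 2 → ZMod 3) × ZMod 3 × S3 := fun g => (v g, s g, ⟨A g, det g⟩)
      have b : Function.Bijective θ := (Nat.bijective_iff_injective_and_card θ).2 ⟨fun g k e => Φi (Subtype.ext (by
        rw [Φv, Φv, show v g = v k from congrArg (·.1) e, show s g = s k from congrArg (·.2.1) e,
          show A g = A k from congrArg (·.2.2.1) e])), by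
          rw [cX, Nat.card_prod, Nat.card_prod, cardS3]; simp⟩
      obtain ⟨g, hg⟩ := b.2 (φ.symm ∘ u, φ.symm t, ⟨B.map φ.symm, φ.injective (by
        rw [← dφ, Matrix.map_map, map_one, ← hB]; congr 1; ext i j; simp)⟩)
      refine ⟨g, ?_⟩
      rw [Φv, show v g = φ.symm ∘ u from congrArg (·.1) hg, show s g = φ.symm t from congrArg (·.2.1) hg,
        show A g = B.map φ.symm from congrArg (·.2.2.1) hg]
      congr 1
      · ext i; simp
      · simp
      · ext i j; simp
    have two : (2 : F) ≠ 0 := fun k => by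
      have : φ 2 = φ 0 := by rw [map_zero, map_ofNat]; exact k
      exact absurd (φ.injective this) (by decide)
    let n1 : symplecticGroup (Fin 2) F := ⟨-1, SymplecticGroup.neg_mem (Submonoid.one_mem _)⟩
    have n1c : n1 ∈ center (symplecticGroup (Fin 2) F) := mem_center_iff.2 fun g => Subtype.ext (by
      change g.1 * -1 = -1 * g.1
      simp)
    have n11 : n1 ≠ 1 := fun k => by
      have := congrFun (congrFun (congrArg Subtype.val k) (.inl 0)) (.inl 0)
      simp [n1] at this
      exact two (by linear_combination -this)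
    have cZ : Nat.card (center (symplecticGroup (Fin 2) F)) = 2 := Cfsg.Agent.S0246.result hF 2 (by norm_num)
    have Zc : ∀ g ∈ center (symplecticGroup (Fin 2) F), g = 1 ∨ g = n1 := fun g hg => by
      by_contra k
      push Not at k
      obtain ⟨u, -, hu⟩ := (Nat.card_eq_two_iff' (1 : center (symplecticGroup (Fin 2) F))).1 cZ
      exact k.2 (congrArg Subtype.val ((hu ⟨g, hg⟩ fun e => k.1 (congrArg Subtype.val e)).trans
        (hu ⟨n1, n1c⟩ fun e => n11 (congrArg Subtype.val e)).symm))
    let Ψ : X →* Cfsg.PSp 2 F := (QuotientGroup.mk' _).comp Φ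
    have Ψi : Function.Injective Ψ := (injective_iff_map_eq_one Ψ).2 fun g hg => by
      rcases Zc _ ((QuotientGroup.eq_one_iff _).1 hg) with k | k
      · exact Φi (k.trans (map_one Φ).symm)
      · have := congrFun (congrFun (congrArg Subtype.val k) (.inl 0)) (.inl 0)
        simp [n1, Φv, W] at this
        exact absurd (by linear_combination this) two
    have Φz : (Φ z).1 = W 0 2 1 := by
      rw [Φv, z1, z2, z3, map_ofNat φ 2]
      congr 1
      · ext i; simp
      · simp
    have zc : ∀ g, g * z = z * g := fun g => Φi (Subtype.ext (by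
      rw [map_mul, map_mul, Submonoid.coe_mul, Submonoid.coe_mul, Φz, Φv,
        W_mul _ _ _ _ _ _ (by rw [dφ, det, map_one]), W_mul _ _ _ _ _ _ det_one]
      congr 1 <;> simp [add_comm]))
    have zz : z ^ 3 = 1 := by
      rw [pow_succ, sq]
      refine inj _ ?_ ?_ ?_
      · simp [mv, z1]
      · simp only [ms, mv, mA, z1, z2, z3]; decide
      · simp [mA, z3]
    have z0 : z ≠ 1 := fun k => by
      have := ms z z
      rw [k, mul_one, ← k, z1, z2, z3] at this
      exact absurd this (by decide)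
    have oz : orderOf z = 3 := orderOf_eq_prime zz z0
    obtain ⟨T, hT⟩ := CfsgH5.Nse.exists_syl (p := 3) (k := 1) (x := z) (by rw [oz]; norm_num)
    have cT : Nat.card (T : Subgroup X) = 3 ^ 4 := CfsgH5.Nse.syl_card T (by rw [cX]; norm_num) (by rw [cX]; norm_num)
    have cP : Nat.card (Cfsg.PSp 2 F) = 25920 := by
      have a := (center (symplecticGroup (Fin 2) F)).card_mul_index
      rw [cZ, Cfsg.Agent.S0245.result hF 2] at a
      norm_num [Finset.prod_range_succ] at a
      change (center (symplecticGroup (Fin 2) F)).index = _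
      omega
    haveI : Finite (Cfsg.PSp 2 F) := Nat.finite_of_card_ne_zero (by rw [cP]; norm_num)
    have iS : ¬ 3 ∣ ((T : Subgroup X).map Ψ).index := by
      have := ((T : Subgroup X).map Ψ).card_mul_index
      rw [card_map_of_injective Ψi, cT, cP] at this
      omega
    refine ⟨Ψ z, (T.2.map Ψ).toSylow iS, by rw [orderOf_injective Ψ Ψi, oz], mem_map_of_mem Ψ hT, ?_, ?_⟩
    · rintro _ ⟨g, -, rfl⟩
      rw [← map_mul, ← map_mul, zc]
    have rg : Ψ.range = centralizer {Ψ z} := by
      refine le_antisymm ?_ fun g hg => ?_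
      · rintro _ ⟨g, rfl⟩
        rw [mem_centralizer_singleton_iff, ← map_mul, ← map_mul, zc]
      obtain ⟨g, rfl⟩ := QuotientGroup.mk'_surjective _ g
      rw [mem_centralizer_singleton_iff] at hg
      have k : g * Φ z * g⁻¹ * (Φ z)⁻¹ ∈ center (symplecticGroup (Fin 2) F) := by
        rw [← QuotientGroup.eq_one_iff, ← QuotientGroup.mk'_apply, map_mul, map_mul, map_mul, map_inv, map_inv]
        rw [show (QuotientGroup.mk' _) (Φ z) = Ψ z from rfl, hg]; group
      have cm : g * Φ z = Φ z * g := by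
        rcases Zc _ k with k1 | k1
        · rwa [mul_inv_eq_one, mul_inv_eq_iff_eq_mul] at k1
        · exfalso
          have e3 : (g * Φ z * g⁻¹) ^ 3 = 1 := by rw [conj_pow, ← map_pow, zz, map_one]; group
          rw [mul_inv_eq_iff_eq_mul.1 k1, (show Commute n1 (Φ z) from (mem_center_iff.1 n1c _).symm).mul_pow,
            ← map_pow, zz, map_one, mul_one] at e3
          have : n1 ^ 2 = 1 := Subtype.ext (by change (-1 : Matrix _ _ F) ^ 2 = 1; simp)
          rw [pow_succ, this, one_mul] at e3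
          exact n11 e3
      have fin : ∀ g : symplecticGroup (Fin 2) F, g * Φ z = Φ z * g → g.1 (.inl 0) (.inl 0) = 1 →
          ∃ a, Φ a = g := fun g c1 c2 => by
        obtain ⟨u, t, B, b1, b2⟩ := (of_comm two g.1 g.2 (by rw [← Φz]; exact congrArg Subtype.val c1)).2 c2
        obtain ⟨a, ha⟩ := su u t B b1
        exact ⟨a, Subtype.ext (ha.trans b2.symm)⟩
      rcases (of_comm two g.1 g.2 (by rw [← Φz]; exact congrArg Subtype.val cm)).1 with k1 | k1
      · obtain ⟨a, rfl⟩ := fin g cm k1
        exact ⟨a, rfl⟩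
      · obtain ⟨a, ha⟩ := fin (g * n1) (by
          rw [mul_assoc, ← mem_center_iff.1 n1c, ← mul_assoc, cm, mul_assoc]) (by
          change (g.1 * -1) _ _ = 1
          simp [k1])
        refine ⟨a, ?_⟩
        change QuotientGroup.mk' _ (Φ a) = _
        rw [ha, map_mul, show QuotientGroup.mk' _ n1 = 1 from (QuotientGroup.eq_one_iff _).2 n1c, mul_one]
    exact ⟨(MonoidHom.ofInjective Ψi).trans (MulEquiv.subgroupCongr rg)⟩

end Cfsg.Agent.S3366
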