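import Mathlib
import Cfsg.Statements.S3370
import Cfsg.Agent.H1.Sn5
import Cfsg.Agent.H1.SylowIn

set_option autoImplicit false
open Cfsg

namespace Cfsg.Agent.S3370

open Subgroup CfsgH1 MulAction Matrix

theorem num1 {p k n : ℕ} (hp : p.Prime) (hk : k ≠ 0) (h : 2 ^ n = p ^ k + 1) : k = 1 := by
  have h2 : p % 2 = 1 := hp.eq_two_or_odd.resolve_left fun e => by
    have a : 2 ∣ p ^ k := e ▸ dvd_pow_self _ hk
    have : 1 < p ^ k := Nat.one_lt_pow hk hp.one_lt
    have b : 2 ∣ 2 ^ n := dvd_pow_self _ (by rintro rfl; omega)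
    omega
  have h3 := hp.two_le
  have h4 : p ≤ p ^ k := Nat.le_self_pow hk p
  rcases Nat.even_or_odd' k with ⟨j, rfl | rfl⟩
  · obtain ⟨m, rfl⟩ : ∃ m, n = m + 2 := Nat.exists_eq_add_of_le' (by
      by_contra e
      have : n = 0 ∨ n = 1 := by omega
      rcases this with rfl | rfl <;> omega)
    obtain ⟨c, hc⟩ := (Nat.odd_iff.2 h2).pow (n := j)
    rw [mul_comm 2 j, pow_mul, hc] at h
    have : 2 ^ m * 4 = 4 * (c * c + c) + 2 := by rw [pow_add] at h; linarith
    omega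
  · obtain ⟨c, hc⟩ := Odd.nat_add_dvd_pow_add_pow p 1 (n := 2 * j + 1) ⟨j, rfl⟩
    rw [one_pow] at hc
    have a : c ∣ 2 ^ n := h ▸ hc ▸ dvd_mul_left _ _
    obtain ⟨i, -, rfl⟩ := (Nat.dvd_prime_pow Nat.prime_two).1 a
    rcases i with _ | i
    · have : p ^ (2 * j + 1) = p ^ 1 := by simpa using hc
      exact Nat.pow_right_injective h3 this
    · exfalso
      obtain ⟨d, hd⟩ : ∃ d, p + 1 = 2 * d := ⟨(p + 1) / 2, by omega⟩
      have b : p ^ (2 * j + 1) ≡ p [MOD 2 * (p + 1)] := by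
        have : p ^ 2 ≡ 1 [MOD 2 * (p + 1)] := ((Nat.modEq_iff_dvd' (Nat.one_le_pow _ _ (by omega))).2 ⟨d - 1, by
          obtain ⟨d, rfl⟩ : ∃ e, d = e + 1 := ⟨d - 1, by omega⟩
          obtain rfl : p = 2 * d + 1 := by omega
          simp only [add_tsub_cancel_right]
          exact Nat.sub_eq_of_eq_add (by ring)⟩).symm
        simpa [pow_succ, pow_mul] using (this.pow j).mul_right p
      have c : 2 * (p + 1) ∣ p ^ (2 * j + 1) + 1 := ⟨2 ^ i, by rw [hc]; ring⟩
      have := Nat.le_of_dvd (by omega) ((Nat.modEq_zero_iff_dvd.1 ((b.add_right 1).symm.trans (Nat.modEq_zero_iff_dvd.2 c))))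
      omega

theorem num2 {q k n : ℕ} (hq : q.Prime) (h2 : q ≠ 2) (hn : 2 ≤ n) (h : q ^ n = 2 ^ k + 1) : q = 3 ∧ n = 2 := by
  have h3 : q % 2 = 1 := hq.eq_two_or_odd.resolve_left h2
  have h4 := hq.two_le
  rcases Nat.even_or_odd' n with ⟨j, rfl | rfl⟩
  · have a : (q ^ j + 1) * (q ^ j - 1) = 2 ^ k := by rw [← one_pow 2, ← Nat.sq_sub_sq, ← pow_mul, mul_comm j, h]; simp
    obtain ⟨s, -, hs⟩ := (Nat.dvd_prime_pow Nat.prime_two).1 (Dvd.intro _ a)
    obtain ⟨t, -, ht⟩ := (Nat.dvd_prime_pow Nat.prime_two).1 (Dvd.intro_left _ a)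
    have b : q ≤ q ^ j := Nat.le_self_pow (by omega) q
    have c : q ^ j = 3 := by
      by_contra e
      have d : ∀ m, 2 ^ m ≤ 2 ∨ 4 ∣ 2 ^ m := fun m => by
        rcases m with _ | _ | m
        · simp
        · simp
        · exact .inr ⟨2 ^ m, by ring⟩
      have := d s
      have := d t
      omega
    have d := (Nat.Prime.pow_eq_iff Nat.prime_three).1 c
    omega
  · exfalso
    have a := Nat.geomSum_eq h4 (2 * j + 1)
    have b := Nat.sub_one_dvd_pow_sub_one q (2 * j + 1)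
    have c : ∑ i ∈ Finset.range (2 * j + 1), q ^ i ∣ 2 ^ k := by
      rw [a, show 2 ^ k = q ^ (2 * j + 1) - 1 by rw [h]; rfl]
      exact Nat.div_dvd_of_dvd b
    obtain ⟨i, -, hi⟩ := (Nat.dvd_prime_pow Nat.prime_two).1 c
    have d : (∑ i ∈ Finset.range (2 * j + 1), q ^ i) % 2 = 1 := by
      rw [Finset.sum_nat_mod, Finset.sum_congr rfl fun i _ => Nat.odd_iff.1 (Nat.odd_iff.2 h3).pow]
      simp
    have e : ∑ i ∈ Finset.range 2, q ^ i ≤ ∑ i ∈ Finset.range (2 * j + 1), q ^ i :=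
      Finset.sum_le_sum_of_subset (Finset.range_mono hn)
    rcases i with _ | i
    · rw [hi] at e
      simp [Finset.sum_range_succ] at e
      omega
    · rw [hi, pow_succ] at d
      omega

/-- An element of order eight. -/
def x : GL (Fin 2) (ZMod 3) := ⟨!![0, 1; 1, 1], !![2, 1; 1, 0], by decide, by decide⟩

/-- An involution. -/
def y : GL (Fin 2) (ZMod 3) := ⟨!![1, 1; 0, 2], !![1, 1; 0, 2], by decide, by decide⟩

/-- The quaternion group as matrices. -/
def f0 : QuaternionGroup 2 →* Matrix (Fin 2) (Fin 2) (ZMod 3) where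
  toFun
    | .a j => (![!![1, 0; 0, 1], !![1, 1; 1, 2], !![2, 0; 0, 2], !![2, 2; 2, 1]] : Fin 4 → _) j
    | .xa j => (![!![0, 2; 1, 0], !![2, 1; 1, 1], !![0, 1; 2, 0], !![1, 2; 2, 2]] : Fin 4 → _) j
  map_one' := by decide +kernel
  map_mul' := by decide +kernel

theorem ox : orderOf x = 8 := by
  have : Fact (Nat.Prime 2) := ⟨Nat.prime_two⟩
  exact orderOf_eq_prime_pow (p := 2) (n := 2) (by decide +kernel) (by decide +kernel)

theorem oy : orderOf y = 2 := orderOf_eq_prime (by decide +kernel) (by decide +kernel)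

theorem rel : y * x * y⁻¹ = x ^ 3 := by decide +kernel

theorem yn : zpowers y ≤ normalizer (zpowers x : Set (GL (Fin 2) (ZMod 3))) :=
  zpowers_le.2 (mem_normalizer_fintype fun _ ⟨k, a⟩ => a ▸ by
    rw [← conj_zpow, rel]
    exact zpow_mem (pow_mem (mem_zpowers x) 3) k)

theorem yx : y ∉ zpowers x := fun ⟨k, (a : x ^ k = y)⟩ => by
  have := (Commute.refl x).zpow_left k
  rw [a] at this
  exact absurd this.eq (by decide +kernel)

theorem cP : Nat.card (zpowers x ⊔ zpowers y : Subgroup _) = 16 := by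
  rw [card_sup_of_disjoint yn, Nat.card_zpowers, Nat.card_zpowers, ox, oy]
  refine eq_bot_iff.2 fun g a => ?_
  obtain ⟨k, b, rfl⟩ := Finset.mem_image.1 (mem_zpowers_iff_mem_range_orderOf.1 a.2)
  rw [oy, Finset.mem_range] at b
  interval_cases k
  · rfl
  · exact absurd (pow_one y ▸ a.1) yx

theorem mP {g : GL (Fin 2) (ZMod 3)} (h : g ∈ zpowers x ⊔ zpowers y) : ∃ i < 8, g = x ^ i ∨ g = x ^ i * y := by
  obtain ⟨u, a, v, b, rfl⟩ := (mem_sup_of_le_normalizer yn).1 h
  obtain ⟨i, c, rfl⟩ := Finset.mem_image.1 (mem_zpowers_iff_mem_range_orderOf.1 a)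
  obtain ⟨k, d, rfl⟩ := Finset.mem_image.1 (mem_zpowers_iff_mem_range_orderOf.1 b)
  rw [oy, Finset.mem_range] at d
  rw [ox, Finset.mem_range] at c
  refine ⟨i, c, ?_⟩
  interval_cases k <;> simp

theorem core {G : Type*} [Group G] {ψ : G →* GL (Fin 2) (ZMod 3)} (hψ : Function.Injective ψ)
    (h1 : ψ.range ≤ zpowers x ⊔ zpowers y) (h2 : ∀ k < 8, ∃ g, (ψ g).1 *ᵥ ![1, 0] = (x ^ k).1 *ᵥ ![1, 0]) :
    (IsCyclic G ∧ Nat.card G = 8) ∨ Nonempty (G ≃* QuaternionGroup 2) ∨ (IsQuasiDihedral G ∧ Nat.card G = 16) := by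
  have a : ∀ k < 8, x ^ k ∈ ψ.range ∨ x ^ k * y ∈ ψ.range := fun k hk => by
    obtain ⟨g, hg⟩ := h2 k hk
    obtain ⟨i, b, c⟩ := mP (h1 ⟨g, rfl⟩)
    have d : ∀ i < 8, ∀ k < 8, ((x ^ i).1 *ᵥ ![1, 0] = (x ^ k).1 *ᵥ ![1, 0] ∨
      (x ^ i * y).1 *ᵥ ![1, 0] = (x ^ k).1 *ᵥ ![1, 0]) → i = k := by decide +kernel
    obtain rfl := d i b k hk (c.imp (fun c => by rw [← c, hg]) fun c => by rw [← c, hg])
    exact c.imp (fun c => ⟨g, c⟩) fun c => ⟨g, c⟩
  have e := MonoidHom.ofInjective hψ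
  have a1 := a 1 (by omega)
  rw [pow_one] at a1
  by_cases hy : y ∈ ψ.range
  · have hx : x ∈ ψ.range := a1.elim id fun b => (mul_mem_cancel_right hy).1 b
    have c : Nat.card G = 16 := by
      rw [Nat.card_congr e.toEquiv, le_antisymm h1 (sup_le (zpowers_le.2 hx) (zpowers_le.2 hy)), cP]
    obtain ⟨u, hu⟩ := hx
    obtain ⟨v, hv⟩ := hy
    exact .inr (.inr ⟨⟨3, le_rfl, c, u, v, by rw [← orderOf_injective ψ hψ, hu, ox]; rfl, by
      rw [← orderOf_injective ψ hψ, hv, oy], hψ (by simpa [hu, hv] using rel)⟩, c⟩)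
  by_cases hx : x ∈ ψ.range
  · have c : ψ.range = zpowers x := le_antisymm (fun g b => by
      obtain ⟨i, -, rfl | rfl⟩ := mP (h1 b)
      · exact pow_mem (mem_zpowers x) i
      · exact absurd ((mul_mem_cancel_left (pow_mem hx i)).1 b) hy) (zpowers_le.2 hx)
    rw [c] at e
    exact .inl ⟨isCyclic_of_injective e.toMonoidHom e.injective, by rw [Nat.card_congr e.toEquiv, Nat.card_zpowers, ox]⟩
  have b1 := a1.resolve_left hx
  have b2 : x ^ 2 ∈ ψ.range := (a 2 (by omega)).resolve_right fun b => hx (by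
    rw [pow_two, mul_assoc] at b
    exact (mul_mem_cancel_right b1).1 b)
  have c1 : x ^ 2 ∈ f0.toHomUnits.range := ⟨.a 1, by decide +kernel⟩
  have c2 : x * y ∈ f0.toHomUnits.range := ⟨.xa 0, by decide +kernel⟩
  have c : ψ.range = f0.toHomUnits.range := le_antisymm (fun g b => by
    obtain ⟨i, -, d⟩ := mP (h1 b)
    rcases Nat.even_or_odd' i with ⟨j, rfl | rfl⟩ <;> rcases d with rfl | rfl <;> simp only [pow_succ _ (2 * j), pow_mul] at b ⊢
    · exact pow_mem c1 j
    · exact absurd ((mul_mem_cancel_left (pow_mem b2 j)).1 b) hy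
    · exact absurd ((mul_mem_cancel_left (pow_mem b2 j)).1 b) hx
    · rw [mul_assoc]
      exact mul_mem (pow_mem c1 j) c2) (by
    rintro _ ⟨u, rfl⟩
    obtain ⟨k, -, d | d⟩ := (by decide +kernel : ∀ u, ∃ k < 4, f0.toHomUnits u = (x ^ 2) ^ k ∨
      f0.toHomUnits u = (x ^ 2) ^ k * (x * y)) u <;> rw [d]
    · exact pow_mem b2 k
    · exact mul_mem (pow_mem b2 k) b1)
  rw [c] at e
  exact .inr (.inl ⟨e.trans (MonoidHom.ofInjective (f := f0.toHomUnits) (by decide +kernel)).symm⟩)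

/-- Let q be a prime, V a non-trivial finite vector space over the field with q elements, and G a non-trivial finite p-group (p prime) acting faithfully and linearly on V and transitively on the non-zero vectors. Then either q = 2 and G has prime order p = |V| − 1; or p = 2, V has q elements with q = 2^m + 1 and G is cyclic of order 2^m; or p = 2, q = 3, V has 9 elements and G is cyclic of order 8, quaternion of order 8, or semidihedral of order 16. -/
theorem result (q : ℕ) [Fact q.Prime] {V : Type*} [AddCommGroup V] [Module (ZMod q) V] [Finite V] [Nontrivial V]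
    {G : Type*} [Group G] [Finite G] [Nontrivial G] (p : ℕ) [Fact p.Prime] (hG : IsPGroup p G)
    (ρ : G →* (V ≃ₗ[ZMod q] V)) (hρ : Function.Injective ρ)
    (htrans : ∀ v w : V, v ≠ 0 → w ≠ 0 → ∃ g : G, ρ g v = w) :
    (q = 2 ∧ p = Nat.card V - 1 ∧ Nat.card G = p) ∨
    (p = 2 ∧ Nat.card V = q ∧ (∃ m : ℕ, q = 2 ^ m + 1 ∧ Nat.card G = 2 ^ m) ∧ IsCyclic G) ∨
    (p = 2 ∧ q = 3 ∧ Nat.card V = 9 ∧
      ((IsCyclic G ∧ Nat.card G = 8) ∨ Nonempty (G ≃* QuaternionGroup 2) ∨ (Cfsg.IsQuasiDihedral G ∧ Nat.card G = 16))) := by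
  have hq : q.Prime := Fact.out
  have hp : p.Prime := Fact.out
  letI : MulAction G V := MulAction.compHom V ρ
  obtain ⟨v, hv⟩ := exists_ne (0 : V)
  have o : orbit G v = {0}ᶜ := Set.ext fun w => ⟨by
    rintro ⟨g, rfl⟩
    exact (ρ g).map_ne_zero_iff.2 hv, htrans v w hv⟩
  obtain ⟨k, hk⟩ := hG.card_orbit v
  have inj : Function.Injective (toPermHom G (orbit G v)) := (injective_iff_map_eq_one _).2 fun g a => hρ (by
    rw [map_one]
    ext w
    by_cases b : w = 0
    · simp [b]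
    · exact congrArg Subtype.val (Equiv.ext_iff.1 a ⟨w, o.ge b⟩))
  have c1 := card_dvd_of_injective _ inj
  have c2 : p ^ k ∣ Nat.card G := by
    rw [← hk, Nat.card_coe_set_eq, ← index_stabilizer]
    exact index_dvd_card _
  rw [Nat.card_perm, hk] at c1
  have c3 : Nat.card V = p ^ k + 1 := by
    rw [← hk, o, Nat.card_coe_set_eq, ← Set.ncard_add_ncard_compl {(0 : V)}, Set.ncard_singleton, add_comm]
  have k0 : k ≠ 0 := by
    rintro rfl
    exact (Finite.one_lt_card (α := G)).ne' (by simpa using c1)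
  have c4 : Nat.card V = q ^ Module.finrank (ZMod q) V := by rw [Module.natCard_eq_pow_finrank (K := ZMod q), Nat.card_zmod]
  by_cases q2 : q = 2
  · obtain rfl := num1 hp k0 (n := Module.finrank (ZMod q) V) (by rw [← c3, c4]; congr 1; exact q2.symm)
    rw [pow_one] at c1 c2 c3
    refine .inl ⟨q2, by omega, ?_⟩
    obtain ⟨a, ha⟩ := hG.exists_card_eq
    rw [ha] at c1 c2 ⊢
    rcases a with _ | _ | a
    · exact absurd (by simpa using c2) hp.ne_one
    · simp
    · rw [← Nat.mul_factorial_pred hp.ne_zero, pow_succ', Nat.mul_dvd_mul_iff_left hp.pos] at c1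
      have := hp.dvd_factorial.1 ((dvd_pow_self p (by omega)).trans c1)
      have := hp.pos
      omega
  have p2 : p = 2 := hp.eq_two_or_odd'.resolve_right fun e => by
    have := Nat.odd_iff.1 (e.pow (n := k))
    have := Nat.odd_iff.1 ((hq.odd_of_ne_two q2).pow (n := Module.finrank (ZMod q) V))
    omega
  subst p2
  have n0 : 0 < Module.finrank (ZMod q) V := Module.finrank_pos
  by_cases n1 : Module.finrank (ZMod q) V = 1
  · rw [n1, pow_one] at c4
    have d : Function.Injective (LinearEquiv.det.comp ρ) := (injective_iff_map_eq_one _).2 fun g a => hρ (by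
      obtain ⟨c, hc⟩ := exists_smul_eq_of_finrank_eq_one n1 hv (ρ g v)
      have e : (ρ g).toLinearMap = c • LinearMap.id := LinearMap.ext fun w => by
        obtain ⟨d, rfl⟩ := exists_smul_eq_of_finrank_eq_one n1 hv w
        simp [← hc, smul_comm c d]
      have f := congrArg Units.val a
      rw [MonoidHom.comp_apply, LinearEquiv.coe_det, e, LinearMap.det_smul, n1] at f
      rw [map_one]
      ext w
      simpa [show c = 1 by simpa using f] using LinearMap.congr_fun e w)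
    have e := card_dvd_of_injective _ d
    rw [Nat.card_units, Nat.card_zmod, show q - 1 = 2 ^ k by omega] at e
    exact .inr (.inl ⟨rfl, c4, ⟨k, by omega, Nat.dvd_antisymm e c2⟩, isCyclic_of_injective _ d⟩)
  obtain ⟨rfl, n2⟩ := num2 hq q2 (by omega) (c4.symm.trans c3)
  refine .inr (.inr ⟨rfl, rfl, by rw [c4, n2]; rfl, ?_⟩)
  let b := Module.finBasisOfFinrankEq (ZMod 3) V n2
  let μ : G →* Matrix (Fin 2) (Fin 2) (ZMod 3) := (LinearMap.toMatrixAlgEquiv b).toMonoidHom.comp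
    (LinearEquiv.automorphismGroup.toLinearMapMonoidHom.comp ρ)
  have m1 : ∀ g w, μ g *ᵥ b.equivFun w = b.equivFun (ρ g w) := fun g w => LinearMap.toMatrix_mulVec_repr b b _ w
  have m2 : Function.Injective μ.toHomUnits := fun g h a => hρ (LinearEquiv.ext fun w => b.equivFun.injective (by
    rw [← m1, ← m1, show μ g = μ h from congrArg Units.val a]))
  obtain ⟨π, -, hπ⟩ := Sn.conj_in Nat.prime_two (K := ⊤) (T := zpowers x ⊔ zpowers y) (Q := μ.toHomUnits.range) (by
    have := (zpowers x ⊔ zpowers y).card_mul_index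
    rw [cP, card_GL_field, ZMod.card] at this
    simp at this
    rw [relIndex_top_right]
    omega) le_top (hG.of_surjective _ μ.toHomUnits.rangeRestrict_surjective)
  refine core (ψ := (MulAut.conj π).toMonoidHom.comp μ.toHomUnits) ((MulAut.conj π).injective.comp m2)
    (by rintro _ ⟨g, rfl⟩; exact hπ _ ⟨g, rfl⟩) fun k _ => ?_
  have nz : ∀ u : GL (Fin 2) (ZMod 3), b.equivFun.symm (u.1 *ᵥ ![1, 0]) ≠ 0 := fun u a => by
    have c := congrArg ((u⁻¹).1 *ᵥ ·) (b.equivFun.symm.map_eq_zero_iff.1 a)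
    simp only [mulVec_mulVec, Units.inv_mul, one_mulVec, mulVec_zero] at c
    exact absurd (congrFun c 0) one_ne_zero
  obtain ⟨g, hg⟩ := htrans _ _ (nz π⁻¹) (nz (π⁻¹ * x ^ k))
  have := m1 g (b.equivFun.symm ((π⁻¹).1 *ᵥ ![1, 0]))
  rw [hg, b.equivFun.apply_symm_apply, b.equivFun.apply_symm_apply] at this
  refine ⟨g, ?_⟩
  change (π.1 * μ g * (π⁻¹).1) *ᵥ _ = _
  rw [← mulVec_mulVec, ← mulVec_mulVec, this, mulVec_mulVec, ← Units.val_mul, mul_inv_cancel_left]

end Cfsg.Agent.S3370
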