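import Mathlib
import Cfsg.Statements.S3376
import Cfsg.Agent.H9.BG40
import Cfsg.Agent.H1.Fitting
import Cfsg.Agent.H2.PG1

set_option autoImplicit false
open Cfsg

namespace Cfsg.Agent.S3376

open Subgroup CfsgH1 MulAction Equiv

theorem f162 : (162 : ℕ).factorization 3 = 4 ∧ (162 : ℕ).factorization 2 = 1 := by
  constructor <;> (rw [← Nat.primeFactorsList_count_eq]; simp)

/-- Let G be a group of order 162 = 3⁴·2 with Sylow 3-subgroup S and Sylow 2-subgroup T, having an elementary abelian normal subgroup J of order 27, such that Z = Z(S) has order 3, Z centralizes T, and C_S(T) ≠ S. Then G is isomorphic to the centralizer in Sym(9) of a product of three disjoint 3-cycles. -/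
theorem result {G : Type*} [Group G] [Finite G] (hG : Nat.card G = 162)
    (S : Sylow 3 G) (T : Sylow 2 G) (J : Subgroup G) [hJn : J.Normal] (hJcomm : IsMulCommutative J)
    (hJexp : ∀ a ∈ J, a ^ 3 = 1) (hJcard : Nat.card J = 27)
    (Z : Subgroup G) (hZ : Z = (S : Subgroup G) ⊓ Subgroup.centralizer ((S : Subgroup G) : Set G)) (hZcard : Nat.card Z = 3)
    (hZT : Z ≤ Subgroup.centralizer ((T : Subgroup G) : Set G))
    (hST : (S : Subgroup G) ⊓ Subgroup.centralizer ((T : Subgroup G) : Set G) ≠ S) :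
    Nonempty (G ≃* Subgroup.centralizer ({Equiv.swap (0 : Fin 9) 1 * Equiv.swap 1 2 * Equiv.swap 3 4 * Equiv.swap 4 5 * Equiv.swap 6 7 * Equiv.swap 7 8} : Set (Equiv.Perm (Fin 9)))) := by
  have : Fact (Nat.Prime 3) := ⟨Nat.prime_three⟩
  have cS : Nat.card (S : Subgroup G) = 81 := by rw [S.card_eq_multiplicity, hG, f162.1]; rfl
  have cT : Nat.card (T : Subgroup G) = 2 := by rw [T.card_eq_multiplicity, hG, f162.2]; rfl
  have nS : (S : Subgroup G).Normal := normal_of_index_eq_two (by
    have := (S : Subgroup G).card_mul_index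
    rw [cS, hG] at this
    omega)
  have top : (S : Subgroup G) ⊔ T = ⊤ := eq_top_of_card_eq _ (by
    rw [card_sup_of_coprime le_normalizer_of_normal (by rw [cS, cT]; decide), cS, cT, hG])
  have zc : ⊤ ≤ centralizer (Z : Set G) := top ▸ sup_le (le_centralizer_iff.1 (hZ ▸ inf_le_right)) (le_centralizer_iff.1 hZT)
  have key : ∀ N : Subgroup G, N.Normal → N ⊓ S ≠ ⊥ → Z ≤ N := fun N a b => by
    have c := CfsgH2.inf_cent_ne_bot' S.2 (S.2.to_le (inf_le_right (a := N))) le_normalizer_of_normal b
    rw [inf_assoc, ← hZ] at c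
    have d := card_dvd_of_le (inf_le_right : N ⊓ Z ≤ Z)
    rw [hZcard, Nat.dvd_prime Nat.prime_three, card_eq_one] at d
    exact inf_eq_right.1 (eq_of_le_of_card_ge inf_le_right (by rw [d.resolve_left c, hZcard]))
  have pJ : IsPGroup 3 J := IsPGroup.of_card (n := 3) hJcard
  have JS : J ≤ S := pJ.le_sylow_of_normal S
  have ZJ : Z ≤ J := key J hJn (by rw [inf_eq_left.2 JS, Ne, ← card_eq_one, hJcard]; decide)
  obtain ⟨U, u1, u2, u3⟩ := CfsgBG.maschke (p := 3) (A := T) ⟨hJcomm, hJexp⟩ ZJ le_normalizer_of_normal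
    ((le_top.trans zc).trans (centralizer_le_normalizer _)) (by rw [cT]; decide)
  have cU : Nat.card U = 9 := by
    have := card_sup_of_disjoint ((le_top.trans zc).trans (centralizer_le_normalizer _) : U ≤ _) u2
    rw [u3, hJcard, hZcard] at this
    omega
  have cH : Nat.card (U ⊔ T : Subgroup G) = 18 := by rw [card_sup_of_coprime u1 (by rw [cU, cT]; decide), cU, cT]
  have ZH : ¬ Z ≤ U ⊔ T := fun e => by
    have a : IsSylowIn 3 U (U ⊔ T) := ⟨le_sup_left, IsPGroup.of_card (n := 2) cU, by
      have := card_mul_relIndex (le_sup_left : U ≤ U ⊔ T)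
      rw [cU, cH] at this
      omega⟩
    have b := a.ge_of_normal (sup_le le_normalizer u1) (IsPGroup.of_card (n := 1) hZcard) e
    rw [inf_eq_left.2 b, ← card_eq_one, hZcard] at u2
    omega
  generalize U ⊔ T = H at cH ZH
  have core : H.normalCore = ⊥ := by
    by_contra e
    have a : H.normalCore ⊓ S = ⊥ := by_contra fun a => ZH ((key _ inferInstance a).trans H.normalCore_le)
    have b := card_sup_of_disjoint (le_normalizer_of_normal : (S : Subgroup G) ≤ _) a
    have c := card_le_of_le (le_top : H.normalCore ⊔ S ≤ _)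
    have d : 1 < Nat.card H.normalCore := (one_lt_card_iff_ne_bot _).2 e
    rw [card_top, hG, b, cS] at c
    have f : H.normalCore = T := eq_of_le_of_card_ge ((IsPGroup.of_card (n := 1) (by omega)).le_sylow_of_normal T) (by omega)
    refine hST (inf_eq_left.2 ?_)
    rw [← f]
    exact fun s hs t ht => (commute_of_normal_of_disjoint _ _ inferInstance nS (disjoint_iff.2 a) t s ht hs)
  have iH : Nat.card (G ⧸ H) = Nat.card (Fin 9) := by
    have := H.card_mul_index
    rw [cH, hG] at this
    rw [← index_eq_card, Nat.card_fin]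
    omega
  obtain ⟨e⟩ := Finite.card_eq.1 iH
  obtain ⟨z, z1, z2⟩ := SetLike.not_le_iff_exists.1 ZH
  have zz : ∀ g, z * g = g * z := fun g => zc (mem_top g) z z1
  let φ : G →* Perm (Fin 9) := e.permCongrHom.toMonoidHom.comp (toPermHom G (G ⧸ H))
  have inj : Function.Injective φ := e.permCongrHom.injective.comp ((toPermHom G (G ⧸ H)).ker_eq_bot_iff.1
    (H.normalCore_eq_ker.symm.trans core))
  have ct : (φ z).cycleType = {3, 3, 3} := by
    have a := Perm.cycleType_of_pow_prime_eq_one (σ := φ z) (p := 3) (by rw [← map_pow, hJexp z (ZJ z1), map_one])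
    have b : (φ z).support = Finset.univ := Finset.eq_univ_of_forall fun i => Perm.mem_support.2 fun c => by
      obtain ⟨g, hg⟩ := QuotientGroup.mk_surjective (e.symm i)
      have d : z • e.symm i = e.symm i := e.injective (by rw [e.apply_symm_apply]; exact c)
      rw [← hg, Quotient.smul_mk, QuotientGroup.eq, smul_eq_mul, zz] at d
      exact z2 (by simpa using d)
    have c := Perm.sum_cycleType (φ z)
    rw [a, b] at c
    simp at c
    rw [a, show (φ z).cycleType.card = 3 by omega]
    rfl
  generalize hc : (Equiv.swap (0 : Fin 9) 1 * Equiv.swap 1 2 * Equiv.swap 3 4 * Equiv.swap 4 5 * Equiv.swap 6 7 *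
    Equiv.swap 7 8) = c
  have ct' : c.cycleType = {3, 3, 3} := by rw [← hc]; decide +kernel
  obtain ⟨π, hπ⟩ := isConj_iff.1 (Perm.isConj_iff_cycleType_eq.2 (ct.trans ct'.symm))
  let ψ : G →* centralizer ({c} : Set (Perm (Fin 9))) := ((MulAut.conj π).toMonoidHom.comp φ).codRestrict _ fun g => by
    rw [mem_centralizer_singleton_iff, ← hπ]
    simp [mul_assoc, ← map_mul, zz]
    rw [← mul_assoc, ← map_mul, ← mul_assoc, ← map_mul, zz]
  refine ⟨MulEquiv.ofBijective ψ ((Nat.bijective_iff_injective_and_card _).2 ⟨fun a b h =>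
    inj ((MulAut.conj π).injective (congrArg Subtype.val h)), ?_⟩)⟩
  rw [hG, Perm.nat_card_centralizer, ct']
  decide

end Cfsg.Agent.S3376
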