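import Cfsg.Statements.S3389
import Cfsg.Agent.H3.Hv1
import Cfsg.Agent.H2.Frob
import Cfsg.Agent.H8.Gleason

set_option autoImplicit false
open Cfsg

namespace Cfsg.Agent.S3389
open Subgroup CfsgH2 MulAction

/-- Let G be a finite group acting faithfully and transitively on a finite set Ω with fixity k ≥ 1: every non-identity element fixes at most k points and some non-identity element fixes exactly k points. Then |Z(G)| divides k; if k = 2 then |G| is even; and for every prime p > k dividing |G| and every point α, either p does not divide |G_α| or G_α contains a Sylow p-subgroup of G. -/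
theorem result {G : Type*} [Group G] [Finite G] {Ω : Type*} [Fintype Ω] [MulAction G Ω] [FaithfulSMul G Ω]
    (htr : MulAction.IsPretransitive G Ω) (k : ℕ) (hk : 1 ≤ k)
    (hfix : ∀ g : G, g ≠ 1 → Nat.card (MulAction.fixedBy Ω g) ≤ k) (hex : ∃ g : G, g ≠ 1 ∧ Nat.card (MulAction.fixedBy Ω g) = k) :
    Nat.card (Subgroup.center G) ∣ k ∧ (k = 2 → 2 ∣ Nat.card G) ∧
      ∀ (p : ℕ), p.Prime → k < p → p ∣ Nat.card G → ∀ α : Ω,
        ¬ p ∣ Nat.card (MulAction.stabilizer G α) ∨ ¬ p ∣ (MulAction.stabilizer G α).index := by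
  obtain ⟨g, g1, hg⟩ := hex
  have le : ∀ P : Subgroup G, P ≠ ⊥ → Nat.card (fixedPoints P Ω) ≤ k := fun P hP => by
    obtain ⟨⟨x, hx⟩, x1⟩ := ne_bot_iff_exists_ne_one.1 hP
    exact (Nat.card_mono (s := fixedPoints P Ω) (t := fixedBy Ω x) (Set.toFinite _) fun a ha => ha ⟨x, hx⟩).trans (hfix x fun e => x1 (Subtype.ext e))
  refine ⟨?_, ?_, fun p hp kp hd α => ?_⟩
  · let S : SubMulAction (center G) Ω := ⟨fixedBy Ω g, fun z a ha => by
      show g • (z : G) • a = (z : G) • a
      rw [← mul_smul, mem_center_iff.1 z.2 g, mul_smul, show g • a = a from ha]⟩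
    rw [← hg]
    refine CfsgH8.card_dvd_of_semiregular (Ω := S) fun z a h => Subtype.ext (eq_of_smul_eq_smul (α := Ω) fun b => ?_)
    obtain ⟨c, rfl⟩ := exists_smul_eq G (a : Ω) b
    have h : (z : G) • (a : Ω) = a := congrArg Subtype.val h
    rw [← mul_smul, ← mem_center_iff.1 z.2 c, mul_smul, h]; simp
  · rintro rfl
    by_contra h2
    obtain ⟨p, hp, x, hx, ox⟩ : ∃ p : ℕ, p.Prime ∧ ∃ x ∈ zpowers g, orderOf x = p := by
      have := Nat.minFac_prime (n := orderOf g) (by simpa using g1)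
      exact ⟨_, this, exists_prime_order_mem this (by rw [Nat.card_zpowers]; exact Nat.minFac_dvd _)⟩
    haveI := Fact.mk hp
    have pd : p ∣ Nat.card G := ox ▸ orderOf_dvd_natCard x
    have p2 : p ≠ 2 := fun e => h2 (e ▸ pd)
    have x1 : x ≠ 1 := fun e => hp.one_lt.ne' (by rw [← ox, e, orderOf_one])
    have c1 : Nat.card (fixedBy Ω x) = 2 := le_antisymm (hfix x x1) (hg ▸ Nat.card_mono (Set.toFinite _) fun a ha => by
      obtain ⟨n, rfl⟩ := hx
      exact fixedBy_subset_fixedBy_zpow Ω g n ha)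
    have c2 := CfsgH8.card_modEq_card_fixedBy (Ω := Ω) hp (g := x) (k := 1) (by rw [pow_one, ← ox, pow_orderOf_eq_one])
    obtain ⟨P, hP⟩ := exists_syl p (⊤ : Subgroup G)
    have c3 := hP.pg.card_modEq_card_fixedPoints Ω
    have c4 := le P (hP.ne_bot (by rwa [card_top]))
    have c5 : Nat.card (fixedPoints P Ω) = 2 := by
      have c6 := (Nat.modEq_iff_dvd' c4).1 (c3.symm.trans (c1 ▸ c2))
      have := hp.two_le
      by_contra h
      have := Nat.le_of_dvd (by omega) c6
      omega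
    obtain ⟨a, b, ab, e⟩ := Set.ncard_eq_two.1 c5
    have st : ∀ c, c ∈ fixedPoints P Ω ↔ P ≤ stabilizer G c := fun c =>
      ⟨fun h y hy => h ⟨y, hy⟩, fun h y => h y.2⟩
    obtain ⟨c, rfl⟩ := exists_smul_eq G a b
    have ha : P ≤ stabilizer G a := (st _).1 (by rw [e]; simp)
    have hb : P ≤ stabilizer G (c • a) := (st _).1 (by rw [e]; simp)
    obtain ⟨l, hl, hn⟩ := hP.exists_norm_of_le (mem_top c) le_top hb (by
      rintro _ ⟨y, hy, rfl⟩
      simp [mem_stabilizer_iff, mul_smul, mem_stabilizer_iff.1 (ha hy)])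
    have n1 : (l * c) • a = c • a := by rw [mul_smul]; exact hl
    have n2 : (l * c) • c • a = a := by
      have : (l * c) • c • a ∈ fixedPoints P Ω := (st _).2 fun y hy => by
        have := hb ((mem_normalizer_iff''.1 hn y).1 hy)
        rw [mem_stabilizer_iff, mul_smul, mul_smul, inv_smul_eq_iff] at this
        exact this
      rw [e] at this
      refine this.resolve_right fun h => ab ?_
      exact smul_left_cancel (l * c) (n1.trans (Set.mem_singleton_iff.1 h).symm)
    have n3 : (l * c) ^ 2 ∈ stabilizer G a := by rw [mem_stabilizer_iff, sq, mul_smul, n1, n2]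
    have : l * c ∈ zpowers ((l * c) ^ 2) := mem_zpowers_pow_iff.2
      ((Nat.prime_two.coprime_iff_not_dvd).2 fun h => h2 (h.trans (orderOf_dvd_natCard _)))
    exact ab ((mem_stabilizer_iff.1 (zpowers_le.2 n3 this)).symm.trans n1)
  haveI := Fact.mk hp
  by_contra h
  push Not at h
  obtain ⟨P, hP⟩ := exists_syl p (stabilizer G α)
  obtain ⟨Q, hQ, PQ⟩ := exists_syl_ge hP.pg le_top
  have lt : P < Q := lt_of_le_of_ne PQ fun e => (e ▸ hQ).not_dvd_of_le hP.le (by rw [relIndex_top_right]; exact h.2)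
  have lt2 := lt_inf_norm hQ.pg.isNilpotent lt
  have hR : IsPGroup p (Q ⊓ N[P] : Subgroup G) := hQ.pg.to_le inf_le_left
  refine lt2.ne' (hP.eq_of_le hR lt2.le fun y hy => ?_)
  obtain ⟨j, hj⟩ := hR.card_orbit α
  have : Nat.card (orbit (Q ⊓ N[P] : Subgroup G) α) ≤ k := (Nat.card_mono (Set.toFinite _) (by
    rintro _ ⟨z, rfl⟩ w
    have := hP.le ((mem_normalizer_iff''.1 z.2.2 w).1 w.2)
    rw [mem_stabilizer_iff, mul_smul, mul_smul, inv_smul_eq_iff] at this
    exact this)).trans (le P (hP.ne_bot h.1))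
  have j0 : j = 0 := by
    by_contra j0
    have := Nat.le_self_pow j0 p
    omega
  rw [j0, pow_zero] at hj
  exact congrArg Subtype.val ((Nat.card_eq_one_iff_unique.1 hj).1.elim ⟨_, mem_orbit α ⟨y, hy⟩⟩ ⟨α, mem_orbit_self α⟩)


end Cfsg.Agent.S3389
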