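import Mathlib
import Cfsg.Statements.S3391
import Cfsg.Agent.H8.Sz8

set_option autoImplicit false
open Cfsg

namespace Cfsg.Agent.S3391

open CfsgH8.SzG CfsgH8 MulAction Subgroup

theorem aux {F : Type*} [Field F] [Fintype F] {m : ℕ} [SzF F m] {Ω : Type*} [Fintype Ω]
    [MulAction (Cfsg.Sz F m) Ω] (htr : IsPretransitive (Cfsg.Sz F m) Ω)
    (hfix : ∀ g : Cfsg.Sz F m, g ≠ 1 → Nat.card (fixedBy Ω g) ≤ 2)
    (hex : ∃ g : Cfsg.Sz F m, g ≠ 1 ∧ Nat.card (fixedBy Ω g) = 2) :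
    (Fintype.card Ω = Fintype.card F ^ 2 + 1 ∧ IsMultiplyPretransitive (Cfsg.Sz F m) Ω 2) ∨
    (Fintype.card Ω = Fintype.card F ^ 2 * (Fintype.card F ^ 2 + 1) ∧
      ∀ α : Ω, Nat.card (stabilizer (Cfsg.Sz F m) α) = Fintype.card F - 1) := by
  have hi : ∀ α : Ω, ∀ X : Subgroup (Cfsg.Sz F m), X ≤ stabilizer _ α → X ≠ ⊥ →
      (stabilizer (Cfsg.Sz F m) α).relIndex (normalizer (X : Set (Cfsg.Sz F m))) ≤ 2 := by
    intro α X hX h0
    obtain ⟨⟨x, hx⟩, h1⟩ := Subgroup.ne_bot_iff_exists_ne_one.1 h0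
    refine le_trans ?_ (hfix x fun h2 => h1 (Subtype.ext h2))
    change (stabilizer (normalizer (X : Set (Cfsg.Sz F m))) α).index ≤ _
    rw [index_stabilizer, Nat.card_coe_set_eq]
    refine Set.ncard_le_ncard ?_
    rintro _ ⟨⟨g, hg⟩, rfl⟩
    change x • g • α = g • α
    rw [← inv_smul_eq_iff, ← mul_smul, ← mul_smul]
    exact hX (CfsgH2.conj_mem_of_norm' hg hx)
  obtain ⟨g, hg1, hg⟩ := hex
  have hnt : Nontrivial (fixedBy Ω g) := Finite.one_lt_card_iff_nontrivial.1 (by omega)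
  obtain ⟨⟨α, hα⟩, ⟨β, hβ⟩, hαβ⟩ := hnt
  have hαβ' : α ≠ β := fun h0 => hαβ (Subtype.ext h0)
  have hcard : ∀ γ : Ω, Nat.card (stabilizer (Cfsg.Sz F m) γ) = Nat.card (stabilizer (Cfsg.Sz F m) α) := by
    intro γ
    have h1 := card_eq_mul_stabilizer (G := Cfsg.Sz F m) γ
    rw [card_eq_mul_stabilizer (G := Cfsg.Sz F m) α] at h1
    haveI : Nonempty Ω := ⟨α⟩
    exact (Nat.eq_of_mul_eq_mul_left Nat.card_pos h1).symm
  have hq := q_ge (F := F) (m := m)
  by_cases h2 : 2 ∣ Nat.card (stabilizer (Cfsg.Sz F m) α)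
  · left
    obtain ⟨z, hz, hzo⟩ := CfsgH2.exists_prime_order_mem Nat.prime_two h2
    obtain ⟨hz1, k, hk⟩ := cls_U_of_even (g := z) (by rw [hzo])
    have hB : stabilizer (Cfsg.Sz F m) (k • α) = B F m := by
      refine eq_B_of_index (fun h0 => ?_) (z := k * z * k⁻¹) ?_ (mem_ZU_of_sq hk ?_)
        (conj_ne_one k hz1) (hi _)
      · have key : ∀ γ, γ = k • α := fun γ => by
          obtain ⟨c, rfl⟩ := exists_smul_eq (Cfsg.Sz F m) (k • α) γ
          exact (h0 ▸ mem_top c : c ∈ stabilizer (Cfsg.Sz F m) (k • α))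
        exact hαβ' ((key α).trans (key β).symm)
      · rw [mem_stabilizer_iff, mul_smul, mul_smul, inv_smul_smul, hz]
      · rw [conj_pow, ← hzo, pow_orderOf_eq_one]; simp
    have key : ∀ a b : Cfsg.Sz F m, a • k • α = b • k • α ↔ a • inf F m = b • inf F m := fun a b => by
      rw [← inv_smul_eq_iff, ← mul_smul, ← mem_stabilizer_iff, hB, mem_stabilizer_iff, mul_smul,
        inv_smul_eq_iff]
    constructor
    · rw [← Nat.card_eq_fintype_card, ← index_stabilizer_of_transitive (Cfsg.Sz F m) (k • α), hB,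
        index_stabilizer_of_transitive, card_ovoid]
    · rw [is_two_pretransitive_iff]
      intro x y z t hxy hzt
      obtain ⟨a, rfl⟩ := exists_smul_eq (Cfsg.Sz F m) (k • α) x
      obtain ⟨b, rfl⟩ := exists_smul_eq (Cfsg.Sz F m) (k • α) y
      obtain ⟨c, rfl⟩ := exists_smul_eq (Cfsg.Sz F m) (k • α) z
      obtain ⟨d, rfl⟩ := exists_smul_eq (Cfsg.Sz F m) (k • α) t
      obtain ⟨s, h1, h2⟩ := two_trans (mt (key _ _).2 hxy) (mt (key _ _).2 hzt)
      exact ⟨s, by rw [← mul_smul, key, mul_smul, h1], by rw [← mul_smul, key, mul_smul, h2]⟩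
  · right
    have h3 := odd_index (fun h0 => hg1 (by rwa [← mem_bot, ← h0])) h2 (hi α)
    refine ⟨?_, fun γ => (hcard γ).trans h3⟩
    have h1 := card_eq_mul_stabilizer (G := Cfsg.Sz F m) α
    rw [card_sz, h3, Nat.card_eq_fintype_card] at h1
    exact (Nat.eq_of_mul_eq_mul_right (by omega) h1).symm

/-- Let q = 2^{2m+1} ≥ 8 and let G be isomorphic to the Suzuki group Sz(q). If G acts faithfully and transitively on a finite set Ω with fixity 2 (every non-identity element fixes at most two points, and some fixes exactly two), then either |Ω| = q² + 1 and the action is 2-transitive, or |Ω| = q²(q² + 1) and the point stabilizers have order q − 1. -/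
theorem result {G : Type*} [Group G] [Finite G] (F : Type) [Field F] [Fintype F] (m : ℕ) (hm : 1 ≤ m) (hF : Fintype.card F = 2 ^ (2 * m + 1))
    (e : G ≃* ↥(Cfsg.Lie.Sz F (2 ^ (m + 1)))) {Ω : Type*} [Fintype Ω] [MulAction G Ω] [FaithfulSMul G Ω] (htr : MulAction.IsPretransitive G Ω)
    (hfix : ∀ g : G, g ≠ 1 → Nat.card (MulAction.fixedBy Ω g) ≤ 2) (hex : ∃ g : G, g ≠ 1 ∧ Nat.card (MulAction.fixedBy Ω g) = 2) :
    (Fintype.card Ω = Fintype.card F ^ 2 + 1 ∧ MulAction.IsMultiplyPretransitive G Ω 2) ∨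
    (Fintype.card Ω = Fintype.card F ^ 2 * (Fintype.card F ^ 2 + 1) ∧ ∀ α : Ω, Nat.card (MulAction.stabilizer G α) = Fintype.card F - 1) := by
  haveI : CfsgH8.SzG.SzF F m := ⟨hm, hF⟩
  let φ : Cfsg.Sz F m ≃* G := (lieEquiv F m).trans e.symm
  letI : MulAction (Cfsg.Sz F m) Ω := MulAction.compHom Ω φ.toMonoidHom
  have hs : ∀ (g : Cfsg.Sz F m) (a : Ω), g • a = φ g • a := fun _ _ => rfl
  rcases aux (F := F) (m := m) (Ω := Ω) ⟨fun a b => by
      obtain ⟨g, hg⟩ := htr.exists_smul_eq a b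
      exact ⟨φ.symm g, by rw [hs, φ.apply_symm_apply, hg]⟩⟩
    (fun g hg => hfix (φ g) (by simpa using hg)) (by
      obtain ⟨g, h1, h2⟩ := hex
      obtain ⟨k, rfl⟩ := φ.surjective g
      exact ⟨k, by simpa using h1, h2⟩) with h1 | h1
  · refine Or.inl ⟨h1.1, is_two_pretransitive_iff.2 fun h2 h3 => ?_⟩
    obtain ⟨g, hg⟩ := is_two_pretransitive_iff.1 h1.2 h2 h3
    exact ⟨φ g, hg⟩
  · refine Or.inr ⟨h1.1, fun a => ?_⟩
    rw [← h1.2 a]
    exact (Nat.card_congr (φ.toEquiv.subtypeEquiv fun g => Iff.rfl)).symm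

end Cfsg.Agent.S3391
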