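import Mathlib
import Cfsg.Statements.S3504

set_option autoImplicit false
open Cfsg

namespace Cfsg.Agent.S3504

open Equiv Perm

theorem ct {n p : ℕ} {g : Perm (Fin n)} (hp : p.Prime) (h : orderOf g = p) (f : ∀ i, g i ≠ i) :
    p ∣ n ∧ g.cycleType = Multiset.replicate (n / p) p := by
  obtain ⟨k, hk⟩ := cycleType_prime_order (h ▸ hp)
  have := g.sum_cycleType
  rw [hk, h, Finset.eq_univ_of_forall fun i => mem_support.2 (f i), Multiset.sum_replicate, Finset.card_fin] at this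
  exact ⟨⟨k + 1, by rw [← this, mul_comm]; rfl⟩, by rw [hk, h, ← this, smul_eq_mul, Nat.mul_div_cancel _ hp.pos]⟩

theorem ex {n p : ℕ} (hn : n ≠ 0) (hp : p.Prime) (d : p ∣ n) : ∃ g : Perm (Fin n), orderOf g = p ∧ ∀ i, g i ≠ i := by
  obtain ⟨g, hg⟩ := (exists_with_cycleType_iff (α := Fin n) (m := Multiset.replicate (n / p) p)).2
    ⟨by simp [Nat.div_mul_cancel d], fun a h => Multiset.eq_of_mem_replicate h ▸ hp.two_le⟩
  haveI := Fact.mk hp
  have := g.sum_cycleType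
  rw [hg, Multiset.sum_replicate, smul_eq_mul, Nat.div_mul_cancel d] at this
  have s : g.support = Finset.univ := Finset.eq_univ_of_card _ (by simp [← this])
  refine ⟨g, orderOf_eq_prime (pow_prime_eq_one_iff.2 fun a h => Multiset.eq_of_mem_replicate (hg ▸ h)) ?_,
    fun i => mem_support.1 (s ▸ Finset.mem_univ i)⟩
  rintro rfl
  simp [hn] at this

/-- For n ≥ 5, the fixed-point-free permutations of prime order in the symmetric group of degree n form a single conjugacy class if and only if n is a prime power. -/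
theorem result (n : ℕ) (hn : 5 ≤ n) :
    Nat.card {c : ConjClasses (Equiv.Perm (Fin n)) // ∃ g : Equiv.Perm (Fin n), ConjClasses.mk g = c ∧ (orderOf g).Prime ∧ ∀ i : Fin n, g i ≠ i} = 1 ↔ IsPrimePow n := by
  rw [isPrimePow_iff_unique_prime_dvd, Nat.card_eq_one_iff_exists]
  refine ⟨fun ⟨⟨_, g, rfl, h, f⟩, u⟩ => ⟨_, ⟨h, (ct h rfl f).1⟩, fun p ⟨hp, d⟩ => ?_⟩, fun ⟨p, ⟨hp, d⟩, u⟩ => ?_⟩
  · obtain ⟨k, rfl, f'⟩ := ex (by omega) hp d
    obtain ⟨c, rfl⟩ := isConj_iff.1 (ConjClasses.mk_eq_mk_iff_isConj.1 (congrArg Subtype.val (u ⟨_, k, rfl, hp, f'⟩)))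
    exact ((MulAut.conj c).orderOf_eq k).symm
  · obtain ⟨g, rfl, f⟩ := ex (by omega) hp d
    refine ⟨⟨_, g, rfl, hp, f⟩, fun ⟨_, k, rfl, h, f'⟩ => Subtype.ext (ConjClasses.mk_eq_mk_iff_isConj.2 ?_)⟩
    rw [isConj_iff_cycleType_eq, (ct h rfl f').2, (ct hp rfl f).2, u _ ⟨h, (ct h rfl f').1⟩]

end Cfsg.Agent.S3504
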