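import Mathlib
import Cfsg.Statements.S3508

set_option autoImplicit false
open Cfsg

namespace Cfsg.Agent.S3508

open Polynomial

theorem lin {p : ℕ} [Fact p.Prime] {V : Type*} [AddCommGroup V] [Module (ZMod p) V] [Finite V] (A : Module.End (ZMod p) V)
    {r s : ℕ} (h : A ^ p ^ r = 1) (l : Module.finrank (ZMod p) V < p ^ s) :
    A ^ p ^ s = 1 ∧ ∑ i ∈ Finset.range (p ^ s), A ^ i = 0 := by
  have k : ∀ r, (X - 1 : (ZMod p)[X]) ^ p ^ r = X ^ p ^ r - 1 := fun r => by rw [sub_pow_char_pow, one_pow]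
  have k' : ∀ r, (A - 1) ^ p ^ r = A ^ p ^ r - 1 := fun r => by simpa using congrArg (aeval A) (k r)
  have n : (A - 1) ^ Module.finrank (ZMod p) V = 0 := by
    simpa [(LinearMap.isNilpotent_iff_charpoly _).1 ⟨_, (k' r).trans (sub_eq_zero.2 h)⟩] using (A - 1).aeval_self_charpoly
  have e : ∑ i ∈ Finset.range (p ^ s), (X : (ZMod p)[X]) ^ i = (X - 1) ^ (p ^ s - 1) :=
    mul_right_cancel₀ (X_sub_C_ne_zero 1) (by rw [C_1, geom_sum_mul, ← pow_succ, Nat.sub_add_cancel (by omega), k])
  exact ⟨sub_eq_zero.1 ((k' s).symm.trans (pow_eq_zero_of_le l.le n)), by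
    simpa [pow_eq_zero_of_le (Nat.le_sub_one_of_lt l) n] using congrArg (aeval A) e⟩

theorem aux {G V : Type*} [Group G] [CommGroup V] [Finite V] {p m r s : ℕ} [hp : Fact p.Prime] (ex : ∀ v : V, v ^ p = 1)
    (c : Nat.card V = p ^ m) (ι : V →* G) (a : G →* MulAut V) (h : ∀ g v, ι (a g v) = g * ι v * g⁻¹) {g : G} (hg : g ^ p ^ r = 1)
    (l : m < p ^ s) : (∀ v, a (g ^ p ^ s) v = v) ∧ ∀ v, (ι v * g) ^ p ^ s = g ^ p ^ s := by
  haveI : Module (ZMod p) (Additive V) := AddCommGroup.zmodModule fun x => ex x.toMul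
  let A : G →* Module.End (ZMod p) (Additive V) :=
    ⟨⟨fun g => (a g).toMonoidHom.toAdditive.toZModLinearMap p, by ext; simp⟩, fun a b => by ext; simp⟩
  have d : Module.finrank (ZMod p) (Additive V) = m := Nat.pow_right_injective hp.out.two_le (by
    simpa using (Module.natCard_eq_pow_finrank (K := ZMod p) (V := Additive V)).symm.trans c)
  obtain ⟨h1, h2⟩ := lin (A g) (r := r) (by rw [← map_pow, hg, map_one]) (d ▸ l)
  have k : ∀ (n : V) (k : ℕ), (ι n * g) ^ k = ι ((∑ i ∈ Finset.range k, A g ^ i) (.ofMul n)).toMul * g ^ k := fun n k => by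
    induction k with
    | zero => simp
    | succ k ih =>
      rw [pow_succ, ih, Finset.sum_range_succ, LinearMap.add_apply, ← map_pow, toMul_add, map_mul,
        show ι (A (g ^ k) (.ofMul n)).toMul = _ from h _ n]
      simp [mul_assoc, pow_succ]
  exact ⟨fun v => LinearMap.congr_fun ((map_pow A g _).trans h1) (.ofMul v), fun v => by simp [k, h2]⟩

/-- Let a finite group G act faithfully on a set Ω with p ^ m points (p prime) and have an elementary abelian normal p-subgroup N acting regularly on Ω (so G is a group of affine transformations of an m-dimensional space over the field with p elements). If G contains an element of order p ^ r with r ≥ 1, then p ^ (r − 1) ≤ m. In particular an element of order p ^ m forces m ≤ 2, and m ≤ 1 when p is odd. -/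
theorem result {G : Type*} [Group G] [Finite G] {Ω : Type*} [Fintype Ω] [MulAction G Ω] [FaithfulSMul G Ω] (p m : ℕ) (hp : p.Prime) (hcard : Fintype.card Ω = p ^ m)
    (N : Subgroup G) [N.Normal] (hNc : IsMulCommutative N) (hNp : ∀ n ∈ N, n ^ p = 1)
    (hNtr : MulAction.IsPretransitive N Ω) (hNreg : ∀ ω : Ω, MulAction.stabilizer N ω = ⊥)
    (g : G) (r : ℕ) (hr : 1 ≤ r) (hg : orderOf g = p ^ r) :
    p ^ (r - 1) ≤ m ∧ (r = m → m ≤ 2 ∧ (2 < p → m ≤ 1)) := by
  haveI := Fact.mk hp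
  suffices h : p ^ (r - 1) ≤ m by
    refine ⟨h, fun e => ?_⟩
    subst e
    have k : ∀ p n : ℕ, 2 ≤ p → p ^ n ≤ n + 1 → n ≤ 1 ∧ (2 < p → n = 0) := fun p n l h => by
      obtain _ | _ | n := n
      · simp
      · simp at h; omega
      have := Nat.pow_le_pow_left l (n + 2)
      have := @Nat.lt_two_pow_self (n + 1)
      change p ^ (n + 2) ≤ _ at h
      rw [pow_succ 2 (n + 1)] at *
      omega
    have := k p (r - 1) hp.two_le (by omega)
    omega
  by_contra! l
  obtain ⟨ω⟩ : Nonempty Ω := Fintype.card_pos_iff.1 (hcard ▸ pow_pos hp.pos m)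
  have c : Nat.card N = p ^ m := by
    rw [← hcard, ← Nat.card_eq_fintype_card, ← MulAction.index_stabilizer_of_transitive N ω, hNreg, Subgroup.index_bot]
  letI : CommGroup N := { (inferInstance : Group N) with mul_comm := hNc.1.1 }
  obtain ⟨h1, h2⟩ := aux (fun v => Subtype.ext (hNp _ v.2)) c N.subtype MulAut.conjNormal (fun _ _ => rfl)
    (hg ▸ pow_orderOf_eq_one g) l
  obtain ⟨n, hn⟩ := MulAction.exists_smul_eq N (g • ω) ω
  have f : g ^ p ^ (r - 1) • ω = ω := h2 n ▸
    MulAction.mem_stabilizer_iff.1 (pow_mem (MulAction.mem_stabilizer_iff.2 ((mul_smul n.1 g ω).trans hn)) (p ^ (r - 1)))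
  have : g ^ p ^ (r - 1) = 1 := eq_of_smul_eq_smul fun x : Ω => by
    obtain ⟨u, rfl⟩ := MulAction.exists_smul_eq N ω x
    have : g ^ p ^ (r - 1) * u * (g ^ p ^ (r - 1))⁻¹ = u := congrArg Subtype.val (h1 u)
    rw [one_smul, Subgroup.smul_def, ← mul_smul, mul_inv_eq_iff_eq_mul.1 this, mul_smul, f]
  have := (Nat.pow_dvd_pow_iff_le_right hp.one_lt).1 (hg ▸ orderOf_dvd_of_pow_eq_one this)
  omega

end Cfsg.Agent.S3508
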