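import Mathlib
import Cfsg.Statements.S3511

set_option autoImplicit false
open Cfsg

namespace Cfsg.Agent.S3511


/-- Let a finite group G act faithfully on a set Ω. If every element of G of square-free order has a regular cycle (an orbit of the cyclic group it generates with trivial stabilizer), then every element of G has a regular cycle. -/
theorem result {G : Type*} [Group G] [Finite G] {Ω : Type*} [MulAction G Ω] [FaithfulSMul G Ω]
    (h : ∀ g : G, Squarefree (orderOf g) → ∃ ω : Ω, MulAction.stabilizer (Subgroup.zpowers g) ω = ⊥) (g : G) :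
    ∃ ω : Ω, MulAction.stabilizer (Subgroup.zpowers g) ω = ⊥ := by
  have hpos := orderOf_pos g
  set n := orderOf g with hn
  set r := ∏ p ∈ n.primeFactors, p with hr
  have hrn : r ∣ n := Nat.prod_primeFactors_dvd n
  have hord : orderOf (g ^ (n / r)) = r := orderOf_pow_orderOf_div hpos.ne' hrn
  obtain ⟨ω, hω⟩ := h (g ^ (n / r)) (by
    rw [hord]
    exact Finset.squarefree_prod_of_pairwise_isCoprime (fun p hp q hq hpq => by
      exact Nat.coprime_iff_isRelPrime.mp ((Nat.coprime_primes (Nat.prime_of_mem_primeFactors hp)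
        (Nat.prime_of_mem_primeFactors hq)).mpr hpq))
      fun p hp => (Nat.prime_of_mem_primeFactors hp).squarefree)
  refine ⟨ω, ?_⟩
  by_contra hne
  obtain ⟨p, hp, hpd⟩ := Nat.exists_prime_and_dvd
    (show Nat.card (MulAction.stabilizer (Subgroup.zpowers g) ω) ≠ 1 from
      fun h => hne (Subgroup.eq_bot_of_card_eq _ h))
  have := Fact.mk hp
  obtain ⟨x, hx⟩ := exists_prime_orderOf_dvd_card' p hpd
  rw [← Subgroup.orderOf_coe, ← Subgroup.orderOf_coe] at hx
  obtain ⟨⟨_, k, rfl⟩, hx2⟩ := x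
  replace hx : orderOf (g ^ k) = p := hx
  have hpn : p ∣ n := by
    rw [← hx]
    exact orderOf_dvd_of_mem_zpowers ⟨k, rfl⟩
  have hpr : p ∣ r := Finset.dvd_prod_of_mem _ (by simp [hp, hpn, hpos.ne'])
  have h1 : (n : ℤ) ∣ k * p := by
    rw [hn, orderOf_dvd_iff_zpow_eq_one, zpow_mul, zpow_natCast, ← hx, pow_orderOf_eq_one]
  have h2 : ((n / r : ℕ) : ℤ) ∣ k := by
    obtain ⟨s, hs⟩ := hpr
    obtain ⟨m, hm⟩ := hrn
    have hr0 : 0 < r := Nat.pos_of_dvd_of_pos ⟨m, hm⟩ hpos
    rw [show n / r = m by rw [hm]; exact Nat.mul_div_cancel_left m hr0]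
    rw [hm, hs] at h1
    have : (m : ℤ) * p ∣ k * p := dvd_trans ⟨s, by push_cast; ring⟩ h1
    exact (mul_dvd_mul_iff_right (by exact_mod_cast hp.ne_zero)).mp this
  obtain ⟨j, hj⟩ := h2
  have : (⟨g ^ k, j, by simp only [hj, zpow_mul, zpow_natCast]⟩ : Subgroup.zpowers (g ^ (n / r))) ∈
      MulAction.stabilizer (Subgroup.zpowers (g ^ (n / r))) ω := hx2
  rw [hω, Subgroup.mem_bot, Subtype.ext_iff] at this
  have h3 : g ^ k = 1 := this
  simp only [h3, orderOf_one] at hx
  exact hp.one_lt.ne hx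

end Cfsg.Agent.S3511
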