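import Cfsg.Statements.S3514
import Cfsg.Agent.H1.Misc1
import Cfsg.Agent.H2.BG0

set_option autoImplicit false
open Cfsg

namespace Cfsg.Agent.S3514

/-- Let p be a prime, V a finite vector space over the field with p elements, and H a group of linear transformations of V all of whose orbits on V have size coprime to p. (i) Every normal subgroup K of H has all its orbits on V of size coprime to p. (ii) If N is a group of linear transformations of V of order coprime to p that is normalized by H, then the group generated by N and H has all its orbits on V of size coprime to p. -/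
theorem result (p : ℕ) [Fact p.Prime] {V : Type*} [AddCommGroup V] [Module (ZMod p) V] [Finite V]
    (H : Subgroup (V ≃ₗ[ZMod p] V)) (hH : ∀ v : V, ¬ p ∣ Nat.card {u : V | ∃ h ∈ H, h v = u}) :
    (∀ K : Subgroup (V ≃ₗ[ZMod p] V), K ≤ H → H ≤ Subgroup.normalizer (K : Set (V ≃ₗ[ZMod p] V)) →
        ∀ v : V, ¬ p ∣ Nat.card {u : V | ∃ k ∈ K, k v = u}) ∧
    (∀ N : Subgroup (V ≃ₗ[ZMod p] V), ¬ p ∣ Nat.card N → H ≤ Subgroup.normalizer (N : Set (V ≃ₗ[ZMod p] V)) →
        ∀ v : V, ¬ p ∣ Nat.card {u : V | ∃ x ∈ N ⊔ H, x v = u}) := by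
  open Subgroup CfsgH2 in
  open CfsgH1 hiding card_inf_mul_relIndex card_lt_of_lt card_lt_of_ne_top card_map_mul_card_inf_ker card_mul_relIndex card_subgroupOf card_sup_dvd card_sup_mul_card_inf coprime_le_sup_cent exists_card_prime_le isNilpotent_map isNilpotent_of_le isPGroup_pCore isSolvable_map isSolvable_of_le le_pCore le_pPrimeCore relIndex_map_dvd in
  open scoped CfsgH1 in
  open scoped commutatorElement in
  · haveI : Finite (V ≃ₗ[ZMod p] V) := Finite.of_injective (fun f : V ≃ₗ[ZMod p] V => (f : V → V)) DFunLike.coe_injective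
    have k : ∀ (K : Subgroup (V ≃ₗ[ZMod p] V)) (v : V), Nat.card {u : V | ∃ k ∈ K, k v = u} = (MulAction.stabilizer _ v).relIndex K := fun K v => by
      refine Eq.trans ?_ (MulAction.index_stabilizer K v).symm
      exact congrArg Set.ncard (Set.ext fun u => ⟨fun ⟨k, a, b⟩ => ⟨⟨k, a⟩, b⟩, fun ⟨k, b⟩ => ⟨k, k.2, b⟩⟩)
    simp only [k] at hH ⊢
    refine ⟨fun K l n v c => hH v (c.trans (relIndex_dvd_of_sn (.of_normal l n) _)), fun N c n v d => ?_⟩
    obtain ⟨P, hP⟩ := exists_syl (p := p) (H ⊓ MulAction.stabilizer _ v)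
    have h1 := hP.trans inf_le_left (by rw [inf_relIndex_left]; exact hH v)
    exact ((h1.sup_coprime (Or.inl n) c).not_dvd_of_le (hP.le.trans inf_le_right)) (sup_comm N H ▸ d)

end Cfsg.Agent.S3514
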