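import Mathlib
import Cfsg.Statements.S3516

set_option autoImplicit false
open Cfsg

namespace Cfsg.Agent.S3516

theorem aff {K V : Type*} [Field K] [AddCommGroup V] [Module K V] (h2 : (2 : K) ≠ 0) (σ : Equiv.Perm V)
    (h : ∀ t : Fin 3 → V, ∃ (A : V ≃ₗ[K] V) (b : V), ∀ i, σ (t i) = A (t i) + b) :
    ∃ (A : V ≃ₗ[K] V) (b : V), ∀ x, σ x = A x + b := by
  have k : ∀ (x y : V) (c : K), σ (x + c • (y - x)) = σ x + c • (σ y - σ x) := fun x y c => by
    obtain ⟨A, b, e⟩ := h ![x, y, x + c • (y - x)]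
    rw [show σ x = _ from e 0, show σ y = _ from e 1, show σ (x + c • (y - x)) = _ from e 2]
    simp [add_right_comm]
  have s : ∀ (c : K) (y : V), σ (c • y) - σ 0 = c • (σ y - σ 0) := fun c y => by simpa [sub_eq_iff_eq_add'] using k 0 y c
  refine ⟨.ofBijective ⟨⟨fun x => σ x - σ 0, fun x y => ?_⟩, s⟩ ((Equiv.subRight (σ 0)).bijective.comp σ.bijective), σ 0,
    fun x => (sub_add_cancel _ _).symm⟩
  rw [show x + y = (2 : K) • (x + (2⁻¹ : K) • (y - x)) by rw [smul_add, smul_inv_smul₀ h2, two_smul]; abel, s, k, smul_sub,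
    smul_add, smul_inv_smul₀ h2, two_smul, two_smul]
  abel

/-- Let p be an odd prime, d ≥ 3, and G a group of affine permutations x ↦ Ax + b of V = F_p^d containing all translations and all maps x ↦ Ax with A of determinant 1. Then the 3-closure of G is the full affine group: a permutation σ of V agrees on every triple of points with some element of G if and only if σ is an affine map. -/
theorem result (p : ℕ) [Fact p.Prime] (hp : p ≠ 2) (d : ℕ) (hd : 3 ≤ d) (G : Subgroup (Equiv.Perm (Fin d → ZMod p)))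
    (haff : (G : Set (Equiv.Perm (Fin d → ZMod p))) ⊆ {τ : Equiv.Perm (Fin d → ZMod p) | ∃ (A : (Fin d → ZMod p) ≃ₗ[ZMod p] (Fin d → ZMod p)) (b : Fin d → ZMod p), ∀ x, τ x = A x + b})
    (htrans : ∀ b : Fin d → ZMod p, ∃ g ∈ G, ∀ x, g x = x + b)
    (hsl : ∀ A : (Fin d → ZMod p) ≃ₗ[ZMod p] (Fin d → ZMod p), LinearMap.det (A : (Fin d → ZMod p) →ₗ[ZMod p] (Fin d → ZMod p)) = 1 → ∃ g ∈ G, ∀ x, g x = A x)
    (σ : Equiv.Perm (Fin d → ZMod p)) :
    (∀ t : Fin 3 → (Fin d → ZMod p), ∃ g ∈ G, ∀ i, σ (t i) = g (t i)) ↔ σ ∈ {τ : Equiv.Perm (Fin d → ZMod p) | ∃ (A : (Fin d → ZMod p) ≃ₗ[ZMod p] (Fin d → ZMod p)) (b : Fin d → ZMod p), ∀ x, τ x = A x + b} := by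
  refine ⟨fun h => aff (Ring.two_ne_zero (by rwa [ZMod.ringChar_zmod_n])) σ fun t => ?_, fun ⟨A, b, e⟩ t => ?_⟩
  · obtain ⟨g, hg, e⟩ := h t
    obtain ⟨A, b, e'⟩ := haff hg
    exact ⟨A, b, fun i => (e i).trans (e' _)⟩
  classical
  obtain ⟨f, f0, hf⟩ := (Submodule.span (ZMod p) {t 1 - t 0, t 2 - t 0}).exists_le_ker_of_lt_top
    (span_lt_top_of_card_lt_finrank (by
      rw [Set.toFinset_insert, Set.toFinset_singleton, Module.finrank_fin_fun]; exact Finset.card_le_two.trans_lt hd))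
  obtain ⟨w, hw⟩ := LinearMap.surjective_iff_ne_zero.2 f0 ((LinearEquiv.det A)⁻¹.1 - 1)
  have u : IsUnit (1 + f w) := by rw [hw, add_sub_cancel]; exact Units.isUnit _
  obtain ⟨g, hg, e1⟩ := hsl ((LinearEquiv.dilatransvection u).trans A) (by
    rw [LinearEquiv.coe_trans, LinearMap.det_comp, LinearEquiv.dilatransvection.coe_toLinearMap, LinearMap.transvection.det, hw,
      ← LinearEquiv.coe_det, add_sub_cancel, Units.mul_inv])
  obtain ⟨k, hk, e2⟩ := htrans (b - f (t 0) • A w)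
  refine ⟨k * g, mul_mem hk hg, fun i => ?_⟩
  have : f (t i) = f (t 0) := by
    have h1 : f (t 1 - t 0) = 0 := hf (Submodule.subset_span (.inl rfl))
    have h2 : f (t 2 - t 0) = 0 := hf (Submodule.subset_span (.inr rfl))
    rw [map_sub, sub_eq_zero] at h1 h2
    fin_cases i
    exacts [rfl, h1, h2]
  simp [e, e1, e2, LinearEquiv.dilatransvection.apply, this]

end Cfsg.Agent.S3516
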