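import Mathlib
import Cfsg.Statements.S3515
import Cfsg.Agent.S3516

set_option autoImplicit false
open Cfsg

namespace Cfsg.Agent.S3515


theorem four : ∀ x : Fin 2 → ZMod 2, x = 0 ∨ x = Pi.single 0 1 ∨ x = Pi.single 1 1 ∨ x = 1 := by decide

/-- Every primitive affine permutation group of degree p² is 3-closed. Let p be a prime and G a group of permutations of the plane V = F_p² consisting of affine maps x ↦ Ax + b, containing all translations, and acting primitively on V. Then any permutation σ of V that agrees on every triple of points with some element of G (σ preserves every G-orbit on ordered triples) already lies in G. -/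
theorem result (p : ℕ) [Fact p.Prime] (G : Subgroup (Equiv.Perm (Fin 2 → ZMod p)))
    (haff : (G : Set (Equiv.Perm (Fin 2 → ZMod p))) ⊆ {τ : Equiv.Perm (Fin 2 → ZMod p) | ∃ (A : (Fin 2 → ZMod p) ≃ₗ[ZMod p] (Fin 2 → ZMod p)) (b : Fin 2 → ZMod p), ∀ x, τ x = A x + b})
    (htrans : ∀ b : Fin 2 → ZMod p, ∃ g ∈ G, ∀ x, g x = x + b) (hprim : MulAction.IsPreprimitive G (Fin 2 → ZMod p))
    (σ : Equiv.Perm (Fin 2 → ZMod p)) (hσ : (∀ t : Fin 3 → (Fin 2 → ZMod p), ∃ g ∈ G, ∀ i, σ (t i) = g (t i))) : σ ∈ G := by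
  obtain ⟨g, hg, e⟩ := hσ ![0, Pi.single 0 1, Pi.single 1 1]
  suffices σ = g from this ▸ hg
  have e0 : σ 0 = g 0 := e 0
  have e1 : σ (Pi.single 0 1) = g _ := e 1
  have e2 : σ (Pi.single 1 1) = g _ := e 2
  by_cases hp : p = 2
  · subst hp
    have : ∀ x : Fin 2 → ZMod 2, x = 0 ∨ x = Pi.single 0 1 ∨ x = Pi.single 1 1 ∨ x = 1 := four
    have k : ∀ x, x ≠ 1 → σ x = g x := fun x h => by rcases this x with rfl | rfl | rfl | rfl <;> tauto
    refine Equiv.ext fun x => by_contra fun n => ?_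
    obtain ⟨y, hy⟩ := g.surjective (σ x)
    have : y ≠ 1 := by rintro rfl; exact n (by rw [not_not.1 (mt (k x) n)] at hy ⊢; exact hy.symm)
    exact n (by rw [← σ.injective ((k y this).trans hy)] at *; exact hy.symm)
  obtain ⟨A, b, h⟩ := S3516.aff (Ring.two_ne_zero (by rwa [ZMod.ringChar_zmod_n])) σ fun t => by
    obtain ⟨g, hg, e⟩ := hσ t
    obtain ⟨A, b, e'⟩ := haff hg
    exact ⟨A, b, fun i => (e i).trans (e' _)⟩
  obtain ⟨B, c, h'⟩ := haff hg
  simp only [h, h', map_zero, zero_add] at e0 e1 e2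
  subst e0
  refine Equiv.ext fun x => ?_
  rw [h, h', show x = x 0 • Pi.single 0 1 + x 1 • Pi.single 1 1 by ext i; fin_cases i <;> simp, map_add, map_add, map_smul,
    map_smul, map_smul, map_smul, add_right_cancel e1, add_right_cancel e2]
  rfl

end Cfsg.Agent.S3515
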