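import Cfsg.Statements.S3517
import Cfsg.Agent.H1.Misc1
import Cfsg.Agent.H2.BG0

set_option autoImplicit false
open Cfsg

namespace Cfsg.Agent.S3517

section
open Subgroup CfsgH2
open CfsgH1 hiding card_inf_mul_relIndex card_lt_of_lt card_lt_of_ne_top card_map_mul_card_inf_ker card_mul_relIndex card_subgroupOf card_sup_dvd card_sup_mul_card_inf coprime_le_sup_cent exists_card_prime_le isNilpotent_map isNilpotent_of_le isPGroup_pCore isSolvable_map isSolvable_of_le le_pCore le_pPrimeCore relIndex_map_dvd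
open scoped CfsgH1
open scoped commutatorElement

theorem ext {V ι : Type*} [AddCommGroup V] [Module (ZMod 2) V] [Finite V] {u w : ι → V} (hu : LinearIndependent (ZMod 2) u) (hw : LinearIndependent (ZMod 2) w) :
    ∃ A : V ≃ₗ[ZMod 2] V, ∀ i, A (u i) = w i := by
  obtain ⟨g, hg⟩ := Submodule.exists_linearEquiv_restrict_eq (hu.linearCombinationEquiv.symm ≪≫ₗ hw.linearCombinationEquiv)
  refine ⟨g, fun i => ?_⟩
  have q {u : ι → V} (hu : LinearIndependent (ZMod 2) u) : hu.linearCombinationEquiv (Finsupp.single i 1) = u i := by simp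
  rw [← q hu, ← hg, ← q hw]; simp

theorem pair {V : Type*} [AddCommGroup V] [Module (ZMod 2) V] {a b : V} (h1 : a ≠ 0) (h2 : b ≠ 0) (h3 : a ≠ b) : LinearIndependent (ZMod 2) ![a, b] := by
  refine (LinearIndependent.pair_iff' h1).2 fun c => ?_
  rcases (by decide : ∀ c : ZMod 2, c = 0 ∨ c = 1) c with rfl | rfl
  · simpa using h2.symm
  · simpa using h3

theorem one {V : Type*} [AddCommGroup V] [Module (ZMod 2) V] [Finite V] {a x : V} (h1 : a = 0 ↔ x = 0) : ∃ A : V ≃ₗ[ZMod 2] V, A a = x := by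
  by_cases c : a = 0
  · exact ⟨1, by simp [c, h1.1 c]⟩
  · obtain ⟨A, h⟩ := ext (u := fun _ : Unit => a) (w := fun _ => x) (linearIndependent_unique_iff.2 c) (linearIndependent_unique_iff.2 (h1.not.1 c))
    exact ⟨A, h ()⟩

theorem two {V : Type*} [AddCommGroup V] [Module (ZMod 2) V] [Finite V] {a b x y : V} (h1 : a = 0 ↔ x = 0) (h2 : b = 0 ↔ y = 0) (h3 : a = b ↔ x = y) :
    ∃ A : V ≃ₗ[ZMod 2] V, A a = x ∧ A b = y := by
  by_cases c1 : a = 0
  · exact (one h2).imp fun A h => ⟨by simp [c1, h1.1 c1], h⟩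
  by_cases c2 : b = 0
  · exact (one h1).imp fun A h => ⟨h, by simp [c2, h2.1 c2]⟩
  by_cases c3 : a = b
  · exact (one h1).imp fun A h => ⟨h, by rw [← c3, ← h3.1 c3, h]⟩
  obtain ⟨A, h⟩ := ext (pair c1 c2 c3) (pair (h1.not.1 c1) (h2.not.1 c2) (h3.not.1 c3))
  exact ⟨A, h 0, h 1⟩

end

/-- For d ≥ 3, the 3-closure of the affine group AGL_d(2) acting on F_2^d is the full symmetric group: every permutation of F_2^d agrees on every ordered triple of points with some affine map (AGL_d(2) is 3-transitive). -/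
theorem result (d : ℕ) (hd : 3 ≤ d) (σ : Equiv.Perm (Fin d → ZMod 2)) (t : Fin 3 → (Fin d → ZMod 2)) :
    ∃ (A : (Fin d → ZMod 2) ≃ₗ[ZMod 2] (Fin d → ZMod 2)) (b : Fin d → ZMod 2), ∀ i, σ (t i) = A (t i) + b := by
  open Subgroup CfsgH2 in
  open CfsgH1 hiding card_inf_mul_relIndex card_lt_of_lt card_lt_of_ne_top card_map_mul_card_inf_ker card_mul_relIndex card_subgroupOf card_sup_dvd card_sup_mul_card_inf coprime_le_sup_cent exists_card_prime_le isNilpotent_map isNilpotent_of_le isPGroup_pCore isSolvable_map isSolvable_of_le le_pCore le_pPrimeCore relIndex_map_dvd in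
  open scoped CfsgH1 in
  open scoped commutatorElement in
  · obtain ⟨A, h1, h2⟩ := two (a := t 1 - t 0) (b := t 2 - t 0) (x := σ (t 1) - σ (t 0)) (y := σ (t 2) - σ (t 0)) (by simp [sub_eq_zero]) (by simp [sub_eq_zero]) (by simp)
    refine ⟨A, σ (t 0) - A (t 0), fun i => ?_⟩
    rw [map_sub] at h1 h2
    fin_cases i
    · simp
    · exact (sub_eq_iff_eq_add.1 h1.symm).trans (by simp only [Fin.mk_one]; abel)
    · exact (sub_eq_iff_eq_add.1 h2.symm).trans (by simp only [Fin.reduceFinMk]; abel)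

end Cfsg.Agent.S3517
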