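import Mathlib
import Cfsg.Statements.S3518
import Cfsg.Agent.H8.PrimeDegree2

set_option autoImplicit false
open Cfsg

namespace Cfsg.Agent.S3518

open MulAction

def aff {p : ℕ} [Fact p.Prime] (a : ZMod p) (ha : a ≠ 0) (b : ZMod p) : Equiv.Perm (ZMod p) :=
  (Equiv.mulLeft₀ a ha).trans (Equiv.addRight b)

theorem aff_mem {p : ℕ} [Fact p.Prime] (a : ZMod p) (ha : a ≠ 0) (b : ZMod p) : aff a ha b ∈ Cfsg.affineGroup (ZMod p) :=
  ⟨Units.mk0 a ha, b, fun _ => rfl⟩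

theorem aff_apply {p : ℕ} [Fact p.Prime] (a : ZMod p) (ha : a ≠ 0) (b x : ZMod p) : aff a ha b x = a * x + b := rfl

theorem mem_form {p : ℕ} [Fact p.Prime] {g : Equiv.Perm (ZMod p)} (hg : g ∈ Cfsg.affineGroup (ZMod p)) (x : ZMod p) :
    g x = (g 1 - g 0) * x + g 0 := by
  obtain ⟨a, b, h⟩ := hg
  rw [h, h, h]; ring

def clo {α : Type*} (G : Subgroup (Equiv.Perm α)) : Subgroup (Equiv.Perm α) where
  carrier := {σ | ∀ x y, ∃ g ∈ G, σ x = g x ∧ σ y = g y}
  one_mem' := fun _ _ => ⟨1, G.one_mem, rfl, rfl⟩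
  mul_mem' := by
    intro a b ha hb x y
    obtain ⟨g, hg, h1, h2⟩ := hb x y
    obtain ⟨h, hh, h3, h4⟩ := ha (b x) (b y)
    exact ⟨h * g, mul_mem hh hg, by simp [← h1, h3], by simp [← h2, h4]⟩
  inv_mem' := by
    intro a ha x y
    obtain ⟨g, hg, h1, h2⟩ := ha (a⁻¹ x) (a⁻¹ y)
    refine ⟨g⁻¹, inv_mem hg, ?_, ?_⟩
    · rw [eq_comm, Equiv.Perm.inv_eq_iff_eq, ← h1]; simp
    · rw [eq_comm, Equiv.Perm.inv_eq_iff_eq, ← h2]; simp

/-- Closures of subgroups of the one-dimensional affine group. Let p be a prime and G a group of permutations of F_p lying in the affine group AGL₁(p) = {x ↦ ax + b, a ≠ 0} and containing all translations. (1) If G is a proper subgroup of AGL₁(p), then G is 2-closed: a permutation of F_p agreeing on every ordered pair of points with some element of G lies in G. (2) Every permutation of F_p agrees on every ordered pair with some element of AGL₁(p) (the 2-closure of AGL₁(p) is the symmetric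 group). (3) AGL₁(p) is 3-closed: a permutation agreeing on every ordered triple with some affine map is affine. -/
theorem result (p : ℕ) [Fact p.Prime] (G : Subgroup (Equiv.Perm (ZMod p))) (hG : G ≤ Cfsg.affineGroup (ZMod p))
    (htrans : ∀ b : ZMod p, ∃ g ∈ G, ∀ x, g x = x + b) :
    (G ≠ Cfsg.affineGroup (ZMod p) → ∀ σ : Equiv.Perm (ZMod p), (∀ t : Fin 2 → ZMod p, ∃ g ∈ G, ∀ i, σ (t i) = g (t i)) → σ ∈ G) ∧
    (∀ σ : Equiv.Perm (ZMod p), (∀ t : Fin 2 → ZMod p, ∃ g ∈ Cfsg.affineGroup (ZMod p), ∀ i, σ (t i) = g (t i))) ∧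
    (∀ σ : Equiv.Perm (ZMod p), (∀ t : Fin 3 → ZMod p, ∃ g ∈ Cfsg.affineGroup (ZMod p), ∀ i, σ (t i) = g (t i)) → σ ∈ Cfsg.affineGroup (ZMod p)) := by
  refine ⟨fun hne σ hσ => ?_, fun σ t => ?_, fun σ hσ => ?_⟩
  · have hGC : G ≤ clo G := fun g hg x y => ⟨g, hg, rfl, rfl⟩
    have hσC : σ ∈ clo G := fun x y => by
      obtain ⟨g, hg, h⟩ := hσ ![x, y]
      exact ⟨g, hg, h 0, h 1⟩
    haveI : IsPretransitive (clo G) (ZMod p) := ⟨fun x y => by
      obtain ⟨g, hg, h⟩ := htrans (y - x)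
      exact ⟨⟨g, hGC hg⟩, by change g x = y; rw [h]; ring⟩⟩
    obtain ⟨s, hs, hs1⟩ := htrans 1
    rcases CfsgH8.affine_or_two_transitive (G := clo G) (Equiv.refl (ZMod p)) (σ := ⟨s, hGC hs⟩) hs1 with h | h
    · obtain ⟨a, b, hab⟩ := h ⟨σ, hσC⟩
      have hab' : ∀ x, σ x = a * x + b := hab
      obtain ⟨g, hg, h1, h2⟩ := hσC 0 1
      have : σ = g := by
        ext1 x
        rw [mem_form (hG hg) x, ← h1, ← h2, hab', hab', hab']; ring
      exact this ▸ hg
    · refine absurd (le_antisymm hG fun τ hτ => ?_) hne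
      obtain ⟨c, hc1, hc2⟩ := (is_two_pretransitive_iff.1 h) (zero_ne_one (α := ZMod p)) (τ.injective.ne (zero_ne_one (α := ZMod p)))
      obtain ⟨g, hg, h1, h2⟩ := c.2 0 1
      have : τ = g := by
        ext1 x
        rw [mem_form (hG hg) x, mem_form hτ x, ← h1, ← h2, ← hc1, ← hc2]; rfl
      exact this ▸ hg
  · by_cases h : t 0 = t 1
    · refine ⟨aff 1 one_ne_zero (σ (t 0) - t 0), aff_mem _ _ _, fun i => ?_⟩
      fin_cases i <;> simp [aff_apply, h]
    · have h1 : t 1 - t 0 ≠ 0 := sub_ne_zero.2 (Ne.symm h)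
      have h2 : σ (t 1) - σ (t 0) ≠ 0 := sub_ne_zero.2 (σ.injective.ne (Ne.symm h))
      refine ⟨aff ((σ (t 1) - σ (t 0)) / (t 1 - t 0)) (div_ne_zero h2 h1) (σ (t 0) - (σ (t 1) - σ (t 0)) / (t 1 - t 0) * t 0), aff_mem _ _ _, fun i => ?_⟩
      fin_cases i
      · simp [aff_apply]
      · simp only [aff_apply, Fin.mk_one]
        field_simp
        ring
  · have h2 : σ 1 - σ 0 ≠ 0 := sub_ne_zero.2 (σ.injective.ne one_ne_zero)
    refine ⟨Units.mk0 _ h2, σ 0, fun x => ?_⟩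
    obtain ⟨g, hg, h⟩ := hσ ![0, 1, x]
    have e0 : σ 0 = g 0 := h 0
    have e1 : σ 1 = g 1 := h 1
    have e2 : σ x = g x := h 2
    rw [e2, mem_form hg x, Units.val_mk0, e0, e1]

end Cfsg.Agent.S3518
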