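import Cfsg.Statements.S3547
import Cfsg.Agent.H3.Hv1
import Cfsg.Agent.H3.Der

set_option autoImplicit false
open Cfsg

namespace Cfsg.Agent.S3547
open MulAction CfsgDer

/-- Let G act faithfully and transitively on a finite set Ω, let D be the subgroup generated by the derangements, and let r_G and r_D be the numbers of orbits of G and of D on ordered pairs of points (the permutation ranks). Then r_D − 1 = (r_G − 1)·[G : D]. -/
theorem result {G Ω : Type*} [Group G] [Finite G] [MulAction G Ω] [FaithfulSMul G Ω] [Finite Ω]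
    (htrans : MulAction.IsPretransitive G Ω) :
    Nat.card (MulAction.orbitRel.Quotient ↥(Subgroup.closure {g : G | ∀ ω : Ω, g • ω ≠ ω}) (Ω × Ω)) - 1 =
      (Nat.card (MulAction.orbitRel.Quotient G (Ω × Ω)) - 1) * (Subgroup.closure {g : G | ∀ ω : Ω, g • ω ≠ ω}).index := by
  classical
  have := Fintype.ofFinite G
  have h1 := CfsgH8.sum_card_fixedBy (G := G) (Ω := Ω × Ω)
  have h2 : ∑ g : D G Ω, Nat.card (fixedBy (Ω × Ω) (g : G)) = _ := CfsgH8.sum_card_fixedBy (G := D G Ω) (Ω := Ω × Ω)
  rw [← Finset.sum_filter_add_sum_filter_not _ (· ∈ D G Ω),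
    Finset.sum_subtype (p := (· ∈ D G Ω)) _ (by simp), h2, Finset.sum_congr rfl (g := fun _ => 1) fun g hg => by
      have : fixedBy (Ω × Ω) g = fixedBy Ω g ×ˢ fixedBy Ω g := Set.ext fun x => Prod.ext_iff
      rw [this, Nat.card_congr (Equiv.Set.prod _ _), Nat.card_prod, (main (Ω := Ω)).2 g (by simpa using hg)]] at h1
  have h4 := Finset.card_filter_add_card_filter_not (s := Finset.univ) (· ∈ D G Ω)
  rw [← Fintype.card_subtype, Finset.card_univ, ← Nat.card_eq_fintype_card, ← Nat.card_eq_fintype_card,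
    Finset.card_eq_sum_ones] at h4
  refine Nat.eq_of_mul_eq_mul_right (Nat.card_pos (α := D G Ω)) ?_
  rw [mul_assoc, (D G Ω).index_mul_card, Nat.sub_one_mul, Nat.sub_one_mul]
  rcases isEmpty_or_nonempty Ω with h | h
  · simp
  have : 0 < Nat.card (orbitRel.Quotient (D G Ω) (Ω × Ω)) := by
    haveI : Nonempty (orbitRel.Quotient (D G Ω) (Ω × Ω)) := ⟨Quotient.mk _ (h.some, h.some)⟩
    exact Nat.card_pos
  have := Nat.le_mul_of_pos_left (Nat.card (D G Ω)) this
  show Nat.card (orbitRel.Quotient (D G Ω) (Ω × Ω)) * Nat.card (D G Ω) - Nat.card (D G Ω) = _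
  omega


end Cfsg.Agent.S3547
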