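import Cfsg.Statements.S3548
import Cfsg.Agent.H3.Hv1
import Cfsg.Agent.H3.Der

set_option autoImplicit false
open Cfsg

namespace Cfsg.Agent.S3548
open MulAction CfsgDer

/-- Let G act faithfully and transitively on a finite set with n ≥ 2 points and let D be the subgroup generated by the derangements. Then the index of D in G divides n − 1, and if it equals n − 1 then n is a prime power. -/
theorem result {G Ω : Type*} [Group G] [Finite G] [MulAction G Ω] [FaithfulSMul G Ω] [Finite Ω]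
    (htrans : MulAction.IsPretransitive G Ω) (hΩ : 2 ≤ Nat.card Ω) :
    (Subgroup.closure {g : G | ∀ ω : Ω, g • ω ≠ ω}).index ∣ Nat.card Ω - 1 ∧
    ((Subgroup.closure {g : G | ∀ ω : Ω, g • ω ≠ ω}).index = Nat.card Ω - 1 → IsPrimePow (Nat.card Ω)) := by
  haveI : Nonempty Ω := (Nat.card_pos_iff.1 (by omega)).1
  have cc : ∀ a : Ω, Nat.card ({a}ᶜ : Set Ω) = Nat.card Ω - 1 := fun a => by
    rw [Nat.card_coe_set_eq, Set.ncard_compl, Set.ncard_singleton]
  have inv : ∀ (a : Ω) (g : G), g • a = a → ∀ b ∈ ({a}ᶜ : Set Ω), g • b ∈ ({a}ᶜ : Set Ω) := fun a g h b hb e =>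
    hb (smul_left_cancel g (e.trans h.symm))
  refine ⟨cc this.some ▸ index_dvd this.some _ (by simp) (inv _), fun h => ?_⟩
  have tr : ∀ a b c : Ω, a ≠ b → a ≠ c → ∃ g : G, g • a = a ∧ g • b = c := fun a b c h1 h2 => by
    have sub : orbit (stabilizer G a) b ⊆ {a}ᶜ := by
      rintro _ ⟨g, rfl⟩; exact inv a g g.2 b h1.symm
    have d := index_dvd (G := G) a (orbit (stabilizer G a) b) (fun e => sub e rfl)
      fun g hg c hc => mem_orbit_of_mem_orbit (⟨g, hg⟩ : stabilizer G a) hc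
    haveI : Nonempty (orbit (stabilizer G a) b) := ⟨⟨b, mem_orbit_self b⟩⟩
    have := Set.eq_of_subset_of_ncard_le sub (by
      rw [← Nat.card_coe_set_eq, cc, ← h]; exact Nat.le_of_dvd Nat.card_pos d)
    obtain ⟨g, hg⟩ : c ∈ orbit (stabilizer G a) b := this ▸ h2.symm
    exact ⟨g, g.2, hg⟩
  obtain ⟨p, j, hp, hj, e, -⟩ := CfsgH8.sharp_two_structure (G := G) (Ω := Ω) (fun a b c d h1 h2 => by
    obtain ⟨g, hg⟩ := exists_smul_eq G a c
    obtain ⟨k, k1, k2⟩ := tr c (g • b) d (fun e => h1 (smul_left_cancel g (hg.trans e))) h2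
    exact ⟨k * g, by rw [mul_smul, hg, k1], by rw [mul_smul, k2]⟩) (fun g a b h1 h2 h3 => by
    refine eq_of_smul_eq_smul (α := Ω) fun b' => ?_
    rw [one_smul]
    rcases eq_or_ne a b' with rfl | h4
    · exact h2
    have e1 : orbit (stabilizer G a) b' = {a}ᶜ := Set.ext fun c => ⟨by
      rintro ⟨g, rfl⟩; exact inv a g g.2 b' h4.symm, fun hc => by
      obtain ⟨g, g1, g2⟩ := tr a b' c h4 (Ne.symm hc); exact ⟨⟨g, g1⟩, g2⟩⟩
    have e2 : (stabilizer (stabilizer G a) b').index = ((D G Ω).subgroupOf (stabilizer G a)).index := by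
      rw [index_stabilizer, e1, ← Nat.card_coe_set_eq, cc, ← h]; exact (index_eq a).symm
    have e3 := Subgroup.relIndex_mul_index (H := stabilizer (stabilizer G a) b')
      (K := (D G Ω).subgroupOf (stabilizer G a)) fun g hg => mem_of_two h4 g.2 hg
    rw [e2, Nat.mul_eq_right Subgroup.FiniteIndex.index_ne_zero, Subgroup.relIndex_eq_one] at e3
    exact e3 (show (⟨g, h2⟩ : stabilizer G a) ∈ _ from mem_of_two h1 h2 h3)) hΩ
  exact e ▸ hp.prime.isPrimePow.pow (by omega)


end Cfsg.Agent.S3548
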