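import Cfsg.Statements.S3549
import Cfsg.Agent.H3.Hv1
import Cfsg.Agent.H3.Der
import Cfsg.Agent.H8.Multi

set_option autoImplicit false
open Cfsg

namespace Cfsg.Agent.S3549
open MulAction CfsgDer
open scoped Pointwise

/-- Let G act faithfully, transitively but imprimitively on a finite set with n points, and let D be the subgroup generated by the derangements. Then the index of D in G is at most √n − 1. -/
theorem result {G Ω : Type*} [Group G] [Finite G] [MulAction G Ω] [FaithfulSMul G Ω] [Finite Ω]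
    (htrans : MulAction.IsPretransitive G Ω) (himp : ¬ MulAction.IsPreprimitive G Ω) :
    ((Subgroup.closure {g : G | ∀ ω : Ω, g • ω ≠ ω}).index : ℝ) ≤ Real.sqrt (Nat.card Ω) - 1 := by
  obtain ⟨B, hB, h⟩ : ∃ B : Set Ω, IsBlock G B ∧ ¬ IsTrivialBlock B := by
    by_contra h; push Not at h
    exact himp ⟨fun {B} hB => h B hB⟩
  obtain ⟨h1, h2⟩ := not_or.1 h
  obtain ⟨a, ha, b, hb, ab⟩ := Set.not_subsingleton_iff.1 h1
  have c1 := hB.ncard_block_mul_ncard_orbit_eq ⟨a, ha⟩
  set k := (orbit G B).ncard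
  set m := (D G Ω).index
  have d1 : m ∣ B.ncard - 1 := by
    rw [← Set.ncard_diff_singleton_of_mem ha]
    refine index_dvd a _ (by simp) fun g hg c hc => ⟨?_, fun e => hc.2 (smul_left_cancel g (e.trans hg.symm))⟩
    rw [← hB.smul_eq_of_mem ha (hg.symm ▸ ha)]
    exact Set.smul_mem_smul_set hc.1
  have d2 : m ∣ Nat.card Ω - 1 := by
    rw [← Set.ncard_singleton a, ← Set.ncard_compl]
    exact index_dvd a _ (by simp) fun g hg c hc e => hc (smul_left_cancel g (e.trans hg.symm))
  have b2 : 1 < B.ncard := (Set.one_lt_ncard (Set.toFinite _)).2 ⟨a, ha, b, hb, ab⟩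
  have b3 : B.ncard < Nat.card Ω := by
    rw [← Set.ncard_univ]; exact Set.ncard_lt_ncard (Set.ssubset_univ_iff.2 h2)
  have k2 : 1 < k := by by_contra h; have := Nat.mul_le_mul_left B.ncard (not_lt.1 h); omega
  have d3 : m ∣ k - 1 := by
    have := Nat.dvd_sub d2 (d1.mul_right k)
    rwa [Nat.sub_one_mul, c1, show Nat.card Ω - 1 - (Nat.card Ω - k) = k - 1 by
      have := Nat.le_mul_of_pos_left k (by omega : 0 < B.ncard); omega] at this
  have l1 := Nat.le_of_dvd (by omega) d1
  have l2 := Nat.le_of_dvd (by omega) d3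
  rw [le_sub_iff_add_le]
  refine Real.le_sqrt_of_sq_le ?_
  have : (m + 1) ^ 2 ≤ Nat.card Ω := by rw [← c1, sq]; exact Nat.mul_le_mul (by omega) (by omega)
  exact_mod_cast this


end Cfsg.Agent.S3549
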