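import Mathlib
import Cfsg.Statements.S3559
import Cfsg.Agent.H8.Schur

set_option autoImplicit false
open Cfsg

namespace Cfsg.Agent.S3559

open CfsgH8

/-- Let G act faithfully and transitively on a finite set whose number of points n ≥ 2 is not a prime power, and suppose G has a cyclic subgroup acting regularly (transitively with trivial point stabilizers). Then G is imprimitive or doubly transitive. -/
theorem result {G Ω : Type*} [Group G] [Finite G] [MulAction G Ω] [FaithfulSMul G Ω] [Finite Ω]
    (htrans : MulAction.IsPretransitive G Ω) (hn : 2 ≤ Nat.card Ω) (hnp : ¬ IsPrimePow (Nat.card Ω))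
    (C : Subgroup G) (hcyc : IsCyclic ↥C) (hC : MulAction.IsPretransitive ↥C Ω ∧ ∀ a : Ω, MulAction.stabilizer ↥C a = ⊥) :
    ¬ MulAction.IsPreprimitive G Ω ∨ MulAction.IsMultiplyPretransitive G Ω 2 := by
  classical
  letI : CommGroup C := IsCyclic.commGroup
  haveI := Fintype.ofFinite C
  obtain ⟨ω⟩ : Nonempty Ω := (Nat.card_pos_iff.1 (by omega)).1
  have hb : Function.Bijective fun h : C => C.subtype h • ω := by
    refine ⟨fun a b h => ?_, fun y => hC.1.exists_smul_eq ω y⟩
    have : a⁻¹ * b ∈ MulAction.stabilizer C ω := by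
      rw [MulAction.mem_stabilizer_iff, mul_smul, inv_smul_eq_iff]
      exact h.symm
    rw [hC.2 ω, Subgroup.mem_bot] at this
    exact inv_mul_eq_one.1 this
  have hc : Fintype.card C = Nat.card Ω := by
    rw [← Nat.card_eq_fintype_card]; exact Nat.card_eq_of_bijective _ hb
  have hp := Nat.minFac_prime (n := Nat.card Ω) (by omega)
  rcases schur_action C.subtype ω hb hp (card_pow_eq_one_cyclic hp (hc ▸ Nat.minFac_dvd _)) (by
    by_contra h
    push Not at h
    obtain ⟨g, hg⟩ := IsCyclic.exists_ofOrder_eq_natCard (α := C)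
    have h1 := orderOf_dvd_of_pow_eq_one (h g)
    rw [hg, Nat.card_eq_fintype_card, hc] at h1
    exact hnp (Nat.dvd_antisymm h1 (Nat.minFac_dvd _) ▸ hp.isPrimePow)) with ⟨U, h1, h2, hU⟩ | h
  · exact Or.inl (not_preprimitive_of_U _ ω hb h1 h2 hU)
  · exact Or.inr h

end Cfsg.Agent.S3559
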