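import Mathlib
import Cfsg.Statements.S3560

set_option autoImplicit false
open Cfsg

namespace Cfsg.Agent.S3560

open MulAction
open scoped Pointwise

def adj {ι A : Type*} (x y : ι → A) : Prop := ∃! i, x i ≠ y i

def GG {α ι A : Type*} (β : α ≃ (ι → A)) : Subgroup (Equiv.Perm α) where
  carrier := {σ | ∀ x y, adj (β (σ x)) (β (σ y)) ↔ adj (β x) (β y)}
  one_mem' := fun _ _ => Iff.rfl
  mul_mem' := fun {a b} ha hb x y => (ha (b x) (b y)).trans (hb x y)
  inv_mem' := fun {a} ha x y => by
    have := ha (a⁻¹ x) (a⁻¹ y)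
    simpa using this.symm

def el {α ι A : Type*} (β : α ≃ (ι → A)) (π : Equiv.Perm ι) (τ : ι → Equiv.Perm A) : Equiv.Perm α :=
  (β.trans ((Equiv.arrowCongr π.symm (Equiv.refl A)).trans (Equiv.piCongrRight τ))).trans β.symm

theorem el_apply {α ι A : Type*} (β : α ≃ (ι → A)) (π : Equiv.Perm ι) (τ : ι → Equiv.Perm A) (x : α) (i : ι) :
    β (el β π τ x) i = τ i (β x (π i)) := by
  simp [el]

theorem el_mem {α ι A : Type*} (β : α ≃ (ι → A)) (π : Equiv.Perm ι) (τ : ι → Equiv.Perm A) : el β π τ ∈ GG β := by
  intro x y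
  simp only [adj, el_apply, ne_eq, EmbeddingLike.apply_eq_iff_eq]
  exact Equiv.existsUnique_congr π fun _ => Iff.rfl

/-- Let K be a finite group isomorphic to a direct product of r ≥ 2 groups all of the same order m ≥ 3. Then K is not a B-group: there is a primitive but not doubly transitive permutation group (on some finite set) containing a regular subgroup isomorphic to K. -/
theorem result {K : Type*} [Group K] [Finite K] {ι : Type*} [Fintype ι] (F : ι → Type*) [∀ i, Group (F i)]
    (hr : 2 ≤ Fintype.card ι) (m : ℕ) (hm : 3 ≤ m) (hcard : ∀ i, Nat.card (F i) = m) (e : K ≃* (∀ i, F i)) :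
    ∃ (n : ℕ) (G R : Subgroup (Equiv.Perm (Fin n))), R ≤ G ∧ Nonempty (↥R ≃* K) ∧
      MulAction.IsPretransitive ↥R (Fin n) ∧ (∀ a : Fin n, MulAction.stabilizer ↥R a = ⊥) ∧
      MulAction.IsPreprimitive ↥G (Fin n) ∧ ¬ MulAction.IsMultiplyPretransitive ↥G (Fin n) 2 := by
  classical
  let β : Fin (Fintype.card (ι → Fin m)) ≃ (ι → Fin m) := (Fintype.equivFin _).symm
  have hfin : ∀ i, Finite (F i) := fun i => Nat.finite_of_card_ne_zero (by rw [hcard]; omega)
  have ε : ∀ i, F i ≃ Fin m := fun i => Finite.equivFinOfCardEq (hcard i)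
  let φ : K →* Equiv.Perm (Fin (Fintype.card (ι → Fin m))) := MonoidHom.mk'
    (fun k => el β 1 fun i => (ε i).permCongr (Equiv.mulLeft (e k i))) (fun a b => by
      ext1 x
      apply β.injective
      ext1 i
      simp [el_apply, mul_assoc])
  have hφ : ∀ k x i, β (φ k x) i = ε i (e k i * (ε i).symm (β x i)) := fun k x i => by
    simp [φ, el_apply]
  have hfix : ∀ k x, φ k x = x → k = 1 := by
    intro k x h
    apply e.injective
    ext i
    have := hφ k x i
    rw [h, eq_comm, ← Equiv.eq_symm_apply] at this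
    simpa using this
  have hi : Function.Injective φ := by
    rw [injective_iff_map_eq_one]
    intro k hk
    exact hfix k (β.symm fun _ => ⟨0, by omega⟩) (by rw [hk]; rfl)
  have hle : φ.range ≤ GG β := by
    rintro _ ⟨k, rfl⟩
    exact el_mem _ _ _
  have htr : ∀ x y, ∃ k, φ k x = y := by
    intro x y
    refine ⟨e.symm fun i => (ε i).symm (β y i) * ((ε i).symm (β x i))⁻¹, β.injective ?_⟩
    ext1 i
    simp [hφ]
  refine ⟨_, GG β, φ.range, hle, ⟨(MonoidHom.ofInjective hi).symm⟩, ⟨fun x y => ?_⟩, fun a => ?_, ?_, fun h => ?_⟩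
  · obtain ⟨k, hk⟩ := htr x y
    exact ⟨⟨φ k, k, rfl⟩, hk⟩
  · rw [eq_bot_iff]
    rintro ⟨_, k, rfl⟩ hk
    rw [Subgroup.mem_bot]
    exact Subtype.ext (by rw [hfix k a hk]; exact map_one φ)
  · haveI : IsPretransitive (GG β) (Fin (Fintype.card (ι → Fin m))) := ⟨fun x y => by
      obtain ⟨k, hk⟩ := htr x y
      exact ⟨⟨φ k, hle ⟨k, rfl⟩⟩, hk⟩⟩
    refine IsPreprimitive.of_isTrivialBlock_base (β.symm fun _ => ⟨0, by omega⟩) fun {B} _ hB => ?_
    by_cases hs : B.Subsingleton
    · exact Or.inl hs
    right
    obtain ⟨a, ha, b, hb, hab⟩ := Set.not_subsingleton_iff.1 hs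
    obtain ⟨i, hi⟩ : ∃ i, β a i ≠ β b i := by
      by_contra h
      push Not at h
      exact hab (β.injective (funext h))
    obtain ⟨c, hc1, hc2⟩ : ∃ c : Fin m, c ≠ β a i ∧ c ≠ β b i := by
      by_contra h
      push Not at h
      have : (Finset.univ : Finset (Fin m)) ⊆ {β a i, β b i} := fun c _ => by
        by_cases h1 : c = β a i
        · simp [h1]
        · simp [h c h1]
      have h2 := (Finset.card_le_card this).trans Finset.card_le_two
      simp at h2
      omega
    have key : ∀ (π : Equiv.Perm ι) (τ : ι → Equiv.Perm (Fin m)) x, x ∈ B → el β π τ x ∈ B → ∀ y ∈ B, el β π τ y ∈ B := by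
      intro π τ x hx hx' y hy
      have := hB.smul_eq_of_mem (g := (⟨el β π τ, el_mem _ _ _⟩ : GG β)) hx hx'
      rw [← this]
      exact Set.smul_mem_smul_set hy
    have hb' : β.symm (Function.update (β b) i c) ∈ B := by
      have h1 := key 1 (Function.update (fun _ => 1) i (Equiv.swap (β b i) c)) a ha (by
        convert ha
        apply β.injective
        ext1 k
        rw [el_apply]
        by_cases hk : k = i
        · subst hk
          simp [Equiv.swap_apply_of_ne_of_ne hi hc1.symm]
        · simp [hk]) b hb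
      convert h1
      rw [Equiv.symm_apply_eq]
      ext1 k
      rw [el_apply]
      by_cases hk : k = i
      · subst hk; simp
      · simp [hk]
    have step : ∀ x ∈ B, ∀ j v, β.symm (Function.update (β x) j v) ∈ B := by
      intro x hx j v
      by_cases hv : v = β x j
      · simpa [hv] using hx
      obtain ⟨τ, h1, h2⟩ := (is_two_pretransitive_iff.1 (Equiv.Perm.isMultiplyPretransitive (Fin m) 2)) hc2 hv
      have h1 : τ c = v := h1
      have h2 : τ (β b i) = β x j := h2
      have h3 := key (Equiv.swap i j) (Function.update (fun k => Equiv.swap (β b (Equiv.swap i j k)) (β x k)) j τ) b hb (by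
        convert hx
        apply β.injective
        ext1 k
        rw [el_apply]
        by_cases hk : k = j
        · subst hk; simp [h2]
        · simp [hk]) _ hb'
      convert h3
      rw [Equiv.symm_apply_eq]
      ext1 k
      rw [el_apply]
      by_cases hk : k = j
      · subst hk; simp [h1]
      · have : Equiv.swap i j k ≠ i := fun h => hk (by simpa using (Equiv.swap_apply_eq_iff.1 h))
        simp [hk, this]
    rw [Set.eq_univ_iff_forall]
    intro y
    have : ∀ s : Finset ι, β.symm (s.piecewise (β y) (β a)) ∈ B := by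
      intro s
      induction s using Finset.induction_on with
      | empty => simpa using ha
      | insert j s _ ih =>
        have := step _ ih j (β y j)
        rwa [Equiv.apply_symm_apply, ← Finset.piecewise_insert] at this
    simpa using this Finset.univ
  · obtain ⟨i, j, hij⟩ := Fintype.exists_pair_of_one_lt_card (α := ι) (by omega)
    let z : ι → Fin m := fun _ => ⟨0, by omega⟩
    let o : ι → Fin m := fun _ => ⟨1, by omega⟩
    have h1 : β.symm z ≠ β.symm (Function.update z i ⟨1, by omega⟩) := fun h => by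
      simpa [z] using congrFun (β.symm.injective h) i
    have h2 : β.symm z ≠ β.symm o := fun h => by
      simpa [z, o] using congrFun (β.symm.injective h) i
    obtain ⟨g, h3, h4⟩ := (is_two_pretransitive_iff.1 h) h1 h2
    have h5 := g.2 (β.symm z) (β.symm (Function.update z i ⟨1, by omega⟩))
    change g.1 _ = _ at h3 h4
    rw [h3, h4] at h5
    simp only [Equiv.apply_symm_apply] at h5
    obtain ⟨k, -, hk⟩ := h5.2 ⟨i, by simp [z], fun k hk => by
      by_contra h6
      exact hk (by simp [h6])⟩
    exact hij ((hk i (by simp [z, o])).trans (hk j (by simp [z, o])).symm)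

end Cfsg.Agent.S3560
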