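import Mathlib
import Cfsg.Statements.S3573

set_option autoImplicit false
open Cfsg

namespace Cfsg.Agent.S3573

open Equiv Perm

theorem gen {n k r : ℕ} (hr : r.Prime) (hk : k ≤ n) (d : r ∣ n.choose k) :
    (∀ σ : Perm (Fin n), orderOf σ = r → ∃ s : Finset (Fin n), s.card = k ∧ s.image σ = s) ↔ r ≤ k ∧ k % r ≤ n % r := by
  haveI := Fact.mk hr
  refine ⟨fun h => ?_, fun ⟨_, h⟩ σ o => ?_⟩
  · have l : ∀ m j : ℕ, j ≤ m → m < r → ¬ r ∣ m.choose j := fun m j a b =>
      hr.coprime_iff_not_dvd.1 (hr.coprime_choose_of_lt b a)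
    have rn : r ≤ n := not_lt.1 fun t => l n k hk t d
    obtain ⟨g, hg⟩ := (exists_with_cycleType_iff (α := Fin n) (m := Multiset.replicate (n / r) r)).2
      ⟨by simp [Nat.div_mul_le_self], fun a h => Multiset.eq_of_mem_replicate h ▸ hr.two_le⟩
    have c := g.sum_cycleType
    rw [hg, Multiset.sum_replicate, smul_eq_mul] at c
    have o : g ^ r = 1 := pow_prime_eq_one_iff.2 fun a h => Multiset.eq_of_mem_replicate (hg ▸ h)
    obtain ⟨s, rfl, hs⟩ := h g (orderOf_eq_prime o (by
      rintro rfl
      simp [hr.ne_zero, rn.not_gt] at c))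
    have inv : ∀ x, g x ∈ s ↔ x ∈ s := fun x => by
      nth_rw 1 [← hs]; exact g.injective.mem_finset_image
    have m := card_compl_support_modEq (p := r) (n := 1) (σ := g.subtypePerm inv) (by
      rw [pow_one, subtypePerm_pow]; ext; simp [o])
    have le : (g.subtypePerm inv).supportᶜ.card ≤ g.supportᶜ.card :=
      Finset.card_le_card_of_injOn Subtype.val (fun x hx => by simpa [Subtype.ext_iff] using hx) Subtype.val_injective.injOn
    rw [Finset.card_compl g.support, ← c, Fintype.card_fin, ← Nat.mod_eq_sub_div_mul] at le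
    rw [Fintype.card_coe] at m
    have e : s.card % r ≤ n % r := (Eq.symm m).trans_le ((Nat.mod_le _ _).trans le)
    refine ⟨not_lt.1 fun t => l _ _ e (Nat.mod_lt _ hr.pos) ?_, e⟩
    have := (Choose.choose_modEq_choose_mod_mul_choose_div_nat (n := n) (k := s.card) (p := r))
    rw [Nat.div_eq_of_lt t, Nat.choose_zero_right, mul_one] at this
    exact (this.dvd_iff dvd_rfl).1 d
  · have cs : ∀ c ∈ σ.cycleFactorsFinset, c.support.card = r := fun c hc =>
      pow_prime_eq_one_iff.1 (o ▸ pow_orderOf_eq_one σ) _ (Multiset.mem_map_of_mem (Finset.card ∘ support) hc)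
    have cb : ∀ T ⊆ σ.cycleFactorsFinset, (T.biUnion support).card = T.card * r := fun T hT => by
      rw [Finset.card_biUnion fun a ha b hb ne => (σ.cycleFactorsFinset_pairwise_disjoint (hT ha) (hT hb) ne).disjoint_support,
        Finset.sum_const_nat fun c hc => cs c (hT hc)]
    have c : σ.support.card = σ.cycleFactorsFinset.card * r := by
      rw [← sum_cycleType, cycleType_def]; exact Finset.sum_const_nat cs
    have c' := Finset.card_compl σ.support
    have c'' := Finset.card_le_univ σ.support
    rw [Fintype.card_fin, c] at c' c''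
    obtain ⟨T, hT, t⟩ := Finset.exists_subset_card_eq (min_le_left σ.cycleFactorsFinset.card (k / r))
    obtain ⟨U, hU, u⟩ := Finset.exists_subset_card_eq (s := σ.supportᶜ) (n := k - T.card * r) (by
      rw [c', t]
      rcases le_total σ.cycleFactorsFinset.card (k / r) with e | e
      · rw [min_eq_left e]; omega
      · rw [min_eq_right e, ← Nat.mod_eq_sub_div_mul]
        refine h.trans ?_
        exact (congrArg (· % r) (Nat.sub_add_cancel c'').symm).trans_le
          ((Nat.add_mul_mod_self_right _ _ _).trans_le (Nat.mod_le _ _)))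
    have : T.card * r ≤ k := (Nat.mul_le_mul_right r (t ▸ min_le_right _ _)).trans (Nat.div_mul_le_self k r)
    refine ⟨T.biUnion support ∪ U, ?_, Finset.eq_of_subset_of_card_le (Finset.image_subset_iff.2 fun x hx => ?_)
      (Finset.card_image_of_injective _ σ.injective).ge⟩
    · rw [Finset.card_union_of_disjoint (Finset.disjoint_left.2 fun x hx hx' => ?_), cb T hT, u]
      · omega
      obtain ⟨c, hc, hx⟩ := Finset.mem_biUnion.1 hx
      exact Finset.mem_compl.1 (hU hx') (mem_cycleFactorsFinset_support_le (hT hc) hx)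
    · rcases Finset.mem_union.1 hx with hx | hx
      · obtain ⟨c, hc, hx⟩ := Finset.mem_biUnion.1 hx
        exact Finset.mem_union_left _ (Finset.mem_biUnion.2 ⟨c, hc,
          (mem_cycleFactorsFinset_iff.1 (hT hc)).2 x hx ▸ apply_mem_support.2 hx⟩)
      · rw [notMem_support.1 (Finset.mem_compl.1 (hU hx))]
        exact Finset.mem_union_right _ hx

/-- Let 1 ≤ k with 2k < n and consider the symmetric group of degree n acting on the k-subsets of an n-set. Let r be a prime dividing the number C(n,k) of k-subsets. If r is odd, then every permutation of order r fixes some k-subset if and only if r ≤ k and the remainder of k modulo r is at most the remainder of n modulo r. If r = 2, then every involution fixes some k-subset if and only if k is even or n is odd. -/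
theorem result (n k : ℕ) (hk : 1 ≤ k) (hkn : 2 * k < n) (r : ℕ) (hr : r.Prime) (hrd : r ∣ Nat.choose n k) :
    (r ≠ 2 → ((∀ σ : Equiv.Perm (Fin n), orderOf σ = r → ∃ s : Finset (Fin n), s.card = k ∧ s.image σ = s) ↔
      (r ≤ k ∧ k % r ≤ n % r))) ∧
    (r = 2 → ((∀ σ : Equiv.Perm (Fin n), orderOf σ = 2 → ∃ s : Finset (Fin n), s.card = k ∧ s.image σ = s) ↔
      (Even k ∨ Odd n))) := by
  refine ⟨fun _ => gen hr (by omega) hrd, ?_⟩
  rintro rfl
  rw [gen hr (by omega) hrd, Nat.even_iff, Nat.odd_iff]
  obtain rfl | h := hk.eq_or_lt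
  · rw [Nat.choose_one_right] at hrd
    omega
  · omega

end Cfsg.Agent.S3573
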