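import Cfsg.Statements.S3590
import Cfsg.Agent.H6.Sy5

set_option autoImplicit false
open Cfsg

namespace Cfsg.Agent.S3590

/-- Let F be a finite field of characteristic 2. Then PSp(8,F) is not determined by its set of element orders, not even up to finitely many groups: for every bound there is a finite group of larger order with exactly the same set of element orders as PSp(8,F). -/
theorem result {F : Type*} [Field F] [Fintype F]
    [CharP F 2] (M : ℕ) :
    ∃ (H : Type) (_ : Group H) (_ : Fintype H), M < Fintype.card H ∧ Set.range (orderOf : H → ℕ) = Set.range (orderOf : Cfsg.PSp 4 F → ℕ) := by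
  obtain ⟨f, h1, h2, -⟩ := CfsgH6.Sx.ox_one (F := F) four_pos False
  have := CfsgH5.CForm.finite_Isom f
  obtain ⟨H, _, _, h3, h4⟩ := CfsgH6.Af.big (G := commutator f.Isom) (V := Fin (2 * 4) → F) Nat.prime_two
    (fun v => by rw [← Nat.cast_smul_eq_nsmul F, CharP.cast_eq_zero, zero_smul]) M
  exact ⟨H, _, _, h3, h4.trans (CfsgH6.Sx.sp_aff h1 (by simp) h2.1)⟩

end Cfsg.Agent.S3590
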