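import Mathlib
import Cfsg.Statements.S3592
import Cfsg.Agent.H8.Nse

set_option autoImplicit false
open Cfsg

namespace Cfsg.Agent.S3592


/-- Let M be the Mathieu group M₁₁ (order 7920). If a finite group G has the same order as M and the same set of values of the function 'number of elements of order n' (taken over the element orders n that occur), then G is isomorphic to M. -/
theorem result {G : Type*} [Group G] [Finite G]
    (hcard : Nat.card G = Nat.card ↥Cfsg.Spor.M11)
    (hnse : {c : ℕ | 0 < c ∧ ∃ n : ℕ, c = Nat.card {g : G // orderOf g = n}} =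
      {c : ℕ | 0 < c ∧ ∃ n : ℕ, c = Nat.card {g : ↥Cfsg.Spor.M11 // orderOf g = n}}) :
    Nonempty (G ≃* ↥Cfsg.Spor.M11) := by
  have h := hcard.trans CfsgH8.Pg.cM
  haveI := CfsgH8.Pg.sM
  have h1 := CfsgH8.Pg.cnt11 h
  have h2 := CfsgH8.Pg.nS h
  obtain ⟨-, n, hn⟩ : Nat.card {g : G // orderOf g = 11} ∈
      {c : ℕ | 0 < c ∧ ∃ n : ℕ, c = Nat.card {g : ↥Cfsg.Spor.M11 // orderOf g = n}} := hnse ▸ ⟨by omega, 11, rfl⟩
  have h3 := CfsgH8.Pg.nse CfsgH8.Pg.cM n
  haveI := CfsgH8.Pg.simple144 h (by omega)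
  exact CfsgH8.M11.uniq h CfsgH8.Pg.cM

end Cfsg.Agent.S3592
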