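import Mathlib
import Cfsg.Statements.S3599
import Cfsg.Agent.H8.Aff

set_option autoImplicit false
open Cfsg

namespace Cfsg.Agent.S3599

open CfsgH8

def NS (p : ℕ) (G : Type) [Group G] : Prop := ∃ N : Subgroup G, N.Normal ∧ IsPGroup p N ∧ ¬ p ∣ N.index

theorem NS.sub {p : ℕ} {G : Type} [Group G] (h : NS p G) (H : Subgroup G) : NS p H := by
  obtain ⟨N, h1, h2, h3⟩ := h
  exact ⟨N.subgroupOf H, inferInstance, h2.comap_subtype, fun h => h3 (h.trans (N.relIndex_dvd_index_of_normal H))⟩

theorem NS.map {p : ℕ} {G G' : Type} [Group G] [Group G'] (h : NS p G) (f : G →* G') (hf : Function.Surjective f) :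
    NS p G' := by
  obtain ⟨N, h1, h2, h3⟩ := h
  exact ⟨N.map f, h1.map f hf, h2.map f, fun h => h3 (h.trans (N.index_map_dvd hf))⟩

theorem NS.pi {p : ℕ} (hp : p.Prime) {ι : Type} [Fintype ι] {G : ι → Type} [∀ i, Group (G i)] (h : ∀ i, NS p (G i)) :
    NS p (∀ i, G i) := by
  choose N h1 h2 h3 using h
  refine ⟨Subgroup.pi Set.univ N, ⟨fun x hx g i hi => (h1 i).conj_mem _ (hx i hi) _⟩, fun x => ?_, fun h => ?_⟩
  · choose k hk using fun i => h2 i ⟨x.1 i, x.2 i trivial⟩
    refine ⟨∑ i, k i, Subtype.ext (funext fun i => ?_)⟩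
    obtain ⟨m, hm⟩ := Nat.exists_eq_add_of_le (Finset.single_le_sum (f := k) (fun _ _ => Nat.zero_le _) (Finset.mem_univ i))
    have : x.1 i ^ p ^ k i = 1 := congrArg Subtype.val (hk i)
    change x.1 i ^ p ^ (∑ i, k i) = 1
    rw [hm, pow_add, pow_mul, this, one_pow]
  · have e : (Subgroup.pi Set.univ N).index = ∏ i, (N i).index := by
      simp_rw [Subgroup.index, ← Nat.card_pi]
      refine Nat.card_congr
        ((Quotient.congrRight (fun x y ↦ ?_)).trans (Setoid.piQuotientEquiv _).symm)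
      change QuotientGroup.leftRel _ x y ↔ ∀ i, QuotientGroup.leftRel (N i) (x i) (y i)
      simp [QuotientGroup.leftRel_apply, Subgroup.mem_pi]
    rw [e, Prime.dvd_finsetProd_iff hp.prime] at h
    obtain ⟨i, -, hi⟩ := h
    exact h3 i hi

theorem NS.pq {p q : ℕ} (hp : p.Prime) (hq : q.Prime) (hne : p ≠ q) {G : Type} [Group G] (h1 : NS p G) (h2 : NS q G)
    {x y : G} (hx : orderOf x = p) (hy : orderOf y = q) : orderOf (x * y) = p * q := by
  have key : ∀ {p : ℕ} (_ : p.Prime) {N : Subgroup G} [N.Normal] (_ : ¬ p ∣ N.index) {x : G} (_ : orderOf x = p), x ∈ N := by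
    intro p hp N _ h x hx
    rw [← QuotientGroup.eq_one_iff, ← orderOf_eq_one_iff]
    have h1 : orderOf (x : G ⧸ N) ∣ p := hx ▸ orderOf_map_dvd (QuotientGroup.mk' N) x
    exact ((Nat.dvd_prime hp).1 h1).resolve_right fun e => h (e ▸ orderOf_dvd_natCard _)
  obtain ⟨N, _, a2, a3⟩ := h1
  obtain ⟨M, _, b2, b3⟩ := h2
  haveI := Fact.mk hp
  haveI := Fact.mk hq
  have hc := Subgroup.commute_of_normal_of_disjoint N M ‹_› ‹_› (IsPGroup.disjoint_of_ne p q hne N M a2 b2) x y
    (key hp a3 hx) (key hq b3 hy)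
  rw [hc.orderOf_mul_eq_mul_orderOf_of_coprime (by rw [hx, hy]; exact (Nat.coprime_primes hp hq).2 hne), hx, hy]

theorem fr {p q : ℕ} (hp : p.Prime) (hq : q.Prime) (hne : p ≠ q) : ∃ (G : Type) (_ : Group G) (_ : Finite G),
    (∀ n, (∃ x : G, orderOf x = n) ↔ n = 1 ∨ n = p ∨ n = q) ∧ NS p G := by
  classical
  haveI := Fact.mk hp
  haveI := Fact.mk hq
  let K := Multiplicative (ZMod q)
  have hK : Nat.card K = q := by simp [K]
  have hq0 : (q : ZMod p) ≠ 0 := by
    rw [Ne, ZMod.natCast_eq_zero_iff, Nat.prime_dvd_prime_iff_eq hp hq]; exact hne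
  let V : AddSubgroup (K → ZMod p) :=
    { carrier := {f | ∑ x, f x = 0}
      add_mem' := fun {a b} ha hb => by
        simp only [Set.mem_ofPred_eq, Pi.add_apply, Finset.sum_add_distrib] at ha hb ⊢
        rw [ha, hb, add_zero]
      zero_mem' := by simp
      neg_mem' := fun {a} ha => by simpa using ha }
  letI : DistribMulAction K V :=
    { smul := fun h v => ⟨fun x => v.1 (x * h), (Equiv.sum_comp (Equiv.mulRight h) v.1).trans v.2⟩
      one_smul := fun v => Subtype.ext (funext fun x => congrArg v.1 (mul_one x))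
      mul_smul := fun g h v => Subtype.ext (funext fun x => congrArg v.1 (mul_assoc x g h).symm)
      smul_zero := fun _ => rfl
      smul_add := fun _ _ _ => rfl }
  obtain ⟨g0, hg0⟩ := exists_ne (1 : K)
  haveI : Nontrivial V := ⟨⟨fun y => (if y = 1 then (q : ZMod p) else 0) - 1, by
    change ∑ _, _ = _
    simp [K]⟩, 0, fun h => by simpa [hg0] using congrFun (congrArg Subtype.val h) g0⟩
  have ex : ∀ v : V, p • v = 0 := fun v => Subtype.ext (funext fun x => by simp)
  refine ⟨Aff K V, inferInstance, inferInstance, fun n => ?_, SemidirectProduct.rightHom.ker, inferInstance,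
    fun x => ⟨1, Subtype.ext (by rw [pow_one]; exact Aff.pow_eq_one ex x.2)⟩, ?_⟩
  · rw [Aff.range hp ex fun g hg v hv => ?_]
    · constructor
      · rintro (h | ⟨g, rfl⟩)
        · exact Or.inr (Or.inl h)
        · rcases (Nat.dvd_prime hq).1 (hK ▸ orderOf_dvd_natCard g) with h | h
          · exact Or.inl h
          · exact Or.inr (Or.inr h)
      · rintro (rfl | h | h)
        · exact Or.inr ⟨1, orderOf_one⟩
        · exact Or.inl h
        · exact Or.inr ⟨g0, (orderOf_eq_prime (by have := pow_card_eq_one' (x := g0); rwa [hK] at this) hg0).trans h.symm⟩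
    · have t : ∀ k : ℕ, v.1 (g ^ k) = v.1 1 := fun k => by
        induction k with
        | zero => simp
        | succ k ih => rw [pow_succ]; exact (congrFun (congrArg Subtype.val hv) _).trans ih
      have t2 : ∀ x, v.1 x = v.1 1 := fun x => by
        obtain ⟨k, rfl⟩ := (mem_powers_iff_mem_zpowers.2 (mem_zpowers_of_prime_card hK hg (g' := x)))
        exact t k
      have t3 : ∑ x, v.1 x = 0 := v.2
      rw [Finset.sum_congr rfl fun x _ => t2 x, Finset.sum_const, Finset.card_univ, ← Nat.card_eq_fintype_card, hK,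
        nsmul_eq_mul, mul_eq_zero] at t3
      exact Subtype.ext (funext fun x => (t2 x).trans (t3.resolve_left hq0))
  · rw [Subgroup.index_ker, MonoidHom.range_eq_top.2 SemidirectProduct.rightHom_surjective, Subgroup.card_top, hK,
      Nat.prime_dvd_prime_iff_eq hp hq]
    exact hne

/-- A finite group is critical with respect to a set Ω of natural numbers when its set of element orders is Ω while no proper section H/N (H a subgroup, N normal in H, (H, N) ≠ (whole group, 1)) has Ω as its set of element orders. Let s ≥ 1 and let p(j,0), p(j,1) (j < s) be 2s pairwise distinct primes, and let Ω be the set of all products c(0)·…·c(s−1) with each c(j) ∈ {1, p(j,0), p(j,1)}. Then there are 2^s pairwise non-isomorphic finite groups critical with respect to Ω. -/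
theorem result (s : ℕ) (hs : 1 ≤ s) (p : Fin s → Fin 2 → ℕ)
    (hp : ∀ j i, (p j i).Prime) (hinj : ∀ j i j' i', p j i = p j' i' → j = j' ∧ i = i') :
    ∃ (G : Fin (2 ^ s) → Type) (_ : ∀ a, Group (G a)) (_ : ∀ a, Fintype (G a)),
      (∀ a b, a ≠ b → ¬ Nonempty (G a ≃* G b)) ∧
      ∀ a, Set.range (orderOf : (G a) → ℕ) = {m : ℕ | ∃ c : Fin s → ℕ, (∀ j, c j = 1 ∨ c j = p j 0 ∨ c j = p j 1) ∧ m = ∏ j, c j} ∧
      ∀ (H : Subgroup (G a)) (N : Subgroup ↥H) [N.Normal], (H ≠ ⊤ ∨ N ≠ ⊥) → Set.range (orderOf : (↥H ⧸ N) → ℕ) ≠ {m : ℕ | ∃ c : Fin s → ℕ, (∀ j, c j = 1 ∨ c j = p j 0 ∨ c j = p j 1) ∧ m = ∏ j, c j} := by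
  classical
  set Ω := {m : ℕ | ∃ c : Fin s → ℕ, (∀ j, c j = 1 ∨ c j = p j 0 ∨ c j = p j 1) ∧ m = ∏ j, c j} with hΩ
  have hne : ∀ j (i : Fin 2), p j i ≠ p j i.rev := fun j i h => by
    have := (hinj _ _ _ _ h).2
    fin_cases i <;> simp at this
  have base : ∀ ε : Fin s → Fin 2, ∃ (n : ℕ) (G : Type) (_ : Group G) (_ : Finite G), Nat.card G = n ∧
      Set.range (orderOf : G → ℕ) = Ω ∧ ∀ j, NS (p j (ε j)) G := by
    intro ε
    choose G _ _ h1 h2 using fun j => fr (hp j (ε j)) (hp j (ε j).rev) (hne j (ε j))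
    have h3 : ∀ j n, (∃ x : G j, orderOf x = n) ↔ n = 1 ∨ n = p j 0 ∨ n = p j 1 := by
      intro j n
      rw [h1]
      generalize ε j = e
      fin_cases e
      · rfl
      · exact or_congr_right or_comm
    have h4 : ∀ x : ∀ j, G j, orderOf x = ∏ j, orderOf (x j) := by
      intro x
      rw [Pi.orderOf, Finset.lcm_eq_prod]
      intro i _ j _ hij
      have a : ∀ k, orderOf (x k) = 1 ∨ ∃ e, orderOf (x k) = p k e := fun k => by
        rcases (h3 k _).1 ⟨x k, rfl⟩ with h | h | h
        exacts [Or.inl h, Or.inr ⟨0, h⟩, Or.inr ⟨1, h⟩]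
      change Nat.Coprime (orderOf (x i)) (orderOf (x j))
      rcases a i with h | ⟨e, h⟩
      · simp [h]
      rcases a j with h' | ⟨e', h'⟩
      · simp [h']
      rw [h, h', Nat.coprime_primes (hp _ _) (hp _ _)]
      exact fun h => hij (hinj _ _ _ _ h).1
    refine ⟨_, ∀ j, G j, inferInstance, inferInstance, rfl, ?_, fun j => NS.pi (hp _ _) fun i => ?_⟩
    · ext m
      constructor
      · rintro ⟨x, rfl⟩
        exact ⟨fun j => orderOf (x j), fun j => (h3 j _).1 ⟨x j, rfl⟩, h4 x⟩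
      · rintro ⟨c, hc, rfl⟩
        choose x hx using fun j => (h3 j _).2 (hc j)
        exact ⟨x, by rw [h4]; exact Finset.prod_congr rfl fun j _ => hx j⟩
    · by_cases hij : i = j
      · subst hij; exact h2 i
      · refine ⟨⊥, inferInstance, IsPGroup.of_bot, fun h => ?_⟩
        haveI := Fact.mk (hp j (ε j))
        rw [Subgroup.index_bot] at h
        rcases (h3 i _).1 (exists_prime_orderOf_dvd_card' _ h) with h | h | h
        · exact (hp _ _).ne_one h
        · exact hij (hinj _ _ _ _ h).1.symm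
        · exact hij (hinj _ _ _ _ h).1.symm
  choose G _ _ h0 h1 h2 using fun ε => Nat.find_spec (base ε)
  let e : Fin (2 ^ s) ≃ (Fin s → Fin 2) := finFunctionFinEquiv.symm
  refine ⟨fun a => G (e a), inferInstance, fun a => Fintype.ofFinite _, ?_, fun a => ⟨h1 _, fun H N _ hHN hr => ?_⟩⟩
  · rintro a b hab ⟨f⟩
    obtain ⟨j, hj⟩ := Function.ne_iff.1 (e.injective.ne hab)
    have a1 := h2 (e b) j
    have a2 := (h2 (e a) j).map f.toMonoidHom f.surjective
    have a3 : ∀ i, ∃ x : G (e b), orderOf x = p j i := fun i => by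
      have : p j i ∈ Ω := ⟨Function.update (fun _ => 1) j (p j i), fun k => by
        by_cases hk : k = j
        · subst hk; fin_cases i <;> simp
        · simp [hk], by simp [Finset.prod_update_of_mem]⟩
      rw [← h1 (e b)] at this
      exact this
    obtain ⟨x, hx⟩ := a3 (e a j)
    obtain ⟨y, hy⟩ := a3 (e b j)
    have a4 : p j (e a j) * p j (e b j) ∈ Ω := by
      rw [← h1 (e b)]
      exact ⟨_, NS.pq (hp _ _) (hp _ _) (fun h => hj (hinj _ _ _ _ h).2) a2 a1 hx hy⟩
    obtain ⟨c, hc, hc'⟩ := a4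
    have a5 : ∀ i, p j i ∣ ∏ k, c k → c j = p j i := by
      intro i h
      obtain ⟨k, -, hk⟩ := (Prime.dvd_finsetProd_iff (hp j i).prime _).1 h
      rcases hc k with h | h | h
      · exact absurd (Nat.dvd_one.1 (h ▸ hk)) (hp _ _).ne_one
      all_goals
        rw [h, Nat.prime_dvd_prime_iff_eq (hp _ _) (hp _ _)] at hk
        obtain ⟨rfl, -⟩ := hinj _ _ _ _ hk
        rw [h, hk]
    exact hj (hinj _ _ _ _ ((a5 _ (hc' ▸ Dvd.intro _ rfl)).symm.trans (a5 _ (hc' ▸ Dvd.intro_left _ rfl)))).2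
  · have h3 := Nat.find_min' (base (e a)) ⟨H ⧸ N, inferInstance, inferInstance, rfl, hr,
      fun j => ((h2 (e a) j).sub H).map (QuotientGroup.mk' N) (QuotientGroup.mk'_surjective N)⟩
    rw [← h0] at h3
    have h4 := Subgroup.card_eq_card_quotient_mul_card_subgroup N
    have h5 := H.card_le_card_group
    have h6 : 0 < Nat.card N := Nat.card_pos
    have h7 : 0 < Nat.card (H ⧸ N) := Nat.card_pos
    rcases hHN with h | h
    · exact h (Subgroup.eq_top_of_le_card H (by nlinarith))
    · have h8 := (Subgroup.one_lt_card_iff_ne_bot N).2 h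
      nlinarith

end Cfsg.Agent.S3599
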