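import Mathlib
import Cfsg.Statements.S3619
import Cfsg.Agent.H8.Jordan

set_option autoImplicit false
open Cfsg

namespace Cfsg.Agent.S3619

open MulAction
open scoped Pointwise

/-- Let G act faithfully on a finite set in such a way that every non-trivial normal subgroup of G is transitive (G is quasiprimitive). Let Γ be a subset with more than one point and not the whole set, such that the pointwise stabilizer of the complement of Γ acts transitively on Γ (a Jordan set). If that pointwise stabilizer acts primitively on Γ, then G is k-fold transitive where k is one more than the number of points outside Γ (the Jordan set is a trivial one). -/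
theorem result {G Ω : Type*} [Group G] [Finite G] [MulAction G Ω] [FaithfulSMul G Ω] [Finite Ω]
    (hqp : ∀ N : Subgroup G, N.Normal → N ≠ ⊥ → MulAction.IsPretransitive ↥N Ω)
    (Γ : Set Ω) (hΓ1 : 1 < Γ.ncard) (hΓ2 : Γ.ncard < Nat.card Ω)
    (hJ : MulAction.IsPretransitive ↥(fixingSubgroup G Γᶜ) ↥(SubMulAction.ofFixingSubgroup G Γᶜ))
    (hJp : MulAction.IsPreprimitive ↥(fixingSubgroup G Γᶜ) ↥(SubMulAction.ofFixingSubgroup G Γᶜ)) :
    MulAction.IsMultiplyPretransitive G Ω (Nat.card Ω - Γ.ncard + 1) := by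
  classical
  have hJ' : ∀ x ∈ Γ, ∀ y ∈ Γ, ∃ g : G, (∀ z ∉ Γ, g • z = z) ∧ g • x = y := by
    intro x hx y hy
    obtain ⟨g, hg⟩ := hJ.exists_smul_eq ⟨x, fun h => h hx⟩ ⟨y, fun h => h hy⟩
    exact ⟨g.1, (mem_fixingSubgroup_iff G).1 g.2, congrArg Subtype.val hg⟩
  obtain ⟨a, ha, b, hb, hab⟩ := (Set.one_lt_ncard (Set.toFinite Γ)).1 hΓ1
  obtain ⟨j, hj1, hj2⟩ := hJ' a ha b hb
  have hj : j ≠ 1 := fun h => hab (by rw [← hj2, h, one_smul])
  have htr : IsPretransitive G Ω := by
    haveI := hqp ⊤ inferInstance (fun h => hj (Subgroup.mem_bot.1 (h ▸ Subgroup.mem_top j)))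
    exact ⟨fun x y => by
      obtain ⟨g, hg⟩ := exists_smul_eq (⊤ : Subgroup G) x y
      exact ⟨g, hg⟩⟩
  have hprim : IsPreprimitive G Ω := by
    refine IsPreprimitive.of_isTrivialBlock_base a fun {B} haB hB => ?_
    by_cases hs : B.Subsingleton
    · exact Or.inl hs
    right
    have hΓB : Γ ⊆ B := by
      by_cases h : B ⊆ Γ
      · have h1 : IsBlock (fixingSubgroup G Γᶜ) (Subtype.val ⁻¹' B : Set (SubMulAction.ofFixingSubgroup G Γᶜ)) := by
          rw [isBlock_iff_smul_eq_of_mem]
          intro g x hx hx'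
          have h2 := hB.smul_eq_of_mem (g := g.1) hx hx'
          ext y
          rw [Set.mem_smul_set_iff_inv_smul_mem, Set.mem_preimage, Set.mem_preimage]
          change (g : G)⁻¹ • (y : Ω) ∈ B ↔ _
          rw [← Set.mem_smul_set_iff_inv_smul_mem, h2]
        rcases hJp.isTrivialBlock_of_isBlock h1 with h2 | h2
        · refine absurd (fun x hx y hy => ?_) hs
          exact congrArg Subtype.val (h2 (x := ⟨x, fun h' => h' (h hx)⟩) hx (y := ⟨y, fun h' => h' (h hy)⟩) hy)
        · intro x hx
          have : (⟨x, fun h' => h' hx⟩ : SubMulAction.ofFixingSubgroup G Γᶜ) ∈ (Subtype.val ⁻¹' B : Set _) := h2 ▸ Set.mem_univ _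
          exact this
      · obtain ⟨c, hc, hc'⟩ := Set.not_subset.1 h
        intro x hx
        obtain ⟨g, hg1, hg2⟩ := hJ' a ha x hx
        have h2 := hB.smul_eq_of_mem (g := g) hc (by rwa [hg1 c hc'])
        rw [← h2, ← hg2]
        exact Set.smul_mem_smul_set haB
    let K : Subgroup G :=
      { carrier := {k | ∀ g : G, k • g • B = g • B}
        one_mem' := fun g => one_smul _ _
        mul_mem' := fun {x y} hx hy g => by rw [mul_smul, hy, hx]
        inv_mem' := fun {x} hx g => by rw [inv_smul_eq_iff, hx] }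
    have hK : K.Normal := ⟨fun k hk g x => by
      rw [mul_smul, mul_smul, smul_smul g⁻¹, hk, smul_smul, mul_inv_cancel_left]⟩
    have hjK : j ∈ K := by
      intro g
      have hgB := hB.translate g
      by_cases h : g • a ∈ Γ
      · have h1 : g • B = B := hB.smul_eq_of_mem haB (hΓB h)
        rw [h1]
        exact hB.smul_eq_of_mem haB (hj2 ▸ hΓB hb)
      · exact hgB.smul_eq_of_mem (Set.smul_mem_smul_set haB) (by rw [hj1 _ h]; exact Set.smul_mem_smul_set haB)
    haveI := hqp K hK (fun h => hj (Subgroup.mem_bot.1 (h ▸ hjK)))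
    rw [Set.eq_univ_iff_forall]
    intro x
    obtain ⟨k, hk⟩ := exists_smul_eq K a x
    have h1 := k.2 1
    rw [one_smul] at h1
    rw [← h1, ← hk]
    exact Set.smul_mem_smul_set haB
  have hc := Set.ncard_add_ncard_compl Γ
  have := CfsgH8.multiplyTransitive_of_primitive_jordan hprim Γᶜ (by omega) hJp
  rwa [show Γᶜ.ncard = Nat.card Ω - Γ.ncard by omega] at this

end Cfsg.Agent.S3619
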