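import Mathlib
import Cfsg.Statements.S3622

set_option autoImplicit false
open Cfsg

namespace Cfsg.Agent.S3622


/-- Let G be a group of permutations of a finite set, m ≥ 2, and α a point. Say a permutation σ is k-approximated by a set S of permutations if for every k points there is a member of S agreeing with σ at those points. Suppose every permutation that is (m-1)-approximated by the stabilizer of α in G lies in that stabilizer (the stabilizer is (m-1)-closed). Then every permutation that is m-approximated by G lies in G (G is m-closed). -/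
theorem result {Ω : Type*} [Finite Ω] (G : Subgroup (Equiv.Perm Ω)) (m : ℕ) (hm : 2 ≤ m) (α : Ω)
    (hclosed : ∀ σ : Equiv.Perm Ω,
      (∀ t : Fin (m - 1) → Ω, ∃ g ∈ MulAction.stabilizer ↥G α, ∀ i, (g : Equiv.Perm Ω) (t i) = σ (t i)) →
      σ ∈ G ∧ σ α = α) :
    ∀ σ : Equiv.Perm Ω, (∀ t : Fin m → Ω, ∃ g ∈ G, ∀ i, g (t i) = σ (t i)) → σ ∈ G := by
  intro σ hσ
  obtain ⟨m, rfl⟩ := Nat.exists_eq_add_of_le' (show 1 ≤ m by omega)
  obtain ⟨g, hg, h⟩ := hσ (fun _ => α)
  have h0 : g α = σ α := h 0
  have := (hclosed (g⁻¹ * σ) fun t => by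
    obtain ⟨g', hg', h'⟩ := hσ (Fin.snoc (α := fun _ => Ω) t α)
    refine ⟨⟨g⁻¹ * g', G.mul_mem (G.inv_mem hg) hg'⟩, ?_, fun i => ?_⟩
    · have := h' (Fin.last m)
      simp only [Fin.snoc_last] at this
      show g⁻¹ (g' α) = α
      rw [this, ← h0]; simp
    · have := h' i.castSucc
      simp only [Fin.snoc_castSucc] at this
      show g⁻¹ (g' (t i)) = g⁻¹ (σ (t i))
      rw [this]).1
  simpa using G.mul_mem hg this

end Cfsg.Agent.S3622
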