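import Cfsg.Statements.S3627
import Mathlib
import Cfsg.Agent.H7.Sp.J1
import Cfsg.Agent.H7.SpS
import Cfsg.Agent.H8.Spec2

set_option autoImplicit false
open Cfsg

namespace Cfsg.Agent.S3627

open CfsgH7 CfsgH8
theorem key {X : Type} [Group X] (h1 : ∀ x : X, ∃ m ∈ [6, 7, 10, 11, 15, 19], x ^ m = 1) (h2 : 2 ∈ Set.range (orderOf : X → ℕ))
    (h7 : 7 ∈ Set.range (orderOf : X → ℕ)) : Set.range (orderOf : Spor.J1 × Spor.J1 × Spor.J1 × X → ℕ) =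
      {n | ∃ m ∈ [21945, 14630, 8778, 6270, 3990, 2310], n ∣ m} := by
  have s := J1m.Sp.spec J1m.mdl
  refine range_orderOf_eq _ (fun ⟨a, b, c, d⟩ => ?_) ?_
  · obtain ⟨m1, a1, b1⟩ := s.le ⟨a, rfl⟩
    obtain ⟨m2, a2, b2⟩ := s.le ⟨b, rfl⟩
    obtain ⟨m3, a3, b3⟩ := s.le ⟨c, rfl⟩
    obtain ⟨m4, a4, b4⟩ := h1 d
    obtain ⟨m, c0, c1, c2, c3, c4⟩ := (show ∀ m1 ∈ ([6, 7, 10, 11, 15, 19] : List Nat), ∀ m2 ∈ ([6, 7, 10, 11, 15, 19] : List Nat),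
      ∀ m3 ∈ ([6, 7, 10, 11, 15, 19] : List Nat), ∀ m4 ∈ ([6, 7, 10, 11, 15, 19] : List Nat),
      ∃ m ∈ ([21945, 14630, 8778, 6270, 3990, 2310] : List Nat), m1 ∣ m ∧ m2 ∣ m ∧ m3 ∣ m ∧ m4 ∣ m by decide +kernel)
      m1 a1 m2 a2 m3 a3 m4 a4
    exact ⟨m, c0, Prod.ext (orderOf_dvd_iff_pow_eq_one.1 (b1.trans c1)) (Prod.ext (orderOf_dvd_iff_pow_eq_one.1 (b2.trans c2))
      (Prod.ext (orderOf_dvd_iff_pow_eq_one.1 (b3.trans c3)) (orderOf_dvd_iff_pow_eq_one.1 ((orderOf_dvd_of_pow_eq_one b4).trans c4))))⟩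
  have k : ∀ a b c d : ℕ, (∀ x ∈ [a, b, c], ∃ m ∈ ([6, 7, 10, 11, 15, 19] : List Nat), x ∣ m) → d ∈ Set.range (orderOf : X → ℕ) →
      ∃ g : Spor.J1 × Spor.J1 × Spor.J1 × X, orderOf g = a.lcm (b.lcm (c.lcm d)) := fun a b c d h ⟨w, e4⟩ => by
    obtain ⟨x, e1⟩ := s.ge (h a (by simp))
    obtain ⟨y, e2⟩ := s.ge (h b (by simp))
    obtain ⟨z, e3⟩ := s.ge (h c (by simp))
    exact ⟨(x, y, z, w), by simp only [Prod.orderOf_mk, e1, e2, e3, e4]⟩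
  simp only [List.forall_mem_cons]
  exact ⟨⟨by simp, k 15 11 19 7 (by decide) h7⟩, ⟨by simp, k 10 11 19 7 (by decide) h7⟩, ⟨by simp, k 6 11 19 7 (by decide) h7⟩,
    ⟨by simp, k 15 11 19 2 (by decide) h2⟩, ⟨by simp, k 6 5 19 7 (by decide) h7⟩, ⟨by simp, k 6 5 11 7 (by decide) h7⟩, by simp⟩

/-- Let J be the first Janko group. Then there are finite groups of arbitrarily large order with exactly the same set of element orders as J × J × J × J. -/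
theorem result (N : ℕ) : ∃ (H : Type) (_ : Group H) (_ : Fintype H), N < Fintype.card H ∧
      Set.range (orderOf : H → ℕ) = Set.range (orderOf : ↥Cfsg.Spor.J1 × ↥Cfsg.Spor.J1 × ↥Cfsg.Spor.J1 × ↥Cfsg.Spor.J1 → ℕ) := by
  have s := J1m.Sp.spec J1m.mdl
  have := J1m.mdl.1
  haveI : Fact (1 < 7) := ⟨by norm_num⟩
  have t := range_orderOf_frob (G := ℤˣ) (V := Fin (N + 1) → ZMod 7) (p := 7) (by norm_num)
    (fun v => funext fun i => (by decide : ∀ x : ZMod 7, 7 • x = 0) _) (fun g h v e => funext fun i => by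
      obtain rfl := (Int.units_eq_one_or g).resolve_left h
      exact (by decide : ∀ x : ZMod 7, (-1 : ℤˣ) • x = x → x = 0) _ (congrFun e i)) [2]
    (fun g => ⟨2, by simp, Int.units_sq g⟩) (by simpa using ⟨-1, orderOf_eq_prime (by decide) (by decide)⟩)
  refine ⟨Spor.J1 × Spor.J1 × Spor.J1 × Aff ℤˣ (Fin (N + 1) → ZMod 7), inferInstance, Fintype.ofFinite _,
    lt_of_lt_of_eq ?_ (@Nat.card_eq_fintype_card _ (Fintype.ofFinite _)), (key (fun x => ?_) (t.ge ⟨2, by simp⟩) (t.ge ⟨7, by simp⟩)).trans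
      (key (fun x => (s.le ⟨x, rfl⟩).imp fun _ h => ⟨h.1, orderOf_dvd_iff_pow_eq_one.1 h.2⟩) (s.ge ⟨6, by simp⟩) (s.ge ⟨7, by simp⟩)).symm⟩
  · exact (Aff.big N).trans_le (Nat.card_le_card_of_surjective (fun x => x.2.2.2) fun x => ⟨(1, 1, 1, x), rfl⟩)
  · obtain ⟨m, h1, h2⟩ := t.le ⟨x, rfl⟩
    simp only [List.mem_cons, List.not_mem_nil, or_false] at h1
    rcases h1 with rfl | rfl
    · exact ⟨7, by simp, orderOf_dvd_iff_pow_eq_one.1 h2⟩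
    · exact ⟨6, by simp, orderOf_dvd_iff_pow_eq_one.1 (h2.trans (by norm_num))⟩

end Cfsg.Agent.S3627
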