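import Mathlib
import Cfsg.Statements.S3639
import Cfsg.Agent.H8.Sz8

set_option autoImplicit false
open Cfsg

namespace Cfsg.Agent.S3639

open CfsgH8.SzG CfsgH8 MulAction Subgroup Matrix

theorem no_fix {F : Type*} [Field F] [Fintype F] {m : ℕ} [SzF F m] {g : Cfsg.Sz F m} {p : ℕ}
    (hp : p.Prime) (hp2 : p ≠ 2) (hg : orderOf g = p) {v : Fin 4 → F} (hv : g • v = v) : v = 0 := by
  have h1 : g ≠ 1 := fun h0 => hp.one_lt.ne (by rw [← hg, h0, orderOf_one])
  rcases cases_elem h1 with h2 | ⟨-, k, t, ht⟩ | h2
  · exact absurd ((Nat.prime_dvd_prime_iff_eq Nat.prime_two hp).1 (hg ▸ cls_U_even h2)).symm hp2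
  · have ht1 : t ≠ 1 := by
      rintro rfl
      exact conj_ne_one k h1 (by rw [← ht, map_one])
    have h3 : d m t • (k • v) = k • v := by
      rw [← dH_apply, ht, mul_smul, mul_smul, inv_smul_smul, hv]
    have h4 : th m (t : F) ≠ 1 := fun h0 => ht1 (Units.ext (th_inj (m := m) (by simpa using h0)))
    have h5 : th m (t : F) * (t : F) ^ 2 ≠ 1 := fun h0 => ht1 (Units.ext (thmul_inj (m := m)
      (th_inj (m := m) (by simpa [mul_comm] using h0))))
    have h6 : k • v = 0 := by
      generalize k • v = x at h3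
      change (d m t).1.1 *ᵥ x = x at h3
      rw [d_val] at h3
      ext i
      have := congrFun h3 i
      rw [mulVec_diagonal] at this
      by_contra h0
      have := mul_right_cancel₀ h0 (this.trans (one_mul _).symm)
      fin_cases i
      · exact h5 this
      · exact h4 this
      · exact h4 (inv_eq_one.1 this)
      · exact h5 (inv_eq_one.1 this)
    rw [← inv_smul_smul k v, h6, smul_zero]
  · rcases irred hp hg (hg ▸ h2.orderOf_dvd)
      (LinearMap.eqLocus (Matrix.mulVecLin g.1.1) LinearMap.id) (fun x hx => by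
        change g.1.1 *ᵥ x = x at hx
        change g.1.1 *ᵥ (g.1.1 *ᵥ x) = g.1.1 *ᵥ x
        rw [hx, hx]) with h3 | h3
    · have : v ∈ LinearMap.eqLocus (Matrix.mulVecLin g.1.1) LinearMap.id := hv
      rwa [h3] at this
    · exact absurd (sz_ext (Matrix.toLin'.injective (by
        rw [one_val, toLin'_one]; exact LinearMap.eqLocus_eq_top.1 h3))) h1

def act (G V : Type*) [Group G] [AddCommGroup V] [DistribMulAction G V] :
    G →* MulAut (Multiplicative V) where
  toFun g := AddEquiv.toMultiplicative (DistribMulAction.toAddEquiv V g)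
  map_one' := by ext; simp
  map_mul' _ _ := by ext; simp [mul_smul]

/-- Let S be the Suzuki group over the field with q = 2^(2m+1) ≥ 8 elements. Then there are finite groups of arbitrarily large order with the same prime graph as S. -/
theorem result {F : Type*} [Field F] [Fintype F] {m : ℕ} (hm : 1 ≤ m) (hF : Fintype.card F = 2 ^ (2 * m + 1)) (N : ℕ) :
    ∃ (H : Type) (_ : Group H) (_ : Fintype H), N < Fintype.card H ∧ ((∀ r : ℕ, r.Prime → (r ∣ Nat.card ↥(Cfsg.Lie.Sz F (2 ^ (m + 1))) ↔ r ∣ Nat.card H)) ∧
      (∀ r s : ℕ, r.Prime → s.Prime → r ≠ s → ((∃ x : ↥(Cfsg.Lie.Sz F (2 ^ (m + 1))), orderOf x = r * s) ↔ (∃ y : H, orderOf y = r * s)))) := by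
  haveI : CfsgH8.SzG.SzF F m := ⟨hm, hF⟩
  haveI := charP (F := F) (m := m)
  let V := Fin N → Fin 4 → F
  let H := SemidirectProduct (Multiplicative V) (Cfsg.Sz F m) (act _ _)
  haveI : Finite H := Finite.of_equiv _ (SemidirectProduct.equivProd).symm
  have hc : Nat.card H = (2 ^ (2 * m + 1)) ^ (4 * N) * Nat.card (Cfsg.Sz F m) := by
    rw [SemidirectProduct.card, ← hF, pow_mul]
    simp [V]
  let e := lieEquiv F m
  let f : Shrink.{0} H ≃* H := Shrink.mulEquiv
  letI := Fintype.ofFinite (Shrink.{0} H)
  refine ⟨Shrink.{0} H, inferInstance, this, ?_, ?_, ?_⟩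
  · rw [← Nat.card_eq_fintype_card, Nat.card_congr f.toEquiv, hc, ← pow_mul]
    calc N < 2 ^ N := Nat.lt_two_pow_self
      _ ≤ 2 ^ ((2 * m + 1) * (4 * N)) := Nat.pow_le_pow_right (by norm_num) (by nlinarith)
      _ ≤ _ := Nat.le_mul_of_pos_right _ Nat.card_pos
  · intro r hr
    rw [Nat.card_congr f.toEquiv, hc, ← Nat.card_congr e.toEquiv]
    refine ⟨fun h1 => h1.mul_left _, fun h1 => ?_⟩
    rcases hr.dvd_mul.1 h1 with h2 | h2
    · rw [(Nat.prime_dvd_prime_iff_eq hr Nat.prime_two).1 (hr.dvd_of_dvd_pow (hr.dvd_of_dvd_pow h2)),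
        ← orderOf_u_zero (m := m) (one_ne_zero (α := F))]
      exact orderOf_dvd_natCard _
    · exact h2
  · intro r s hr hs hrs
    constructor
    · rintro ⟨x, hx⟩
      refine ⟨f.symm (SemidirectProduct.inr (e.symm x)), ?_⟩
      rw [MulEquiv.orderOf_eq, orderOf_injective _ SemidirectProduct.inr_injective,
        MulEquiv.orderOf_eq, hx]
    · rintro ⟨y, hy⟩
      rw [← f.orderOf_eq] at hy
      generalize f y = y at hy
      refine ⟨e y.right, ?_⟩
      rw [MulEquiv.orderOf_eq]
      have h1 : orderOf y.right ∣ r * s := hy ▸ orderOf_map_dvd SemidirectProduct.rightHom y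
      have h2 : (y ^ orderOf y.right).right = 1 := by
        rw [← SemidirectProduct.rightHom_eq_right, map_pow]; exact pow_orderOf_eq_one _
      obtain ⟨v, hv⟩ : ∃ v, y ^ orderOf y.right = SemidirectProduct.inl v :=
        ⟨(y ^ orderOf y.right).left, by ext <;> simp [h2]⟩
      have h3 : r * s ∣ orderOf y.right * 2 := by
        rw [← hy, orderOf_dvd_iff_pow_eq_one, pow_mul, hv, ← map_pow]
        have : v ^ 2 = 1 := by
          apply Multiplicative.toAdd.injective
          ext i j
          rw [sq]
          exact CharTwo.add_self_eq_zero (Multiplicative.toAdd v i j)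
        rw [this, map_one]
      have key : ∀ a b : ℕ, a.Prime → b.Prime → a ≠ b → a * b = r * s → orderOf y.right ≠ a := by
        intro a b ha hb hab hrs' ho
        rw [← hrs', ho] at h3
        have hb2 := (Nat.prime_dvd_prime_iff_eq hb Nat.prime_two).1
          (Nat.dvd_of_mul_dvd_mul_left ha.pos h3)
        have h4 : y * SemidirectProduct.inl v = SemidirectProduct.inl v * y := by
          rw [← hv]; exact Commute.self_pow y _
        have h5 := congrArg SemidirectProduct.left h4
        rw [SemidirectProduct.mul_left, SemidirectProduct.mul_left, SemidirectProduct.left_inl,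
          SemidirectProduct.right_inl, map_one, MulAut.one_apply, mul_comm v, mul_right_inj] at h5
        have h6 : v = 1 := by
          apply Multiplicative.toAdd.injective
          ext1 i
          exact no_fix ha (hb2 ▸ hab) ho (congrFun (congrArg Multiplicative.toAdd h5) i)
        rw [h6, map_one, ← orderOf_dvd_iff_pow_eq_one, hy, ← hrs', ho] at hv
        have := Nat.le_of_dvd ha.pos hv
        have := hb.two_le
        nlinarith [ha.pos]
      obtain ⟨a, b, ha, hb, hab⟩ := (Nat.dvd_mul).1 h1
      rcases (Nat.dvd_prime hr).1 ha with rfl | rfl <;> rcases (Nat.dvd_prime hs).1 hb with rfl | rfl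
      · rw [← hab] at h3
        have := Nat.le_of_dvd two_pos h3
        have := hr.two_le
        have := hs.two_le
        nlinarith
      · exact absurd (by rw [← hab, one_mul]) (key b r hs hr hrs.symm (mul_comm _ _))
      · exact absurd (by rw [← hab, mul_one]) (key a s hr hs hrs rfl)
      · exact hab.symm

end Cfsg.Agent.S3639
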