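import Mathlib
import Cfsg.Statements.S3660
import Cfsg.Agent.H8.Aff
import Cfsg.Agent.H8.SL2n
import Cfsg.Agent.H8.FFsub
import Cfsg.Agent.H8.PslC

set_option autoImplicit false
open Cfsg

namespace Cfsg.Agent.S3660

open CfsgH8

/-- The prime graph of a finite group has the prime divisors of its order as vertices, two distinct primes p, q being joined when the group has an element of order pq; two groups have the same prime graph when they have the same prime divisors and the same joined pairs. Let F be a finite field of characteristic 2 with at least 4 elements. Then there are finite groups of arbitrarily large order with the same prime graph as PSL(2,F); in particular PSL(2,F) is not determined by its prime graph. -/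
theorem result {F : Type*} [Field F] [Fintype F] [CharP F 2] (hF : 4 ≤ Fintype.card F) (N : ℕ) :
    ∃ (H : Type) (_ : Group H) (_ : Finite H), N < Nat.card H ∧
      ((∀ p : ℕ, p.Prime → (p ∣ Nat.card (Matrix.ProjectiveSpecialLinearGroup (Fin 2) F) ↔ p ∣ Nat.card H)) ∧
      (∀ p q : ℕ, p.Prime → q.Prime → p ≠ q → ((∃ g : (Matrix.ProjectiveSpecialLinearGroup (Fin 2) F), orderOf g = p * q) ↔ (∃ g : H, orderOf g = p * q)))) := by
  obtain ⟨n, -, hn⟩ := FiniteField.card F 2
  have hn0 : (n : ℕ) ≠ 0 := n.ne_zero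
  obtain ⟨K, _, _, hK⟩ := exists_field_card (l := Fintype.card F) (hn ▸ Nat.prime_two.isPrimePow.pow hn0)
  have ev : Fintype.card K % 2 = 0 := by rw [hK, hn]; exact Nat.mod_eq_zero_of_dvd (dvd_pow_self 2 hn0)
  have t0 : (2 : K) = 0 := by
    have := neg_eq_self_of_even ev (1 : Matrix.SpecialLinearGroup (Fin 2) K)
    have := congrArg (fun g : Matrix.SpecialLinearGroup (Fin 2) K => g.1 0 0) this
    simp at this
    linear_combination -this
  obtain ⟨e⟩ := psl_congr (ι := Fin 2) hK
  have inj : Function.Injective (πS : Matrix.SpecialLinearGroup (Fin 2) K →* _) := fun g h t =>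
    (πS_eq_iff.1 t).elim id fun t => t.trans (neg_eq_self_of_even ev h)
  let E := (MulEquiv.ofBijective _ ⟨inj, πS_surj⟩).trans e
  have c2 : 2 ∣ Nat.card (Matrix.SpecialLinearGroup (Fin 2) K) := by
    rw [card_SL2', mul_assoc]; exact (Nat.dvd_of_mod_eq_zero ev).mul_right _
  have cV : Nat.card (Fin (N + 1) → Fin 2 → K) = 2 ^ (n * 2 * (N + 1)) := by
    simp [hK, hn, pow_mul]
  refine ⟨Aff (Matrix.SpecialLinearGroup (Fin 2) K) (Fin (N + 1) → Fin 2 → K), inferInstance, inferInstance, ?_,
    fun p hp => ?_, fun p r hp hr ne => ?_⟩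
  · rw [card_Aff, cV]
    have : N + 1 ≤ n * 2 * (N + 1) := Nat.le_mul_of_pos_left _ (by positivity)
    have := @Nat.lt_two_pow_self (n * 2 * (N + 1))
    have := Nat.le_mul_of_pos_right (2 ^ (n * 2 * (N + 1))) (Nat.card_pos (α := Matrix.SpecialLinearGroup (Fin 2) K))
    omega
  · rw [card_Aff, cV, ← Nat.card_congr E.toEquiv, hp.dvd_mul]
    exact ⟨.inr, fun h => h.elim (fun h => (Nat.prime_dvd_prime_iff_eq hp Nat.prime_two).1 (hp.dvd_of_dvd_pow h) ▸ c2) id⟩
  · rw [← Aff.order Nat.prime_two (fun v => ?_) (fun g hg h2 v hv => ?_) hp hr ne]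
    · exact ⟨fun ⟨g, h⟩ => ⟨E.symm g, by rwa [MulEquiv.orderOf_eq]⟩, fun ⟨g, h⟩ => ⟨E g, by rwa [MulEquiv.orderOf_eq]⟩⟩
    · funext i j
      simp [t0]
    · funext i
      have h : g.1.mulVec (v i) = v i := congrFun hv i
      have := congrArg (fun m => Matrix.mulVec m (v i)) (sq_SL2 g)
      simp only [← Matrix.mulVec_mulVec, h, Matrix.sub_mulVec, Matrix.smul_mulVec, Matrix.one_mulVec] at this
      by_contra hne
      have t : g.1.trace = 0 := by
        obtain ⟨j, hj⟩ := Function.ne_iff.1 hne
        have := congrFun this j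
        simp only [Pi.sub_apply, Pi.smul_apply, smul_eq_mul] at this
        refine (mul_eq_zero.1 (?_ : g.1.trace * v i j = 0)).resolve_right hj
        linear_combination -this + v i j * t0
      have := (sq_eq_neg_one_of_trace t).trans (neg_eq_self_of_even ev 1)
      exact h2 ((Nat.prime_dvd_prime_iff_eq hg Nat.prime_two).1 (orderOf_dvd_of_pow_eq_one ((sq g).trans this)))

end Cfsg.Agent.S3660
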