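import Cfsg.Statements.S3664
import Mathlib
import Cfsg.Agent.H7.Sp.S63
import Cfsg.Agent.H7.Sp.Sz83

set_option autoImplicit false
open Cfsg

namespace Cfsg.Agent.S3664

open CfsgH7

/-- The prime graph of a finite group has the prime divisors of its order as vertices, two distinct primes p, q being joined when the group has an element of order pq; two groups have the same prime graph when they have the same prime divisors and the same joined pairs. Let F be the field with 3 elements and L = PSp(6,F). There are finite groups of arbitrarily large order with the same prime graph as L (a prime graph shared by the orthogonal groups Ω₇(3) and PΩ⁺₈(3)). -/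
theorem result {F : Type*} [Field F] [Fintype F] (hF : Fintype.card F = 3) (N : ℕ) :
    ∃ (H : Type) (_ : Group H) (_ : Finite H), N < Nat.card H ∧
      ((∀ p : ℕ, p.Prime → (p ∣ Nat.card (Cfsg.PSp 3 F) ↔ p ∣ Nat.card H)) ∧
      (∀ p q : ℕ, p.Prime → q.Prime → p ≠ q → ((∃ g : (Cfsg.PSp 3 F), orderOf g = p * q) ↔ (∃ g : H, orderOf g = p * q)))) := by
  obtain ⟨H, i1, i2, h1, h2, h3⟩ := Sz83.Sp.pg N
  obtain ⟨h4, h5⟩ := S63.pg hF
  exact ⟨H, i1, i2, h1, fun p hp => (h4 p hp).trans (h2 p hp).symm, fun p q hp hq n => (h5 p q hp hq n).trans (h3 p q hp hq n).symm⟩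

end Cfsg.Agent.S3664
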