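import Cfsg.Statements.S3669
import Cfsg.Agent.H3.Hv1
import Cfsg.Agent.H3.More
import Cfsg.Agent.H3.Mz
import Cfsg.Agent.H8.SL2f
import Cfsg.Agent.H8.Dick3
import Cfsg.Agent.H8.SmallId
import Cfsg.Agent.H2.Trans

set_option autoImplicit false
open Cfsg

namespace Cfsg.Agent.S3669
open Subgroup CfsgH2 CfsgH3 CfsgH8
theorem five : 5 ∈ Cfsg.charDegrees (alternatingGroup (Fin 5)) := by
  haveI := Fintype.ofFinite (GaloisField 2 2)
  have c : Fintype.card (GaloisField 2 2) = 4 := by
    rw [← Nat.card_eq_fintype_card, GaloisField.card 2 2 two_ne_zero]; rfl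
  haveI := simple_PSL2 c.ge
  obtain ⟨e⟩ := equiv_A5_of_simple (card_PSL2_sixty (.inl c))
  have := (mem_charDegrees_PSL2 c.ge (by omega)).2.1
  rw [c] at this
  exact charDegrees_subset_of_surjective e.symm.toMonoidHom e.symm.surjective this

/-- The character degree graph of a finite group has as vertices the primes dividing some irreducible complex character degree, two distinct primes being joined when their product divides some irreducible character degree; two groups have the same character degree graph when they have the same vertices and the same joined pairs. A finite group of order 60 with the same character degree graph as the alternating group A₅ (whose character degrees are 1, 3, 4, 5, so the graph has vertices 2, 3, 5 and no edges) is isomorphic to A₅. -/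
theorem result {G : Type*} [Group G] [Finite G] (hcard : Nat.card G = 60)
    (hΓ : Cfsg.degreePrimes G = Cfsg.degreePrimes (alternatingGroup (Fin 5)) ∧ Cfsg.degreeGraph G = Cfsg.degreeGraph (alternatingGroup (Fin 5))) : Nonempty (G ≃* alternatingGroup (Fin 5)) := by
  haveI : Fact (Nat.Prime 5) := ⟨by norm_num⟩
  obtain ⟨-, d, hd, d5⟩ : 5 ∈ Cfsg.degreePrimes G := hΓ.1 ▸ ⟨by norm_num, 5, five, dvd_rfl⟩
  obtain ⟨χ, hχ, hd⟩ := mem_charDegrees.1 hd
  have sy : ∀ (p m : ℕ) [Fact p.Prime] (x : G), orderOf x = p → 60 = p * m → ¬ p ∣ m → Syl p (zpowers x) ⊤ ∧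
      ∃ n, n * o[N[zpowers x]] = 60 ∧ n ∣ m ∧ n % p = 1 % p ∧ (n = 1 → (zpowers x).Normal) := fun p m hp x ox h1 h2 => by
    have i : (zpowers x).index = m := Nat.eq_of_mul_eq_mul_left hp.out.pos (by
      rw [← h1, ← hcard, ← (zpowers x).card_mul_index, Nat.card_zpowers, ox])
    have s : Syl p (zpowers x) ⊤ := ⟨le_top, isPGroup_of_card' (by rw [Nat.card_zpowers, ox]), by
      rwa [relIndex_top_right, i]⟩
    obtain ⟨P, hP⟩ := s.exists_top
    refine ⟨s, N[zpowers x].index, by rw [index_mul_card, hcard], i ▸ index_dvd_of_le le_normalizer, ?_,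
      fun h => normalizer_eq_top_iff.1 (index_eq_one.1 h)⟩
    rw [← hP]
    exact P.card_eq_index_normalizer ▸ card_sylow_modEq_one p G
  have n5 : ∀ x : G, orderOf x = 5 → o[N[zpowers x]] = 10 := fun x ox => by
    obtain ⟨-, n, h1, h2, h3, h4⟩ := sy 5 12 x ox rfl (by norm_num)
    have : n ≠ 1 := fun e => by
      haveI := h4 e
      have := d5.trans (hχ.degree_dvd_index_of_abelian_normal hd (zpowers x) fun a ha b hb => by
        rw [comm_of_isMulComm inferInstance ha hb]; simp)
      have h := (zpowers x).card_mul_index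
      rw [Nat.card_zpowers, ox, hcard] at h
      omega
    have := Nat.le_of_dvd (by norm_num) h2
    interval_cases n <;> omega
  have a3 : ∀ x y : G, orderOf x = 5 → orderOf y = 3 → x ∉ N[zpowers y] := fun x y ox oy h => by
    have := card_modEq_inf_cent (p := 5) (isPGroup_of_card' (by rw [Nat.card_zpowers, ox])) (zpowers_le.2 h)
    have d := card_dvd_of_le ((inf_le_right : zpowers y ⊓ C[zpowers x] ≤ _).trans (cent_le_norm _))
    have l := card_le_of_le (inf_le_left : zpowers y ⊓ C[zpowers x] ≤ _)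
    rw [Nat.card_zpowers, oy] at this l
    rw [n5 x ox] at d
    unfold Nat.ModEq at this
    rw [show o[zpowers y ⊓ C[zpowers x]] = 3 by omega] at d
    norm_num at d
  have pw : ∀ (g : G) (a b : ℕ), orderOf g = a * b → orderOf (g ^ a) = b ∧ zpowers g ≤ C[zpowers (g ^ a)] :=
    fun g a b h => ⟨by
      have : a ≠ 0 := fun e => (orderOf_pos g).ne' (by rw [h, e, zero_mul])
      rw [orderOf_pow_of_dvd this ⟨b, h⟩, h, Nat.mul_div_cancel_left _ (by omega)],
      le_cent_of_comm inferInstance (zpowers_le.2 (pow_mem (mem_zpowers g) a))⟩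
  have bn : ∀ (p : ℕ) [Fact p.Prime] (g : G), orderOf g = 2 * p → Syl p (zpowers (g ^ 2)) ⊤ →
      o[N[zpowers (g ^ 2)]] = 2 * p → ∃ K : Subgroup G, K.Normal ∧ ¬ p ∣ o[K] ∧ ∀ x, (orderOf x).Coprime p → x ∈ K :=
    fun p _ g h s hn => by
      have := s.npc_of_norm_le_cent (inf_le_right.trans ((eq_of_le_of_card_le ((pw g 2 p h).2.trans (cent_le_norm _))
        (by rw [hn, Nat.card_zpowers, h])).ge.trans (pw g 2 p h).2))
      exact ⟨_, inferInstance, not_dvd_piCoreOf, fun x hx => this.mem (mem_top x) hx⟩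
  obtain ⟨x, ox⟩ := exists_prime_orderOf_dvd_card' (G := G) 5 (by rw [hcard]; norm_num)
  refine equiv_A5_of_orders hcard fun g => ⟨fun h => ?_, fun h => ?_, fun h => ?_⟩
  · obtain ⟨s, n, h1, h2, h3, h4⟩ := sy 3 20 _ (pw g 2 3 h).1 rfl (by norm_num)
    have d := card_dvd_of_le ((pw g 2 3 h).2.trans (cent_le_norm _))
    rw [Nat.card_zpowers, h] at d
    have : n ≠ 1 := fun e => a3 x _ ox (pw g 2 3 h).1 (by haveI := h4 e; exact le_normalizer_of_normal (mem_top x))
    have := Nat.le_of_dvd (by norm_num) h2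
    obtain ⟨K, Kn, K1, K2⟩ := bn 3 g h s (by interval_cases n <;> omega)
    have s5 := (sy 5 12 x ox rfl (by norm_num)).1.mono (zpowers_le.2 (K2 x (by rw [ox]; norm_num))) le_top
    have e := s5.frattini_sup (M := ⊤) le_top le_normalizer_of_normal
    have := card_sup_dvd (H := K) (K := ⊤ ⊓ N[zpowers x]) (.inr le_normalizer_of_normal)
    rw [e, card_top, hcard, top_inf_eq, n5 x ox] at this
    omega
  · obtain ⟨K, Kn, K1, K2⟩ := bn 5 g h (sy 5 12 _ (pw g 2 5 h).1 rfl (by norm_num)).1 (n5 _ (pw g 2 5 h).1)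
    obtain ⟨y, oy⟩ := exists_prime_orderOf_dvd_card' (G := G) 3 (by rw [hcard]; norm_num)
    have s3 := (sy 3 20 y oy rfl (by norm_num)).1.mono (zpowers_le.2 (K2 y (by rw [oy]; norm_num))) le_top
    have e := s3.frattini_sup (M := ⊤) le_top le_normalizer_of_normal
    have := card_sup_dvd (H := K) (K := ⊤ ⊓ N[zpowers y]) (.inr le_normalizer_of_normal)
    rw [e, card_top, hcard, top_inf_eq] at this
    obtain ⟨w, hw, ow⟩ := exists_prime_order_mem (p := 5) Fact.out
      (((Fact.out : Nat.Prime 5).dvd_mul.1 ((by norm_num : 5 ∣ 60).trans this)).resolve_left K1)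
    exact a3 w y ow oy hw
  · have d := card_dvd_of_le ((pw g 3 5 h).2.trans (cent_le_norm _))
    rw [Nat.card_zpowers, h, n5 _ (pw g 3 5 h).1] at d
    norm_num at d


end Cfsg.Agent.S3669
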