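import Mathlib
import Cfsg.Statements.S3678
import Cfsg.Agent.S3660

set_option autoImplicit false
open Cfsg

namespace Cfsg.Agent.S3678

open CfsgH8

theorem no_pq {p r l k : ℕ} (hp : p.Prime) (hr : r.Prime) (n : p ≠ r) (hl : l.Prime) : ¬ p * r ∣ l ^ k := fun h =>
  n (((Nat.prime_dvd_prime_iff_eq hp hl).1 (hp.dvd_of_dvd_pow ((dvd_mul_right _ _).trans h))).trans
    ((Nat.prime_dvd_prime_iff_eq hr hl).1 (hr.dvd_of_dvd_pow ((dvd_mul_left _ _).trans h))).symm)

/-- The prime graph of a finite group has the prime divisors of its order as vertices, two distinct primes p, q being joined when the group has an element of order pq; two groups have the same prime graph when they have the same prime divisors and the same joined pairs. Let F be the field with 7 elements. There are finite groups of arbitrarily large order with the same prime graph as PSL(2,F) (the graph on {2, 3, 7} with no edges, which is also the prime graph of PSL(2,8)). -/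
theorem result {F : Type*} [Field F] [Fintype F] (hF : Fintype.card F = 7) (N : ℕ) :
    ∃ (H : Type) (_ : Group H) (_ : Finite H), N < Nat.card H ∧
      ((∀ p : ℕ, p.Prime → (p ∣ Nat.card (Matrix.ProjectiveSpecialLinearGroup (Fin 2) F) ↔ p ∣ Nat.card H)) ∧
      (∀ p q : ℕ, p.Prime → q.Prime → p ≠ q → ((∃ g : (Matrix.ProjectiveSpecialLinearGroup (Fin 2) F), orderOf g = p * q) ↔ (∃ g : H, orderOf g = p * q)))) := by
  obtain ⟨K, _, _, hK⟩ := exists_field_card (l := 2 ^ 3) (Nat.prime_two.isPrimePow.pow (by norm_num))
  haveI : CharP K 2 := charP_of_card_eq_prime_pow hK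
  haveI := Fact.mk (by norm_num : Nat.Prime 7)
  haveI : CharP F 7 := charP_of_card_eq_prime hF
  obtain ⟨H, _, _, h1, h2, h3⟩ := S3660.result (F := K) (by omega) N
  have c1 := card_PSL2 (F := F)
  have c2 := card_PSL2 (F := K)
  rw [hF] at c1
  rw [hK] at c2
  have c1 : Nat.card (Matrix.ProjectiveSpecialLinearGroup (Fin 2) F) = 168 := by norm_num at c1; omega
  have c2 : Nat.card (Matrix.ProjectiveSpecialLinearGroup (Fin 2) K) = 168 * 3 := by norm_num at c2; omega
  refine ⟨H, inferInstance, inferInstance, h1, fun p hp => ?_, fun p r hp hr n => ?_⟩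
  · rw [← h2 p hp, c1, c2, hp.dvd_mul]
    exact ⟨.inl, fun h => h.elim id fun h => h.trans (by norm_num)⟩
  · rw [← h3 p r hp hr n]
    refine iff_of_false (fun ⟨g, h⟩ => ?_) fun ⟨g, h⟩ => ?_
    · have := orderOf_πS_cases 7 g
      rw [hF, h] at this
      rcases this with t | t | t
      · exact no_pq (l := 7) (k := 1) hp hr n (by norm_num) t
      · exact no_pq (l := 3) (k := 1) hp hr n (by norm_num) t
      · exact no_pq (l := 2) (k := 2) hp hr n (by norm_num) t
    · have := orderOf_πS_cases 2 g
      rw [hK, h] at this
      rcases this with t | t | t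
      · exact no_pq (l := 2) (k := 1) hp hr n (by norm_num) t
      · exact no_pq (l := 7) (k := 1) hp hr n (by norm_num) t
      · exact no_pq (l := 3) (k := 2) hp hr n (by norm_num) t

end Cfsg.Agent.S3678
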