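import Cfsg.Statements.S3682
import Mathlib
import Cfsg.Agent.H9.TW

set_option autoImplicit false
open Cfsg

namespace Cfsg.Agent.S3682

/-- Wielandt's bound toward the Sims conjecture. Let a finite group G act faithfully and primitively on a set Ω, let a and b be points, and suppose the orbit of b under the stabilizer of a has length d ≥ 2. Then there are a prime p and a normal p-subgroup P of the stabilizer of a, all of whose elements fix b, such that the index of P in the stabilizer of a divides d! · ((d - 1)!)^d. -/
theorem result {G Ω : Type*} [Group G] [Finite G] [MulAction G Ω] [FaithfulSMul G Ω] [Finite Ω]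
    (hprim : MulAction.IsPreprimitive G Ω) (a b : Ω) (d : ℕ) (hd : Nat.card (MulAction.orbit (MulAction.stabilizer G a) b) = d) (h2 : 2 ≤ d) :
    ∃ p : ℕ, p.Prime ∧ ∃ P : Subgroup (MulAction.stabilizer G a), P.Normal ∧ IsPGroup p P ∧ (∀ g : P, ((g : MulAction.stabilizer G a) : G) • b = b) ∧
      P.index ∣ Nat.factorial d * (Nat.factorial (d - 1)) ^ d := by
  open Subgroup CfsgH9 in
  obtain ⟨h, i⟩ := tw_perm hprim a b hd h2
  rcases h.cases i with k | k
  · exact ⟨2, Nat.prime_two, ⊥, inferInstance, IsPGroup.of_bot, fun g => by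
      rw [mem_bot.1 g.2]; exact one_smul _ _, by rwa [index_bot]⟩
  obtain ⟨p, hp, h1, -⟩ := h.main (sc_co _ _) k.1 (sc_co' _ _) k.2
  have := co_co_index i (h.relIndex_eq.trans i)
  rw [co, relIndex_map_subtype] at this
  exact ⟨p, hp, _, inferInstance, (isPGroup_map_iff (subtype_injective _)).2 h1,
    fun g => (sc_co _ _).sn.le ⟨g.1, g.2, rfl⟩, this⟩

end Cfsg.Agent.S3682
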