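import Cfsg.Statements.S3684
import Cfsg.Agent.H3.Hv1
import Cfsg.Agent.H1.Gasch
import Cfsg.Agent.H5.Dihed
import Cfsg.Agent.H8.Basic

set_option autoImplicit false
open Cfsg

namespace Cfsg.Agent.S3684
open Subgroup CfsgH2 MulAction

/-- Let a finite group G act faithfully and primitively on a set Ω, and suppose the stabilizer of a point a has an orbit of length 2. Then the stabilizer of a has order 2 and G is isomorphic to the dihedral group of order 2p for some prime p. -/
theorem result {G Ω : Type*} [Group G] [Finite G] [MulAction G Ω] [FaithfulSMul G Ω] [Finite Ω]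
    (hprim : MulAction.IsPreprimitive G Ω) (a b : Ω) (h2 : Nat.card (MulAction.orbit (MulAction.stabilizer G a) b) = 2) :
    Nat.card (MulAction.stabilizer G a) = 2 ∧ ∃ p : ℕ, p.Prime ∧ Nonempty (G ≃* DihedralGroup p) := by
  have cf : ∀ N : Subgroup G, N.Normal → N ≤ stabilizer G a → N = ⊥ := fun N hN h =>
    eq_bot_iff.2 fun x hx => eq_of_smul_eq_smul (α := Ω) fun c => by
      obtain ⟨k, rfl⟩ := exists_smul_eq G a c
      have := mem_stabilizer_iff.1 (h (hN.conj_mem' x hx k))
      rw [mul_smul, mul_smul, inv_smul_eq_iff] at this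
      rw [this, one_smul]
  have r1 : (stabilizer G b).relIndex (stabilizer G a) = 2 := by
    rw [← h2, Nat.card_coe_set_eq, ← index_stabilizer]; rfl
  have cd : o[stabilizer G b] = o[stabilizer G a] := by
    haveI : Nonempty Ω := ⟨a⟩
    exact Nat.eq_of_mul_eq_mul_left Nat.card_pos
      ((CfsgH8.card_eq_mul_stabilizer b).symm.trans (CfsgH8.card_eq_mul_stabilizer a))
  have r2 : (stabilizer G a).relIndex (stabilizer G b) = 2 := by
    have h1 := card_inf_mul_relIndex (stabilizer G a) (stabilizer G b)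
    have h3 := card_inf_mul_relIndex (stabilizer G b) (stabilizer G a)
    rw [cd, ← h3, r1, inf_comm] at h1
    exact Nat.eq_of_mul_eq_mul_left Nat.card_pos h1
  have nl : ¬ stabilizer G b ≤ stabilizer G a := fun h => by rw [relIndex_eq_one.2 h] at r2; omega
  haveI : Nontrivial G := by
    by_contra h; haveI := not_nontrivial_iff_subsingleton.1 h
    exact nl fun x _ => Subsingleton.elim 1 x ▸ one_mem _
  have hc := CfsgH1.coatom_stabilizer hprim a
  have top : ∀ L, stabilizer G a ≤ L → ¬ L ≤ stabilizer G a → L = ⊤ := fun L h1 h2 => hc.2 _ (lt_of_le_not_ge h1 h2)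
  have n2 : ∀ H K : Subgroup G, H.relIndex K = 2 → K ≤ N[H ⊓ K] := fun H K h =>
    (normal_subgroupOf_iff' inf_le_right).1 (by rw [inf_subgroupOf_right]; exact normal_of_index_eq_two h)
  have k0 : stabilizer G a ⊓ stabilizer G b = ⊥ := cf _ (normalizer_eq_top_iff.1 (top _
    (inf_comm (stabilizer G b) _ ▸ n2 _ _ r1) fun h => nl ((n2 _ _ r2).trans h))) inf_le_left
  have c2 : o[stabilizer G a] = 2 := by
    rw [← cd, ← card_inf_mul_relIndex (stabilizer G a), k0, r2, card_bot]
  refine ⟨c2, ?_⟩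
  obtain ⟨s, hs, os⟩ := exists_prime_order_mem Nat.prime_two c2.symm.dvd
  obtain ⟨t, ht, ot⟩ := exists_prime_order_mem Nat.prime_two (cd.trans c2).symm.dvd
  have s2 := CfsgL0.inv_mul_self os
  have t2 := CfsgL0.inv_mul_self ot
  have zs : zpowers s = stabilizer G a := zpowers_eq_of_prime (c2 ▸ Nat.prime_two) hs (CfsgL0.inv_ne_one os)
  have ta : t ∉ stabilizer G a := fun h => CfsgL0.inv_ne_one ot (mem_bot.1 (k0 ▸ ⟨h, ht⟩))
  have r0 : orderOf (s * t) ≠ 1 := fun e => ta (by
    rw [eq_inv_of_mul_eq_one_right (orderOf_eq_one_iff.1 e)]; exact inv_mem hs)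
  have hp := Nat.minFac_prime r0
  obtain ⟨x, hx, ox⟩ := exists_prime_order_mem (H := zpowers (s * t)) hp (by rw [Nat.card_zpowers]; exact Nat.minFac_dvd _)
  have si : s⁻¹ = s := inv_eq_of_mul_eq_one_right s2
  have iv : s * x * s = x⁻¹ := by
    obtain ⟨i, rfl⟩ := hx
    have : s * (s * t) * s⁻¹ = (s * t)⁻¹ := by rw [mul_inv_rev, inv_eq_of_mul_eq_one_right t2, ← mul_assoc, s2, one_mul]
    simp only
    rw [← inv_zpow, ← this, conj_zpow, si]
  have sn : s ∈ N[zpowers x] := mem_norm_zpowers (by rw [si, iv]; exact inv_mem (mem_zpowers x))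
  have xn : (zpowers x).Normal := normalizer_eq_top_iff.1 (top _ (zs ▸ zpowers_le.2 sn) fun h => ta (by
    have : s * t ∈ N[zpowers x] := cent_le_norm _ (le_cent_of_comm inferInstance (zpowers_le.2 hx) (mem_zpowers _))
    exact (mul_mem_cancel_left hs).1 (h this)))
  have x0 : zpowers x ≠ ⊥ := fun e => r0 (Nat.minFac_eq_one_iff.1 (by rw [← ox, zpowers_eq_bot.1 e, orderOf_one]))
  have e := top (zpowers x ⊔ stabilizer G a) le_sup_right fun h => x0 (cf _ xn (le_sup_left.trans h))
  refine ⟨_, hp, CfsgH5.nonempty_dihedral ox s2 iv (fun h => ?_) fun g => ?_⟩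
  · have e2 : zpowers x = ⊤ := by rw [← e, ← zs, sup_eq_left.2 (zpowers_le.2 h)]
    refine CfsgL0.inv_ne_one os (mem_bot.1 (cf _ (normalizer_eq_top_iff.1 (eq_top_iff.2 ?_)) le_rfl ▸ hs))
    exact e2 ▸ le_norm_of_le_cent (le_cent_of_comm inferInstance (e2 ▸ le_top))
  · obtain ⟨y, hy, k, rfl⟩ := (mem_sup_zpowers sn).1 (by rw [zs, e]; trivial : g ∈ _)
    rcases Int.even_or_odd' k with ⟨j, rfl | rfl⟩
    · left; rwa [zpow_mul, zpow_two, s2, one_zpow, mul_one]
    · right
      rw [zpow_add_one, zpow_mul, zpow_two, s2, one_zpow, one_mul, ← mul_assoc]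
      simpa [si] using xn.conj_mem y hy s


end Cfsg.Agent.S3684
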