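import Cfsg.Statements.S3693
import Mathlib
import Cfsg.Agent.H9.TW

set_option autoImplicit false
open Cfsg

namespace Cfsg.Agent.S3693

/-- Let a finite group G act faithfully and primitively on a set Ω, let a and b be points such that the orbit Δ of b under the stabilizer H of a has length d ≥ 2, and consider the permutation group induced on Δ by the elements of H fixing b. If that induced group has trivial Fitting subgroup (no non-trivial nilpotent normal subgroup), then the two-point stabilizer of a and b has trivial Fitting subgroup and the order of H divides d! · ((d - 1)!)^d. -/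
theorem result {G Ω : Type*} [Group G] [Finite G] [MulAction G Ω] [FaithfulSMul G Ω] [Finite Ω]
    (hprim : MulAction.IsPreprimitive G Ω) (a b : Ω) (d : ℕ) (hd : Nat.card (MulAction.orbit (MulAction.stabilizer G a) b) = d) (h2 : 2 ≤ d)
    (hF : Cfsg.fittingSubgroup ↥(((MulAction.stabilizer G b).subgroupOf (MulAction.stabilizer G a)).map (MulAction.toPermHom (MulAction.stabilizer G a) (MulAction.orbit (MulAction.stabilizer G a) b))) = ⊥) :
    Cfsg.fittingSubgroup ↥(MulAction.stabilizer G a ⊓ MulAction.stabilizer G b) = ⊥ ∧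
      Nat.card (MulAction.stabilizer G a) ∣ Nat.factorial d * (Nat.factorial (d - 1)) ^ d := by
  open Subgroup CfsgH9 in
  obtain ⟨h, i⟩ := tw_perm hprim a b hd h2
  set H := MulAction.stabilizer G a
  set K := MulAction.stabilizer G b
  set φ := MulAction.toPermHom H (MulAction.orbit H b)
  have f : Fit (H ⊓ K) = ⊥ := by_contra fun n => by
    obtain ⟨p, hp, n⟩ := exists_Op_ne_bot_of_Fit n
    haveI := Fact.mk hp
    have l := (Op_le p (H ⊓ K)).trans inf_le_left
    have l1 : (Op p (H ⊓ K)).subgroupOf H ≤ φ.ker := by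
      rw [← Subgroup.map_eq_bot_iff, eq_bot_iff, ← Subgroup.map_bot (Subgroup.subtype _), ← hF]
      refine (le_Op ?_ (((Op_isPGroup p _).comap_subtype).map φ)).trans (Op_le_Fit p _)
      rw [← inf_subgroupOf_left K H]
      exact ((sn_Op p _).comap H.subtype).map φ
    have l2 : φ.ker.map H.subtype ≤ H ⊓ K := by
      rintro _ ⟨x, hx, rfl⟩
      exact ⟨x.2, congrArg Subtype.val (Equiv.ext_iff.1 hx ⟨b, MulAction.mem_orbit_self b⟩)⟩
    have n2 := le_normalizer_map_subtype φ.ker
    have e := Op_of_sn (p := p) (Sn.of_normal l2 (inf_le_left.trans n2))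
    rw [inf_eq_left.2 ((map_subgroupOf_eq_of_le l).ge.trans (map_mono l1))] at e
    exact h.grow (Q := Op p (H ⊓ K)) ((Op_le _ _).trans inf_le_right)
      (e ▸ Op_mono (.of_normal (map_subtype_le _) n2)) (h.n1 _ n l (e ▸ le_normalizer_Op n2)) inf_le_Op_inf
  refine ⟨(map_eq_bot_iff_of_injective _ (subtype_injective _)).1 f, (h.cases i).resolve_right fun k => ?_⟩
  obtain ⟨p, hp, h1, -⟩ := h.main (sc_co _ _) k.1 (sc_co' _ _) k.2
  haveI := Fact.mk hp
  have s := sc_co H K
  exact k.1 (eq_bot_iff.2 (f ▸ le_Fit (.of_normal (s.le.trans (le_inf s.l1 s.l2)) (inf_le_left.trans s.n1))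
    h1.isNilpotent))

end Cfsg.Agent.S3693
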