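import Mathlib
import Cfsg.Statements.S3696
import Cfsg.Agent.H2.Base

set_option autoImplicit false
open Cfsg

namespace Cfsg.Agent.S3696

theorem comb (a b s t : ℕ) : s ^ a * t ^ b * (a + b) ^ (a + b) ≤ (s + t) ^ (a + b) * (a ^ a * b ^ b) := by
  obtain rfl | ha := a.eq_zero_or_pos
  · simpa using Nat.mul_le_mul_right _ (Nat.pow_le_pow_left (Nat.le_add_left t s) b)
  obtain rfl | hb := b.eq_zero_or_pos
  · simpa using Nat.mul_le_mul_right _ (Nat.pow_le_pow_left (Nat.le_add_right s t) a)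
  have := pow_le_pow_left₀ (by positivity) (Real.geom_mean_le_arith_mean2_weighted (w₁ := a / (a + b)) (w₂ := b / (a + b))
    (p₁ := s / a) (p₂ := t / b) (by positivity) (by positivity) (by positivity) (by positivity) (by field_simp)) (a + b)
  rw [mul_pow, ← Real.rpow_mul_natCast (by positivity), ← Real.rpow_mul_natCast (by positivity), Nat.cast_add,
    div_mul_cancel₀ _ (by positivity), div_mul_cancel₀ _ (by positivity), Real.rpow_natCast, Real.rpow_natCast,
    show (a : ℝ) / (a + b) * (s / a) + b / (a + b) * (t / b) = (s + t) / (a + b) by field_simp, div_pow, div_pow, div_pow,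
    div_mul_div_comm, div_le_div_iff₀ (by positivity) (by positivity)] at this
  exact_mod_cast this

open Subgroup MulAction in
theorem ind {Ω : Type*} [Fintype Ω] [DecidableEq Ω] {p : ℕ} [hp : Fact p.Prime] (n : ℕ) : ∀ (B V : Subgroup (Equiv.Perm Ω))
    (S : Finset Ω) (k : ℕ), Nat.card B = n → IsPGroup p B → (∀ a ∈ B, ∀ b ∈ B, a * b = b * a) → V ≤ B →
      (∀ g ∈ B, g ^ p = 1 → g ∈ V) → Nat.card V = p ^ k → (∀ g ∈ B, ∀ x ∉ S, g x = x) → n * k ^ k ≤ S.card ^ k := by
  induction n using Nat.strong_induction_on with | _ n ih => ?_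
  rintro B V S k rfl pB c le h cV hS
  haveI : ∀ ω : Ω, Fintype (orbit B ω) := fun _ => Fintype.ofFinite _
  by_cases b : B = ⊥
  · subst b
    rw [le_bot_iff.1 le, card_bot, eq_comm, Nat.pow_eq_one, or_iff_right hp.out.ne_one] at cV
    simp [cV]
  obtain ⟨g, hg⟩ := exists_prime_orderOf_dvd_card' p (pB.card_eq_or_dvd.resolve_left (mt card_eq_one.1 b))
  obtain ⟨ω, hω⟩ := DFunLike.ne_iff.1 (show g.1 ≠ 1 from fun e => hp.out.ne_one (by
    rw [← hg, show g = 1 from Subtype.ext e]; exact orderOf_one))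
  have gV : g.1 ∈ V := h _ g.2 (congrArg Subtype.val (hg ▸ pow_orderOf_eq_one g))
  obtain ⟨e, he⟩ := pB.index ((stabilizer _ ω).subgroupOf B)
  obtain ⟨r, hr⟩ := (pB.to_le le).index ((stabilizer _ ω).subgroupOf V)
  obtain ⟨j, hj⟩ := ((pB.to_le le).to_le (inf_le_right (a := stabilizer _ ω))).exists_card_eq
  change relIndex _ _ = _ at he hr
  have re : r ≤ e := (Nat.pow_le_pow_iff_right hp.out.one_lt).1
    (he ▸ hr ▸ relIndex_le_of_le_right le (he ▸ pow_ne_zero _ hp.out.ne_zero))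
  have r0 : r ≠ 0 := by rintro rfl; exact hω (relIndex_eq_one.1 hr gV)
  have c1 := CfsgH2.card_mul_relIndex (inf_le_right (a := stabilizer _ ω) (b := B))
  have c2 := CfsgH2.card_mul_relIndex (inf_le_right (a := stabilizer _ ω) (b := V))
  rw [inf_relIndex_right] at c1 c2
  rw [hr, hj, cV, ← pow_add] at c2
  obtain rfl := Nat.pow_right_injective hp.out.two_le c2
  have cO : (orbit B ω).toFinset.card = p ^ e := by rw [← he, ← Set.ncard_eq_toFinset_card', ← index_stabilizer]; rfl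
  have sO : (orbit B ω).toFinset ⊆ S := fun x hx => by
    obtain ⟨a, rfl⟩ := Set.mem_toFinset.1 hx
    by_contra n
    exact hω (a.1.injective ((DFunLike.congr_fun (c _ a.2 _ g.2) ω).trans (hS _ g.2 _ n)))
  have := ih _ (by rw [← c1, he]; exact lt_mul_of_one_lt_right Nat.card_pos (Nat.one_lt_pow (by omega) hp.out.one_lt))
    _ _ (S \ (orbit B ω).toFinset) j rfl (pB.to_le inf_le_right) (fun a ha b hb => c a ha.2 b hb.2) (inf_le_inf_left _ le)
    (fun g hg e => ⟨hg.1, h g hg.2 e⟩) hj fun g hg x hx => by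
      by_cases m : x ∈ S
      · obtain ⟨a, rfl⟩ := Set.mem_toFinset.1 (not_not.1 fun n => hx (Finset.mem_sdiff.2 ⟨m, n⟩))
        exact (DFunLike.congr_fun (c _ hg.2 _ a.2) ω).trans (congrArg a.1 hg.1)
      · exact hS g hg.2 x m
  have t : p ^ e * r ^ r ≤ (p ^ e) ^ r := by
    obtain ⟨r, rfl⟩ := Nat.exists_eq_succ_of_ne_zero r0
    rw [pow_succ' (p ^ e), ← pow_mul]
    refine Nat.mul_le_mul_left _ ((Nat.pow_le_pow_left (Nat.lt_pow_self hp.out.one_lt) _).trans ?_)
    rw [← pow_mul, mul_comm]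
    exact Nat.pow_le_pow_right hp.out.pos (Nat.mul_le_mul_right _ re)
  rw [← c1, he, ← Finset.card_sdiff_add_card_eq_card sO, cO]
  refine Nat.le_of_mul_le_mul_right (.trans ?_ (comb j r _ _)) (Nat.mul_pos Nat.pow_self_pos Nat.pow_self_pos)
  exact (by ring : _ = _).trans_le (Nat.mul_le_mul_right _ (Nat.mul_le_mul this t))

/-- Let p be a prime, Ω a finite set with n ≥ p elements, and A an abelian p-subgroup of the symmetric group on Ω whose elements of order dividing p number p^k (so k is the rank of A). Then |A| · k^k ≤ n^k, that is, |A| ≤ (n/k)^k. -/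
theorem result {Ω : Type*} [Fintype Ω] [DecidableEq Ω]
    (p : ℕ) (hp : p.Prime) (hn : p ≤ Fintype.card Ω) (A : Subgroup (Equiv.Perm Ω)) (hA : IsPGroup p A) (hab : IsMulCommutative A)
    (k : ℕ) (hk : Nat.card {x : A // x ^ p = 1} = p ^ k) :
    Nat.card A * k ^ k ≤ Fintype.card Ω ^ k := by
  haveI := Fact.mk hp
  have c : ∀ a ∈ A, ∀ b ∈ A, a * b = b * a := fun a ha b hb => congrArg Subtype.val (hab.1.1 ⟨a, ha⟩ ⟨b, hb⟩)
  exact ind _ A ⟨⟨⟨{g | g ∈ A ∧ g ^ p = 1}, fun {a b} ha hb => ⟨mul_mem ha.1 hb.1, by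
    rw [Commute.mul_pow (c a ha.1 b hb.1), ha.2, hb.2, mul_one]⟩⟩, by simp⟩, fun ha => ⟨inv_mem ha.1, by simp [ha.2]⟩⟩
    Finset.univ k rfl hA c (fun _ h => h.1) (fun _ a b => ⟨a, b⟩) ((Nat.card_congr (β := {x : A // x ^ p = 1}) ⟨fun x => ⟨⟨x.1, x.2.1⟩, Subtype.ext x.2.2⟩,
      fun x => ⟨x.1.1, x.1.2, congrArg Subtype.val x.2⟩, fun _ => rfl, fun _ => rfl⟩).trans hk) (by simp)

end Cfsg.Agent.S3696
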