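import Cfsg.Statements.S3703
import Cfsg.Agent.H3.Hv1
import Cfsg.Agent.H3.Mz
import Cfsg.Agent.H3.Thompson

set_option autoImplicit false
open Cfsg

namespace Cfsg.Agent.S3703
open Subgroup CfsgH2 CfsgH1 CfsgMz

/-- Let N be a normal subgroup of the finite group G such that G/N is a Frobenius group with kernel F and cyclic complement H, where the order of F is coprime to that of N and F is not contained in the image of C_G(N) in G/N. Then G has an element of order p·#H for some prime p dividing the order of N. (A standard tool in recognising groups by their element orders.) -/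
theorem result {G : Type*} [Group G] [Finite G] (N : Subgroup G) [N.Normal]
    (Fb Hb : Subgroup (G ⧸ N)) [Fb.Normal] (hHb : Cfsg.IsFrobeniusComplement Hb) (hker : Cfsg.frobeniusKernel Hb = (Fb : Set (G ⧸ N)))
    (hcyc : IsCyclic Hb) (hcop : (Nat.card Fb).Coprime (Nat.card N))
    (hnot : ¬ Fb ≤ (Subgroup.centralizer (N : Set G)).map (QuotientGroup.mk' N)) :
    ∃ p : ℕ, p.Prime ∧ p ∣ Nat.card N ∧ ∃ g : G, orderOf g = p * Nat.card Hb := by
  have Fr : Frob Fb Hb ⊤ := frob_top_iff.2 ⟨hHb, hker⟩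
  set π := QuotientGroup.mk' N
  have k1 : ∀ x, π x = 1 ↔ x ∈ N := fun x => QuotientGroup.eq_one_iff x
  have hN : N ≤ Fb.comap π := fun x hx => by rw [mem_comap, (k1 x).2 hx]; exact one_mem _
  have ri : N.relIndex (Fb.comap π) = o[Fb] := by
    have := relIndex_ker (Fb.comap π) π
    rwa [map_comap_eq_self_of_surjective (QuotientGroup.mk'_surjective N), QuotientGroup.ker_mk'] at this
  obtain ⟨U, U1, U2, U3, U4⟩ := exists_compl hN le_normalizer_of_normal (ri ▸ hcop.symm)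
  rw [ri] at U4
  have u1 : ∀ x ∈ U, π x = 1 → x = 1 := fun x h1 h2 => mem_bot.1 (U3 ▸ ⟨(k1 x).1 h2, h1⟩)
  have mU : U.map π = Fb := by
    rw [← map_comap_eq_self_of_surjective (QuotientGroup.mk'_surjective N) Fb, ← U2, Subgroup.map_sup,
      QuotientGroup.map_mk'_self, bot_sup_eq]
  have sU : Sol[U] := by
    haveI := CfsgH3.frob_nilpotent Fr
    haveI : Sol[U.map π] := by rw [mU]; infer_instance
    exact Group.isSolvable_of_isSolvable_injective (f := π.subgroupMap U) ((injective_iff_map_eq_one _).2 fun x hx =>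
      Subtype.ext (u1 x x.2 (congrArg Subtype.val hx)))
  have cU : o[U].Coprime o[N] := U4 ▸ hcop
  obtain ⟨p, hp, pd, P, P1, P2, P3⟩ : ∃ (p : ℕ) (_ : Fact p.Prime), p ∣ o[N] ∧ ∃ P, Syl p P N ∧ U ≤ N[P] ∧
      ¬ U ≤ C[P] := by
    by_contra h; push Not at h
    refine hnot (mU ▸ map_mono (le_centralizer_iff.1 (le_of_syl fun p hp pd => ?_)))
    obtain ⟨P, P1, P2⟩ := exists_inv_syl p (A := U) (K := N) le_normalizer_of_normal cU (.inl sU)
    exact ⟨P, P1, le_centralizer_iff.1 (h p hp pd P P1 P2)⟩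
  obtain ⟨g, hg⟩ := isCyclic_iff_zpowers.1 hcyc
  obtain ⟨h0, rfl⟩ := QuotientGroup.mk'_surjective N g
  obtain ⟨k, hk, k2⟩ := exists_conj_le_compl (A := U) (K := N) (B := U.map (cj h0)) le_normalizer_of_normal cU
    (by rwa [card_map_cj]) (.inl (by
      haveI := sU; exact Group.isSolvable_of_surjective (MonoidHom.subgroupMap_surjective _ _)))
    (U2 ▸ map_cj_le_of_norm U1 (le_normalizer_of_normal (mem_top _)))
  rw [map_cj_cj] at k2
  have k3 := mem_norm_of_map_le k2
  obtain ⟨c, hc, c2⟩ := inv_syl_conj (A := U) (K := N) le_normalizer_of_normal cU (.inl sU)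
    (P1.map_cj_norm (g := k * h0) (le_normalizer_of_normal (mem_top _))) P1
    (by rw [normalizer_map_cj, ← map_cj_eq k3]; exact map_mono P2) P2
  rw [map_cj_cj, map_cj_eq_iff] at c2
  set h := c * (k * h0)
  have h1 : h ∈ N[U] := mul_mem (cent_le_norm _ hc.2) k3
  have h2 : zpowers (π h) = Hb := by rw [map_mul, map_mul, (k1 c).2 hc.1, (k1 k).2 hk, one_mul, one_mul]; exact hg
  have h3 : orderOf (π h) = o[Hb] := by rw [← h2, Nat.card_zpowers]
  obtain ⟨t, ht⟩ := orderOf_map_dvd π h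
  rcases eq_or_ne t 1 with rfl | t1
  swap
  · have : orderOf (h ^ orderOf (π h)) = t := by
      rw [orderOf_pow_of_dvd (orderOf_pos _).ne' ⟨t, ht⟩, ht, Nat.mul_div_cancel_left _ (orderOf_pos _)]
    refine ⟨_, Nat.minFac_prime t1, (Nat.minFac_dvd t).trans (this ▸ orderOf_dvd_of_mem ((k1 _).1 (by
      rw [map_pow, pow_orderOf_eq_one]))), exists_order_of_dvd (x := h) ?_⟩
    rw [ht, h3, mul_comm]
    exact Nat.mul_dvd_mul_left _ (Nat.minFac_dvd t)
  rw [mul_one] at ht
  have e1 : ∀ e ∈ zpowers h, π e = 1 → e = 1 := by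
    rintro _ ⟨i, rfl⟩ h
    rw [map_zpow, ← orderOf_dvd_iff_zpow_eq_one, ← ht] at h
    exact orderOf_dvd_iff_zpow_eq_one.1 h
  have e2 : ∀ e ∈ zpowers h, π e ∈ Hb := fun e he => by
    rw [← h2, ← MonoidHom.map_zpowers]; exact mem_map_of_mem _ he
  have F : Frob U (zpowers h) (U ⊔ zpowers h) := ⟨zpowers_le.2 h1, rfl,
    fun e => Fr.ker_ne (by rw [← mU, e, Subgroup.map_bot]),
    fun e => Fr.comp_ne (by rw [← h2, zpowers_eq_bot.1 e, map_one, zpowers_one_eq_bot]),
    fun e he e0 => eq_bot_iff.2 fun x hx => u1 x hx.1 (mem_bot.1 (Fr.fpf _ (e2 e he) (fun a => e0 (e1 e he a)) ▸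
      ⟨U1 hx.1, mem_centralizer_singleton_iff.2 (by
        rw [← map_mul, ← map_mul, mem_centralizer_singleton_iff.1 hx.2])⟩))⟩
  obtain ⟨g, hg⟩ := frob_order F P1.pg (sup_le P2 (zpowers_le.2 c2)) (eq_bot_iff.2 fun x hx => by
    obtain ⟨u, hu, e, he, rfl⟩ := (mem_sup_of_norm' F.norm).1 hx.1
    have a := (k1 _).2 (P1.le hx.2)
    have b : π e ∈ Fb ⊓ Hb := ⟨by
      rw [map_mul] at a; rw [eq_inv_of_mul_eq_one_right a]; exact Fb.inv_mem (U1 hu), e2 e he⟩
    rw [Fr.disj] at b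
    rw [e1 e he b, mul_one] at a ⊢
    exact u1 u hu a) (cU.coprime_dvd_right (card_dvd_of_le P1.le)) P3
  exact ⟨p, hp.out, pd, g, by rw [hg, ht, h3]⟩


end Cfsg.Agent.S3703
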