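import Cfsg.Statements.S3778
import Cfsg.Agent.H1.Sn4

set_option autoImplicit false
open Cfsg

namespace Cfsg.Agent.S3778

section
open CfsgH1 CfsgH1.Sn Equiv Equiv.Perm MulAction
open scoped commutatorElement

variable {G : Type*} [Group G]

/-- The lower central series. -/
abbrev L (G : Type*) [Group G] (i : ℕ) : Subgroup G := (⊤ : Subgroup G).lowerCentralSeries i

/-- Elements commuting with `x` modulo a term of the series. -/
def E (i : ℕ) (x : G) : Subgroup G := (Subgroup.centralizer {(x : G ⧸ L G (i + 2))}).comap (QuotientGroup.mk' _)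

theorem mem_E {i : ℕ} {x y : G} : y ∈ E i x ↔ ⁅y, x⁆ ∈ L G (i + 2) := by
  rw [E, Subgroup.mem_comap, Subgroup.mem_centralizer_singleton_iff, ← commutatorElement_eq_one_iff_mul_comm,
    ← QuotientGroup.eq_one_iff, ← QuotientGroup.mk'_apply (L G (i + 2)) ⁅y, x⁆, map_commutatorElement]
  rfl

/-- The centralizer of a two-step factor. -/
def K (G : Type*) [Group G] (i : ℕ) : Subgroup G :=
  (Subgroup.centralizer ((L G i).map (QuotientGroup.mk' (L G (i + 2))) : Subgroup _)).comap (QuotientGroup.mk' (L G (i + 2)))

theorem mem_K {i : ℕ} {x : G} : x ∈ K G i ↔ L G i ≤ E i x :=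
  ⟨fun h y hy => Subgroup.mem_centralizer_singleton_iff.2 (h _ ⟨y, hy, rfl⟩), by
    rintro h _ ⟨y, hy, rfl⟩
    exact Subgroup.mem_centralizer_singleton_iff.1 (h hy)⟩

open Classical in
theorem breadth [Finite G] {p : ℕ} [hp : Fact p.Prime] (hG : IsPGroup p G) (x : G) (m : ℕ) :
    p ^ (∑ i ∈ Finset.range m, if x ∈ K G i then 0 else 1) * (Subgroup.centralizer {x}).relIndex (L G m) ≤
      (Subgroup.centralizer {x}).index := by
  induction m with
  | zero => simp
  | succ m ih =>
    refine le_trans ?_ ih
    have h1 : Subgroup.centralizer {x} ≤ E m x := fun y hy => mem_E.2 (by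
      rw [commutatorElement_eq_one_iff_mul_comm.2 (Subgroup.mem_centralizer_singleton_iff.1 hy)]; exact one_mem _)
    have h2 : L G (m + 1) ≤ E m x ⊓ L G m := le_inf (fun y hy => mem_E.2 (Subgroup.commutator_mem_commutator hy (Subgroup.mem_top x)))
      (Subgroup.lowerCentralSeries_antitone _ m.le_succ)
    have h3 := Subgroup.relIndex_inf_mul_relIndex (Subgroup.centralizer {x}) (E m x) (L G m)
    rw [inf_eq_left.2 h1] at h3
    rw [Finset.sum_range_succ, pow_add, mul_assoc, ← h3, mul_comm (p ^ ite _ _ _)]
    refine Nat.mul_le_mul_left _ (Nat.mul_le_mul (Subgroup.relIndex_le_of_le_right h2 Subgroup.index_ne_zero_of_finite) ?_)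
    split_ifs with h
    · exact Nat.pos_of_ne_zero Subgroup.index_ne_zero_of_finite
    · obtain ⟨_ | j, e⟩ := (hG.to_subgroup (L G m)).index ((E m x).subgroupOf (L G m))
      · exact absurd (mem_K.2 (Subgroup.relIndex_eq_one.1 e)) h
      · exact (pow_le_pow_right₀ hp.out.one_le (by omega)).trans e.ge

end

/-- If G is a finite p-group in which every conjugacy class has at most p^b elements (every element has centralizer of index at most p^b), then G is abelian when b = 0, and when b ≥ 1 its nilpotency class c satisfies (c − 1)(p − 1) < bp, that is c < bp/(p − 1) + 1, and hence c ≤ 2b. -/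
theorem result {G : Type*} [Group G] [Finite G] {p : ℕ} [Fact p.Prime] (hG : IsPGroup p G) (b : ℕ) (hb : ∀ x : G, (Subgroup.centralizer ({x} : Set G)).index ≤ p ^ b) : ∃ c : ℕ, (⊤ : Subgroup G).lowerCentralSeries c = ⊥ ∧ (b ≠ 0 → (c - 1) * (p - 1) < b * p ∧ c ≤ 2 * b) ∧ (b = 0 → c ≤ 1) := by
  open CfsgH1 CfsgH1.Sn Equiv Equiv.Perm MulAction in
  open scoped commutatorElement in
  · classical
    have hp : p.Prime := Fact.out
    have := hG.isNilpotent
    have := Fintype.ofFinite G
    set c := Group.nilpotencyClass G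
    have h1 : ∀ i < c - 1, (p - 1) * Fintype.card G ≤ p * ∑ x : G, if x ∈ K G i then 0 else 1 := fun i hi => by
      have h2 : p ≤ (K G i).index := by
        obtain ⟨_ | j, e⟩ := hG.index (K G i)
        · have h3 : L G (i + 1) ≤ L G (i + 2) := Subgroup.commutator_le.2 fun y hy x _ =>
            mem_E.1 (mem_K.1 ((Subgroup.index_eq_one.1 e).ge (Subgroup.mem_top x)) hy)
          have h4 : ∀ j, L G (i + 1) ≤ L G (i + 1 + j) := fun j => by
            induction j with
            | zero => rfl
            | succ j ih => exact h3.trans (Subgroup.commutator_mono ih le_rfl)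
          have := Subgroup.lowerCentralSeries_eq_bot_iff_nilpotencyClass_le.1 (le_bot_iff.1 ((h4 c).trans
            (Subgroup.lowerCentralSeries_eq_bot_iff_nilpotencyClass_le.2 (by omega)).le))
          omega
        · exact e ▸ Nat.le_self_pow j.succ_ne_zero p
      have h3 : (∑ x : G, if x ∈ K G i then 0 else 1) + Nat.card (K G i) = Fintype.card G := by
        rw [Nat.card_eq_fintype_card, Fintype.card_subtype, Finset.card_filter, ← Finset.sum_add_distrib, ← Finset.card_univ,
          Finset.card_eq_sum_ones]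
        exact Finset.sum_congr rfl fun x _ => by split_ifs <;> rfl
      have h4 := (K G i).index_mul_card
      rw [Nat.card_eq_fintype_card (α := G)] at h4
      obtain ⟨q, rfl⟩ : ∃ q, p = q + 1 := ⟨p - 1, (Nat.sub_add_cancel hp.pos).symm⟩
      simp only [Nat.add_sub_cancel]
      nlinarith
    have h2 : ∀ x : G, (∑ i ∈ Finset.range (c - 1), if x ∈ K G i then 0 else 1) + (if x = 1 then b else 0) ≤ b := fun x => by
      split_ifs with h
      · simp [h]
      · exact (pow_le_pow_iff_right₀ hp.one_lt).1 (((Nat.le_mul_of_pos_right _ (Nat.pos_of_ne_zero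
          Subgroup.index_ne_zero_of_finite)).trans (breadth hG x _)).trans (hb x))
    have h3 := Finset.sum_le_sum fun x (_ : x ∈ Finset.univ) => h2 x
    have h4 := Finset.sum_le_sum fun i (hi : i ∈ Finset.range (c - 1)) => h1 i (Finset.mem_range.1 hi)
    rw [Finset.sum_add_distrib, Finset.sum_comm] at h3
    rw [← Finset.mul_sum (a := p)] at h4
    simp only [Finset.sum_ite_eq', Finset.mem_univ, if_true, Finset.sum_const, Finset.card_univ, smul_eq_mul, Finset.card_range] at h3 h4
    have h5 : Fintype.card G * ((c - 1) * (p - 1)) + p * b ≤ Fintype.card G * (b * p) := by nlinarith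
    have h6 := Fintype.card_pos (α := G)
    have h7 := hp.two_le
    refine ⟨c, Subgroup.lowerCentralSeries_nilpotencyClass, fun h => ?_, fun h => ?_⟩
    · have h8 : (c - 1) * (p - 1) < b * p := lt_of_mul_lt_mul_left
        (lt_of_lt_of_le (Nat.lt_add_of_pos_right (by positivity)) h5) (Nat.zero_le _)
      have : c - 1 < 2 * b := lt_of_mul_lt_mul_right (h8.trans_le (by
        rw [mul_comm 2, mul_assoc]; exact Nat.mul_le_mul_left _ (by omega))) (Nat.zero_le (p - 1))
      exact ⟨h8, by omega⟩
    · simp [h, h6.ne'] at h5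
      omega

end Cfsg.Agent.S3778
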