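import Cfsg.Statements.S3797
import Mathlib
import Cfsg.Agent.H9.Th2

set_option autoImplicit false
open Cfsg

namespace Cfsg.Agent.S3797

/-- Let G be a finite solvable group of even order whose Sylow 2-subgroups contain more than one involution, and suppose all involutions of G are conjugate. Then G has 2-length at most 1, and a Sylow 2-subgroup S of G is either homocyclic (a direct product of cyclic groups of one common order) or a non-abelian 2-group with more than one involution admitting a solvable group of automorphisms transitive on its involutions. -/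
theorem result {G : Type*} [Group G] [Finite G] (hG : Group.IsSolvable G) (heven : Even (Nat.card G)) (S : Sylow 2 G) (htwo : ∃ x y : G, x ∈ (S : Subgroup G) ∧ y ∈ (S : Subgroup G) ∧ x ≠ y ∧ x ≠ 1 ∧ x ^ 2 = 1 ∧ y ≠ 1 ∧ y ^ 2 = 1) (hconj : ∀ x y : G, x ≠ 1 → x ^ 2 = 1 → y ≠ 1 → y ^ 2 = 1 → IsConj x y) : Cfsg.PLengthLE 2 1 G ∧ ((∃ m r : ℕ, Nonempty (↥(S : Subgroup G) ≃* (Fin r → Multiplicative (ZMod (2 ^ m))))) ∨ (¬ IsMulCommutative (S : Subgroup G) ∧ ∃ Y : Subgroup (MulAut ↥(S : Subgroup G)), Group.IsSolvable Y ∧ ∀ x y : ↥(S : Subgroup G), x ≠ 1 → x ^ 2 = 1 → y ≠ 1 → y ^ 2 = 1 → ∃ a ∈ Y, a x = y)) := by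
  open Subgroup Cfsg CfsgH2 Function in
  open scoped commutatorElement in
  obtain ⟨x, y, hx, hy, xy, x0, x2, y0, y2⟩ := htwo
  obtain ⟨h1, h2⟩ := CfsgTH.main (isSolvable_top_iff.2 hG) (syl_top S) hx hy xy x0 x2 y0 y2 hconj
  have tr : ∀ x y : ↥(S : Subgroup G), x ≠ 1 → x ^ 2 = 1 → y ≠ 1 → y ^ 2 = 1 →
      ∃ a ∈ (S : Subgroup G).normalizerMonoidHom.range, a x = y := fun x y x0 x2 y0 y2 => by
    have x2' : (x : G) ^ 2 = 1 := congrArg Subtype.val x2
    have y2' : (y : G) ^ 2 = 1 := congrArg Subtype.val y2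
    obtain ⟨g, hg⟩ := isConj_iff.1 (hconj x y (fun c => x0 (Subtype.ext c)) x2' (fun c => y0 (Subtype.ext c)) y2')
    obtain ⟨n, n1, e⟩ := S.conj_eq_normalizer_conj_of_mem_centralizer x g⁻¹ (h2 x x.2 x2')
      (by rw [inv_inv, hg]; exact h2 y y.2 y2')
    refine ⟨_, ⟨⟨n⁻¹, inv_mem n1⟩, rfl⟩, Subtype.ext ?_⟩
    rw [inv_inv, hg] at e
    rw [e]
    exact congrArg (n⁻¹ * x * ·) (inv_inv n)
  refine ⟨pl1_top_iff.2 h1, ?_⟩
  by_cases ab : IsMulCommutative (S : Subgroup G)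
  · exact Or.inl (CfsgTH.hc ab S.isPGroup' fun x y a b c d => (tr x y a b c d).imp fun _ h => h.2)
  · exact Or.inr ⟨ab, _, solvable_of_surjective (MonoidHom.rangeRestrict_surjective _), tr⟩

end Cfsg.Agent.S3797
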