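import Cfsg.Statements.S3802
import Cfsg.Agent.H1.Pron

set_option autoImplicit false
open Cfsg

namespace Cfsg.Agent.S3802

/-- Let G be a finite group, M a maximal subgroup of G and N a subnormal subgroup of G contained in M. Then N is contained in every conjugate of M, that is, N lies in the core of M in G. -/
theorem result {G : Type*} [Group G] [Finite G] (M N : Subgroup G) (hM : IsCoatom M) (hN : N.IsSubnormal) (hNM : N ≤ M) :
    N ≤ Subgroup.normalCore M := by
  open Pointwise Subgroup CfsgH1 in
  open CfsgH2 hiding card_inf_mul_relIndex card_lt_of_lt card_lt_of_ne_top card_map_mul_card_inf_ker card_mul_relIndex card_subgroupOf card_sup_dvd card_sup_mul_card_inf exists_card_prime_le isNilpotent_map isNilpotent_of_le isPGroup_pCore isSolvable_map isSolvable_of_le le_pCore le_pPrimeCore relIndex_map_dvd in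
  open scoped CfsgH2 in
  open scoped commutatorElement in
  · obtain ⟨J, j1, j2, j3, j4, j5⟩ := exists_sn_core M ⊤
    have : ⊤ ≤ N[J] := by
      rcases (le_inf le_normalizer_of_normal le_normalizer).trans j4 |>.eq_or_lt with e | e
      · exact j5 (inf_le_right.trans e.ge)
      · exact (hM.2 _ e).ge
    haveI := normal_of_top_le_norm this
    exact (j3 N (CfsgH9.sn_top_iff.2 hN) hNM).trans (normal_le_normalCore.2 j1)

end Cfsg.Agent.S3802
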