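import Cfsg.Statements.S3803
import Cfsg.Agent.H2.Pq4

set_option autoImplicit false
open Cfsg

namespace Cfsg.Agent.S3803
open CfsgH2

/-- Let P be a 2-subgroup and A a subgroup of odd order of a finite group, with A normalizing P. Let D ≤ P with 1 < |D| < |P|. If every subgroup of P of order |D|, and also every subgroup of P of order 4 in case |D| = 2, is normalized by A, then A centralizes P. -/
theorem result {X : Type*} [Group X] [Finite X] (P A D : Subgroup X) (hP : IsPGroup 2 P) (hA : Odd (Nat.card A))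
    (hAP : A ≤ Subgroup.normalizer (P : Set X)) (hDP : D ≤ P) (hD1 : 1 < Nat.card D) (hD2 : Nat.card D < Nat.card P)
    (hinv : ∀ E : Subgroup X, E ≤ P → (Nat.card E = Nat.card D ∨ (Nat.card D = 2 ∧ Nat.card E = 4)) → A ≤ Subgroup.normalizer (E : Set X)) :
    A ≤ Subgroup.centralizer (P : Set X) := by
  open Subgroup Function in open scoped commutatorElement in
  · open CfsgBG in
    obtain ⟨k, hk⟩ := exists_card_eq_pow (hP.to_le hDP)
    have h1 : ∀ E ≤ P, Nat.card E = Nat.card D → A ≤ C[E] := fun E a b => by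
      obtain ⟨F, f1, f2, -, f3, -⟩ := exists_step (hP.to_le bot_le) hP (a.lt_of_ne fun e => hD2.ne (by rw [← b, e])) bot_le bot_le
      have pF := hP.to_le f2
      have m : ∀ M ≤ F, M.relIndex F = 2 → A ≤ N[M] := fun M c d => hinv M (c.trans f2) (.inl (by
        have e1 := card_mul_relIndex c
        have e2 := card_mul_relIndex f1
        rw [d] at e1; rw [f3] at e2; omega))
      by_cases c : IsCyclic F
      · exact cent_of_cyc (pF.to_le f1) hA (m E f1 f3) (isCyclic_of_le c f1)
      refine (cent_of_max pF hA (fun g hg => mem_norm_of_conj fun x hx => ?_) m).trans (cent_anti f1)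
      obtain ⟨M, m1, m2, -, m3⟩ := exists_maximal_sub pF ((zpowers_le.2 hx).lt_of_ne fun e => c (e ▸ inferInstance))
      exact m2 (conj_mem_of_norm (m M m2 m3 hg) (m1 (mem_zpowers x)))
    have h2 : ∀ x ∈ P, orderOf x ∣ 2 ^ k → x ∈ C[A] := fun x hx e => by
      obtain ⟨j, hj, e⟩ := (Nat.dvd_prime_pow Nat.prime_two).1 e
      have e1 := card_mul_relIndex (zpowers_le.2 hx)
      obtain ⟨L, l1, l2, l3, -⟩ := exists_between_pow (hP.to_le bot_le) hP (zpowers_le.2 hx) bot_le bot_le (k - j) (by
        refine Nat.dvd_of_mul_dvd_mul_left (card_pos' (zpowers x)) ?_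
        rw [e1, Nat.card_zpowers, e, ← pow_add, Nat.add_sub_cancel' hj, ← hk]
        exact card_dvd_of_le hDP)
      refine le_centralizer_iff.1 (h1 L l2 ?_) (l1 (mem_zpowers x))
      rw [← card_mul_relIndex l1, l3, Nat.card_zpowers, e, ← pow_add, Nat.add_sub_cancel' hj, hk]
    refine cent_of_four hP hA hAP fun x hx e => ?_
    have e1 : orderOf x ∣ 2 ^ 2 := orderOf_dvd_of_pow_eq_one e
    by_cases k2 : 2 ≤ k
    · exact h2 x hx (e1.trans (pow_dvd_pow 2 k2))
    obtain rfl : k = 1 := by
      rcases Nat.eq_zero_or_pos k with rfl | _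
      · simp [hk] at hD1
      · omega
    by_cases k3 : orderOf x ∣ 2 ^ 1
    · exact h2 x hx k3
    refine le_centralizer_iff.1 (cent_of_cyc (hP.to_le (zpowers_le.2 hx)) hA (hinv _ (zpowers_le.2 hx) (.inr ⟨hk, ?_⟩))
      inferInstance) (mem_zpowers x)
    rw [Nat.card_zpowers]
    exact Nat.eq_prime_pow_of_dvd_least_prime_pow Nat.prime_two k3 e1

end Cfsg.Agent.S3803
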