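import Cfsg.Statements.S3815
import Cfsg.Agent.H1.Misc1

set_option autoImplicit false
open Cfsg

namespace Cfsg.Agent.S3815

/-- Let G be a finite group, p a prime and d ∈ G an element of order prime to p. If dg has order prime to p for every element g ∈ G of order prime to p, then d ∈ O_{p'}(G). -/
theorem result {G : Type*} [Group G] [Finite G] {p : ℕ} [Fact p.Prime]
    (d : G) (hd : (orderOf d).Coprime p)
    (h : ∀ g : G, (orderOf g).Coprime p → (orderOf (d * g)).Coprime p) :
    d ∈ Cfsg.pPrimeCore p G := by
  open Pointwise Subgroup CfsgH1 in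
  open CfsgH2 hiding card_inf_mul_relIndex card_lt_of_lt card_lt_of_ne_top card_map_mul_card_inf_ker card_mul_relIndex card_subgroupOf card_sup_dvd card_sup_mul_card_inf exists_card_prime_le isNilpotent_map isNilpotent_of_le isPGroup_pCore isSolvable_map isSolvable_of_le le_pCore le_pPrimeCore relIndex_map_dvd in
  open scoped CfsgH2 in
  open scoped commutatorElement in
  · let D : Subgroup G :=
      { carrier := {d | ∀ g : G, (orderOf g).Coprime p → (orderOf (d * g)).Coprime p}
        one_mem' := fun g hg => by simpa using hg
        mul_mem' := fun {a b} ha hb g hg => by rw [mul_assoc]; exact ha _ (hb g hg)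
        inv_mem' := fun {a} ha g hg => by
          have : ∀ n : ℕ, (orderOf (a ^ n * g)).Coprime p := fun n => by
            induction n with
            | zero => simpa using hg
            | succ n ih => rw [pow_succ', mul_assoc]; exact ha _ ih
          have e : a⁻¹ = a ^ (orderOf a - 1) := by
            rw [inv_eq_iff_mul_eq_one, ← pow_succ', Nat.sub_add_cancel (orderOf_pos a), pow_orderOf_eq_one]
          exact e ▸ this _ }
    haveI : D.Normal := ⟨fun a ha k g hg => by
      rw [show k * a * k⁻¹ * g = k * (a * (k⁻¹ * g * k⁻¹⁻¹)) * k⁻¹ by group, orderOf_conj']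
      exact ha _ (by rwa [orderOf_conj'])⟩
    exact CfsgH1.le_pPrimeCore (N := D) (coprime_card_of_forall fun x hx => by simpa using hx 1 (by simp)) h

end Cfsg.Agent.S3815
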