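import Cfsg.Statements.S3819
import Mathlib
import Cfsg.Agent.H9.Tb8

set_option autoImplicit false
open Cfsg

namespace Cfsg.Agent.S3819

section
open Subgroup Cfsg CfsgH2 Function CfsgCP CfsgTB
open scoped commutatorElement

theorem aux {G : Type*} [Group G] [Finite G] {q : ℕ} [hq : Fact q.Prime] {H P Z : Subgroup G} (nP : P ≤ N[H])
    (c : o[P].Coprime o[H]) (hs : Sol[⁅H, P⁆]) (sP : Sol[P]) (h1 : Z ≤ H) (h2 : Z ≤ C[P]) (hZ : PG[q, Z])
    (h0 : O[{q}ᶜ, H] = ⊥) : (O[{q}ᶜ, H ⊓ C[Z]] ⊓ O[{q}ᶜ, H ⊓ C[P]]) ⊔ ⁅O[{q}ᶜ, H ⊓ C[Z]], P⁆ ≤ ⊥ := by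
  have l : ⁅H, P⁆ ≤ H := comm_le_left nP
  have n : H ≤ N[⁅H, P⁆] := le_norm_comm_left
  have a := cent_core_le (p := q) hs (le_bot_iff.1 (h0 ▸ piCoreOf_le_of_norm l n))
  have nQ : H ≤ N[O[{q}, ⁅H, P⁆]] := le_norm_piCoreOf' n
  have pQ : PG[q, O[{q}, ⁅H, P⁆]] := isPGroup_piCoreOf
  have lQ : O[{q}, ⁅H, P⁆] ≤ ⁅H, P⁆ := piCoreOf_le
  have d : ¬ q ∣ o[O[{q}ᶜ, H ⊓ C[Z]]] := not_dvd_piCoreOf
  have lD : O[{q}ᶜ, H ⊓ C[Z]] ≤ H ⊓ C[Z] := piCoreOf_le
  have nD : H ⊓ C[Z] ≤ N[O[{q}ᶜ, H ⊓ C[Z]]] := le_norm_piCoreOf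
  have nD' : P ≤ N[O[{q}ᶜ, H ⊓ C[Z]]] := le_norm_piCoreOf' (le_norm_inf nP (le_norm_cent
    ((le_centralizer_iff.1 h2).trans (cent_le_norm _))))
  generalize O[{q}, ⁅H, P⁆] = Q at *
  generalize O[{q}ᶜ, H ⊓ C[Z]] = D at *
  have cD := (coprime_of_pgroup pQ d).symm
  have lH := lD.trans inf_le_left
  have b : D ≤ C[Q] := CfsgH1.thompson_p_times_q hZ ((Nat.Prime.coprime_iff_not_dvd hq.out).2 d).symm pQ
    (le_centralizer_iff.1 (lD.trans inf_le_right)) (h1.trans nQ) (lH.trans nQ) (coprime_norm_le_cent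
      ((inf_le_inf_right _ (lQ.trans l)).trans nD) (le_norm_inf (lH.trans nQ) (le_norm_cent
        ((lD.trans inf_le_right).trans (cent_le_norm _)))) (cD.coprime_dvd_right (card_dvd_of_le inf_le_left)))
  refine sup_le ?_ (inf_eq_bot_of_coprime' cD ▸ le_inf (comm_le_left nD') ((le_inf (commutator_mono lH le_rfl)
    ((comm_le_left nD').trans b)).trans a))
  have e : D ≤ C[⁅H, P⁆] := le_centralizer_iff.1 ((CfsgH1.coprime_le_sup_cent (lH.trans nQ) cD
    (.inr (isSolvable_of_pgroup pQ)) lQ (l.trans nQ) ((le_inf (comm_le_left (lH.trans n))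
      (comm_le_cent_of_norm (l.trans nQ) b)).trans a)).le.trans (sup_le inf_le_right (le_centralizer_iff.1 b)))
  refine (inf_le_inf_right _ e).trans (h0 ▸ le_pPrimeCoreOf (inf_le_right.trans (piCoreOf_le.trans
    inf_le_left)) ?_ fun z => not_dvd_piCoreOf (z.trans (card_dvd_of_le inf_le_right)))
  conv_lhs => rw [← coprime_comm_sup_cent nP c (.inl sP)]
  exact sup_le ((le_centralizer_iff.1 inf_le_left).trans (cent_le_norm _)) (le_norm_inf (le_norm_cent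
    (inf_le_left.trans n)) le_norm_piCoreOf)

end

/-- Let G be a finite group with Sylow p-subgroup P and H = O_{p'}(G), and suppose G = PH and the commutator subgroup [H, P] is solvable. Let q be a prime and z an element of q-power order of C_H(P). Then (O_{q'}(C_H(z)) ∩ O_{q'}(C_H(P))) · [O_{q'}(C_H(z)), P] ≤ O_{q'}(H). -/
theorem result {G : Type*} [Group G] [Finite G] {p : ℕ} [Fact p.Prime]
    (P : Sylow p G) (hPH : Cfsg.pPrimeCore p G ⊔ (P : Subgroup G) = ⊤)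
    (hsol : Group.IsSolvable ↥⁅Cfsg.pPrimeCore p G, (P : Subgroup G)⁆)
    {q : ℕ} [Fact q.Prime] (z : G) (hzH : z ∈ Cfsg.pPrimeCore p G) (hzP : z ∈ Subgroup.centralizer ((P : Subgroup G) : Set G))
    (hz : ∃ k : ℕ, orderOf z = q ^ k) :
    ((Cfsg.pPrimeCore q ↥(Cfsg.pPrimeCore p G ⊓ Subgroup.centralizer ({z} : Set G))).map
        (Cfsg.pPrimeCore p G ⊓ Subgroup.centralizer ({z} : Set G)).subtype ⊓
      (Cfsg.pPrimeCore q ↥(Cfsg.pPrimeCore p G ⊓ Subgroup.centralizer ((P : Subgroup G) : Set G))).map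
        (Cfsg.pPrimeCore p G ⊓ Subgroup.centralizer ((P : Subgroup G) : Set G)).subtype) ⊔
    ⁅(Cfsg.pPrimeCore q ↥(Cfsg.pPrimeCore p G ⊓ Subgroup.centralizer ({z} : Set G))).map
        (Cfsg.pPrimeCore p G ⊓ Subgroup.centralizer ({z} : Set G)).subtype, (P : Subgroup G)⁆ ≤
    (Cfsg.pPrimeCore q ↥(Cfsg.pPrimeCore p G)).map (Cfsg.pPrimeCore p G).subtype := by
  open Subgroup Cfsg CfsgH2 Function CfsgCP CfsgTB in
  open scoped commutatorElement in
  simp only [map_pPrimeCore_subtype]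
  obtain ⟨k, hk⟩ := hz
  have pZ : IsPGroup q (zpowers z) := IsPGroup.of_card ((Nat.card_zpowers z).trans hk)
  have c := coprime_of_pgroup P.isPGroup' (not_dvd_pPrimeCore (G := G))
  have sP := isSolvable_of_pgroup P.isPGroup'
  let f := QuotientGroup.mk' (piCoreOf {q}ᶜ (pPrimeCore p G))
  have := aux (q := q) (map_le_norm_map f (le_normalizer_of_normal (H := pPrimeCore p G) (K := P)))
    ((c.coprime_dvd_left (card_map_dvd _ _)).coprime_dvd_right (card_map_dvd _ _))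
    (by rw [← map_commutator]; exact isSolvable_map _ hsol) (isSolvable_map _ sP)
    (map_mono (zpowers_le.2 hzH)) ((map_mono (zpowers_le.2 hzP)).trans (map_centralizer_le_centralizer_image _ _))
    (pZ.map f) (piCoreOf_map_mk_self _)
  rw [CfsgH1.coprime_centralizer_map_mk' piCoreOf_le (coprime_of_pgroup pZ not_dvd_piCoreOf)
    (.inl (isSolvable_of_pgroup pZ)), CfsgH1.coprime_centralizer_map_mk' piCoreOf_le
    (c.coprime_dvd_right (card_dvd_of_le piCoreOf_le)) (.inl sP), cent_zpowers] at this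
  rw [← mk_bot, ← le_bot_iff, Subgroup.map_sup, map_commutator]
  exact (sup_le_sup ((map_inf_le _ _ _).trans (inf_le_inf (map_piCoreOf_le _) (map_piCoreOf_le _)))
    (commutator_mono (map_piCoreOf_le _) le_rfl)).trans this

end Cfsg.Agent.S3819
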