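import Cfsg.Statements.S3821
import Cfsg.Agent.H1.Pron

set_option autoImplicit false
open Cfsg

namespace Cfsg.Agent.S3821

/-- Let A be a normal subgroup of the finite group G and H a subgroup of A. Then H is pronormal in G (H and gHg⁻¹ conjugate inside ⟨H, gHg⁻¹⟩ for every g ∈ G) if and only if H is pronormal in A and G = A · N_G(H). -/
theorem result {G : Type*} [Group G] [Finite G] (A H : Subgroup G) [A.Normal] (hHA : H ≤ A) :
    Cfsg.IsPronormal H ↔ (Cfsg.IsPronormal (H.subgroupOf A) ∧ A ⊔ Subgroup.normalizer (H : Set G) = ⊤) := by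
  open Pointwise Subgroup CfsgH1 in
  open CfsgH2 hiding card_inf_mul_relIndex card_lt_of_lt card_lt_of_ne_top card_map_mul_card_inf_ker card_mul_relIndex card_subgroupOf card_sup_dvd card_sup_mul_card_inf exists_card_prime_le isNilpotent_map isNilpotent_of_le isPGroup_pCore isSolvable_map isSolvable_of_le le_pCore le_pPrimeCore relIndex_map_dvd in
  open scoped CfsgH2 in
  open scoped commutatorElement in
  · rw [pron_subgroupOf hHA]
    refine ⟨fun h => ⟨fun g _ => h g, eq_top_iff.2 fun g _ => ?_⟩, fun ⟨h1, h2⟩ g => ?_⟩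
    · obtain ⟨x, hx, n, hn, rfl⟩ := PronAt.exists_norm (h g) hHA
        (map_cj_le_of_norm hHA (le_normalizer_of_normal (mem_top g)))
      exact mul_mem_sup hx hn
    · obtain ⟨a, ha, n, hn, rfl⟩ := mem_sup_normal_left.1 (h2.ge (mem_top g))
      exact (h1 a ha).mul_norm hn

end Cfsg.Agent.S3821
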