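import Cfsg.Statements.S3825
import Cfsg.Agent.H1.Misc1

set_option autoImplicit false
open Cfsg

namespace Cfsg.Agent.S3825

/-- Let U be a subgroup of a finite group H and w an involution of H normalizing U and commuting with exactly two elements of U, the identity and y. If V is a non-cyclic elementary abelian 2-subgroup of U containing y which is normal in U and invariant under w, then V is a Sylow 2-subgroup of U, V has order 4, and U/V is abelian. -/
theorem result {H : Type*} [Group H] [Finite H] (U : Subgroup H) (w : H) (hw : orderOf w = 2)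
    (hwU : w ∈ Subgroup.normalizer (U : Set H)) (y : H) (hy : y ≠ 1) (hyU : y ∈ U)
    (hfix : ∀ u ∈ U, w * u * w⁻¹ = u ↔ (u = 1 ∨ u = y))
    (V : Subgroup H) (hVU : V ≤ U) (hVn : (V.subgroupOf U).Normal) (hVw : ∀ v ∈ V, w * v * w⁻¹ ∈ V)
    (hVe : Cfsg.IsElementaryAbelian 2 V) (hVc : ¬ IsCyclic ↥V) (hyV : y ∈ V) :
    ¬ 2 ∣ V.relIndex U ∧ Nat.card ↥V = 4 ∧ ⁅U, U⁆ ≤ V := by
  open Pointwise Subgroup CfsgH1 in
  open CfsgH2 hiding card_inf_mul_relIndex card_lt_of_lt card_lt_of_ne_top card_map_mul_card_inf_ker card_mul_relIndex card_subgroupOf card_sup_dvd card_sup_mul_card_inf exists_card_prime_le isNilpotent_map isNilpotent_of_le isPGroup_pCore isSolvable_map isSolvable_of_le le_pCore le_pPrimeCore relIndex_map_dvd in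
  open scoped CfsgH2 in
  open scoped commutatorElement in
  · have hn := (normal_subgroupOf_iff' hVU).1 hVn
    have hwV : w ∈ N[V] := mem_norm_of_conj hVw
    have w2 : w * w = 1 := by rw [← sq, ← hw, pow_orderOf_eq_one]
    have hinv : ∀ v ∈ V, v⁻¹ = v := fun v hv => by rw [inv_eq_iff_mul_eq_one, ← sq, hVe.2 v hv]
    have e1 : U ⊓ C1[w] = zpowers y := le_antisymm (fun u hu => by
      rcases (hfix u hu.1).1 (by rw [← mem_centralizer_singleton_iff.1 hu.2]; group) with rfl | rfl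
      exacts [one_mem _, mem_zpowers _]) (zpowers_le.2 ⟨hyU, mem_centralizer_singleton_iff.2 (by
        rw [← mul_inv_eq_iff_eq_mul.1 ((hfix y hyU).2 (.inr rfl))])⟩)
    have e2 : V ⊓ C1[w] = zpowers y := le_antisymm ((inf_le_inf_right _ hVU).trans e1.le)
      (le_inf (zpowers_le.2 hyV) (e1.ge.trans inf_le_right))
    have c1 : Nat.card (zpowers y) = 2 := card_zpowers_eq Nat.prime_two (hVe.2 y hyV) hy
    have r1 : (commHom hVe.1 hwV).range ≤ zpowers y := by
      rintro _ ⟨v, rfl⟩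
      refine e2.le ⟨range_commHom_le _ _ ⟨v, rfl⟩, mem_centralizer_singleton_iff.2 ?_⟩
      have h1 := hinv _ (range_commHom_le hVe.1 hwV ⟨v, rfl⟩)
      rw [commHom_apply] at h1 ⊢
      have h2 := comm_of_isMulComm hVe.1 v.2 (hVw _ (V.inv_mem v.2))
      calc ⁅w, (v : H)⁆ * w = ⁅w, (v : H)⁆⁻¹ * w := by rw [h1]
        _ = (w * w) * (v * (w * (v : H)⁻¹ * w⁻¹)) * w := by rw [w2]; group
        _ = w * (w * v * w * (v : H)⁻¹) := by group
        _ = _ := by rw [commutatorElement_def, inv_eq_of_mul_eq_one_right w2]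
    have c2 := card_range_commHom hVe.1 hwV
    rw [e2, c1] at c2
    have r2 : (commHom hVe.1 hwV).range = zpowers y := eq_of_le_prime (c1 ▸ Nat.prime_two) r1 fun e =>
      hVc (isCyclic_of_card_prime Nat.prime_two (by rw [← c2, e, card_bot]))
    have hw' : qmk V ⟨w, hwV⟩ ∈ N[qt V U] := qmk_mem_norm hwV hwU
    have fpf : qt V U ⊓ C1[qmk V ⟨w, hwV⟩] = ⊥ := eq_bot_iff.2 fun z hz => by
      obtain ⟨u, hu, rfl⟩ := mem_qt.1 hz.1
      have h1 : (u : H)⁻¹ * (w * u * w⁻¹) ∈ V := (qmk_eq_iff (x := u) (y := ⟨w, hwV⟩ * u * ⟨w, hwV⟩⁻¹)).1 (by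
        rw [map_mul, map_mul, ← mem_centralizer_singleton_iff.1 hz.2]; simp)
      obtain ⟨t, ht⟩ : (u : H)⁻¹ * (w * u * w⁻¹) ∈ (commHom hVe.1 hwV).range := r2.ge (e2.le ⟨h1,
        mem_centralizer_singleton_iff.2 (by
          rw [← hinv _ h1]
          nth_rw 2 [hinv _ h1]
          calc _ = w * ((u : H)⁻¹ * w⁻¹ * u * w) := by group
            _ = w * ((u : H)⁻¹ * (w * u * w⁻¹)) := by rw [inv_eq_of_mul_eq_one_right w2]; group)⟩)
      rw [commHom_apply] at ht
      have h2 : u * (t : H)⁻¹ ∈ V := zpowers_le.2 hyV (e1.le ⟨U.mul_mem hu (U.inv_mem (hVU t.2)),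
        mem_centralizer_singleton_iff.2 (by
          have h3 := comm_of_isMulComm hVe.1 (hVw _ t.2) (V.inv_mem t.2)
          calc _ = u * ((t : H)⁻¹ * (w * t * w⁻¹)) * w * (t : H)⁻¹ := by group
            _ = u * ⁅w, (t : H)⁆ * w * (t : H)⁻¹ := by rw [← h3]; group
            _ = _ := by rw [ht]; group)⟩)
      exact qmk_eq_one.2 ((V.mul_mem_cancel_right (V.inv_mem t.2)).1 h2)
    have w3 : qmk V ⟨w, hwV⟩ * qmk V ⟨w, hwV⟩ = 1 := by
      rw [← map_mul, show (⟨w, hwV⟩ * ⟨w, hwV⟩ : N[V]) = 1 from Subtype.ext w2, map_one]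
    refine ⟨fun h => ?_, by rw [← c2, r2, c1], (isMulComm_qt_iff hn).1
      (isMulComm_of_inverted fun k hk => inv_of_fpf_involution hw' fpf w3 hk)⟩
    haveI := Fact.mk Nat.prime_two
    exact inf_cent_ne_bot (isPGroup_zpowers (k := 1) (by rw [pow_one, sq, w3])) (zpowers_le.2 hw')
      (by rwa [card_qt hn]) (by rwa [cent_zpowers])

end Cfsg.Agent.S3825
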