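import Cfsg.Statements.S3836
import Cfsg.Agent.H1.Misc1
import Cfsg.Agent.H2.BG0
import Cfsg.Agent.H2.Stab

set_option autoImplicit false
open Cfsg

namespace Cfsg.Agent.S3836

/-- Let G be a finite group that is p-stable in the normalizer form: for every p-subgroup Q and every x ∈ N_G(Q) with [Q, x, x] = 1, the image of x in N_G(Q)/C_G(Q) lies in O_p(N_G(Q)/C_G(Q)). Then every subgroup of G is p-stable in the same sense. -/
theorem result {G : Type*} [Group G] [Finite G] {p : ℕ} [Fact p.Prime] (hst : Cfsg.IsNormalizerPStable p G) (H : Subgroup G) : Cfsg.IsNormalizerPStable p ↥H := by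
  open Subgroup CfsgH2 in
  open CfsgH1 hiding card_inf_mul_relIndex card_lt_of_lt card_lt_of_ne_top card_map_mul_card_inf_ker card_mul_relIndex card_subgroupOf card_sup_dvd card_sup_mul_card_inf coprime_le_sup_cent exists_card_prime_le isNilpotent_map isNilpotent_of_le isPGroup_pCore isSolvable_map isSolvable_of_le le_pCore le_pPrimeCore relIndex_map_dvd in
  open scoped CfsgH1 in
  open scoped commutatorElement in
  · refine pst_top_iff.2 fun P _ pP g hg q => ?_
    have i := H.subtype_injective
    obtain ⟨D, d1, d2, d3, d4⟩ := pst_top_iff.1 hst (P.map H.subtype) le_top (pP.map _) g ⟨mem_top _, (inj_mem_norm i).2 hg.2⟩ (by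
      have := congrArg (map H.subtype) q
      rwa [map_commutator, map_commutator, MonoidHom.map_zpowers, Subgroup.map_bot] at this)
    refine ⟨D.comap H.subtype, d1, fun x hx => ⟨mem_top _, (inj_mem_norm i).1 (d2 hx).2⟩, le_norm_comap _ (le_trans ?_ d3), ?_⟩
    · rw [top_inf_eq, top_inf_eq]; exact (inj_le_norm i).2 le_rfl
    · rw [← inj_le_cent i, map_piRes]; exact (piRes_mono (map_comap_le _ _)).trans d4

end Cfsg.Agent.S3836
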