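import Cfsg.Statements.S3838
import Mathlib
import Cfsg.Agent.L0.M3
import Cfsg.Agent.H2.WC

set_option autoImplicit false
open Cfsg

namespace Cfsg.Agent.S3838

open Cfsg Subgroup CfsgH2 CfsgL0

/-- Let G be a finite group with Sylow p-subgroup P such that N_G(P) has a normal p-complement. Then N_G(Q) has a normal p-complement for every subgroup Q with [P, P] ≤ Q ≤ Φ(P). -/
theorem result {G : Type*} [Group G] [Finite G] {p : ℕ} [Fact p.Prime] (P : Sylow p G) (hN : Cfsg.HasNormalPComplement p ↥(Subgroup.normalizer ((P : Subgroup G) : Set G))) (Q : Subgroup G) (h1 : (commutator ↥(P : Subgroup G)).map (P : Subgroup G).subtype ≤ Q) (h2 : Q ≤ (frattini ↥(P : Subgroup G)).map (P : Subgroup G).subtype) : Cfsg.HasNormalPComplement p ↥(Subgroup.normalizer (Q : Set G)) := by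
  rw [npc_iff] at hN ⊢
  rw [map_subtype_commutator] at h1
  have hQP : Q ≤ P := h2.trans phi_le
  have hPM : (P : Subgroup G) ≤ N[Q] := le_norm_of_commutator_le h1 hQP
  have hS : Syl p (P : Subgroup G) N[Q] := (syl_top P).mono hPM le_top
  have hq : NPC p (qt Q N[Q]) := by
    refine (hS.qt le_rfl).npc_of_norm_le_cent ?_
    rw [← qt_inf_norm hPM hQP, qt_le_cent_iff inf_le_left hPM, commutator_comm]
    refine comm_le_of_le_stab (le_trans ?_ (show N[Q] ⊓ stab P Q ≤ _ from inf_le_right))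
    refine inf_le_inf_left _ ?_
    rw [← hN.sup_eq ((syl_top P).mono le_normalizer le_top)]
    refine sup_le (le_trans ?_ (cent_le_stab hQP)) (le_stab hPM h1)
    exact le_cent_of_inf_eq_bot piCoreOf_le (le_normalizer.trans le_norm_piCoreOf)
      (inf_eq_bot_of_coprime' (coprime_of_pgroup P.isPGroup' not_dvd_piCoreOf).symm)
  set K := qc Q O[{p}ᶜ, qt Q N[Q]]
  have nK : N[Q] ≤ N[K] := le_norm_qc le_rfl le_norm_piCoreOf
  have pQ : IsPGroup p Q := P.isPGroup'.to_le hQP
  have hi : ¬ p ∣ Q.relIndex K := by rw [relIndex_qc]; exact not_dvd_piCoreOf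
  obtain ⟨H, a1, a2, -, a4⟩ := exists_compl (le_qc : Q ≤ K) qc_le_norm (coprime_of_pgroup pQ hi)
  have hH : ¬ p ∣ Nat.card H := a4 ▸ hi
  have hc := (coprime_of_pgroup pQ hH).symm
  have hfr : N[Q] ≤ Q ⊔ (N[Q] ⊓ N[H]) := fun l hl => by
    obtain ⟨k, hk, hle⟩ := exists_conj_le_compl (B := H.map (cj l)) (a1.trans qc_le_norm) hc
      (by rwa [card_map_cj]) (Or.inr (isSolvable_of_pgroup pQ)) (by rw [a2]; exact map_cj_le_of_norm a1 (nK hl))
    rw [map_cj_cj] at hle
    have := mul_mem_sup (T := N[Q] ⊓ N[H]) (inv_mem hk)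
      (⟨mul_mem (le_normalizer hk) hl, mem_norm_of_map_le hle⟩ : k * l ∈ N[Q] ⊓ N[H])
    simpa using this
  have hPH : (P : Subgroup G) ≤ N[H] := by
    have e := sup_inf_of_norm (H := Q) (K := N[Q] ⊓ N[H]) (Or.inr inf_le_left) hQP
    rw [inf_eq_right.2 (hPM.trans hfr)] at e
    have := eq_of_le_phi_sup (H := (P : Subgroup G)) (K := N[Q] ⊓ N[H] ⊓ P) inf_le_right
      (e.le.trans (sup_le_sup_right h2 _))
    exact this.ge.trans (inf_le_left.trans inf_le_right)
  refine NPC.of_sup (hfr.trans (sup_le (hQP.trans hPH) inf_le_right)) hH P.isPGroup' ?_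
  have e := congrArg (qc Q) (hq.sup_eq (hS.qt le_rfl))
  rw [qc_sup, qc_qt_of_le hPM hQP, qc_qt_of_le le_rfl le_normalizer] at e
  rw [← e]
  refine le_antisymm (sup_le_sup_right a1 _) (sup_le (a2.ge.trans (sup_le (hQP.trans le_sup_right) le_sup_left)) le_sup_right)

end Cfsg.Agent.S3838
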