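import Cfsg.Statements.S3839
import Mathlib
import Cfsg.Agent.L0.M3
import Cfsg.Agent.H2.WC

set_option autoImplicit false
open Cfsg

namespace Cfsg.Agent.S3839

open Cfsg Subgroup CfsgH2 CfsgL0

/-- A Frobenius normal p-complement criterion relative to a strongly closed subgroup. Let G be a finite group, S a Sylow p-subgroup and D a subgroup of S strongly closed in S with respect to G. Then G has a normal p-complement if and only if N_G(U) has a normal p-complement for every subgroup U of D with C_D(U) ≤ U. -/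
theorem result {G : Type*} [Group G] [Finite G] {p : ℕ} [Fact p.Prime] (S : Sylow p G) (D : Subgroup G) (hD : Cfsg.IsStronglyClosed D (S : Subgroup G)) : Cfsg.HasNormalPComplement p G ↔ ∀ U : Subgroup G, U ≤ D → D ⊓ Subgroup.centralizer (U : Set G) ≤ U → Cfsg.HasNormalPComplement p ↥(Subgroup.normalizer (U : Set G)) := by
  rw [npc_top_iff]
  refine ⟨fun h U _ _ => npc_iff.2 (h.mono le_top), fun H => ?_⟩
  have key : ∀ h k x, x ∈ D.map (cj h) → x ∈ (S : Subgroup G).map (cj k) → x ∈ D.map (cj k) := by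
    intro h k x h1 h2
    rw [mem_map_cj] at h1 h2 ⊢
    have := hD.2 _ h1 (k⁻¹ * h) (by convert h2 using 1; group)
    convert this using 1; group
  suffices main : ∀ U : Subgroup G, (∃ h, U ≤ D.map (cj h)) → NPC p N[U] by
    have := main ⊥ ⟨1, bot_le⟩
    rwa [norm_bot] at this
  intro U
  induction U using WellFoundedGT.induction with | ind U ih => ?_
  rintro ⟨h, hU⟩
  have pU : IsPGroup p U := ((S.isPGroup'.to_le hD.1).map _).to_le hU
  refine frobenius_npc fun Q₀ hQ₀ pQ₀ _ g hg hn hc => ?_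
  set Q := Q₀ ⊔ U
  have pQ : IsPGroup p Q := isPGroup_sup pQ₀ pU (Or.inl hQ₀)
  have hUQ : U ≤ Q := le_sup_right
  have hQU : Q ≤ N[U] := sup_le hQ₀ le_normalizer
  have gQ : g ∈ N[Q] := mem_norm_sup hn hg
  refine cent_anti (le_sup_left : Q₀ ≤ Q) ?_
  obtain ⟨T, hT, hQT⟩ := exists_syl_ge pQ (le_inf hQU le_normalizer : Q ≤ N[U] ⊓ N[Q])
  obtain ⟨k, -, hk⟩ := (syl_top S).exists_le_conj hT.pg le_top
  set S' := (S : Subgroup G).map (cj k)
  set D' := D.map (cj k)
  have pS : IsPGroup p S' := S.isPGroup'.map _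
  have hDS : D' ≤ S' := map_mono hD.1
  have sc : ∀ x ∈ D', ∀ y, y * x * y⁻¹ ∈ S' → y * x * y⁻¹ ∈ D' := fun x hx y hy =>
    key (y * k) k _ (by rw [← map_cj_cj]; exact conj_mem_map_cj hx) hy
  have nD : ∀ R ≤ S', N[R] ≤ N[R ⊓ D'] := fun R hR y hy => mem_norm_of_conj fun x hx =>
    ⟨conj_mem_of_norm hy hx.1, sc x hx.2 y (hR (conj_mem_of_norm hy hx.1))⟩
  have nD' : S' ≤ N[D'] := by
    have := nD S' le_rfl
    rw [inf_eq_right.2 hDS] at this
    exact le_normalizer.trans this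
  have hUD : U ≤ D' := fun x hx => key h k x (hU hx) (hk (hQT (hUQ hx)))
  by_cases h1 : D' ⊓ C[U] ≤ U
  · have := npc_iff.1 (H (U.map (cj k⁻¹)) (map_cj_le_iff.2 (by rwa [inv_inv])) (by
      rw [centralizer_map_cj, le_map_cj_iff, inv_inv, map_cj_inf, map_cj_cj_inv]; exact h1))
    rw [normalizer_map_cj, inj_npc (cj_injective _)] at this
    exact this.mem_cent pQ hQU hg gQ hc
  have A : ∀ R ≤ S', ¬ R ⊓ D' ≤ U → Q ≤ N[R] → ∀ y ∈ N[U] ⊓ N[Q] ⊓ N[R], (orderOf y).Coprime p → y ∈ C[Q] := by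
    intro R hR h2 h3 y hy hc
    have := ih (R ⊓ D' ⊔ U) (lt_of_le_of_ne le_sup_right fun e => h2 (le_sup_left.trans e.ge))
      ⟨k, sup_le inf_le_right hUD⟩
    exact this.mem_cent pQ (le_norm_sup (h3.trans (nD R hR)) hQU) (mem_norm_sup (nD R hR hy.2) hy.1.1) hy.1.2 hc
  by_cases h2 : Q ⊓ D' ≤ U
  swap
  · exact A Q (hQT.trans hk) h2 le_normalizer g ⟨⟨hg, gQ⟩, gQ⟩ hc
  set L := N[U] ⊓ N[Q]
  set C' := L ⊓ (stab Q U ⊓ C[U])
  have nC : L ≤ N[C'] := le_norm_inf le_normalizer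
    (le_norm_inf (le_norm_stab inf_le_right inf_le_left) (le_norm_cent inf_le_left))
  have hR := hT.inf_norm (inf_le_left : C' ≤ L) (hT.le.trans nC)
  have hfr := hR.frattini_sup inf_le_left nC
  have h3 : ¬ T ⊓ C' ⊓ D' ≤ U := fun h3 => by
    have nY : Q ≤ N[D' ⊓ C[U]] := le_norm_inf (hQT.trans (hk.trans nD')) (le_norm_cent hQU)
    have hlt : Q < Q ⊔ D' ⊓ C[U] := lt_of_le_of_ne le_sup_left fun e =>
      h1 ((le_inf (le_sup_right.trans e.ge) inf_le_left).trans h2)
    have h4 := lt_inf_norm (nil_of_pg (pS.to_le (sup_le (hQT.trans hk) (inf_le_left.trans hDS)))) hlt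
    rw [sup_inf_of_norm (Or.inl nY) le_normalizer] at h4
    refine h4.not_ge (sup_le le_rfl (le_trans ?_ (h3.trans hUQ)))
    have hY : D' ⊓ C[U] ⊓ N[Q] ≤ L := inf_le_inf_right _ (inf_le_right.trans (cent_le_norm _))
    have hYD : D' ⊓ C[U] ⊓ N[Q] ≤ D' := inf_le_left.trans inf_le_left
    refine le_inf (le_inf ?_ (le_inf hY (le_inf (le_stab (hY.trans inf_le_left) (le_trans ?_ h2))
      (inf_le_left.trans inf_le_right)))) hYD
    · rw [← hT.eq_of_le (Q := S' ⊓ L) pS.to_inf_left (le_inf hk hT.le) inf_le_right]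
      exact le_inf (hYD.trans hDS) hY
    · exact le_inf (comm_le_left inf_le_right)
        ((commutator_mono le_rfl hYD).trans (comm_le_right (hQT.trans (hk.trans nD'))))
  have h4 : piRes {p} L ≤ C' := by
    refine piRes_le_of nC ?_
    rw [← hfr, sup_comm, relIndex_sup_of_norm (inf_le_left.trans nC)]
    refine piN_relIndex_of_piRes_le (piRes_le_iff.2 fun y hy hc => ?_)
    have := A (T ⊓ C') (inf_le_left.trans hk) h3 (le_norm_inf (le_norm_of_le hQT) (hQT.trans (hT.le.trans nC))) y hy hc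
    exact ⟨hy.1, cent_le_stab hUQ this, cent_anti hUQ this⟩
  have h5 := zpowers_le.2 (h4 (piRes_le_iff.1 le_rfl g ⟨hg, gQ⟩ hc))
  refine coprime_le_cent_of_stable (zpowers_le.2 gQ) ?_ (Or.inl (sol_zpowers g))
    (comm_le_of_le_stab (h5.trans (inf_le_right.trans inf_le_left))) (h5.trans (inf_le_right.trans inf_le_right))
    (mem_zpowers g)
  exact coprime_of_not_dvd (by rw [Nat.card_zpowers]; exact (coprime_iff_not_dvd Fact.out).1 hc) pQ

end Cfsg.Agent.S3839
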