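import Cfsg.Statements.S3857
import Mathlib
import Cfsg.Agent.H9.Tf1

set_option autoImplicit false
open Cfsg

namespace Cfsg.Agent.S3857

/-- A finite solvable group whose prime graph (prime divisors of the order, two distinct primes joined when there is an element of order their product) is disconnected is a Frobenius group or a 2-Frobenius group (it has normal subgroups H < K with K a Frobenius group with kernel H and G/H a Frobenius group with kernel K/H). -/
theorem result {G : Type*} [Group G] [Finite G] (hsol : Group.IsSolvable G)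
    (hdisc : (∃ A : Set ℕ, (∃ a ∈ A, a.Prime ∧ a ∣ Nat.card G) ∧ (∃ b ∉ A, b.Prime ∧ b ∣ Nat.card G) ∧
      ∀ a ∈ A, ∀ b ∉ A, a.Prime → b.Prime → a ∣ Nat.card G → b ∣ Nat.card G → ¬ ∃ g : G, orderOf g = a * b)) :
    (∃ C : Subgroup G, Cfsg.IsFrobeniusComplement C) ∨
    (∃ (H K : Subgroup G) (_ : H.Normal), K.Normal ∧ H < K ∧
      (∃ C : Subgroup ↥K, Cfsg.IsFrobeniusComplement C ∧ Cfsg.frobeniusKernel C = (H.subgroupOf K : Set ↥K)) ∧
      (∃ C : Subgroup (G ⧸ H), Cfsg.IsFrobeniusComplement C ∧ Cfsg.frobeniusKernel C = (K.map (QuotientGroup.mk' H) : Set (G ⧸ H)))) := by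
  open Subgroup Cfsg CfsgH2 Function in
  open scoped commutatorElement in
  obtain ⟨A, ⟨a, a1, a2, a3⟩, ⟨b, b1, b2, b3⟩, h⟩ := hdisc
  have ne : CfsgMC.NE A G := fun x x1 y y1 x2 y2 g e => h x x1 y y1 x2 y2
    ((dvd_mul_right x y).trans (e ▸ orderOf_dvd_natCard g)) ((dvd_mul_left y x).trans (e ▸ orderOf_dvd_natCard g)) ⟨g, e⟩
  rcases ne.two' hsol (fun z => z a a2 a3 a1) (fun z => b1 (z b b2 b3)) with ⟨H, C, f⟩ | ⟨H, K, n1, n2, l, f, D, g⟩
  · exact Or.inl ⟨C, f.isFrobeniusComplement⟩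
  · obtain ⟨C, f⟩ := (CfsgMC.frob_sub l.le).1 f
    exact Or.inr ⟨H, K, n1, n2, l, ⟨C, CfsgH1.frob_top_iff.1 f⟩, D, CfsgH1.frob_top_iff.1 g⟩

end Cfsg.Agent.S3857
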