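import Cfsg.Statements.S3858
import Cfsg.Agent.H1.Misc1

set_option autoImplicit false
open Cfsg

namespace Cfsg.Agent.S3858

/-- Let G be a finite group with a normal non-abelian simple subgroup T whose centralizer is trivial (G almost simple with socle T), r a prime and R a Sylow r-subgroup of G meeting T nontrivially. Then R lies in exactly one maximal subgroup of G if and only if G has exactly one conjugacy class of maximal subgroups whose index is prime to r. -/
theorem result {G : Type*} [Group G] [Finite G] (T : Subgroup G) [T.Normal] (hT : IsSimpleGroup T) (hna : ¬ IsMulCommutative T)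
    (hC : Subgroup.centralizer (T : Set G) = ⊥) {r : ℕ} [Fact r.Prime] (R : Sylow r G) (hR0 : (R : Subgroup G) ⊓ T ≠ ⊥) :
    (∃! M : Subgroup G, IsCoatom M ∧ (R : Subgroup G) ≤ M) ↔
      ((∃ M : Subgroup G, IsCoatom M ∧ ¬ r ∣ M.index) ∧
        ∀ M₁ M₂ : Subgroup G, IsCoatom M₁ → ¬ r ∣ M₁.index → IsCoatom M₂ → ¬ r ∣ M₂.index → ∃ g : G, M₂ = M₁.map (MulAut.conj g).toMonoidHom) := by
  open Pointwise Subgroup CfsgH1 in
  open CfsgH2 hiding card_inf_mul_relIndex card_lt_of_lt card_lt_of_ne_top card_map_mul_card_inf_ker card_mul_relIndex card_subgroupOf card_sup_dvd card_sup_mul_card_inf exists_card_prime_le isNilpotent_map isNilpotent_of_le isPGroup_pCore isSolvable_map isSolvable_of_le le_pCore le_pPrimeCore relIndex_map_dvd in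
  open scoped CfsgH2 in
  open scoped commutatorElement in
  · have hR := syl_top R
    have h1 := hR.inf_norm (K := T) le_top le_normalizer_of_normal
    obtain ⟨M₀, m0, m1⟩ := exists_coatom_ge (H := N[(R : Subgroup G) ⊓ T]) fun e => by
      haveI := normal_of_top_le_norm e.ge
      rcases hT.eq_bot_or_eq_top_of_normal (((R : Subgroup G) ⊓ T).subgroupOf T) inferInstance with h | h
      · exact hR0 ((subgroupOf_eq_bot.1 h).eq_bot_of_le inf_le_right)
      · have h2 := h1.pg.to_le (subgroupOf_eq_top.1 h)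
        exact CfsgH2.center_ne_bot h2 (fun e => hR0 (by simp [e])) (by simp [hC])
    have m2 : N[(R : Subgroup G)] ≤ M₀ := (le_norm_inf le_rfl le_normalizer_of_normal).trans m1
    have nd : ∀ M : Subgroup G, (R : Subgroup G) ≤ M → ¬ r ∣ M.index := fun M h => by
      simpa using hR.not_dvd_of_le h
    have hco : ∀ (M : Subgroup G) g, IsCoatom M → IsCoatom (M.map (cj g)) := fun M g h =>
      isCoatom_map_of_ker_le (cj_surjective g) h (ker_le_of_inj (cj_injective g) _)
    simp only [cj_def]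
    refine ⟨fun ⟨M, ⟨a, b⟩, c⟩ => ⟨⟨M, a, nd M b⟩, fun M₁ M₂ a1 b1 a2 b2 => ?_⟩,
      fun ⟨_, h⟩ => ⟨M₀, ⟨m0, le_normalizer.trans m2⟩, fun M ⟨a, b⟩ => ?_⟩⟩
    · have key : ∀ M₁ : Subgroup G, IsCoatom M₁ → ¬ r ∣ M₁.index → ∃ g, M₁.map (cj g) = M := fun M₁ a1 b1 => by
        obtain ⟨S, hS⟩ := CfsgH2.exists_syl (p := r) M₁
        obtain ⟨g, -, e⟩ := (hS.trans le_top (by simpa using b1)).conj hR
        exact ⟨g, c _ ⟨hco _ g a1, e ▸ map_mono hS.le⟩⟩
      obtain ⟨g, e⟩ := key M₁ a1 b1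
      obtain ⟨g', e'⟩ := key M₂ a2 b2
      exact ⟨g'⁻¹ * g, by rw [← map_cj_cj, e, ← e', map_cj_inv_cj]⟩
    · obtain ⟨g, rfl⟩ := h M₀ M m0 (nd _ (le_normalizer.trans m2)) a (nd _ b)
      obtain ⟨m, hm, e⟩ := (hR.mono (le_normalizer.trans m2) le_top).conj
        ((hR.map_cj_mem (mem_top g⁻¹)).mono (le_map_cj_iff.1 b) le_top)
      have := m2 (map_cj_eq_map_cj_iff.1 e)
      rw [inv_inv] at this
      exact map_cj_of_mem ((M₀.mul_mem_cancel_right hm).1 this)

end Cfsg.Agent.S3858
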