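import Cfsg.Statements.S3859
import Cfsg.Agent.H1.Misc1

set_option autoImplicit false
open Cfsg

namespace Cfsg.Agent.S3859

/-- Let G be a finite group with a normal non-abelian simple subgroup T whose centralizer is trivial (G almost simple with socle T), r a prime and R a Sylow r-subgroup of G meeting T nontrivially. If R lies in exactly one maximal subgroup of G, then G/T is an r-group. -/
theorem result {G : Type*} [Group G] [Finite G] (T : Subgroup G) [T.Normal] (hT : IsSimpleGroup T) (hna : ¬ IsMulCommutative T)
    (hC : Subgroup.centralizer (T : Set G) = ⊥) {r : ℕ} [Fact r.Prime] (R : Sylow r G) (hR0 : (R : Subgroup G) ⊓ T ≠ ⊥)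
    (huniq : ∃! M : Subgroup G, IsCoatom M ∧ (R : Subgroup G) ≤ M) : IsPGroup r (G ⧸ T) := by
  open Pointwise Subgroup CfsgH1 in
  open CfsgH2 hiding card_inf_mul_relIndex card_lt_of_lt card_lt_of_ne_top card_map_mul_card_inf_ker card_mul_relIndex card_subgroupOf card_sup_dvd card_sup_mul_card_inf exists_card_prime_le isNilpotent_map isNilpotent_of_le isPGroup_pCore isSolvable_map isSolvable_of_le le_pCore le_pPrimeCore relIndex_map_dvd in
  open scoped CfsgH2 in
  open scoped commutatorElement in
  · have hR := syl_top R
    have h1 := hR.inf_norm (K := T) le_top le_normalizer_of_normal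
    obtain ⟨M₀, m0, m1⟩ := exists_coatom_ge (H := N[(R : Subgroup G) ⊓ T]) fun e => by
      haveI := normal_of_top_le_norm e.ge
      rcases hT.eq_bot_or_eq_top_of_normal (((R : Subgroup G) ⊓ T).subgroupOf T) inferInstance with h | h
      · exact hR0 ((subgroupOf_eq_bot.1 h).eq_bot_of_le inf_le_right)
      · have h2 := h1.pg.to_le (subgroupOf_eq_top.1 h)
        exact CfsgH2.center_ne_bot h2 (fun e => hR0 (by simp [e])) (by simp [hC])
    have : (R : Subgroup G) ⊔ T = ⊤ := by_contra fun e => by
      obtain ⟨M, a, b⟩ := exists_coatom_ge e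
      obtain rfl := huniq.unique ⟨a, le_sup_left.trans b⟩ ⟨m0, (le_norm_inf le_normalizer le_normalizer_of_normal).trans m1⟩
      exact a.1 (top_le_iff.1 ((h1.frattini_sup le_top le_normalizer_of_normal).ge.trans
        (sup_le (le_sup_right.trans b) (inf_le_right.trans m1))))
    rw [← isPGroup_top_iff, ← (map_mk'_eq_top_iff T).2 this]
    exact hR.pg.map _

end Cfsg.Agent.S3859
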