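import Cfsg.Statements.S3862
import Mathlib
import Cfsg.Agent.L0.M3
import Cfsg.Agent.H2.WC

set_option autoImplicit false
open Cfsg

namespace Cfsg.Agent.S3862

open Cfsg Subgroup CfsgH2 CfsgL0
open scoped commutatorElement

/-- If every 2-element of the finite group G that is conjugate to its inverse lies in the centre of G, then G has a normal 2-complement. -/
theorem result {G : Type*} [Group G] [Finite G] (h : ∀ x : G, (∃ j : ℕ, orderOf x = 2 ^ j) → IsConj x x⁻¹ → x ∈ Subgroup.center G) : Cfsg.HasNormalPComplement 2 G := by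
  rw [npc_top_iff]
  refine frobenius_npc fun Q _ pQ _ g _ hn hc => ?_
  rw [← zpowers_le] at hn ⊢
  have hA : ¬ 2 ∣ Nat.card (zpowers g) := by rw [Nat.card_zpowers]; exact (coprime_iff_not_dvd Nat.prime_two).1 hc
  generalize zpowers g = A at hn hA
  have inv : ∀ x : G, x ^ 2 = 1 → x ∈ center G := fun x hx =>
    h x (by obtain ⟨j, -, e⟩ := (Nat.dvd_prime_pow Nat.prime_two (m := 1)).1 (orderOf_dvd_of_pow_eq_one hx); exact ⟨j, e⟩)
      (by rw [← eq_inv_of_mul_eq_one_left (show x * x = 1 by rw [← pow_two, hx])])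
  have ab : ∀ B : Subgroup G, IsPGroup 2 B → IsMulCommutative B → A ≤ N[B] → A ≤ C[B] := by
    intro B pB hB nB
    have h1 := coprime_comm_inf_cent hB nB (coprime_of_not_dvd hA pB)
    rw [← comm_eq_bot_iff, commutator_comm]
    by_contra h0
    obtain ⟨X, hX, hc⟩ := exists_card_prime_le Nat.prime_two (dvd_card_of_pgroup (pB.to_le (comm_le_left nB)) h0)
    refine ne_bot_of_card_prime (K := X) (by rw [hc]; exact Nat.prime_two) (le_bot_iff.1 (h1 ▸ le_inf hX fun x hx => ?_))
    exact cent_anti le_top (cent_top.ge (inv x ((elem_of_card_prime Nat.prime_two hc).2 x hx)))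
  induction Q using WellFoundedLT.induction with | ind Q ih => ?_
  by_contra hne
  have cop := coprime_of_not_dvd hA pQ
  have sQ := isSolvable_of_pgroup pQ
  have ih' : ∀ R < Q, A ≤ N[R] → A ≤ C[R] := fun R hR nR => by
    by_cases R0 : R = ⊥
    · rw [R0, cent_bot]; exact le_top
    exact ih R hR le_top (pQ.to_le hR.le) R0 nR
  have hQ : ⁅Q, A⁆ = Q := by
    by_contra h1
    exact hne (coprime_le_cent hn cop (Or.inr sQ)
      (le_centralizer_iff.1 (ih' _ (lt_of_le_of_ne (comm_le_left hn) h1) le_norm_comm_right)))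
  obtain ⟨h1, h2, h3⟩ := special_of_char_abelian pQ hA hQ fun B hB nB aB => ab B (pQ.to_le hB) aB (hn.trans nB)
  refine hne (ab Q pQ (isMulComm_of_le_cent fun x hx => ?_) hn)
  by_contra hxZ
  have hz : ∀ a ∈ Q, ∀ b ∈ Q, ⁅a, b⁆ ∈ Z[Q] := fun a ha b hb => h2.le (commutator_mem_commutator ha hb)
  let f : Q →* G := MonoidHom.mk' (fun y => ⁅(y : G), x⁆) fun a b => by
    rw [coe_mul, commutator_mul_left', (hz b b.2 x hx).2 a a.2, mul_inv_cancel_right]
    exact ((hz b b.2 x hx).2 _ (hz a a.2 x hx).1).symm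
  have hB : f.range ≤ Z[Q] := by rintro _ ⟨y, rfl⟩; exact hz y y.2 x hx
  have hBA : A ≤ N[f.range] := le_norm_of_le_cent (le_centralizer_iff.1 (hB.trans (h3.ge.trans inf_le_right)))
  have hX : Q ⊓ stab Q f.range = Q := by
    by_contra h4
    have := le_centralizer_iff.1 (ih' _ (lt_of_le_of_ne inf_le_left h4) (le_norm_inf hn (le_norm_stab hn hBA)))
    refine hxZ (h3.le ⟨hx, this ⟨hx, ?_, fun y hy => ⟨⟨y, hy⟩, rfl⟩⟩⟩).2
    exact le_norm_of_le_cent (le_centralizer_iff.1 (hB.trans inf_le_right)) hx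
  obtain ⟨y, hy⟩ := comm_le_of_le_stab (hX.ge.trans inf_le_right) (h2.ge (h1.le (inv_mem (pow_mem_phi pQ hx))))
  refine hxZ (cent_anti le_top (cent_top.ge (h x (pgroup_mem_order pQ hx) (isConj_iff.2 ⟨y, ?_⟩))))
  have : (y : G) * x * (y : G)⁻¹ * x⁻¹ = (x ^ 2)⁻¹ := hy
  calc _ = (y : G) * x * (y : G)⁻¹ * x⁻¹ * x := by group
    _ = _ := by rw [this]; group

end Cfsg.Agent.S3862
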