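import Cfsg.Statements.S3863
import Cfsg.Agent.H1.Misc1

set_option autoImplicit false
open Cfsg

namespace Cfsg.Agent.S3863

/-- Let x be an element of the finite group G that is conjugate to its inverse. Then some 2-element conjugates x to its inverse; if the conjugacy class of x has odd size then x ^ 2 = 1; and x lies in, and is conjugate to its inverse inside, every normal subgroup of odd index. -/
theorem result {G : Type*} [Group G] [Finite G] (x : G) (hx : IsConj x x⁻¹) : (∃ t : G, (∃ j : ℕ, orderOf t = 2 ^ j) ∧ t * x * t⁻¹ = x⁻¹) ∧ (Odd (Subgroup.centralizer ({x} : Set G)).index → x ^ 2 = 1) ∧ ∀ (N : Subgroup G) [N.Normal], Odd N.index → ∃ hxN : x ∈ N, IsConj (⟨x, hxN⟩ : N) (⟨x, hxN⟩ : N)⁻¹ := by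
  open Pointwise Subgroup CfsgH1 in
  open CfsgH2 hiding card_inf_mul_relIndex card_lt_of_lt card_lt_of_ne_top card_map_mul_card_inf_ker card_mul_relIndex card_subgroupOf card_sup_dvd card_sup_mul_card_inf exists_card_prime_le isNilpotent_map isNilpotent_of_le isPGroup_pCore isSolvable_map isSolvable_of_le le_pCore le_pPrimeCore relIndex_map_dvd in
  open scoped CfsgH2 in
  open scoped commutatorElement in
  · obtain ⟨y, hy⟩ := isConj_iff.1 hx
    obtain ⟨t, -, h1, h2⟩ := exists_two_inverts hy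
    refine ⟨⟨t, h1, h2⟩, fun h => sq_eq_one_of_real (L := ⊤) hy trivial (by
      rw [relIndex_top_right]; exact h.not_two_dvd_nat), fun N _ h => ?_⟩
    obtain ⟨k, hk⟩ := h1
    have ht : t ∈ N := mem_of_orderOf_coprime_index (hk ▸ (Nat.coprime_two_left.2 h).pow_left k)
    have h3 : x ^ 2 ∈ N := by
      rw [show x ^ 2 = x * t * x⁻¹ * t⁻¹ * (t * x * t⁻¹ * x) by rw [sq]; group, h2, inv_mul_cancel, mul_one]
      exact mul_mem (‹N.Normal›.conj_mem t ht x) (inv_mem ht)
    obtain ⟨m, hm⟩ := h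
    have h4 := N.pow_index_mem x
    rw [hm, pow_succ, pow_mul] at h4
    exact ⟨(N.mul_mem_cancel_left (pow_mem h3 m)).1 h4, isConj_iff.2 ⟨⟨t, ht⟩, Subtype.ext h2⟩⟩

end Cfsg.Agent.S3863
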