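import Cfsg.Statements.S3867
import Cfsg.Agent.H1.Misc1

set_option autoImplicit false
open Cfsg

namespace Cfsg.Agent.S3867

/-- Let M and N be nontrivial normal subgroups of the finite group G with M ⊓ N trivial, and let p be a prime. Writing n(X) for the number of Sylow p-subgroups of a group X, one has n(G) · n(G/MN) = n(G/M) · n(G/N). -/
theorem result {G : Type*} [Group G] [Finite G] (p : ℕ) [Fact p.Prime] (M N : Subgroup G) [M.Normal] [N.Normal] (hM : M ≠ ⊥) (hN : N ≠ ⊥) (hMN : M ⊓ N = ⊥) : Nat.card (Sylow p G) * Nat.card (Sylow p (G ⧸ (M ⊔ N))) = Nat.card (Sylow p (G ⧸ M)) * Nat.card (Sylow p (G ⧸ N)) := by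
  open Pointwise Subgroup CfsgH1 in
  open CfsgH2 hiding card_inf_mul_relIndex card_lt_of_lt card_lt_of_ne_top card_map_mul_card_inf_ker card_mul_relIndex card_subgroupOf card_sup_dvd card_sup_mul_card_inf exists_card_prime_le isNilpotent_map isNilpotent_of_le isPGroup_pCore isSolvable_map isSolvable_of_le le_pCore le_pPrimeCore relIndex_map_dvd in
  open scoped CfsgH2 in
  open scoped commutatorElement in
  · obtain ⟨P, hP⟩ := CfsgH2.exists_syl (p := p) (⊤ : Subgroup G)
    rw [Syl.card_sylow hP, Syl.card_sylow_quot hP, Syl.card_sylow_quot hP, Syl.card_sylow_quot hP]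
    have e1 : (P ⊔ M) ⊓ (P ⊔ N) = P := hP.eq_of_le (by
      rw [sup_inf_of_norm (.inl le_normalizer_of_normal) le_sup_left]
      refine isPGroup_sup hP.pg (isPGroup_iff_piN.2 (piN_of_map (QuotientGroup.mk' N) ?_ ?_))
        (.inl (le_norm_inf le_normalizer_of_normal (le_norm_of_le le_sup_left)))
      · exact piN_of_le (isPGroup_iff_piN.1 (hP.pg.map (QuotientGroup.mk' N))) ((map_mk_le_map_mk N).2 inf_le_right)
      · rw [QuotientGroup.ker_mk', inf_right_comm, hMN, bot_inf_eq]; exact piN_bot) (le_inf le_sup_left le_sup_left) le_top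
    have e2 : (N[P] ⊔ M) ⊓ (N[P] ⊔ N) = N[P] := le_antisymm (fun g hg => mem_norm_of_map_le (by
      have key : ∀ (M : Subgroup G) [M.Normal], N[P] ⊔ M ≤ N[P ⊔ M] := fun M _ =>
        sup_le (le_norm_sup le_rfl le_normalizer_of_normal) (le_norm_of_le le_sup_right)
      exact (le_inf (map_cj_le_of_norm le_sup_left (key M hg.1)) (map_cj_le_of_norm le_sup_left (key N hg.2))).trans
        e1.le)) (le_inf le_sup_left le_sup_left)
    have f : Fac (N[P] ⊔ M) (N[P] ⊔ N) (N[P] ⊔ (M ⊔ N)) := by
      have := fac_sup_of_le_normalizer' (H := N[P] ⊔ M) (N := N) le_normalizer_of_normal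
      rw [sup_assoc] at this
      exact this.mono le_rfl le_sup_right (sup_le_sup_left le_sup_left _) (sup_le_sup_left le_sup_right _)
    have c := f.card_mul
    rw [e2] at c
    refine Nat.eq_of_mul_eq_mul_left (Nat.mul_pos (card_pos' (N[P] ⊔ M)) (card_pos' (N[P] ⊔ N))) ?_
    rw [mul_mul_mul_comm _ _ (N[P] ⊔ M).index, card_mul_index, card_mul_index, ← c, mul_comm N[P].index,
      mul_mul_mul_comm, card_mul_index, card_mul_index]

end Cfsg.Agent.S3867
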