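import Cfsg.Statements.S3881
import Mathlib
import Cfsg.Agent.L0.Mcy

set_option autoImplicit false
open Cfsg

namespace Cfsg.Agent.S3881

open Cfsg Subgroup CfsgH2 CfsgL0 CfsgBG

/-- Let p be an odd prime and G a finite metacyclic p-group (G has a cyclic normal subgroup with cyclic quotient). Suppose G is non-abelian with |G'| = p^n. Then for 1 ≤ i ≤ n the number of elements of G whose conjugacy class has exactly p^i elements is |Z(G)| · (p^(2i) − p^(2i−2)). -/
theorem result {G : Type*} [Group G] [Finite G] {p : ℕ} [Fact p.Prime] (hp : p ≠ 2) (hG : IsPGroup p G) (hmc : Cfsg.IsMetacyclic G) (n : ℕ) (hn : n ≠ 0) (hGn : Nat.card ↥(commutator G) = p ^ n) (i : ℕ) (hi : 1 ≤ i) (hin : i ≤ n) :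
    Nat.card {g : G // (Subgroup.centralizer ({g} : Set G)).index = p ^ i} =
      Nat.card ↥(Subgroup.center G) * (p ^ (2 * i) - p ^ (2 * i - 2)) := by
  have hm := mc_top_iff.1 hmc
  have h : CD p (⊤ : Subgroup G) := ⟨hp, hG.to_subgroup _, hm.der_cyc⟩
  have p1 := (Fact.out : p.Prime).one_lt
  have h1 : ∀ s m, s + m = n → ∀ g : G, g ∈ powerClosure p s ⊤ ↔ C1[g].index ≤ p ^ m := fun s m e g => by
    rw [h.mem_mho_iff hm (e ▸ hGn) (mem_top g), ← h.cl_le_iff le_rfl (mem_top g), relIndex_top_right]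
  have h2 : ∀ s m, s + m = n → Nat.card (powerClosure p s (⊤ : Subgroup G)) = Nat.card (center G) * p ^ (2 * m) := by
    intro s m e
    have e1 := card_mul_relIndex (le_top : powerClosure p s (⊤ : Subgroup G) ≤ ⊤)
    have e2 := card_mul_relIndex (inf_le_left : Z[(⊤ : Subgroup G)] ≤ ⊤)
    rw [h.relIndex_mho hm (e ▸ hGn)] at e1
    rw [h.relIndex_center hm, center_top, ← e1] at e2
    change _ * Nat.card (commutator G) ^ 2 = _ at e2
    refine Nat.eq_of_mul_eq_mul_right (pow_pos (by omega : 0 < p) (2 * s)) ?_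
    rw [← e2, hGn, ← e]; ring
  obtain ⟨j, rfl⟩ : ∃ j, i = j + 1 := ⟨i - 1, by omega⟩
  have e : {g : G | C1[g].index = p ^ (j + 1)} = (powerClosure p (n - (j + 1)) (⊤ : Subgroup G) : Set G) \ (powerClosure p (n - j) (⊤ : Subgroup G) : Set G) := by
    ext g
    obtain ⟨k, hk⟩ := exists_relIndex_eq_pow h.pg C1[g]
    rw [relIndex_top_right] at hk
    simp only [Set.mem_setOf_eq, Set.mem_diff, SetLike.mem_coe]
    rw [h1 _ (j + 1) (by omega), h1 _ j (by omega), hk, Nat.pow_le_pow_iff_right p1, Nat.pow_le_pow_iff_right p1,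
      Nat.pow_right_inj p1]
    omega
  have l : (powerClosure p (n - j) (⊤ : Subgroup G) : Set G) ⊆ powerClosure p (n - (j + 1)) (⊤ : Subgroup G) := fun g hg =>
    (h1 _ (j + 1) (by omega) g).2 (((h1 _ j (by omega) g).1 hg).trans (Nat.pow_le_pow_right (by omega) (by omega)))
  change Nat.card {g : G | C1[g].index = p ^ (j + 1)} = _
  rw [Nat.card_coe_set_eq, e, Set.ncard_diff l, ← Nat.card_coe_set_eq, ← Nat.card_coe_set_eq]
  change Nat.card (powerClosure p (n - (j + 1)) (⊤ : Subgroup G)) - Nat.card (powerClosure p (n - j) (⊤ : Subgroup G)) = _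
  rw [h2 _ (j + 1) (by omega), h2 _ j (by omega), Nat.mul_sub]
  congr 3

end Cfsg.Agent.S3881
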