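import Cfsg.Statements.S3883
import Mathlib
import Cfsg.Agent.L0.Mcy

set_option autoImplicit false
open Cfsg

namespace Cfsg.Agent.S3883

open Cfsg Subgroup CfsgH2 CfsgL0 CfsgBG

/-- Let p be an odd prime and G a finite metacyclic p-group (G has a cyclic normal subgroup with cyclic quotient). Suppose G is non-abelian. Then an element g of G lies outside the Frattini subgroup if and only if its centralizer C_G(g) is abelian. -/
theorem result {G : Type*} [Group G] [Finite G] {p : ℕ} [Fact p.Prime] (hp : p ≠ 2) (hG : IsPGroup p G) (hmc : Cfsg.IsMetacyclic G) (hna : ¬ IsMulCommutative G) (g : G) :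
    g ∉ frattini G ↔ IsMulCommutative ↥(Subgroup.centralizer ({g} : Set G)) := by
  have hm := mc_top_iff.1 hmc
  have h : CD p (⊤ : Subgroup G) := ⟨hp, hG.to_subgroup _, hm.der_cyc⟩
  have p1 := (Fact.out : p.Prime).one_lt
  obtain ⟨n, hn⟩ := exists_card_eq_pow (h.pg.to_le (commutator_self_le (H := ⊤)))
  obtain ⟨m, rfl⟩ : ∃ m, n = 1 + m := ⟨n - 1, by
    rcases n with _ | n
    · exact absurd (isMulComm_top_iff.1 (comm_self_eq_bot_iff.1 (Subgroup.card_eq_one.1 hn))) hna
    · omega⟩
  have e : frattini G = powerClosure p 1 ⊤ := by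
    rw [← CfsgH1.frattiniOf_top]
    refine le_antisymm (phi_le_of (p := p) ?_ fun x hx => by simpa using mem_mho (p := p) (n := 1) hx)
      (mho_le_of fun x hx => by simpa using pow_mem_phi h.pg hx)
    obtain ⟨a, b, h1, h2⟩ := hm
    rw [← h.zpowers_comm (g2_eq_sup.trans h2), zpowers_le]
    exact mho_mono' le_top (comm_cyc_le_mho h.pg inferInstance h1
      (commutator_mem_commutator (mem_zpowers a) (mem_top b)))
  obtain ⟨k, hk⟩ := exists_relIndex_eq_pow h.pg C1[g]
  rw [e, h.mem_mho_iff hm hn (mem_top g), ← h.cl_le_iff le_rfl (mem_top g), h.ab_iff hm le_top, hk,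
    Nat.pow_le_pow_iff_right p1]
  have e1 := card_mul_relIndex (le_top : C1[g] ≤ ⊤)
  have e2 := card_mul_relIndex (commutator_self_le (H := (⊤ : Subgroup G)))
  rw [← e1, hn, hk] at e2
  rw [← Nat.mul_le_mul_right_iff (n := o[C1[g]]) (pow_pos (by omega : 0 < p) k), ← e2, mul_comm,
    Nat.mul_le_mul_left_iff (relIndex_pos _ _), Nat.pow_le_pow_iff_right p1]
  omega

end Cfsg.Agent.S3883
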