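import Cfsg.Statements.S3884
import Mathlib
import Cfsg.Agent.L0.Mcy

set_option autoImplicit false
open Cfsg

namespace Cfsg.Agent.S3884

open Cfsg Subgroup CfsgH2 CfsgL0 CfsgBG

/-- Let p be an odd prime and G a finite metacyclic p-group (G has a cyclic normal subgroup with cyclic quotient). Then G is the product of two cyclic subgroups with trivial intersection: there are cyclic subgroups A and B with A ∩ B = 1 and |A| · |B| = |G|. -/
theorem result {G : Type*} [Group G] [Finite G] {p : ℕ} [Fact p.Prime] (hp : p ≠ 2) (hG : IsPGroup p G) (hmc : Cfsg.IsMetacyclic G) : ∃ A B : Subgroup G, IsCyclic ↥A ∧ IsCyclic ↥B ∧ A ⊓ B = ⊥ ∧ Nat.card ↥A * Nat.card ↥B = Nat.card G := by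
  have hm := mc_top_iff.1 hmc
  have h : CD p (⊤ : Subgroup G) := ⟨hp, hG.to_subgroup _, hm.der_cyc⟩
  obtain ⟨a, b, h1, h2⟩ := id hm
  obtain ⟨x, y, e, e'⟩ := h.rg.exists_disj h.pg _ a b (g2_eq_sup.trans h2) rfl
  refine ⟨zpowers x, zpowers y, inferInstance, inferInstance, e', IsComplement'.card_mul ?_⟩
  refine isComplement'_of_disjoint_and_mul_eq_univ (disjoint_iff.2 e') (Set.eq_univ_of_forall fun g => ?_)
  obtain ⟨u, hu, v, hv, rfl⟩ := h.prod hm e (mem_top g)
  exact Set.mul_mem_mul hu hv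

end Cfsg.Agent.S3884
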