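import Cfsg.Statements.S3886
import Mathlib
import Cfsg.Agent.L0.Mcy

set_option autoImplicit false
open Cfsg

namespace Cfsg.Agent.S3886

open Cfsg Subgroup CfsgH2 CfsgL0 CfsgBG

/-- Let p be an odd prime and G a finite metacyclic p-group (G has a cyclic normal subgroup with cyclic quotient). Then the largest value of |R| · |Z(R)| over subgroups R of G is |G : G'|², and the subgroups attaining it (the centrally large subgroups) are exactly the non-abelian subgroups together with the maximal abelian subgroups of G. -/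
theorem result {G : Type*} [Group G] [Finite G] {p : ℕ} [Fact p.Prime] (hp : p ≠ 2) (hG : IsPGroup p G) (hmc : Cfsg.IsMetacyclic G) : Cfsg.maxCentralProduct G = (commutator G).index ^ 2 ∧
    ∀ R : Subgroup G, Cfsg.IsCentrallyLarge R ↔ (¬ IsMulCommutative ↥R ∨ Maximal (fun K : Subgroup G => IsMulCommutative ↥K) R) := by
  have hm := mc_top_iff.1 hmc
  have h : CD p (⊤ : Subgroup G) := ⟨hp, hG.to_subgroup _, hm.der_cyc⟩
  have h1 : ∀ R : Subgroup G, Nat.card R * Nat.card (center R) = (⁅R, R⁆ : Subgroup G).relIndex R ^ 2 := fun R => by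
    rw [← (h.mono le_top).card_center (Mc_mono hm le_top), ← map_center_subtype, card_map_of_injective R.subtype_injective]
  have h2 := fun R : Subgroup G => CD.ab_index (L := R) ⊤ h hm le_top
  simp only [relIndex_top_right] at h2
  have e : maxCentralProduct G = (commutator G).index ^ 2 := by
    refine IsGreatest.csSup_eq ⟨⟨⊤, by rw [h1, relIndex_top_right]; rfl⟩, ?_⟩
    rintro _ ⟨R, rfl⟩
    rw [h1]; exact Nat.pow_le_pow_left (h2 R).1 _
  refine ⟨e, fun R => ?_⟩
  rw [IsCentrallyLarge, e, h1, max_ab_iff h hm, Nat.pow_left_inj (by omega)]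
  by_cases hc : Ab[R]
  · rw [comm_self_eq_bot_iff.2 hc, relIndex_bot_left]; simp [hc]
  · exact ⟨fun _ => .inl hc, fun _ => (h2 R).2 hc⟩

end Cfsg.Agent.S3886
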