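import Cfsg.Statements.S3887
import Mathlib
import Cfsg.Agent.L0.Mcy

set_option autoImplicit false
open Cfsg

namespace Cfsg.Agent.S3887

open Cfsg Subgroup CfsgH2 CfsgL0 CfsgBG

/-- Let p be an odd prime and G a finite metacyclic p-group (G has a cyclic normal subgroup with cyclic quotient). Then a subgroup R of G maximizes |R| · |C_G(R)| over all subgroups of G if and only if R contains the center of G. -/
theorem result {G : Type*} [Group G] [Finite G] {p : ℕ} [Fact p.Prime] (hp : p ≠ 2) (hG : IsPGroup p G) (hmc : Cfsg.IsMetacyclic G) (R : Subgroup G) : Cfsg.IsCentralizerLarge R ↔ Subgroup.center G ≤ R := by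
  have hm := mc_top_iff.1 hmc
  have h : CD p (⊤ : Subgroup G) := ⟨hp, hG.to_subgroup _, hm.der_cyc⟩
  have e : maxCentralizerProduct G = o[(⊤ : Subgroup G)] * o[Z[(⊤ : Subgroup G)]] := by
    refine IsGreatest.csSup_eq ⟨⟨⊤, by rw [top_inf_eq]⟩, ?_⟩
    rintro _ ⟨R, rfl⟩
    simpa using h.meas_mono (L := R) ⊤ le_rfl le_top
  rw [IsCentralizerLarge, e]
  constructor
  · intro h1
    have h2 := h.meas_eq (R := R ⊔ center G) le_top (by rw [center_top]; exact le_sup_right)
    have h3 : C[R ⊔ center G] = C[R] := by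
      rw [cent_sup, inf_eq_left, ← cent_top]; exact le_top.trans (le_centralizer_iff.1 le_rfl)
    rw [← h1, top_inf_eq, h3] at h2
    exact le_sup_right.trans (eq_of_le_of_card_ge le_sup_left (Nat.eq_of_mul_eq_mul_right Nat.card_pos h2).le).ge
  · intro h1
    simpa using h.meas_eq (R := R) le_top (by rwa [center_top])

end Cfsg.Agent.S3887
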