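import Cfsg.Statements.S3897
import Cfsg.Agent.H3.Hv1
import Cfsg.Agent.H3.Kpi

set_option autoImplicit false
open Cfsg

namespace Cfsg.Agent.S3897
open Subgroup CfsgH2 CfsgKpi

/-- Let p be an odd prime and G a finite group with Sylow p-subgroup P, and write k_p(G) for the number of conjugacy classes of G consisting of p-elements (elements of p-power order, the identity included). Then k_p(G) > (p + 1)|P|/(2p) if and only if G has a normal p-complement and P is abelian. -/
theorem result {G : Type*} [Group G] [Finite G] {p : ℕ} [Fact p.Prime] (hp : p ≠ 2) (P : Sylow p G) :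
    (p + 1) * Nat.card ↥(P : Subgroup G) < 2 * p * Nat.card {c : ConjClasses G // ∀ x ∈ c.carrier, ∃ k : ℕ, orderOf x = p ^ k} ↔
      Cfsg.HasNormalPComplement p G ∧ IsMulCommutative ↥(P : Subgroup G) := by
  have h1 : p.Prime := Fact.out
  rw [card_eq_kp h1, kp_eq (syl_top P), npc_top_iff]
  refine ⟨npc_ab (syl_top P), fun h => ?_⟩
  haveI := h.2
  rw [kc_eq_card (syl_top P) h.1, ← Nat.card_congr (Equiv.ofBijective ConjClasses.mk ⟨fun a b e => ?_,
    ConjClasses.mk_surjective⟩)]
  · exact Nat.mul_lt_mul_of_pos_right (by have := h1.two_le; omega) Nat.card_pos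
  · obtain ⟨c, rfl⟩ := isConj_iff.1 (ConjClasses.mk_eq_mk_iff_isConj.1 e)
    rw [h.2.is_comm.comm c a, mul_inv_cancel_right]


end Cfsg.Agent.S3897
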