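import Cfsg.Statements.S3898
import Cfsg.Agent.H3.Hv1
import Cfsg.Agent.H3.Kpi

set_option autoImplicit false
open Cfsg

namespace Cfsg.Agent.S3898
open Subgroup CfsgH2 CfsgKpi

/-- Let π be a finite set of primes containing 2 and G a finite group. Write k_π(G) for the number of conjugacy classes of G consisting of π-elements (elements all of whose order's prime divisors lie in π) and |G|_π for the π-part of the order of G. If k_π(G) > |G|_π/2, then G has a normal π-complement (a normal subgroup of order prime to π whose index is a π-number) and an abelian Hall subgroup for the set of odd primes in π. -/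
theorem result {G : Type*} [Group G] [Finite G] (π : Finset ℕ) (hπ : ∀ r ∈ π, r.Prime) (h2 : 2 ∈ π)
    (hk : π.prod (fun r => r ^ (Nat.card G).factorization r) < 2 * Nat.card {c : ConjClasses G // ∀ x ∈ c.carrier, ∀ r : ℕ, r.Prime → r ∣ orderOf x → r ∈ π}) :
    (∃ N : Subgroup G, N.Normal ∧ (∀ r : ℕ, r.Prime → r ∣ Nat.card ↥N → r ∉ π) ∧ ∀ r : ℕ, r.Prime → r ∣ N.index → r ∈ π) ∧ ∃ H : Subgroup G, Cfsg.IsPiHall ((↑π : Set ℕ) \ {2}) H ∧ IsMulCommutative ↥H := by
  rw [card_eq_kc (G := G) fun n => ∀ r : ℕ, r.Prime → r ∣ n → r ∈ π, ← one_mul (π.prod _)] at hk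
  haveI := Fact.mk Nat.prime_two
  obtain ⟨P, hP⟩ := exists_syl 2 (⊤ : Subgroup G)
  have hn := npc_two hP (by simpa using ratio π hπ h2 hP hk)
  set K := O[{2}ᶜ, (⊤ : Subgroup G)]
  obtain ⟨h1, H, h3, h4⟩ := ab_hall (K := K) (σ := π \ {2}) fun q hq' hq => by
    obtain ⟨Q, hQ⟩ := exists_syl q (⊤ : Subgroup G)
    have a := ratio π hπ hq.1 hQ hk
    have q3 : 3 ≤ q := lt_of_le_of_ne hq'.out.two_le (Ne.symm hq.2)
    have hQ' : Syl q Q K := hQ.mono (hn.hall.le_of_norm (IsPGroup.piN hQ.pg hq.2) le_top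
      (Or.inr (le_top.trans le_norm_piCoreOf))) le_top
    have hA : Ab[Q] := by
      by_contra e
      have b := nonab_bound hQ.pg
      have c := sq_center_le hQ.pg e
      have d : o[Z[Q]] * q * 3 ≤ o[Z[Q]] * q * q := by gcongr
      have := Nat.mul_lt_mul_of_pos_left a hq'.out.pos
      have := Nat.mul_le_mul_right o[Q] q3
      nlinarith
    refine ⟨hQ'.npc_of_norm_le_cent fun g hg => ?_, Q, hQ', hA⟩
    obtain ⟨x, hx, y, hy, rfl, o1, o2⟩ := exists_pi_parts {q} g
    obtain ⟨k, hk⟩ := (piN_singleton hq'.out (orderOf_pos x).ne').1 o1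
    refine mul_mem (le_cent_self hA ((hQ.mono le_normalizer le_top).mem_of_norm le_rfl (zpowers_le.2 hg.2 hx)
      (hk ▸ pow_orderOf_eq_one x))) (by_contra fun e => ?_)
    have := half_bound hQ.pg (zpowers_le.2 hg.2 hy) (Nat.not_even_iff_odd.1 fun e => not_dvd_piCoreOf
      (e.two_dvd.trans (orderOf_dvd_of_mem (zpowers_le.2 hg.1 hy)))) ((piN_compl_singleton' hq'.out).1 o2) e
    omega
  refine ⟨⟨piRes (π \ {2}) K, normal_of_top_le_norm (le_norm_piCoreOf.trans norm_le_norm_piRes), fun r hr hd h5 =>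
    h1 r hr hd ⟨h5, fun e => not_dvd_piCoreOf (e ▸ hd.trans (card_dvd_of_le piRes_le))⟩, fun r hr hd => ?_⟩,
    H, hall_top_iff.2 (h3.trans le_top (hn.mono' ?_)), h4⟩
  · rw [← relIndex_mul_index piRes_le, hr.dvd_mul, ← relIndex_top_right K] at hd
    exact hd.elim (fun e => (piN_relIndex_piRes r hr e).1) fun e => hn r hr e ▸ h2
  · rintro _ _ rfl; simp


end Cfsg.Agent.S3898
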