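import Cfsg.Statements.S3899
import Cfsg.Agent.H3.Hv1
import Cfsg.Agent.H3.Kpi

set_option autoImplicit false
open Cfsg

namespace Cfsg.Agent.S3899
open Subgroup CfsgH2 CfsgKpi

/-- Let π be a finite non-empty set of odd primes with smallest member p and G a finite group. Write k_π(G) for the number of conjugacy classes of G consisting of π-elements (elements all of whose order's prime divisors lie in π) and |G|_π for the π-part of the order of G. If k_π(G) > (p + 1)|G|_π/(2p), then G has a normal π-complement (a normal subgroup of order prime to π whose index is a π-number) and an abelian Hall π-subgroup. -/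
theorem result {G : Type*} [Group G] [Finite G] (π : Finset ℕ) (hπ : ∀ r ∈ π, r.Prime) (h2 : 2 ∉ π) (p : ℕ) (hp : p ∈ π)
    (hmin : ∀ r ∈ π, p ≤ r) (hk : (p + 1) * π.prod (fun r => r ^ (Nat.card G).factorization r) < 2 * p * Nat.card {c : ConjClasses G // ∀ x ∈ c.carrier, ∀ r : ℕ, r.Prime → r ∣ orderOf x → r ∈ π}) :
    (∃ N : Subgroup G, N.Normal ∧ (∀ r : ℕ, r.Prime → r ∣ Nat.card ↥N → r ∉ π) ∧ ∀ r : ℕ, r.Prime → r ∣ N.index → r ∈ π) ∧ ∃ H : Subgroup G, Cfsg.IsPiHall (↑π : Set ℕ) H ∧ IsMulCommutative ↥H := by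
  rw [card_eq_kc (G := G) fun n => ∀ r : ℕ, r.Prime → r ∣ n → r ∈ π] at hk
  obtain ⟨h1, H, h3, h4⟩ := ab_hall (K := (⊤ : Subgroup G)) (σ := π) fun q _ hq => by
    obtain ⟨Q, hQ⟩ := exists_syl q (⊤ : Subgroup G)
    have a := ratio π hπ hq hQ hk
    have b := hmin q hq
    have c := npc_ab hQ (by
      refine Nat.lt_of_mul_lt_mul_left (a := p) ?_
      have := Nat.mul_lt_mul_of_pos_left a (hπ q hq).pos
      have := Nat.mul_le_mul_right o[Q] b
      nlinarith)
    exact ⟨c.1, Q, hQ, c.2⟩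
  exact ⟨⟨piRes π ⊤, normal_of_top_le_norm le_norm_piRes, h1, relIndex_top_right (piRes π (⊤ : Subgroup G)) ▸ piN_relIndex_piRes⟩,
    H, hall_top_iff.2 h3, h4⟩


end Cfsg.Agent.S3899
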