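import Cfsg.Statements.S3904
import Cfsg.Agent.H3.Hv1
import Cfsg.Agent.H3.MxC

set_option autoImplicit false
open Cfsg

namespace Cfsg.Agent.S3904
open Subgroup CfsgH2 CfsgMxC

/-- Let G be a non-abelian finite group in which the centralizer of every non-central element is a maximal subgroup. Then G/Z(G) is either an elementary abelian p-group for some prime p, or a minimal non-abelian group (non-abelian with all proper subgroups abelian) of order p^a · q for distinct primes p, q with a normal Sylow p-subgroup. -/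
theorem result {G : Type*} [Group G] [Finite G] (hna : ¬ IsMulCommutative G)
    (h : ∀ x : G, x ∉ Subgroup.center G → IsCoatom (Subgroup.centralizer ({x} : Set G))) :
    (∃ p : ℕ, p.Prime ∧ Cfsg.IsElementaryAbelian p (⊤ : Subgroup (G ⧸ Subgroup.center G))) ∨
    (¬ IsMulCommutative (G ⧸ Subgroup.center G) ∧ (∀ H : Subgroup (G ⧸ Subgroup.center G), H ≠ ⊤ → IsMulCommutative ↥H) ∧
      ∃ p q a : ℕ, p.Prime ∧ q.Prime ∧ p ≠ q ∧ Nat.card (G ⧸ Subgroup.center G) = p ^ a * q ∧
        ∀ P : Subgroup (G ⧸ Subgroup.center G), Nat.card ↥P = p ^ a → P.Normal) := by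
  have hk : ∀ x : G, QuotientGroup.mk' (center G) x = 1 ↔ MonoidHom.id G x ∈ C[(⊤ : Subgroup G)] := fun x => by
    rw [cent_top]; exact QuotientGroup.eq_one_iff x
  have sj := QuotientGroup.mk'_surjective (center G)
  rcases struct (N := (⊤ : Subgroup G)) (fun x _ hx => h x (by rwa [cent_top] at hx)) with ⟨p, hp, a, b⟩ | ⟨V, H, p, s⟩
  · refine .inl ⟨p, hp, isMulComm_iff.2 fun x _ y _ => ?_, fun x _ => ?_⟩
    · obtain ⟨x, rfl⟩ := sj x
      obtain ⟨y, rfl⟩ := sj y
      have := (hk (x * y * x⁻¹ * y⁻¹)).2 (b x trivial y trivial)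
      simpa [mul_inv_eq_one, mul_inv_eq_iff_eq_mul] using this
    · obtain ⟨x, rfl⟩ := sj x
      exact (hk (x ^ p)).2 (a x trivial)
  obtain ⟨a, b, c, d⟩ := transfer s (MonoidHom.id G) (MonoidHom.range_eq_top.2 Function.surjective_id) _ sj hk
  rw [comap_id] at a b d
  set π := QuotientGroup.mk' (center G)
  set K := V.map π with hK
  set Q := (H.comap (MonoidHom.id G)).map π
  haveI := Fact.mk s.pr
  haveI := Fact.mk c
  haveI : IsCyclic Q := isCyclic_of_prime_card rfl
  obtain ⟨n, hn⟩ := (elem_pgroup d).exists_card_eq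
  have nd : ¬ p ∣ o[Q] := fun e => s.pr.one_lt.ne' (Nat.eq_one_of_dvd_coprimes a.coprime e
    (dvd_card_of_pgroup (elem_pgroup d) a.ker_ne))
  refine .inr ⟨fun e => ?_, fun L hL => ?_, p, _, n, s.pr, c, fun e => nd (e ▸ dvd_rfl),
    by rw [← hn, ← a.card, card_top], fun P hP => ?_⟩
  · obtain ⟨⟨x, x1⟩, x2⟩ := ne_bot_iff_exists_ne_one.1 a.comp_ne
    exact a.ker_ne (by
      rw [← a.fpf x x1 fun e => x2 (Subtype.ext e), eq_comm, inf_eq_left]
      exact fun y _ => mem_centralizer_singleton_iff.2 (mul_comm' y x))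
  · by_cases e : L ≤ K
    · exact isMulComm_of_le d.1 e
    have t : K ⊔ L = ⊤ := by
      have i := a.relIndex_ker
      rw [relIndex_top_right] at i
      refine index_eq_one.1 (((Nat.dvd_prime c).1 (i ▸ index_dvd_of_le le_sup_left)).resolve_right fun x => e ?_)
      exact le_sup_right.trans (eq_of_le_of_card_ge le_sup_left (Nat.eq_of_mul_eq_mul_right c.pos (by
        conv_lhs => rw [← x]
        rw [card_mul_index, ← i, card_mul_index])).le).ge
    have nW : (L ⊓ K).Normal := normal_of_top_le_norm (t ▸ sup_le (le_norm_of_le_cent (le_cent_of_comm d.1 inf_le_right))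
      (le_norm_inf le_normalizer le_normalizer_of_normal))
    have z : ⊤ ⊓ C[(⊤ : Subgroup G)] = π.ker := by rw [top_inf_eq, cent_top, QuotientGroup.ker_mk']
    rcases s.mn _ (nW.comap π) (z.le.trans (ker_le_comap _ _)) ((comap_mono inf_le_right).trans (by
      rw [hK, comap_map_eq, ← z]; exact sup_le le_rfl s.lt.le)) with x | x
    · obtain ⟨y, -, l⟩ := a.exists_conj_le le_top (by
        rw [← map_comap_eq_self_of_surjective sj (L ⊓ K), x, z, Subgroup.map_eq_bot_iff])
      exact isMulComm_of_le inferInstance l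
    · exact absurd (by
        rw [← t, eq_comm, sup_eq_right, hK, ← x, map_comap_eq_self_of_surjective sj]; exact inf_le_left) hL
  · have hS : Syl p K ⊤ := ⟨le_top, elem_pgroup d, a.relIndex_ker ▸ nd⟩
    rw [eq_of_le_of_card_ge (hS.le_of_norm' (.of_card hP) le_top le_normalizer_of_normal) (by rw [hP, hn])]
    exact b


end Cfsg.Agent.S3904
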