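import Cfsg.Statements.S3905
import Cfsg.Agent.H3.Hv1
import Cfsg.Agent.H3.MxC

set_option autoImplicit false
open Cfsg

namespace Cfsg.Agent.S3905
open Subgroup CfsgH2 CfsgMxC

/-- Let N be a normal subgroup of the finite group G such that for every element x of N outside the center of N the centralizer C_G(x) is a maximal subgroup of G. Then N/Z(N) is either an elementary abelian p-group for some prime p, or a Frobenius group whose kernel is an elementary abelian normal subgroup and whose complement has prime order. -/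
theorem result {G : Type*} [Group G] [Finite G] (N : Subgroup G) [N.Normal]
    (h : ∀ x : G, x ∈ N → x ∉ Subgroup.centralizer (N : Set G) → IsCoatom (Subgroup.centralizer ({x} : Set G))) :
    (∃ p : ℕ, p.Prime ∧ Cfsg.IsElementaryAbelian p (⊤ : Subgroup (↥N ⧸ Subgroup.center ↥N))) ∨
    (∃ (Q K : Subgroup (↥N ⧸ Subgroup.center ↥N)) (p : ℕ), p.Prime ∧ Cfsg.IsFrobeniusComplement Q ∧ (Nat.card ↥Q).Prime ∧
      K.Normal ∧ (K : Set (↥N ⧸ Subgroup.center ↥N)) = Cfsg.frobeniusKernel Q ∧ Cfsg.IsElementaryAbelian p K) := by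
  have hk : ∀ x : N, QuotientGroup.mk' (center N) x = 1 ↔ (x : G) ∈ C[N] := fun x =>
    (QuotientGroup.eq_one_iff x).trans (mem_center_iff.trans
      ⟨fun e y hy => congrArg Subtype.val (e ⟨y, hy⟩), fun e y => Subtype.ext (e y y.2)⟩)
  rcases struct h with ⟨p, hp, a, b⟩ | ⟨V, H, p, s⟩
  · refine .inl ⟨p, hp, isMulComm_iff.2 fun x _ y _ => ?_, fun x _ => ?_⟩
    · obtain ⟨x, rfl⟩ := QuotientGroup.mk'_surjective _ x
      obtain ⟨y, rfl⟩ := QuotientGroup.mk'_surjective _ y
      have := (hk (x * y * x⁻¹ * y⁻¹)).2 (b x x.2 y y.2)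
      simpa [mul_inv_eq_one, mul_inv_eq_iff_eq_mul] using this
    · obtain ⟨x, rfl⟩ := QuotientGroup.mk'_surjective _ x
      exact (hk (x ^ p)).2 (a x x.2)
  · obtain ⟨a, b, c, d⟩ := transfer s N.subtype N.range_subtype _ (QuotientGroup.mk'_surjective _) hk
    exact .inr ⟨_, _, p, s.pr, a.isFrobeniusComplement, c, b, a.kernel_eq.symm, d⟩


end Cfsg.Agent.S3905
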