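import Cfsg.Statements.S3908
import Cfsg.Agent.H3.Hv1
import Cfsg.Agent.H3.Dg

set_option autoImplicit false
open Cfsg

namespace Cfsg.Agent.S3908
open Subgroup CfsgH2 CfsgDg

/-- Let G be a finite group in which any two abelian subgroups of the same order are conjugate. Then a Sylow 2-subgroup of G is cyclic, elementary abelian or generalized quaternion, and for an odd prime p a Sylow p-subgroup of G is cyclic or has exponent dividing p. -/
theorem result {G : Type*} [Group G] [Finite G] (hB : ∀ A B : Subgroup G, IsMulCommutative ↥A → IsMulCommutative ↥B → Nat.card ↥A = Nat.card ↥B → ∃ g : G, B = A.map (MulAut.conj g).toMonoidHom) :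
    (∀ P : Sylow 2 G, IsCyclic ↥(P : Subgroup G) ∨ Cfsg.IsElementaryAbelian 2 (P : Subgroup G) ∨ ∃ k : ℕ, Nonempty (↥(P : Subgroup G) ≃* QuaternionGroup (2 ^ k))) ∧
    ∀ (p : ℕ) [Fact p.Prime], p ≠ 2 → ∀ P : Sylow p G, IsCyclic ↥(P : Subgroup G) ∨ ∀ x ∈ (P : Subgroup G), x ^ p = 1 := by
  have key : ∀ (p : ℕ) [Fact p.Prime] (E : Subgroup G), IsElementaryAbelian p E → o[E] = p ^ 2 → ∀ P : Sylow p G,
      ∀ y ∈ (P : Subgroup G), y ^ p = 1 := fun p _ E hE cE P y hy =>
    (pgroup_pow_eq_one P.isPGroup' hy).elim fun k hk => expo (fun L hL c => by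
      obtain ⟨g, rfl⟩ := hB E L hE.1 hL.isMulCommutative (cE.trans c.symm)
      exact not_cyclic_of_elem Fact.out (elem_map _ hE) c le_rfl hL) hk
  refine ⟨fun P => ?_, fun p _ hp P => ?_⟩
  · rcases tri P.isPGroup' with h | ⟨-, a, b, m, h⟩ | ⟨E, -, hE, cE⟩
    · exact Or.inl h
    · exact Or.inr (Or.inr ⟨m, h.toCy2.quaternion h.sq' h.inv⟩)
    · exact Or.inr (Or.inl ⟨ab_of_sq (key 2 E hE cE P), key 2 E hE cE P⟩)
  · rcases tri P.isPGroup' with h | ⟨e, -⟩ | ⟨E, -, hE, cE⟩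
    · exact Or.inl h
    · exact absurd e hp
    · exact Or.inr (key p E hE cE P)


end Cfsg.Agent.S3908
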