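import Cfsg.Statements.S3909
import Cfsg.Agent.H1.Misc1

set_option autoImplicit false
open Cfsg

namespace Cfsg.Agent.S3909

/-- Let G be a finite group in which any two abelian subgroups of the same order are conjugate. Let M be a normal subgroup of G. If M contains an element of the same order as a ∈ G, then a ∈ M; and if M is elementary abelian of order p^t with p prime and t ≥ 2, then M is the unique Sylow p-subgroup of G. -/
theorem result {G : Type*} [Group G] [Finite G] (hB : ∀ A B : Subgroup G, IsMulCommutative ↥A → IsMulCommutative ↥B → Nat.card ↥A = Nat.card ↥B → ∃ g : G, B = A.map (MulAut.conj g).toMonoidHom) (M : Subgroup G) [M.Normal] :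
    (∀ a : G, (∃ m ∈ M, orderOf m = orderOf a) → a ∈ M) ∧
    ∀ (p t : ℕ) [Fact p.Prime], 2 ≤ t → Nat.card ↥M = p ^ t → Cfsg.IsElementaryAbelian p M → ∀ P : Sylow p G, (P : Subgroup G) = M := by
  open Pointwise Subgroup CfsgH1 in
  open CfsgH2 hiding card_inf_mul_relIndex card_lt_of_lt card_lt_of_ne_top card_map_mul_card_inf_ker card_mul_relIndex card_subgroupOf card_sup_dvd card_sup_mul_card_inf exists_card_prime_le isNilpotent_map isNilpotent_of_le isPGroup_pCore isSolvable_map isSolvable_of_le le_pCore le_pPrimeCore relIndex_map_dvd in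
  open scoped CfsgH2 in
  open scoped commutatorElement in
  · have h1 : ∀ a : G, (∃ m ∈ M, orderOf m = orderOf a) → a ∈ M := fun a ⟨m, hm, e⟩ => by
      obtain ⟨g, hg⟩ := hB (zpowers m) (zpowers a) inferInstance inferInstance (by simpa using e)
      exact map_cj_le_of_norm (zpowers_le.2 hm) (le_normalizer_of_normal (mem_top g)) (hg.le (mem_zpowers a))
    refine ⟨h1, fun p t _ ht hM hel P => ?_⟩
    have hp := (Fact.out : p.Prime)
    have hMP : M ≤ P := (syl_top P).le_of_norm (isPGroup_of_card hM) le_top le_normalizer_of_normal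
    refine le_antisymm (fun x hx => h1 x ?_) hMP
    obtain ⟨k, hk⟩ := pgroup_mem_order P.isPGroup' hx
    rcases k with _ | _ | k
    · exact ⟨1, one_mem _, by simp [hk]⟩
    · simpa [hk] using exists_prime_order_mem hp (hM ▸ dvd_pow_self p (by omega))
    obtain ⟨E, h2, h3⟩ := (⟨hel, hM⟩ : El p t M).exists_le ht
    obtain ⟨U, h4, h5⟩ := exists_card_pow_le (H := zpowers x) (p := p) 2 (by
      rw [Nat.card_zpowers, hk]; exact pow_dvd_pow _ (by omega))
    have hc := CfsgH2.isCyclic_of_le inferInstance h4
    obtain ⟨g, hg⟩ := hB U E (isMulComm_of_cyclic hc) h3.comm (h5.trans h3.2.symm)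
    exact (h3.not_cyclic hp le_rfl (hg ▸ isCyclic_map _ hc)).elim

end Cfsg.Agent.S3909
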