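import Cfsg.Statements.S3910
import Cfsg.Agent.H1.Misc1

set_option autoImplicit false
open Cfsg

namespace Cfsg.Agent.S3910

/-- A finite nilpotent group in which any two abelian subgroups of the same order are conjugate is cyclic. -/
theorem result {G : Type*} [Group G] [Finite G] (hB : ∀ A B : Subgroup G, IsMulCommutative ↥A → IsMulCommutative ↥B → Nat.card ↥A = Nat.card ↥B → ∃ g : G, B = A.map (MulAut.conj g).toMonoidHom) (hnil : Group.IsNilpotent G) : IsCyclic G := by
  open Subgroup CfsgH2 in
  open CfsgH1 hiding card_inf_mul_relIndex card_lt_of_lt card_lt_of_ne_top card_map_mul_card_inf_ker card_mul_relIndex card_subgroupOf card_sup_dvd card_sup_mul_card_inf exists_card_prime_le isNilpotent_map isNilpotent_of_le isPGroup_pCore isSolvable_map isSolvable_of_le le_pCore le_pPrimeCore relIndex_map_dvd in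
  open scoped CfsgH1 in
  open scoped commutatorElement in
  · have : IsZGroup G := ⟨fun p hp P => by
      have := Fact.mk hp
      have n : ∀ X ≤ P.1, P.1 ≤ N[X] → X.Normal := fun X a b => normal_of_top_le_norm (le_of_forall_isSylowIn fun q hq _ => by
        have := Fact.mk hq
        obtain ⟨Q⟩ : Nonempty (Sylow q G) := inferInstance
        by_cases e : q = p
        · subst e; exact ⟨_, isSylowIn_top P, b⟩
        · exact ⟨_, isSylowIn_top Q, le_norm_of_le_cent (le_cent_of_coprime_of_nilpotent inferInstance le_top le_top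
            (coprime_card_of_pgroup_ne hq hp e Q.2 (P.2.to_le a)))⟩)
      have u : ∀ X ≤ P.1, P.1 ≤ N[X] → IsMulCommutative X → ∀ y, orderOf y = Nat.card X → y ∈ X := fun X a b c y e => by
        have := n X a b
        obtain ⟨g, h⟩ := hB X (zpowers y) c inferInstance (by rw [Nat.card_zpowers, e])
        exact (h.trans (map_cj_normal g X)).le (mem_zpowers y)
      rcases cyc_or_mc' P.2 (fun E a _ h => by
        obtain ⟨X, x1, x2, x3⟩ := exists_central_card_p P.2 le_normalizer ((h.card ▸ dvd_pow_self p two_ne_zero).trans (card_dvd_of_le a))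
        have := card_le_of_le (show E ≤ X from fun y hy => (eq_or_ne y 1).elim (· ▸ one_mem _) fun e => u X x1
          (le_norm_of_le_cent (le_centralizer_iff.1 x2)) (elem_of_card_prime hp x3).1 y ((orderOf_eq_of_pow hp (h.el.2 y hy) e).trans x3.symm))
        rw [h.card, x3] at this
        nlinarith [hp.one_lt]) with h | ⟨rfl, a, b, m, h⟩
      · exact h
      obtain ⟨k, hk⟩ := pgroup_mem_order P.2 h.bmem
      have : orderOf b ∣ 2 ^ (m + 1) := orderOf_dvd_of_pow_eq_one (by
        obtain ⟨j, rfl⟩ := Nat.exists_eq_add_of_le' h.pos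
        rw [pow_succ' 2 (j + 1), pow_mul]
        rcases h.rel with ⟨e, -⟩ | ⟨e, -⟩ | ⟨-, e, -⟩ <;> rw [e]
        · simp
        · rw [← pow_mul, ← pow_add, show j + 1 + (j + 1) = j + 1 + 1 + j by omega, pow_add, pow_mul, ← h.ord, pow_orderOf_eq_one, one_pow]
        · simp)
      obtain ⟨X, x1, x2⟩ := exists_card_pow_le (H := zpowers a) (p := 2) k (by rwa [Nat.card_zpowers, h.ord, ← hk])
      exact absurd (x1 (u X (x1.trans h.ale) (h.le_norm.trans (norm_le_norm_of_cyclic inferInstance x1))
        (isMulComm_of_le inferInstance x1) b (hk.trans x2.symm))) h.nmem⟩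
    infer_instance

end Cfsg.Agent.S3910
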