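import Cfsg.Statements.S3917
import Cfsg.Agent.H1.Misc1

set_option autoImplicit false
open Cfsg

namespace Cfsg.Agent.S3917

/-- Say that a group has self-centralizing non-cyclic subgroups when every non-cyclic subgroup H satisfies C_G(H) ≤ H. A finite abelian group with self-centralizing non-cyclic subgroups is cyclic or elementary abelian of order p² for a prime p. -/
theorem result {G : Type*} [CommGroup G] [Finite G] (hX : (∀ H : Subgroup G, ¬ IsCyclic ↥H → Subgroup.centralizer (H : Set G) ≤ H)) :
    IsCyclic G ∨ ∃ p : ℕ, p.Prime ∧ Nat.card G = p ^ 2 ∧ Monoid.exponent G = p := by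
  open Subgroup CfsgH2 in
  open CfsgH1 hiding card_inf_mul_relIndex card_lt_of_lt card_lt_of_ne_top card_map_mul_card_inf_ker card_mul_relIndex card_subgroupOf card_sup_dvd card_sup_mul_card_inf exists_card_prime_le isNilpotent_map isNilpotent_of_le isPGroup_pCore isSolvable_map isSolvable_of_le le_pCore le_pPrimeCore relIndex_map_dvd in
  open scoped CfsgH1 in
  open scoped commutatorElement in
  · refine or_iff_not_imp_left.2 fun h => ?_
    have t : ∀ H : Subgroup G, ¬ IsCyclic H → H = ⊤ := fun H a => top_le_iff.1 fun x _ => hX H a fun y _ => mul_comm y x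
    obtain ⟨p, hp, P, hP⟩ : ∃ p : ℕ, p.Prime ∧ ∃ P : Sylow p G, ¬ IsCyclic P := by
      by_contra! e
      have : IsZGroup G := ⟨e⟩
      exact h inferInstance
    have := Fact.mk hp
    obtain ⟨E, -, -, hE⟩ := exists_normal_el2_of_comm P.2 P.2 le_normalizer inferInstance hP
    obtain rfl := t E (not_cyclic_of_elem hp hE.el hE.card le_rfl)
    have := Classical.not_not.1 fun e => h (@isCyclic_of_subsingleton G _ (not_nontrivial_iff_subsingleton.1 e))
    exact ⟨p, hp, card_top.symm.trans hE.card, (Monoid.exponent_eq_prime_iff hp).2 fun g e => orderOf_eq_of_pow hp (hE.el.2 g trivial) e⟩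

end Cfsg.Agent.S3917
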