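import Cfsg.Statements.S3918
import Cfsg.Agent.H1.Misc1

set_option autoImplicit false
open Cfsg

namespace Cfsg.Agent.S3918

/-- Say that a group has self-centralizing non-cyclic subgroups when every non-cyclic subgroup H satisfies C_G(H) ≤ H. For an odd prime p, a finite non-abelian p-group has self-centralizing non-cyclic subgroups if and only if it has order p³. -/
theorem result {G : Type*} [Group G] [Finite G] {p : ℕ} [Fact p.Prime] (hp : p ≠ 2) (hG : IsPGroup p G) (hna : ¬ IsMulCommutative G) :
    (∀ H : Subgroup G, ¬ IsCyclic ↥H → Subgroup.centralizer (H : Set G) ≤ H) ↔ Nat.card G = p ^ 3 := by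
  open Subgroup CfsgH2 in
  open CfsgH1 hiding card_inf_mul_relIndex card_lt_of_lt card_lt_of_ne_top card_map_mul_card_inf_ker card_mul_relIndex card_subgroupOf card_sup_dvd card_sup_mul_card_inf exists_card_prime_le isNilpotent_map isNilpotent_of_le isPGroup_pCore isSolvable_map isSolvable_of_le le_pCore le_pPrimeCore relIndex_map_dvd in
  open scoped CfsgH1 in
  open scoped commutatorElement in
  · have q := (Fact.out : p.Prime)
    have t : IsPGroup p (⊤ : Subgroup G) := hG.to_subgroup _
    refine ⟨fun h => ?_, fun h H a x hx => by_contra fun b => hna ?_⟩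
    · obtain ⟨A, -, a1, a2, a3⟩ := exists_normal_elem2 hp t t le_normalizer fun e => hna (isMulComm_top_iff.1 inferInstance)
      have := relIndex_cent_dvd_of_card_sq t a1 a3.dvd
      rw [le_antisymm (h A (not_cyclic_of_elem q a2 a3 le_rfl)) (le_cent_self a2.1), relIndex_top_right] at this
      obtain ⟨k, hk, e⟩ := (Nat.dvd_prime_pow q).1 (show Nat.card G ∣ p ^ 3 by
        rw [← A.card_mul_index, a3, pow_succ p 2]; exact Nat.mul_dvd_mul_left _ this)
      by_contra c
      exact hna (isMulComm_top_iff.1 (isMulComm_of_card_dvd_sq (p := p) (by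
        rw [card_top, e]; exact pow_dvd_pow _ (Nat.le_of_lt_succ (hk.lt_of_ne fun d => c (d ▸ e))))))
    obtain ⟨k, hk, e⟩ := (Nat.dvd_prime_pow q).1 (h ▸ H.card_subgroup_dvd_card)
    have := H.card_mul_index
    rw [h, e] at this
    interval_cases k
    · exact absurd (isCyclic_of_card_dvd_prime (p := p) (by simp [e])) a
    · exact absurd (isCyclic_of_card_dvd_prime (p := p) (by simp [e])) a
    · rw [← isMulComm_top_iff, ← sup_zpowers_eq_of_prime (K := H) (by
        rwa [relIndex_top_right, Nat.eq_of_mul_eq_mul_left (pow_pos q.pos 2) (this.trans (pow_succ p 2))]) le_top (mem_top x) b]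
      exact isMulComm_sup (isMulComm_of_card_sq e) inferInstance (le_centralizer_iff.1 (zpowers_le.2 hx))
    · exact absurd ((eq_top_of_card_eq H (e.trans h.symm)).ge (mem_top x)) b

end Cfsg.Agent.S3918
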