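import Cfsg.Statements.S3919
import Cfsg.Agent.H2.MaxCl3

set_option autoImplicit false
open Cfsg

namespace Cfsg.Agent.S3919
open CfsgH2

/-- Say that a group has self-centralizing non-cyclic subgroups when every non-cyclic subgroup H satisfies C_G(H) ≤ H. A finite non-abelian 2-group G of order 2^n has self-centralizing non-cyclic subgroups if and only if G has nilpotency class n − 1 (that is, G is dihedral, semidihedral or generalized quaternion). -/
theorem result {G : Type*} [Group G] [Finite G] (hna : ¬ IsMulCommutative G) (n : ℕ) (hG : Nat.card G = 2 ^ n) :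
    (∀ H : Subgroup G, ¬ IsCyclic ↥H → Subgroup.centralizer (H : Set G) ≤ H) ↔ (⊤ : Subgroup G).lowerCentralSeries (n - 2) ≠ ⊥ := by
  open Subgroup Function in
  haveI : Fact (Nat.Prime 2) := ⟨Nat.prime_two⟩
  have hn : Nat.card (⊤ : Subgroup G) = 2 ^ n := by rwa [card_top]
  have hP := isPGroup_of_card hn
  have hc : ¬ IsMulCommutative (⊤ : Subgroup G) := fun e => hna (isMulComm_top_iff.1 e)
  have h3 : 3 ≤ n := by
    by_contra h
    exact hc (isMulComm_of_card_dvd_sq (p := 2) (hn ▸ pow_dvd_pow 2 (by omega)))
  obtain ⟨k, rfl⟩ : ∃ k, n = k + 3 := ⟨n - 3, by omega⟩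
  show _ ↔ (⊤ : Subgroup G).lowerCentralSeries (k + 1) ≠ ⊥
  constructor
  · intro h
    by_cases h1 : prk 2 (⊤ : Subgroup G) ≤ 1
    · rcases cyc_or_quat hP h1 with e | ⟨-, a, b, m, h2, -⟩
      · exact (hc inferInstance).elim
      · have := h2.card
        rw [hn, Nat.pow_right_inj (by norm_num)] at this
        rw [show k + 1 = m by omega]; exact h2.lcs_ne_bot
    · obtain ⟨E, -, hE⟩ := exists_el_of_le (show 2 ≤ prk 2 (⊤ : Subgroup G) by omega)
      exact lcs_ne_bot_of_cent (p := 2) (k + 1) G ⊤ E hn le_top hE.card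
        (inf_le_right.trans (h E (hE.not_cyclic Nat.prime_two le_rfl)))
  · intro h H hH
    obtain ⟨a, b, h1⟩ := mc_of_lcs hP hn h
    obtain ⟨g, hg, hg1⟩ := SetLike.not_le_iff_exists.1
      (show ¬ H ≤ zpowers a from fun e => hH (isCyclic_of_le inferInstance e))
    have h2 : zpowers (a ^ 2 ^ (k + 1)) ≤ H := by
      have h4 : H ⊓ zpowers a ≠ ⊥ := fun e => by
        have h5 := card_inf_mul_relIndex (zpowers a) H
        rw [inf_comm, e, card_bot, one_mul] at h5
        have h6 : (zpowers a).relIndex H ∣ 2 := by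
          haveI := normal_of_top_le_norm h1.le_norm
          have := h1.relIndex
          rw [relIndex_top_right] at this
          exact this ▸ relIndex_dvd_index_of_normal _ _
        rw [h5] at h6
        rcases (Nat.dvd_prime Nat.prime_two).1 h6 with e | e
        · rw [card_eq_one.1 e] at hg; exact hg1 ((mem_bot.1 hg) ▸ one_mem _)
        · exact hH (isCyclic_of_card_prime Nat.prime_two e)
      refine (le_of_card_dvd_of_cyclic (C := zpowers a) inferInstance
        (zpowers_le.2 (pow_mem (mem_zpowers a) _)) inf_le_right ?_).trans inf_le_left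
      rw [← h1.center_eq, h1.card_center]
      have := dvd_relIndex_of_not_le (hP.to_le (le_top : H ⊓ zpowers a ≤ ⊤))
        (fun e => h4 (le_bot_iff.1 e))
      rwa [relIndex_bot_left] at this
    exact ((le_inf le_top (cent_le_cent1 hg)).trans (h1.cent_le (mem_top g) hg1)).trans
      (sup_le h2 (zpowers_le.2 hg))

end Cfsg.Agent.S3919
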