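import Cfsg.Statements.S3927
import Cfsg.Agent.H3.Hv1
import Cfsg.Agent.H3.Flav

set_option autoImplicit false
open Cfsg

namespace Cfsg.Agent.S3927
open Subgroup CfsgH1 CfsgH2 CfsgFlav

theorem g1 {Γ : Type*} [Group Γ] (x a : Γ) : x * (a * x * a⁻¹)⁻¹ = x * a * x⁻¹ * a⁻¹ := by group

theorem g2 {Γ : Type*} [Group Γ] (x a : Γ) (n : ℤ) :
    x * a ^ n * (a * (x * a ^ n) * a⁻¹)⁻¹ = x * (a * x * a⁻¹)⁻¹ := by group

theorem main {Γ : Type*} [Group Γ] [Finite Γ] (a : Γ) (k : ℕ) (L : Subgroup Γ) : a ∈ L → nc L (zpowers a) = L →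
    L ≤ closure ((fun c => c * (a * c * a⁻¹)⁻¹)^[k] '' L) ⊔ zpowers a := by
  induction L using WellFoundedLT.induction with
  | ind L ih =>
  intro ha hL
  by_contra hc
  set f : Γ → Γ := fun c => c * (a * c * a⁻¹)⁻¹ with hf
  have fL : ∀ j, ∀ c ∈ L, f^[j] c ∈ L := fun j => by
    induction j with
    | zero => exact fun c h => h
    | succ j ih =>
      intro c h
      rw [Function.iterate_succ_apply']
      exact mul_mem (ih c h) (inv_mem (mul_mem (mul_mem ha (ih c h)) (inv_mem ha)))
  have aL : zpowers a ≤ L := zpowers_le.2 ha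
  have inj := map_injective L.subtype_injective
  have mt : (⊤ : Subgroup L).map L.subtype = L := by rw [← MonoidHom.range_eq_map, range_subtype]
  have mA : (zpowers (⟨a, ha⟩ : L)).map L.subtype = zpowers a := by simp
  obtain ⟨M, m1, m2⟩ := exists_coatom_ge (H := (closure (f^[k] '' L) ⊔ zpowers a).subgroupOf L)
    fun e => hc (subgroupOf_eq_top.1 e)
  have aM : (⟨a, ha⟩ : L) ∈ M := m2 (mem_sup_right (mem_zpowers a))
  have hA : nc ⊤ (zpowers (⟨a, ha⟩ : L)) = ⊤ := inj (by rw [map_nc, mt, mA, hL])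
  have u := zip2 m1 _ hA (fun e => m1.1 (top_le_iff.1 (e ▸ zpowers_le.2 aM))) fun H h1 h2 h3 => by
    refine le_trans (fun x hx => ?_) m2
    have := ih (H.map L.subtype) (lt_of_le_of_ne (map_subtype_le _) fun e => h2 (inj (e.trans mt.symm)))
      ⟨_, h1 (mem_zpowers _), rfl⟩ (by rw [← mA, ← map_nc, h3]) (mem_map_of_mem _ hx)
    exact sup_le_sup_right (Subgroup.closure_mono (Set.image_mono (map_subtype_le H))) _ this
  have nM : N[M] = M := (m1.le_iff.1 le_normalizer).resolve_left fun e =>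
    m1.1 (top_le_iff.1 (hA.ge.trans (nc_le (zpowers_le.2 aM) e.ge)))
  have : ∀ j, (∀ c hc, (⟨_, fL j c hc⟩ : L) ∈ M) → False := by
    intro j
    induction j with
    | zero => exact fun h => m1.1 (eq_top_iff.2 fun x _ => h x x.2)
    | succ j ih =>
      refine fun h => ih fun c hc => ?_
      set y : L := ⟨_, fL j c hc⟩
      have e : (⟨_, fL (j + 1) c hc⟩ : L) = y * (⟨a, ha⟩ * y * ⟨a, ha⟩⁻¹)⁻¹ :=
        Subtype.ext (Function.iterate_succ_apply' f j c)
      have h1 := mul_mem (e ▸ h c hc) aM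
      rw [← nM, ← inv_mem_iff, ← map_cj_eq_iff]
      refine u _ _ (coat_cj m1 _) m1 (zpowers_le.2 (mem_map_cj.2 ?_)) (zpowers_le.2 aM)
      convert h1 using 1
      group
  exact this k fun c hc => m2 (mem_sup_left (subset_closure ⟨c, hc, rfl⟩))

/-- Let G be a finite group and α an automorphism of G with [G, α] = G, that is, the elements g·α(g)⁻¹ generate G. Then for every k ≥ 1 the iterated commutators [g, α, …, α] with k entries α — the values of the k-th iterate of the map c ↦ c·α(c)⁻¹ — also generate G. -/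
theorem result {G : Type*} [Group G] [Finite G] (α : MulAut G) (hG : Subgroup.closure (Set.range (fun c : G => c * (α c)⁻¹)) = ⊤) (k : ℕ) (hk : 1 ≤ k) :
    Subgroup.closure (Set.range ((fun c : G => c * (α c)⁻¹)^[k])) = ⊤ := by
  haveI : Finite (MulAut G) := Finite.of_injective (fun f : MulAut G => (f : G → G)) DFunLike.coe_injective
  let Γ := G ⋊[(zpowers α).subtype] zpowers α
  haveI : Finite Γ := Finite.of_equiv _ SemidirectProduct.equivProd.symm
  let a : Γ := SemidirectProduct.inr ⟨α, mem_zpowers α⟩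
  have ca : ∀ g : G, a * SemidirectProduct.inl g * a⁻¹ = SemidirectProduct.inl (α g) := fun g => by
    rw [← map_inv]; exact (SemidirectProduct.inl_aut (φ := (zpowers α).subtype) ⟨α, mem_zpowers α⟩ g).symm
  have za : ∀ r : zpowers α, (SemidirectProduct.inr r : Γ) ∈ zpowers a := by
    rintro ⟨_, n, rfl⟩
    exact ⟨n, by simp only [a, ← map_zpow]; rfl⟩
  have hn : nc ⊤ (zpowers a) = ⊤ := by
    have h1 : ∀ g : G, (SemidirectProduct.inl g : Γ) ∈ nc ⊤ (zpowers a) := fun g => by
      refine (closure_le ((nc ⊤ (zpowers a)).comap SemidirectProduct.inl)).2 ?_ (hG ▸ mem_top g)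
      rintro _ ⟨c, rfl⟩
      have := mul_mem (cj_le_nc (A := zpowers a) (mem_top (SemidirectProduct.inl c : Γ))
        (conj_mem_map_cj (mem_zpowers a))) (inv_mem (le_nc (mem_zpowers a)))
      show (SemidirectProduct.inl (c * (α c)⁻¹) : Γ) ∈ nc ⊤ (zpowers a)
      rw [map_mul, map_inv, ← ca, g1]
      exact this
    refine eq_top_iff.2 fun x _ => ?_
    rw [← SemidirectProduct.inl_left_mul_inr_right x]
    exact mul_mem (h1 _) (le_nc (za _))
  set f : G → G := fun c => c * (α c)⁻¹ with hf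
  set X := closure (Set.range f^[k])
  have fa : ∀ j c, α (f^[j] c) = f^[j] (α c) := fun j => by
    induction j with
    | zero => exact fun _ => rfl
    | succ j ih => intro c; rw [Function.iterate_succ_apply', Function.iterate_succ_apply', ← ih]; simp [f]
  have Xa : ∀ x ∈ X, α x ∈ X := fun x hx => (closure_le (X.comap α.toMonoidHom)).2
    (by rintro _ ⟨c, rfl⟩; exact subset_closure ⟨α c, (fa k c).symm⟩) hx
  have Xr : ∀ r : zpowers α, ∀ x ∈ X, r.1 x ∈ X := by
    rintro ⟨r, hr⟩
    obtain ⟨n, rfl⟩ := (mem_powers_iff_mem_zpowers.2 hr)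
    induction n with
    | zero => exact fun x h => h
    | succ n ih => exact fun x h => by simpa [pow_succ] using ih (npow_mem_zpowers α n) _ (Xa x h)
  let Y : Subgroup Γ :=
    { carrier := {x | x.left ∈ X}
      one_mem' := X.one_mem
      mul_mem' := fun {x y} hx hy => X.mul_mem hx (Xr _ _ hy)
      inv_mem' := fun {x} hx => Xr x.right⁻¹ _ (X.inv_mem hx) }
  have it : ∀ j g, (fun c : Γ => c * (a * c * a⁻¹)⁻¹)^[j] (SemidirectProduct.inl g) = SemidirectProduct.inl (f^[j] g) := by
    intro j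
    induction j with
    | zero => exact fun _ => rfl
    | succ j ih => intro g; rw [Function.iterate_succ_apply, Function.iterate_succ_apply, ← ih, ca, map_mul, map_inv]
  have := (main a k ⊤ trivial hn).trans (sup_le ((closure_le Y).2 ?_) (zpowers_le.2 X.one_mem))
  · exact eq_top_iff.2 fun g _ => this (mem_top (SemidirectProduct.inl g))
  rintro _ ⟨c, -, rfl⟩
  obtain ⟨k, rfl⟩ := Nat.exists_eq_add_of_le' hk
  have : c * (a * c * a⁻¹)⁻¹ = SemidirectProduct.inl (f c.left) := by
    obtain ⟨n, hn⟩ := za c.right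
    rw [map_mul, map_inv, ← ca]
    conv_lhs => rw [← SemidirectProduct.inl_left_mul_inr_right c, ← hn]
    exact g2 _ _ _
  rw [Function.iterate_succ_apply, this, it]
  exact subset_closure ⟨c.left, rfl⟩


end Cfsg.Agent.S3927
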