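import Cfsg.Statements.S3928
import Cfsg.Agent.H3.Hv1
import Cfsg.Agent.S3927
import Cfsg.Agent.S3949
import Cfsg.Agent.L0.G2

set_option autoImplicit false
open Cfsg

namespace Cfsg.Agent.S3928
open Subgroup CfsgH2
open scoped commutatorElement

def J {G : Type} [Group G] (α : MulAut G) : Set G := {g | Odd (orderOf g) ∧ α g = g⁻¹}

theorem act {X : Type} [Group X] [Finite X] (S : Set X) (hS : closure S = ⊤) (K : Subgroup X)
    (hK : ∀ k ∈ K, ∀ s ∈ S, k * s * k⁻¹ ∈ S) {r : ℕ} (hr : S.ncard ≤ r) : (center X).relIndex K ≤ (r + 1) ^ r := by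
  have : Nat.card (S → S) ≤ (r + 1) ^ r := by
    rw [Nat.card_fun, Nat.card_coe_set_eq]
    exact (Nat.pow_le_pow_left (by omega) _).trans (Nat.pow_le_pow_right (by omega) hr)
  refine le_trans (Nat.card_le_card_of_injective (fun c : K ⧸ (center X).subgroupOf K =>
    fun s : S => (⟨_, hK _ c.out.2 s s.2⟩ : S)) fun c d e => ?_) this
  rw [← c.out_eq', ← d.out_eq']
  refine QuotientGroup.eq.2 (mem_center_iff.2 fun g => ?_)
  refine (mem_centralizer_singleton_iff.1 ((closure_le C1[(c.out⁻¹ * d.out : K).1]).2 (fun s hs => ?_) (hS ▸ mem_top g)))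
  have := congrArg Subtype.val (congrFun e ⟨s, hs⟩)
  refine mem_centralizer_singleton_iff.2 ?_
  simp only [coe_mul, coe_inv] at this ⊢
  rw [← mul_left_cancel_iff (a := c.out.1), ← mul_right_cancel_iff (a := d.out.1⁻¹)]
  simp only [mul_assoc] at this ⊢
  simpa using this

theorem ab {A : Type} [CommGroup A] [Finite A] {e : ℕ} (S : Finset A) (h : ∀ s ∈ S, orderOf s ≤ e) :
    Nat.card (closure (S : Set A)) ≤ e ^ S.card := by
  classical
  induction S using Finset.induction_on with
  | empty => simp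
  | insert s S hs ih =>
    rw [Finset.coe_insert, Set.insert_eq, Subgroup.closure_union, ← zpowers_eq_closure, Finset.card_insert_of_notMem hs, pow_succ']
    refine (Nat.le_of_dvd (Nat.mul_pos Nat.card_pos Nat.card_pos) (card_sup_dvd (.inl (by rw [normalizer_eq_top]; exact le_top)))).trans
      (Nat.mul_le_mul ?_ (ih fun t ht => h t (by simp [ht])))
    rw [Nat.card_zpowers]; exact h s (by simp)

theorem sch (t r e : ℕ) : ∃ B, ∀ (X : Type) [Group X] [Finite X] (S : Set X), closure S = ⊤ → S.ncard ≤ r →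
    (∀ s ∈ S, orderOf s ≤ e) → (center X).index ≤ t → Nat.card X ≤ B := by
  refine ⟨(Finset.range (t * t + 1)).sup cardCommutatorBound * (e + 1) ^ r, fun X _ _ S hS hr he ht => ?_⟩
  rw [← (commutator X).card_mul_index]
  refine Nat.mul_le_mul ((card_commutator_le_of_finite_commutatorSet X).trans (Finset.le_sup (Finset.mem_range.2 ?_))) ?_
  · refine Nat.lt_succ_of_le (le_trans ?_ (Nat.mul_le_mul ht ht))
    rw [index_eq_card, ← Nat.card_prod]
    refine Nat.card_le_card_of_surjective (fun c : (X ⧸ center X) × (X ⧸ center X) =>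
      (⟨⁅c.1.out, c.2.out⁆, _, _, rfl⟩ : commutatorSet X)) ?_
    rintro ⟨_, a, b, rfl⟩
    obtain ⟨⟨u, hu⟩, e1⟩ := QuotientGroup.mk_out_eq_mul (center X) a
    obtain ⟨⟨v, hv⟩, e2⟩ := QuotientGroup.mk_out_eq_mul (center X) b
    refine ⟨(a, b), Subtype.ext ?_⟩
    simp only [e1, e2, commutatorElement_def]
    rw [mul_assoc a u, ← mem_center_iff.1 hu, ← mul_assoc a, mul_assoc _ u, mul_inv_rev a u, mul_inv_cancel_left,
      ← mul_assoc a b v, mul_assoc _ v, ← mem_center_iff.1 hv]
    group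
  · have h1 : closure (Abelianization.of '' S) = ⊤ := by
      rw [← MonoidHom.map_closure, hS]; exact map_top_of_surjective _ (QuotientGroup.mk'_surjective _)
    haveI : Finite (Abelianization X) := Finite.of_surjective _ (QuotientGroup.mk'_surjective (commutator X))
    have := ab (e := e + 1) (Set.toFinite (Abelianization.of '' S)).toFinset (by
      simp only [Set.Finite.mem_toFinset]
      rintro _ ⟨s, hs, rfl⟩
      exact (Nat.le_of_dvd (orderOf_pos s) (orderOf_map_dvd _ s)).trans ((he s hs).trans (by omega)))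
    rw [Set.Finite.coe_toFinset, h1, card_top, ← Set.ncard_eq_toFinset_card _ _] at this
    exact this.trans (Nat.pow_le_pow_right (by omega) ((Set.ncard_image_le (Set.toFinite _)).trans hr))

theorem quo {G : Type} [Group G] [Finite G] (α : MulAut G) (h2 : ∀ x, α (α x) = x) (hJ : closure (J α) = ⊤)
    (N : Subgroup G) [N.Normal] (hN : ∀ x ∈ N, α x ∈ N) : ∃ β : MulAut (G ⧸ N), (∀ x : G, β x = α x) ∧
      (∀ x, β (β x) = x) ∧ J β = QuotientGroup.mk '' J α ∧ closure (J β) = ⊤ := by
  have hm : N.map α.toMonoidHom = N := le_antisymm (map_le_iff_le_comap.2 hN) fun x hx => ⟨α x, hN x hx, h2 x⟩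
  have e : J (QuotientGroup.congr N N α hm) = QuotientGroup.mk '' J α := by
    ext w
    constructor
    · rintro ⟨h1, h3⟩
      obtain ⟨k, hk⟩ := exists_pow_eq_self_of_coprime (x := w) (n := 2) (Nat.coprime_two_left.2 h1)
      obtain ⟨h, hh⟩ := QuotientGroup.mk_surjective (w ^ k)
      set y := h * (α h)⁻¹
      have hy : α y = y⁻¹ := by simp [y, h2]
      have ey : (y : G ⧸ N) = w := by
        have : ((α h : G) : G ⧸ N) = (w ^ k)⁻¹ := by
          rw [← inv_pow, ← h3, ← map_pow, ← hh]; rfl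
        rw [QuotientGroup.mk_mul, QuotientGroup.mk_inv, this, hh, inv_inv, ← sq, ← pow_mul, mul_comm, pow_mul, hk]
      obtain ⟨a, m, hm, e⟩ := Nat.exists_eq_two_pow_mul_odd (orderOf_pos y).ne'
      obtain ⟨l, hl⟩ := exists_pow_eq_self_of_coprime (x := w) (n := 2 ^ a)
        (Nat.Coprime.pow_left _ (Nat.coprime_two_left.2 h1))
      refine ⟨(y ^ 2 ^ a) ^ l, ⟨hm.of_dvd_nat (orderOf_dvd_of_pow_eq_one ?_), by simp [hy]⟩, by simp [ey, hl]⟩
      rw [← pow_mul, mul_comm, pow_mul, ← pow_mul y, ← e, pow_orderOf_eq_one, one_pow]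
    · rintro ⟨g, ⟨h1, h3⟩, rfl⟩
      exact ⟨h1.of_dvd_nat (orderOf_map_dvd (QuotientGroup.mk' N) g), congrArg QuotientGroup.mk h3⟩
  refine ⟨QuotientGroup.congr N N α hm, fun _ => rfl, fun x => ?_, e, ?_⟩
  · induction x using QuotientGroup.induction_on
    exact congrArg QuotientGroup.mk (h2 _)
  · rw [e]
    exact (MonoidHom.map_closure (QuotientGroup.mk' N) _).symm.trans
      (hJ ▸ map_top_of_surjective _ (QuotientGroup.mk'_surjective _))

theorem main (m : ℕ) : ∃ B, ∀ (G : Type) [Group G] [Finite G] (α : MulAut G), (∀ x, α (α x) = x) →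
    closure (J α) = ⊤ → (J α).ncard ≤ m → Nat.card G ≤ B := by
  induction m with
  | zero => exact ⟨0, fun G _ _ α _ _ h => absurd ((Set.ncard_pos (s := J α) (Set.toFinite _)).2 ⟨1, by simp [J]⟩) (by omega)⟩
  | succ m ih =>
  obtain ⟨B, hB⟩ := ih
  set n := (m + 1 + 1) ^ (m + 1) with hn
  set R := 2 * n * n with hR
  obtain ⟨D, hD⟩ := sch ((R + 1) ^ R) R 2
  obtain ⟨E, hE⟩ := sch (2 * n * (m + 1) + D * B) (m + 1) (m + 1)
  refine ⟨E, fun G _ _ α h2 hJ hm => hE G _ hJ hm (fun s hs => le_trans ?_ hm) ?_⟩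
  · rw [← Nat.card_zpowers]
    refine Set.ncard_le_ncard (s := (zpowers s : Set G)) ?_
    rintro _ ⟨k, rfl⟩
    exact ⟨hs.1.of_dvd_nat (orderOf_dvd_of_mem_zpowers ⟨k, rfl⟩), by simp [hs.2]⟩
  obtain ⟨β, b1, b2, b3, b4⟩ := quo α h2 hJ (center G) fun x hx => mem_center_iff.2 fun g => by
    rw [← h2 g, ← map_mul, ← map_mul, mem_center_iff.1 hx]
  set W := G ⧸ center G
  set C : Subgroup W := β.toMonoidHom.eqLocus (MonoidHom.id W)
  have mC : ∀ w, w ∈ C ↔ β w = w := fun _ => Iff.rfl
  have cC : Nat.card C ≤ n := by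
    have := act (J α) hJ (C.comap (QuotientGroup.mk' _)) (fun k hk s hs => ⟨by rw [orderOf_conj']; exact hs.1, by
      obtain ⟨z, hz, e⟩ := (QuotientGroup.mk'_eq_mk' (center G)).1 (((b1 k).symm.trans hk).symm)
      rw [map_mul, map_mul, map_inv, hs.2, ← e, mul_assoc k z, ← mem_center_iff.1 hz]; group⟩) hm
    have e := relIndex_comap ⊥ (QuotientGroup.mk' (center G)) (C.comap (QuotientGroup.mk' _))
    rw [MonoidHom.comap_bot, QuotientGroup.ker_mk',
      map_comap_eq_self_of_surjective (QuotientGroup.mk'_surjective _), relIndex_bot_left] at e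
    exact e ▸ this
  have jm : (J β).ncard ≤ m + 1 := b3 ▸ (Set.ncard_image_le (Set.toFinite _)).trans hm
  have c1 : Nat.card W ≤ {w | β w = w⁻¹}.ncard * n := by
    rw [← Set.ncard_univ]
    refine CfsgL0.ncard_le_mul (fun x => x * (β x)⁻¹) (fun x _ => by simp [b2]) (fun y _ => le_trans ?_ cC)
      (Set.toFinite _) (Set.toFinite _)
    rcases Set.eq_empty_or_nonempty {x ∈ Set.univ | x * (β x)⁻¹ = y} with e | ⟨x, -, hx⟩
    · rw [e]; simp
    refine Set.ncard_le_ncard_of_injOn (t := (C : Set W)) (fun u => x⁻¹ * u) (fun u hu => ?_) (fun _ _ _ _ e => by simpa using e)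
    show β (x⁻¹ * u) = x⁻¹ * u
    rw [map_mul, map_inv, show β u = y⁻¹ * u by rw [← hu.2]; group, show β x = y⁻¹ * x by rw [← hx]; group]; group
  show Nat.card W ≤ _
  by_cases hz : ∃ z ∈ C, orderOf z = 2 ∧ C1[z].index ≤ R
  · obtain ⟨z, z1, z2, z3⟩ := hz
    set N := normalClosure {z}
    have zN : z ∈ N := subset_normalClosure rfl
    obtain ⟨γ, -, g2, g3, g4⟩ := quo β b2 b4 N fun x hx => normalClosure_le_normal (N := N.comap β.toMonoidHom)
      (by rintro y rfl; show β y ∈ N; rw [(mC _).1 z1]; exact zN) hx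
    have cS : (N.subtype ⁻¹' Group.conjugatesOfSet {z}).ncard ≤ R := by
      refine le_trans (Set.ncard_le_ncard_of_injOn (t := {x | ∃ n ∈ (⊤ : Subgroup W), n * z * n⁻¹ = x}) Subtype.val
        (fun x hx => ?_) Subtype.val_injective.injOn) (le_trans ?_ z3)
      · obtain ⟨_, rfl, h⟩ := Group.mem_conjugatesOfSet_iff.1 hx
        obtain ⟨c, hc⟩ := isConj_iff.1 h
        exact ⟨c, trivial, hc⟩
      · have := CfsgL0.ncard_cls_mul ⊤ z
        rw [top_inf_eq, card_top, ← C1[z].index_mul_card] at this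
        exact (Nat.eq_of_mul_eq_mul_right Nat.card_pos this).le
    have gS : closure (N.subtype ⁻¹' Group.conjugatesOfSet {z}) = ⊤ := closure_closure_coe_preimage
    have cN := hD N _ gS cS (fun s hs => by
      obtain ⟨_, rfl, h⟩ := Group.mem_conjugatesOfSet_iff.1 hs
      obtain ⟨c, hc⟩ := isConj_iff.1 h
      rw [← orderOf_coe, show (s : W) = _ from hc.symm, orderOf_conj', z2]) (by
        rw [← relIndex_top_right]
        exact act _ gS ⊤ (fun k _ s hs => Group.conj_mem_conjugatesOfSet hs) cS)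
    obtain ⟨j, hj, nj⟩ : ∃ j ∈ J β, z * j * z⁻¹ ≠ j := by
      by_contra! hc
      obtain ⟨x, rfl⟩ := QuotientGroup.mk_surjective z
      have x2 : x * x ∈ center G := by
        rw [← QuotientGroup.eq_one_iff, QuotientGroup.mk_mul, ← sq, ← z2, pow_orderOf_eq_one]
      have : (x : W) = 1 := (QuotientGroup.eq_one_iff x).2 (mem_center_iff.2 fun g =>
        mem_centralizer_singleton_iff.1 ((closure_le C1[x]).2 (fun s hs => ?_) (hJ ▸ mem_top g)))
      · rw [this, orderOf_one] at z2; omega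
      obtain ⟨c, hc, e⟩ := (QuotientGroup.mk'_eq_mk' (center G) (x := s) (y := x * s * x⁻¹)).1
        (hc s (b3 ▸ ⟨s, hs, rfl⟩)).symm
      have cm : Commute s c := mem_center_iff.1 hc s
      have e1 : c ^ orderOf s = 1 := by
        have := cm.mul_pow (orderOf s)
        rw [e, conj_pow, pow_orderOf_eq_one] at this
        simpa using this.symm
      have e2 : c ^ 2 = 1 := by
        have : s * c * c = s := by
          rw [e, mul_assoc, mem_center_iff.1 hc, ← mul_assoc, mul_assoc x, e]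
          rw [show x * (x * s * x⁻¹) * x⁻¹ = x * x * s * (x * x)⁻¹ by group, ← mem_center_iff.1 x2]; group
        rw [sq, ← mul_left_cancel_iff (a := s), ← mul_assoc, this, mul_one]
      have : c = 1 := by
        have := pow_gcd_eq_one.2 ⟨e1, e2⟩
        rwa [Nat.coprime_two_right.2 hs.1, pow_one] at this
      rw [this, mul_one, eq_mul_inv_iff_mul_eq] at e
      exact mem_centralizer_singleton_iff.2 e
    have lt : (J γ).ncard < (J β).ncard := by
      rw [g3]
      refine lt_of_le_of_ne (Set.ncard_image_le (Set.toFinite _)) fun e => nj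
        (Set.injOn_of_ncard_image_eq e (Set.toFinite _) ⟨by rw [orderOf_conj']; exact hj.1, ?_⟩ hj ?_)
      · rw [map_mul, map_mul, map_inv, (mC z).1 z1, hj.2]; group
      · simp [(QuotientGroup.eq_one_iff z).2 zN]
    have := hB _ γ g2 g4 (by omega)
    rw [← N.card_mul_index]
    exact (Nat.mul_le_mul cN this).trans (Nat.le_add_left _ _)
  push Not at hz
  have c2 : {w | β w = w⁻¹}.ncard ≤ m + 1 + n * (Nat.card W / R) := by
    refine le_trans (Set.ncard_le_ncard (t := J β ∪ {w | β w = w⁻¹ ∧ Even (orderOf w)}) fun w hw =>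
      (Nat.even_or_odd (orderOf w)).elim (fun h => .inr ⟨hw, h⟩) fun h => .inl ⟨h, hw⟩)
      ((Set.ncard_union_le _ _).trans (Nat.add_le_add jm ?_))
    refine (CfsgL0.ncard_le_mul (Y := {z | z ∈ C ∧ orderOf z = 2}) (n := Nat.card W / R) (fun w => w ^ (orderOf w / 2))
      (fun w hw => ?_) (fun z hz' => ?_) (Set.toFinite _) (Set.toFinite _)).trans (Nat.mul_le_mul_right _
        ((Set.ncard_le_ncard (t := (C : Set W)) fun _ h => h.1).trans cC))
    · have o2 : orderOf (w ^ (orderOf w / 2)) = 2 := orderOf_pow_orderOf_div (orderOf_pos w).ne' hw.2.two_dvd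
      refine ⟨(mC _).2 ?_, o2⟩
      rw [map_pow, hw.1, inv_pow, inv_eq_iff_mul_eq_one, ← sq, ← orderOf_dvd_iff_pow_eq_one, o2]
    · refine (Set.ncard_le_ncard (t := (C1[z] : Set W)) fun w hw => ?_).trans ?_
      · exact mem_centralizer_singleton_iff.2 (hw.2 ▸ (Commute.self_pow w _).eq)
      · refine (Nat.le_div_iff_mul_le (by positivity)).2 ?_
        rw [← C1[z].card_mul_index]
        exact Nat.mul_le_mul_left _ (hz z hz'.1 hz'.2).le
  have e1 := Nat.mul_div_le (Nat.card W) R
  have e2 := c1.trans (Nat.mul_le_mul_right n c2)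
  generalize Nat.card W / R = q at e1 e2
  rw [hR] at e1
  nlinarith [Nat.zero_le (D * B)]

/-- There is a function f such that for every non-trivial finite group G and every automorphism α of G of order 2 with [G, α] = G (the elements g·α(g)⁻¹ generate G), the order of G is at most f(m), where m is the number of elements of odd order inverted by α. -/
theorem result : ∃ f : ℕ → ℕ, ∀ (G : Type) [Group G] [Finite G] [Nontrivial G] (α : MulAut G), orderOf α = 2 →
    Subgroup.closure (Set.range (fun c : G => c * (α c)⁻¹)) = ⊤ →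
      Nat.card G ≤ f (Nat.card {g : G // Odd (orderOf g) ∧ α g = g⁻¹}) := by
  choose f hf using main
  refine ⟨f, fun G _ _ _ α h2 hG => hf _ G α (fun g => ?_) ?_ le_rfl⟩
  · have := congrArg (fun f : MulAut G => f g) (pow_orderOf_eq_one α)
    simpa [h2, pow_two] using this
  · have := S3927.result α hG (Nat.card G) Nat.card_pos
    rwa [S3949.result α h2 hG _ fun g _ h => absurd (Nat.le_of_dvd (orderOf_pos g) h) (not_le.2
      (orderOf_le_card.trans_lt Nat.lt_two_pow_self))] at this


end Cfsg.Agent.S3928
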