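import Cfsg.Statements.S3937
import Mathlib
import Cfsg.Agent.L0.M3
import Cfsg.Agent.H1.Wielandt

set_option autoImplicit false
open Cfsg

namespace Cfsg.Agent.S3937

open Cfsg Subgroup CfsgH2 CfsgL0
open scoped commutatorElement

/-- Baer's characterization of the Fitting subgroup: in a finite group G, an element g lies in the Fitting subgroup if and only if g is a left Engel element, that is, for every x there is n with [x, g, g, …, g] = 1 (n entries g, [a, b] = aba⁻¹b⁻¹). -/
theorem result {G : Type*} [Group G] [Finite G] (g : G) :
    g ∈ Cfsg.fittingSubgroup G ↔ ∀ x : G, ∃ n : ℕ, (List.replicate n g).foldl (fun a b => a * b * a⁻¹ * b⁻¹) x = 1 := by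
  have hs : ∀ (x : G) (n : ℕ), (List.replicate (n + 1) g).foldl (fun a b => a * b * a⁻¹ * b⁻¹) x =
      ⁅(List.replicate n g).foldl (fun a b => a * b * a⁻¹ * b⁻¹) x, g⁆ := fun x n => by
    rw [List.replicate_succ', List.foldl_append]; rfl
  rw [← fit_top]
  constructor
  · intro hg x
    obtain ⟨-, m, hm⟩ := CfsgH1.sn_iff_iterate.1
      (CfsgH1.sn_of_le_nilpotent fit_nil (.of_normal le_top le_norm_fit) (zpowers_le.2 hg))
    have : ∀ n, (List.replicate n g).foldl (fun a b => a * b * a⁻¹ * b⁻¹) x ∈
        (fun K : Subgroup G => ⁅K, zpowers g⁆)^[n] ⊤ := by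
      intro n
      induction n with
      | zero => trivial
      | succ n ih =>
        rw [hs, Function.iterate_succ_apply']
        exact commutator_mem_commutator ih (mem_zpowers g)
    refine ⟨m + 1, ?_⟩
    rw [hs, commutatorElement_eq_one_iff_mul_comm]
    exact commute_of_mem_zpowers (hm (this m)) (mem_zpowers g)
  · intro h
    have key : ∀ L : Subgroup G, zpowers g ≤ L → CfsgH9.Sn (zpowers g) L := by
      intro L
      induction L using WellFoundedLT.induction with | ind L ih => ?_
      intro hl
      by_contra hn
      obtain ⟨M, h1, h2, h3⟩ := CfsgH1.zipper hl hn fun H a b => ih H b a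
      have hN : ∀ y ∈ L, y ∈ N[M] → y ∈ M := by
        intro y a b
        refine h3 (L ⊓ N[M]) (le_inf hl (le_norm_of_le h1)) (lt_of_le_of_ne inf_le_left fun e => hn ?_) ⟨a, b⟩
        exact (ih M h2 h1).trans (.of_normal h2.le (e.ge.trans inf_le_right))
      refine h2.not_ge fun x hx => ?_
      obtain ⟨n, hn⟩ := h x
      have hL : ∀ n, (List.replicate n g).foldl (fun a b => a * b * a⁻¹ * b⁻¹) x ∈ L := by
        intro n
        induction n with
        | zero => exact hx
        | succ n ih =>
          rw [hs]
          have := hl (mem_zpowers g)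
          exact mul_mem (mul_mem (mul_mem ih this) (inv_mem ih)) (inv_mem this)
      have hM : ∀ n, (List.replicate n g).foldl (fun a b => a * b * a⁻¹ * b⁻¹) x ∈ M → x ∈ M := by
        intro n
        induction n with
        | zero => exact id
        | succ n ih =>
          rw [hs]
          intro hy
          refine ih (hN _ (hL n) (inv_mem_iff.1 (mem_norm_of_map_le (h3 _ ?_ ?_))))
          · rw [zpowers_le, mem_map_cj, inv_inv]
            have := mul_mem hy (h1 (mem_zpowers g))
            simpa [commutatorElement_def] using this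
          · exact CfsgH1.lt_map_cj h2 (le_normalizer (inv_mem (hL n)))
      exact hM n (hn ▸ one_mem _)
    exact le_fit_of_sn (key ⊤ le_top) (isNilpotent_of_comm inferInstance) (mem_zpowers g)

end Cfsg.Agent.S3937
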