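import Cfsg.Statements.S3939
import Mathlib
import Cfsg.Agent.L0.M3

set_option autoImplicit false
open Cfsg

namespace Cfsg.Agent.S3939

open Cfsg Subgroup CfsgH2 CfsgL0
open scoped commutatorElement
universe u
theorem fwd (n : ℕ) : ∀ (G : Type u) [Group G] [Finite G] (g : G), Nat.card G = n →
    (∀ x : G, Group.IsNilpotent ↥(Subgroup.closure ({x, g} : Set G))) → ∃ k, g ∈ Subgroup.upperCentralSeries G k := by
  induction n using Nat.strong_induction_on with | _ n ih => ?_
  intro G _ _ g hn h
  by_cases hZ : center G = ⊥
  · refine ⟨0, ?_⟩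
    by_contra g1
    have g1 : g ≠ 1 := by simpa using g1
    obtain ⟨X, hX, hp⟩ := exists_prime_le (H := zpowers g) (by simpa using g1)
    haveI := Fact.mk hp
    set p := Nat.card X
    have hXC : X ≤ C[piRes {p} ⊤] := le_centralizer_iff.1 (piRes_le_iff'.2 fun y _ hy => by
      have := nil_le_cent' (π := {p}ᶜ) (h y) (X := zpowers y) (Y := X) (zpowers_le.2 (subset_closure (by simp)))
        (hX.trans (zpowers_le.2 (subset_closure (by simp)))) (piN_card_zpowers hy)
        (by rw [compl_compl]; exact PiN.of_prime hp rfl)
      exact this (mem_zpowers y))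
    obtain ⟨P, hP, hXP⟩ := exists_syl_ge (isPGroup_of_card' (rfl : Nat.card X = p)) (le_top (a := X))
    have h1 := inf_cent_ne_bot' (H := P ⊓ C[piRes {p} ⊤]) hP.pg hP.pg.to_inf_left
      (le_norm_inf le_normalizer (le_norm_cent (le_top.trans le_norm_piRes)))
      (fun e => ne_bot_of_card_prime hp (le_bot_iff.1 (e ▸ le_inf hXP hXC)))
    refine h1 (le_bot_iff.1 ?_)
    rw [← hZ, ← cent_top]
    refine le_trans ?_ (cent_anti hP.piRes_sup.ge)
    rw [cent_sup]
    exact inf_le_inf_right _ inf_le_right
  · obtain ⟨k, hk⟩ := ih _ (by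
      rw [← hn]; exact card_quot_lt hZ) (G ⧸ center G) g rfl fun x => by
      obtain ⟨x, rfl⟩ := QuotientGroup.mk_surjective x
      have e : closure ({(x : G ⧸ center G), (g : G ⧸ center G)} : Set _) =
          (closure ({x, g} : Set G)).map (QuotientGroup.mk' _) := by
        rw [MonoidHom.map_closure, Set.image_pair]; rfl
      rw [e]; exact isNilpotent_map _ (h x)
    exact ⟨k + 1, by rw [← Subgroup.comap_upperCentralSeries_quotient_center]; exact hk⟩
theorem bwd (k : ℕ) : ∀ (G : Type u) [Group G] (g : G), g ∈ Subgroup.upperCentralSeries G k →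
    ∀ x : G, Group.IsNilpotent ↥(Subgroup.closure ({x, g} : Set G)) := by
  induction k with
  | zero =>
    intro G _ g hg x
    have : g = 1 := by simpa using hg
    subst this
    have : closure ({x, 1} : Set G) = zpowers x := by
      refine le_antisymm ((closure_le _).2 ?_) (zpowers_le.2 (subset_closure (by simp)))
      rintro _ (rfl | rfl)
      exacts [mem_zpowers _, one_mem _]
    rw [this]; exact isNilpotent_of_comm inferInstance
  | succ k ih =>
    intro G _ g hg x
    rw [← Subgroup.comap_upperCentralSeries_quotient_center] at hg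
    have := ih (G ⧸ center G) g hg x
    have e : closure ({(x : G ⧸ center G), (g : G ⧸ center G)} : Set _) =
        (closure ({x, g} : Set G)).map (QuotientGroup.mk' _) := by
      rw [MonoidHom.map_closure, Set.image_pair]; rfl
    rw [e] at this
    refine Subgroup.isNilpotent_of_ker_le_center ((QuotientGroup.mk' (center G)).subgroupMap _) fun y hy => ?_
    have : (y : G) ∈ center G := (QuotientGroup.eq_one_iff _).1 (congrArg Subtype.val hy)
    exact mem_center_iff.2 fun z => Subtype.ext (mem_center_iff.1 this z)

/-- In a finite group G the set of elements g such that the subgroup generated by g and x is nilpotent for every x ∈ G is exactly the hypercenter of G (the last term of the upper central series). -/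
theorem result {G : Type*} [Group G] [Finite G] (g : G) :
    (∀ x : G, Group.IsNilpotent ↥(Subgroup.closure ({x, g} : Set G))) ↔ g ∈ ⨆ n : ℕ, Subgroup.upperCentralSeries G n := by
  rw [mem_iSup_of_directed (Subgroup.upperCentralSeries_mono G).directed_le]
  exact ⟨fwd _ G g rfl, fun ⟨k, hk⟩ => bwd k G g hk⟩

end Cfsg.Agent.S3939
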