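import Cfsg.Statements.S3941
import Cfsg.Agent.H1.Sn1

set_option autoImplicit false
open Cfsg

namespace Cfsg.Agent.S3941

/-- Let n ≥ 5 and p an odd prime with p ≤ n, and suppose that every proper subgroup of the alternating group of degree n whose order is divisible by p has a normal Sylow p-subgroup. Then n = p. -/
theorem result (n p : ℕ) (hn : 5 ≤ n) [Fact p.Prime] (hp : p ≠ 2) (hpn : p ≤ n)
    (h : ∀ H : Subgroup ↥(alternatingGroup (Fin n)), H ≠ ⊤ → p ∣ Nat.card ↥H → Cfsg.IsPClosed p ↥H) : n = p := by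
  open CfsgH1 CfsgH1.Sn Equiv Equiv.Perm MulAction in
  open scoped commutatorElement in
  · by_contra hne
    obtain ⟨m, rfl⟩ : ∃ m, n = m + 1 := ⟨n - 1, by omega⟩
    have hp' : p.Prime := Fact.out
    let φ := altHom (viaEmbeddingHom (Fin.castSuccEmb (n := m)))
    have e := MonoidHom.ofInjective (f := φ) (altHom_inj (viaEmbeddingHom_injective _))
    have h1 := two_mul_card_alt (n := m) (by omega)
    have h2 : p ∣ Nat.card (alternatingGroup (Fin m)) :=
      (hp'.dvd_mul.1 (h1 ▸ hp'.dvd_factorial.2 (by omega))).resolve_left fun h =>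
        hp ((Nat.prime_dvd_prime_iff_eq hp' Nat.prime_two).1 h)
    have h3 := h φ.range (fun e1 => by
      have h4 := two_mul_card_alt (n := m + 1) (by omega)
      rw [← Subgroup.card_top, ← e1, ← Nat.card_congr e.toEquiv, h1, Nat.factorial_succ] at h4
      have := m.factorial_pos
      nlinarith) (Nat.card_congr e.toEquiv ▸ h2)
    obtain ⟨P⟩ : Nonempty (Sylow p φ.range) := inferInstance
    have h4 := h3 P
    let Q := P.comapOfInjective e.toMonoidHom e.injective fun x _ => e.surjective x
    have h5 : (Q : Subgroup (alternatingGroup (Fin m))).Normal := h4.comap _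
    have h6 : ∀ x ∈ Q, orderOf x ≠ 2 := fun x hx e => by
      obtain ⟨k, hk⟩ := IsPGroup.iff_orderOf.1 Q.2 ⟨x, hx⟩
      rw [← Subgroup.orderOf_coe, e] at hk
      exact hp ((Nat.prime_dvd_prime_iff_eq Nat.prime_two hp').1 (Nat.prime_two.dvd_of_dvd_pow hk.dvd)).symm
    by_cases h7 : 5 ≤ m
    · have := alternatingGroup.isSimpleGroup (α := Fin m) (by simpa using h7)
      obtain ⟨g, hg⟩ := exists_alt (α := Fin m) {2, 2} (by simp; omega) (by simp) (by decide)
      refine h6 g ?_ (by rw [← Subgroup.orderOf_coe, ← lcm_cycleType, hg]; rfl)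
      rw [← SetLike.mem_coe, ← Sylow.coe_coe, (h5.eq_bot_or_eq_top.resolve_left (Q.ne_bot_of_dvd_card h2))]
      trivial
    · obtain rfl : m = 4 := by omega
      obtain rfl : p = 3 := by
        have := hp'.two_le
        have : p ≠ 4 := by rintro rfl; exact absurd hp' (by decide)
        omega
      have h8 : ∀ x : alternatingGroup (Fin 4), x ^ 3 = 1 → x ∈ Q := fun x hx => by
        obtain ⟨R, hR⟩ := (show IsPGroup 3 (Subgroup.zpowers x) from
          IsPGroup.of_card_dvd_pow (n := 1) (by rw [Nat.card_zpowers]; exact orderOf_dvd_of_pow_eq_one hx)).exists_le_sylow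
        have := Sylow.unique_of_normal Q h5
        exact Subsingleton.elim R Q ▸ hR (Subgroup.mem_zpowers x)
      exact h6 _ (Q.mul_mem (h8 ⟨swap 0 1 * swap 1 2, mem_alternatingGroup.2 (by decide)⟩ (by decide)) (h8 ⟨swap 1 2 * swap 2 3, mem_alternatingGroup.2 (by decide)⟩ (by decide)))
        (orderOf_eq_prime (by decide) (by decide))

end Cfsg.Agent.S3941
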