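import Cfsg.Statements.S3946
import Mathlib
import Cfsg.Agent.L0.Hughes
import Cfsg.Agent.H1.Frob2

set_option autoImplicit false
open Cfsg

namespace Cfsg.Agent.S3946

open Cfsg Subgroup CfsgH2 CfsgL0

/-- Call an automorphism α of order n of a group G splitting when x · α(x) · α²(x) ⋯ α^(n−1)(x) = 1 for every x ∈ G. A finite group admitting a splitting automorphism of prime order is nilpotent (this contains the case of a fixed-point-free automorphism of prime order). -/
theorem result {G : Type*} [Group G] [Finite G] (α : MulAut G) (hp : (orderOf α).Prime)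
    (hsplit : ∀ x : G, (((List.range (orderOf α)).map (fun i : ℕ => (α ^ i) x)).prod = 1)) : Group.IsNilpotent G := by
  haveI := Fact.mk hp
  obtain ⟨X, _, _, i, j, hi, hj, hc, hn, h1, h2⟩ := CfsgH1.exists_ambient (zpowers α).subtype
  set a := j ⟨α, mem_zpowers α⟩
  have ha : a ^ orderOf α = 1 := by
    rw [← map_pow, show (⟨α, mem_zpowers α⟩ : zpowers α) ^ orderOf α = 1 from Subtype.ext (pow_orderOf_eq_one α), map_one]
  have key : ∀ g n, (i g * a) ^ n = i ((List.range n).map (fun k : ℕ => (α ^ k) g)).prod * a ^ n := fun g n => by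
    induction n with
    | zero => simp
    | succ n ih =>
      have := hc (⟨α, mem_zpowers α⟩ ^ n) g
      rw [map_pow] at this
      rw [pow_succ, ih, List.range_succ, List.map_append, List.prod_append, map_mul, List.map_singleton,
        List.prod_singleton]
      change _ = _ at this
      rw [show i ((α ^ n) g) = a ^ n * i g * (a ^ n)⁻¹ from this.symm]
      group
  set K := map i ⊤
  have haK : a ∉ K := fun e => hp.ne_one (orderOf_eq_one_iff.2 (congrArg Subtype.val
    ((injective_iff_map_eq_one j).1 hj _ (mem_bot.1 (h1 ▸ mem_inf.2 ⟨e, mem_map_of_mem _ (mem_top _)⟩)))))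
  have := kegel (orderOf α) _ X K ⊤ rfl (lt_top_iff_ne_top.2 fun e => haK (e ▸ trivial)) le_normalizer_of_normal
    fun x _ hx => by
    obtain ⟨y, hy, _, ⟨⟨_, n, rfl⟩, -, rfl⟩, rfl⟩ := mem_sup_of_normal_left.1 (h2.ge (mem_top x))
    obtain ⟨m, hm⟩ : ∃ m : ℕ, (zpowers α).subtype.toFun ⟨α ^ n, n, rfl⟩ ^ m = α := by
      have : zpowers (α ^ n) = zpowers α := (CfsgH1.eq_bot_or_eq_of_card_prime (by rwa [Nat.card_zpowers])
        (zpowers_le.2 (zpow_mem (mem_zpowers α) n))).resolve_left fun e => hx (by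
          rw [show (⟨α ^ n, n, rfl⟩ : zpowers α) = 1 from Subtype.ext (zpowers_eq_bot.1 e), map_one, mul_one]
          exact hy)
      exact (mem_powers_iff_mem_zpowers.2 (this.ge (mem_zpowers α)))
    set b : zpowers α := ⟨α ^ n, n, rfl⟩
    have h3 : ∀ k, b ^ k = ⟨α, mem_zpowers α⟩ → ((y * j b) ^ k) ^ orderOf α = 1 := fun k hk => by
      have : (y * j b) ^ k * a⁻¹ ∈ K := by
        rw [← QuotientGroup.eq_one_iff, QuotientGroup.mk_mul, QuotientGroup.mk_pow, QuotientGroup.mk_mul,
          (QuotientGroup.eq_one_iff y).2 hy, one_mul, ← QuotientGroup.mk_pow, ← map_pow, hk, ← QuotientGroup.mk_mul,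
          mul_inv_cancel, QuotientGroup.mk_one]
      obtain ⟨g, -, hg⟩ := this
      rw [← mul_inv_eq_iff_eq_mul.1 hg.symm |>.symm, key, hsplit, ha, map_one, one_mul]
    have h4 := h3 m (Subtype.ext hm)
    have h5 := h3 (m + orderOf α) (by
      rw [pow_add, show b ^ orderOf α = 1 from (Nat.card_zpowers α ▸ pow_card_eq_one'), mul_one]
      exact Subtype.ext hm)
    rw [pow_add, Commute.mul_pow (Commute.pow_pow_self _ _ _), h4, one_mul] at h5
    rw [pow_right_comm] at h4
    refine orderOf_eq_one_iff.1 (Nat.eq_one_of_dvd_coprimes ?_ (orderOf_dvd_of_pow_eq_one h5)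
      (orderOf_dvd_of_pow_eq_one h4))
    refine (Nat.Prime.coprime_iff_not_dvd hp).2 fun ⟨c, e⟩ => hp.ne_one (orderOf_eq_one_iff.2 ?_)
    have : b ^ m = 1 := by
      rw [e, pow_mul, show b ^ orderOf α = 1 from (Nat.card_zpowers α ▸ pow_card_eq_one'), one_pow]
    exact hm.symm.trans (congrArg Subtype.val this)
  haveI := (inj_isNilpotent hi).1 this
  exact nilpotent_of_mulEquiv topEquiv

end Cfsg.Agent.S3946
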