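import Cfsg.Statements.S3947
import Cfsg.Agent.H3.Hv1
import Cfsg.Agent.H3.Flav

set_option autoImplicit false
open Cfsg

namespace Cfsg.Agent.S3947
open Subgroup CfsgH1 CfsgFlav

/-- Let G be a finite group and A a proper subgroup of G whose normal closure is G. Let Y be the join of all proper subgroups H of G that contain A and are generated by their own conjugates of A (the normal closure of A in H is H). Then either Y = G, or A is contained in exactly one maximal subgroup of G. -/
theorem result {G : Type*} [Group G] [Finite G] (A : Subgroup G) (hA : Subgroup.normalClosure (A : Set G) = ⊤) (hAG : A ≠ ⊤) :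
    sSup {H : Subgroup G | A ≤ H ∧ H ≠ ⊤ ∧ Subgroup.normalClosure ((A.subgroupOf H : Subgroup ↥H) : Set ↥H) = ⊤} = ⊤ ∨
      ∃! M : Subgroup G, IsCoatom M ∧ A ≤ M := by
  refine or_iff_not_imp_left.2 fun h => ?_
  obtain ⟨M, m1, m2⟩ := exists_coatom_ge h
  obtain ⟨L, l1, l2⟩ := exists_coatom_ge hAG
  have := zip2 m1 A (nc_top.trans hA) hAG fun H a b c => le_trans (le_sSup (by
    refine ⟨a, b, map_injective H.subtype_injective ?_⟩
    rw [map_subtype_normalClosure a, c, ← MonoidHom.range_eq_map, range_subtype])) m2
  exact ⟨L, ⟨l1, l2⟩, fun K k => this K L k.1 l1 k.2 l2⟩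


end Cfsg.Agent.S3947
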