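import Cfsg.Statements.S3982
import Mathlib
import Cfsg.Agent.L0.M3
import Cfsg.Agent.H1.Frob
import Cfsg.Agent.L0.StrEmb

set_option autoImplicit false
open Cfsg

namespace Cfsg.Agent.S3982

open Cfsg Subgroup CfsgH2 CfsgL0

/-- Let p be an odd prime and G a finite group of even order divisible by p in which the centralizer of every non-identity p-element has odd order. If some nontrivial p-subgroup of G has a normalizer of even order, then the normalizer of every Sylow p-subgroup of G has even order. -/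
theorem result {G : Type*} [Group G] [Finite G] (p : ℕ) [Fact p.Prime] (hp2 : p ≠ 2) (hpG : p ∣ Nat.card G) (h2G : 2 ∣ Nat.card G) (hC : ∀ g : G, g ≠ 1 → (∃ k : ℕ, orderOf g = p ^ k) → Odd (Nat.card ↥(Subgroup.centralizer ({g} : Set G)))) (Q : Subgroup G) (hQ : IsPGroup p ↥Q) (hQ1 : Q ≠ ⊥) (hev : Even (Nat.card ↥(Subgroup.normalizer (Q : Set G)))) (P : Sylow p G) : Even (Nat.card ↥(Subgroup.normalizer ((P : Subgroup G) : Set G))) := by
  rename_i hp
  have inv : ∀ R : Subgroup G, IsPGroup p R → ∀ t ∈ N[R], orderOf t = 2 → ∀ k ∈ R, t * k * t⁻¹ = k⁻¹ := by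
    intro R hR t ht h2 k hk
    refine CfsgH1.inv_of_fpf_involution ht ?_ (by rw [← pow_two, ← h2, pow_orderOf_eq_one]) hk
    rw [eq_bot_iff]
    intro x hx
    by_contra x1
    have := hC x x1 (pgroup_mem_order hR hx.1)
    refine (Nat.not_even_iff_odd.2 this) (even_iff_two_dvd.2 (h2 ▸ Subgroup.orderOf_dvd_natCard _ ?_))
    exact mem_centralizer_singleton_iff.2 (mem_centralizer_singleton_iff.1 hx.2).symm
  obtain ⟨R, -, ⟨hR, hR1, hRe⟩, hmax⟩ := exists_maximal_ge
    (fun R : Subgroup G => IsPGroup p R ∧ R ≠ ⊥ ∧ Even (Nat.card N[R])) ⟨hQ, hQ1, hev⟩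
  have hS : Syl p R ⊤ := by
    refine Syl.of_norm le_top ?_
    rw [top_inf_eq]
    obtain ⟨S, hS, hRS⟩ := exists_syl_ge hR (le_normalizer (H := R))
    obtain ⟨t, ht, h2⟩ := even_card_iff.1 hRe
    obtain ⟨r, hr, r1⟩ := exists_ne_one hR1
    have hodd' : ∀ n : ℕ, PiN {2}ᶜ n ↔ Odd n := fun n => by
      rw [piN_compl_singleton Nat.prime_two, ← Nat.not_even_iff_odd, even_iff_two_dvd]
    have hodd : Odd (Nat.card C[R]) := odd_of_le (hC r r1 (pgroup_mem_order hR hr)) (cent_le_cent1 hr)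
    have hn : S ≤ N[C[R]] := hS.le.trans (norm_le_norm_cent R)
    have hK : PiN {2}ᶜ (Nat.card (S ⊔ C[R] : Subgroup G)) :=
      piN_sup (IsPGroup.piN hS.pg hp2) ((hodd' _).2 hodd) (Or.inl hn)
    have hti : t⁻¹ = t := inv_eq_of_mul_eq_one_right (by rw [← pow_two, ← h2, pow_orderOf_eq_one])
    have hc : ∀ n ∈ N[R], t * n * t⁻¹ * n⁻¹ ∈ C[R] := fun n hn => mem_cent_iff.2 fun x hx => by
      have e1 := inv R hR t ht h2 _ (conj_mem_of_norm' hn hx)
      have e2 := inv R hR t ht h2 _ (inv_mem hx)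
      rw [hti] at e1 e2 ⊢
      calc x * (t * n * t * n⁻¹) = (t * x⁻¹ * t) * (t * n * t * n⁻¹) := by rw [e2, inv_inv]
        _ = t * n * (n⁻¹ * x * n)⁻¹ * t * n⁻¹ := by
          rw [show t * x⁻¹ * t * (t * n * t * n⁻¹) = t * x⁻¹ * (t * t⁻¹) * n * t * n⁻¹ by rw [hti]; group]
          group
        _ = t * n * t * (n⁻¹ * x * n) * (t * t⁻¹) * n⁻¹ := by rw [← e1, hti]; group
        _ = _ := by group
    have htK : t ∈ N[S ⊔ C[R]] := by
      refine mem_norm_of_map_le ?_
      rw [Subgroup.map_sup, map_cj_eq (norm_le_norm_cent R ht)]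
      refine sup_le (map_cj_le_iff'.2 fun s hs => ?_) le_sup_right
      have := mul_mem (mem_sup_right (S := S) (hc s (hS.le hs))) (mem_sup_left hs)
      simpa using this
    have hfr := (hS.mono le_sup_left (sup_le hS.le (cent_le_norm R))).frattini_sup le_normalizer le_rfl
    have hSe : Even (Nat.card N[S]) := by
      by_contra ho
      have h3 : Odd (Nat.card (N[S ⊔ C[R]] ⊓ N[S] : Subgroup G)) :=
        odd_of_le (Nat.not_even_iff_odd.1 ho) inf_le_right
      have := piN_sup hK ((hodd' _).2 h3) (Or.inr inf_le_left)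
      rw [hfr, hodd'] at this
      exact Nat.not_even_iff_odd.2 this (even_card_iff.2 ⟨t, htK, h2⟩)
    rwa [hmax S ⟨hS.pg, fun e => hR1 (le_bot_iff.1 (e ▸ hRS)), hSe⟩ hRS] at hS
  obtain ⟨g, -, hg⟩ := hS.conj (syl_top P)
  rw [← hg, normalizer_map_cj, card_map_cj]
  exact hRe

end Cfsg.Agent.S3982
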