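import Cfsg.Statements.S3983
import Mathlib
import Cfsg.Agent.L0.M3

set_option autoImplicit false
open scoped Pointwise
open Cfsg

namespace Cfsg.Agent.S3983

open Cfsg Subgroup CfsgH2 CfsgL0

/-- Let P be a Sylow p-subgroup of the finite group G that meets each conjugate g P g⁻¹ with g outside N_G(P) trivially, and let U be a subgroup of G of order divisible by p. Then a Sylow p-subgroup Q of U has the same property inside U: Q meets each conjugate u Q u⁻¹ with u ∈ U outside N_U(Q) trivially. -/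
theorem result {G : Type*} [Group G] [Finite G] (p : ℕ) [Fact p.Prime] (P : Sylow p G) (hTI : ∀ g : G, g ∉ Subgroup.normalizer ((P : Subgroup G) : Set G) → (P : Subgroup G) ⊓ (MulAut.conj g • (P : Subgroup G)) = ⊥) (U : Subgroup G) (hU : p ∣ Nat.card ↥U) (Q : Sylow p ↥U) : ∀ u : ↥U, u ∉ Subgroup.normalizer ((Q : Subgroup ↥U) : Set ↥U) → (Q : Subgroup ↥U) ⊓ (MulAut.conj u • (Q : Subgroup ↥U)) = ⊥ := by
  intro u hu
  by_contra hne
  apply hu
  have hQ := syl_sub Q
  obtain ⟨g, -, hg⟩ := (syl_top P).exists_le_conj hQ.pg le_top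
  rw [smul_eq_map_cj] at hne
  obtain ⟨x, hx, x1⟩ := exists_ne_one hne
  have hxP : (x : G) ∈ (P : Subgroup G).map (cj g) := hg ⟨x, hx.1, rfl⟩
  have hxP' : (u : G)⁻¹ * x * u ∈ (P : Subgroup G).map (cj g) := hg ⟨_, mem_map_cj.1 hx.2, rfl⟩
  have hn : g⁻¹ * u * g ∈ N[(P : Subgroup G)] := by
    by_contra h
    have := hTI _ h
    rw [smul_eq_map_cj] at this
    have h2 : g⁻¹ * x * g ∈ (P : Subgroup G) ⊓ (P : Subgroup G).map (cj (g⁻¹ * u * g)) := by
      refine ⟨mem_map_cj.1 hxP, mem_map_cj.2 ?_⟩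
      convert mem_map_cj.1 hxP' using 1; group
    rw [this, mem_bot] at h2
    apply x1
    ext
    calc (x : G) = g * (g⁻¹ * x * g) * g⁻¹ := by group
      _ = 1 := by rw [h2]; group
  have hn2 : (u : G) ∈ N[(P : Subgroup G).map (cj g)] := by rw [normalizer_map_cj, mem_map_cj]; exact hn
  have e : (P : Subgroup G).map (cj g) ⊓ U = (Q : Subgroup U).map U.subtype :=
    hQ.eq_of_le (P.isPGroup'.map _).to_inf_left (le_inf hg hQ.le) inf_le_right
  have := mem_norm_inf hn2 (le_normalizer u.2)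
  rw [e] at this
  refine mem_norm_of_conj fun y hy => ?_
  obtain ⟨z, hz, ez⟩ := conj_mem_of_norm this ⟨y, hy, rfl⟩
  rwa [← show z = u * y * u⁻¹ from Subtype.ext ez]

end Cfsg.Agent.S3983
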