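import Cfsg.Statements.S3984
import Mathlib
import Cfsg.Agent.L0.M3

set_option autoImplicit false
open scoped Pointwise
open Cfsg

namespace Cfsg.Agent.S3984

open Cfsg Subgroup CfsgH2 CfsgL0

/-- Let P be a Sylow p-subgroup of the finite group G that meets each conjugate g P g⁻¹ with g outside N_G(P) trivially, and let N be a normal subgroup of G of order prime to p. Then every Sylow p-subgroup Q of G ⧸ N meets each conjugate x Q x⁻¹ with x outside its normalizer trivially. -/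
theorem result {G : Type*} [Group G] [Finite G] (p : ℕ) [Fact p.Prime] (P : Sylow p G) (hTI : ∀ g : G, g ∉ Subgroup.normalizer ((P : Subgroup G) : Set G) → (P : Subgroup G) ⊓ (MulAut.conj g • (P : Subgroup G)) = ⊥) (N : Subgroup G) [N.Normal] (hN : (Nat.card ↥N).Coprime p) (Q : Sylow p (G ⧸ N)) : ∀ x : G ⧸ N, x ∉ Subgroup.normalizer ((Q : Subgroup (G ⧸ N)) : Set (G ⧸ N)) → (Q : Subgroup (G ⧸ N)) ⊓ (MulAut.conj x • (Q : Subgroup (G ⧸ N))) = ⊥ := by
  have hp : Fact p.Prime := inferInstance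
  intro x hx
  by_contra hne
  apply hx
  have h1 := CfsgH1.Syl.map_mk_top (syl_top P) N
  obtain ⟨g, -, hg⟩ := h1.conj (syl_top Q)
  obtain ⟨g, rfl⟩ := QuotientGroup.mk'_surjective N g
  obtain ⟨x, rfl⟩ := QuotientGroup.mk'_surjective N x
  rw [smul_eq_map_cj] at hne
  rw [← map_map_cj] at hg
  set S := (P : Subgroup G).map (cj g) with hS
  have sS : Syl p S ⊤ := (syl_top P).map_cj_mem (mem_top g)
  obtain ⟨y, hy, y1⟩ := exists_ne_one hne
  rw [← hg, ← map_map_cj] at hy
  obtain ⟨⟨a, ha, rfl⟩, b, hb, e⟩ := hy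
  have hd : ¬ p ∣ Nat.card N := (coprime_iff_not_dvd hp.out).1 hN
  have pa : IsPGroup p (zpowers a) := sS.pg.to_le (zpowers_le.2 ha)
  have pb : IsPGroup p (zpowers b) := (sS.pg.map _).to_le (zpowers_le.2 hb)
  obtain ⟨k, hk, hle⟩ := exists_conj_le_compl (A := zpowers a) (B := zpowers b) (K := N)
    (by rw [normalizer_eq_top]; exact le_top) (coprime_of_pgroup pa hd) (coprime_of_pgroup pb hd)
    (Or.inl (sol_zpowers _)) (by
      rw [zpowers_le, sup_comm, ← comap_map_mk, mem_comap, e]; exact mem_map_of_mem _ (mem_zpowers a))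
  have hn : g⁻¹ * (k * x) * g ∈ N[(P : Subgroup G)] := by
    by_contra h
    have := hTI _ h
    rw [smul_eq_map_cj] at this
    have h2 : g⁻¹ * (k * b * k⁻¹) * g ∈ (P : Subgroup G) ⊓ (P : Subgroup G).map (cj (g⁻¹ * (k * x) * g)) := by
      refine ⟨mem_map_cj.1 (zpowers_le.2 ha (hle (conj_mem_map_cj (mem_zpowers b)))), mem_map_cj.2 ?_⟩
      convert mem_map_cj.1 (mem_map_cj.1 hb) using 1; group
    rw [this, mem_bot] at h2
    apply y1
    rw [← e, show b = k⁻¹ * g * (g⁻¹ * (k * b * k⁻¹) * g) * g⁻¹ * k by group, h2]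
    simp
  have hn2 : k * x ∈ N[S] := by rw [normalizer_map_cj, mem_map_cj]; exact hn
  have h3 := congrArg (map (QuotientGroup.mk' N)) (map_cj_eq hn2)
  rw [map_map_cj, hg, map_mul, show QuotientGroup.mk' N k = 1 from (QuotientGroup.eq_one_iff k).2 hk, one_mul] at h3
  exact map_cj_eq_iff.1 h3

end Cfsg.Agent.S3984
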