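import Cfsg.Statements.S3985
import Mathlib
import Cfsg.Agent.L0.M3
import Cfsg.Agent.H2.BG6

set_option autoImplicit false
open scoped Pointwise
open Cfsg

namespace Cfsg.Agent.S3985

open Cfsg Subgroup CfsgH2 CfsgL0

/-- Let P be a cyclic Sylow p-subgroup of the finite group G. Then P meets each conjugate g P g⁻¹ with g outside N_G(P) trivially if and only if P is weakly self-centralizing: C_G(x) = C_G(P) for every non-identity x ∈ P. -/
theorem result {G : Type*} [Group G] [Finite G] (p : ℕ) [Fact p.Prime] (P : Sylow p G) (hcyc : IsCyclic ↥(P : Subgroup G)) : (∀ g : G, g ∉ Subgroup.normalizer ((P : Subgroup G) : Set G) → (P : Subgroup G) ⊓ (MulAut.conj g • (P : Subgroup G)) = ⊥) ↔ ∀ x : G, x ∈ (P : Subgroup G) → x ≠ 1 → Subgroup.centralizer ({x} : Set G) = Subgroup.centralizer ((P : Subgroup G) : Set G) := by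
  have hab : IsMulCommutative (P : Subgroup G) := inferInstance
  constructor
  · intro h x hx x1
    refine le_antisymm ?_ (cent_le_cent1 hx)
    have hn : C1[x] ≤ N[(P : Subgroup G)] := fun g hg => by
      by_contra h1
      have := h g h1
      rw [smul_eq_map_cj] at this
      refine x1 (mem_bot.1 (this ▸ ⟨hx, mem_map_cj.2 ?_⟩))
      rw [mul_assoc, ← mem_centralizer_singleton_iff.1 hg]; simpa using hx
    refine le_of_forall_pelem fun q hq y hy hyq => ?_
    haveI := Fact.mk hq
    by_cases e : q = p
    · subst e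
      exact le_cent_self hab ((syl_top P).le_of_norm' hyq le_top (zpowers_le.2 (hn hy)) (mem_zpowers y))
    · have hd : ¬ p ∣ Nat.card (zpowers y) := fun hd => by
        obtain ⟨n, hn⟩ := exists_card_eq_pow hyq
        exact e ((Nat.prime_dvd_prime_iff_eq Fact.out hq).1 ((Fact.out : p.Prime).dvd_of_dvd_pow (hn ▸ hd))).symm
      rcases cyc_coprime_cent_or hcyc P.isPGroup' (zpowers_le.2 (hn hy)) hd with h1 | h1
      · exact h1 (mem_zpowers y)
      · refine absurd (mem_bot.1 (h1.2 ▸ ⟨hx, ?_⟩)) x1
        rw [cent_zpowers]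
        exact mem_centralizer_singleton_iff.2 (mem_centralizer_singleton_iff.1 hy).symm
  · intro h g hg
    by_contra hne
    apply hg
    rw [smul_eq_map_cj] at hne
    obtain ⟨x, hx, x1⟩ := exists_ne_one hne
    have h1 := h x hx.1 x1
    have h2 := h _ (mem_map_cj.1 hx.2) (fun e => x1 (by
      calc x = g * (g⁻¹ * x * g) * g⁻¹ := by group
        _ = 1 := by rw [e]; group))
    have h3 : C[(P : Subgroup G)].map (cj g) = C[(P : Subgroup G)] := by
      conv_lhs => rw [← h2]
      rw [← centralizer_conj, ← h1]; congr 2; group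
    have hs : Syl p (P : Subgroup G) C[(P : Subgroup G)] := (syl_top P).mono (le_cent_self hab) le_top
    exact hs.norm_le_of_norm (cent_le_norm _) (map_cj_eq_iff.1 h3)

end Cfsg.Agent.S3985
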