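import Cfsg.Statements.S3986
import Mathlib
import Cfsg.Agent.L0.M4

set_option autoImplicit false
open Cfsg

namespace Cfsg.Agent.S3986

open Cfsg Subgroup CfsgH2 CfsgL0

/-- Let p be a prime and G a finite group. Then some Sylow p-subgroup of G is a direct factor of G (it is normal and has a normal complement) if and only if every element of p-power order commutes with every element whose order is a power of a prime other than p. -/
theorem result {G : Type*} [Group G] [Finite G] (p : ℕ) [Fact p.Prime] : (∃ (P : Sylow p G) (K : Subgroup G), (P : Subgroup G).Normal ∧ K.Normal ∧ (P : Subgroup G) ⊓ K = ⊥ ∧ (P : Subgroup G) ⊔ K = ⊤) ↔ ∀ x y : G, (∃ a : ℕ, orderOf x = p ^ a) → (∃ q b : ℕ, q.Prime ∧ q ≠ p ∧ orderOf y = q ^ b) → x * y = y * x := by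
  rename_i hp
  constructor
  · rintro ⟨P, K, h1, h2, h3, h4⟩ x y ⟨a, ha⟩ ⟨q, b, hq, hqp, hb⟩
    have hx : x ∈ (P : Subgroup G) :=
      (syl_top P).mem_of_norm (top_le_norm_iff.2 h1) (mem_top _) (k := a) (by rw [← ha, pow_orderOf_eq_one])
    have hy : y ∈ K := by
      refine le_of_coprime_relIndex (H := zpowers y) le_top (top_le_norm_iff.2 h2) ?_ (mem_zpowers y)
      obtain ⟨n, hn⟩ := exists_relIndex_eq_pow P.isPGroup' K
      rw [← h4, relIndex_sup_right, hn, Nat.card_zpowers, hb]
      exact Nat.Coprime.pow _ _ ((Nat.coprime_primes hq hp.out).2 hqp)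
    exact (le_cent_of_inf_eq_bot (le_top.trans (top_le_norm_iff.2 h2)) (le_top.trans (top_le_norm_iff.2 h1)) h3 hx y hy).symm
  · intro h
    obtain ⟨P⟩ : Nonempty (Sylow p G) := inferInstance
    obtain ⟨h1, h2⟩ := direct_of_comm (syl_top P) (piRes_le_iff.2 fun y _ hy => by
      refine le_of_forall_pelem (M := zpowers y) (fun q hq z hz hzq => ?_) (mem_zpowers y)
      haveI := Fact.mk hq
      by_cases z1 : z = 1
      · rw [z1]; exact one_mem _
      obtain ⟨b, hb⟩ := pgroup_mem_order hzq (mem_zpowers z)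
      refine fun x hx => h x z (pgroup_mem_order P.isPGroup' hx) ⟨q, b, hq, ?_, hb⟩
      rintro rfl
      exact z1 (eq_one_of_coprime_order hzq (mem_zpowers z) (hy.coprime_dvd_left (orderOf_dvd_of_mem_zpowers hz))))
    exact ⟨P, piRes {p} ⊤, h1, top_le_norm_iff.1 le_norm_piRes,
      inf_eq_bot_of_coprime' (coprime_of_pgroup P.isPGroup' h2), by rw [sup_comm]; exact (syl_top P).piRes_sup⟩

end Cfsg.Agent.S3986
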