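import Cfsg.Statements.S3987
import Mathlib
import Cfsg.Agent.S3986
import Cfsg.Agent.H1.Prod

set_option autoImplicit false
open Cfsg

namespace Cfsg.Agent.S3987

open Cfsg Subgroup CfsgH2 CfsgL0

/-- Let p be a prime and G a finite group. Then some Sylow p-subgroup of G is a direct factor of G (normal with a normal complement) if and only if for every element x of p-power order and every element y whose order is a power of a prime other than p, the conjugacy class of x y has as many elements as the product of the sizes of the classes of x and of y. -/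
theorem result {G : Type*} [Group G] [Finite G] (p : ℕ) [Fact p.Prime] : (∃ (P : Sylow p G) (K : Subgroup G), (P : Subgroup G).Normal ∧ K.Normal ∧ (P : Subgroup G) ⊓ K = ⊥ ∧ (P : Subgroup G) ⊔ K = ⊤) ↔ ∀ x y : G, (∃ a : ℕ, orderOf x = p ^ a) → (∃ q b : ℕ, q.Prime ∧ q ≠ p ∧ orderOf y = q ^ b) → (Subgroup.centralizer ({x * y} : Set G)).index = (Subgroup.centralizer ({x} : Set G)).index * (Subgroup.centralizer ({y} : Set G)).index := by
  rename_i hp
  have hle : ∀ x y : G, C1[x] ⊓ C1[y] ≤ C1[x * y] := fun x y g hg => by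
    have h1 := mem_centralizer_singleton_iff.1 hg.1
    have h2 := mem_centralizer_singleton_iff.1 hg.2
    rw [mem_centralizer_singleton_iff, ← mul_assoc, h1, mul_assoc, h2, mul_assoc]
  constructor
  · intro h x y hx hy
    have hc := (S3986.result p).1 h
    have hxy := hc x y hx hy
    obtain ⟨a, ha⟩ := hx
    obtain ⟨q, b, hq, hqp, hb⟩ := hy
    have hcop : (orderOf x).Coprime (orderOf y) := by
      rw [ha, hb]; exact Nat.Coprime.pow _ _ ((Nat.coprime_primes hp.out hq).2 hqp.symm)
    have e : C1[x * y] = C1[x] ⊓ C1[y] := by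
      refine le_antisymm (le_inf ?_ ?_) (hle x y)
      · rw [← cent_zpowers, ← cent_zpowers]; refine cent_anti (zpowers_le.2 ?_)
        have h1 : (x * y) ^ orderOf y = x ^ orderOf y := by
          rw [Commute.mul_pow hxy, pow_orderOf_eq_one, mul_one]
        exact zpowers_le.2 (h1 ▸ pow_mem (mem_zpowers _) _) (mem_zpowers_pow_iff.2 hcop.symm)
      · rw [← cent_zpowers, ← cent_zpowers]; refine cent_anti (zpowers_le.2 ?_)
        have h1 : (x * y) ^ orderOf x = y ^ orderOf x := by
          rw [Commute.mul_pow hxy, pow_orderOf_eq_one, one_mul]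
        exact zpowers_le.2 (h1 ▸ pow_mem (mem_zpowers _) _) (mem_zpowers_pow_iff.2 hcop)
    rw [e]
    refine CfsgH1.index_inf_of_coprime (PiN.coprime (π := {p}) ?_ ?_)
    · intro r hr hd
      by_contra hrp
      rw [← relIndex_top_right] at hd
      obtain ⟨z, -, h1, h2⟩ := exists_pelem_not_mem hr hd
      obtain ⟨k, hk⟩ := (piN_singleton hr (orderOf_pos z).ne').1 h1
      exact h2 (mem_centralizer_singleton_iff.2 (hc x z ⟨a, ha⟩ ⟨r, k, hr, hrp, hk⟩).symm)
    · rw [piN_compl_singleton hp.out, ← relIndex_top_right]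
      obtain ⟨P, hP⟩ := exists_syl p (⊤ : Subgroup G)
      exact hP.not_dvd_of_le fun z hz => mem_centralizer_singleton_iff.2
        (hc z y (pgroup_mem_order hP.pg hz) ⟨q, b, hq, hqp, hb⟩)
  · intro h
    refine (S3986.result p).2 fun x y hx hy => ?_
    have h1 := h x y hx hy
    have e : C1[x] ⊓ C1[y] = C1[x * y] := by
      by_contra hne
      have := (index_lt_of_lt (lt_of_le_of_ne (hle x y) hne)).trans_le index_inf_le
      omega
    have h2 := mem_centralizer_singleton_iff.1 (e.ge (self_mem_cent1 _)).1
    rw [mul_assoc] at h2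
    exact (mul_left_cancel h2).symm

end Cfsg.Agent.S3987
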