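import Cfsg.Statements.S4377
import Mathlib
import Cfsg.Agent.L0.G2

set_option autoImplicit false
open Cfsg

namespace Cfsg.Agent.S4377

open Cfsg Subgroup CfsgH2 CfsgL0

/-- Two finite groups have the same number of elements of each order if and only if, for every n, they have the same number of elements g with gⁿ = 1. -/
theorem result {G H : Type*} [Group G] [Finite G] [Group H] [Finite H] :
    (∀ n : ℕ, Nat.card {g : G // orderOf g = n} = Nat.card {h : H // orderOf h = n}) ↔
      ∀ n : ℕ, Nat.card {g : G // g ^ n = 1} = Nat.card {h : H // h ^ n = 1} := by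
  refine ⟨fun h n => ?_, fun h n => ?_⟩
  · let e : G ≃ H := Equiv.ofFiberEquiv (f := orderOf) (g := orderOf) fun m =>
      (Finite.card_eq.1 (h m)).some
    exact Nat.card_congr (e.subtypeEquiv fun g => by
      rw [← orderOf_dvd_iff_pow_eq_one, ← orderOf_dvd_iff_pow_eq_one, Equiv.ofFiberEquiv_map (f := orderOf) (g := orderOf)])
  induction n using Nat.strong_induction_on with | _ n ih => ?_
  change {g : G | _}.ncard = {h : H | _}.ncard
  rcases eq_or_ne n 0 with rfl | hn
  · simp [(orderOf_pos _).ne']
  have := (ncard_order_dvd' hn).symm.trans ((h n).trans (ncard_order_dvd' hn))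
  rw [← Finset.add_sum_erase _ _ (Nat.mem_divisors_self n hn),
    ← Finset.add_sum_erase _ _ (Nat.mem_divisors_self n hn), Finset.sum_congr (f := fun d => {g : G | orderOf g = d}.ncard) (g := fun d => {g : H | orderOf g = d}.ncard) rfl fun d hd =>
      ih d ((Nat.divisor_le (Finset.mem_erase.1 hd).2).lt_of_ne (Finset.mem_erase.1 hd).1)] at this
  exact add_right_cancel this

end Cfsg.Agent.S4377
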