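import Cfsg.Statements.S3997
import Mathlib
import Cfsg.Agent.L0.G2
import Cfsg.Agent.S4377

set_option autoImplicit false
open Cfsg

namespace Cfsg.Agent.S3997

open Cfsg Subgroup CfsgH2 CfsgL0

/-- Let G and H be finite groups with the same order type: for every m they have the same number of elements of order m. If G is nilpotent then so is H. -/
theorem result {G H : Type*} [Group G] [Finite G] [Group H] [Finite H] (hT : (∀ m : ℕ, Nat.card {g : G // orderOf g = m} = Nat.card {h : H // orderOf h = m})) (hG : Group.IsNilpotent G) :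
    Group.IsNilpotent H := by
  have h := S4377.result.1 hT
  have e : Nat.card G = Nat.card H := by simpa using h 0
  refine nilpotent_of_mulEquiv (_h := nil_of_syl fun p _ _ => ?_) topEquiv
  obtain ⟨P⟩ : Nonempty (Sylow p H) := inferInstance
  refine ⟨P, syl_top P, top_le_norm_iff.2 ?_⟩
  obtain ⟨Q⟩ : Nonempty (Sylow p G) := inferInstance
  have hQ : (Q : Subgroup G).Normal := inferInstance
  have e2 : Nat.card P = Nat.card Q := by rw [P.card_eq_multiplicity, Q.card_eq_multiplicity, e]
  have : ((P : Subgroup H) : Set H) = {g | g ^ Nat.card P = 1} := Set.eq_of_subset_of_ncard_le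
    (fun x hx => orderOf_dvd_iff_pow_eq_one.1 (orderOf_dvd_of_mem hx)) (by
      rw [ncard_coe, e2]
      refine (h _).ge.trans (Set.ncard_le_ncard (s := {g : G | g ^ Nat.card Q = 1})
        (t := ((Q : Subgroup G) : Set G)) (fun x hx => ?_) (Set.toFinite _))
      exact (syl_top Q).mem_of_norm le_normalizer_of_normal trivial (Q.card_eq_multiplicity ▸ hx))
  exact ⟨fun x hx g => this.ge (by simp [show x ^ _ = 1 from this.le hx])⟩

end Cfsg.Agent.S3997
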