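import Cfsg.Statements.S4010
import Cfsg.Agent.H2.Pq4
import Cfsg.Agent.H8.PermModule

set_option autoImplicit false
open Cfsg

namespace Cfsg.Agent.S4010
open CfsgH2
section
open Subgroup Function
open scoped commutatorElement

universe u v
open Module
variable {p : ℕ} [hp : Fact p.Prime] {K : Type*} [Field K]

theorem inv_dim [CharP K p] {P V : Type*} [Group P] [Finite P] (hP : IsPGroup p P) [AddCommGroup V] [Module K V]
    [FiniteDimensional K V] (ρ : Representation K P V) (m : ℕ) (h : m ≤ finrank K V) :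
    ∃ W : Submodule K V, (∀ g, W ≤ W.comap (ρ g)) ∧ finrank K W = m := by
  induction m with
  | zero => exact ⟨⊥, fun _ => bot_le, finrank_bot K V⟩
  | succ m ih =>
  obtain ⟨W, w1, w2⟩ := ih (by omega)
  haveI : Nontrivial (V ⧸ W) := Submodule.Quotient.nontrivial_iff.2 fun e => by rw [e, finrank_top] at w2; omega
  obtain ⟨v, -, v1, v2⟩ := CfsgH8.exists_fixed_of_isPGroup hP (ρ.quotient W w1) ⊤ (fun _ _ _ => trivial) top_ne_bot
  obtain ⟨v, rfl⟩ := W.mkQ_surjective v
  refine ⟨W ⊔ K ∙ v, fun g => sup_le ((w1 g).trans (Submodule.comap_mono le_sup_left))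
    ((Submodule.span_singleton_le_iff_mem _ _).2 ?_), ?_⟩
  · have : ρ g v - v ∈ W := (Submodule.Quotient.eq W).1 (v2 g)
    simpa using add_mem (Submodule.mem_sup_left this) (Submodule.mem_sup_right (Submodule.mem_span_singleton_self v))
  · rw [Submodule.finrank_sup_span_singleton (fun e => v1 ((Submodule.Quotient.mk_eq_zero W).2 e)), w2]

theorem charp [CharP K p] {P : Type*} [Group P] [Finite P] (hP : IsPGroup p P) (k : ℕ) : ∀ (V : Type v) [AddCommGroup V]
    [Module K V] [FiniteDimensional K V] (ρ : Representation K P V), finrank K V ≤ 2 ^ k → derivedSeries P k ≤ ρ.ker := by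
  induction k with
  | zero =>
    intro V _ _ _ ρ h g _
    by_cases h0 : (⊤ : Submodule K V) = ⊥
    · exact LinearMap.ext fun v => by rw [(Submodule.eq_bot_iff _).1 h0 v trivial]; simp
    obtain ⟨v, -, v1, v2⟩ := CfsgH8.exists_fixed_of_isPGroup hP ρ ⊤ (fun _ _ _ => trivial) h0
    refine LinearMap.ext fun w => ?_
    obtain ⟨c, rfl⟩ := (finrank_eq_one_iff_of_nonzero' v v1).1 (le_antisymm h (finrank_pos_iff_exists_ne_zero.2 ⟨v, v1⟩)) w
    simp [v2]
  | succ k ih =>
  intro V _ _ _ ρ h
  obtain ⟨W, w1, w2⟩ := inv_dim hP ρ (finrank K V / 2) (Nat.div_le_self _ _)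
  have h1 := ih _ (ρ.subrepresentation W w1) (by omega)
  have h2 := ih _ (ρ.quotient W w1) (by have := W.finrank_quotient_add_finrank; omega)
  have h3 : ∀ g ∈ derivedSeries P k, ∀ x ∈ derivedSeries P k, ∀ v, ρ g (ρ x v) = ρ g v + ρ x v - v := fun g a x b v => by
    have e1 : ρ x v - v ∈ W := (Submodule.Quotient.eq W).1 (LinearMap.congr_fun (h2 b) (W.mkQ v))
    have e2 : ρ g (ρ x v - v) = ρ x v - v := congrArg Subtype.val (LinearMap.congr_fun (h1 a) ⟨_, e1⟩)
    rw [map_sub, sub_eq_iff_eq_add] at e2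
    rw [e2]; abel
  refine commutator_le.2 fun g a x b => ?_
  have e : ρ (g * x) = ρ (x * g) := LinearMap.ext fun v => by
    simp only [map_mul, Module.End.mul_apply, h3 g a x b, h3 x b g a, add_comm]
  rw [MonoidHom.mem_ker, commutatorElement_def, mul_assoc, ← mul_inv_rev, map_mul, e, ← map_mul, mul_inv_cancel, map_one]

theorem diag [IsAlgClosed K] (hK : (p : K) ≠ 0) {P V : Type*} [Group P] (hP : IsPGroup p P) [AddCommGroup V] [Module K V]
    [FiniteDimensional K V] (ρ : Representation K P V) (a g : P)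
    (h : ∀ c, ∀ v ∈ End.eigenspace (ρ a) c, ρ g v = v) : ρ g = 1 := by
  obtain ⟨m, hm⟩ := hP a
  have := (End.isSemisimple_of_squarefree_aeval_eq_zero (f := ρ a) (p := Polynomial.X ^ p ^ m - 1)
    (Polynomial.X_pow_sub_one_separable_iff.2 (by simpa using fun e => absurd e hK)).squarefree
    (by rw [map_sub, map_pow, Polynomial.aeval_X, ← map_pow, hm, map_one, map_one, sub_self])).iSup_eigenspace_eq_top
  refine LinearMap.ext fun v => ?_
  have hv : v ∈ ⨆ c, End.eigenspace (ρ a) c := this ▸ trivial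
  exact (iSup_le (a := LinearMap.eqLocus (ρ g) 1) fun c => h c) hv

theorem eig_inv {P V : Type*} [Group P] [AddCommGroup V] [Module K V] (ρ : Representation K P V) {a g : P}
    (h : g * a = a * g) (c : K) : End.eigenspace (ρ a) c ≤ (End.eigenspace (ρ a) c).comap (ρ g) := fun v hv => by
  rw [Submodule.mem_comap, End.mem_eigenspace_iff] at *
  rw [← End.mul_apply, ← map_mul, ← h, map_mul, End.mul_apply, hv, map_smul]

theorem char0 [IsAlgClosed K] (hK : (p : K) ≠ 0) (k : ℕ) : ∀ (n : ℕ) (P : Type u) [Group P] [Finite P] (V : Type v)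
    [AddCommGroup V] [Module K V] [FiniteDimensional K V] (ρ : Representation K P V), IsPGroup p P → finrank K V = n →
    n < 2 ^ k → derivedSeries P k ≤ ρ.ker := by
  induction k with
  | zero =>
    intro n P _ _ V _ _ _ ρ _ h1 h2 g _
    haveI := (finrank_zero_iff (R := K) (M := V)).1 (by omega)
    exact LinearMap.ext fun v => Subsingleton.elim _ _
  | succ k ih =>
  intro n
  induction n using Nat.strong_induction_on with | _ n ihn
  intro P _ _ V _ _ _ ρ hP h1 h2
  wlog hf : ρ.ker = ⊥ generalizing P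
  · have h := this (P ⧸ ρ.ker) (QuotientGroup.lift ρ.ker ρ fun _ => id) (hP.to_quotient _) (eq_bot_iff.2 fun x hx => by
      obtain ⟨x, rfl⟩ := QuotientGroup.mk_surjective x
      exact (QuotientGroup.eq_one_iff x).2 hx)
    exact fun g hg => h (map_derivedSeries_le_derivedSeries (QuotientGroup.mk' ρ.ker) _ ⟨g, hg, rfl⟩)
  by_cases c : ∃ z ∈ C[(⊤ : Subgroup P)], ∀ c, End.eigenspace (ρ z) c ≠ ⊤
  · obtain ⟨z, z1, z2⟩ := c
    refine fun g hg => diag hK hP ρ z g fun c v hv => ?_
    have l := Submodule.finrank_lt (z2 c)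
    exact congrArg Subtype.val (LinearMap.congr_fun (ihn _ (h1 ▸ l) P _ (ρ.subrepresentation _
      fun x => eig_inv ρ (mem_cent_iff.1 z1 x trivial) c) hP rfl (by omega) hg) ⟨v, hv⟩)
  push Not at c
  have pT := hP.to_subgroup ⊤
  by_cases ab : (⊤ : Subgroup P) ≤ C[(⊤ : Subgroup P)]
  · exact (commutator_mono le_top le_top).trans ((comm_eq_bot_iff.2 ab).le.trans bot_le)
  obtain ⟨L, -, -, -, l1, l2, -⟩ := exists_step pT pT (lt_top_iff_ne_top.2 fun e => ab e.ge) (le_norm_cent le_normalizer)
    le_normalizer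
  obtain ⟨a, a1, a2⟩ := SetLike.not_le_iff_exists.1 fun e => hp.out.ne_one (l1.symm.trans (relIndex_eq_one.2 e))
  have e0 : ⁅⁅zpowers a, (⊤ : Subgroup P)⁆, ⊤⁆ = ⊥ := comm_eq_bot_iff.2 ((commutator_mono (zpowers_le.2 a1) le_rfl).trans l2)
  have e1 : ⁅(⊤ : Subgroup P), ⊤⁆ ≤ C1[a] := by
    rw [← cent_zpowers, ← comm_eq_bot_iff]
    exact three_subgroup (by rwa [commutator_comm ⊤ (zpowers a)]) e0
  have e2 : ∀ j, derivedSeries P (j + 1) ≤ (derivedSeries C1[a] j).map (Subgroup.subtype _) := fun j => by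
    induction j with
    | zero => rwa [derivedSeries_zero, ← MonoidHom.range_eq_map, range_subtype]
    | succ j ih => rw [derivedSeries_succ C1[a], map_commutator]; exact commutator_mono ih ih
  obtain ⟨x, -, hx⟩ : ∃ x ∈ (⊤ : Subgroup P), x * a ≠ a * x := by
    by_contra d; push Not at d; exact a2 (mem_cent_iff.2 d)
  obtain ⟨z, hz⟩ := c ⁅a, x⁆ (l2 (commutator_mem_commutator a1 trivial))
  have z1 : ∀ v, ρ ⁅a, x⁆ v = z • v := fun v => End.mem_eigenspace_iff.1 (hz ▸ trivial)
  have z2 : z ≠ 1 := fun e => hx (commutatorElement_eq_one_iff_mul_comm.1 (mem_bot.1 (hf ▸ (LinearMap.ext fun v => by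
    simp [z1, e] : ρ ⁅a, x⁆ = 1)))).symm
  intro g' hg'
  obtain ⟨g, hg, rfl⟩ := e2 k hg'
  refine diag hK hP ρ a _ fun c v hv => ?_
  by_cases c0 : c = 0
  · have : v = 0 := (ρ.apply_bijective a).1 (by simpa [c0] using End.mem_eigenspace_iff.1 hv)
    simp [this]
  have d1 : finrank K (End.eigenspace (ρ a) c) ≤ finrank K (End.eigenspace (ρ a) (z * c)) :=
    LinearMap.finrank_le_finrank_of_injective (f := (ρ x).restrict fun w hw => by
      rw [End.mem_eigenspace_iff] at *
      rw [← End.mul_apply, ← map_mul, show a * x = ⁅a, x⁆ * x * a by group, map_mul, map_mul, End.mul_apply, End.mul_apply,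
        hw, z1, map_smul, smul_smul]) fun w w' e => Subtype.ext ((ρ.apply_bijective x).1 (congrArg Subtype.val e))
  have d2 := Submodule.finrank_sup_add_finrank_inf_eq (End.eigenspace (ρ a) c) (End.eigenspace (ρ a) (z * c))
  rw [((End.eigenspaces_iSupIndep (ρ a)).pairwiseDisjoint fun e => z2 (mul_right_cancel₀ c0 (e.symm.trans (one_mul c).symm))).eq_bot,
    finrank_bot] at d2
  have d3 := Submodule.finrank_le (End.eigenspace (ρ a) c ⊔ End.eigenspace (ρ a) (z * c))
  exact congrArg Subtype.val (LinearMap.congr_fun (ih _ C1[a] _ (Representation.subrepresentation (ρ.comp (Subgroup.subtype _)) _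
    fun x => eig_inv ρ (mem_centralizer_singleton_iff.1 x.2) c) (hP.to_subgroup _) rfl (by omega) hg) ⟨v, hv⟩)

end

/-- Let F be a field, n ≥ 1, and P a finite p-group (p a prime) admitting an injective homomorphism into the general linear group of degree n over F. Then the derived length of P is at most ⌊log₂ n⌋ + 1: that term of the derived series of P is trivial. -/
theorem result {P : Type*} [Group P] [Finite P] (p : ℕ) [Fact p.Prime] (hP : IsPGroup p P) (F : Type*) [Field F] (n : ℕ) (hn : 1 ≤ n) (ρ : P →* Matrix.GeneralLinearGroup (Fin n) F) (hρ : Function.Injective ρ) : derivedSeries P (Nat.log 2 n + 1) = ⊥ := by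
  open Subgroup Function in open scoped commutatorElement in
  · let K := AlgebraicClosure F
    let σ : Representation K P (Fin n → K) := (Matrix.toLinAlgEquiv' : _ ≃ₐ[K] _).toMonoidHom.comp
      ((algebraMap F K).mapMatrix.toMonoidHom.comp ((Units.coeHom _).comp ρ))
    have h1 : σ.ker = ⊥ := (MonoidHom.ker_eq_bot_iff _).2 ((Matrix.toLinAlgEquiv' (R := K) (n := Fin n)).injective.comp
      ((Matrix.map_injective (algebraMap F K).injective).comp (Units.val_injective.comp hρ)))
    have h2 := Nat.lt_pow_succ_log_self one_lt_two n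
    rw [eq_bot_iff, ← h1]
    by_cases c : (p : K) = 0
    · haveI := (CharP.charP_iff_prime_eq_zero Fact.out).2 c
      exact charp hP _ _ σ (by simpa using h2.le)
    · exact char0 c _ n P _ σ hP (by simp) h2

end Cfsg.Agent.S4010
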