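import Cfsg.Statements.S4013
import Cfsg.Agent.H3.Hv1

set_option autoImplicit false
open Cfsg

namespace Cfsg.Agent.S4013
open Subgroup CfsgH2 CfsgHv MulAction

/-- Let G be a finite p-group (p prime) and N < M normal subgroups of G such that for some g ∈ M ∖ N the conjugacy class of g is exactly M ∖ N. Then p = 2 and N has index 2 in M. -/
theorem result {G : Type*} [Group G] [Finite G] (p : ℕ) [Fact p.Prime] (hG : IsPGroup p G) (N M : Subgroup G) [N.Normal] [M.Normal] (hNM : N < M) (g : G) (hgM : g ∈ M) (hgN : g ∉ N) (hcl : {h : G | IsConj g h} = (M : Set G) \ (N : Set G)) : p = 2 ∧ N.relIndex M = 2 := by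
  have hp : p.Prime := Fact.out
  have h1 := CfsgL0.card_isConj_mul g
  have h2 : Nat.card {y : G // IsConj g y} = Nat.card M - Nat.card N := by
    have : Nat.card {y : G // IsConj g y} = ((M : Set G) \ (N : Set G)).ncard := by rw [← hcl]; rfl
    rw [this, Set.ncard_diff hNM.le]; rfl
  obtain ⟨n, hn⟩ := hG.exists_card_eq
  obtain ⟨a, -, ha⟩ := (Nat.dvd_prime_pow hp).1 (hn ▸ Dvd.intro _ h1)
  have h3 := card_mul_relIndex hNM.le
  obtain ⟨k, hk⟩ := exists_relIndex_eq_pow (hG.to_subgroup M) N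
  have hk0 : k ≠ 0 := by
    rintro rfl
    exact hNM.not_ge (relIndex_eq_one.1 (by simpa using hk))
  rw [h2, ← h3, hk, ← Nat.mul_sub_one] at ha
  have h4 : p ^ k - 1 ∣ p ^ a := Dvd.intro_left _ ha
  have h5 : 1 < p ^ k := Nat.one_lt_pow hk0 hp.one_lt
  have h6 : (p ^ k - 1).Coprime (p ^ a) := by
    refine Nat.Coprime.pow_right _ (Nat.Coprime.symm ((Nat.Prime.coprime_iff_not_dvd hp).2 fun h => ?_))
    have := (Nat.dvd_sub_iff_right h5.le (dvd_pow_self p hk0)).1 h
    exact hp.one_lt.ne' (Nat.dvd_one.1 this)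
  have h7 := h6.eq_one_of_dvd h4
  have h8 : p ^ k = 2 := by omega
  refine ⟨?_, hk.trans h8⟩
  exact (Nat.prime_dvd_prime_iff_eq hp Nat.prime_two).1 (h8 ▸ dvd_pow_self p hk0)


end Cfsg.Agent.S4013
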