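import Cfsg.Statements.S4020
import Cfsg.Agent.H3.Hv1
import Cfsg.Agent.H3.Hv2
import Cfsg.Agent.H4.ZS
import Cfsg.Agent.H2.PG2

set_option autoImplicit false
open Cfsg

namespace Cfsg.Agent.S4020
open Subgroup CfsgH2
open CfsgH4 hiding cent_le_norm cent_sup
open scoped commutatorElement

variable {G : Type*} [Group G] [Finite G]

def HD (G : Type*) [Group G] : Prop := ∀ p : ℕ, p.Prime → ∀ H K : Subgroup G, IsPGroup p H → IsPGroup p K →
  Nat.card H = Nat.card K → ∃ g : G, K = H.map (cj g)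

theorem expo (hD : HD G) {q : ℕ} [hq : Fact q.Prime] {E : Subgroup G} (hE : Cfsg.IsElementaryAbelian q E)
    (hc : Nat.card E = q ^ 2) {y : G} {k : ℕ} (hy : y ^ q ^ k = 1) : y ^ q = 1 := by
  by_contra h
  obtain ⟨j, hj⟩ := exists_card_eq_pow (isPGroup_zpowers hy)
  have h2 : 2 ≤ j := by
    by_contra h3
    apply h
    rw [Nat.card_zpowers] at hj
    rw [← orderOf_dvd_iff_pow_eq_one, hj]
    nth_rewrite 2 [← pow_one q]
    exact pow_dvd_pow _ (by omega)
  obtain ⟨L, hL, hLc⟩ := exists_card_pow_le (p := q) (H := zpowers y) 2 (hj ▸ pow_dvd_pow _ h2)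
  obtain ⟨g, rfl⟩ := hD q hq.out E L (elem_pgroup hE) (isPGroup_of_card hLc) (hc.trans hLc.symm)
  exact not_cyclic_of_elem hq.out (elem_map _ hE) hLc le_rfl (isCyclic_of_le hL)

theorem two (hD : HD G) {S : Subgroup G} (hS : IsPGroup 2 S) :
    (∀ x ∈ S, x ^ 2 = 1) ∨ IsCyclic S ∨ ∃ a b, GQ S a b 1 := by
  haveI : Fact (Nat.Prime 2) := ⟨Nat.prime_two⟩
  by_cases h : ∀ x ∈ S, ∀ y ∈ S, orderOf x = 2 → orderOf y = 2 → Commute x y → x = y
  · right
    rcases cyc_or_gq hS h with h1 | ⟨a, b, m, h1⟩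
    · exact Or.inl h1
    right
    by_cases hm : m = 1
    · exact ⟨a, b, hm ▸ h1⟩
    exfalso
    have hm2 : 2 ≤ m := by have := h1.pos; omega
    have hb := CfsgHv.gq_b_nc h1 hm2
    have c1 : Nat.card (zpowers (a ^ 2)) = 2 ^ m := by
      rw [Nat.card_zpowers, orderOf_pow_of_dvd two_ne_zero (by rw [h1.ord]; exact dvd_pow_self 2 (by omega)),
        h1.ord, pow_succ]; simp
    have c2 : Nat.card (zpowers (a ^ 2) ⊔ zpowers b : Subgroup G) = 2 ^ (m + 1) := by
      rw [card_sup_zpowers_prime Nat.prime_two, c1, pow_succ]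
      · apply mem_norm_zpowers
        rw [← conj_pow, h1.inv, inv_pow]; exact inv_mem (mem_zpowers _)
      · rw [h1.sq', show m = (m - 1) + 1 by omega, pow_succ' 2, pow_mul]
        exact pow_mem (mem_zpowers _) _
      · intro e
        exact hb (zpowers_le.2 (self_mem_cent1 _) e)
    have c3 : Nat.card (zpowers a) = 2 ^ (m + 1) := by rw [Nat.card_zpowers, h1.ord]
    obtain ⟨g, e⟩ := hD 2 Nat.prime_two _ _ (isPGroup_of_card c3) (isPGroup_of_card c2) (c3.trans c2.symm)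
    have hab : IsMulCommutative (zpowers (a ^ 2) ⊔ zpowers b : Subgroup G) := by
      rw [e]; infer_instance
    exact hb (mem_centralizer_singleton_iff.2
      (comm_of_isMulComm hab (mem_sup_right (mem_zpowers _)) (mem_sup_left (mem_zpowers _))))
  · left
    push Not at h
    obtain ⟨x, -, y, -, hx, hy, hc, hne⟩ := h
    have x2 : x ^ 2 = 1 := by rw [← hx, pow_orderOf_eq_one]
    have y2 : y ^ 2 = 1 := by rw [← hy, pow_orderOf_eq_one]
    have hyc : y ∈ C[zpowers x] := by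
      rw [cent_zpowers]; exact mem_centralizer_singleton_iff.2 hc.eq.symm
    have hE : Cfsg.IsElementaryAbelian 2 (zpowers x ⊔ zpowers y : Subgroup G) :=
      elem_sup (elem_zpowers x2) (elem_zpowers y2) (le_centralizer_iff.1 (zpowers_le.2 hyc))
    have hcard : Nat.card (zpowers x ⊔ zpowers y : Subgroup G) = 2 ^ 2 := by
      rw [card_sup_zpowers_prime Nat.prime_two (cent_le_norm _ hyc) (y2 ▸ one_mem _), Nat.card_zpowers, hx]
      · rfl
      · intro e
        exact hne (eq_of_orderOf_two (C := zpowers x) inferInstance (mem_zpowers x) e hx hy)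
    intro z hz
    obtain ⟨k, hk⟩ := pgroup_pow_eq_one hS hz
    exact expo hD hE hcard hk

theorem conj_pow_iter {u c d : G} (h : u * c * u⁻¹ = c * d) (hd : u * d * u⁻¹ = d) (k : ℕ) :
    u ^ k * c * (u ^ k)⁻¹ = c * d ^ k := by
  induction k with
  | zero => simp
  | succ k ih =>
    calc u ^ (k + 1) * c * (u ^ (k + 1))⁻¹ = u * (u ^ k * c * (u ^ k)⁻¹) * u⁻¹ := by group
      _ = (u * c * u⁻¹) * (u * d * u⁻¹) ^ k := by rw [ih, conj_pow]; group
      _ = _ := by rw [h, hd]; group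

theorem inv_iter {u y : G} (h : u * y * u⁻¹ = y⁻¹) {m : ℕ} (hm : Odd m) : u ^ m * y * (u ^ m)⁻¹ = y⁻¹ := by
  obtain ⟨k, rfl⟩ := hm
  have h2 : u ^ 2 * y * (u ^ 2)⁻¹ = y * 1 := by
    calc u ^ 2 * y * (u ^ 2)⁻¹ = u * (u * y * u⁻¹) * u⁻¹ := by rw [pow_two]; group
      _ = (u * y * u⁻¹)⁻¹ := by nth_rewrite 1 [h]; group
      _ = y * 1 := by rw [h]; group
  have h3 := conj_pow_iter h2 (by simp) k
  calc u ^ (2 * k + 1) * y * (u ^ (2 * k + 1))⁻¹ = u * ((u ^ 2) ^ k * y * ((u ^ 2) ^ k)⁻¹) * u⁻¹ := by group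
    _ = _ := by rw [h3, one_pow, mul_one, h]

theorem odd_case (hD : HD G) {p : ℕ} [hp : Fact p.Prime] (hp2 : p ≠ 2) {P : Subgroup G} (hP : Syl p P ⊤)
    (hexp : ∀ (y : G) (k : ℕ), y ^ p ^ k = 1 → y ^ p = 1) : IsMulCommutative P := by
  classical
  by_contra hnab
  have hex : ∀ {H : Subgroup G}, IsPGroup p H → ∀ y ∈ H, y ^ p = 1 := fun hH y hy =>
    (pgroup_pow_eq_one hH hy).elim fun k hk => hexp y k hk
  have hZ : Z[P] < P := lt_of_le_of_ne inf_le_left fun e => hnab (isMulComm_of_le_cent (e.ge.trans inf_le_right))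
  obtain ⟨L, hZL, hLP, -, hLi, hLc, hPL⟩ := exists_step hP.pg hP.pg hZ le_norm_center le_normalizer
  obtain ⟨y, hyL, hyZ⟩ : ∃ y ∈ L, y ∉ Z[P] := by
    by_contra h
    push Not at h
    rw [relIndex_eq_one.2 h] at hLi
    exact hp.out.one_lt.ne hLi
  have hyP := hLP hyL
  obtain ⟨x, hxP, hxy⟩ : ∃ x ∈ P, x * y ≠ y * x := by
    by_contra h
    push Not at h
    exact hyZ ⟨hyP, mem_cent_iff.2 h⟩
  set c := y⁻¹ * (x * y * x⁻¹) with hc
  have hcZ : c ∈ Z[P] := hLc (by
    have := commutator_mem_commutator (inv_mem hyL) hxP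
    rw [commutatorElement_def, inv_inv] at this
    rw [hc]; simpa [mul_assoc] using this)
  have hc1 : c ≠ 1 := by
    intro e
    apply hxy
    rw [hc, inv_mul_eq_one, eq_mul_inv_iff_mul_eq] at e
    exact e.symm
  have hy1 : y ≠ 1 := by rintro rfl; exact hyZ (one_mem _)
  have hxyc : x * y * x⁻¹ = y * c := by rw [hc]; group
  have hcy : c * y = y * c := (mem_cent_iff.1 hcZ.2 y hyP).symm
  have hxc : x * c * x⁻¹ = c := by rw [mem_cent_iff.1 hcZ.2 x hxP]; group
  have cc : Nat.card (zpowers c) = p := card_zpowers_eq hp.out (hex hP.pg c hcZ.1) hc1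
  have cy : Nat.card (zpowers y) = p := card_zpowers_eq hp.out (hex hP.pg y hyP) hy1
  have hyc : y ∈ C[zpowers c] := by rw [cent_zpowers]; exact mem_centralizer_singleton_iff.2 hcy.symm
  set A := zpowers c ⊔ zpowers y with hA
  have hAab : IsMulCommutative A := isMulComm_sup_zpowers inferInstance hyc
  have hync : y ∉ zpowers c := fun e => hyZ (zpowers_le.2 hcZ e)
  have cA : Nat.card A = p ^ 2 := by
    rw [hA, card_sup_zpowers_prime hp.out (cent_le_norm _ hyc) (hex hP.pg y hyP ▸ one_mem _) hync, cc, pow_two]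
  have hcA : c ∈ A := mem_sup_left (mem_zpowers c)
  have hyA : y ∈ A := mem_sup_right (mem_zpowers y)
  have hxA : x ∈ N[A] := by
    refine mem_norm_sup_zpowers (mem_norm_zpowers (by rw [hxc]; exact mem_zpowers c)) ?_
    rw [hxyc]; exact mul_mem hyA hcA
  have hxnA : x ∉ A := fun e => hxy (comm_of_isMulComm hAab e hyA)
  have cR : Nat.card (A ⊔ zpowers x : Subgroup G) = p ^ 3 := by
    rw [card_sup_zpowers_prime hp.out hxA (hex hP.pg x hxP ▸ one_mem _) hxnA, cA, ← pow_succ]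
  have hno : ∀ B : Subgroup G, IsMulCommutative B → Nat.card B ≠ p ^ 3 := by
    intro B hB cB
    obtain ⟨g, e⟩ := hD p hp.out _ _ (isPGroup_of_card cB) (isPGroup_of_card cR) (cB.trans cR.symm)
    have hab : IsMulCommutative (A ⊔ zpowers x : Subgroup G) := by rw [e]; infer_instance
    exact hxy (comm_of_isMulComm hab (mem_sup_right (mem_zpowers _)) (mem_sup_left hyA))
  -- a Sylow subgroup centralizing `y` and containing `A`
  obtain ⟨g, hg⟩ := hD p hp.out _ _ (isPGroup_of_card' cc) (isPGroup_of_card' cy) (cc.trans cy.symm)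
  have hQ0 : Syl p (P.map (cj g)) C[zpowers y] := by
    refine (hP.map_cj_mem (mem_top g)).mono ?_ le_top
    rw [hg, centralizer_map_cj, map_cj_le_map_cj]
    exact le_centralizer_iff.1 (zpowers_le.2 hcZ.2)
  have hAy : A ≤ C[zpowers y] := le_cent_of_comm hAab le_sup_right
  obtain ⟨h, hh, hAQ⟩ := hQ0.exists_le_conj (isPGroup_of_card cA) hAy
  have hQ := hQ0.map_cj_mem hh
  set Q := (P.map (cj g)).map (cj h) with hQd
  have hAQ' : A < Q := by
    refine lt_of_le_of_ne hAQ fun e => ?_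
    have h1 : Nat.card Q = Nat.card P := by rw [hQd, card_map_cj, card_map_cj]
    have h2 : Nat.card (A ⊔ zpowers x : Subgroup G) ≤ Nat.card P :=
      card_le_of_le (sup_le (sup_le (zpowers_le.2 hcZ.1) (zpowers_le.2 hyP)) (zpowers_le.2 hxP))
    rw [← h1, ← e, cA, cR] at h2
    have := (Nat.pow_le_pow_iff_right hp.out.one_lt).1 h2
    omega
  obtain ⟨u, ⟨huQ, huA⟩, hunA⟩ := SetLike.exists_of_lt (lt_inf_norm hQ.pg.isNilpotent hAQ')
  have hup := hex hQ.pg u huQ
  have huy : u * y * u⁻¹ = y := by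
    rw [← mem_cent_iff.1 (hQ.le huQ) y (mem_zpowers y)]; group
  have hYA : zpowers y < A := lt_of_le_of_ne le_sup_right fun e => by
    rw [← e, cy, pow_two] at cA
    have := hp.out.one_lt
    nlinarith
  obtain ⟨L', hL1, hL2, -, hL3, hL4, -⟩ := exists_step (P := zpowers u) (isPGroup_zpowers (k := 1) (by simpa using hup))
    (isPGroup_of_card cA) hYA (zpowers_le.2 (mem_norm_zpowers (by rw [huy]; exact mem_zpowers y))) (zpowers_le.2 huA)
  have hL5 : L' = A := eq_of_le_of_card_le hL2 (by rw [← card_mul_relIndex hL1, hL3, cy, cA, pow_two])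
  set d := c⁻¹ * (u * c * u⁻¹) with hd
  have hdY : d ∈ zpowers y := hL4 (by
    have := commutator_mem_commutator (inv_mem (hL5.ge hcA)) (mem_zpowers u)
    rw [commutatorElement_def, inv_inv] at this
    rw [hd]; simpa [mul_assoc] using this)
  have hucd : u * c * u⁻¹ = c * d := by rw [hd]; group
  have hd1 : d ≠ 1 := by
    intro e
    rw [e, mul_one] at hucd
    have huC : u ∈ C[A] := by
      rw [hA, cent_sup, cent_zpowers, cent_zpowers]
      exact ⟨mem_centralizer_singleton_iff.2 (mul_inv_eq_iff_eq_mul.1 hucd),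
        mem_centralizer_singleton_iff.2 (mul_inv_eq_iff_eq_mul.1 huy)⟩
    refine hno _ (isMulComm_sup_zpowers hAab huC) ?_
    rw [card_sup_zpowers_prime hp.out huA (hup ▸ one_mem _) hunA, cA, ← pow_succ]
  have hud : u * d * u⁻¹ = d := by
    obtain ⟨j, hj⟩ := mem_zpowers_iff.1 hdY
    rw [← hj, ← conj_zpow, huy]
  obtain ⟨k, hk⟩ : ∃ k : ℕ, d ^ k = y⁻¹ := by
    have := zpowers_eq_of_prime (K := zpowers y) (cy ▸ hp.out) hdY hd1
    have h2 : y⁻¹ ∈ zpowers d := this ▸ inv_mem (mem_zpowers y)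
    obtain ⟨k, -, hk⟩ := Finset.mem_image.1 (mem_zpowers_iff_mem_range_orderOf.1 h2)
    exact ⟨k, hk⟩
  have hvc := conj_pow_iter hucd hud k
  rw [hk] at hvc
  have hvy : u ^ k * y * (u ^ k)⁻¹ = y := by simpa using conj_pow_iter (u := u) (c := y) (d := 1) (by simpa using huy) (by simp) k
  set w := x * u ^ k * x with hw
  have w1 : w * y * w⁻¹ = c := by
    calc w * y * w⁻¹ = x * (u ^ k * (x * y * x⁻¹) * (u ^ k)⁻¹) * x⁻¹ := by rw [hw]; group
      _ = x * ((u ^ k * y * (u ^ k)⁻¹) * (u ^ k * c * (u ^ k)⁻¹)) * x⁻¹ := by rw [hxyc]; group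
      _ = c := by rw [hvy, hvc, ← mul_assoc y, ← hcy, mul_inv_cancel_right, hxc]
  have w2 : w * c * w⁻¹ = y⁻¹ := by
    calc w * c * w⁻¹ = x * (u ^ k * (x * c * x⁻¹) * (u ^ k)⁻¹) * x⁻¹ := by rw [hw]; group
      _ = (x * c * x⁻¹) * (x * y * x⁻¹)⁻¹ := by nth_rewrite 1 [hxc]; rw [hvc]; group
      _ = y⁻¹ := by rw [hxc, hxyc]; group
  have w3 : w ^ 2 * y * (w ^ 2)⁻¹ = y⁻¹ := by
    calc w ^ 2 * y * (w ^ 2)⁻¹ = w * (w * y * w⁻¹) * w⁻¹ := by rw [pow_two]; group
      _ = _ := by rw [w1, w2]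
  have hoy : orderOf y = p := by rw [← Nat.card_zpowers, cy]
  have hyi : y⁻¹ ≠ y := by
    intro e
    have : y ^ 2 = 1 := by rw [pow_two]; nth_rewrite 1 [← e]; simp
    rw [← orderOf_dvd_iff_pow_eq_one, hoy] at this
    exact hp2 ((Nat.prime_dvd_prime_iff_eq hp.out Nat.prime_two).1 this)
  haveI : Fact (Nat.Prime 2) := ⟨Nat.prime_two⟩
  have hfin : y ∉ Cfsg.pPrimeCore 2 G := by
    intro hy
    have hall : ∀ z : G, z ^ p = 1 → z ∈ Cfsg.pPrimeCore 2 G := by
      intro z hz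
      by_cases hz1 : z = 1
      · rw [hz1]; exact one_mem _
      have cz := card_zpowers_eq hp.out hz hz1
      obtain ⟨g, e⟩ := hD p hp.out _ _ (isPGroup_of_card' cy) (isPGroup_of_card' cz) (cy.trans cz.symm)
      have : zpowers z ≤ Cfsg.pPrimeCore 2 G := by
        rw [e, ← map_cj_normal g (Cfsg.pPrimeCore 2 G), map_cj_le_map_cj, zpowers_le]; exact hy
      exact this (mem_zpowers z)
    have hwO : w ∈ Cfsg.pPrimeCore 2 G :=
      mul_mem (mul_mem (hall x (hex hP.pg x hxP)) (pow_mem (hall u hup) k)) (hall x (hex hP.pg x hxP))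
    have ho : Odd (orderOf w) := by
      rw [← Nat.not_even_iff_odd, even_iff_two_dvd]
      exact fun e => not_dvd_pPrimeCore (e.trans (orderOf_dvd_of_mem hwO))
    have := inv_iter w3 ho
    rw [← pow_mul, mul_comm, pow_mul, pow_orderOf_eq_one] at this
    exact hyi (by simpa using this.symm)
  obtain ⟨a, m, hm, hw2⟩ : ∃ a m, Odd m ∧ orderOf w = 2 ^ a * m := by
    obtain ⟨a, m, h1, h2⟩ := Nat.exists_eq_two_pow_mul_odd (orderOf_pos w).ne'
    exact ⟨a, m, h1, h2⟩
  have s3 : (w ^ m) ^ 2 * y * ((w ^ m) ^ 2)⁻¹ = y⁻¹ := by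
    have := inv_iter w3 hm
    rwa [← pow_mul, mul_comm 2, pow_mul] at this
  have s2 : (w ^ m) ^ 2 ≠ 1 := by
    intro e; rw [e] at s3; exact hyi (by simpa using s3.symm)
  obtain ⟨S, hS, hsS⟩ := exists_syl_ge (p := 2) (M := ⊤) (isPGroup_zpowers (k := a) (x := w ^ m)
    (by rw [← pow_mul, mul_comm, ← hw2, pow_orderOf_eq_one])) le_top
  have hs := hsS (mem_zpowers _)
  set s := w ^ m
  rcases two hD hS.pg with h2 | h2 | ⟨a, b, h2⟩
  · exact s2 (h2 s hs)
  · have hn : NPC 2 (⊤ : Subgroup G) := npc_of_cyclic hS h2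
    apply hfin
    rw [pPrimeCore_eq']
    exact hn.mem (mem_top y) (by rw [hoy]; exact (Nat.coprime_primes hp.out Nat.prime_two).2 hp2)
  · have h4 : s ^ 2 = a ^ 2 ^ 1 := by
      by_cases e : s ∈ zpowers a
      · refine (h2.eq_of_sq (pow_mem hs 2) ?_).resolve_left s2
        obtain ⟨j, hj⟩ := mem_zpowers_iff.1 e
        have : a ^ (4 : ℤ) = 1 := by
          have := pow_orderOf_eq_one a
          rw [h2.ord] at this
          exact_mod_cast this
        rw [← hj]
        calc (a ^ j) ^ 2 * (a ^ j) ^ 2 = (a ^ (4 : ℤ)) ^ j := by group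
          _ = 1 := by rw [this, one_zpow]
      · rw [pow_two, h2.sq_eq hs e]
    have hz := zstar (h2.isolated hS) y
    rw [← h4] at hz
    have ht : (s ^ 2)⁻¹ = s ^ 2 := by
      apply inv_eq_of_mul_eq_one_right
      rw [h4, ← pow_two]
      have := pow_orderOf_eq_one (a ^ 2 ^ 1)
      rwa [h2.ord_t] at this
    have : s ^ 2 * (y * s ^ 2 * y⁻¹) = (y ^ 2)⁻¹ := by
      calc _ = s ^ 2 * y * (s ^ 2)⁻¹ * y⁻¹ := by rw [ht]; group
        _ = _ := by rw [s3]; group
    rw [this, inv_mem_iff] at hz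
    exact hfin (mem_of_pow_mem_coprime hz (by rw [hoy]; exact (Nat.coprime_primes hp.out Nat.prime_two).2 hp2))

/-- Let G be a finite group in which, for every prime p, any two p-subgroups of the same order are conjugate. Then every Sylow subgroup of G is cyclic, elementary abelian, or a quaternion group of order 8. -/
theorem result {G : Type*} [Group G] [Finite G]
    (hD : ∀ p : ℕ, p.Prime → ∀ H K : Subgroup G, IsPGroup p H → IsPGroup p K → Nat.card H = Nat.card K →
      ∃ g : G, K = H.map (MulAut.conj g).toMonoidHom) {p : ℕ} [Fact p.Prime] (P : Sylow p G) :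
    IsCyclic P ∨ Cfsg.IsElementaryAbelian p (P : Subgroup G) ∨ Nonempty ((P : Subgroup G) ≃* QuaternionGroup 2) := by
  have hD' : HD G := hD
  by_cases hp2 : p = 2
  · subst hp2
    rcases two hD' P.isPGroup' with h | h | ⟨a, b, h⟩
    · refine Or.inr (Or.inl ⟨isMulComm_iff.2 fun a ha b hb => ?_, h⟩)
      have e : ∀ z ∈ (P : Subgroup G), z⁻¹ = z := fun z hz =>
        inv_eq_of_mul_eq_one_right (by rw [← pow_two, h z hz])
      rw [← e _ (mul_mem ha hb), mul_inv_rev, e a ha, e b hb]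
    · exact Or.inl h
    · exact Or.inr (Or.inr (by simpa using h.toCy2.quaternion h.sq' h.inv))
  · by_cases hc : IsCyclic P
    · exact Or.inl hc
    obtain ⟨E, -, hE, cE⟩ := exists_elem2_of_not_cyclic hp2 P.isPGroup' hc
    have hexp : ∀ (y : G) (k : ℕ), y ^ p ^ k = 1 → y ^ p = 1 := fun y k h => expo hD' hE cE h
    exact Or.inr (Or.inl ⟨odd_case hD' hp2 (syl_top P) hexp, fun a ha =>
      (pgroup_pow_eq_one P.isPGroup' ha).elim fun k hk => hexp a k hk⟩)


end Cfsg.Agent.S4020
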