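import Cfsg.Statements.S4023
import Cfsg.Agent.H3.Hv1
import Cfsg.Agent.H3.Dg

set_option autoImplicit false
open Cfsg

namespace Cfsg.Agent.S4023
open Subgroup CfsgH2 CfsgDg

/-- Let p be a prime and G a finite group in which any two p-subgroups of the same order are conjugate, with Sylow p-subgroup P. Then P is cyclic, or elementary abelian, or p = 2 and P is a quaternion group of order 8, or p is odd and P is non-abelian of order p³ and exponent p. -/
theorem result {G : Type*} [Group G] [Finite G]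
    {p : ℕ} [Fact p.Prime] (hC : ∀ H K : Subgroup G, IsPGroup p H → IsPGroup p K → Nat.card H = Nat.card K →
      ∃ g : G, K = H.map (MulAut.conj g).toMonoidHom) (P : Sylow p G) :
    IsCyclic P ∨ Cfsg.IsElementaryAbelian p (P : Subgroup G) ∨
      (p = 2 ∧ Nonempty ((P : Subgroup G) ≃* QuaternionGroup 2)) ∨
      (p ≠ 2 ∧ ¬ IsMulCommutative P ∧ Nat.card P = p ^ 3 ∧ Monoid.exponent P = p) := by
  have hp : p.Prime := Fact.out
  rcases tri P.isPGroup' with h | ⟨rfl, a, b, m, h⟩ | ⟨E, -, hE, cE⟩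
  · exact Or.inl h
  · by_cases hm : m = 1
    · subst hm
      exact Or.inr (Or.inr (Or.inl ⟨rfl, by simpa using h.toCy2.quaternion h.sq' h.inv⟩))
    obtain ⟨c2, h2⟩ := gq_sub h (by have := h.pos; omega)
    have c3 : Nat.card (zpowers a) = 2 ^ (m + 1) := by rw [Nat.card_zpowers, h.ord]
    obtain ⟨g, e⟩ := hC _ _ (isPGroup_of_card c3) (isPGroup_of_card c2) (c3.trans c2.symm)
    exact absurd (by rw [e]; infer_instance) h2
  have hex : ∀ y ∈ (P : Subgroup G), y ^ p = 1 := fun y hy => (pgroup_pow_eq_one P.isPGroup' hy).elim fun k hk =>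
    expo (fun L hL c => by
      obtain ⟨g, rfl⟩ := hC E L (elem_pgroup hE) (isPGroup_of_card c) (cE.trans c.symm)
      exact not_cyclic_of_elem hp (elem_map _ hE) c le_rfl hL) hk
  by_cases hab : Ab[(P : Subgroup G)]
  · exact Or.inr (Or.inl ⟨hab, hex⟩)
  obtain ⟨R, r1, r2, r3⟩ := exists_nonab3 P.isPGroup' hex hab
  refine Or.inr (Or.inr (Or.inr ⟨by rintro rfl; exact hab (ab_of_sq hex), hab, ?_, ?_⟩))
  · obtain ⟨n, hn⟩ := exists_card_eq_pow P.isPGroup'
    have h3 : 3 ≤ n := (Nat.pow_dvd_pow_iff_le_right hp.one_lt).1 (r2 ▸ hn ▸ card_dvd_of_le r1)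
    by_cases h4 : 4 ≤ n
    · obtain ⟨B, -, b2, b3⟩ := exists_ab3 P.isPGroup' (hn ▸ pow_dvd_pow p h4)
      obtain ⟨g, e⟩ := hC _ _ (isPGroup_of_card b2) (isPGroup_of_card r2) (b2.trans r2.symm)
      exact absurd (by rw [e]; infer_instance) r3
    · exact hn.trans (by congr 1; omega)
  · have h1 : Monoid.exponent P ∣ p := Monoid.exponent_dvd_of_forall_pow_eq_one fun g => Subtype.ext (hex g g.2)
    refine ((Nat.dvd_prime hp).1 h1).resolve_left fun e => hab ?_
    haveI := Monoid.exp_eq_one_iff.1 e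
    exact ⟨⟨fun a b => Subsingleton.elim _ _⟩⟩


end Cfsg.Agent.S4023
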