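import Cfsg.Statements.S4024
import Cfsg.Agent.H3.Hv1
import Cfsg.Agent.H3.Dg
import Cfsg.Agent.H1.Sep

set_option autoImplicit false
open Cfsg

namespace Cfsg.Agent.S4024
open Subgroup CfsgH2 CfsgDg

/-- Let p be an odd prime and G a finite group in which any two p-subgroups of the same order are conjugate, with Sylow p-subgroup P. If H is a normal p-solvable subgroup of G whose order is divisible by p, then P is abelian, and either P ≤ H or P is cyclic. -/
theorem result {G : Type*} [Group G] [Finite G]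
    {p : ℕ} [Fact p.Prime] (hp : p ≠ 2) (hC : ∀ H K : Subgroup G, IsPGroup p H → IsPGroup p K → Nat.card H = Nat.card K →
      ∃ g : G, K = H.map (MulAut.conj g).toMonoidHom) (P : Sylow p G)
    (H : Subgroup G) [H.Normal] (hsolv : Cfsg.IsPSolvable p H) (hdiv : p ∣ Nat.card H) :
    IsMulCommutative P ∧ ((P : Subgroup G) ≤ H ∨ IsCyclic P) := by
  have hp' : p.Prime := Fact.out
  rcases tri P.isPGroup' with h | ⟨rfl, a, b, m, h⟩ | ⟨E, -, hE, cE⟩
  · exact ⟨h.isMulCommutative, Or.inr h⟩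
  · exact absurd rfl hp
  have hex : ∀ y ∈ (P : Subgroup G), y ^ p = 1 := fun y hy => (pgroup_pow_eq_one P.isPGroup' hy).elim fun k hk =>
    expo (fun L hL c => by
      obtain ⟨g, rfl⟩ := hC E L (elem_pgroup hE) (isPGroup_of_card c) (cE.trans c.symm)
      exact not_cyclic_of_elem hp' (elem_map _ hE) c le_rfl hL) hk
  have all : ∀ W : Subgroup G, W.Normal → p ∣ o[W] → (P : Subgroup G) ≤ W := by
    intro W hW hd x hx
    by_cases h1 : x = 1
    · rw [h1]; exact one_mem _
    obtain ⟨X, hX, cX⟩ := exists_card_prime_le hp' hd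
    have cx := card_zpowers_eq hp' (hex x hx) h1
    obtain ⟨g, e⟩ := hC _ _ (isPGroup_of_card' cX) (isPGroup_of_card' cx) (cX.trans cx.symm)
    obtain ⟨y, hy, e⟩ := e.le (mem_zpowers x)
    exact e ▸ hW.conj_mem y (hX hy) g
  refine ⟨?_, Or.inl (all H inferInstance hdiv)⟩
  have hlt : O[{p}ᶜ, H] < H := lt_of_le_of_ne piCoreOf_le fun e => not_dvd_piCoreOf (p := p) (M := H) (by rwa [e])
  obtain ⟨M, hn, m1, m2, σ, hσ, m3⟩ := ((CfsgH1.isPSolvable_iff hp').1 hsolv).exists_normal_between hlt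
  have m4 : PiN σ (O[{p}ᶜ, H].relIndex M) := m3
  rcases hσ with rfl | rfl
  swap
  · refine absurd (le_piCoreOf m2 (le_top.trans (top_le_norm_iff.2 hn)) ?_) m1.not_ge
    rw [← card_mul_relIndex m1.le]
    exact piN_piCoreOf.mul m4
  set f := QuotientGroup.mk' O[{p}ᶜ, H]
  have hM : PG[p, M.map f] := by
    rw [isPGroup_iff_piN, ← relIndex_ker, QuotientGroup.ker_mk']
    exact m4
  have h0 : M.map f ≠ ⊥ := fun e => m1.not_ge (by rwa [Subgroup.map_eq_bot_iff, QuotientGroup.ker_mk'] at e)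
  haveI : (M.map f).Normal := hn.map _ (QuotientGroup.mk'_surjective _)
  have h1 := all (Z[M.map f].comap f) inferInstance (by
    refine (dvd_card_of_pgroup (hM.to_le inf_le_left) (center_ne_bot hM h0)).trans ?_
    nth_rewrite 1 [← map_comap_eq_self_of_surjective (QuotientGroup.mk'_surjective _) Z[M.map f]]
    exact card_map_dvd _ _)
  refine isMulComm_iff.2 fun a ha b hb => ?_
  have h2 : a * b * (b * a)⁻¹ ∈ (P : Subgroup G) ⊓ O[{p}ᶜ, H] := mem_inf.2 ⟨mul_mem (mul_mem ha hb) (inv_mem (mul_mem hb ha)), by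
    rw [← QuotientGroup.ker_mk' O[{p}ᶜ, H]]
    have := mem_cent_iff.1 (h1 hb).2 _ (h1 ha).1
    simp only [MonoidHom.mem_ker, map_mul, map_inv]
    rw [mul_inv_eq_one]; exact this⟩
  rw [inf_eq_bot_of_piN (isPGroup_iff_piN.1 P.isPGroup') piN_piCoreOf, mem_bot] at h2
  exact mul_inv_eq_one.1 h2


end Cfsg.Agent.S4024
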