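import Cfsg.Statements.S4027
import Mathlib
import Cfsg.Agent.L0.M2

set_option autoImplicit false
open Cfsg

namespace Cfsg.Agent.S4027

open Cfsg Subgroup CfsgH2 CfsgL0

/-- Let G be a finite group in which every element x of odd order satisfies N_G(⟨x⟩) = C_G(x). Then the Sylow 2-subgroups of G are normal. -/
theorem result {G : Type*} [Group G] [Finite G]
    (hirr : ∀ x : G, (∀ r : ℕ, r.Prime → r ∣ orderOf x → r ≠ 2) →
      Subgroup.normalizer ((Subgroup.zpowers x : Subgroup G) : Set G) ≤ Subgroup.centralizer {x}) (P : Sylow 2 G) :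
    (P : Subgroup G).Normal := by
  refine two_closed_of_no_real (fun x y ho hx => ?_) (syl_top P)
  have h1 := hirr x (fun r _ hd e => by
    subst e; exact (Nat.not_even_iff_odd.2 ho) (even_iff_two_dvd.2 hd))
    (mem_norm_zpowers (g := y) (by rw [hx]; exact inv_mem (mem_zpowers x)))
  rw [mem_centralizer_singleton_iff] at h1
  refine eq_one_of_odd_of_mul_self ho ?_
  have : y * x * y⁻¹ = x := by rw [h1]; group
  rw [hx] at this
  nth_rewrite 1 [← this]; simp

end Cfsg.Agent.S4027
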