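import Cfsg.Statements.S4028
import Mathlib
import Cfsg.Agent.L0.M4

set_option autoImplicit false
open Cfsg

namespace Cfsg.Agent.S4028

open Cfsg Subgroup CfsgH2 CfsgL0

/-- Let G be a finite group with Sylow 2-subgroup P. Then N_G(⟨x⟩) = C_G(x) holds for every 2-element x of G if and only if N_P(⟨y⟩) = C_P(y) holds for every y ∈ P (computed inside P). -/
theorem result {G : Type*} [Group G] [Finite G] (P : Sylow 2 G) :
    (∀ x : G, (∀ r : ℕ, r.Prime → r ∣ orderOf x → r = 2) →
      Subgroup.normalizer ((Subgroup.zpowers x : Subgroup G) : Set G) ≤ Subgroup.centralizer {x}) ↔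
    (∀ y : ↥(P : Subgroup G), Subgroup.normalizer ((Subgroup.zpowers y : Subgroup ↥(P : Subgroup G)) : Set ↥(P : Subgroup G)) ≤
        Subgroup.centralizer {y}) := by
  constructor
  · intro h y z hz
    have := h y (fun r hr hd => isPGroup_iff_piN.1 P.isPGroup' r hr (hd.trans (Subgroup.orderOf_dvd_natCard _ y.2)))
      (mem_norm_zpowers (g := (z : G)) (by
        obtain ⟨k, hk⟩ := conj_mem_of_norm hz (mem_zpowers y)
        exact ⟨k, congrArg Subtype.val hk⟩))
    exact mem_centralizer_singleton_iff.2 (Subtype.ext (mem_centralizer_singleton_iff.1 this))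
  · intro h x hx
    have px : IsPGroup 2 (zpowers x) := isPGroup_iff_piN.2 (piN_card_zpowers (π := {2}) hx)
    refine le_of_forall_pelem fun q hq z hz hzq => ?_
    haveI := Fact.mk hq
    by_cases e : q = 2
    · subst e
      obtain ⟨g, -, hg⟩ := (syl_top P).exists_conj_le (isPGroup_sup hzq px (Or.inl (zpowers_le.2 hz))) le_top
      have h1 := hg (conj_mem_map_cj (mem_sup_left (mem_zpowers z)))
      have h2 := hg (conj_mem_map_cj (mem_sup_right (mem_zpowers x)))
      have := h ⟨_, h2⟩ (mem_norm_zpowers (g := ⟨_, h1⟩) (by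
        obtain ⟨k, hk⟩ := conj_mem_of_norm hz (mem_zpowers x)
        refine ⟨k, Subtype.ext ?_⟩
        simp only at hk
        simp only [SubgroupClass.coe_zpow, conj_zpow, hk, coe_mul, coe_inv]; group))
      have h3 := congrArg Subtype.val (mem_centralizer_singleton_iff.1 this)
      rw [mem_centralizer_singleton_iff]
      refine mul_left_cancel (a := g) ?_
      simpa [← mul_assoc] using h3
    · rw [← cent_zpowers]
      obtain ⟨k, hk⟩ := pgroup_mem_order hzq (mem_zpowers z)
      refine cent_of_qt_phi px (d := 1) ?_ hz ?_ fun r k hr _ h1 h2 => ?_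
      · rw [pow_one]
        refine card_dvd_of_elem_cyclic (elem_qt_phi px) ?_
        rw [qt_zpowers (le_norm_phi (mem_zpowers x))]; infer_instance
      · exact fun h => e ((Nat.prime_dvd_prime_iff_eq Nat.prime_two hq).1 (Nat.prime_two.dvd_of_dvd_pow (hk ▸ h))).symm
      · rw [show k = 1 by omega]; simpa using hr.one_lt.ne'

end Cfsg.Agent.S4028
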