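import Cfsg.Statements.S4029
import Cfsg.Agent.H1.Misc1
import Cfsg.Agent.H4.Gal2

set_option autoImplicit false
open Cfsg

namespace Cfsg.Agent.S4029

/-- Let P be a finite 2-group in which N_P(⟨y⟩) = C_P(y) for every y ∈ P. If s is the number of conjugacy classes of involutions of P, then #(P/Φ(P)) ≤ s + 1; in particular the subgroup generated by the involutions of P has order at least #(P/Φ(P)). -/
theorem result {P : Type*} [Group P] [Finite P] (hP : IsPGroup 2 P)
    (hirr : ∀ y : P, Subgroup.normalizer ((Subgroup.zpowers y : Subgroup P) : Set P) ≤ Subgroup.centralizer {y}) :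
    Nat.card (P ⧸ frattini P) ≤ Nat.card {c : ConjClasses P // ∃ y : P, ConjClasses.mk y = c ∧ orderOf y = 2} + 1 ∧
    Nat.card (P ⧸ frattini P) ≤ Nat.card (Subgroup.closure {y : P | orderOf y = 2}) := by
  open Subgroup CfsgH2 in
  open CfsgH1 hiding card_inf_mul_relIndex card_lt_of_lt card_lt_of_ne_top card_map_mul_card_inf_ker card_mul_relIndex card_subgroupOf card_sup_dvd card_sup_mul_card_inf exists_card_prime_le isNilpotent_map isNilpotent_of_le isPGroup_pCore isSolvable_map isSolvable_of_le le_pCore le_pPrimeCore relIndex_map_dvd in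
  open scoped CfsgH1 in
  open scoped commutatorElement in
  · haveI : Fact (Nat.Prime 2) := ⟨Nat.prime_two⟩
    have iv : ∀ x : P ⧸ frattini P, x⁻¹ = x := fun x => by
      obtain ⟨x, rfl⟩ := QuotientGroup.mk_surjective x
      rw [inv_eq_iff_mul_eq_one, ← pow_two, ← QuotientGroup.mk_pow, QuotientGroup.eq_one_iff]
      exact pow_mem_frattini hP x
    have cm : ∀ x y : P ⧸ frattini P, x * y = y * x := fun x y => by rw [← iv (x * y), mul_inv_rev, iv, iv]
    have h1 : Nat.card (P ⧸ frattini P) ≤ Nat.card {C : ConjClasses P // ∀ g, ConjClasses.mk g = C → IsConj g⁻¹ g} := by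
      refine (Nat.card_le_card_of_injective (fun x => (⟨ConjClasses.mk x, fun g _ => by rw [iv]⟩ : {C : ConjClasses (P ⧸ frattini P) // ∀ g, ConjClasses.mk g = C → IsConj g⁻¹ g})) fun x y h => ?_).trans ?_
      · obtain ⟨c, hc⟩ := isConj_iff.1 (ConjClasses.mk_eq_mk_iff_isConj.1 (congrArg Subtype.val h))
        rw [← hc, cm c, mul_inv_cancel_right]
      rw [← CfsgH4.card_real_irr, ← CfsgH4.card_real_irr]
      exact Nat.card_le_card_of_injective (fun χ => ⟨⟨fun g => χ.1.1 g, CfsgH4.irr_inflate χ.1.2⟩, fun g => χ.2 _⟩)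
        fun χ ψ h => Subtype.ext (Subtype.ext (funext fun x => by
          obtain ⟨x, rfl⟩ := QuotientGroup.mk_surjective x
          exact congrFun (congrArg (fun t => t.1.1) h) x))
    have h2 : ∀ C : ConjClasses P, (∀ g, ConjClasses.mk g = C → IsConj g⁻¹ g) → ∃ y, ConjClasses.mk y = C ∧ (y = 1 ∨ orderOf y = 2) := fun C hC => by
      obtain ⟨y, rfl⟩ := ConjClasses.mk_surjective C
      obtain ⟨c, hc⟩ := isConj_iff.1 (hC y rfl).symm
      have := mem_centralizer_singleton_iff.1 (hirr y (mem_norm_zpowers (hc ▸ inv_mem (mem_zpowers y))))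
      rw [this, mul_inv_cancel_right] at hc
      exact ⟨y, rfl, (em _).imp_right fun h => orderOf_eq_prime (by rw [pow_two]; nth_rw 1 [hc]; exact inv_mul_cancel y) h⟩
    constructor
    · refine h1.trans ((Set.ncard_le_ncard (s := {C : ConjClasses P | ∀ g, ConjClasses.mk g = C → IsConj g⁻¹ g}) (t := insert (ConjClasses.mk 1) {c | ∃ y : P, ConjClasses.mk y = c ∧ orderOf y = 2}) fun C hC => ?_).trans (Set.ncard_insert_le _ _))
      obtain ⟨y, e, h⟩ := h2 C hC
      exact h.imp (fun k => by rw [← e, k]) fun k => ⟨y, e, k⟩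
    · refine h1.trans ((Set.ncard_le_ncard (s := {C : ConjClasses P | ∀ g, ConjClasses.mk g = C → IsConj g⁻¹ g}) (t := ConjClasses.mk '' (closure {y : P | orderOf y = 2} : Set P)) fun C hC => ?_).trans Set.ncard_image_le)
      obtain ⟨y, e, h⟩ := h2 C hC
      exact ⟨y, h.elim (fun k => k ▸ one_mem _) fun k => subset_closure k, e⟩

end Cfsg.Agent.S4029
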