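import Cfsg.Statements.S4032
import Mathlib
import Cfsg.Agent.L0.M2

set_option autoImplicit false
open Cfsg

namespace Cfsg.Agent.S4032

open Cfsg Subgroup CfsgH2 CfsgL0

/-- Let π be a set of primes and G a finite group in which N_G(⟨x⟩) = C_G(x) for every π-element x. If N is a normal subgroup of G whose order is divisible by no prime of π, then G/N has the same property: N_{G/N}(⟨y⟩) = C_{G/N}(y) for every π-element y of G/N. -/
theorem result {G : Type*} [Group G] [Finite G] (π : Set ℕ)
    (hirr : ∀ x : G, (∀ r : ℕ, r.Prime → r ∣ orderOf x → r ∈ π) →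
      Subgroup.normalizer ((Subgroup.zpowers x : Subgroup G) : Set G) ≤ Subgroup.centralizer {x})
    (N : Subgroup G) [N.Normal] (hN : ∀ r : ℕ, r.Prime → r ∣ Nat.card N → r ∉ π) :
    ∀ y : G ⧸ N, (∀ r : ℕ, r.Prime → r ∣ orderOf y → r ∈ π) →
      Subgroup.normalizer ((Subgroup.zpowers y : Subgroup (G ⧸ N)) : Set (G ⧸ N)) ≤ Subgroup.centralizer {y} := by
  intro y hy z hz
  obtain ⟨y, rfl⟩ := QuotientGroup.mk_surjective y
  obtain ⟨z, rfl⟩ := QuotientGroup.mk_surjective z
  obtain ⟨a, -, ha, hax⟩ := CfsgH1.exists_pi_lift (π := π) (QuotientGroup.mk' N) (x := y) hy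
  simp only [QuotientGroup.mk'_apply] at hax
  rw [← hax] at hz ⊢
  have hc : (orderOf a).Coprime (Nat.card N) := PiN.coprime ha hN
  obtain ⟨n, hn, hny⟩ := lift_norm_zpowers (y := z) hc (by
    have := conj_mem_of_norm hz (mem_zpowers _)
    rw [sup_comm, ← comap_map_mk, MonoidHom.map_zpowers]
    simpa using this)
  have := hirr a ha hny
  rw [mem_centralizer_singleton_iff] at this ⊢
  have h2 := congrArg (QuotientGroup.mk (s := N)) this
  simpa [(QuotientGroup.eq_one_iff n).2 hn] using h2

end Cfsg.Agent.S4032
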