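import Cfsg.Statements.S4034
import Mathlib
import Cfsg.Agent.L0.Kaz2
import Cfsg.Agent.H2.BG0

set_option autoImplicit false
open Cfsg

namespace Cfsg.Agent.S4034

open Cfsg Subgroup CfsgH2 CfsgL0

/-- Let G be a finite group and p a prime. Every conjugacy class of p-regular elements of G (elements of order prime to p) has p-power size if and only if G has an abelian p-complement, i.e. an abelian subgroup of order prime to p and p-power index. -/
theorem result {G : Type*} [Group G] [Finite G] {p : ℕ} (hp : p.Prime) :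
    (∀ x : G, (orderOf x).Coprime p → ∃ k : ℕ, (ConjClasses.mk x).carrier.ncard = p ^ k) ↔
    (∃ H : Subgroup G, IsMulCommutative H ∧ ¬ p ∣ Nat.card H ∧ ∃ k : ℕ, H.index = p ^ k) := by
  haveI := Fact.mk hp
  have e : ∀ x : G, (ConjClasses.mk x).carrier.ncard = cs[x] := fun x => by
    rw [← CfsgH3.card_isConj_eq_index]
    exact Nat.card_congr (Equiv.subtypeEquivRight fun y => by
      rw [ConjClasses.mem_carrier_iff_mk_eq, ConjClasses.mk_eq_mk_iff_isConj, isConj_comm])
  simp only [e]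
  refine ⟨fun h => ?_, fun ⟨H, h1, h2, k, h3⟩ x hx => ?_⟩
  · have hs : Group.IsSolvable G := sol_of_quot_solR (CfsgH1.isSolvable_of_isPGroup (p := p)
      (isPGroup_iff_piN.2 (by
        have := piN_relIndex_of_piRes_le (π := {p}) (D := (⊤ : Subgroup G)) (K := R[G]) (piRes_le_iff'.2 fun x _ hx => by
          obtain ⟨k, hk⟩ := h x ((piN_compl_singleton' hp).1 hx)
          exact mem_solR hp hk.dvd)
        rwa [relIndex_top_right] at this)))
    obtain ⟨H, hH⟩ := exists_hall {p}ᶜ (isSolvable_top_iff.2 hs)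
    refine ⟨H, ?_, (piN_compl_singleton hp).1 hH.pi, (piN_singleton hp (index_pos H).ne').1 (by
      simpa using hH.pi')⟩
    set f := QuotientGroup.mk' (pCore p G)
    have h0 : pCore p (G ⧸ pCore p G) = ⊥ := by
      simp only [pCore_eq]
      exact (congrArg (fun N : {N : Subgroup G // N.Normal} => haveI := N.2; piCore {p} (G ⧸ N.1) = ⊥)
        (Subtype.ext pCore_eq : (⟨pCore p G, inferInstance⟩ : {N : Subgroup G // N.Normal}) =
          ⟨piCore {p} G, inferInstance⟩)).ge piCore_quot_piCore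
    have h1 : ∀ x ∈ H, ∃ k, cs[f x] = p ^ k := fun x hx => by
      obtain ⟨k, hk⟩ := h x ((piN_compl_singleton' hp).1 (piN_orderOf hH.pi hx))
      obtain ⟨j, -, hj⟩ := (Nat.dvd_prime_pow hp).1 (hk ▸ cs_map_dvd (f := f) (QuotientGroup.mk'_surjective _) x)
      exact ⟨j, hj⟩
    rw [← comm_self_eq_bot_iff, eq_bot_iff, ← inf_eq_bot_of_piN (isPGroup_iff_piN.1 isPGroup_pCore) hH.pi]
    refine le_inf ?_ commutator_self_le
    rw [← QuotientGroup.ker_mk' (pCore p G), ← map_le_cent_map_iff_comm]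
    rintro _ ⟨x, hx, rfl⟩ _ ⟨y, hy, rfl⟩
    obtain ⟨k, hk⟩ := h1 x hx
    obtain ⟨l, hl⟩ := h1 y hy
    have h2 : f y ∈ O[{p}ᶜ, ⊤] := piCoreOf_le_of_norm le_top le_normalizer_of_normal
      (nil_mem_core (isNilpotent_of_comm (isMulComm_of_le_cent (ncl_comm hp hl h0)))
        (subset_normalClosure rfl) ((piN_orderOf hH.pi hy).of_dvd (orderOf_map_dvd f y)))
    exact mem_c1.1 (le_c1_of_coprime (by
      rw [hk]; exact ((coprime_iff_not_dvd hp).2 not_dvd_piCoreOf).pow_right _) h2)
  · have hH : Hall {p}ᶜ H ⊤ := ⟨le_top, (piN_compl_singleton hp).2 h2, by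
      rw [compl_compl, relIndex_top_right, h3]; exact (piN_singleton hp (pow_pos hp.pos k).ne').2 ⟨k, rfl⟩⟩
    obtain ⟨g, -, hg⟩ := hH.exists_conj_le (isSolvable_top_iff.2 (sol_of_ab_index hp h1 h3.dvd))
      (piN_card_zpowers ((piN_compl_singleton' hp).2 hx)) le_top
    obtain ⟨j, -, hj⟩ := (Nat.dvd_prime_pow hp).1 (h3 ▸ index_dvd_of_le (le_cent1_iff.2
      (le_cent_self h1 (hg (conj_mem_map_cj (mem_zpowers x))))))
    exact ⟨j, by rw [← hj, cs_conj]⟩

end Cfsg.Agent.S4034
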