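import Cfsg.Statements.S4036
import Mathlib
import Cfsg.Agent.L0.M4

set_option autoImplicit false
open Cfsg

namespace Cfsg.Agent.S4036

open Cfsg Subgroup CfsgH2 CfsgL0

/-- Let P be a finite abelian p-group and K a group of automorphisms of P (a subgroup of Aut P) whose order is divisible by p. If all non-identity elements of K have the same fixed-point subgroup on P, then K has no non-trivial normal subgroup of order prime to p. -/
theorem result {P : Type*} [CommGroup P] [Finite P] {p : ℕ}
    [Fact p.Prime] (hP : IsPGroup p P) (K : Subgroup (MulAut P)) (hK : p ∣ Nat.card K)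
    (hfix : ∀ x y : MulAut P, x ∈ K → y ∈ K → x ≠ 1 → y ≠ 1 → ∀ v : P, x v = v ↔ y v = v) :
    ∀ N : Subgroup ↥K, N.Normal → ¬ p ∣ Nat.card N → N = ⊥ := by
  rename_i hp
  intro N hN hd
  obtain ⟨H, _, _, i, j, hi, hj, hij, -⟩ := exists_hol P
  obtain ⟨X, hX, hc⟩ := exists_card_prime_le hp.out hK
  have pV : IsPGroup p ((⊤ : Subgroup P).map i) := (hP.to_subgroup _).map _
  have hV : IsMulCommutative ((⊤ : Subgroup P).map i) := inferInstance
  have hd' : ¬ p ∣ Nat.card ((N.map K.subtype).map j) := by
    rwa [card_map_of_injective hj, card_map_of_injective K.subtype_injective]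
  have hcop := coprime_of_not_dvd hd' pV
  have h1 := coprime_comm_inf_cent hV (hol_norm hij _) hcop
  have h2 : ⁅(⊤ : Subgroup P).map i, (N.map K.subtype).map j⁆ = ⊥ := by
    by_contra h0
    have hn : X.map j ≤ N[(N.map K.subtype).map j] :=
      (map_mono (hX.trans (le_norm_map_subtype N))).trans (le_normalizer_map j)
    have hle := comm_le_left (hol_norm hij (N.map K.subtype))
    obtain ⟨w, hw, w1⟩ := exists_ne_one (inf_cent_ne_bot' ((isPGroup_of_card' hc).map j) (pV.to_le hle)
      (le_norm_commutator (hol_norm hij _) hn) h0)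
    refine w1 (mem_bot.1 (h1 ▸ ⟨hw.1, ?_⟩))
    obtain ⟨v, -, rfl⟩ := hle hw.1
    obtain ⟨s, hs, s1⟩ := exists_ne_one (ne_bot_of_card_prime (by rw [hc]; exact hp.out) : X ≠ ⊥)
    have hsv : s v = v := by
      apply hi
      rw [← hij, hw.2 _ (mem_map_of_mem j hs)]; group
    rintro _ ⟨_, ⟨n, hn, rfl⟩, rfl⟩
    have : (n : MulAut P) v = v := by
      by_cases n1 : (n : MulAut P) = 1
      · rw [n1]; rfl
      · exact (hfix s n (hX hs) n.2 s1 n1 v).1 hsv
    have h3 := hij n v
    rw [this] at h3
    exact mul_inv_eq_iff_eq_mul.1 h3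
  rw [commutator_comm, comm_eq_bot_iff] at h2
  rw [eq_bot_iff]
  intro n hn
  have := (hol_cent hi hij).1 (h2 (mem_map_of_mem j (mem_map_of_mem K.subtype hn)))
  exact Subtype.ext (MulEquiv.ext fun x => this x (mem_top x))

end Cfsg.Agent.S4036
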