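import Cfsg.Statements.S4038
import Cfsg.Agent.H9.Gl2
import Cfsg.Agent.H1.System
import Cfsg.Agent.H1.MaxNil

set_option autoImplicit false
open Cfsg

namespace Cfsg.Agent.S4038

/-- Let A and G be finite groups of coprime orders with A acting on G by automorphisms. Suppose G has a proper A-invariant subgroup M, maximal among proper A-invariant subgroups, which is nilpotent and whose Sylow 2-subgroups have nilpotency class at most 2. Then G is solvable. -/
theorem result {G A : Type*} [Group G] [Finite G]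
    [Group A] [Finite A] (φ : A →* MulAut G) (hcop : (Nat.card A).Coprime (Nat.card G))
    (M : Subgroup G) (hMtop : M ≠ ⊤) (hMinv : ∀ a : A, ∀ m : G, m ∈ M → φ a m ∈ M)
    (hMmax : ∀ H : Subgroup G, M ≤ H → H ≠ ⊤ → (∀ a : A, ∀ h : G, h ∈ H → φ a h ∈ H) → H = M)
    (hnil : Group.IsNilpotent M) (h2 : ∀ S : Sylow 2 ↥M, Group.nilpotencyClass ↥(S : Subgroup ↥M) ≤ 2) :
    Group.IsSolvable G := by
  open Subgroup CfsgH2 in
  open CfsgH1 hiding card_inf_mul_relIndex card_lt_of_lt card_lt_of_ne_top card_map_mul_card_inf_ker card_mul_relIndex card_subgroupOf card_sup_dvd card_sup_mul_card_inf coprime_le_sup_cent exists_card_prime_le isNilpotent_map isNilpotent_of_le isPGroup_pCore isSolvable_map isSolvable_of_le le_pCore le_pPrimeCore relIndex_map_dvd in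
  open scoped CfsgH1 in
  open scoped commutatorElement in
  · obtain ⟨X, _, _, i, j, hi, hj, hc, hn, h0, h1⟩ := exists_ambient φ
    have nA : ∀ H : Subgroup G, (∀ a : A, ∀ h : G, h ∈ H → φ a h ∈ H) → map j ⊤ ≤ N[map i H] := by
      rintro H hH _ ⟨a, -, rfl⟩
      refine mem_norm_of_conj ?_
      rintro _ ⟨g, hg, rfl⟩
      exact ⟨_, hH a g hg, (hc a g).symm⟩
    have e : (map i M ⊔ map j ⊤) ⊓ map i ⊤ = map i M := by
      rw [sup_inf_of_norm (.inr (nA M hMinv)) (map_mono le_top), inf_comm, h0, sup_bot_eq]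
    have hKL : ¬ map i ⊤ ≤ map i M ⊔ map j ⊤ := fun h => hMtop (by
      rw [inf_eq_right.2 h] at e
      exact (map_injective hi e).symm)
    have cK : o[map i ⊤] = Nat.card G := by rw [card_map_of_injective hi, card_top]
    have cA : o[map j ⊤] = Nat.card A := by rw [card_map_of_injective hj, card_top]
    have hx : (map i ⊤).index = Nat.card A := by
      rw [← relIndex_top_right, ← h1, relIndex_sup_left, ← cA, ← inf_relIndex_right, h0, relIndex_bot_left]
    have := sol_mn _ X (map i ⊤) (map i M ⊔ map j ⊤) rfl hn ⟨fun h => hKL (h ▸ le_top), fun Y hY => ?_⟩ hKL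
      (e.symm ▸ CfsgH2.isNilpotent_map _ hnil) ?_ (by rw [cK, hx]; exact hcop.symm)
    · exact isSolvable_of_mulEquiv ((equivMapOfInjective ⊤ i hi).symm.trans topEquiv)
    · have hA : map j ⊤ ≤ Y := le_sup_right.trans hY.le
      have e2 : Y = map i (comap i Y) ⊔ map j ⊤ := by
        rw [map_comap_eq, MonoidHom.range_eq_map i, ← sup_inf_of_norm' (.inr (le_top.trans (top_le_norm_iff.2 hn))) hA,
          h1, top_inf_eq]
      by_contra hY2
      have := hMmax (comap i Y) (map_le_iff_le_comap.1 (le_sup_left.trans hY.le))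
        (fun e => hY2 (by rw [e2, e, h1])) fun a h hh => by
          rw [mem_comap, ← hc]
          exact mul_mem (mul_mem (hA ⟨a, trivial, rfl⟩) hh) (inv_mem (hA ⟨a, trivial, rfl⟩))
      rw [this] at e2
      exact hY.ne e2.symm
    · rw [e, inj_piCoreOf hi, ← comm_eq_bot_iff, ← map_commutator, ← map_commutator]
      obtain ⟨S, hS⟩ := (nil_syl_core (p := 2) hnil).exists_sub
      haveI := nil_of_pg (S.isPGroup')
      have h3 := lowerCentralSeries_eq_bot_of_nilpotencyClass_le (h2 S)
      have h4 : ⁅⁅(S : Subgroup M), (S : Subgroup M)⁆, (S : Subgroup M)⁆ = ⊥ := h3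
      have h5 := congrArg (map M.subtype) h4
      rw [map_commutator, map_commutator, hS, Subgroup.map_bot] at h5
      rw [h5, Subgroup.map_bot]

end Cfsg.Agent.S4038
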