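import Cfsg.Statements.S4043
import Mathlib
import Cfsg.Agent.L0.M3

set_option autoImplicit false
open Cfsg

namespace Cfsg.Agent.S4043

open Cfsg Subgroup CfsgH2 CfsgL0

/-- Let G be a finite group that is the semidirect product of a normal p-subgroup N by a subgroup A, and also of N by a subgroup A₁, where p is a prime and A and A₁ both have normal p-complements. If C_N(A) = C_N(A₁) = 1, then A₁ is conjugate to A by an element of N. -/
theorem result {G : Type*} [Group G] [Finite G] {p : ℕ}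
    [Fact p.Prime] (N : Subgroup G) [N.Normal] (hN : IsPGroup p N) (A A₁ : Subgroup G)
    (hA : A.IsComplement' N) (hA₁ : A₁.IsComplement' N)
    (hAp : Cfsg.HasNormalPComplement p A) (hA₁p : Cfsg.HasNormalPComplement p A₁)
    (hC : ∀ n : G, n ∈ N → (∀ a : G, a ∈ A → a * n * a⁻¹ = n) → n = 1)
    (hC₁ : ∀ n : G, n ∈ N → (∀ a : G, a ∈ A₁ → a * n * a⁻¹ = n) → n = 1) :
    ∃ n : G, n ∈ N ∧ A₁ = A.map (MulAut.conj n).toMonoidHom := by
  rename_i hp _
  rw [npc_iff] at hAp hA₁p
  have nN : ∀ X : Subgroup G, X ≤ N[N] := fun X => le_top.trans (top_le_norm_iff.2 inferInstance)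
  have e : ∀ B : Subgroup G, B.IsComplement' N → (piRes {p} B).map (QuotientGroup.mk' N) = piRes {p} ⊤ := fun B hB => by
    rw [map_piRes, ← map_mk_top N, (map_mk_eq_map_mk N).2 (show B ⊔ N = ⊤ ⊔ N by rw [hB.sup_eq_top, top_sup_eq])]
  have c1 := (coprime_of_pgroup hN (NPC.iff_piRes.1 hAp)).symm
  have c2 := (coprime_of_pgroup hN (NPC.iff_piRes.1 hA₁p)).symm
  have hs := isSolvable_of_pgroup hN
  obtain ⟨k, hk, hle⟩ := exists_conj_le_compl (nN _) c1 c2 (Or.inr hs)
    (by rw [sup_comm, ← map_mk_le_map_mk, e A hA, e A₁ hA₁])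
  obtain ⟨l, -, hle'⟩ := exists_conj_le_compl (nN _) c2 c1 (Or.inr hs)
    (by rw [sup_comm, ← map_mk_le_map_mk, e A hA, e A₁ hA₁])
  have h1 : (piRes {p} A₁).map (cj k) = piRes {p} A :=
    eq_of_le_of_card_le hle (by rw [card_map_cj, ← card_map_cj l]; exact card_le_of_le hle')
  have h2 : N ⊓ C[piRes {p} A] = ⊥ := by
    by_contra h0
    obtain ⟨P, hP⟩ := exists_syl p A
    obtain ⟨w, hw, w1⟩ := exists_ne_one (inf_cent_ne_bot' hP.pg hN.to_inf_left
      (le_norm_inf (nN _) (le_norm_cent (hP.le.trans le_norm_piRes))) h0)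
    refine w1 (hC w hw.1.1 fun a ha => ?_)
    have : w ∈ C[A] := by rw [← hP.piRes_sup, cent_sup]; exact ⟨hw.1.2, hw.2⟩
    rw [this a ha]; group
  have h3 : N[piRes {p} A] ≤ A := by
    have := sup_inf_of_norm (H := A) (K := N) (L := N[piRes {p} A]) (Or.inl (nN _)) le_norm_piRes
    rw [hA.sup_eq_top, top_inf_eq] at this
    rw [this]
    refine sup_le le_rfl (le_trans ?_ (h2.le.trans bot_le))
    exact le_inf inf_le_left (le_cent_of_inf_eq_bot inf_le_right (le_norm_inf (nN _) (le_norm_of_le le_normalizer))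
      (inf_eq_bot_of_coprime' (c1.symm.coprime_dvd_left (card_dvd_of_le inf_le_left))))
  have h4 : A₁.map (cj k) = A := by
    refine eq_of_le_of_card_le (le_trans ?_ h3) ?_
    · rw [← h1, normalizer_map_cj]; exact map_mono le_norm_piRes
    · rw [card_map_cj, ← hA.index_eq_card, ← hA₁.index_eq_card]
  exact ⟨k⁻¹, inv_mem hk, by rw [← h4]; exact (map_cj_inv_cj _ _).symm⟩

end Cfsg.Agent.S4043
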