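import Cfsg.Statements.S4049
import Mathlib
import Cfsg.Agent.L0.M2

set_option autoImplicit false
open Cfsg

namespace Cfsg.Agent.S4049

open Cfsg Subgroup CfsgH2 CfsgL0

/-- Let G be a finite group such that N_G(H)/C_G(H) has odd order for every nontrivial subgroup H of odd order. Then the Sylow 2-subgroups of G are normal. -/
theorem result {G : Type*} [Group G] [Finite G]
    (hhom : ∀ H : Subgroup G, H ≠ ⊥ → ¬ 2 ∣ Nat.card ↥H →
        ¬ 2 ∣ (Subgroup.centralizer (H : Set G)).relIndex (Subgroup.normalizer (H : Set G))) (P : Sylow 2 G) :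
    (P : Subgroup G).Normal := by
  refine two_closed_of_no_real (fun x y ho hx => ?_) (syl_top P)
  by_contra h1
  have h2 := hhom (zpowers x) (by simpa using h1) (by
    rw [Nat.card_zpowers]; exact fun h => (Nat.not_even_iff_odd.2 ho) (even_iff_two_dvd.2 h))
  rw [cent_zpowers] at h2
  have := CfsgH1.sq_eq_one_of_real hx
    (mem_norm_zpowers (g := y) (by rw [hx]; exact inv_mem (mem_zpowers x))) h2
  exact h1 (eq_one_of_odd_of_mul_self ho (by rwa [pow_two] at this))

end Cfsg.Agent.S4049
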