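import Cfsg.Statements.S4050
import Mathlib
import Cfsg.Agent.L0.M5

set_option autoImplicit false
open Cfsg

namespace Cfsg.Agent.S4050

open Cfsg Subgroup CfsgH2 CfsgL0

/-- Let π be a set of primes and G a finite group. The π-elements of G (elements whose order is divisible only by primes of π) form a subgroup if and only if G is π-separable (it has a chain of normal subgroups from 1 to G with each successive index divisible only by primes in π or only by primes outside π) and N_G(H)/C_G(H) is a π'-group for every nontrivial π'-subgroup H of G. -/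
theorem result {G : Type*} [Group G] [Finite G] (π : Set ℕ)
    (hπ : ∀ p ∈ π, p.Prime) :
    (∃ K : Subgroup G, ∀ x : G, x ∈ K ↔ ∀ p : ℕ, p.Prime → p ∣ orderOf x → p ∈ π) ↔
    ((∃ (n : ℕ) (H : Fin (n + 1) → Subgroup G), H 0 = ⊥ ∧ H (Fin.last n) = ⊤ ∧ Monotone H ∧ (∀ i, (H i).Normal) ∧
      ∀ i : Fin n, (∀ q : ℕ, q.Prime → q ∣ (H i.castSucc).relIndex (H i.succ) → q ∈ π) ∨
        (∀ q : ℕ, q.Prime → q ∣ (H i.castSucc).relIndex (H i.succ) → q ∉ π)) ∧
     (∀ H : Subgroup G, H ≠ ⊥ → (∀ p : ℕ, p.Prime → p ∣ Nat.card ↥H → p ∉ π) →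
        ∀ p : ℕ, p.Prime → p ∣ (Subgroup.centralizer (H : Set G)).relIndex (Subgroup.normalizer (H : Set G)) → p ∉ π)) := by
  refine pclosed_iff_hall.trans ⟨fun h => ⟨⟨2, ![⊥, O[π, ⊤], ⊤], rfl, rfl, ?_, fun i => ?_, fun i => ?_⟩, fun H _ hH => ?_⟩, ?_⟩
  · exact Fin.monotone_iff_le_succ.2 fun i => by fin_cases i <;> simp
  · fin_cases i <;> simp <;> infer_instance
  · fin_cases i
    · left; simpa [PiN] using h.pi
    · right; simpa [PiN] using h.pi'
  · have h1 : N[H] ⊓ O[π, ⊤] ≤ C[H] := le_cent_of_inf_eq_bot inf_le_left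
      (le_norm_inf (le_norm_of_le le_normalizer) (le_top.trans le_norm_piCoreOf))
      (inf_eq_bot_of_piN (piN_of_le h.pi inf_le_right) hH)
    have h2 := (h.inf_norm (le_top (a := N[H])) (Or.inr (le_top.trans le_norm_piCoreOf))).pi'
    exact h2.of_dvd (relIndex_dvd_of_le_left _ (by rwa [inf_comm]))
  · rintro ⟨⟨n, H, h0, h1, h2, h3, h4⟩, hhom⟩
    rw [← h1]
    refine Fin.induction (motive := fun i => Hall π O[π, H i] (H i)) ?_ (fun i ih => ?_) _
    · rw [h0, piCoreOf_eq_self piN_bot]; exact Hall.self piN_bot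
    · exact pclosed_step (hom_elem hhom) (h2 i.castSucc_le_succ) (le_top.trans (top_le_norm_iff.2 (h3 _))) ih (h4 i)

end Cfsg.Agent.S4050
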