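import Cfsg.Statements.S4056
import Mathlib
import Cfsg.Agent.L0.M3

set_option autoImplicit false
open Cfsg

namespace Cfsg.Agent.S4056

open Cfsg Subgroup CfsgH2 CfsgL0
open scoped commutatorElement

/-- In a finite 2-group of nilpotency class at most 2 and exponent dividing 4, the Frattini subgroup lies in the centre and is elementary abelian. -/
theorem result {P : Type*} [Group P] [Finite P] (hP : IsPGroup 2 P)
    (hcl : Group.nilpotencyClass P ≤ 2) (hexp : Monoid.exponent P ∣ 4) :
    frattini P ≤ Subgroup.center P ∧ Cfsg.IsElementaryAbelian 2 (frattini P) := by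
  haveI := hP.isNilpotent
  have h1 : ⁅(⊤ : Subgroup P), (⊤ : Subgroup P)⁆ ≤ C[(⊤ : Subgroup P)] :=
    comm_eq_bot_iff.1 (Subgroup.lowerCentralSeries_eq_bot_iff_nilpotencyClass_le.2 hcl)
  rw [cent_top] at h1
  have h4 : ∀ x : P, x ^ 4 = 1 := Monoid.exponent_dvd_iff_forall_pow_eq_one.1 hexp
  have hz : ∀ x y z : P, Commute ⁅x, y⁆ z := fun x y z =>
    (mem_center_iff.1 (h1 (commutator_mem_commutator (mem_top x) (mem_top y))) z).symm
  have h2 : ∀ x y : P, ⁅x, y⁆ ^ 2 = 1 := fun x y => by
    have := mul_pow_class2 (mul_eq_mul_comm y⁻¹ x⁻¹) (hz _ _ _) (hz _ _ _) 4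
    rw [h4, h4, h4, inv_inv, inv_inv, show Nat.choose 4 2 = 4 + 2 from rfl, pow_add, h4] at this
    simpa using this.symm
  have h3 : frattini P ≤ omegaOne 2 (center P) := by
    rw [← CfsgH1.frattiniOf_top]
    refine phi_le_of (p := 2) (commutator_le.2 fun x hx y hy =>
      mem_omegaOne (h1 (commutator_mem_commutator hx hy)) (h2 x y)) fun x _ => mem_omegaOne ?_ (by rw [← pow_mul, h4])
    refine mem_center_iff.2 fun y => (commutatorElement_eq_one_iff_mul_comm.1 ?_).symm
    rw [commutator_pow_left (hz _ _ _), h2]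
  exact ⟨h3.trans omegaOne_le, elem_of_le (elem_omegaOne inferInstance) h3⟩

end Cfsg.Agent.S4056
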