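import Cfsg.Statements.S4058
import Mathlib
import Cfsg.Agent.H4.Lin
import Cfsg.Agent.S0159
import Cfsg.Agent.L0.Gens
import Cfsg.Agent.H2.BG0

set_option autoImplicit false
open Cfsg

namespace Cfsg.Agent.S4058

open Cfsg Subgroup CfsgH2 CfsgH4 CfsgH3 MulAction

theorem dvd_sum_orb {D X : Type*} [Group D] [MulAction D X] [Fintype X] (F : X → ℤ) (m : ℤ)
    (h1 : ∀ (d : D) x, F (d • x) = F x) (h2 : ∀ x, m ∣ (stabilizer D x).index * F x) : m ∣ ∑ x, F x := by
  classical
  rw [← Finset.sum_fiberwise_of_maps_to (s := Finset.univ) (t := Finset.univ.image (Quotient.mk (orbitRel D X)))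
    (g := Quotient.mk (orbitRel D X)) fun x hx => Finset.mem_image_of_mem _ hx]
  refine Finset.dvd_sum fun c hc => ?_
  obtain ⟨x, -, rfl⟩ := Finset.mem_image.1 hc
  rw [Finset.sum_congr rfl (g := fun _ => F x) fun y hy => by
    obtain ⟨d, rfl⟩ := Quotient.exact (Finset.mem_filter.1 hy).2
    exact h1 d x, Finset.sum_const, nsmul_eq_mul]
  refine (h2 x).trans (Dvd.intro_left 1 ?_)
  rw [one_mul, index_stabilizer, ← Set.ncard_coe_finset]
  congr 2
  symm
  congr 1
  ext y
  simp only [Finset.coe_filter, Finset.mem_univ, true_and, Set.mem_setOf_eq, Quotient.eq]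
  rfl

@[reducible] noncomputable def act (G : Type*) [Group G] [Finite G] (N : Subgroup G) :
    MulAction (trivSub N) (IrrCharacter G) where
  smul l χ := irrLin χ l.1
  one_smul χ := irrLin_one χ
  mul_smul l m χ := by
    change irrLin χ (l.1 * m.1) = irrLin (irrLin χ m.1) l.1
    rw [irrLin_irrLin, mul_comm l.1]

/-- Let G be a finite 2-group with #(G/Φ(G)) ≥ 2^(2k+1). Then the number of elements x of G with x² = 1 is divisible by 2^(k+1). -/
theorem result {G : Type*} [Group G] [Finite G] (hG : IsPGroup 2 G) (k : ℕ)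
    (hgen : 2 ^ (2 * k + 1) ≤ Nat.card (G ⧸ frattini G)) :
    2 ^ (k + 1) ∣ Nat.card {x : G // x ^ 2 = 1} := by
  classical
  haveI := Fintype.ofFinite G
  haveI := Fintype.ofFinite (IrrCharacter G)
  set N := frattini G
  have hE := CfsgL0.elem_quot_frattini hG
  have h1 : ∀ a b : G, a * b * a⁻¹ * b⁻¹ ∈ N := fun a b => (QuotientGroup.eq_one_iff _).1 (by
    have := comm_of_isMulComm hE.1 (mem_top (a : G ⧸ N)) (mem_top (b : G ⧸ N))
    simp [this])
  have h2 : ∀ a : G, a * a ∈ N := fun a => (QuotientGroup.eq_one_iff _).1 (by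
    simpa [sq] using hE.2 (a : G ⧸ N) trivial)
  have hc := card_trivSub N h1
  haveI : Finite (trivSub N) := Nat.finite_of_card_ne_zero (hc ▸ (index_pos N).ne')
  haveI := Fintype.ofFinite (trivSub N)
  letI := act G N
  choose a b _ _ hab _ using fun χ : IrrCharacter G => χ.2.exists_fs
  have h3 := S0159.result (G := G)
  rw [finsum_eq_sum_of_fintype] at h3
  have hF : ∀ χ : IrrCharacter G, ((((a χ : ℤ) - b χ) * charDegree χ.1 : ℤ) : ℂ) =
      ((Nat.card G : ℂ)⁻¹ * ∑ s : G, χ.1 (s * s)) * χ.1 1 := fun χ => by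
    rw [hab, ← coe_charDegree χ.2.isCharacter]; push_cast; rfl
  have h4 : ((2 ^ (k + 1) : ℕ) : ℤ) ∣ ∑ χ : IrrCharacter G, ((a χ : ℤ) - b χ) * charDegree χ.1 := by
    refine dvd_sum_orb (D := trivSub N) _ _ (fun l χ => Int.cast_injective (α := ℂ) ?_) fun χ => ?_
    · rw [hF, hF]
      congr 2
      · exact Finset.sum_congr rfl fun s _ => irrLin_restrict χ l ⟨_, h2 s⟩
      · exact irrLin_restrict χ l 1
    obtain ⟨n, hn⟩ := hG.exists_card_eq
    obtain ⟨d, -, hd⟩ := (Nat.dvd_prime_pow Nat.prime_two).1 (hn ▸ N.index_dvd_card)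
    obtain ⟨e, -, he⟩ := (Nat.dvd_prime_pow Nat.prime_two).1 (hn ▸ charDegree_dvd χ.2)
    have h5 := (stabilizer (trivSub N) χ).card_mul_index
    rw [hc, hd] at h5
    obtain ⟨s, -, hs⟩ := (Nat.dvd_prime_pow Nat.prime_two).1 (Dvd.intro _ h5)
    obtain ⟨t, -, ht⟩ := (Nat.dvd_prime_pow Nat.prime_two).1 (Dvd.intro_left _ h5)
    rw [hs, ht, ← pow_add, Nat.pow_right_inj (by norm_num)] at h5
    have h6 : 2 * k + 1 ≤ d := (Nat.pow_le_pow_iff_right (by norm_num)).1 (hgen.trans_eq hd)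
    have h7 : s ≤ e * 2 := by
      have e1 := sum_classInner_lin h1 χ.1 χ.1
      rw [Finset.sum_congr rfl (g := fun l => if l ∈ stabilizer (trivSub N) χ then 1 else 0) fun l _ => by
        rw [show classInner (χ.1 * fun g => (l.1 g : ℂ)) χ.1 = _ from (irrLin χ l.1).2.classInner_eq_ite χ.2]
        exact if_congr Subtype.ext_iff.symm rfl rfl, Finset.sum_boole, classInner_self, ← Fintype.card_subtype,
        ← Nat.card_eq_fintype_card, show Nat.card {x // x ∈ stabilizer (trivSub N) χ} = _ from hs] at e1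
      have e2 : ((2 ^ s : ℕ) : ℝ) = _ := Complex.ofReal_injective (by rw [← e1]; rfl)
      have e3 : ∑ g : N, ‖χ.1 g‖ ^ 2 ≤ ∑ g : N, ((2 ^ e : ℕ) : ℝ) ^ 2 := Finset.sum_le_sum fun g _ => by
        have := χ.2.isCharacter.norm_le g
        rw [← coe_charDegree χ.2.isCharacter, he, Complex.norm_natCast] at this
        gcongr
      rw [Finset.sum_const, Finset.card_univ, ← Nat.card_eq_fintype_card, nsmul_eq_mul,
        ← inv_mul_le_iff₀ (Nat.cast_pos.2 (card_pos' N)), ← e2, ← Nat.cast_pow, Nat.cast_le, ← pow_mul] at e3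
      exact (Nat.pow_le_pow_iff_right (by norm_num)).1 e3
    rw [ht, he, mul_left_comm, ← Nat.cast_mul, ← pow_add]
    exact (Int.natCast_dvd_natCast.2 (pow_dvd_pow 2 (by omega))).mul_left _
  simp only [← hF] at h3
  rw [← Int.cast_sum, ← Int.cast_natCast, Int.cast_inj] at h3
  simp only [sq]
  exact Int.natCast_dvd_natCast.1 (h3 ▸ h4)

end Cfsg.Agent.S4058
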