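import Mathlib
import Cfsg.Statements.S4064
import Cfsg.Agent.H8.Za18
import Cfsg.Agent.H8.PslC

set_option autoImplicit false
open Cfsg

namespace Cfsg.Agent.S4064


open CfsgH8 CfsgH8.Za CfsgH2 CfsgH1 CfsgH3 CfsgRO Subgroup

/-- Let G be a finite group in which the centralizer of every element meets each of its conjugates by elements outside its normalizer trivially. Then G is nilpotent; or G is a Frobenius group with a complement that is cyclic or isomorphic to the direct product of a cyclic group of odd order and the quaternion group of order 8; or G is isomorphic to PSL₂(2ⁿ) for some n ≥ 2. -/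
theorem result {G : Type*} [Group G] [Finite G] (hTI : ∀ x : G, Cfsg.IsTISubset (Subgroup.centralizer ({x} : Set G) : Set G)) :
    Group.IsNilpotent G ∨
    (∃ H : Subgroup G, Cfsg.IsFrobeniusComplement H ∧
      (IsCyclic H ∨ ∃ m : ℕ, Odd m ∧ Nonempty (H ≃* Multiplicative (ZMod m) × QuaternionGroup 2))) ∨
    (∃ n : ℕ, 2 ≤ n ∧ Nonempty (G ≃* Matrix.ProjectiveSpecialLinearGroup (Fin 2) (GaloisField 2 n))) := by
  have h : CT G := fun x y g y1 hy hg => by_contra fun e => y1 (hTI x g e y hy hg)
  refine h.cases.imp id (Or.imp (fun ⟨K, H, f⟩ => ⟨H, f.isFrobeniusComplement, h.comp f⟩) ?_)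
  rintro ⟨F, _, _, ⟨n, h1, h2⟩, ⟨e⟩⟩
  haveI := Fintype.ofFinite (GaloisField 2 n)
  obtain ⟨e'⟩ := psl_congr (ι := Fin 2) (F := F) (F' := GaloisField 2 n) (by
    rw [h2, ← Nat.card_eq_fintype_card, GaloisField.card 2 n (by omega)])
  exact ⟨n, h1, ⟨e.trans e'⟩⟩

end Cfsg.Agent.S4064
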