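import Mathlib
import Cfsg.Statements.S4065
import Cfsg.Agent.H8.Za18

set_option autoImplicit false
open Cfsg

namespace Cfsg.Agent.S4065


open CfsgH8 CfsgH8.Za CfsgH2 CfsgH1 CfsgH3 CfsgRO Subgroup

/-- Let F be a finite field with 2ⁿ elements, n ≥ 2. In PSL₂(F) the centralizer of every element meets each of its conjugates by elements outside its normalizer trivially. -/
theorem result (n : ℕ) (hn : 2 ≤ n)
    (x : Matrix.ProjectiveSpecialLinearGroup (Fin 2) (GaloisField 2 n)) :
    Cfsg.IsTISubset (Subgroup.centralizer ({x} : Set (Matrix.ProjectiveSpecialLinearGroup (Fin 2) (GaloisField 2 n))) :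
      Set (Matrix.ProjectiveSpecialLinearGroup (Fin 2) (GaloisField 2 n))) := by
  intro g hg y hy h
  haveI := Fintype.ofFinite (GaloisField 2 n)
  have he : Even (Fintype.card (GaloisField 2 n)) := by
    rw [← Nat.card_eq_fintype_card, GaloisField.card 2 n (by omega)]
    exact Nat.even_pow.2 ⟨even_two, by omega⟩
  have eq : ∀ {a b : Matrix.ProjectiveSpecialLinearGroup (Fin 2) (GaloisField 2 n)}, a ≠ 1 → b ≠ 1 →
      a ∈ C1[b] → C1[a] = C1[b] := fun a1 b1 hab => le_antisymm
    (fun _ hv => mc1.2 (psl_comm he (MulEquiv.refl _) a1 hv (mc1.2 (mc1.1 hab).symm)))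
    (fun _ hv => mc1.2 (psl_comm he (MulEquiv.refl _) b1 hv hab))
  by_contra y1
  have x1 : x ≠ 1 := by
    rintro rfl
    exact hg (mem_norm_of_map_le fun v _ => mc1.2 (by simp))
  refine hg (mem_norm_of_map_le ?_)
  rw [← eq y1 x1 hy, ← centralizer_conj, eq (conj_ne_one y1) x1 h, eq y1 x1 hy]

end Cfsg.Agent.S4065
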