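import Cfsg.Statements.S4066
import Mathlib
import Cfsg.Agent.L0.M3

set_option autoImplicit false
open Cfsg

namespace Cfsg.Agent.S4066

open Cfsg Subgroup CfsgH2 CfsgL0

/-- Let G be a finite group in which the centralizer of every element meets each of its conjugates by elements outside its normalizer trivially. Then any two distinct Sylow p-subgroups of G, for any prime p, intersect trivially. -/
theorem result {G : Type*} [Group G] [Finite G] (hTI : ∀ x : G, Cfsg.IsTISubset (Subgroup.centralizer ({x} : Set G) : Set G))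
    {p : ℕ} [Fact p.Prime] (P Q : Sylow p G) (hPQ : P ≠ Q) : (P : Subgroup G) ⊓ (Q : Subgroup G) = ⊥ := by
  by_contra h0
  obtain ⟨x, hx, x1⟩ := exists_ne_one h0
  obtain ⟨z, hz, z1⟩ := exists_ne_one (center_ne_bot P.isPGroup' fun e => x1 (mem_bot.1 (e.le hx.1)))
  have hP : (P : Subgroup G) ≤ C1[z] := le_cent1_iff.2 hz.2
  have hQ : (Q : Subgroup G) ≤ C1[z] := by
    obtain ⟨g, -, hg⟩ := (syl_top P).conj (syl_top Q)
    have : g⁻¹ ∈ N[C1[z]] := by
      by_contra h
      refine x1 (hTI z _ h x (hP hx.1) (hP ?_))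
      rw [inv_inv, ← mem_map_cj, hg]; exact hx.2
    rw [← hg]; exact map_cj_le_of_norm hP (inv_mem_iff.1 this)
  refine hPQ (Sylow.ext (eq_of_le_of_card_le (fun y hy => ?_) ((syl_top Q).card_eq_card (syl_top P)).le))
  have hzy : z ∈ C1[y] := mem_centralizer_singleton_iff.2 (hz.2 y hy).symm
  have hn : (Q : Subgroup G) ≤ N[C1[y]] := fun g hg => by
    by_contra h
    refine z1 (hTI y g h z hzy ?_)
    rw [mem_centralizer_singleton_iff.1 (hQ hg)]; simpa using hzy
  refine (syl_top Q).le_of_norm isPGroup_piCoreOf le_top (le_norm_piCoreOf' (hn.trans norm_le_norm_center))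
    (nil_mem_core (isNilpotent_of_comm (isMulComm_cent_inf _)) ⟨self_mem_cent1 y, le_cent1_iff.1 le_rfl⟩
      (piN_orderOf (isPGroup_iff_piN.1 P.isPGroup') hy))

end Cfsg.Agent.S4066
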