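import Mathlib
import Cfsg.Statements.S4067
import Cfsg.Agent.H3.Burnside
import Cfsg.Agent.S0154

set_option autoImplicit false
open Cfsg

namespace Cfsg.Agent.S4067

open CfsgH3

theorem wcount {X A : Type*} [Fintype X] [Group A] [MulAction A X] (w : X → ℕ) (M : ℕ)
    (h : ∀ x, M ≤ w x * Nat.card (MulAction.orbit A x)) :
    M * Nat.card (MulAction.orbitRel.Quotient A X) ≤ ∑ x, w x := by
  classical
  haveI := Fintype.ofFinite (MulAction.orbitRel.Quotient A X)
  rw [← Finset.sum_fiberwise (Finset.univ) (fun x : X => (Quotient.mk'' x : MulAction.orbitRel.Quotient A X)) w,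
    Nat.card_eq_fintype_card, mul_comm, ← Finset.card_univ, ← smul_eq_mul]
  refine Finset.card_nsmul_le_sum _ _ _ fun q _ => ?_
  induction q using Quotient.inductionOn' with
  | h a =>
  set S := Finset.univ.filter (fun x : X => (Quotient.mk'' x : MulAction.orbitRel.Quotient A X) = Quotient.mk'' a) with hS
  have hmem : ∀ x, x ∈ S ↔ x ∈ MulAction.orbit A a := fun x => by
    simp only [hS, Finset.mem_filter, Finset.mem_univ, true_and, Quotient.eq'']
    exact MulAction.orbitRel_apply
  have hc : ∀ x ∈ S, Nat.card (MulAction.orbit A x) = S.card := fun x hx => by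
    rw [MulAction.orbit_eq_iff.2 ((hmem x).1 hx), ← Fintype.card_coe, ← Nat.card_eq_fintype_card]
    exact Nat.card_congr (Equiv.subtypeEquivRight fun y => (hmem y).symm)
  have hpos : 0 < S.card := Finset.card_pos.2 ⟨a, (hmem a).2 (MulAction.mem_orbit_self a)⟩
  refine Nat.le_of_mul_le_mul_left ?_ hpos
  rw [Finset.mul_sum, ← smul_eq_mul]
  exact Finset.card_nsmul_le_sum _ _ _ fun x hx => by rw [mul_comm, ← hc x hx]; exact h x

theorem ex_aut {G : Type*} [Group G] [Finite G] (C : Subgroup G) [C.Normal] {p : ℕ} (hp : p.Prime)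
    (hC : C.index = p) (y c : G) (hy : y ∉ C) (hc : c ∈ C) (hcc : ∀ m ∈ C, c * m = m * c)
    (hpw : (y * c) ^ p = y ^ p) :
    ∃ α : MulAut G, α y = y * c ∧ ∀ m ∈ C, α m = m := by
  haveI := Fact.mk hp
  have hq : Nat.card (G ⧸ C) = p := hC
  have hy1 : (y : G ⧸ C) ≠ 1 := fun h => hy ((QuotientGroup.eq_one_iff _).1 h)
  have hoy : orderOf (y : G ⧸ C) = p := by
    have := orderOf_dvd_natCard (y : G ⧸ C)
    rw [hq] at this
    exact ((Nat.dvd_prime hp).1 this).resolve_left (by simpa using hy1)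
  have hex : ∀ g : G, ∃ i : ℤ, y ^ (-i) * g ∈ C := fun g => by
    have := mem_zpowers_of_prime_card hq hy1 (g' := (g : G ⧸ C))
    obtain ⟨i, hi⟩ := this
    refine ⟨i, ?_⟩
    rw [← QuotientGroup.eq_one_iff]
    simp only [QuotientGroup.mk_mul, QuotientGroup.mk_zpow]
    rw [← hi]; simp
  set y' := y * c with hy'
  have key : ∀ (g : G) (i j : ℤ), y ^ (-i) * g ∈ C → y ^ (-j) * g ∈ C →
      y' ^ i * y ^ (-i) = y' ^ j * y ^ (-j) := fun g i j hi hj => by
    have h1 : y ^ (j - i) ∈ C := by
      have := C.mul_mem hi (C.inv_mem hj)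
      convert this using 1
      group
    rw [← QuotientGroup.eq_one_iff, QuotientGroup.mk_zpow, ← orderOf_dvd_iff_zpow_eq_one, hoy] at h1
    obtain ⟨k, hk⟩ := h1
    have : j = i + p * k := by omega
    rw [this, zpow_add, zpow_mul, zpow_natCast, hpw, ← zpow_natCast, ← zpow_mul]
    group
  have conj : ∀ (i : ℤ) (m : G), m ∈ C → y' ^ (-i) * m * y' ^ i = y ^ (-i) * m * y ^ i := by
    have s1 : ∀ m ∈ C, y'⁻¹ * m * y' = y⁻¹ * m * y := fun m hm => by
      have := hcc (y⁻¹ * m * y) (by simpa using (inferInstance : C.Normal).conj_mem m hm y⁻¹)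
      rw [hy']
      calc (y * c)⁻¹ * m * (y * c) = c⁻¹ * ((y⁻¹ * m * y) * c) := by group
        _ = _ := by rw [← this]; group
    have s2 : ∀ m ∈ C, y' * m * y'⁻¹ = y * m * y⁻¹ := fun m hm => by
      rw [hy']
      calc y * c * m * (y * c)⁻¹ = y * ((c * m) * c⁻¹) * y⁻¹ := by group
        _ = _ := by rw [hcc m hm]; group
    intro i
    induction i using Int.induction_on with
    | zero => intro m _; simp
    | succ n ih =>
      intro m hm
      have := s1 _ (show y ^ (-(n : ℤ)) * m * y ^ (n : ℤ) ∈ C by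
        simpa using (inferInstance : C.Normal).conj_mem m hm (y ^ (-(n : ℤ))))
      calc y' ^ (-((n : ℤ) + 1)) * m * y' ^ ((n : ℤ) + 1) = y'⁻¹ * (y' ^ (-(n : ℤ)) * m * y' ^ (n : ℤ)) * y' := by group
        _ = _ := by rw [ih m hm, this]; group
    | pred n ih =>
      intro m hm
      have := s2 _ (show y ^ (-(-(n : ℤ))) * m * y ^ (-(n : ℤ)) ∈ C by
        simpa using (inferInstance : C.Normal).conj_mem m hm (y ^ ((n : ℤ))))
      calc y' ^ (-(-(n : ℤ) - 1)) * m * y' ^ (-(n : ℤ) - 1) = y' * (y' ^ (-(-(n : ℤ))) * m * y' ^ (-(n : ℤ))) * y'⁻¹ := by group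
        _ = _ := by rw [ih m hm, this]; group
  choose ι hι using hex
  let f : G →* G := MonoidHom.mk' (fun g => y' ^ ι g * y ^ (-ι g) * g) (fun g h => by
    have h1 : y ^ (-(ι g + ι h)) * (g * h) ∈ C := by
      have := C.mul_mem ((inferInstance : C.Normal).conj_mem _ (hι g) (y ^ (-ι h))) (hι h)
      convert this using 1
      group
    show y' ^ ι (g * h) * y ^ (-ι (g * h)) * (g * h) = _
    rw [key _ _ _ (hι (g * h)) h1]
    have := conj (ι h) _ (hι g)
    calc y' ^ (ι g + ι h) * y ^ (-(ι g + ι h)) * (g * h)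
        = y' ^ (ι g + ι h) * (y ^ (-ι h) * (y ^ (-ι g) * g) * y ^ (ι h)) * (y ^ (-ι h) * h) := by group
      _ = _ := by rw [← this]; group)
  have hf : ∀ g (i : ℤ), y ^ (-i) * g ∈ C → f g = y' ^ i * y ^ (-i) * g := fun g i hi => by
    show y' ^ ι g * y ^ (-ι g) * g = _
    rw [key g _ _ (hι g) hi]
  have hfC : ∀ m ∈ C, f m = m := fun m hm => by rw [hf m 0 (by simpa using hm)]; simp
  have hfy : f y = y' := by rw [hf y 1 (by simp)]; simp
  have hsurj : Function.Surjective f := fun g => by
    have h1 : y' ^ (-ι g) * g ∈ C := by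
      rw [← QuotientGroup.eq_one_iff]
      have h2 := (QuotientGroup.eq_one_iff _).2 (hι g)
      have h3 : (y' : G ⧸ C) = y := by
        rw [hy', QuotientGroup.mk_mul, (QuotientGroup.eq_one_iff _).2 hc, mul_one]
      simp only [QuotientGroup.mk_mul, QuotientGroup.mk_zpow, h3] at h2 ⊢
      exact h2
    exact ⟨y ^ ι g * (y' ^ (-ι g) * g), by rw [map_mul, map_zpow, hfy, hfC _ h1]; group⟩
  exact ⟨MulEquiv.ofBijective f (Finite.surjective_iff_bijective.1 hsurj), hfy, hfC⟩

theorem charA {G : Type*} [Group G] [Finite G] {p : ℕ} (hp : p.Prime)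
    (hmin : ∀ d, d ∣ Nat.card G → d ≠ 1 → p ≤ d) (h : p < Nat.card (commutator G)) :
    p * Nat.card (ConjClasses G) ≤ Nat.card G := by
  classical
  choose d hd hd' using fun χ : Cfsg.IrrCharacter G => χ.2.exists_pos_apply_one
  have h1 : Nat.card G = ∑ χ, d χ ^ 2 := by
    have := sum_irr_deg_sq (G := G)
    simp_rw [hd'] at this
    exact_mod_cast this.symm
  have h2 := Cfsg.Agent.S0154.result (G := G)
  set L := (commutator G).index
  have h3 : (Finset.univ.filter fun χ => d χ = 1).card = L := by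
    rw [← h2, Nat.card_eq_fintype_card, Fintype.card_subtype]
    congr 1
    ext χ
    simp [hd']
  have h4 := Finset.card_filter_add_card_filter_not (s := Finset.univ) (fun χ => d χ = 1)
  rw [h3, Finset.card_univ, ← Nat.card_eq_fintype_card, card_irr_eq_card_conjClasses] at h4
  rw [← Finset.sum_filter_add_sum_filter_not Finset.univ (fun χ => d χ = 1)] at h1
  have h5 := Finset.card_nsmul_le_sum (Finset.univ.filter fun χ => ¬ d χ = 1) (fun χ => d χ ^ 2) (p ^ 2)
      fun χ hχ => Nat.pow_le_pow_left (hmin _ (χ.2.degree_dvd_card (hd' χ)) (Finset.mem_filter.1 hχ).2) 2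
  have h6 : ∑ χ ∈ Finset.univ.filter (fun χ => d χ = 1), d χ ^ 2 = L := by
    rw [← h3, Finset.card_eq_sum_ones]
    exact Finset.sum_congr rfl fun χ hχ => by rw [(Finset.mem_filter.1 hχ).2]; rfl
  rw [h6] at h1
  have h7 := (commutator G).card_mul_index
  rw [smul_eq_mul] at h5
  set N := (Finset.univ.filter fun χ => ¬ d χ = 1).card
  rw [← h4]
  have h8 : (p + 1) * L ≤ Nat.card G := by rw [← h7]; exact Nat.mul_le_mul_right _ h
  have h9 : L + N * p ^ 2 ≤ Nat.card G := by omega
  refine Nat.le_of_mul_le_mul_left ?_ hp.pos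
  obtain ⟨r, rfl⟩ : ∃ r, p = r + 1 := ⟨p - 1, by have := hp.pos; omega⟩
  have := Nat.mul_le_mul_left r h8
  nlinarith

theorem pw2 {G : Type*} [Group G] (y c w : G) (hw : ∀ g, w * g = g * w) (h : c * y = y * c * w) (n : ℕ) :
    (y * c) ^ n = y ^ n * c ^ n * w ^ (n.choose 2) := by
  have hw' : ∀ (k : ℕ) g, w ^ k * g = g * w ^ k := fun k g => ((show Commute w g from hw g).pow_left k).eq
  have h1 : ∀ k : ℕ, c ^ k * y = y * c ^ k * w ^ k := fun k => by
    induction k with
    | zero => simp
    | succ k ih =>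
      calc c ^ (k + 1) * y = c ^ k * (c * y) := by rw [pow_succ, mul_assoc]
        _ = (c ^ k * y) * c * w := by rw [h]; group
        _ = y * c ^ k * (w ^ k * c) * w := by rw [ih]; group
        _ = _ := by rw [hw']; group
  induction n with
  | zero => simp
  | succ n ih =>
    rw [pow_succ, ih, Nat.choose_succ_succ' n 1, Nat.choose_one_right]
    calc y ^ n * c ^ n * w ^ n.choose 2 * (y * c) = y ^ n * (c ^ n * (w ^ n.choose 2 * (y * c))) := by group
      _ = y ^ n * ((c ^ n * y) * c) * w ^ n.choose 2 := by rw [hw']; group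
      _ = y ^ n * (y * c ^ n * (w ^ n * c)) * w ^ n.choose 2 := by rw [h1]; group
      _ = _ := by rw [hw' n c, pow_add w]; group

theorem ex_c {G : Type*} [Group G] [Finite G] {p : ℕ} (hp : p.Prime)
    (hD : Nat.card (commutator G) = p) (hDZ : commutator G ≤ Subgroup.center G)
    (hZ : p ^ 2 * Nat.card (Subgroup.center G) ≤ Nat.card G) :
    ∃ c, c ∉ commutator G ∧ ((c ∈ Subgroup.center G ∧ c ^ p = 1) ∨
      (c ∉ Subgroup.center G ∧ ∀ y, y * c ≠ c * y → (y * c) ^ p = y ^ p)) := by
  have hcm : ∀ y c : G, c⁻¹ * y⁻¹ * c * y ∈ commutator G := fun y c => by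
    have := Subgroup.commutator_mem_commutator (Subgroup.mem_top c⁻¹) (Subgroup.mem_top y⁻¹)
    simpa [commutatorElement_def, commutator_def] using this
  have hDp : ∀ d ∈ commutator G, d ^ p = 1 := fun d hd => by
    have := pow_card_eq_one' (x := (⟨d, hd⟩ : commutator G))
    rw [hD] at this
    exact congrArg Subtype.val this
  have hpw : ∀ (y c : G) (n : ℕ), (y * c) ^ n = y ^ n * c ^ n * (c⁻¹ * y⁻¹ * c * y) ^ (n.choose 2) :=
    fun y c n => pw2 y c _ (fun g => ((Subgroup.mem_center_iff.1 (hDZ (hcm y c))) g).symm) (by group) n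
  have hpZ : ∀ g : G, g ^ p ∈ Subgroup.center G := fun g => by
    rw [Subgroup.mem_center_iff]
    intro h
    have h1 : h * g * h⁻¹ * g⁻¹ ∈ commutator G := by simpa using hcm g⁻¹ h⁻¹
    have h2 : (h * g * h⁻¹) = (h * g * h⁻¹ * g⁻¹) * g := by group
    have h3 : Commute (h * g * h⁻¹ * g⁻¹) g := (Subgroup.mem_center_iff.1 (hDZ h1) g).symm
    have h4 := congrArg (· ^ p) h2
    simp only [h3.mul_pow] at h4
    rw [hDp _ h1, one_mul, conj_pow] at h4
    calc h * g ^ p = (h * g ^ p * h⁻¹) * h := by group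
      _ = _ := by rw [h4]
  have hZpos : 0 < Nat.card (Subgroup.center G) := Nat.card_pos
  rcases hp.eq_two_or_odd' with rfl | hodd
  · by_contra hcon
    push Not at hcon
    have hne : ∀ d ∈ commutator G, ∀ e ∈ commutator G, d ≠ 1 → e ≠ 1 → d = e := by
      intro d hd e he hd1 he1
      obtain ⟨a, -, ha⟩ := (Nat.card_eq_two_iff' (1 : commutator G)).1 hD
      have := (ha ⟨d, hd⟩ (fun h => hd1 (congrArg Subtype.val h))).trans
        (ha ⟨e, he⟩ (fun h => he1 (congrArg Subtype.val h))).symm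
      exact congrArg Subtype.val this
    have c1 : ∀ c ∈ Subgroup.center G, c ^ 2 = 1 → c ∈ commutator G := fun c hc h2 => by
      by_contra h
      exact (hcon c h).1 hc h2
    have c2 : ∀ c ∉ Subgroup.center G, c ^ 2 ∈ commutator G → c ^ 2 = 1 := fun c hc h2 => by
      by_contra h
      obtain ⟨y, hy, hy2⟩ := (hcon c (fun h => hc (hDZ h))).2 hc
      apply hy2
      rw [hpw, show Nat.choose 2 2 = 1 from rfl, pow_one, mul_assoc, ← hne _ h2 _ (hcm y c) h (fun h' => hy (by
        calc y * c = y * c * (c⁻¹ * y⁻¹ * c * y) := by rw [h', mul_one]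
          _ = _ := by group)), ← pow_two, hDp _ h2, mul_one]
    let ψ : G →* Abelianization G := (powMonoidHom 2).comp Abelianization.of
    have hK : ∀ g, g ∈ ψ.ker ↔ g ^ 2 ∈ commutator G := fun g => by
      rw [← Abelianization.ker_of, MonoidHom.mem_ker, MonoidHom.mem_ker, map_pow]; rfl
    have hr : ψ.range ≤ (Subgroup.center G).map Abelianization.of := by
      rintro _ ⟨g, rfl⟩
      exact ⟨g ^ 2, hpZ g, by rw [map_pow]; rfl⟩
    have hZb : 2 * Nat.card ((Subgroup.center G).map (Abelianization.of (G := G))) = Nat.card (Subgroup.center G) := by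
      rw [← Subgroup.relIndex_ker, Abelianization.ker_of, ← hD, Subgroup.relIndex,
        ← Nat.card_congr (Subgroup.subgroupOfEquivOfLe hDZ).toEquiv]
      exact Subgroup.card_mul_index _
    have h1 := ψ.ker.card_mul_index
    rw [Subgroup.index_ker] at h1
    have h2 := Subgroup.card_le_of_le hr
    obtain ⟨x, hxK, hxZ⟩ : ∃ x ∈ ψ.ker, x ∉ Subgroup.center G := by
      by_contra hKZ
      push Not at hKZ
      let σ : ψ.ker →* G := MonoidHom.mk' (fun g => (g : G) ^ 2) (fun a b => by
        have : Commute (a : G) b := (Subgroup.mem_center_iff.1 (hKZ _ b.2) a)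
        simp only [Subgroup.coe_mul, this.mul_pow])
      have h3 := σ.ker.card_mul_index
      rw [Subgroup.index_ker] at h3
      have h4 : Nat.card σ.range ≤ 2 := by
        rw [← hD]
        refine Subgroup.card_le_of_le ?_
        rintro _ ⟨g, rfl⟩
        exact (hK _).1 g.2
      have h5 : Nat.card σ.ker ≤ 2 := by
        rw [← hD]
        exact Nat.card_le_card_of_injective (fun g : σ.ker => (⟨g.1.1, c1 _ (hKZ _ g.1.2) g.2⟩ : commutator G))
          (fun a b h => Subtype.ext (Subtype.ext (by simpa using h)))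
      have h6 : Nat.card ψ.ker ≤ 4 := by rw [← h3]; exact Nat.mul_le_mul h5 h4
      have h7 := Nat.mul_le_mul h6 h2
      omega
    have hx2 := c2 x hxZ ((hK x).1 hxK)
    have hKZ : ∀ w ∈ ψ.ker, w ∈ Subgroup.center G → w ∈ commutator G := fun w hw hwZ => by
      refine c1 w hwZ ?_
      have := c2 (x * w) (fun h => hxZ (by simpa using Subgroup.mul_mem _ h (Subgroup.inv_mem _ hwZ)))
        ((hK _).1 (Subgroup.mul_mem _ hxK hw))
      rwa [(show Commute x w from Subgroup.mem_center_iff.1 hwZ x).mul_pow, hx2, one_mul] at this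
    obtain ⟨y, hy⟩ : ∃ y, y * x ≠ x * y := by
      by_contra h
      push Not at h
      exact hxZ (Subgroup.mem_center_iff.2 h)
    let τ : (Subgroup.center G).map (Abelianization.of (G := G)) →* (Subgroup.center G).map (Abelianization.of (G := G)) :=
      powMonoidHom 2
    have hτ : Function.Injective τ := by
      rw [injective_iff_map_eq_one]
      rintro ⟨_, u, hu, rfl⟩ h
      have : u ∈ ψ.ker := congrArg Subtype.val h
      have := hKZ u this hu
      rw [← Abelianization.ker_of] at this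
      exact Subtype.ext this
    obtain ⟨⟨_, u, hu, rfl⟩, hu2⟩ := Finite.injective_iff_surjective.1 hτ ⟨ψ y, hr ⟨y, rfl⟩⟩
    have hu3 : ψ u = ψ y := congrArg Subtype.val hu2
    have hyK : y * u⁻¹ ∈ ψ.ker := by rw [MonoidHom.mem_ker, map_mul, map_inv, hu3, mul_inv_cancel]
    set y' := y * u⁻¹ with hy'
    have hy'' : y' * x ≠ x * y' := fun h => hy (by
      have := Subgroup.mem_center_iff.1 hu x
      calc y * x = y' * (u * x) := by rw [hy']; group
        _ = (y' * x) * u := by rw [← this]; group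
        _ = _ := by rw [h, hy']; group)
    have hyZ : y' ∉ Subgroup.center G := fun h => hy'' (Subgroup.mem_center_iff.1 h x).symm
    have hy2 := c2 y' hyZ ((hK _).1 hyK)
    have := c2 (y' * x) (fun h => hy'' (by
      have := Subgroup.mem_center_iff.1 h x
      calc y' * x = (y' * x * x) * x⁻¹ := by group
        _ = _ := by rw [← this]; group)) ((hK _).1 (Subgroup.mul_mem _ hyK hxK))
    rw [hpw, hy2, hx2, show Nat.choose 2 2 = 1 from rfl] at this
    apply hy''
    calc y' * x = y' * x * (1 * 1 * (x⁻¹ * y'⁻¹ * x * y') ^ 1) := by rw [this, mul_one]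
      _ = _ := by group
  · have hh : ∀ y c : G, (y * c) ^ p = y ^ p * c ^ p := fun y c => by
      obtain ⟨k, hk⟩ := hp.dvd_choose_self (k := 2) (by norm_num) (by
        have := hp.two_le
        have : p ≠ 2 := by rintro rfl; exact absurd hodd (by decide)
        omega)
      rw [hpw, hk, pow_mul, hDp _ (hcm y c), one_pow, mul_one]
    let φ : G →* G := MonoidHom.mk' (fun g => g ^ p) hh
    have h1 := φ.ker.card_mul_index
    rw [Subgroup.index_ker] at h1
    have h2 : Nat.card φ.range ≤ Nat.card (Subgroup.center G) :=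
      Subgroup.card_le_of_le (by rintro _ ⟨g, rfl⟩; exact hpZ g)
    obtain ⟨c, hc, hcD⟩ : ∃ c ∈ φ.ker, c ∉ commutator G := by
      by_contra h
      push Not at h
      have h3 : Nat.card φ.ker ≤ p := hD ▸ Subgroup.card_le_of_le h
      have h4 := Nat.mul_le_mul h3 h2
      have h5 : p ^ 2 * Nat.card (Subgroup.center G) ≤ p * Nat.card (Subgroup.center G) := by omega
      have := Nat.le_of_mul_le_mul_right h5 hZpos
      have := hp.two_le
      nlinarith
    have hc' : c ^ p = 1 := hc
    refine ⟨c, hcD, ?_⟩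
    by_cases hcZ : c ∈ Subgroup.center G
    · exact Or.inl ⟨hcZ, hc'⟩
    · exact Or.inr ⟨hcZ, fun y _ => by rw [hh, hc', mul_one]⟩

/-- Let G be a finite non-abelian group and p the least prime dividing its order. Then the automorphism group of G has at most #G/p orbits on G. -/
theorem result {G : Type*} [Group G] [Finite G] (hna : ¬ IsMulCommutative G) :
    Nat.card (MulAction.orbitRel.Quotient (MulAut G) G) ≤ Nat.card G / (Nat.card G).minFac := by
  classical
  haveI := Fintype.ofFinite G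
  set p := (Nat.card G).minFac with hpdef
  have hn1 : Nat.card G ≠ 1 := fun h => hna (by
    haveI := (Nat.card_eq_one_iff_unique.1 h).1
    exact ⟨⟨fun a b => Subsingleton.elim _ _⟩⟩)
  have hp : p.Prime := Nat.minFac_prime hn1
  have hmin : ∀ d, d ∣ Nat.card G → d ≠ 1 → p ≤ d := fun d hd hd1 => by
    refine Nat.minFac_le_of_dvd ?_ hd
    have : d ≠ 0 := by rintro rfl; exact Nat.card_pos.ne' (Nat.eq_zero_of_zero_dvd hd)
    omega
  rw [Nat.le_div_iff_mul_le hp.pos, mul_comm]
  have hD1 : Nat.card (commutator G) ≠ 1 := fun h => hna (by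
    rw [Subgroup.card_eq_one, commutator_eq_bot_iff_center_eq_top] at h
    exact ⟨⟨fun a b => Subgroup.mem_center_iff.1 (h ▸ Subgroup.mem_top b) a⟩⟩)
  rcases (hmin _ (Subgroup.card_subgroup_dvd_card _) hD1).lt_or_eq with hlt | hD
  · refine le_trans (Nat.mul_le_mul_left _ ?_) (charA hp hmin hlt)
    refine Nat.card_le_card_of_surjective (fun q : ConjClasses G => Quotient.liftOn' q
      (fun g => (Quotient.mk'' g : MulAction.orbitRel.Quotient (MulAut G) G)) (fun a b h => ?_)) ?_
    · obtain ⟨c, hc⟩ := isConj_iff.1 h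
      refine Quotient.sound' (MulAction.orbitRel_apply.2 ⟨MulAut.conj c⁻¹, ?_⟩)
      simp [← hc, mul_assoc]
    · intro q
      induction q using Quotient.inductionOn' with
      | h a => exact ⟨ConjClasses.mk a, rfl⟩
  replace hD := hD.symm
  haveI := Fact.mk hp
  set D := commutator G with hDdef
  have hDZ : D ≤ Subgroup.center G := by
    haveI : IsCyclic D := isCyclic_of_prime_card hD
    have h1 := (MulAut.conjNormal (H := D)).range.card_subgroup_dvd_card
    rw [IsCyclic.card_mulAut, hD, Nat.totient_prime hp] at h1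
    have h2 : Nat.card (MulAut.conjNormal (H := D)).range ∣ Nat.card G := Subgroup.card_range_dvd _
    have h3 : Nat.card (MulAut.conjNormal (H := D)).range = 1 := by
      by_contra h
      have := hmin _ h2 h
      have := Nat.le_of_dvd (by have := hp.two_le; omega) h1
      have := hp.two_le
      omega
    rw [Subgroup.card_eq_one] at h3
    intro d hd
    rw [Subgroup.mem_center_iff]
    intro g
    have h4 : MulAut.conjNormal (H := D) g = 1 := Subgroup.mem_bot.1 (h3 ▸ ⟨g, rfl⟩)
    have h5 := congrArg (fun f : MulAut D => ((f ⟨d, hd⟩ : D) : G)) h4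
    simp only [MulAut.conjNormal_apply, MulAut.one_apply] at h5
    calc g * d = (g * d * g⁻¹) * g := by group
      _ = _ := by rw [h5]
  have hcm : ∀ g x : G, g * x * g⁻¹ * x⁻¹ ∈ D := fun g x =>
    Subgroup.commutator_mem_commutator (Subgroup.mem_top g) (Subgroup.mem_top x)
  let lam : G → (G →* G) := fun x => MonoidHom.mk' (fun g => g * x * g⁻¹ * x⁻¹) (fun g h => by
    have := Subgroup.mem_center_iff.1 (hDZ (hcm h x))
    calc g * h * x * (g * h)⁻¹ * x⁻¹ = (g * (h * x * h⁻¹ * x⁻¹)) * (x * g⁻¹ * x⁻¹) := by group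
      _ = (h * x * h⁻¹ * x⁻¹) * (g * x * g⁻¹ * x⁻¹) := by rw [this]; group
      _ = _ := (this _).symm)
  have hlk : ∀ x g, g ∈ (lam x).ker ↔ g * x = x * g := fun x g => by
    show g * x * g⁻¹ * x⁻¹ = 1 ↔ _
    rw [mul_inv_eq_one, mul_inv_eq_iff_eq_mul]
  have hlr : ∀ x ∉ Subgroup.center G, (lam x).range = D := fun x hx => by
    have h1 : (lam x).range ≤ D := by rintro _ ⟨g, rfl⟩; exact hcm g x
    refine Subgroup.eq_of_le_of_card_ge h1 ?_
    rw [hD]
    refine hmin _ (Subgroup.card_range_dvd _) fun h => hx ?_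
    rw [Subgroup.card_eq_one] at h
    exact Subgroup.mem_center_iff.2 fun g => (hlk x g).1 (Subgroup.mem_bot.1 (h ▸ ⟨g, rfl⟩))
  have hidx : ∀ x ∉ Subgroup.center G, (lam x).ker.index = p := fun x hx => by
    rw [Subgroup.index_ker, hlr x hx, hD]
  have hZC : ∀ x, Subgroup.center G ≤ (lam x).ker := fun x z hz =>
    (hlk x z).2 (Subgroup.mem_center_iff.1 hz x).symm
  have hZ : ∀ x ∉ Subgroup.center G, p * Nat.card (Subgroup.center G) ≤ Nat.card (lam x).ker := fun x hx => by
    have h1 := ((Subgroup.center G).subgroupOf (lam x).ker).card_mul_index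
    rw [Nat.card_congr (Subgroup.subgroupOfEquivOfLe (hZC x)).toEquiv] at h1
    rw [← h1, mul_comm]
    refine Nat.mul_le_mul_left _ (hmin _ ((Subgroup.index_dvd_card _).trans (Subgroup.card_subgroup_dvd_card _)) fun h => hx ?_)
    rw [Subgroup.index_eq_one, Subgroup.subgroupOf_eq_top] at h
    exact h ((hlk x x).2 rfl)
  obtain ⟨x0, hx0⟩ : ∃ x, x ∉ Subgroup.center G := by
    by_contra h
    push Not at h
    exact hna ⟨⟨fun a b => Subgroup.mem_center_iff.1 (h b) a⟩⟩
  have hZ2 : p ^ 2 * Nat.card (Subgroup.center G) ≤ Nat.card G := by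
    have h1 := (lam x0).ker.card_mul_index
    rw [hidx x0 hx0] at h1
    have := hZ x0 hx0
    rw [← h1]; nlinarith
  have hny : ∀ x ∉ Subgroup.center G, ∃ y, y ∉ (lam x).ker := fun x hx => by
    by_contra h
    push Not at h
    exact hx (Subgroup.mem_center_iff.2 fun g => (hlk x g).1 (h g))
  obtain ⟨x, y, c, hx, hy, hcD, hc, hcc, hpw⟩ : ∃ x y c, x ∉ Subgroup.center G ∧ y ∉ (lam x).ker ∧ c ∉ D ∧
      c ∈ (lam x).ker ∧ (∀ m ∈ (lam x).ker, c * m = m * c) ∧ (y * c) ^ p = y ^ p := by
    obtain ⟨c, hcD, ⟨hcZ, hc⟩ | ⟨hcZ, hc⟩⟩ := ex_c hp hD hDZ hZ2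
    · obtain ⟨y, hy⟩ := hny x0 hx0
      exact ⟨x0, y, c, hx0, hy, hcD, hZC _ hcZ, fun m _ => (Subgroup.mem_center_iff.1 hcZ m).symm, by
        rw [(show Commute y c from Subgroup.mem_center_iff.1 hcZ y).mul_pow, hc, mul_one]⟩
    · obtain ⟨y, hy⟩ := hny c hcZ
      exact ⟨c, y, c, hcZ, hy, hcD, (hlk c c).2 rfl, fun m hm => ((hlk c m).1 hm).symm,
        hc y fun h => hy ((hlk c y).2 h)⟩
  set C := (lam x).ker with hCdef
  have hC : C.index = p := hidx x hx
  obtain ⟨α, hαy, hαC⟩ := ex_aut C hp hC y c hy hc hcc hpw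
  have hmax : ∀ K : Subgroup G, C ≤ K → K = C ∨ K = ⊤ := fun K hK => by
    have h1 := Subgroup.relIndex_mul_index hK
    rw [hC] at h1
    rcases (Nat.dvd_prime hp).1 (Dvd.intro_left _ h1) with h | h
    · exact Or.inr (Subgroup.index_eq_one.1 h)
    · rw [h] at h1
      have : C.relIndex K = 1 := Nat.eq_of_mul_eq_mul_right hp.pos (by rw [h1, one_mul])
      exact Or.inl (le_antisymm (Subgroup.relIndex_eq_one.1 this) hK)
  have horb1 : ∀ g ∉ Subgroup.center G, ∀ d ∈ D, d * g ∈ MulAction.orbit (MulAut G) g := fun g hg d hd => by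
    rw [← hlr g hg] at hd
    obtain ⟨h, rfl⟩ := hd
    refine ⟨MulAut.conj h, ?_⟩
    show h * g * h⁻¹ = h * g * h⁻¹ * g⁻¹ * g
    group
  have hle : ∀ (g : G) (B : Subgroup G), (∀ b ∈ B, b * g ∈ MulAction.orbit (MulAut G) g) →
      Nat.card B ≤ Nat.card (MulAction.orbit (MulAut G) g) := fun g B h =>
    Nat.card_le_card_of_injective (fun b : B => (⟨b * g, h b b.2⟩ : MulAction.orbit (MulAut G) g))
      (fun a b hab => Subtype.ext (by simpa using hab))
  have horb2 : ∀ g ∉ C, p ^ 2 ≤ Nat.card (MulAction.orbit (MulAut G) g) := fun g hg => by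
    set e := α g * g⁻¹ with he
    have heC : e ∈ C := by
      have h1 : C ≤ ((QuotientGroup.mk' C).comp α.toMonoidHom).eqLocus (QuotientGroup.mk' C) := fun m hm => by
        show QuotientGroup.mk' C (α m) = QuotientGroup.mk' C m
        rw [hαC m hm]
      rcases hmax _ h1 with h | h
      · exfalso
        apply hy
        rw [← h]
        show QuotientGroup.mk' C (α y) = QuotientGroup.mk' C y
        rw [hαy, map_mul, QuotientGroup.mk'_apply C c, (QuotientGroup.eq_one_iff c).2 hc, mul_one]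
      · have h2 : QuotientGroup.mk' C (α g) = QuotientGroup.mk' C g :=
          (h ▸ Subgroup.mem_top g : g ∈ ((QuotientGroup.mk' C).comp α.toMonoidHom).eqLocus (QuotientGroup.mk' C))
        rw [← QuotientGroup.ker_mk' C, MonoidHom.mem_ker, he, map_mul, map_inv, h2, mul_inv_cancel]
    have heD : e ∉ D := fun hed => by
      have h1 : C ≤ (Abelianization.of.comp α.toMonoidHom).eqLocus Abelianization.of := fun m hm => by
        show Abelianization.of (α m) = Abelianization.of m
        rw [hαC m hm]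
      rcases hmax _ h1 with h | h
      · apply hg
        rw [← h]
        show Abelianization.of (α g) = Abelianization.of g
        rw [hDdef, ← Abelianization.ker_of, MonoidHom.mem_ker, he, map_mul, map_inv, mul_inv_eq_one] at hed
        exact hed
      · have h2 : Abelianization.of (α y) = Abelianization.of y :=
          (h ▸ Subgroup.mem_top y : y ∈ (Abelianization.of.comp α.toMonoidHom).eqLocus Abelianization.of)
        rw [hαy, map_mul, mul_eq_left] at h2
        exact hcD (by rw [hDdef, ← Abelianization.ker_of]; exact h2)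
    have hj : ∀ j : ℕ, (α ^ j) g = e ^ j * g := fun j => by
      induction j with
      | zero => simp
      | succ j ih =>
        rw [pow_succ', MulAut.mul_apply, ih, map_mul, hαC _ (C.pow_mem heC j), pow_succ, he]
        group
    refine le_trans ?_ (hle g (D ⊔ Subgroup.zpowers e) fun b hb => ?_)
    · have h1 := (D.subgroupOf (D ⊔ Subgroup.zpowers e)).card_mul_index
      rw [Nat.card_congr (Subgroup.subgroupOfEquivOfLe le_sup_left).toEquiv, hD] at h1
      rw [← h1, pow_two]
      refine Nat.mul_le_mul_left _ (hmin _ ((Subgroup.index_dvd_card _).trans (Subgroup.card_subgroup_dvd_card _)) fun h => heD ?_)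
      rw [Subgroup.index_eq_one, Subgroup.subgroupOf_eq_top] at h
      exact h (Subgroup.mem_sup_right (Subgroup.mem_zpowers e))
    · obtain ⟨d, hd, f, hf, rfl⟩ := Subgroup.mem_sup_of_normal_left.1 hb
      obtain ⟨j, rfl⟩ := (mem_powers_iff_mem_zpowers (x := e)).2 hf
      have h1 : e ^ j * g ∈ MulAction.orbit (MulAut G) g := ⟨α ^ j, hj j⟩
      have h2 := horb1 (e ^ j * g) (fun h => hg (by
        simpa using C.mul_mem (C.inv_mem (C.pow_mem heC j)) (hZC x h))) d hd
      rw [MulAction.orbit_eq_iff.2 h1] at h2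
      simpa [mul_assoc] using h2
  have hw := wcount (A := MulAut G) (fun g : G => 1 + (if g ∈ C then p - 1 else 0) +
    (if g ∈ Subgroup.center G then p ^ 2 - p else 0)) (p ^ 2) (fun g => by
      have hp2 := hp.two_le
      have hpp : p ≤ p ^ 2 := by nlinarith
      by_cases hgZ : g ∈ Subgroup.center G
      · have : 0 < Nat.card (MulAction.orbit (MulAut G) g) := by
          haveI : Nonempty (MulAction.orbit (MulAut G) g) := ⟨⟨g, MulAction.mem_orbit_self g⟩⟩
          exact Nat.card_pos
        rw [if_pos (hZC x hgZ), if_pos hgZ, show 1 + (p - 1) + (p ^ 2 - p) = p ^ 2 by omega]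
        exact Nat.le_mul_of_pos_right _ this
      · by_cases hgC : g ∈ C
        · have := hle g D (horb1 g hgZ)
          rw [if_pos hgC, if_neg hgZ, show 1 + (p - 1) + 0 = p by omega, pow_two]
          exact Nat.mul_le_mul_left _ (hD ▸ this)
        · rw [if_neg hgC, if_neg hgZ]
          simpa using horb2 g hgC)
  have hs : ∀ (K : Subgroup G) [DecidablePred (· ∈ K)] (a : ℕ), ∑ g : G, (if g ∈ K then a else 0) = Nat.card K * a := fun K _ a => by
    rw [← Finset.sum_filter, Finset.sum_const, smul_eq_mul, Nat.card_eq_fintype_card, Fintype.card_subtype]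
  rw [Finset.sum_add_distrib, Finset.sum_add_distrib, hs, hs, Finset.sum_const, Finset.card_univ,
    ← Nat.card_eq_fintype_card, smul_eq_mul, mul_one] at hw
  have h1 := C.card_mul_index
  rw [hC] at h1
  have h2 := hZ x hx
  rw [← hCdef] at h2
  refine Nat.le_of_mul_le_mul_left ?_ hp.pos
  rw [← mul_assoc, ← pow_two]
  refine hw.trans ?_
  rw [← h1]
  obtain ⟨r, hr⟩ : ∃ r, p = r + 2 := ⟨p - 2, by have := hp.two_le; omega⟩
  rw [hr] at h2 ⊢
  rw [show r + 2 - 1 = r + 1 by omega, show (r + 2) ^ 2 - (r + 2) = (r + 2) * (r + 1) by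
    rw [pow_two]; exact Nat.sub_eq_of_eq_add (by ring)]
  have h3 := Nat.mul_le_mul_left (r + 1) h2
  have h4 : 0 ≤ Nat.card C * (r * (r + 1)) := Nat.zero_le _
  nlinarith


end Cfsg.Agent.S4067
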