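import Cfsg.Statements.S4071
import Cfsg.Agent.H1.Misc1
import Cfsg.Agent.H2.BG0
import Cfsg.Agent.H2.Misc

set_option autoImplicit false
open Cfsg

namespace Cfsg.Agent.S4071

/-- Let G be a finite solvable non-nilpotent group. Every non-abelian subgroup of G is self-normalizing if and only if G is a semidirect product ⟨x⟩ ⋉ A in which ⟨x⟩ is a p-group for some prime p, A is a normal abelian subgroup of order prime to p, x^p is central in G, and x acts fixed-point-freely on A (no non-identity element of A commutes with x). -/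
theorem result {G : Type*} [Group G] [Finite G]
    [Group.IsSolvable G] (hnn : ¬ Group.IsNilpotent G) :
    (∀ H : Subgroup G, ¬ IsMulCommutative H → Subgroup.normalizer (H : Set G) = H) ↔
    ∃ (x : G) (A : Subgroup G) (p : ℕ), p.Prime ∧ A.Normal ∧ IsMulCommutative A ∧ (∃ k : ℕ, orderOf x = p ^ k) ∧
      ¬ p ∣ Nat.card A ∧ (Subgroup.zpowers x).IsComplement' A ∧ x ^ p ∈ Subgroup.center G ∧
      ∀ a : G, a ∈ A → a ≠ 1 → x * a * x⁻¹ ≠ a := by
  open Subgroup CfsgH2 in
  open CfsgH1 hiding card_inf_mul_relIndex card_lt_of_lt card_lt_of_ne_top card_map_mul_card_inf_ker card_mul_relIndex card_subgroupOf card_sup_dvd card_sup_mul_card_inf coprime_le_sup_cent exists_card_prime_le isNilpotent_map isNilpotent_of_le isPGroup_pCore isSolvable_map isSolvable_of_le le_pCore le_pPrimeCore relIndex_map_dvd in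
  open scoped CfsgH1 in
  open scoped commutatorElement in
  · constructor
    · intro h
      haveI : Nontrivial G := not_subsingleton_iff_nontrivial.1 fun _ => hnn inferInstance
      obtain ⟨M, hM, l⟩ := (eq_top_or_exists_le_coatom (commutator G)).resolve_left (IsSolvable.commutator_lt_top_of_nontrivial G).ne
      haveI : M.Normal := normal_of_top_le_norm (le_norm_of_comm_le ((commutator_mono le_top le_rfl).trans l) le_rfl)
      have hp := index_prime_of_isCoatom hM
      generalize e : M.index = p at hp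
      haveI := Fact.mk hp
      have ab : Ab[M] := by_contra fun c => hM.1 ((h M c).symm.trans (normalizer_eq_top M))
      have nil : Nil[M] := nil_of_iterComm (n := 1) (comm_self_eq_bot_iff.2 ab)
      obtain ⟨x, -, x1, x2⟩ := exists_pelem_not_mem hp (K := M) (M := ⊤) (by rw [relIndex_top_right, e])
      have x3 : PG[p, zpowers x] := isPGroup_iff_piN.2 (piN_card_zpowers x1)
      obtain ⟨P, hP, l2⟩ := exists_syl_ge x3 le_top
      have s := nil_sup_core (π := {p}) nil
      have hA : Ab[O[{p}ᶜ, M]] := isMulComm_of_le ab piCoreOf_le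
      have hA2 : ¬ p ∣ o[O[{p}ᶜ, M]] := not_dvd_piCoreOf
      have hA3 : O[{p}ᶜ, M].Normal := inferInstance
      have hA4 : O[{p}ᶜ, M] ≤ M := piCoreOf_le
      generalize O[{p}ᶜ, M] = A at s hA hA2 hA3 hA4
      have s1 : O[{p}, M] ≤ P := hP.le_of_norm (isPGroup_iff_piN.2 piN_piCoreOf) le_top le_normalizer_of_normal
      have s2 : M ⊔ zpowers x = ⊤ := hM.2 _ (left_lt_sup.2 (mt zpowers_le.1 x2))
      have s3 : A ⊔ P = ⊤ := top_le_iff.1 (s2.ge.trans (sup_le (s.ge.trans (sup_le (le_sup_of_le_right s1) le_sup_left)) (le_sup_of_le_right l2)))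
      have c := coprime_of_pgroup x3 hA2
      have k1 : ¬ A ≤ C[zpowers x] := fun d => by
        have : A ≤ C[P] := le_centralizer_iff.1 (le_top.trans (s2.ge.trans (sup_le (le_cent_of_comm ab hA4) (le_centralizer_iff.1 d))))
        haveI : Nil[(⊤ : Subgroup G)] := s3 ▸ nil_sup_of_cent (nil_of_iterComm (n := 1) (comm_self_eq_bot_iff.2 hA)) (nil_of_pg hP.pg) this
        exact hnn (Group.nilpotent_of_mulEquiv (topEquiv (G := G)))
      have i := coprime_comm_inf_cent hA le_normalizer_of_normal c
      have d : zpowers x ⊓ A = ⊥ := inf_eq_bot_of_coprime' c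
      have k2 : A ⊓ C[zpowers x] = ⊥ := by
        have := h (⁅A, zpowers x⁆ ⊔ zpowers x) fun ab2 => k1 ((coprime_comm_sup_cent le_normalizer_of_normal c (Or.inr inferInstance)).ge.trans
          (sup_le (le_sup_left.trans (le_cent_of_comm ab2 le_sup_right)) inf_le_right))
        have k : A ⊓ C[zpowers x] ≤ (⁅A, zpowers x⁆ ⊔ zpowers x) ⊓ A := le_inf (le_trans (le_norm_sup (le_norm_of_le_cent (inf_le_left.trans
          (le_cent_of_comm hA (commutator_le_left _ _)))) (inf_le_right.trans (cent_le_norm _))) this.le) inf_le_left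
        rw [sup_inf_of_norm (Or.inr (le_norm_commutator le_normalizer_of_normal le_normalizer)) (commutator_le_left _ _), d, sup_bot_eq] at k
        exact eq_bot_iff.2 ((le_inf k inf_le_right).trans i.le)
      have k3 : zpowers x = P := by_contra fun c2 => by
        have := h (zpowers x ⊔ A) fun ab2 => k1 (le_sup_right.trans (le_cent_of_comm ab2 le_sup_left))
        have k : P ⊓ N[zpowers x] ≤ (zpowers x ⊔ A) ⊓ P := le_inf (le_trans (le_norm_sup inf_le_right le_normalizer_of_normal) this.le) inf_le_left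
        rw [sup_inf_of_norm (Or.inl le_normalizer_of_normal) l2, inf_eq_bot_of_coprime' (coprime_of_pgroup hP.pg hA2).symm, sup_bot_eq] at k
        exact (lt_inf_norm hP.pg.isNilpotent (lt_of_le_of_ne l2 c2)).not_ge k
      refine ⟨x, A, p, hp, hA3, hA, (piN_singleton hp (orderOf_pos x).ne').1 x1, hA2, isComplement'_of_disjoint_and_mul_eq_univ (disjoint_iff.2 d)
        (by rw [← mul_normal, sup_comm, k3, s3, coe_top]), ?_, fun a ha a1 t => a1 (mem_bot.1 (k2.le ⟨ha, (cent_zpowers x).ge ?_⟩))⟩
      · refine cent_top (G := G) ▸ le_cent1_iff.1 (s2.ge.trans (sup_le (le_cent1_iff.2 (le_cent_of_comm ab le_rfl (e ▸ pow_index_mem M x))) ?_))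
        exact zpowers_le.2 (mem_centralizer_singleton_iff.2 (Commute.self_pow x p))
      · exact mem_centralizer_singleton_iff.2 (mul_inv_eq_iff_eq_mul.1 t).symm
    · rintro ⟨x, A, p, hp, hA, ab, ⟨k, hk⟩, hd, hc, hz, hf⟩ H hH
      haveI := Fact.mk hp
      have x3 : PG[p, zpowers x] := IsPGroup.of_card ((Nat.card_zpowers x).trans hk)
      have hP : Syl p (zpowers x) ⊤ := ⟨le_top, x3, by rwa [relIndex_top_right, hc.symm.index_eq_card]⟩
      have s := hc.sup_eq_top
      have key : ∀ H : Subgroup G, x ∈ H → N[H] ≤ H := fun H hx g hg => by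
        obtain ⟨u, hu, a, ha, rfl⟩ := (mem_sup_of_norm le_normalizer_of_normal).1 (s.ge (mem_top g))
        have u1 := zpowers_le.2 hx hu
        have a1 := (mul_mem_cancel_left (le_normalizer u1)).1 hg
        have f : A ⊓ C1[x] = ⊥ := eq_bot_iff.2 fun b hb => by_contra fun c => hf b hb.1 c
          (mul_inv_eq_iff_eq_mul.2 (mem_centralizer_singleton_iff.1 hb.2).symm)
        obtain ⟨y, hy, e⟩ := exists_conj_of_fpf (K := A ⊓ H) (g := x) (k := a * x * a⁻¹ * x⁻¹) (mem_norm_inf (le_normalizer_of_normal (mem_top x)) (le_normalizer hx))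
          (eq_bot_iff.2 ((inf_le_inf_right _ inf_le_left).trans f.le)) ⟨by
            simpa [mul_assoc] using mul_mem ha (hA.conj_mem _ (inv_mem ha) x), H.mul_mem (conj_mem_of_norm a1 hx) (inv_mem hx)⟩
        have : a⁻¹ * y ∈ A ⊓ C1[x] := ⟨A.mul_mem (inv_mem ha) hy.1, mem_centralizer_singleton_iff.2 (by
          calc a⁻¹ * y * x = a⁻¹ * (y * x * y⁻¹) * y := by group
            _ = _ := by rw [e]; group)⟩
        exact mul_mem u1 (inv_mul_eq_one.1 (mem_bot.1 (f ▸ this)) ▸ hy.2)
      obtain ⟨Q, hQ⟩ := exists_syl p H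
      obtain ⟨g, -, hg⟩ := hP.exists_conj_le hQ.pg le_top
      have h1 : x ∈ H.map (cj g) := by
        by_contra c
        have l : Q.map (cj g) ≤ center G := fun u hu => by
          obtain ⟨n, rfl⟩ := (mem_powers_iff_mem_zpowers.2 (hg hu) : u ∈ Submonoid.powers x)
          by_cases d : p ∣ n
          · obtain ⟨m, rfl⟩ := d
            exact (pow_mul x p m ▸ pow_mem hz m : x ^ (p * m) ∈ center G)
          · exact (c (mem_of_pow_mem_coprime (map_mono hQ.le hu) (hk ▸ (hp.coprime_iff_not_dvd.2 d).pow_left k))).elim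
        have l2 : Q ≤ center G := by rwa [map_cj_le_iff, map_cj_normal] at l
        refine hH (isMulComm_of_le (isMulComm_sup ab inferInstance (le_centralizer_iff.1 (center_le_centralizer _))) (le_of_syl fun q hq _ => ?_))
        by_cases e : q = p
        · subst e; exact ⟨Q, hQ, le_sup_of_le_right l2⟩
        obtain ⟨R, hR⟩ := exists_syl q H
        refine ⟨R, hR, le_sup_of_le_left fun r hr => mem_of_pow_mem_coprime (pow_index_mem A r) ?_⟩
        rw [hc.index_eq_card]
        exact (piN_orderOf (isPGroup_iff_piN.1 hR.pg) hr).coprime (IsPGroup.piN x3 (Ne.symm e))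
      have := key _ h1
      rw [normalizer_map_cj, map_cj_le_map_cj] at this
      exact le_antisymm this le_normalizer

end Cfsg.Agent.S4071
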