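import Cfsg.Statements.S4072
import Cfsg.Agent.H3.Hv1
import Cfsg.Agent.H3.Cnt
import Cfsg.Agent.H2.Trans
import Cfsg.Agent.H1.Ito
import Cfsg.Agent.H1.Misc1

set_option autoImplicit false
open Cfsg

namespace Cfsg.Agent.S4072
open Subgroup CfsgH2 CfsgCnt
open scoped commutatorElement

variable {G : Type*} [Group G] [Finite G] {p : ℕ} [hp : Fact p.Prime] {N T P : Subgroup G}

theorem fin (hS : ∀ H : Subgroup G, ¬ Ab[H] → N[H] = H) [N.Normal] (hN : Ab[N]) (hl : N ≤ T) (h1 : ¬ Ab[T])
    (h2 : PG[p, T.map (QuotientGroup.mk' N)]) (h3 : ⁅T, T⁆ ≤ N) : Group.IsSolvable G := by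
  set f := QuotientGroup.mk' N
  have hf : Function.Surjective f := QuotientGroup.mk'_surjective N
  have hk : f.ker = N := QuotientGroup.ker_mk' N
  have e : (T.map f).comap f = T := comap_map_eq_self (hk.le.trans hl)
  have hn : ⊤ ⊓ N[T.map f] = T.map f := by
    rw [top_inf_eq, ← map_comap_eq_self_of_surjective hf N[T.map f], comap_normalizer_eq_of_surjective _ hf, e,
      hS T h1]
  have hs : Syl p (T.map f) ⊤ := Syl.of_norm le_top (hn.symm ▸ Syl.self h2)
  have hc := hs.npc_of_norm_le_cent (by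
    rwa [hn, ← comm_eq_bot_iff, ← map_commutator, Subgroup.map_eq_bot_iff, hk])
  have h4 := congrArg (comap f) (hc.sup_eq hs)
  rw [← comap_sup_eq _ _ _ hf, e, comap_top] at h4
  have h5 : Ab[O[{p}ᶜ, (⊤ : Subgroup (G ⧸ N))].comap f] := by
    by_contra e'
    have := (hS _ e').symm.trans (normalizer_eq_top _)
    rw [← comap_top f, (comap_injective hf).eq_iff] at this
    have h6 := eq_bot_of_pgroup_of_not_dvd h2 fun d => not_dvd_piCoreOf (this ▸ d.trans (card_dvd_of_le le_top))
    rw [Subgroup.map_eq_bot_iff, hk] at h6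
    exact h1 (isMulComm_of_le hN h6)
  refine sol_of_top (h4 ▸ ?_)
  rw [sup_comm]
  exact isSolvable_sup (CfsgH1.isSolvable_of_commutator (isSolvable_of_le (isSolvable_of_comm hN) h3))
    (isSolvable_of_comm h5) (le_top.trans (top_le_norm_iff.2 inferInstance))

theorem mna (hP : PG[p, P]) (h1 : ¬ Ab[P]) (h : ∀ H < P, Ab[H]) : o[(⁅P, P⁆ : Subgroup G)] ≤ p := by
  have lt : ∀ {H K : Subgroup G}, H ≤ K → H.relIndex K = p → H < K := fun h1 h2 => lt_of_le_of_ne h1 fun e =>
    hp.out.one_lt.ne (by rw [← h2, e, relIndex_self])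
  obtain ⟨A, -, a1, a2, a3⟩ := exists_maximal_sub hP (K := ⊥) (bot_lt_iff_ne_bot.2 fun e => h1 (e ▸ inferInstance))
  obtain ⟨y, hy, hy'⟩ := SetLike.exists_of_lt (lt a1 a3)
  obtain ⟨B, b0, b1, -, b3⟩ := exists_maximal_sub hP (K := zpowers y)
    (lt_of_le_of_ne (zpowers_le.2 hy) fun e => h1 (e ▸ inferInstance))
  have e := (CfsgH1.center_of_abelian_index (h A (lt a1 a3)) a1 a2 (a3 ▸ hp.out) h1).2
  have s : A ⊔ B = P := (eq_or_eq_of_relIndex_prime (a3 ▸ hp.out) le_sup_left (sup_le a1 b1)).resolve_left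
    fun e => hy' (e.le (mem_sup_right (b0 (mem_zpowers y))))
  have l : A ⊓ B ≤ Z[P] := le_inf (inf_le_left.trans a1) (by
    rw [← s, cent_sup]
    exact inf_le_inf (le_cent_self (h A (lt a1 a3))) (le_cent_self (h B (lt b1 b3))))
  have := (relIndex_le_of_le_left l (relIndex_pos _ P).ne').trans relIndex_inf_le
  rw [e, a3, b3] at this
  exact Nat.le_of_mul_le_mul_left this hp.out.pos

/-- A finite group in which every non-abelian subgroup is self-normalizing is solvable or simple. -/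
theorem result {G : Type*} [Group G] [Finite G] (hS : ∀ H : Subgroup G, ¬ IsMulCommutative H → Subgroup.normalizer (H : Set G) = H) :
    Group.IsSolvable G ∨ IsSimpleGroup G := by
  by_contra hn
  push Not at hn
  obtain ⟨hns, hsi⟩ := hn
  have ab : ∀ K : Subgroup G, K.Normal → K ≠ ⊤ → Ab[K] := fun K _ h => by_contra fun e =>
    h ((hS K e).symm.trans (normalizer_eq_top K))
  haveI : Nontrivial G := by
    by_contra e
    rw [not_nontrivial_iff_subsingleton] at e
    exact hns inferInstance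
  obtain ⟨N0, n0, n1, n2⟩ : ∃ N : Subgroup G, N.Normal ∧ N ≠ ⊥ ∧ N ≠ ⊤ := by
    by_contra e
    push Not at e
    exact hsi ⟨fun N hN => (em (N = ⊥)).imp id (e N hN)⟩
  obtain ⟨N, l0, ⟨nN, hN⟩, hm⟩ := exists_maximal_ge (fun K : Subgroup G => K.Normal ∧ K ≠ ⊤) ⟨n0, n2⟩
  have aN := ab N nN hN
  by_cases hC : C[N] = ⊤
  · obtain ⟨p, hp, hd⟩ := exists_prime_dvd_card (H := N) fun e => n1 (le_bot_iff.1 (e ▸ l0))
    haveI := Fact.mk hp
    obtain ⟨x, hx, ox⟩ := exists_prime_order_mem hp hd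
    obtain ⟨P, hP⟩ := exists_syl p (⊤ : Subgroup G)
    have h1 : commutator G = ⊤ := by_contra fun e => hns (sol_of_top (CfsgH1.isSolvable_of_commutator
      (isSolvable_of_comm (ab _ inferInstance e))))
    have h2 : x ∈ ⁅P, P⁆ := mem_of_pow_mem_coprime (central_pow_index_mem
      (mem_center_iff.2 fun g => ((hC.ge (mem_top g)) x hx).symm) (h1 ▸ mem_top x))
      (by rw [ox, hp.coprime_iff_not_dvd, ← relIndex_top_right]; exact hP.nd)
    have h3 : ¬ Ab[P] := fun e => hp.one_lt.ne' (by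
      rw [comm_self_eq_bot_iff.2 e, mem_bot] at h2
      rw [← ox, h2, orderOf_one])
    have h4 := mna hP.pg h3 fun H hH => by_contra fun e => (lt_inf_norm (nil_of_pg hP.pg) hH).not_ge
      (inf_le_right.trans (hS H e).le)
    refine hns (fin hS aN (hS P h3 ▸ (le_centralizer_iff.1 (hC ▸ le_top)).trans (cent_le_norm P)) h3
      (hP.pg.map _) ?_)
    rw [← eq_of_le_of_card_le (zpowers_le.2 h2) (by rwa [Nat.card_zpowers, ox])]
    exact zpowers_le.2 hx
  · have h1 := hm _ ⟨inferInstance, hC⟩ (le_cent_self aN)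
    have hf := QuotientGroup.mk'_surjective N
    obtain ⟨X, -, hX⟩ := exists_prime_le (H := (⊤ : Subgroup (G ⧸ N))) fun e => hN ((QuotientGroup.ker_mk' N).symm.trans (by
      rw [← MonoidHom.comap_bot, ← e, comap_top]))
    haveI := Fact.mk hX
    have e := map_comap_eq_self_of_surjective hf X
    have l : N ≤ X.comap (QuotientGroup.mk' N) := (QuotientGroup.ker_mk' N).ge.trans (ker_le_comap _ _)
    refine hns (fin (p := o[X]) hS aN l (fun c => ne_bot_of_card_prime hX ?_) (e.symm ▸ isPGroup_of_card' rfl) ?_)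
    · rw [← e, Subgroup.map_eq_bot_iff, QuotientGroup.ker_mk']
      exact (le_cent_of_comm c l).trans h1.le
    · refine le_trans ?_ (QuotientGroup.ker_mk' N).le
      rw [← Subgroup.map_eq_bot_iff, map_commutator, e, comm_self_eq_bot_iff]
      exact (isCyclic_of_card_prime hX rfl).isMulCommutative


end Cfsg.Agent.S4072
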