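import Cfsg.Statements.S4075
import Mathlib
import Cfsg.Agent.L0.M3

set_option autoImplicit false
open Cfsg

namespace Cfsg.Agent.S4075

open Cfsg Subgroup CfsgH2 CfsgL0

/-- Let G be a finite nilpotent group. Every non-abelian subgroup of G is self-normalizing if and only if G is abelian or G is a minimal non-abelian p-group for some prime p (non-abelian of prime-power order with every proper subgroup abelian). -/
theorem result {G : Type*} [Group G] [Finite G]
    [Group.IsNilpotent G] :
    (∀ H : Subgroup G, ¬ IsMulCommutative H → Subgroup.normalizer (H : Set G) = H) ↔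
    (IsMulCommutative G ∨ (IsPrimePow (Nat.card G) ∧ ¬ IsMulCommutative G ∧ ∀ H : Subgroup G, H ≠ ⊤ → IsMulCommutative H)) := by
  have hT : Group.IsNilpotent (⊤ : Subgroup G) := inferInstance
  constructor
  · intro h
    by_cases hc : IsMulCommutative G
    · exact Or.inl hc
    have h1 : ∀ H : Subgroup G, H ≠ ⊤ → IsMulCommutative H := fun H hH => by
      by_contra h2
      have := lt_inf_norm hT (lt_top_iff_ne_top.2 hH)
      rw [h H h2, top_inf_eq] at this
      exact lt_irrefl _ this
    refine Or.inr ⟨?_, hc, h1⟩
    by_contra h2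
    refine hc (isMulComm_top_iff.1 (nil_ab_of_cores hT fun p hp hd => h1 _ fun e => h2 ?_))
    have h3 : IsPGroup p (⊤ : Subgroup G) := e ▸ isPGroup_piCoreOf
    obtain ⟨n, hn⟩ := exists_card_eq_pow h3
    rw [hn] at hd
    rw [← card_top, hn]
    exact hp.out.isPrimePow.pow fun e => hp.out.one_lt.ne' (by simpa [e] using hd)
  · rintro (h | ⟨-, -, h⟩) H hH
    · exact absurd (isMulComm_of_le (isMulComm_top_iff.2 h) le_top) hH
    · by_contra h1
      exact hH (h H fun e => h1 (by rw [e, norm_top]))

end Cfsg.Agent.S4075
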