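import Cfsg.Statements.S4080
import Cfsg.Agent.H1.Misc1
import Mathlib

set_option autoImplicit false
open Cfsg

namespace Cfsg.Agent.S4080

section
open Matrix
open scoped commutatorElement

theorem nil {p : ℕ} [hp : Fact p.Prime] {x : ZMod (p ^ 2)} (h : IsNilpotent x) : ∃ y, x = (p : ZMod (p ^ 2)) * y := by
  obtain ⟨y, e⟩ := (ZMod.natCast_eq_zero_iff x.val p).1 (by
    simpa using (h.map (ZMod.castHom (dvd_pow_self p two_ne_zero) (ZMod p))).eq_zero)
  exact ⟨y, by rw [← ZMod.natCast_zmod_val x, e, Nat.cast_mul]⟩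

theorem expand {R : Type*} [Ring R] {N : R} (h : N ^ 4 = 0) (k : ℕ) :
    (1 + N) ^ k = 1 + k • N + k.choose 2 • N ^ 2 + k.choose 3 • N ^ 3 := by
  induction k with
  | zero => simp
  | succ k ih =>
    rw [pow_succ, ih]
    simp only [Nat.choose_succ_succ' k, Nat.choose_one_right, mul_add, add_mul, smul_mul_assoc, mul_one, one_mul, ← pow_succ, ← sq, h]
    module

theorem key {p : ℕ} [hp : Fact p.Prime] (h3 : 3 < p) {N : Matrix (Fin 2) (Fin 2) (ZMod (p ^ 2))} (h : (1 + N) ^ p = 1) : p • N = 0 := by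
  have pp : (p : ZMod (p ^ 2)) * p = 0 := by rw [← Nat.cast_mul, ← sq, ZMod.natCast_self]
  have n : IsNilpotent N := by
    obtain ⟨r, e⟩ := (Commute.one_left N).exists_add_pow_prime_eq hp.out
    have : N ^ p = (p : ZMod (p ^ 2)) • -(N * r) := by
      rw [h, one_pow, mul_one, add_assoc, left_eq_add, mul_assoc, ← nsmul_eq_mul] at e
      rw [Nat.cast_smul_eq_nsmul, smul_neg, eq_neg_iff_add_eq_zero, e]
    exact ⟨p + p, by rw [pow_add, this, smul_mul_smul_comm, pp, zero_smul]⟩
  obtain ⟨t, ht⟩ := nil (isNilpotent_trace_of_isNilpotent n)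
  obtain ⟨d, hd⟩ := nil (x := N.det) (n.imp fun k e => by rw [← det_pow, e, det_zero])
  have h2 : N ^ 2 = (p : ZMod (p ^ 2)) • (t • N - d • 1) := by
    rw [smul_sub, smul_smul, smul_smul, ← ht, ← hd, sq N]
    ext i j
    fin_cases i <;> fin_cases j <;> simp [Matrix.mul_apply, trace_fin_two, det_fin_two] <;> ring
  have h4 : p • N ^ 2 = 0 := by rw [h2, ← Nat.cast_smul_eq_nsmul (ZMod (p ^ 2)), smul_smul, pp, zero_smul]
  obtain ⟨a, ha⟩ := hp.out.dvd_choose_self (k := 2) (by decide) (by omega)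
  obtain ⟨b, hb⟩ := hp.out.dvd_choose_self (k := 3) (by decide) h3
  rw [expand (by rw [show 4 = 2 + 2 from rfl, pow_add, h2, smul_mul_smul_comm, pp, zero_smul]), ha, hb, mul_comm p, mul_comm p, mul_smul, mul_smul,
    pow_succ N 2, ← smul_mul_assoc, h4] at h
  simpa using h

end

/-- Let p > 3 be a prime and L the direct product of two cyclic groups of order p². Every automorphism of L of order p fixes every element of order p of L. -/
theorem result {p : ℕ} [Fact p.Prime] (hp : 3 < p)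
    (a : MulAut (Multiplicative (ZMod (p ^ 2) × ZMod (p ^ 2)))) (ha : orderOf a = p)
    (x : Multiplicative (ZMod (p ^ 2) × ZMod (p ^ 2))) (hx : orderOf x = p) : a x = x := by
  open Matrix in
  open scoped commutatorElement in
  · let f : MulAut (Multiplicative (ZMod (p ^ 2) × ZMod (p ^ 2))) →* Module.End (ZMod (p ^ 2)) (ZMod (p ^ 2) × ZMod (p ^ 2)) :=
      ⟨⟨fun a => (AddMonoidHom.toMultiplicative.symm a.toMonoidHom).toZModLinearMap _, rfl⟩, fun _ _ => rfl⟩
    let e := LinearMap.toMatrixAlgEquiv (Module.Basis.finTwoProd (ZMod (p ^ 2)))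
    have h := key hp (N := e (f a - 1)) (by
      rw [← map_one e, ← map_add, add_sub_cancel, ← map_pow, ← map_pow, orderOf_dvd_iff_pow_eq_one.1 ha.dvd, map_one])
    rw [← map_nsmul, map_eq_zero_iff _ e.injective] at h
    have h1 : p • x.toAdd = 0 := congrArg Multiplicative.toAdd (orderOf_dvd_iff_pow_eq_one.1 hx.dvd)
    have h2 : ∀ z : ZMod (p ^ 2), p • z = 0 → ∃ y, z = (p : ZMod (p ^ 2)) * y := fun z hz => by
      rw [← ZMod.natCast_zmod_val z, nsmul_eq_mul, ← Nat.cast_mul, ZMod.natCast_eq_zero_iff] at hz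
      obtain ⟨y, e⟩ := Nat.dvd_of_mul_dvd_mul_left (Fact.out : p.Prime).pos ((sq p).symm.dvd.trans hz)
      exact ⟨y, by rw [← ZMod.natCast_zmod_val z, e, Nat.cast_mul]⟩
    obtain ⟨u, hu⟩ := h2 _ (congrArg Prod.fst h1)
    obtain ⟨v, hv⟩ := h2 _ (congrArg Prod.snd h1)
    have := LinearMap.congr_fun h (u, v)
    rw [LinearMap.smul_apply, ← map_nsmul, show p • (u, v) = x.toAdd from Prod.ext (by simpa using hu.symm) (by simpa using hv.symm)] at this
    exact sub_eq_zero (G := ZMod (p ^ 2) × ZMod (p ^ 2)).1 this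

end Cfsg.Agent.S4080
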