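import Cfsg.Statements.S4081
import Mathlib
import Cfsg.Agent.L0.AO
import Cfsg.Agent.H3.Burnside

set_option autoImplicit false
open Cfsg

namespace Cfsg.Agent.S4081

open Subgroup CfsgH2 CfsgL0 Polynomial Function

universe u

theorem ext_aut {G : Type*} [Group G] [Finite G] {P : Subgroup G} [P.Normal] {x y : G}
    (hx : P.IsComplement' (zpowers x)) (hy : P.IsComplement' (zpowers y)) (e : P ≃* P)
    (h : ∀ u : P, e (MulAut.conjNormal x u) = MulAut.conjNormal y (e u)) : ∃ φ : MulAut G, φ x = y ∧ ∀ u : P, φ u = e u := by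
  have g : ∀ z : zpowers x, z ∈ zpowers (⟨x, mem_zpowers x⟩ : zpowers x) := fun ⟨z, k, hk⟩ => ⟨k, Subtype.ext hk⟩
  have o : orderOf y ∣ orderOf (⟨x, mem_zpowers x⟩ : zpowers x) := by
    rw [orderOf_mk, ← Nat.card_zpowers, ← Nat.card_zpowers, ← hx.symm.index_eq_card, hy.symm.index_eq_card]
  let ψ := (SemidirectProduct.lift (φ := P.normalizerMonoidHom.comp (inclusion (P.normalizer_eq_top ▸ le_top)))
    (P.subtype.comp e.toMonoidHom) (monoidHomOfForallMemZpowers g o) fun z => by
      obtain ⟨k, rfl⟩ := mem_powers_iff_mem_zpowers.2 (g z)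
      ext u
      have : ∀ k : ℕ, e (MulAut.conjNormal (x ^ k) u) = MulAut.conjNormal (y ^ k) (e u) := fun k => by
        induction k with
        | zero => simp
        | succ k ih => rw [pow_succ', pow_succ', map_mul, map_mul, MulAut.mul_apply, MulAut.mul_apply, h, ih]
      simp only [map_pow (monoidHomOfForallMemZpowers g o), monoidHomOfForallMemZpowers_apply_gen]
      exact congrArg Subtype.val (this k)).comp (SemidirectProduct.mulEquivSubgroup hx).symm.toMonoidHom
  have e1 : ψ x = y := by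
    have : (SemidirectProduct.mulEquivSubgroup hx).symm x = .inr ⟨x, mem_zpowers x⟩ := by
      rw [MulEquiv.symm_apply_eq]; simp
    simp [ψ, this]
  have e2 : ∀ u : P, ψ u = e u := fun u => by
    have : (SemidirectProduct.mulEquivSubgroup hx).symm u = .inl u := by
      rw [MulEquiv.symm_apply_eq]; simp
    simp [ψ, this]
  refine ⟨MulEquiv.ofBijective ψ (Finite.surjective_iff_bijective.1 (MonoidHom.range_eq_top.1 (top_le_iff.1
    (hy.sup_eq_top.ge.trans (sup_le (fun u hu => ⟨e.symm ⟨u, hu⟩, by simp [e2]⟩) (zpowers_le.2 ⟨x, e1⟩)))))), e1, e2⟩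

theorem bridge {G : Type u} [Group G] {p : ℕ} [Fact p.Prime] {P : Subgroup G} (hP : IsElementaryAbelian p P) :
    ∃ (V : Type u) (_ : AddCommGroup V) (_ : Module (ZMod p) V) (ε : P ≃ V) (L : (P →* P) → Module.End (ZMod p) V),
      (∀ a b, ε (a * b) = ε a + ε b) ∧ ∀ f u, L f (ε u) = ε (f u) := by
  haveI := hP.1
  letI : CommGroup P := { (inferInstance : Group P) with mul_comm := mul_comm' }
  letI : Module (ZMod p) (Additive P) := AddCommGroup.zmodModule fun x => by
    rw [← ofMul_toMul x, ← ofMul_pow, show x.toMul ^ p = 1 from Subtype.ext (hP.2 _ x.toMul.2), ofMul_one]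
  exact ⟨Additive P, inferInstance, inferInstance, Additive.ofMul,
    fun f => (MonoidHom.toAdditive f).toZModLinearMap p, fun _ _ => rfl, fun _ _ => rfl⟩

theorem core {G : Type*} [Group G] [Finite G] {p q : ℕ} [hp : Fact p.Prime] [hq : Fact q.Prime] (hpq : p ≠ q)
    {P : Subgroup G} [P.Normal] (hP : IsElementaryAbelian p P) (h0 : P ≠ ⊥) (hi : P.index = q)
    (hf : ∀ x y : G, orderOf x = q → orderOf y = p → x * y * x⁻¹ ≠ y) :
    (∀ x : G, orderOf x = 1 ∨ orderOf x = p ∨ orderOf x = q) ∧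
    (orderOf (p : ZMod q) = q - 1 ↔ ∀ x y : G, orderOf x = orderOf y → ∃ φ : MulAut G, φ x = y) := by
  have cp := (Nat.coprime_primes hp.out hq.out).2 hpq
  have o1 : ∀ x ∈ P, x ≠ 1 → orderOf x = p := fun x hx => orderOf_eq_prime (hP.2 x hx)
  have o2 : ∀ x ∉ P, orderOf x = q := fun x hx => by
    have a : x ^ q ∈ P := hi ▸ pow_index_mem P x
    refine orderOf_eq_prime (by_contra fun k => hf (x ^ p) _ (orderOf_eq_prime (by rw [← pow_mul, mul_comm, pow_mul,
      hP.2 _ a]) fun e => hx ?_) (o1 _ a k) (by group)) fun e => hx (e ▸ one_mem _)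
    exact zpowers_le.2 a (mem_zpowers_pow_iff.2 (cp.symm.coprime_dvd_right (orderOf_dvd_of_pow_eq_one e)))
  have o3 : ∀ x : G, orderOf x = q → x ∉ P := fun x e hx => by
    by_cases k : x = 1
    · rw [k, orderOf_one] at e; exact hq.out.one_lt.ne e
    · exact hpq ((o1 x hx k).symm.trans e)
  refine ⟨fun x => ?_, ?_⟩
  · by_cases a : x ∈ P
    · by_cases k : x = 1
      exacts [.inl (k ▸ orderOf_one), .inr (.inl (o1 x a k))]
    · exact .inr (.inr (o2 x a))
  obtain ⟨V, _, _, ε, L, hε, hL⟩ := bridge hP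
  haveI := Finite.of_equiv _ ε
  have ε1 : ∀ {u : P}, ε u = 0 ↔ u = 1 := fun {u} => by
    rw [← show ε 1 = 0 by simpa using hε 1 1, ε.apply_eq_iff_eq]
  have ex : ∀ {A B : Module.End (ZMod p) V}, (∀ u, A (ε u) = B (ε u)) → A = B := fun h =>
    LinearMap.ext (ε.surjective.forall.2 h)
  let T : G →* Module.End (ZMod p) V :=
    { toFun x := L (MulAut.conjNormal x : MulAut P).toMonoidHom
      map_one' := ex fun u => by simp [hL]
      map_mul' x y := ex fun u => by simp [hL] }
  have hT : ∀ x u, T x (ε u) = ε (MulAut.conjNormal x u) := fun x u => hL _ u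
  clear_value T
  have Φ0 : ∀ x : G, orderOf x = q → aeval (T x) (cyclotomic q (ZMod p)) = 0 := fun x hx => by
    ext u
    have := congrArg (fun k => aeval (T x) k u) (cyclotomic_prime_mul_X_sub_one (ZMod p) q)
    have e : T x ^ q = 1 := by rw [← T.map_pow, ← hx, pow_orderOf_eq_one, map_one]
    simp only [mul_comm (cyclotomic _ _), map_mul, map_sub, aeval_X, map_one, map_pow, e, sub_self,
      LinearMap.zero_apply, Module.End.mul_apply, LinearMap.sub_apply, sub_eq_zero, Module.End.one_apply] at this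
    obtain ⟨v, hv⟩ := ε.surjective (aeval (T x) (cyclotomic q (ZMod p)) u)
    rw [← hv, hT] at this
    by_contra k
    exact hf x _ hx (o1 _ v.2 fun e => k (hv ▸ ε1.2 (Subtype.ext e))) (congrArg Subtype.val (ε.injective this))
  obtain ⟨x0, hx0⟩ := exists_prime_orderOf_dvd_card' (G := G) q (hi ▸ P.index_dvd_card)
  obtain ⟨v0, hv0⟩ := ne_bot_iff_exists_ne_one.1 h0
  have ou : orderOf (ZMod.unitOfCoprime _ (cp.pow_left 1)) = orderOf (p : ZMod q) := by
    rw [← orderOf_units, ZMod.coe_unitOfCoprime, pow_one]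
  have dΦ : (cyclotomic q (ZMod p)).natDegree = q - 1 := by rw [natDegree_cyclotomic, Nat.totient_prime hq.out]
  refine ⟨fun h => ?_, fun h => ?_⟩
  · have irr : Irreducible (cyclotomic q (ZMod p)) := irreducible_of_dvd_cyclotomic_of_natDegree (f := 1) (by simp) cp
      dvd_rfl (by rw [ou, h, dΦ])
    have k : ∀ (x y : G) (v w : P), orderOf x = q → orderOf y = q → v ≠ 1 → w ≠ 1 →
        ∃ φ : MulAut G, φ x = y ∧ φ v = w := fun x y v w hx hy hv hw => by
      have c : ∀ x : G, orderOf x = q → P.IsComplement' (zpowers x) := fun x hx => isComplement'_of_coprime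
        (by rw [Nat.card_zpowers, hx, ← hi, card_mul_index]) (by
          rw [Nat.card_zpowers, hx]
          exact coprime_of_pgroup (isPGroup_of_exp hP.2) fun e => hpq ((Nat.prime_dvd_prime_iff_eq hp.out hq.out).1 e))
      obtain ⟨e, e1, e2⟩ := exists_intertwine irr (Φ0 x hx) (Φ0 y hy) (mt ε1.1 hv) (mt ε1.1 hw)
      obtain ⟨φ, a, b⟩ := ext_aut (c x hx) (c y hy) ⟨(ε.trans e.toEquiv).trans ε.symm, fun a b => ε.injective (by
        simp [hε])⟩ fun u => ε.injective (by simp [← hT, e1])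
      exact ⟨φ, a, (b v).trans (by simp [e2])⟩
    intro x y e
    by_cases a : x ∈ P
    · by_cases b : x = 1
      · exact ⟨1, by rw [b, orderOf_one, eq_comm, orderOf_eq_one_iff] at e; simp [b, e]⟩
      have c : y ∈ P := by_contra fun k => hpq ((o1 x a b).symm.trans (e.trans (o2 y k)))
      obtain ⟨φ, -, d⟩ := k x0 x0 ⟨x, a⟩ ⟨y, c⟩ hx0 hx0 (fun k => b (congrArg Subtype.val k)) fun k => b (by
        rwa [show y = 1 from congrArg Subtype.val k, orderOf_one, orderOf_eq_one_iff] at e)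
      exact ⟨φ, d⟩
    · exact (k x y v0 v0 (o2 x a) (e ▸ o2 x a) hv0 hv0).imp fun _ => And.left
  · obtain ⟨g, g1, g2, w, w0, hw⟩ := exists_irr _ (cyclotomic_ne_zero q (ZMod p)) (ε v0) (mt ε1.1 hv0)
      (by rw [Φ0 x0 hx0]; rfl)
    obtain ⟨w, rfl⟩ := ε.surjective w
    have w1 : w.1 ≠ 1 := fun e => w0 (ε1.2 (Subtype.ext e))
    have m : ∀ (φ : MulAut G) (u : P), φ u ∈ P := fun φ u => by_contra fun k => o3 u ((φ.orderOf_eq _).symm.trans (o2 _ k)) u.2
    have k : ∀ φ : MulAut G, aeval (T (φ x0)) g (ε ⟨_, m φ w⟩) = 0 := fun φ => by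
      have := aeval_intertwine (S := T x0) (T := T (φ x0)) (L ((φ.toMonoidHom.comp P.subtype).codRestrict P (m φ)))
        (ε.surjective.forall.2 fun u => by rw [hT, hL, hL, hT]; exact congrArg ε (Subtype.ext (by simp))) g (ε w)
      rw [hw, map_zero, hL] at this
      exact this.symm
    have z := aeval_eq_zero_of_cover (T := fun x : {x : G // orderOf x = q} => T x) g1 (fun x y => by
      haveI : Fact (Nat.card (G ⧸ P)).Prime := ⟨(hi.symm ▸ hq.out : P.index.Prime)⟩
      obtain ⟨j, hj⟩ := mem_powers_of_prime_card (G := G ⧸ P) rfl (g := y.1) (g' := x.1)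
        fun e => o3 _ y.2 ((QuotientGroup.eq_one_iff _).1 e)
      refine ⟨X ^ j, ?_⟩
      have a : (y.1 ^ j)⁻¹ * x ∈ P := QuotientGroup.eq.1 hj
      have b : T ((y.1 ^ j)⁻¹ * x) = 1 := ex fun u => (hT ..).trans (congrArg ε (Subtype.ext (mul_inv_eq_iff_eq_mul.2
        (congrArg Subtype.val (hP.1.1.1 ⟨_, a⟩ u)))))
      rw [map_pow, aeval_X, ← T.map_pow, ← mul_one (T (y.1 ^ j)), ← b, ← T.map_mul, mul_inv_cancel_left])
      (ε.surjective.forall.2 fun v hv => by
        obtain ⟨φ, e⟩ := h w v ((o1 _ w.2 w1).trans (o1 _ v.2 fun e => hv (ε1.2 (Subtype.ext e))).symm)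
        exact ⟨⟨φ x0, (φ.orderOf_eq _).trans hx0⟩, by simpa [e] using k φ⟩)
      fun y => by
        obtain ⟨φ, e⟩ := h x0 y (hx0.trans y.2.symm)
        exact ⟨_, fun c => w1 (φ.map_eq_one_iff.1 (congrArg Subtype.val (ε1.1 c))), e ▸ k φ⟩
    rw [← ou, ← natDegree_of_dvd_cyclotomic_of_irreducible (f := 1) (by simp) cp g2 g1]
    refine le_antisymm (dΦ ▸ natDegree_le_of_dvd g2 (cyclotomic_ne_zero _ _)) ?_
    haveI := Fact.mk g1
    haveI : CharP (AdjoinRoot g) p := charP_of_injective_algebraMap (algebraMap (ZMod p) _).injective p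
    haveI : NeZero (q : AdjoinRoot g) := .of_not_dvd _ fun e => hpq ((Nat.prime_dvd_prime_iff_eq hp.out hq.out).1 e)
    have ζ : IsPrimitiveRoot (AdjoinRoot.root g) q := isRoot_cyclotomic_iff.1 (by
      rw [← map_cyclotomic _ (algebraMap (ZMod p) _), IsRoot.def, eval_map_algebraMap, AdjoinRoot.aeval_eq,
        AdjoinRoot.mk_eq_zero]; exact g2)
    classical
    refine le_trans ?_ ((Multiset.toFinset_card_le _).trans (card_roots_map_le_natDegree (A := ZMod p) (B := AdjoinRoot g)
      (f := algebraMap _ _) g))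
    rw [← Nat.card_Ico 1 q]
    refine Finset.card_le_card_of_injOn (AdjoinRoot.root g ^ ·) (fun i hi => ?_) fun i hi j hj =>
      ζ.pow_inj (Finset.mem_Ico.1 hi).2 (Finset.mem_Ico.1 hj).2
    have hi := Finset.mem_Ico.1 hi
    have := dvd_of_aeval g1 w0 hw (f := g.comp (X ^ i)) (by
      rw [aeval_comp, map_pow, aeval_X, ← T.map_pow, z ⟨x0 ^ i, by
        rw [Nat.Coprime.orderOf_pow (hx0.symm ▸ Nat.coprime_of_lt_prime (by omega) hi.2 hq.out), hx0]⟩]; rfl)
    rw [← AdjoinRoot.mk_eq_zero, ← AdjoinRoot.aeval_eq, aeval_comp, map_pow, aeval_X] at this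
    simpa [g1.ne_zero, eval_map, aeval_def] using this

/-- Let G be a finite group whose order is not a prime power. Then the automorphism group of G has exactly three orbits on G if and only if there are distinct primes p, q with #G = pⁿ·q (n ≥ 1) such that G has a normal elementary abelian Sylow p-subgroup P, p is a primitive root modulo q (the multiplicative order of p mod q is q − 1), and every element of order q of G acts on P without non-identity fixed points. -/
theorem result {G : Type*} [Group G] [Finite G] (hnpp : ¬ IsPrimePow (Nat.card G)) (hnt : Nat.card G ≠ 1) :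
    Nat.card (MulAction.orbitRel.Quotient (MulAut G) G) = 3 ↔
    ∃ (p q n : ℕ) (_ : Fact p.Prime) (_ : Fact q.Prime), p ≠ q ∧ 1 ≤ n ∧ Nat.card G = p ^ n * q ∧
      (∀ P : Sylow p G, (P : Subgroup G).Normal ∧ Cfsg.IsElementaryAbelian p (P : Subgroup G)) ∧
      orderOf (p : ZMod q) = q - 1 ∧
      ∀ x y : G, orderOf x = q → orderOf y = p → x * y * x⁻¹ ≠ y := by
  classical
  let f : MulAction.orbitRel.Quotient (MulAut G) G → ℕ := Quotient.lift orderOf fun a b ⟨φ, e⟩ =>
    e ▸ (MulEquiv.orderOf_eq φ b)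
  have c3 : ∀ {p q : ℕ}, p.Prime → q.Prime → p ≠ q → ({1, p, q} : Set ℕ).ncard = 3 := fun hp hq e =>
    Set.ncard_eq_three.2 ⟨_, _, _, hp.one_lt.ne, hq.one_lt.ne, e, rfl⟩
  have sb : ∀ {p q : ℕ}, p.Prime → q.Prime → p ∣ Nat.card G → q ∣ Nat.card G → ({1, p, q} : Set ℕ) ⊆ Set.range f :=
    fun {p q} hp hq a b => by
    haveI := Fact.mk hp
    haveI := Fact.mk hq
    rintro _ (rfl | rfl | rfl)
    · exact ⟨Quotient.mk _ 1, orderOf_one⟩
    · exact (exists_prime_orderOf_dvd_card' _ a).elim fun x hx => ⟨Quotient.mk _ x, hx⟩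
    · exact (exists_prime_orderOf_dvd_card' _ b).elim fun x hx => ⟨Quotient.mk _ x, hx⟩
  refine ⟨fun h => ?_, ?_⟩
  · obtain ⟨r, hr, s, hs, e⟩ := Finset.one_lt_card.1 (show 1 < (Nat.card G).primeFactors.card by
      have := mt isPrimePow_iff_card_primeFactors_eq_one.2 hnpp
      have := mt Finset.card_eq_zero.1 (mt Nat.primeFactors_eq_empty.1 (not_or.2 ⟨Nat.card_pos.ne', hnt⟩))
      omega)
    have le : (Set.range f).ncard ≤ 3 := by rw [← Set.image_univ, ← h, ← Set.ncard_univ]; exact Set.ncard_image_le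
    have rg : ∀ {p q : ℕ}, p.Prime → q.Prime → p ≠ q → p ∣ Nat.card G → q ∣ Nat.card G → {1, p, q} = Set.range f :=
      fun hp hq e a b => Set.eq_of_subset_of_ncard_le (sb hp hq a b) (by rwa [c3 hp hq e])
    have ⟨r1, r2, _⟩ := Nat.mem_primeFactors.1 hr
    have ⟨s1, s2, _⟩ := Nat.mem_primeFactors.1 hs
    have tr : ∀ x y : G, orderOf x = orderOf y → ∃ φ : MulAut G, φ x = y := fun x y k => Quotient.exact
      (Set.injOn_of_ncard_image_eq (s := Set.univ) (f := f) (by
        rw [Set.image_univ, ← rg r1 s1 e r2 s2, c3 r1 s1 e, Set.ncard_univ, h]) (Set.toFinite _) (Set.mem_univ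
        (Quotient.mk _ y)) (Set.mem_univ (Quotient.mk _ x)) k.symm)
    have pr : ∀ {p q t : ℕ}, p.Prime → q.Prime → p ≠ q → p ∣ Nat.card G → q ∣ Nat.card G → t.Prime → t ∣ Nat.card G →
        t = p ∨ t = q := fun hp hq e a b ht c =>
      ((rg hp hq e a b).ge (sb ht ht c c (.inr (.inl rfl)))).resolve_left ht.one_lt.ne'
    haveI : Group.IsSolvable G := CfsgH3.burnside_paqb r s (Nat.card G) (Nat.card G) r1 s1 (by
      rw [← mul_pow]
      refine (Nat.dvd_pow_self_iff Nat.card_pos.ne' (mul_ne_zero r1.ne_zero s1.ne_zero)).2 fun t ht => ?_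
      rw [Nat.primeFactors_mul r1.ne_zero s1.ne_zero, r1.primeFactors, s1.primeFactors]
      simpa using pr r1 s1 e r2 s2 (Nat.prime_of_mem_primeFactors ht) (Nat.dvd_of_mem_primeFactors ht))
    obtain ⟨p, hp, V, -, v2, v3, v4, -⟩ := exists_min_norm (M := ⊤) (N := (⊤ : Subgroup G)) inferInstance
      (fun k => hnt (by rw [← card_top, k, card_bot])) (normalizer_eq_top _).ge
    haveI : V.Normal := normalizer_eq_top_iff.1 (top_le_iff.1 v3)
    have p2 : p ∣ Nat.card G := (dvd_card_of_pgroup (isPGroup_of_exp v4.2) v2).trans V.card_subgroup_dvd_card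
    obtain ⟨q, q1, q2, pq⟩ : ∃ q : ℕ, q.Prime ∧ q ∣ Nat.card G ∧ p ≠ q := by
      by_cases k : p = r
      exacts [⟨s, s1, s2, k ▸ e⟩, ⟨r, r1, r2, k⟩]
    haveI hq := Fact.mk q1
    have od : ∀ x : G, orderOf x = 1 ∨ orderOf x = p ∨ orderOf x = q := fun x =>
      (rg hp.out q1 pq p2 q2).ge ⟨Quotient.mk _ x, rfl⟩
    have cp := (Nat.coprime_primes hp.out q1).2 pq
    have hf : ∀ x y : G, orderOf x = q → orderOf y = p → x * y * x⁻¹ ≠ y := fun x y a b k => by
      have := Commute.orderOf_mul_eq_mul_orderOf_of_coprime (mul_inv_eq_iff_eq_mul.1 k) (a ▸ b ▸ cp.symm)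
      rw [a, b] at this
      have h1 := hp.out.two_le
      have h2 := q1.two_le
      rcases od (x * y) with c | c | c <;> nlinarith
    have pO := isPGroup_pCore (p := p) (G := G)
    haveI := (nontrivial_iff_ne_bot _).2 (ne_bot_of_le_ne_bot v2 (le_pCore (isPGroup_of_exp v4.2)))
    haveI := pO.center_nontrivial
    obtain ⟨z, hz⟩ := exists_ne (1 : center (pCore p G))
    set W := (center (pCore p G)).map (pCore p G).subtype
    have pW : PG[p, W] := (pO.to_subgroup _).map _
    have po : ∀ {H : Subgroup G}, PG[p, H] → ∀ x ∈ H, x ^ p = 1 := fun k x hx => by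
      obtain ⟨j, hj⟩ := pgroup_mem_order k hx
      rcases od x with c | c | c
      · rw [orderOf_eq_one_iff.1 c, one_pow]
      · rw [← c, pow_orderOf_eq_one]
      · exact absurd ((hj ▸ c : p ^ j = q) ▸ cp.pow_left j) (by simpa using q1.one_lt.ne')
    have eW : ∀ P : Sylow p G, (P : Subgroup G) = W := fun P => le_antisymm (fun x hx => by
      by_cases k : x = 1
      · exact k ▸ one_mem _
      obtain ⟨φ, rfl⟩ := tr z.1.1 x ((orderOf_eq_prime (po pW _ ⟨_, z.2, rfl⟩) fun e => hz (Subtype.ext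
        (Subtype.ext e))).trans (orderOf_eq_prime (po P.2 x hx) k).symm)
      exact characteristic_iff_le_comap.1 (inferInstance : W.Characteristic) φ ⟨_, z.2, rfl⟩) (pW.le_sylow_of_normal P)
    have el : IsElementaryAbelian p W := ⟨inferInstance, po pW⟩
    have w0 : W ≠ ⊥ := fun e => hz (Subtype.ext (Subtype.ext (mem_bot.1 (e.le ⟨_, z.2, rfl⟩))))
    obtain ⟨P⟩ : Nonempty (Sylow p G) := inferInstance
    have hi : W.index = q := by
      have a := Nat.eq_prime_pow_of_unique_prime_dvd (p := q) (index_ne_zero_of_finite (H := W)) fun {t} t1 t2 =>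
        (pr hp.out q1 pq p2 q2 t1 (t2.trans W.index_dvd_card)).resolve_left fun k => P.not_dvd_index (eW P ▸ k ▸ t2)
      generalize W.index.primeFactorsList.length = j at a
      rcases j with _ | _ | j
      · rw [← card_mul_index W, a, pow_zero, mul_one] at q2
        exact absurd q2 (q1.coprime_iff_not_dvd.1 (coprime_of_pgroup pW (hp.out.coprime_iff_not_dvd.1 cp)).symm)
      · simpa using a
      obtain ⟨E, hE⟩ := Sylow.exists_subgroup_card_pow_prime q (G := G) (n := 2)
        ((pow_dvd_pow q (by omega)).trans (a ▸ W.index_dvd_card))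
      obtain ⟨b, b1, b2, b3⟩ := exists_cent1_ne_bot (B := E) (Q := W) (IsPGroup.isMulCommutative_of_card_eq_prime_sq hE)
        (fun k => by
          obtain ⟨g, hg⟩ := IsCyclic.exists_ofOrder_eq_natCard (α := E)
          rw [← orderOf_coe, hE] at hg
          have h2 := q1.two_le
          rcases od g with c | c | c
          · nlinarith
          · exact pq ((Nat.prime_dvd_prime_iff_eq hp.out q1).1 (hp.out.dvd_of_dvd_pow (c.symm.trans hg).dvd))
          · nlinarith)
        (le_top.trans (normalizer_eq_top W).ge) (hE ▸ (coprime_of_pgroup pW (hp.out.coprime_iff_not_dvd.1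
          (cp.pow_right 2))).symm) w0
      obtain ⟨⟨c, c1, c2⟩, c3⟩ := ne_bot_iff_exists_ne_one.1 b3
      refine (hf b c ?_ (orderOf_eq_prime (el.2 c c1) fun e => c3 (Subtype.ext e))
        (mul_inv_eq_iff_eq_mul.2 (mem_centralizer_singleton_iff.1 c2).symm)).elim
      refine ((od b).resolve_left (mt orderOf_eq_one_iff.1 b2)).resolve_left fun k => ?_
      exact hp.out.coprime_iff_not_dvd.1 (cp.pow_right 2) (k ▸ hE ▸ Subgroup.orderOf_dvd_natCard E b1)
    obtain ⟨n, hn⟩ := IsPGroup.iff_card.1 pW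
    exact ⟨p, q, n, hp, hq, pq, Nat.pos_of_ne_zero fun k => w0 (card_eq_one.1 (by rw [hn, k, pow_zero])),
      by rw [← hn, ← hi, card_mul_index], fun P => (eW P).symm ▸ ⟨inferInstance, el⟩,
      (core pq el w0 hi hf).2.2 tr, hf⟩
  · rintro ⟨p, q, n, hp, hq, pq, hn, hc, h1, h2, hf⟩
    obtain ⟨P⟩ : Nonempty (Sylow p G) := inferInstance
    haveI := (h1 P).1
    have p2 : p ∣ Nat.card G := hc ▸ (dvd_pow_self p (by omega)).mul_right _
    have cP : Nat.card P = p ^ n := by
      rw [P.card_eq_multiplicity, hc, Nat.factorization_mul (pow_ne_zero _ hp.out.ne_zero) hq.out.ne_zero]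
      simp [hp.out.factorization_pow, hq.out.factorization, pq, Ne.symm pq]
    obtain ⟨a, b⟩ := core pq (h1 P).2 (P.ne_bot_of_dvd_card p2) (Nat.eq_of_mul_eq_mul_left (pow_pos hp.out.pos n)
      (by rw [← hc, ← cP, card_mul_index])) hf
    have i : Injective f := fun x y => Quotient.inductionOn₂ x y fun x y e => Quotient.sound (b.1 h2 y x e.symm)
    rw [← Set.ncard_range_of_injective i, ← c3 hp.out hq.out pq]
    congr 1
    refine (sb hp.out hq.out p2 (hc ▸ dvd_mul_left _ _)).antisymm' ?_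
    rintro _ ⟨x, rfl⟩
    exact Quotient.inductionOn x a

end Cfsg.Agent.S4081
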