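import Cfsg.Statements.S4082
import Mathlib
import Cfsg.Agent.H9.PbC

set_option autoImplicit false
open Cfsg

namespace Cfsg.Agent.S4082

/-- Let p be an odd prime and G a finite group with Sylow p-subgroup P. Say that G has restricted p-by-cyclic subgroups when every subgroup H of G whose Sylow p-subgroup is normal in H with cyclic quotient is itself cyclic or dihedral of order 2pⁿ for some n. Then G has restricted p-by-cyclic subgroups if and only if P is cyclic and one of the following holds: (1) N_G(P) = C_G(P); or (2) N_G(P)/C_G(P) has order 2 and, for the subgroup Q of order p of P, the centralizer C_G(Q) is abelian and every element of N_G(Q) outside C_G(Q) is an involution inverting every element of C_G(Q). -/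
theorem result {G : Type*} [Group G] [Finite G] {p : ℕ}
    [Fact p.Prime] (hp : p ≠ 2) (P : Sylow p G) :
    (∀ H : Subgroup G, (∀ S : Sylow p ↥H, (S : Subgroup ↥H).Normal) →
        (∀ (S : Sylow p ↥H) [(S : Subgroup ↥H).Normal], IsCyclic (↥H ⧸ (S : Subgroup ↥H))) →
        IsCyclic H ∨ (∃ n : ℕ, Nonempty (H ≃* DihedralGroup (p ^ n)))) ↔
    (IsCyclic P ∧
      (Subgroup.normalizer ((P : Subgroup G) : Set G) = Subgroup.centralizer ((P : Subgroup G) : Set G) ∨
       ((Subgroup.centralizer ((P : Subgroup G) : Set G)).relIndex (Subgroup.normalizer ((P : Subgroup G) : Set G)) = 2 ∧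
        ∀ Q : Subgroup G, Q ≤ P → Nat.card Q = p →
          IsMulCommutative ↥(Subgroup.centralizer (Q : Set G)) ∧
          ∀ x : G, x ∈ Subgroup.normalizer (Q : Set G) → x ∉ Subgroup.centralizer (Q : Set G) →
            orderOf x = 2 ∧ ∀ c : G, c ∈ Subgroup.centralizer (Q : Set G) → x * c * x⁻¹ = c⁻¹))) := by
  open Subgroup Cfsg CfsgH2 Function in
  open scoped commutatorElement in
  open CfsgPB in
  classical
  have hpp : p.Prime := Fact.out
  have hodd : ∀ {q : G}, orderOf q = p → q⁻¹ ≠ q := fun {q} hq e => by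
    have : q ^ 2 = 1 := by rw [pow_two]; nth_rewrite 1 [← e]; exact inv_mul_cancel q
    have := orderOf_dvd_of_pow_eq_one this
    rw [hq] at this
    exact hp ((Nat.prime_dvd_prime_iff_eq hpp Nat.prime_two).1 this)
  constructor
  · intro h
    have key : ∀ (S : Subgroup G) (x : G), PG[p, S] → Cyc[S] → x ∈ N[S] → x ∉ C[S] →
        x ^ 2 = 1 ∧ ∀ s ∈ S, x * s * x⁻¹ = s⁻¹ := by
      intro S x hS hc hx hx'
      rcases fwd h hS hx with h1 | ⟨n, ⟨e⟩⟩
      · haveI := h1
        exact absurd (le_cent_of_comm (K := S ⊔ zpowers x) inferInstance le_sup_left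
          (mem_sup_right (mem_zpowers x))) hx'
      · obtain ⟨r, r1, r2, r3, r4⟩ := dih_amb (pow_pos hpp.pos n).ne' e
        have hS' : S ≤ zpowers r := by
          intro s hs
          by_contra hn
          have h2 := orderOf_dvd_of_pow_eq_one (r4 s (mem_sup_left hs) hn).1
          have := eq_one_of_coprime_order hS hs (Nat.Coprime.coprime_dvd_left h2
            ((Nat.coprime_primes Nat.prime_two hpp).2 (Ne.symm hp)))
          exact hn (this ▸ one_mem _)
        have hn : x ∉ zpowers r := fun hm => hx' (le_cent_of_comm inferInstance hS' hm)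
        obtain ⟨h2, h3⟩ := r4 x (mem_sup_right (mem_zpowers x)) hn
        exact ⟨h2, fun s hs => h3 s (hS' hs)⟩
    have hP : Cyc[(P : Subgroup G)] := by
      have := fwd h P.isPGroup' (one_mem _)
      rw [zpowers_one_eq_bot, sup_bot_eq] at this
      refine this.resolve_right ?_
      rintro ⟨n, ⟨e⟩⟩
      have h2 : 2 ∣ o[(P : Subgroup G)] := by
        rw [Nat.card_congr e.toEquiv, DihedralGroup.nat_card]; exact dvd_mul_right _ _
      exact hp (isPGroup_iff_piN.1 P.isPGroup' 2 Nat.prime_two h2).symm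
    refine ⟨hP, ?_⟩
    by_cases hNC : N[(P : Subgroup G)] = C[(P : Subgroup G)]
    · exact Or.inl hNC
    right
    obtain ⟨w, w1, w2⟩ : ∃ w ∈ N[(P : Subgroup G)], w ∉ C[(P : Subgroup G)] := by
      by_contra hc
      push Not at hc
      exact hNC (le_antisymm hc (cent_le_norm _))
    have hw := (key _ w P.isPGroup' hP w1 w2).2
    refine ⟨relIndex_eq_two_iff.2 ⟨w, w1, fun b hb => ?_⟩, fun Q hQ hc => ?_⟩
    · by_cases hb' : b ∈ C[(P : Subgroup G)]
      · exact Or.inr ⟨hb', fun h1 => w2 ((mul_mem_cancel_left hb').1 h1)⟩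
      · refine Or.inl ⟨mem_cent_iff.2 fun s hs => ?_, hb'⟩
        have h1 := (key _ b P.isPGroup' hP hb hb').2 _ (inv_mem hs)
        rw [inv_inv] at h1
        have h2 := hw s hs
        calc s * (b * w) = b * s⁻¹ * b⁻¹ * (b * w) := by rw [h1]
          _ = b * (w * s * w⁻¹) * b⁻¹ * (b * w) := by rw [h2]
          _ = b * w * s := by group
    · have hQp : PG[p, Q] := P.isPGroup'.to_le hQ
      have hQc := cyc_le hP hQ
      obtain ⟨q, q1, q2⟩ := exists_prime_order_mem (H := Q) hpp (hc ▸ dvd_rfl)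
      have w3 : w ∈ N[Q] := norm_le_norm_of_cyclic hP hQ w1
      have w4 : w ∉ C[Q] := fun h1 => hodd q2 (by
        rw [← hw q (hQ q1), ← mem_cent_iff.1 h1 q q1, mul_inv_cancel_right])
      have inv : ∀ x ∈ N[Q], x ∉ C[Q] → ∀ c ∈ C[Q], x * c * x⁻¹ = c⁻¹ := by
        intro x h1 h2 c h3
        have e1 := (key Q x hQp hQc h1 h2).1
        have e2 := (key Q (x * c) hQp hQc (mul_mem h1 (cent_le_norm _ h3))
          fun h4 => h2 ((mul_mem_cancel_right h3).1 h4)).1
        rw [pow_two] at e1 e2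
        rw [inv_eq_of_mul_eq_one_right e1, eq_inv_iff_mul_eq_one, mul_assoc, e2]
      refine ⟨isMulComm_iff.2 fun a ha b hb => ?_, fun x h1 h2 => ⟨?_, inv x h1 h2⟩⟩
      · have e1 := inv w w3 w4 _ (mul_mem ha hb)
        have e2 : w * (a * b) * w⁻¹ = (w * a * w⁻¹) * (w * b * w⁻¹) := by group
        rw [e2, inv w w3 w4 a ha, inv w w3 w4 b hb, ← mul_inv_rev] at e1
        exact (inv_injective e1).symm
      · exact orderOf_eq_prime (key Q x hQp hQc h1 h2).1 fun e => h2 (e ▸ one_mem _)
  · rintro ⟨hP, h⟩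
    refine bwd (C := fun H => IsCyclic H ∨ ∃ n : ℕ, Nonempty (H ≃* DihedralGroup (p ^ n))) P ?_ ?_
    · intro H g h1
      have e := H.equivMapOfInjective (cj g) (cj_injective g)
      rcases h1 with h1 | ⟨n, ⟨e1⟩⟩
      · exact Or.inl (isCyclic_of_surjective _ e.symm.surjective)
      · exact Or.inr ⟨n, ⟨e.trans e1⟩⟩
    intro S x hS hx ho
    have hSp : PG[p, S] := P.isPGroup'.to_le hS
    have hSc := cyc_le hP hS
    by_cases hc : x ∈ C[S]
    · exact Or.inl (cyc_of_cent hSp hSc hc ho)
    right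
    have hS0 : S ≠ ⊥ := fun e => hc (by rw [e, cent_bot]; trivial)
    obtain ⟨q, q1, q2⟩ := exists_prime_order_mem hpp (dvd_card_of_pgroup hSp hS0)
    have hQS : zpowers q ≤ S := zpowers_le.2 q1
    have hQc : o[zpowers q] = p := by rw [Nat.card_zpowers, q2]
    have x1 : x ∈ N[zpowers q] := norm_le_norm_of_cyclic hSc hQS hx
    have x2 : x ∉ C[zpowers q] := fun h1 => hc (by
      refine coprime_odd_faithful_omega (A := zpowers x) hp ?_ S hSp (zpowers_le.2 hx) ?_
        (mem_zpowers x)
      · rw [Nat.card_zpowers]; exact (coprime_iff_not_dvd hpp).1 ho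
      · refine (zpowers_le.2 h1).trans (cent_anti (omegaOne_le_of fun y hy h2 => ?_))
        refine le_of_card_dvd_of_cyclic hSc (zpowers_le.2 hy) hQS ?_ (mem_zpowers y)
        rw [Nat.card_zpowers, hQc]; exact orderOf_dvd_of_pow_eq_one h2)
    haveI := hP
    have hPQ : (P : Subgroup G) ≤ C[zpowers q] := le_cent_of_comm inferInstance (hQS.trans hS)
    rcases h with h | ⟨-, h⟩
    · exfalso
      have s1 : Syl p (P : Subgroup G) C[zpowers q] := (syl_top P).mono hPQ le_top
      obtain ⟨k, hk, n, hn, e⟩ := s1.frattini (norm_le_norm_cent _ x1)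
      rw [h] at hn
      exact x2 (e ▸ mul_mem hk (cent_anti (hQS.trans hS) hn))
    obtain ⟨h1, h2⟩ := (h _ (hQS.trans hS) hQc).2 x x1 x2
    obtain ⟨a, rfl⟩ := exists_gen hSc
    obtain ⟨n, hn⟩ := pgroup_mem_order hSp (mem_zpowers a)
    have h3 : x ^ 2 = 1 := h1 ▸ pow_orderOf_eq_one x
    refine ⟨n, hn ▸ dih_of (mem_sup_left (mem_zpowers a)) (mem_sup_right (mem_zpowers x)) h3
      (h2 a (hPQ (hS (mem_zpowers a)))) (fun hm => x2 (hPQ (hS hm))) fun g hg => ?_⟩
    obtain ⟨s, hs, t, ht, rfl⟩ := (mem_sup_of_norm' (zpowers_le.2 hx)).1 hg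
    rw [mem_zpowers_iff_mem_range_orderOf, h1] at ht
    simp only [Finset.mem_image, Finset.mem_range] at ht
    obtain ⟨i, hi, rfl⟩ := ht
    interval_cases i
    · left; simpa using hs
    · right
      rw [pow_two] at h3
      have := conj_mem_of_norm hx hs
      rw [pow_one]
      rwa [inv_eq_of_mul_eq_one_right h3, mul_assoc] at this

end Cfsg.Agent.S4082
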