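import Cfsg.Statements.S4083
import Mathlib
import Cfsg.Agent.H9.PbC

set_option autoImplicit false
open Cfsg

namespace Cfsg.Agent.S4083

/-- Let G be a finite group with Sylow 2-subgroup P. Every subgroup H of G whose Sylow 2-subgroup is normal in H with cyclic quotient is cyclic, dihedral of 2-power order, or isomorphic to the alternating group of degree 4, if and only if either P is cyclic, or P is dihedral (of order at least 4) and every elementary abelian subgroup K of order 4 of P satisfies C_G(K) = K. -/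
theorem result {G : Type*} [Group G] [Finite G] (P : Sylow 2 G) :
    (∀ H : Subgroup G, (∀ S : Sylow 2 ↥H, (S : Subgroup ↥H).Normal) →
        (∀ (S : Sylow 2 ↥H) [(S : Subgroup ↥H).Normal], IsCyclic (↥H ⧸ (S : Subgroup ↥H))) →
        IsCyclic H ∨ (∃ n : ℕ, Nonempty (H ≃* DihedralGroup (2 ^ n))) ∨ Nonempty (H ≃* alternatingGroup (Fin 4))) ↔
    (IsCyclic P ∨
      ((∃ n : ℕ, 1 ≤ n ∧ Nonempty ((P : Subgroup G) ≃* DihedralGroup (2 ^ n))) ∧
        ∀ K : Subgroup G, K ≤ P → Nat.card K = 4 → (∀ k ∈ K, k ^ 2 = 1) → Subgroup.centralizer (K : Set G) = K)) := by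
  open Subgroup Cfsg CfsgH2 Function in
  open scoped commutatorElement in
  open CfsgPB in
  classical
  have ab2 : ∀ K : Subgroup G, (∀ k ∈ K, k ^ 2 = 1) → Ab[K] := fun K hK =>
    isMulComm_iff.2 fun a ha b hb => by
      have e1 := hK a ha
      have e2 := hK b hb
      have e3 := hK _ (mul_mem ha hb)
      rw [pow_two] at e1 e2 e3
      rw [← inv_eq_of_mul_eq_one_right e3, mul_inv_rev, inv_eq_of_mul_eq_one_right e1,
        inv_eq_of_mul_eq_one_right e2]
  constructor
  · intro h
    by_cases hP : Cyc[(P : Subgroup G)]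
    · exact Or.inl hP
    right
    constructor
    · have := fwd h P.isPGroup' (one_mem _)
      rw [zpowers_one_eq_bot, sup_bot_eq] at this
      rcases this with h1 | ⟨n, ⟨e⟩⟩ | ⟨⟨e⟩⟩
      · exact absurd h1 hP
      · refine ⟨n, Nat.pos_of_ne_zero ?_, ⟨e⟩⟩
        rintro rfl
        refine hP (isCyclic_of_prime_card (p := 2) ?_)
        rw [Nat.card_congr e.toEquiv, DihedralGroup.nat_card]; rfl
      · have h2 : 3 ∣ o[(P : Subgroup G)] := by
          rw [Nat.card_congr e.toEquiv, nat_card_alternatingGroup]; simp; decide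
        exact absurd (isPGroup_iff_piN.1 P.isPGroup' 3 Nat.prime_three h2) (by simp)
    · intro K hK hc h2
      have hab := ab2 K h2
      refine le_antisymm (fun x hx => ?_) (le_cent_self hab)
      have hH : Ab[K ⊔ zpowers x] :=
        isMulComm_sup hab inferInstance (le_centralizer_iff.1 (zpowers_le.2 hx))
      rcases fwd h (P.isPGroup'.to_le hK) (cent_le_norm _ hx) with h1 | ⟨n, ⟨e⟩⟩ | ⟨⟨e⟩⟩
      · obtain ⟨a, rfl⟩ := exists_gen (cyc_le h1 le_sup_left)
        have := orderOf_dvd_of_pow_eq_one (h2 a (mem_zpowers a))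
        rw [← Nat.card_zpowers, hc] at this
        omega
      · obtain ⟨r, r1, r2, r3, r4⟩ := dih_amb (pow_pos two_pos n).ne' e
        obtain ⟨y, y1, y2⟩ : ∃ y ∈ K ⊔ zpowers x, y ∉ zpowers r := by
          by_contra hcon
          push Not at hcon
          have := card_le_of_le hcon
          rw [r3, Nat.card_zpowers, r2] at this
          have := Nat.two_pow_pos n
          omega
        have e1 := (r4 y y1 y2).2 r (mem_zpowers r)
        rw [comm_of_isMulComm hH y1 r1, mul_inv_cancel_right] at e1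
        have e2 : r ^ 2 = 1 := by rw [pow_two]; nth_rewrite 1 [e1]; exact inv_mul_cancel r
        have e3 := Nat.le_of_dvd two_pos (orderOf_dvd_of_pow_eq_one e2)
        have e4 : K = K ⊔ zpowers x := eq_of_le_of_card_ge le_sup_left (by rw [r3, hc]; omega)
        rw [e4]; exact mem_sup_right (mem_zpowers x)
      · exfalso
        have : ∀ a b : alternatingGroup (Fin 4), a * b = b * a := fun a b => by
          apply e.symm.injective
          rw [map_mul, map_mul]
          exact hH.1.1 _ _
        revert this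
        decide
  · intro h
    refine bwd (C := fun H => IsCyclic H ∨ (∃ n : ℕ, Nonempty (H ≃* DihedralGroup (2 ^ n))) ∨
      Nonempty (H ≃* alternatingGroup (Fin 4))) P ?_ ?_
    · intro H g h1
      have e := H.equivMapOfInjective (cj g) (cj_injective g)
      rcases h1 with h1 | ⟨n, ⟨e1⟩⟩ | ⟨⟨e1⟩⟩
      · exact Or.inl (isCyclic_of_surjective _ e.symm.surjective)
      · exact Or.inr (Or.inl ⟨n, ⟨e.trans e1⟩⟩)
      · exact Or.inr (Or.inr ⟨e.trans e1⟩)
    intro S x hS hx ho
    have hSp : PG[2, S] := P.isPGroup'.to_le hS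
    have hodd : Odd (orderOf x) := Nat.coprime_two_right.1 ho
    by_cases hSc : Cyc[S]
    · exact Or.inl (cyc_of_cent hSp hSc (CfsgH4.mem_cent_of_odd_cyclic hSp hSc hodd hx) ho)
    right
    rcases h with h | ⟨⟨n, hn, ⟨e⟩⟩, h⟩
    · exact absurd (cyc_le h hS) hSc
    obtain ⟨r, r1, r2, r3, r4⟩ := dih_amb (pow_pos two_pos n).ne' e
    have ri : (zpowers r).relIndex (P : Subgroup G) = 2 := by
      have := card_mul_relIndex (zpowers_le.2 r1)
      rw [Nat.card_zpowers, r2, r3, mul_comm 2] at this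
      exact Nat.eq_of_mul_eq_mul_left (pow_pos two_pos n) this
    obtain ⟨y, y1, y2⟩ : ∃ y ∈ S, y ∉ zpowers r := by
      by_contra hcon
      push Not at hcon
      exact hSc (cyc_le inferInstance hcon)
    obtain ⟨a, ha⟩ := exists_gen (cyc_le (inferInstance : Cyc[zpowers r]) (inf_le_right (a := S)))
    have a1 : a ∈ S ⊓ zpowers r := ha ▸ mem_zpowers a
    obtain ⟨yy, yi⟩ := r4 y (hS y1) y2
    have hgen : ∀ g ∈ S, g ∈ zpowers a ∨ y * g ∈ zpowers a := by
      intro g hg
      rw [← ha]
      by_cases h1 : g ∈ zpowers r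
      · exact Or.inl ⟨hg, h1⟩
      · refine Or.inr ⟨mul_mem y1 hg, ?_⟩
        have := CfsgH4.mul_inv_mem_of_relIndex_two ri (hS y1) (inv_mem (hS hg)) y2
          (fun h2 => h1 (inv_mem_iff.1 h2))
        rwa [inv_inv] at this
    have y3 : y ∉ zpowers a := fun h1 => y2 (ha ▸ h1 : y ∈ S ⊓ zpowers r).2
    obtain ⟨m, hm⟩ := pgroup_mem_order hSp a1.1
    obtain ⟨eS⟩ := dih_of a1.1 y1 yy (yi a a1.2) y3 hgen
    rw [hm] at eS
    have cS : o[S] = 2 * 2 ^ m := by rw [Nat.card_congr eS.toEquiv, DihedralGroup.nat_card]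
    have m0 : m ≠ 0 := by
      rintro rfl
      exact hSc (isCyclic_of_prime_card (p := 2) cS)
    have hout : ∀ g ∈ S, g ∉ zpowers a → g ^ 2 = 1 := fun g hg h1 =>
      (r4 g (hS hg) fun h2 => h1 (ha ▸ (⟨hg, h2⟩ : g ∈ S ⊓ zpowers r))).1
    -- elements of odd order centralizing `S` are trivial
    have triv : ∀ w : G, Odd (orderOf w) → w ∈ C[S] → w = 1 := by
      intro w hw hc
      obtain ⟨z, z1, z2⟩ := exists_prime_order_mem (H := zpowers a) Nat.prime_two
        (by rw [Nat.card_zpowers, hm]; exact dvd_pow_self 2 m0)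
      have z3 : z ∈ S ⊓ zpowers r := ha ▸ z1
      have zz : z ^ 2 = 1 := z2 ▸ pow_orderOf_eq_one z
      have oy : orderOf y = 2 := orderOf_eq_prime yy fun e => y2 (e ▸ one_mem _)
      have hyz : y * z = z * y := by
        have := yi z z3.2
        rw [pow_two] at zz
        rwa [inv_eq_of_mul_eq_one_right zz, mul_inv_eq_iff_eq_mul] at this
      have hcz : zpowers z ≤ C[zpowers y] := by
        rw [cent_zpowers]; exact zpowers_le.2 (mem_centralizer_singleton_iff.2 hyz.symm)
      have hK : zpowers z ⊔ zpowers y ≤ S := sup_le (zpowers_le.2 z3.1) (zpowers_le.2 y1)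
      have hd : zpowers z ⊓ zpowers y = ⊥ := by
        haveI : Fact (Nat.card (zpowers y)).Prime := ⟨by rw [Nat.card_zpowers, oy]; norm_num⟩
        rcases ((zpowers z).subgroupOf (zpowers y)).eq_bot_or_eq_top_of_prime_card with h1 | h1
        · rwa [subgroupOf_eq_bot, disjoint_iff] at h1
        · rw [subgroupOf_eq_top] at h1
          exact absurd (zpowers_le.2 z1 (h1 (mem_zpowers y))) y3
      have hc4 : o[zpowers z ⊔ zpowers y] = 4 := by
        rw [card_sup_of_disj (Or.inl (le_norm_of_le_cent hcz)) hd, Nat.card_zpowers,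
          Nat.card_zpowers, z2, oy]
      have h2 : ∀ k ∈ zpowers z ⊔ zpowers y, k ^ 2 = 1 := by
        intro k hk
        obtain ⟨_, ⟨i, rfl⟩, _, ⟨j, rfl⟩, rfl⟩ := (mem_sup_of_norm (le_norm_of_le_cent hcz)).1 hk
        have hcm : Commute z y := hyz.symm
        dsimp only
        rw [(hcm.zpow_zpow i j).mul_pow, ← zpow_natCast, ← zpow_natCast, ← zpow_mul, ← zpow_mul,
          mul_comm i, mul_comm j, zpow_mul, zpow_mul, zpow_natCast, zpow_natCast, zz, yy]
        simp
      have h3 := cent_anti hK hc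
      rw [h _ (hK.trans hS) hc4 h2] at h3
      exact eq_one_of_coprime_order hSp (hK h3) (Nat.coprime_two_right.2 hw)
    by_cases hc : x ∈ C[S]
    · left
      rw [triv x hodd hc, zpowers_one_eq_bot, sup_bot_eq]
      exact ⟨m, ⟨eS⟩⟩
    right
    have hco : o[zpowers x].Coprime o[S] := by
      rw [Nat.card_zpowers]
      exact (coprime_of_pgroup hSp ((coprime_iff_not_dvd Nat.prime_two).1 ho)).symm
    have m1 : m = 1 := by
      by_contra m1
      have hnot : ∀ w ∈ N[S], w * a * w⁻¹ ∈ zpowers a := by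
        intro w hw
        by_contra h1
        have h2 := hout _ (conj_mem_of_norm hw a1.1) h1
        rw [conj_pow, conj_eq_one_iff] at h2
        have h3 := orderOf_dvd_of_pow_eq_one h2
        rw [hm] at h3
        have := (Nat.pow_dvd_pow_iff_le_right one_lt_two (l := 1)).1 (by simpa using h3)
        omega
      have x1 : x ∈ N[zpowers a] := mem_norm_zpowers (hnot x hx)
      have x2 : x ∈ C[zpowers a] := CfsgH4.mem_cent_of_odd_cyclic
        (hSp.to_le (zpowers_le.2 a1.1)) inferInstance hodd x1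
      refine hc (CfsgH4.mem_cent_of_relIndex_two hSp (zpowers_le.2 a1.1) ?_ hodd hx x2)
      have := card_mul_relIndex (zpowers_le.2 a1.1)
      rw [Nat.card_zpowers, hm, cS, mul_comm 2] at this
      exact Nat.eq_of_mul_eq_mul_left (pow_pos two_pos m) this
    subst m1
    have c4 : o[S] = 4 := cS
    have perm : ∀ (τ : Equiv.Perm (Fin 4)) (a : Fin 4), τ a = a → (∀ b, τ (τ b) = b) ∨
      ((∀ b, τ (τ (τ b)) = b) ∧ ∀ b, b ≠ a → τ b ≠ b) := by decide
    let f := Finite.equivFinOfCardEq c4
    let σ := S.normalizerMonoidHom ⟨x, hx⟩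
    have hker : ∀ k : ℕ, σ ^ k = 1 → x ^ k = 1 := by
      intro k hk
      refine triv _ (hodd.of_dvd_nat (orderOf_pow_dvd k)) ?_
      have h4 : (⟨x, hx⟩ ^ k : N[S]) ∈ S.normalizerMonoidHom.ker := by
        rw [MonoidHom.mem_ker, map_pow]; exact hk
      rwa [normalizerMonoidHom_ker, mem_subgroupOf] at h4
    have x1 : x ≠ 1 := fun e => hc (e ▸ one_mem _)
    rcases perm (f.permCongr σ.toEquiv) (f 1) (by simp) with h1 | ⟨h1, h2⟩
    · have h3 : σ ^ 2 = 1 := MulEquiv.ext fun v => by simpa [pow_succ] using h1 (f v)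
      have h4 := orderOf_eq_prime (hker 2 h3) x1
      rw [h4] at hodd
      exact absurd hodd (by decide)
    · have h3 : σ ^ 3 = 1 := MulEquiv.ext fun v => by simpa [pow_succ] using h1 (f v)
      have h4 := orderOf_eq_prime (hker 3 h3) x1
      have h5 : ∀ v : S, v ≠ 1 → σ v ≠ v := fun v hv => by simpa using h2 (f v) (by simpa)
      have hn : S ⊔ zpowers x ≤ N[S] := sup_le le_normalizer (zpowers_le.2 hx)
      have c12 : o[S ⊔ zpowers x] = 12 := by
        rw [card_sup_of_disj (Or.inr (zpowers_le.2 hx)) (inf_eq_bot_of_coprime' hco.symm), c4,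
          Nat.card_zpowers, h4]
      refine Cfsg.Agent.S0228.result c12 fun z hz hzc => ?_
      have sy : Syl 2 S (S ⊔ zpowers x) := by
        refine ⟨le_sup_left, hSp, ?_⟩
        have := card_mul_relIndex (le_sup_left : S ≤ S ⊔ zpowers x)
        rw [c12, c4] at this
        omega
      have z1 : (z : G) ∈ S := sy.mem_of_norm hn z.2 (k := 1) (by
        rw [pow_one, ← hz, ← Subgroup.orderOf_coe, pow_orderOf_eq_one])
      refine h5 ⟨z, z1⟩ (fun e => ?_) (Subtype.ext ?_)
      · have : z = 1 := Subtype.ext (congrArg (Subtype.val : S → G) e)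
        rw [this] at hz
        simp at hz
      · have := congrArg Subtype.val (mem_center_iff.1 hzc ⟨x, mem_sup_right (mem_zpowers x)⟩)
        change x * z * x⁻¹ = z
        exact mul_inv_eq_iff_eq_mul.2 this

end Cfsg.Agent.S4083
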