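import Cfsg.Statements.S4084
import Mathlib
import Cfsg.Agent.L0.M3

set_option autoImplicit false
open Cfsg

namespace Cfsg.Agent.S4084

open Cfsg Subgroup CfsgH2 CfsgL0
theorem aux {G H : Type*} [Group G] [Finite G] [Group H] [Finite H] (e : G ≃ H)
    (he : ∀ x y : G, Commute x y ↔ Commute (e x) (e y))
    {p q : ℕ} (hp : p.Prime) (hq : q.Prime) (hpq : p ≠ q) (g : G) (hg : orderOf g = p * q) : ∃ h : H, orderOf h = p * q := by
  obtain ⟨A, hA, hc, hmax⟩ := exists_maximal_ge (fun A : Subgroup G => IsMulCommutative A) (H := zpowers g) inferInstance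
  have h1 : C[A] = A := le_antisymm (fun x hx =>
    (hmax _ (isMulComm_sup_zpowers hc hx) le_sup_left).le (mem_sup_right (mem_zpowers x))) (le_cent_self hc)
  set B := centralizer (e '' A)
  have h2 : ∀ x, e x ∈ B ↔ x ∈ A := fun x => by
    rw [← h1]
    exact ⟨fun h a ha => (he a x).2 (h _ ⟨a, ha, rfl⟩), by rintro h _ ⟨a, ha, rfl⟩; exact (he a x).1 (h a ha)⟩
  have h3 : Nat.card A = Nat.card B := Nat.card_congr (e.subtypeEquiv fun x => (h2 x).symm)
  have h4 : p * q ∣ Nat.card B := by rw [← h3, ← hg, ← Nat.card_zpowers]; exact card_dvd_of_le hA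
  haveI := Fact.mk hp
  haveI := Fact.mk hq
  obtain ⟨a, ha⟩ := exists_prime_orderOf_dvd_card' p ((dvd_mul_right p q).trans h4)
  obtain ⟨b, hb⟩ := exists_prime_orderOf_dvd_card' q ((dvd_mul_left q p).trans h4)
  rw [← orderOf_coe] at ha hb
  have hab : Commute (a : H) b := by
    obtain ⟨x, hx⟩ := e.surjective a
    exact b.2 _ ⟨x, (h2 x).1 (hx ▸ a.2), hx⟩
  exact ⟨a * b, by rw [hab.orderOf_mul_eq_mul_orderOf_of_coprime (by rw [ha, hb]; exact (Nat.coprime_primes hp hq).2 hpq), ha, hb]⟩

/-- Let G and H be finite groups whose commuting graphs are isomorphic: there is a bijection e : G → H with x, y commuting exactly when e(x), e(y) commute. Then G and H have the same prime graph: for distinct primes p, q, G has an element of order pq if and only if H does (and #G = #H, so the prime divisors agree). -/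
theorem result {G H : Type*} [Group G] [Finite G] [Group H] [Finite H] (e : G ≃ H)
    (he : ∀ x y : G, Commute x y ↔ Commute (e x) (e y))
    {p q : ℕ} (hp : p.Prime) (hq : q.Prime) (hpq : p ≠ q) :
    (∃ g : G, orderOf g = p * q) ↔ (∃ h : H, orderOf h = p * q) := by
  exact ⟨fun ⟨g, hg⟩ => aux e he hp hq hpq g hg, fun ⟨g, hg⟩ => aux e.symm (fun x y => by rw [he]; simp) hp hq hpq g hg⟩

end Cfsg.Agent.S4084
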