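import Cfsg.Statements.S4085
import Cfsg.Agent.H3.Hv1
import Cfsg.Agent.H3.Cas2

set_option autoImplicit false
open Cfsg

namespace Cfsg.Agent.S4085
open Subgroup CfsgH2 CfsgCas

def Cm {G : Type*} [Group G] (x y : G) : Prop := x ∈ zpowers y ∨ y ∈ zpowers x

variable {G H : Type*} [Group G] [Finite G] [Group H] [Finite H]

theorem cm_iff {x y z : G} (hx : x ∈ zpowers z) (hy : y ∈ zpowers z) :
    Cm x y ↔ orderOf x ∣ orderOf y ∨ orderOf y ∣ orderOf x := by
  rw [Cm, mem_zp_iff hx hy, mem_zp_iff hy hx]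

theorem ex_ord (z : G) {d : ℕ} (h : d ∣ orderOf z) : ∃ x ∈ zpowers z, orderOf x = d :=
  ⟨_, npow_mem_zpowers _ _, orderOf_pow_orderOf_div (orderOf_pos z).ne' h⟩

theorem nt1 {m d p q : ℕ} (m0 : m ≠ 0) (hp : p.Prime) (hq : q.Prime) (ne : p ≠ q) (h1 : p ∣ m) (h2 : q ∣ m) (hd : d ∣ m)
    (d1 : d ≠ 1) (dm : d ≠ m) : ∃ r, r.Prime ∧ r ∣ m ∧ ¬ (d ∣ ordProj[r] m ∨ ordProj[r] m ∣ d) := by
  have d0 : d ≠ 0 := by rintro rfl; exact m0 (zero_dvd_iff.1 hd)
  obtain ⟨r, hr, h⟩ : ∃ r, r.Prime ∧ ¬ ordProj[r] m ∣ d := by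
    by_contra! hc
    exact dm (Nat.dvd_antisymm hd ((Nat.dvd_iff_prime_pow_dvd_dvd _ _).2 fun r k hr e =>
      (pow_dvd_pow r ((hr.pow_dvd_iff_le_factorization m0).1 e)).trans (hc r hr)))
  have rm : r ∣ m := by_contra fun e => h (by simp [Nat.factorization_eq_zero_of_not_dvd e])
  by_cases e : d ∣ ordProj[r] m
  · obtain ⟨s, hs, sm, sr⟩ : ∃ s, s.Prime ∧ s ∣ m ∧ s ≠ r := by
      by_cases x : p = r
      · exact ⟨q, hq, h2, fun y => ne (x.trans y.symm)⟩
      · exact ⟨p, hp, h1, x⟩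
    have co : (ordProj[r] m).Coprime (ordProj[s] m) := Nat.coprime_pow_primes _ _ hr hs sr.symm
    refine ⟨s, hs, sm, ?_⟩
    rintro (x | x)
    · exact d1 (Nat.eq_one_of_dvd_coprimes co e x)
    · exact hs.one_lt.ne' (Nat.eq_one_of_dvd_coprimes co ((Nat.dvd_ordProj_of_dvd m0 hs sm).trans (x.trans e))
        (Nat.dvd_ordProj_of_dvd m0 hs sm))
  · exact ⟨r, hr, rm, fun x => x.elim e h⟩

theorem univ_cases {x z : G} {p q : ℕ} (hp : p.Prime) (hq : q.Prime) (ne : p ≠ q) (h1 : p ∣ orderOf z)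
    (h2 : q ∣ orderOf z) (hx : x ∈ zpowers z) (h : ∀ y ∈ zpowers z, Cm x y) : x = 1 ∨ zpowers x = zpowers z := by
  by_contra! hc
  obtain ⟨r, hr, -, n⟩ := nt1 (orderOf_pos z).ne' hp hq ne h1 h2 (orderOf_dvd_of_mem_zpowers hx)
    (mt orderOf_eq_one_iff.1 hc.1) fun e => hc.2 (eq_of_le_of_card_ge (zpowers_le.2 hx) (by
      rw [Nat.card_zpowers, Nat.card_zpowers, e]))
  obtain ⟨y, hy, e⟩ := ex_ord z (Nat.ordProj_dvd _ r)
  exact n (e ▸ (cm_iff hx hy).1 (h y hy))

theorem prime_dvd {u : G} (u1 : u ≠ 1) (h : ∀ y, Cm u y) {p : ℕ} (hp : p.Prime) (hd : p ∣ Nat.card G) :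
    p ∣ orderOf u := by
  haveI := Fact.mk hp
  obtain ⟨y, hy⟩ := exists_prime_orderOf_dvd_card' p hd
  rcases h y with e | e
  · rcases (Nat.dvd_prime hp).1 (hy ▸ orderOf_dvd_of_mem_zpowers e) with a | a
    · exact absurd (orderOf_eq_one_iff.1 a) u1
    · rw [a]
  · exact hy ▸ orderOf_dvd_of_mem_zpowers e

theorem main (e : G ≃ H) (he : ∀ x y : G, Cm x y ↔ Cm (e x) (e y)) {p q : ℕ} (hp : p.Prime) (hq : q.Prime) (lt : p < q)
    {g0 : G} (h0 : orderOf g0 = p * q) : ∃ h : H, p ∣ orderOf h ∧ q ∣ orderOf h := by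
  obtain ⟨_, hz, ⟨g, rfl⟩, mx⟩ := exists_maximal_ge (fun K : Subgroup G => ∃ g, K = zpowers g) ⟨g0, rfl⟩
  have pq : p * q ∣ orderOf g := h0 ▸ orderOf_dvd_of_mem_zpowers (zpowers_le.1 hz)
  have p1 := (dvd_mul_right p q).trans pq
  have q1 := (dvd_mul_left q p).trans pq
  have ne := lt.ne
  have nb : ∀ g' x, zpowers g' = zpowers g → (Cm g' x ↔ x ∈ zpowers g) := fun g' x e =>
    ⟨fun h => h.elim (fun h => mx _ ⟨x, rfl⟩ (e ▸ zpowers_le.2 h) ▸ mem_zpowers x) fun h => e ▸ h, fun h => .inr (e ▸ h)⟩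
  by_contra! hc
  have un : ∀ u : G, (∀ y, Cm u y) → e u = 1 := fun u hu => by_contra fun u1 => by
    have : ∀ y, Cm (e u) y := fun y => by simpa using (he u (e.symm y)).1 (hu _)
    have d : orderOf g ∣ Nat.card H := Nat.card_congr e ▸ orderOf_dvd_natCard g
    exact hc _ (prime_dvd u1 this hp (p1.trans d)) (prime_dvd u1 this hq (q1.trans d))
  have e1 : e 1 = 1 := un 1 fun y => .inl (one_mem _)
  have g1 : ∀ g', zpowers g' = zpowers g → e g' ≠ 1 := fun g' a b => hp.one_lt.ne' (Nat.dvd_one.1 (by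
    rwa [← Nat.card_zpowers, ← a, e.injective (b.trans e1.symm), Nat.card_zpowers, orderOf_one] at p1))
  set h := e g with hh
  have U : ∀ g' y, zpowers g' = zpowers g → (Cm (e g') y ↔ e.symm y ∈ zpowers g) := fun g' y a => by
    rw [← nb g' _ a, he, e.apply_symm_apply]
  have U' : ∀ x ∈ zpowers g, Cm h (e x) := fun x hx => (U g _ rfl).2 (by simpa using hx)
  have he' : ∀ x y, Cm (e.symm x) (e.symm y) ↔ Cm x y := fun x y => by rw [he]; simp
  by_cases pp : ∃ r s, r.Prime ∧ s.Prime ∧ r ≠ s ∧ r ∣ orderOf h ∧ s ∣ orderOf h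
  · obtain ⟨r, s, hr, hs, rs, r1, s1⟩ := pp
    have col : ∀ x ∈ zpowers g, ∀ y ∈ zpowers g, ¬ Cm x y → e x ∈ zpowers h → e y ∈ zpowers h := fun x hx y hy n a =>
      (U' y hy).elim (fun b => absurd ((he _ _).2 (.inl (zpowers_le.2 b a))) n) id
    choose f f1 f2 using fun r => ex_ord g (Nat.ordProj_dvd _ r)
    have link : ∀ x ∈ zpowers g, x ≠ 1 → zpowers x ≠ zpowers g → ∃ r, r.Prime ∧ r ∣ orderOf g ∧ ¬ Cm x (f r) := by
      intro x hx a b
      obtain ⟨r, hr, c, n⟩ := nt1 (orderOf_pos g).ne' hp hq ne p1 q1 (orderOf_dvd_of_mem_zpowers hx)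
        (mt orderOf_eq_one_iff.1 a) fun e => b (eq_of_le_of_card_ge (zpowers_le.2 hx) (by
          rw [Nat.card_zpowers, Nat.card_zpowers, e]))
      exact ⟨r, hr, c, by rwa [cm_iff hx (f1 r), f2]⟩
    obtain ⟨b, b1, b2⟩ := ex_ord h r1
    obtain ⟨c, c1, c2⟩ := ex_ord h s1
    have bc : ¬ Cm b c := by
      rw [cm_iff b1 c1, b2, c2, Nat.prime_dvd_prime_iff_eq hr hs, Nat.prime_dvd_prime_iff_eq hs hr]; tauto
    obtain ⟨t, ht, t1, t2⟩ := link (e.symm b) ((U g b rfl).1 (.inr b1))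
      (fun a => bc ((he' _ _).1 (a ▸ .inl (one_mem _))))
      fun a => bc ((he' _ _).1 (.inr (a ▸ (U g c rfl).1 (.inr c1))))
    have ft := col _ ((U g b rfl).1 (.inr b1)) _ (f1 t) t2 (by simpa using b1)
    have fa : ∀ w, w.Prime → w ∣ orderOf g → e (f w) ∈ zpowers h := fun w hw w1 => by
      by_cases x : w = t
      · exact x ▸ ft
      refine col _ (f1 t) _ (f1 w) ?_ ft
      have co : (ordProj[t] (orderOf g)).Coprime (ordProj[w] (orderOf g)) := Nat.coprime_pow_primes _ _ ht hw (Ne.symm x)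
      rw [cm_iff (f1 t) (f1 w), f2, f2]
      rintro (y | y)
      · exact ht.one_lt.ne' (Nat.eq_one_of_dvd_coprimes co (Nat.dvd_ordProj_of_dvd (orderOf_pos g).ne' ht t1)
          ((Nat.dvd_ordProj_of_dvd (orderOf_pos g).ne' ht t1).trans y))
      · exact hw.one_lt.ne' (Nat.eq_one_of_dvd_coprimes co ((Nat.dvd_ordProj_of_dvd (orderOf_pos g).ne' hw w1).trans y)
          (Nat.dvd_ordProj_of_dvd (orderOf_pos g).ne' hw w1))
    have all : ∀ x ∈ zpowers g, e x ∈ zpowers h := fun x hx => by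
      by_cases a : x = 1
      · rw [a, e1]; exact one_mem _
      by_cases b : zpowers x = zpowers g
      · refine (U' x hx).elim (fun y => ?_) id
        have d := orderOf_dvd_of_mem_zpowers y
        rcases univ_cases hr hs rs (r1.trans d) (s1.trans d) y
          (fun w hw => (U g w rfl).2 ((U x w b).1 (.inr hw))) with z | z
        · exact absurd z (g1 g rfl)
        · exact z ▸ mem_zpowers _
      obtain ⟨w, hw, w1, w2⟩ := link x hx a b
      exact col _ (f1 w) _ hx (fun y => w2 y.symm) (fa w hw w1)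
    have : orderOf h = orderOf g := by
      rw [← Nat.card_zpowers, ← Nat.card_zpowers]
      exact (Nat.card_congr (e.subtypeEquiv fun x => ⟨all x, fun y => by simpa using (U g _ rfl).1 (.inr y)⟩)).symm
    exact hc h (this ▸ p1) (this ▸ q1)
  push Not at pp
  set r := (orderOf h).minFac
  have hr : r.Prime := Nat.minFac_prime (mt orderOf_eq_one_iff.1 (g1 g rfl))
  have r1 : r ∣ orderOf h := Nat.minFac_dvd _
  obtain ⟨j, hj⟩ := (piN_singleton hr (orderOf_pos h).ne').1 fun s hs s1 =>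
    by_contra fun n => pp s r hs hr n s1 r1
  have chain : ∀ {w : H} {k : ℕ}, orderOf w = r ^ k → ∀ x ∈ zpowers w, ∀ y ∈ zpowers w, Cm x y := fun {w k} hk x hx y hy => by
    obtain ⟨a, -, ha⟩ := (Nat.dvd_prime_pow hr).1 (hk ▸ orderOf_dvd_of_mem_zpowers hx)
    obtain ⟨b, -, hb⟩ := (Nat.dvd_prime_pow hr).1 (hk ▸ orderOf_dvd_of_mem_zpowers hy)
    rw [cm_iff hx hy, ha, hb]
    exact (le_total a b).imp (pow_dvd_pow r) (pow_dvd_pow r)
  obtain ⟨a, a1, a2⟩ := ex_ord g p1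
  obtain ⟨b, b1, b2⟩ := ex_ord g q1
  obtain ⟨c, c1, c2⟩ := ex_ord g pq
  have ab : ¬ Cm a b := by
    rw [cm_iff a1 b1, a2, b2, Nat.prime_dvd_prime_iff_eq hp hq, Nat.prime_dvd_prime_iff_eq hq hp]; omega
  have nu : ∀ {w : H} {k : ℕ}, orderOf w = r ^ k → Cm w (e b) → e a ∉ zpowers w := fun hk x y => ab ((he _ _).2
    (x.elim (fun z => .inl (zpowers_le.2 z y)) fun z => chain hk _ y _ z))
  have hy : h ∈ zpowers (e a) := (U' a a1).resolve_right (nu hj (U' b b1))
  set y := e a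
  have t1 : (orderOf y).totient ≤ p - 1 := by
    rw [← Nat.totient_prime hp, ← a2, ← ncard_gen, ← ncard_gen]
    refine Set.ncard_le_ncard_of_injOn e.symm (fun w hw => ?_) e.symm.injective.injOn
    have hw : zpowers w = zpowers y := hw
    have tw : ∀ v, Cm (e.symm w) v ↔ Cm a v := fun v => by
      rw [he, he, e.apply_symm_apply, Cm, Cm, hw, ← zpowers_le, hw, zpowers_le]
    have w1 : e.symm w ∈ zpowers g := (U g w rfl).1 (.inl (hw ▸ hy))
    set x := e.symm w
    have := (cm_iff w1 a1).1 ((tw a).2 (.inl (mem_zpowers a)))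
    rw [a2] at this
    have ox : orderOf x = p := by
      rcases this with z | ⟨k, z⟩
      · refine ((Nat.dvd_prime hp).1 z).resolve_left fun v => ab ((tw b).1 ?_)
        rw [orderOf_eq_one_iff.1 v]; exact .inl (one_mem _)
      by_contra n
      obtain ⟨s, hs, s1⟩ := Nat.exists_prime_and_dvd (show k ≠ 1 by rintro rfl; exact n (by simpa using z))
      by_cases sp : s = p
      · subst sp
        rcases (cm_iff w1 c1).1 ((tw c).2 ((cm_iff a1 c1).2 (.inl (by rw [a2, c2]; simp)))) with v | v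
        · rw [z, c2, Nat.mul_dvd_mul_iff_left hp.pos] at v
          exact ne ((Nat.prime_dvd_prime_iff_eq hp hq).1 (s1.trans v))
        · obtain ⟨d, d1, d2⟩ := ex_ord x ((dvd_mul_left q s).trans (c2 ▸ v))
          have := (cm_iff a1 (zpowers_le.2 w1 d1)).1 ((tw d).1 (.inr d1))
          rw [a2, d2, Nat.prime_dvd_prime_iff_eq hp hq, Nat.prime_dvd_prime_iff_eq hq hp] at this; omega
      · obtain ⟨d, d1, d2⟩ := ex_ord x (z ▸ s1.mul_left p)
        have := (cm_iff a1 (zpowers_le.2 w1 d1)).1 ((tw d).1 (.inr d1))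
        rw [a2, d2, Nat.prime_dvd_prime_iff_eq hp hs, Nat.prime_dvd_prime_iff_eq hs hp] at this; omega
    exact le_antisymm (zpowers_le.2 ((mem_zp_iff w1 a1).2 (by rw [ox, a2])))
      (zpowers_le.2 ((mem_zp_iff a1 w1).2 (by rw [ox, a2])))
  obtain ⟨v, v1, v2⟩ := ex_ord y (Nat.ordProj_dvd _ r)
  have t2 : (orderOf g).totient + 1 ≤ orderOf v := by
    rw [← ncard_gen, ← Set.ncard_insert_of_notMem (a := 1) fun z => g1 1 z e1, ← Nat.card_zpowers]
    refine Set.ncard_le_ncard_of_injOn (t := (zpowers v : Set H)) e ?_ e.injective.injOn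
    rintro x (rfl | hx)
    · rw [e1]; exact one_mem _
    obtain ⟨k, hk⟩ := (piN_singleton hr (orderOf_pos (e x)).ne').1 fun s hs s1 => by_contra fun n => by
      obtain ⟨d, d1, d2⟩ := ex_ord _ s1
      rcases (U g d rfl).2 ((U x d hx).1 (.inr d1)) with z | z
      · rcases (Nat.dvd_prime hs).1 (d2 ▸ orderOf_dvd_of_mem_zpowers z) with i | i
        · exact g1 g rfl (orderOf_eq_one_iff.1 i)
        · exact n ((Nat.prime_dvd_prime_iff_eq hr hs).1 (i ▸ r1)).symm
      · exact pp s r hs hr n (d2 ▸ orderOf_dvd_of_mem_zpowers z) r1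
    have xy : e x ∈ zpowers y := ((U x y hx).2 (by simpa [y] using a1)).resolve_right
      (nu hk ((U x _ hx).2 (by simpa using b1)))
    refine (mem_zp_iff xy v1).2 ?_
    rw [hk, v2]
    exact pow_dvd_pow r ((hr.pow_dvd_iff_le_factorization (orderOf_pos y).ne').1 (hk ▸ orderOf_dvd_of_mem_zpowers xy))
  have t3 := Nat.le_of_dvd (Nat.totient_pos.2 (orderOf_pos y)) (Nat.totient_dvd_of_dvd (orderOf_dvd_of_mem_zpowers v1))
  have t4 := Nat.le_of_dvd (Nat.totient_pos.2 (orderOf_pos g)) (Nat.totient_dvd_of_dvd pq)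
  rw [Nat.totient_mul ((Nat.coprime_primes hp hq).2 ne), Nat.totient_prime hp, Nat.totient_prime hq] at t4
  have t5 : orderOf v ≤ 2 * (orderOf v).totient := by
    rw [v2]
    obtain _ | k := (orderOf y).factorization r
    · simp
    · rw [Nat.totient_prime_pow_succ hr, pow_succ, mul_left_comm]
      exact Nat.mul_le_mul_left _ (by have := hr.two_le; omega)
  have := Nat.mul_le_mul_left (p - 1) (show 2 ≤ q - 1 by have := hp.two_le; omega)
  omega

theorem main2 (e : G ≃ H) (he : ∀ x y : G, Cm x y ↔ Cm (e x) (e y)) {p q : ℕ} (hp : p.Prime) (hq : q.Prime) (ne : p ≠ q)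
    (h0 : ∃ g : G, orderOf g = p * q) : ∃ h : H, orderOf h = p * q := by
  obtain ⟨g, h0⟩ := h0
  obtain ⟨h, a, b⟩ : ∃ h : H, p ∣ orderOf h ∧ q ∣ orderOf h := by
    rcases lt_or_gt_of_ne ne with x | x
    · exact main e he hp hq x h0
    · exact (main e he hq hp x (h0.trans (mul_comm _ _))).imp fun _ => And.symm
  exact (ex_ord h (((Nat.coprime_primes hp hq).2 ne).mul_dvd_of_dvd_of_dvd a b)).imp fun _ => And.right

/-- Let G and H be finite groups whose power graphs are isomorphic: there is a bijection e : G → H such that, for all x, y, one of x, y is a power of the other exactly when one of e(x), e(y) is a power of the other. Then G and H have the same prime graph: for distinct primes p, q, G has an element of order pq if and only if H does. -/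
theorem result {G H : Type*} [Group G] [Finite G] [Group H] [Finite H] (e : G ≃ H)
    (he : ∀ x y : G, (x ∈ Subgroup.zpowers y ∨ y ∈ Subgroup.zpowers x) ↔
      (e x ∈ Subgroup.zpowers (e y) ∨ e y ∈ Subgroup.zpowers (e x)))
    {p q : ℕ} (hp : p.Prime) (hq : q.Prime) (hpq : p ≠ q) :
    (∃ g : G, orderOf g = p * q) ↔ (∃ h : H, orderOf h = p * q) := by
  exact ⟨main2 e he hp hq hpq, main2 e.symm (fun x y => by simpa [Cm] using (he (e.symm x) (e.symm y)).symm) hp hq hpq⟩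


end Cfsg.Agent.S4085
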