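import Cfsg.Statements.S4086
import Mathlib
import Cfsg.Agent.L0.M3

set_option autoImplicit false
open Cfsg

namespace Cfsg.Agent.S4086

open Cfsg Subgroup CfsgH2 CfsgL0

/-- For a finite group G the following are equivalent: every non-identity element has prime-power order; whenever two elements generate a cyclic subgroup, one of them is a power of the other (the enhanced power graph of G coincides with its power graph). -/
theorem result {G : Type*} [Group G] [Finite G] :
    (∀ g : G, g ≠ 1 → IsPrimePow (orderOf g)) ↔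
    (∀ x y : G, IsCyclic ↥(Subgroup.closure ({x, y} : Set G)) → (x ∈ Subgroup.zpowers y ∨ y ∈ Subgroup.zpowers x)) := by
  constructor
  · intro h x y hc
    obtain ⟨g, hg⟩ := isCyclic_iff_zpowers.1 hc
    have hx : zpowers x ≤ zpowers g := zpowers_le.2 (hg.ge (subset_closure (by simp)))
    have hy : zpowers y ≤ zpowers g := zpowers_le.2 (hg.ge (subset_closure (by simp)))
    by_cases g1 : g = 1
    · left; rw [g1, zpowers_one_eq_bot, le_bot_iff, zpowers_eq_bot] at hx; rw [hx]; exact one_mem _
    obtain ⟨p, k, hp, -, e⟩ := (isPrimePow_nat_iff _).1 (h g g1)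
    rw [← Nat.card_zpowers] at e
    obtain ⟨i, -, hi⟩ := (Nat.dvd_prime_pow hp).1 (e ▸ card_dvd_of_le hx)
    obtain ⟨j, -, hj⟩ := (Nat.dvd_prime_pow hp).1 (e ▸ card_dvd_of_le hy)
    rcases le_total i j with h | h
    · exact Or.inl (le_of_card_dvd_of_cyclic inferInstance hx hy (by rw [hi, hj]; exact pow_dvd_pow p h) (mem_zpowers x))
    · exact Or.inr (le_of_card_dvd_of_cyclic inferInstance hy hx (by rw [hi, hj]; exact pow_dvd_pow p h) (mem_zpowers y))
  · intro h g g1
    have h1 : orderOf g ≠ 1 := by simpa using g1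
    rw [isPrimePow_iff_unique_prime_dvd]
    refine ⟨_, ⟨Nat.minFac_prime h1, Nat.minFac_dvd _⟩, ?_⟩
    have key : ∀ p q : ℕ, p.Prime → q.Prime → p ∣ orderOf g → q ∣ orderOf g → p = q := by
      intro p q hp hq h1 h2
      rw [← Nat.card_zpowers] at h1 h2
      haveI := Fact.mk hp
      haveI := Fact.mk hq
      obtain ⟨a, ha⟩ := exists_prime_orderOf_dvd_card' p h1
      obtain ⟨b, hb⟩ := exists_prime_orderOf_dvd_card' q h2
      rw [← orderOf_coe] at ha hb
      rcases h a b (isCyclic_of_le (H' := zpowers g) ((closure_le _).2 (by rintro _ (rfl | rfl); exacts [a.2, b.2]))) with h | h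
      · exact (Nat.prime_dvd_prime_iff_eq hp hq).1 (ha ▸ hb ▸ orderOf_dvd_of_mem_zpowers h)
      · exact ((Nat.prime_dvd_prime_iff_eq hq hp).1 (ha ▸ hb ▸ orderOf_dvd_of_mem_zpowers h)).symm
    exact fun q hq => key _ _ hq.1 (Nat.minFac_prime h1) hq.2 (Nat.minFac_dvd _)

end Cfsg.Agent.S4086
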