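import Cfsg.Statements.S4089
import Cfsg.Agent.H1.Pron

set_option autoImplicit false
open Cfsg

namespace Cfsg.Agent.S4089

/-- Let G be a finite group, p a prime and H a p-subgroup of G. Then the set of elements g of G such that H is subnormal in the subgroup generated by H and g is the union of the normalizers N_G(R) over the subgroups R of G containing H with R = O_p(N_G(R)); and this set does not change when H is replaced by the intersection of all Sylow p-subgroups of G containing H. -/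
theorem result {G : Type*} [Group G] [Finite G] (p : ℕ) [Fact p.Prime]
    (H : Subgroup G) (hH : IsPGroup p H) :
    {g : G | ((H).subgroupOf (H ⊔ Subgroup.zpowers g)).IsSubnormal} =
      {g : G | ∃ R : Subgroup G, H ≤ R ∧ (Cfsg.pCore p (Subgroup.normalizer (R : Set G))).map (Subgroup.normalizer (R : Set G)).subtype = R ∧ g ∈ Subgroup.normalizer (R : Set G)} ∧
    ∀ g : G, (((H).subgroupOf (H ⊔ Subgroup.zpowers g)).IsSubnormal ↔
      (((sInf {K : Subgroup G | ∃ Q : Sylow p G, H ≤ (Q : Subgroup G) ∧ K = (Q : Subgroup G)})).subgroupOf ((sInf {K : Subgroup G | ∃ Q : Sylow p G, H ≤ (Q : Subgroup G) ∧ K = (Q : Subgroup G)}) ⊔ Subgroup.zpowers g)).IsSubnormal) := by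
  open Pointwise Subgroup CfsgH1 in
  open CfsgH2 hiding card_inf_mul_relIndex card_lt_of_lt card_lt_of_ne_top card_map_mul_card_inf_ker card_mul_relIndex card_subgroupOf card_sup_dvd card_sup_mul_card_inf exists_card_prime_le isNilpotent_map isNilpotent_of_le isPGroup_pCore isSolvable_map isSolvable_of_le le_pCore le_pPrimeCore relIndex_map_dvd in
  open scoped CfsgH2 in
  open scoped commutatorElement in
  · have key : ∀ H : Subgroup G, IsPGroup p H → ∀ g : G,
        ((H.subgroupOf (H ⊔ zpowers g)).IsSubnormal ↔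
          ∃ R : Subgroup G, H ≤ R ∧ piCoreOf {p} N[R] = R ∧ g ∈ N[R]) := by
      intro H hH g
      rw [← CfsgH9.sn_iff_subgroupOf le_sup_left]
      refine ⟨fun h => ?_, fun ⟨R, r1, r2, r3⟩ => ?_⟩
      · obtain ⟨R, r1, ⟨r2, r3⟩, r4⟩ := exists_maximal_ge (fun R : Subgroup G => IsPGroup p R ∧ g ∈ N[R])
          ⟨isPGroup_piCoreOf, le_norm_piCoreOf (M := H ⊔ zpowers g) (mem_sup_right (mem_zpowers g))⟩
        exact ⟨R, ((sn_iff_le_pCoreOf hH le_sup_left).1 h).trans r1, r4 _ ⟨isPGroup_piCoreOf,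
          le_norm_piCoreOf r3⟩ (le_pCoreOf le_normalizer le_rfl r2), r3⟩
      · have h1 : H ≤ N[R] := r1.trans le_normalizer
        exact ((sn_iff_le_pCoreOf hH h1).2 (r1.trans r2.ge)).mono le_sup_left
          (sup_le h1 (zpowers_le.2 r3))
    refine ⟨Set.ext fun g => by simp only [map_pCore_subtype]; exact key H hH g, fun g => ?_⟩
    obtain ⟨P, hP, hHP⟩ := exists_syl_ge hH le_top
    obtain ⟨P, rfl⟩ := hP.exists_top
    set I := sInf {K : Subgroup G | ∃ Q : Sylow p G, H ≤ (Q : Subgroup G) ∧ K = (Q : Subgroup G)}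
    have hI : IsPGroup p I := P.2.to_le (sInf_le ⟨P, hHP, rfl⟩)
    rw [key H hH, key I hI]
    refine ⟨fun ⟨R, r1, r2, r3⟩ => ⟨R, ?_, r2, r3⟩, fun ⟨R, r1, r2, r3⟩ => ⟨R, le_trans
      (le_sInf (by rintro _ ⟨Q, hQ, rfl⟩; exact hQ)) r1, r2, r3⟩⟩
    have hR : IsPGroup p R := r2 ▸ isPGroup_piCoreOf
    let J := sInf {K : Subgroup G | Syl p K ⊤ ∧ R ≤ K}
    have hRJ : R ≤ J := le_sInf fun K hK => hK.2
    obtain ⟨Q, q1, q2⟩ := exists_syl_ge hR le_top
    have hJ : IsPGroup p J := q1.pg.to_le (sInf_le ⟨q1, q2⟩)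
    have hn : N[R] ≤ N[J] := fun x hx => (inv_mem_iff).1 (mem_norm_of_map_le (le_sInf fun K hK =>
      map_cj_le_iff.2 (sInf_le ⟨by simpa using hK.1.map_cj x, by
        rw [inv_inv, ← map_cj_eq hx]; exact map_mono hK.2⟩)))
    have : J ⊓ N[R] ≤ R := (le_pCoreOf inf_le_right (le_norm_inf hn le_normalizer)
      (hJ.to_le inf_le_left)).trans r2.le
    have e : R = J := by
      by_contra hne
      exact (lt_inf_norm hJ.isNilpotent (lt_of_le_of_ne hRJ hne)).not_ge this
    refine le_trans (le_sInf fun K hK => ?_) e.ge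
    obtain ⟨K, rfl⟩ := hK.1.exists_top
    exact sInf_le ⟨K, r1.trans hK.2, rfl⟩

end Cfsg.Agent.S4089
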