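import Cfsg.Statements.S4091
import Cfsg.Agent.H3.Hv1
import Cfsg.Agent.H3.Cas2

set_option autoImplicit false
open Cfsg

namespace Cfsg.Agent.S4091
open Subgroup CfsgH2 CfsgCas Finset

/-- Let G be a finite p-solvable group, P a Sylow p-subgroup of G, u the number of p-elements of G (elements of p-power order, the identity included) and n the number of Sylow p-subgroups of G. Then u/#P ≥ n^((p−1)/p), stated as u^p ≥ #P^p · n^(p−1). -/
theorem result {G : Type*} [Group G] [Finite G] (p : ℕ) [Fact p.Prime]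
    (hG : Cfsg.IsPSolvable p G) (P : Sylow p G) :
    Nat.card (P : Subgroup G) ^ p * Nat.card (Sylow p G) ^ (p - 1) ≤ Nat.card {g : G // ∃ k : ℕ, orderOf g = p ^ k} ^ p := by
  classical
  haveI := Fintype.ofFinite G
  have hp : p.Prime := Fact.out
  have h1 := tau_ineq (syl_top P) hG
  set m := o[(P : Subgroup G)] with hm
  set t : G → ℕ := fun x => tau (zpowers x) P with ht
  have te : ∀ x, t x = #{g | g * x * g⁻¹ ∈ (P : Subgroup G)} := fun x => by
    rw [← Set.ncard_coe_finset, coe_filter_univ]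
    simp [t, tau]
  have tc : ∀ x k, t (k * x * k⁻¹) = t x := fun x k => by
    rw [te, te]
    exact card_bij (fun g _ => g * k) (by simp [mul_assoc]) (by simp) fun g hg => ⟨g * k⁻¹, by simpa [mul_assoc] using hg, by simp⟩
  have tp : ∀ x, (∃ k, orderOf x = p ^ k) → 0 < t x := fun x ⟨k, hk⟩ => by
    obtain ⟨g, -, hg⟩ := (syl_top P).exists_conj_le (isPGroup_zpowers (hk ▸ pow_orderOf_eq_one x)) le_top
    rw [te, card_pos]
    exact ⟨g, by simpa using hg⟩
  set u := Nat.card {g : G // ∃ k : ℕ, orderOf g = p ^ k} with hu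
  have e : (u : ℝ) = Nat.card G * ∑ x : (P : Subgroup G), (t x : ℝ)⁻¹ := by
    rw [hu, Nat.card_eq_fintype_card, Fintype.card_subtype, card_eq_sum_ones, Nat.cast_sum,
      sum_congr rfl (g := fun y => ∑ g with g * y * g⁻¹ ∈ (P : Subgroup G), (t y : ℝ)⁻¹) fun y hy => by
        rw [sum_const, ← te, nsmul_eq_mul, mul_inv_cancel₀ (Nat.cast_pos.2 (tp y (mem_filter.1 hy).2)).ne', Nat.cast_one],
      sum_comm' (t' := univ) (s' := fun g => {y | g * y * g⁻¹ ∈ (P : Subgroup G)}) (fun y g => by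
        simp only [mem_filter, mem_univ, true_and, and_true]
        exact ⟨fun h => h.2, fun h => ⟨orderOf_conj' g y ▸ pgroup_mem_order P.2 h, h⟩⟩),
      Nat.card_eq_fintype_card, ← nsmul_eq_mul, ← card_univ, ← sum_const]
    refine sum_congr rfl fun g _ => sum_bij (fun y hy => ⟨_, (mem_filter.1 hy).2⟩) (by simp) (by simp)
      (fun x _ => ⟨g⁻¹ * x * g, by simp [mul_assoc], by simp [mul_assoc]⟩) fun y _ => by rw [tc]
  have m0 : (0 : ℝ) < m := Nat.cast_pos.2 (card_pos' _)
  have G0 : (0 : ℝ) < Nat.card G := Nat.cast_pos.2 Nat.card_pos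
  have am := Real.geom_mean_le_arith_mean_weighted univ (fun _ : (P : Subgroup G) => (m : ℝ)⁻¹) (fun x => (t x : ℝ)⁻¹)
    (fun _ _ => by positivity) (by
      rw [sum_const, card_univ, ← Nat.card_eq_fintype_card, nsmul_eq_mul]; exact mul_inv_cancel₀ m0.ne')
    fun _ _ => by positivity
  rw [Real.finsetProd_rpow _ _ fun _ _ => by positivity, ← mul_sum, prod_inv_distrib, ← Nat.cast_prod] at am
  have T0 : (0 : ℝ) < (∏ x : (P : Subgroup G), t x : ℕ) := Nat.cast_pos.2 (prod_pos fun x _ => tp _ (pgroup_mem_order P.2 x.2))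
  have am2 := pow_le_pow_left₀ (by positivity) am m
  rw [Real.rpow_inv_natCast_pow (by positivity) (card_pos' _).ne', (eq_inv_mul_iff_mul_eq₀ G0.ne').2 e.symm,
    inv_le_iff_one_le_mul₀ T0] at am2
  have h2 : (Nat.card G * m) ^ m ≤ u ^ m * ∏ x : (P : Subgroup G), t x := by
    have : ((Nat.card G * m : ℕ) : ℝ) ^ m ≤ u ^ m * (∏ x : (P : Subgroup G), t x : ℕ) := by
      refine (mul_one _).ge.trans ((mul_le_mul_of_nonneg_left am2 (by positivity : 0 ≤ ((Nat.card G * m : ℕ) : ℝ) ^ m)).trans_eq ?_)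
      rw [← mul_assoc, ← mul_pow]; push_cast; congr 2; field_simp
    exact_mod_cast this
  have h3 := (Nat.pow_le_pow_left h2 p).trans ((mul_pow _ _ p).trans_le (Nat.mul_le_mul_left _ h1))
  rw [pow_right_comm, pow_right_comm u, pow_mul, ← mul_pow, ← mul_pow, Nat.pow_le_pow_iff_left (card_pos' _).ne',
    ← (normalizer ((P : Subgroup G) : Set G)).index_mul_card, show N[(P : Subgroup G)].index = _ from P.card_eq_index_normalizer.symm] at h3
  obtain ⟨k, rfl⟩ := Nat.exists_eq_add_of_le' hp.one_le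
  refine Nat.le_of_mul_le_mul_right (le_of_eq_of_le ?_ h3) (by
    have := card_pos' N[(P : Subgroup G)]; have : 0 < Nat.card (Sylow (k + 1) G) := Nat.card_pos; positivity)
  simp only [Nat.add_sub_cancel]; ring


end Cfsg.Agent.S4091
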