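import Cfsg.Statements.S4092
import Mathlib
import Cfsg.Agent.L0.G2

set_option autoImplicit false
open Cfsg

namespace Cfsg.Agent.S4092

open Cfsg Subgroup CfsgH2 CfsgL0

/-- Let G be a finite group, p a prime and P a Sylow p-subgroup of G that is not normal in G. Then G has at least p·#P elements of p-power order (the identity included). -/
theorem result {G : Type*} [Group G] [Finite G] (p : ℕ) [Fact p.Prime]
    (P : Sylow p G) (hP : ¬ (P : Subgroup G).Normal) :
    p * Nat.card (P : Subgroup G) ≤ Nat.card {g : G // ∃ k : ℕ, orderOf g = p ^ k} := by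
  have hp : p.Prime := Fact.out
  have e := P.card_eq_multiplicity
  have h1 : {g : G | ∃ k : ℕ, orderOf g = p ^ k} = {g | g ^ Nat.card P = 1} := Set.ext fun g =>
    ⟨fun ⟨k, hk⟩ => orderOf_dvd_iff_pow_eq_one.1 (hk ▸ (syl_top P).pow_dvd (card_top (G := G) ▸ hk ▸
      orderOf_dvd_natCard g)), fun h => ((Nat.dvd_prime_pow hp).1
        (e ▸ orderOf_dvd_of_pow_eq_one h)).imp fun _ h => h.2⟩
  change _ ≤ {g : G | ∃ k : ℕ, orderOf g = p ^ k}.ncard
  obtain ⟨k, hk⟩ := frob_one (card_subgroup_dvd_card (P : Subgroup G))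
  have sub : ((P : Subgroup G) : Set G) ⊆ {g | g ^ Nat.card P = 1} := fun x hx =>
    orderOf_dvd_iff_pow_eq_one.1 (orderOf_dvd_of_mem hx)
  have h2 := ncard_order_dvd' (G := G) (Nat.card_pos (α := P)).ne'
  rw [← Finset.add_sum_erase _ _ (Nat.one_mem_divisors.2 Nat.card_pos.ne')] at h2
  have h3 : p - 1 ∣ ∑ d ∈ (Nat.card P).divisors.erase 1, {g : G | orderOf g = d}.ncard :=
    Finset.dvd_sum fun d hd => by
      obtain ⟨a, b⟩ := Finset.mem_erase.1 hd
      obtain ⟨j, -, rfl⟩ := (Nat.dvd_prime_pow hp).1 (e ▸ Nat.dvd_of_mem_divisors b)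
      refine Dvd.dvd.trans ?_ (totient_dvd_ncard _)
      rw [Nat.totient_prime_pow hp (Nat.pos_of_ne_zero (by rintro rfl; simp at a))]
      exact Dvd.intro_left _ rfl
  simp only [orderOf_eq_one_iff, Set.setOf_eq_eq_singleton, Set.ncard_singleton] at h2
  have h4 : Nat.card P ≡ 1 [MOD p - 1] := by
    simpa [e] using ((Nat.modEq_iff_dvd' hp.one_le).2 dvd_rfl).symm.pow _
  have h5 : 1 ≡ k [MOD p - 1] := by
    have := (Nat.ModEq.refl 1).add ((Nat.modEq_zero_iff_dvd).2 h3)
    rw [← h2, hk] at this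
    simpa using this.symm.trans (h4.mul_right k)
  have k0 : k ≠ 0 := by rintro rfl; omega
  have k1 : k ≠ 1 := by
    rintro rfl
    have := Set.eq_of_subset_of_ncard_le sub (by rw [hk, mul_one, ncard_coe])
    exact hP ⟨fun x hx g => this.ge (by simp [show x ^ _ = 1 from sub hx])⟩
  have := Nat.le_of_dvd (by omega) ((Nat.modEq_iff_dvd' (by omega)).1 h5)
  rw [h1, hk, mul_comm]
  exact Nat.mul_le_mul_left _ (by omega)

end Cfsg.Agent.S4092
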