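import Cfsg.Statements.S4093
import Mathlib
import Cfsg.Agent.L0.M3
import Cfsg.Agent.L0.G2

set_option autoImplicit false
open scoped BigOperators
open Cfsg

namespace Cfsg.Agent.S4093

open Cfsg Subgroup CfsgH2 CfsgL0

/-- Let G be a finite group with a normal subgroup N complementing a Sylow p-subgroup P (a normal p-complement). Then the number of elements of G of p-power order equals the sum over x ∈ P of the index of C_N(x) in N. -/
theorem result {G : Type*} [Group G] [Finite G] (p : ℕ) [Fact p.Prime]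
    (P : Sylow p G) (N : Subgroup G) [N.Normal] (hNP : N.IsComplement' (P : Subgroup G)) :
    Nat.card {g : G // ∃ k : ℕ, orderOf g = p ^ k} =
      ∑ᶠ x : (P : Subgroup G), Nat.card N / Nat.card ↥(N ⊓ Subgroup.centralizer ({(x : G)} : Set G)) := by
  rename_i hp _
  classical
  haveI := Fintype.ofFinite (P : Subgroup G)
  have hd : ¬ p ∣ Nat.card N := by rw [← hNP.index_eq_card]; exact P.not_dvd_index
  rw [finsum_eq_sum_of_fintype]
  have h1 : ∀ x : (P : Subgroup G), Nat.card N / Nat.card ↥(N ⊓ Subgroup.centralizer ({(x : G)} : Set G)) =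
      Nat.card {z | ∃ n ∈ N, n * (x : G) * n⁻¹ = z} := fun x => by
    rw [← ncard_cls_mul N x, Nat.mul_div_cancel _ Nat.card_pos]; rfl
  simp only [h1]
  rw [← Nat.card_sigma]
  symm
  refine Nat.card_congr (Equiv.ofBijective (fun y => ⟨y.2.1, ?_⟩) ⟨?_, ?_⟩)
  · obtain ⟨n, -, e⟩ := y.2.2
    rw [← e, orderOf_conj']; exact pgroup_mem_order P.isPGroup' y.1.2
  · rintro ⟨x, y, n, hn, e⟩ ⟨x', y', n', hn', e'⟩ h
    obtain rfl : y = y' := congrArg Subtype.val h
    obtain rfl : x = x' := by
      have h2 : (x' : G)⁻¹ * x ∈ N ⊓ P := by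
        refine ⟨?_, (P : Subgroup G).mul_mem ((P : Subgroup G).inv_mem x'.2) x.2⟩
        show _ ∈ N
        rw [← QuotientGroup.eq]
        have := congrArg (QuotientGroup.mk (s := N)) (e'.trans e.symm)
        simpa [(QuotientGroup.eq_one_iff n).2 hn, (QuotientGroup.eq_one_iff n').2 hn'] using this
      rw [hNP.disjoint.eq_bot, mem_bot, inv_mul_eq_one] at h2
      exact Subtype.ext h2.symm
    rfl
  · rintro ⟨y, k, hk⟩
    have py : IsPGroup p (zpowers y) := isPGroup_of_card ((Nat.card_zpowers y).trans hk)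
    obtain ⟨n, hn, hle⟩ := exists_conj_le_compl (A := P) (B := zpowers y) (K := N)
      (by rw [normalizer_eq_top]; exact le_top) (coprime_of_pgroup P.isPGroup' hd) (coprime_of_pgroup py hd)
      (Or.inl (sol_zpowers y)) (by rw [hNP.sup_eq_top]; exact le_top)
    exact ⟨⟨⟨_, hle (conj_mem_map_cj (mem_zpowers y))⟩, y, n⁻¹, inv_mem hn, by simp [mul_assoc]⟩, rfl⟩

end Cfsg.Agent.S4093
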