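import Cfsg.Statements.S4106
import Mathlib
import Cfsg.Agent.L0.G2

set_option autoImplicit false
open Cfsg

namespace Cfsg.Agent.S4106

open Cfsg Subgroup CfsgH2 CfsgL0

/-- Let G be a finite group, π a set of primes and m the π-part of the order of G. Then the number of conjugacy classes of G consisting of π-elements (elements whose order is divisible only by primes in π) is at most m. -/
theorem result {G : Type*} [Group G] [Finite G]
    (π : Set ℕ) (hπ : ∀ q ∈ π, q.Prime)
    (m : ℕ) (hm : m ∣ Nat.card G) (hmπ : ∀ q : ℕ, q.Prime → q ∣ m → q ∈ π)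
    (hm' : ∀ q ∈ π, ¬ q ∣ Nat.card G / m) :
    Nat.card {C : ConjClasses G // ∀ q : ℕ, q.Prime → (∃ g : G, ConjClasses.mk g = C ∧ q ∣ orderOf g) → q ∈ π} ≤ m := by
  obtain ⟨T, h1, h2⟩ := exists_pi_transversal (G := G) m.primeFactors
    (fun q => Nat.prime_of_mem_primeFactors) ⊤
  obtain ⟨k, hk⟩ := hm
  have m0 : m ≠ 0 := by rintro rfl; exact Nat.card_pos.ne' (hk.trans (zero_mul _))
  have k0 : k ≠ 0 := by rintro rfl; exact Nat.card_pos.ne' hk
  rw [hk, Nat.mul_div_cancel_left _ (Nat.pos_of_ne_zero m0)] at hm'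
  rw [card_kpi]
  refine (Set.ncard_le_ncard (t := ConjClasses.mk '' T) ?_ (Set.toFinite _)).trans
    ((Set.ncard_image_le (Set.toFinite _)).trans (h1.trans_eq ?_))
  · rintro _ ⟨x, hx, rfl⟩
    obtain ⟨h, -, e⟩ := h2 x trivial fun q a b => Nat.mem_primeFactors.2 ⟨a, (a.dvd_mul.1
      (hk ▸ b.trans (orderOf_dvd_natCard x))).resolve_right (hm' q (hx q a b)), m0⟩
    exact ⟨_, e, mk_eq_iff.2 ⟨h, trivial, rfl⟩⟩
  refine Eq.trans (Finset.prod_congr rfl fun q hq => ?_) (Nat.prod_factorization_pow_eq_self m0)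
  rw [card_top, hk, Nat.factorization_mul m0 k0, Finsupp.add_apply, Nat.factorization_eq_zero_of_not_dvd
    (hm' q (hmπ q (Nat.prime_of_mem_primeFactors hq) (Nat.dvd_of_mem_primeFactors hq))), add_zero]

end Cfsg.Agent.S4106
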