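import Cfsg.Statements.S4107
import Cfsg.Agent.H1.Misc1
import Cfsg.Agent.H2.BG0

set_option autoImplicit false
open Cfsg

namespace Cfsg.Agent.S4107

section
open Subgroup CfsgH2
open CfsgH1 hiding card_inf_mul_relIndex card_lt_of_lt card_lt_of_ne_top card_map_mul_card_inf_ker card_mul_relIndex card_subgroupOf card_sup_dvd card_sup_mul_card_inf coprime_le_sup_cent exists_card_prime_le isNilpotent_map isNilpotent_of_le isPGroup_pCore isSolvable_map isSolvable_of_le le_pCore le_pPrimeCore relIndex_map_dvd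
open scoped CfsgH1
open scoped commutatorElement

theorem aux {G : Type*} [Group G] [Finite G] {N : Subgroup G} (heq : ∀ x : G, x ∉ N → ∀ n ∈ N, orderOf (x * n) = orderOf x)
    {p : ℕ} [Fact p.Prime] (h : ¬ pCore p G ≤ N) : IsPGroup p N := fun n => by
  obtain ⟨x, hx, hN⟩ := SetLike.not_le_iff_exists.1 h
  obtain ⟨k, hk⟩ := CfsgH1.isPGroup_pCore p ⟨x, hx⟩
  have h1 : (x * n) ^ p ^ k = 1 := by
    rw [← orderOf_dvd_iff_pow_eq_one, heq x hN n n.2, orderOf_dvd_iff_pow_eq_one]; exact congrArg Subtype.val hk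
  have h2 : (n : G) ^ p ^ k ∈ pCore p G := by
    have := congrArg (QuotientGroup.mk' (pCore p G)) h1
    rw [← QuotientGroup.eq_one_iff, QuotientGroup.mk_pow]
    simpa [(QuotientGroup.eq_one_iff x).2 hx] using this
  obtain ⟨l, hl⟩ := CfsgH1.isPGroup_pCore p ⟨_, h2⟩
  exact ⟨k + l, Subtype.ext (by simpa [pow_add, pow_mul] using congrArg Subtype.val hl)⟩

end

/-- Let G be a finite group and N a proper non-trivial normal subgroup such that for every x outside N all elements of the coset xN have the same order as x. Then N ≤ F(G) or F(G) ≤ N, where F(G) is the Fitting subgroup; and if N is properly contained in F(G) then F(G) has prime-power order. -/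
theorem result {G : Type*} [Group G] [Finite G] (N : Subgroup G) [N.Normal] (hN1 : N ≠ ⊥) (hN2 : N ≠ ⊤)
    (heq : ∀ x : G, x ∉ N → ∀ n ∈ N, orderOf (x * n) = orderOf x) :
    (N ≤ Cfsg.fittingSubgroup G ∨ Cfsg.fittingSubgroup G ≤ N) ∧
    (N < Cfsg.fittingSubgroup G → IsPrimePow (Nat.card (Cfsg.fittingSubgroup G))) := by
  open Subgroup CfsgH2 in
  open CfsgH1 hiding card_inf_mul_relIndex card_lt_of_lt card_lt_of_ne_top card_map_mul_card_inf_ker card_mul_relIndex card_subgroupOf card_sup_dvd card_sup_mul_card_inf coprime_le_sup_cent exists_card_prime_le isNilpotent_map isNilpotent_of_le isPGroup_pCore isSolvable_map isSolvable_of_le le_pCore le_pPrimeCore relIndex_map_dvd in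
  open scoped CfsgH1 in
  open scoped commutatorElement in
  · by_cases h : fittingSubgroup G ≤ N
    · exact ⟨.inr h, fun c => (c.not_ge h).elim⟩
    obtain ⟨p, hp, h1⟩ : ∃ p : ℕ, p.Prime ∧ ¬ pCore p G ≤ N := by
      by_contra! c; exact h (fitting_le_of_forall_pCore_le c)
    haveI := Fact.mk hp
    have h2 := aux heq h1
    have h3 : fittingSubgroup G ≤ pCore p G := fitting_le_of_forall_pCore_le fun q hq => by
      haveI := Fact.mk hq
      by_cases e : q = p
      · exact e ▸ le_rfl
      by_cases c : pCore q G ≤ N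
      · exact (IsPGroup.disjoint_of_ne q p e _ _ (CfsgH1.isPGroup_pCore q) h2).eq_bot_of_le c ▸ bot_le
      · exact (hN1 (disjoint_self.1 (IsPGroup.disjoint_of_ne q p e _ _ (aux heq c) h2))).elim
    refine ⟨.inl ((CfsgH1.le_pCore h2).trans (pCore_le_fitting p)), fun c => ?_⟩
    obtain ⟨k, hk⟩ := exists_card_eq_pow ((CfsgH1.isPGroup_pCore p).to_le h3)
    refine hk ▸ hp.isPrimePow.pow fun e => c.ne_bot ?_
    rwa [e, pow_zero, card_eq_one] at hk

end Cfsg.Agent.S4107
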