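import Cfsg.Statements.S4108
import Cfsg.Agent.H1.Frob2

set_option autoImplicit false
open Cfsg

namespace Cfsg.Agent.S4108

/-- Let G be a finite group, p a prime and N a proper non-trivial normal p-subgroup such that for every x outside N all elements of the coset xN have the same order as x. Then every non-trivial subgroup H of G of order prime to p acts fixed-point-freely on N: NH is a Frobenius group with complement H and kernel N. -/
theorem result {G : Type*} [Group G] [Finite G] (N : Subgroup G) [N.Normal] (hN1 : N ≠ ⊥) (hN2 : N ≠ ⊤)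
    (heq : ∀ x : G, x ∉ N → ∀ n ∈ N, orderOf (x * n) = orderOf x)
    (p : ℕ) [Fact p.Prime] (hNp : IsPGroup p N) :
    ∀ H : Subgroup G, H ≠ ⊥ → (Nat.card H).Coprime p →
      Cfsg.IsFrobeniusComplement (H.subgroupOf (N ⊔ H)) ∧ Cfsg.frobeniusKernel (H.subgroupOf (N ⊔ H)) = (N.subgroupOf (N ⊔ H) : Set ↥(N ⊔ H)) := by
  open Pointwise Subgroup CfsgH1 in
  open CfsgH2 hiding card_inf_mul_relIndex card_lt_of_lt card_lt_of_ne_top card_map_mul_card_inf_ker card_mul_relIndex card_subgroupOf card_sup_dvd card_sup_mul_card_inf exists_card_prime_le isNilpotent_map isNilpotent_of_le isPGroup_pCore isSolvable_map isSolvable_of_le le_pCore le_pPrimeCore relIndex_map_dvd in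
  open scoped CfsgH2 in
  open scoped commutatorElement in
  · intro H h0 hc
    have h : Frob N H (N ⊔ H) := ⟨le_normalizer_of_normal, rfl, hN1, h0, fun x hx h1 => eq_bot_iff.2 fun n hn => by
      have hcop : (orderOf x).Coprime p := hc.coprime_dvd_left (orderOf_dvd_of_mem hx)
      have hxN : x ∉ N := fun e => h1 (eq_one_of_coprime_order hNp e hcop)
      have e := heq x hxN n hn.1
      have hcm : Commute x n := (mem_centralizer_singleton_iff.1 hn.2).symm
      have : n ^ orderOf x = 1 := by
        have := pow_orderOf_eq_one (x * n)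
        rwa [e, hcm.mul_pow, pow_orderOf_eq_one, one_mul] at this
      exact eq_one_of_coprime_order hNp hn.1 (hcop.coprime_dvd_left (orderOf_dvd_of_pow_eq_one this))⟩
    have := (Frob.subgroupOf_iff le_sup_left le_sup_right).2 h
    exact ⟨this.isFrobeniusComplement, this.kernel_eq⟩

end Cfsg.Agent.S4108
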