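import Cfsg.Statements.S4112
import Cfsg.Agent.H1.Misc1

set_option autoImplicit false
open Cfsg

namespace Cfsg.Agent.S4112

/-- Let G be a finite group and M ≤ N non-trivial proper normal subgroups such that for every g outside N the conjugacy class of g is a union of cosets of M (equivalently gm is conjugate to g for every m ∈ M). Then (1) and (2) below are equivalent, and they imply (3): (1) every g outside N acts fixed-point-freely on M, that is C_G(x) ≤ N for every x ∈ M, x ≠ 1; (2) the index of N in G is coprime to the order of M; (3) there is a subgroup H of G with HN = G and H ∩ M = 1. -/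
theorem result {G : Type*} [Group G] [Finite G] (N M : Subgroup G) [N.Normal] [M.Normal] (hMN : M ≤ N) (hM1 : M ≠ ⊥) (hN2 : N ≠ ⊤)
    (hcam : ∀ g : G, g ∉ N → ∀ m ∈ M, ∃ x : G, x * g * x⁻¹ = g * m) :
    ((∀ x ∈ M, x ≠ 1 → Subgroup.centralizer ({x} : Set G) ≤ N) ↔ N.index.Coprime (Nat.card M)) ∧
    ((∀ x ∈ M, x ≠ 1 → Subgroup.centralizer ({x} : Set G) ≤ N) → ∃ H : Subgroup G, H ⊔ N = ⊤ ∧ H ⊓ M = ⊥) := by
  open Subgroup CfsgH2 in
  open CfsgH1 hiding card_inf_mul_relIndex card_lt_of_lt card_lt_of_ne_top card_map_mul_card_inf_ker card_mul_relIndex card_subgroupOf card_sup_dvd card_sup_mul_card_inf exists_card_prime_le isNilpotent_map isNilpotent_of_le isPGroup_pCore isSolvable_map isSolvable_of_le le_pCore le_pPrimeCore relIndex_map_dvd in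
  open scoped CfsgH1 in
  open scoped commutatorElement in
  · have h1 : (∀ x ∈ M, x ≠ 1 → C1[x] ≤ N) → N.index.Coprime (Nat.card M) := fun h => Nat.coprime_of_dvd fun p hp a b => by
      have := Fact.mk hp
      obtain ⟨P⟩ : Nonempty (Sylow p G) := inferInstance
      obtain ⟨X, x1, x2, x3⟩ := exists_central_card_p P.2 (le_normalizer_of_normal (H := M)) b
      obtain ⟨x, hx, e⟩ := exists_prime_order_mem hp x3.symm.dvd
      exact P.not_dvd_index (a.trans (index_dvd_of_le ((le_cent1_iff.2 (x2 hx)).trans (h x (x1 hx) fun d => hp.ne_one (by simpa [d] using e.symm)))))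
    refine ⟨⟨h1, fun h x hx x1 g hg => by_contra fun e => x1 ?_⟩, fun h => ?_⟩
    · obtain ⟨a, ha, b, -, rfl, a1, b1⟩ := exists_pi_parts {p | p ∣ N.index} g
      have c : Commute a x := mem_centralizer_singleton_iff.1 (zpowers_le.2 hg ha)
      obtain ⟨y, hy⟩ := hcam a (fun d => e (mul_mem d (mem_of_orderOf_coprime_index (b1.coprime' .self)))) x hx
      have := congrArg (· ^ orderOf a) hy
      simp only [conj_pow, c.mul_pow, pow_orderOf_eq_one, mul_one, mul_inv_cancel, one_mul] at this
      exact orderOf_eq_one_iff.1 (Nat.eq_one_of_dvd_coprimes (a1.coprime (PiN.of_coprime h)) (orderOf_dvd_of_pow_eq_one this.symm)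
        (orderOf_dvd_of_mem hx))
    obtain ⟨H, -, a, b⟩ := exists_minimal_le (fun H => H ⊔ N = ⊤) (top_sup_eq N)
    refine ⟨H, a, inf_eq_bot_of_coprime' (Nat.coprime_of_dvd fun p hp c d => hp.one_lt.ne' (Nat.eq_one_of_dvd_coprimes (h1 h) ?_ d))⟩
    have e : H ⊓ N ≤ frattiniOf H := le_frattiniOf_of_forall inf_le_left fun K k e => b K (top_le_iff.1 (a.ge.trans (sup_le (e.ge.trans
      (sup_le (inf_le_right.trans le_sup_right) le_sup_left)) le_sup_right))) k
    rw [← relIndex_top_right, ← a, relIndex_sup_right, ← inf_relIndex_left]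
    exact (relIndex_map_subtype (frattini H) ▸ prime_dvd_index_frattini hp c).trans (relIndex_dvd_of_le_left _ e)

end Cfsg.Agent.S4112
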