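import Mathlib
import Cfsg.Statements.S4115
import Cfsg.Agent.H8.TI1
import Cfsg.Agent.H2.FT
import Cfsg.Agent.S0877

set_option autoImplicit false
universe u
open Cfsg

namespace Cfsg.Agent.S4115

open Subgroup CfsgH1 CfsgH2 CfsgH8 CfsgH8.TI Function
open scoped commutatorElement

/-- Let G be a finite group and H a subgroup that meets each of its conjugates by elements outside N_G(H) trivially and whose order is coprime to its index in N_G(H). Then H has a normal complement in N_G(H) if and only if H has a normal complement in G. Moreover, if H is not normal in G and has a normal complement in N_G(H), then H is isomorphic to a Frobenius complement of some finite Frobenius group. -/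
theorem result {G : Type u} [Group G] [Finite G] (H : Subgroup G)
    (hTI : Cfsg.IsTISubset (H : Set G)) (hHall : (Nat.card H).Coprime (H.subgroupOf (Subgroup.normalizer (H : Set G))).index) :
    ((∃ K : Subgroup (Subgroup.normalizer (H : Set G)), K.Normal ∧ K.IsComplement' (H.subgroupOf (Subgroup.normalizer (H : Set G)))) ↔
      (∃ N : Subgroup G, N.Normal ∧ N.IsComplement' H)) ∧
    (¬ H.Normal → (∃ K : Subgroup (Subgroup.normalizer (H : Set G)), K.Normal ∧ K.IsComplement' (H.subgroupOf (Subgroup.normalizer (H : Set G)))) →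
      ∃ (F : Type u) (_ : Group F) (_ : Finite F) (C : Subgroup F), Cfsg.IsFrobeniusComplement C ∧ Nonempty (H ≃* C)) := by
  have hl := ti_hall hTI hHall
  have k : (∃ K : Subgroup N[H], K.Normal ∧ K.IsComplement' (H.subgroupOf N[H])) →
      ∃ N : Subgroup G, N.Normal ∧ N.IsComplement' H := fun ⟨K, n, c⟩ => by
    obtain ⟨N, h1, h2, h3⟩ := Cfsg.Agent.S0877.result H (by simpa using hl.coprime) (fun x hx y hy e => by
      obtain ⟨g, rfl⟩ := isConj_iff.1 e
      by_cases x1 : x = 1
      · exact ⟨1, one_mem _, by simp [x1]⟩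
      obtain ⟨⟨⟨⟨u, hu'⟩, hu⟩, ⟨v, hv'⟩, hv⟩, e⟩ := (c.symm.existsUnique ⟨g, ti_norm hTI hx x1 hy⟩).exists
      obtain rfl : u * v = g := congrArg Subtype.val e
      have := congrArg Subtype.val (commute_of_normal_of_disjoint _ _ n inferInstance c.disjoint
        ⟨v, hv'⟩ ⟨x, le_normalizer hx⟩ hv hx).eq
      exact ⟨u, hu, by rw [mul_assoc u v, show v * x = x * v from this]; group⟩) fun E p _ _ d =>
        let ⟨g, l⟩ := ti_conj hTI hl (PiN.self.of_dvd d); ⟨g⁻¹, le_map_cj_iff.1 l⟩
    exact ⟨N, h1, isComplement'_of_disjoint_and_mul_eq_univ (disjoint_iff.2 h3)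
      (by rw [← normal_mul, h2, coe_top])⟩
  refine ⟨⟨k, fun ⟨N, n, c⟩ => ⟨N.subgroupOf _, inferInstance, isComplement'_of_disjoint_and_mul_eq_univ
    (disjoint_iff.2 ?_) (Set.eq_univ_of_forall fun g => ?_)⟩⟩, fun nn e => ?_⟩
  · rw [subgroupOf, subgroupOf, ← comap_inf, disjoint_iff.1 c.disjoint, MonoidHom.comap_bot, ker_subtype]
  · obtain ⟨⟨u, v⟩, e⟩ := (c.existsUnique g.1).exists
    exact ⟨⟨u, by rw [eq_mul_inv_of_mul_eq e]; exact mul_mem g.2 (inv_mem (le_normalizer v.2))⟩, u.2,
      ⟨v, le_normalizer v.2⟩, v.2, Subtype.ext e⟩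
  obtain ⟨N, n, c⟩ := k e
  have nN : ∀ {X : Subgroup G}, X ≤ N[N] := fun {_} => le_top.trans (top_le_norm_iff.2 n)
  have h : TH H N := ⟨hTI, nn, hl, (Hall.eq_piCoreOf (.of_compl le_top (by
    rw [← c.index_eq_card]; simpa using hl.pi') (by rw [compl_compl]; exact hl.pi) (.inr nN) c.sup_eq_top)
      nN).symm, eq_top_iff.2 (c.sup_eq_top.ge.trans (sup_le_sup_left le_normalizer _))⟩
  obtain ⟨X, l, nX, -, -, f⟩ := exists_frob_qt h.nO h.cop (sol_or h.cop) (fun _ hx x1 =>
    (inf_le_inf_left _ (ti_cent h.ti hx x1)).trans h.cent) (h.not_le le_rfl h.ne_bot)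
  obtain ⟨e⟩ := exists_equiv_qt (le_norm_commutator nX nX) (inf_eq_bot_of_coprime'
    (h.cop.coprime_dvd_right (card_dvd_of_le (commutator_self_le.trans l))))
  exact ⟨_, _, inferInstance, _, ((Frob.subgroupOf_iff f.ker_le f.comp_le).2 f).isFrobeniusComplement,
    ⟨e.trans (subgroupOfEquivOfLe f.comp_le).symm⟩⟩

end Cfsg.Agent.S4115
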