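import Mathlib
import Cfsg.Statements.S4117
import Cfsg.Agent.H8.TI1

set_option autoImplicit false
open Cfsg

namespace Cfsg.Agent.S4117

open Subgroup CfsgH1 CfsgH2 CfsgH8 CfsgH8.TI Function
open scoped commutatorElement

/-- Let A be a finite group acting on the finite group G by automorphisms with the orders of A and G coprime, and suppose every Sylow subgroup of G is cyclic. Then the fixed-point subgroup C_G(A) is a Hall subgroup of G (its order is coprime to its index), the subgroup [G, A] generated by the elements g⁻¹·a(g) is cyclic and normal with [G, A] ∩ C_G(A) = 1 and [G, A]·C_G(A) = G. -/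
theorem result {G A : Type*} [Group G] [Finite G] [Group A] [Finite A]
    [MulDistribMulAction A G] (hcop : (Nat.card A).Coprime (Nat.card G))
    (hcyc : ∀ (p : ℕ) [Fact p.Prime] (P : Sylow p G), IsCyclic (P : Subgroup G)) :
    (Nat.card (MulAction.fixedPoints A G : Set G)).Coprime (Nat.card G / Nat.card (MulAction.fixedPoints A G : Set G)) ∧
    IsCyclic (Subgroup.closure {y : G | ∃ (a : A) (g : G), y = g⁻¹ * a • g}) ∧
    (Subgroup.closure {y : G | ∃ (a : A) (g : G), y = g⁻¹ * a • g}).Normal ∧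
    (Subgroup.closure {y : G | ∃ (a : A) (g : G), y = g⁻¹ * a • g} : Set G) ∩ MulAction.fixedPoints A G = {1} ∧
    Subgroup.closure {y : G | ∃ (a : A) (g : G), y = g⁻¹ * a • g} ⊔ Subgroup.closure (MulAction.fixedPoints A G) = ⊤ := by
  obtain ⟨X, _, _, i, j, hi, hj, c, n, -, -⟩ := exists_ambient (MulDistribMulAction.toMulAut A G)
  haveI : IsZGroup G := ⟨fun p hp => @hcyc p ⟨hp⟩⟩
  haveI : IsZGroup (map i ⊤) := .of_injective
    (f := ((equivMapOfInjective ⊤ i hi).symm.trans topEquiv).toMonoidHom) (MulEquiv.injective _)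
  have nQ : map j ⊤ ≤ N[map i ⊤] := le_top.trans (top_le_norm_iff.2 n)
  have c' : (Nat.card (map j ⊤)).Coprime (Nat.card (map i ⊤)) := by
    rwa [card_map_of_injective hi, card_map_of_injective hj, card_top, card_top]
  obtain ⟨h1, h2, h3⟩ := zg_cop nQ c'
  have h4 := coprime_comm_sup_cent nQ c' (.inr inferInstance)
  let F := FixedPoints.subgroup A G
  have e1 : map i ⊤ ⊓ C[map j ⊤] = F.map i := by
    ext x
    refine ⟨?_, ?_⟩
    · rintro ⟨⟨g, -, rfl⟩, h⟩
      exact ⟨g, fun a => hi ((c a g).symm.trans (mul_inv_eq_iff_eq_mul.2 (h _ ⟨a, trivial, rfl⟩))), rfl⟩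
    · rintro ⟨g, h, rfl⟩
      refine ⟨⟨g, trivial, rfl⟩, ?_⟩
      rintro _ ⟨a, -, rfl⟩
      exact mul_inv_eq_iff_eq_mul.1 ((c a g).trans (congrArg i (h a)))
  set D := closure {y : G | ∃ (a : A) (g : G), y = g⁻¹ * a • g}
  have k : ∀ a g, ⁅i g⁻¹, j a⁆ = i (g⁻¹ * a • g) := fun a g => by
    rw [map_mul, ← show _ = i (a • g) from c a g, commutatorElement_def, map_inv, inv_inv]; group
  have e2 : ⁅map i ⊤, map j ⊤⁆ = D.map i := by
    apply le_antisymm
    · refine commutator_le.2 ?_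
      rintro _ ⟨g, -, rfl⟩ _ ⟨a, -, rfl⟩
      exact ⟨_, subset_closure ⟨a, g⁻¹, rfl⟩, by rw [← k, inv_inv]⟩
    · rw [map_le_iff_le_comap, closure_le]
      rintro _ ⟨a, g, rfl⟩
      exact mem_comap.2 (k a g ▸ commutator_mem_commutator ⟨_, trivial, rfl⟩ ⟨a, trivial, rfl⟩)
  have h5 : map i ⊤ ≤ N[⁅map i ⊤, map j ⊤⁆] := le_norm_comm_left
  replace h3 : ⁅map i ⊤, map j ⊤⁆ ⊓ (map i ⊤ ⊓ C[map j ⊤]) = ⊥ :=
    eq_bot_iff.2 ((inf_le_inf_left _ inf_le_right).trans h3.le)
  have h6 := h1.coprime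
  rw [e2] at h2 h3 h4 h5
  rw [e1] at h3 h4 h6
  rw [card_map_of_injective hi, relIndex_map_map_of_injective _ _ hi, relIndex_top_right] at h6
  rw [← Subgroup.map_sup] at h4
  rw [← map_inf_eq _ _ _ hi, map_eq_bot_iff_of_injective _ hi] at h3
  refine ⟨?_, (inj_isCyclic hi).1 h2, ⟨fun x hx g => (mem_map_iff_mem hi).1 ?_⟩,
    congrArg SetLike.coe h3, ?_⟩
  · change (Nat.card F).Coprime (Nat.card G / Nat.card F)
    rwa [← F.card_mul_index, Nat.mul_div_cancel_left _ Nat.card_pos]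
  · rw [map_mul, map_mul, map_inv]
    exact conj_mem_of_norm (h5 ⟨g, trivial, rfl⟩) ⟨x, hx, rfl⟩
  · exact (congrArg _ (closure_eq F)).trans (map_injective hi h4)

end Cfsg.Agent.S4117
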