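import Mathlib
import Cfsg.Statements.S4118
import Cfsg.Agent.H8.TI1

set_option autoImplicit false
open Cfsg

namespace Cfsg.Agent.S4118

open Subgroup CfsgH1 CfsgH2 CfsgH8 CfsgH8.TI Function

/-- Let G be a finite group and H a non-normal subgroup meeting each of its conjugates by elements outside N_G(H) trivially, with the order of H coprime to its index in N_G(H); let π be the set of primes dividing the order of H and suppose G is π-separable (it has a chain of normal subgroups from 1 to G each of whose factors has order divisible only by primes in π or coprime to the order of H). Let O be the largest normal subgroup of G of order coprime to the order of H. Then G = O·N_G(H), O·H is normal in G, and G is solvable if and only if O is solvable and H has no subgroup isomorphic to SL₂(5). -/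
theorem result {G : Type*} [Group G] [Finite G] (H : Subgroup G)
    (hTI : Cfsg.IsTISubset (H : Set G)) (hnn : ¬ H.Normal)
    (hHall : (Nat.card H).Coprime (H.subgroupOf (Subgroup.normalizer (H : Set G))).index)
    (hsep : ∃ (n : ℕ) (M : Fin (n + 1) → Subgroup G), M 0 = ⊥ ∧ M (Fin.last n) = ⊤ ∧ Monotone M ∧ (∀ i, (M i).Normal) ∧
      ∀ i : Fin n, (∀ q : ℕ, q.Prime → q ∣ (M i.castSucc).relIndex (M i.succ) → q ∣ Nat.card H) ∨
        ((M i.castSucc).relIndex (M i.succ)).Coprime (Nat.card H))
    (O : Subgroup G) (hO : O = sSup {K : Subgroup G | K.Normal ∧ (Nat.card K).Coprime (Nat.card H)}) :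
    O ⊔ Subgroup.normalizer (H : Set G) = ⊤ ∧ (O ⊔ H).Normal ∧
    (Group.IsSolvable G ↔ Group.IsSolvable O ∧
      ∀ K : Subgroup G, K ≤ H → ¬ Nonempty (K ≃* Matrix.SpecialLinearGroup (Fin 2) (ZMod 5))) := by
  have h := th_of_sep hTI hnn hHall hsep
  obtain rfl : O = O[{p | p ∣ Nat.card H}ᶜ, ⊤] := hO ▸ le_antisymm (sSup_le fun K hK =>
    le_piCoreOf le_top (top_le_norm_iff.2 hK.1) (PiN.of_coprime hK.2.symm)) (le_sSup ⟨h.normal, h.cop.symm⟩)
  refine ⟨h.sup, top_le_norm_iff.1 (h.sup.ge.trans (sup_le (le_sup_left.trans le_normalizer)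
    (le_norm_sup h.nO le_rfl))), fun _ => ⟨inferInstance, fun K _ ⟨e⟩ => not_solvable_SL25
      (Group.isSolvable_of_surjective (f := e.toMonoidHom) e.surjective)⟩, fun ⟨s, n⟩ => h.sol s fun φ hφ => ?_⟩
  exact n (H.subtype.comp φ).range (by rintro _ ⟨x, rfl⟩; exact (φ x).2)
    ⟨(MonoidHom.ofInjective (f := H.subtype.comp φ) (H.subtype_injective.comp hφ)).symm⟩

end Cfsg.Agent.S4118
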