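import Cfsg.Statements.S4126
import Mathlib
import Cfsg.Agent.L0.G3

set_option autoImplicit false
open Cfsg

namespace Cfsg.Agent.S4126

open Cfsg Subgroup CfsgH2 CfsgL0

/-- Let G be a finite group and p a prime. Suppose every element of order p, and when p = 2 also every element of order 4, has a conjugacy class of p-power size. Then G has a normal p-complement. -/
theorem result {G : Type*} [Group G] [Finite G] (p : ℕ) [Fact p.Prime]
    (h : ∀ x : G, (orderOf x = p ∨ (p = 2 ∧ orderOf x = 4)) → ∃ a : ℕ, (Subgroup.centralizer ({x} : Set G)).index = p ^ a) :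
    Cfsg.HasNormalPComplement p G := by
  have hp : p.Prime := Fact.out
  have hO : PG[p, O[{p}, (⊤ : Subgroup G)]] := isPGroup_iff_piN.2 piN_piCoreOf
  obtain ⟨N, h1, h2, h3, h4⟩ := exists_crit4 hO
  haveI := normal_of_top_le_norm (le_norm_piCoreOf.trans h2)
  have h5 := piRes_le_cent_of_cs (hO.to_le h1) fun x hx => (h3 x hx).elim
    (fun e => ⟨0, cs_eq_one.2 (e ▸ one_mem _)⟩) (h x)
  refine npc_top_iff.2 (frobenius_npc fun Q _ hQ _ g _ hg c => ?_)
  have hA : ¬ p ∣ o[zpowers g] := by rwa [Nat.card_zpowers, ← coprime_iff_not_dvd hp]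
  have := h4 _ hA (le_top.trans le_norm_piCoreOf) (zpowers_le.2
    (h5 (mem_piRes trivial ((piN_compl_singleton' hp).2 c))))
  exact zpowers_le.1 (coprime_faithful hQ hA (zpowers_le.2 hg) fun x hx e => le_centralizer_iff.1 this
    (mem_core_of_cs (hQ.to_le (zpowers_le.2 hx)) ((piN_singleton hp (index_pos _).ne').2 (h x e))))

end Cfsg.Agent.S4126
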