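import Cfsg.Statements.S4127
import Mathlib
import Cfsg.Agent.L0.G3

set_option autoImplicit false
open Cfsg

namespace Cfsg.Agent.S4127

open Cfsg Subgroup CfsgH2 CfsgL0

/-- Let G be a finite group, p a prime and p^a the largest power of p dividing the size of any conjugacy class of G. If some element of p-power order has a conjugacy class of size exactly p^a, then G has a normal p-complement. -/
theorem result {G : Type*} [Group G] [Finite G] (p : ℕ) [Fact p.Prime]
    (a : ℕ) (hmax : ∀ y : G, ¬ p ^ (a + 1) ∣ (Subgroup.centralizer ({y} : Set G)).index)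
    (hx : ∃ x : G, (∃ k : ℕ, orderOf x = p ^ k) ∧ (Subgroup.centralizer ({x} : Set G)).index = p ^ a) :
    Cfsg.HasNormalPComplement p G := by
  have hp : p.Prime := Fact.out
  obtain ⟨x, hx, e⟩ := hx
  have px := CfsgH1.isPGroup_zpowers_iff.2 hx
  have pi : PiN {p} cs[x] := (piN_singleton hp (index_pos _).ne').2 ⟨a, e⟩
  obtain ⟨P, hP⟩ := exists_syl p C1[x]
  obtain ⟨h1, h2, h3⟩ := piRes_le_cent_syl hP (syl_sup_cent hP fun y hy c d => hmax (x * y) (by
    obtain ⟨k, hk⟩ := hx
    rw [c1_mul (mem_c1.1 hy).symm (hk ▸ c.symm.pow_left k), ← relIndex_mul_index inf_le_left,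
      inf_relIndex_left, e, pow_succ']
    exact mul_dvd_mul_right d _))
  have hO : PG[p, O[{p}, (⊤ : Subgroup G)]] := isPGroup_iff_piN.2 piN_piCoreOf
  have n := NPC.iff_piRes.1 h3
  have h4 := CfsgH1.thompson_p_times_q px ((coprime_iff_not_dvd hp).2 n) hO (zpowers_le.2
    (le_cent1_iff.1 piRes_le)) (le_top.trans le_norm_piCoreOf) (le_top.trans le_norm_piCoreOf)
    ((hP.le_of_norm' (hO.to_le inf_le_left) (inf_le_right.trans (cent_zpowers x).le) ((inf_le_right.trans
      (cent_zpowers x).le).trans h1)).trans (le_centralizer_iff.1 h2))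
  refine npc_top_iff.2 (.of_sub le_top (fun g _ => mem_norm_of_map_le (le_piRes ?_ ?_)) n ?_)
  · exact (map_cj_le_of_norm h4 (le_norm_cent le_norm_piCoreOf trivial)).trans
      (cent_le_cent1 (mem_core_of_cs px pi))
  · rwa [card_map_cj, piN_compl_singleton hp]
  rw [relIndex_top_right, ← relIndex_mul_index (piRes_le (M := C1[x]))]
  exact piN_relIndex_piRes.mul pi

end Cfsg.Agent.S4127
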