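import Cfsg.Statements.S4139
import Mathlib
import Cfsg.Agent.L0.G3

set_option autoImplicit false
open Cfsg

namespace Cfsg.Agent.S4139

open Cfsg Subgroup CfsgH2 CfsgL0

theorem aux (G : Type*) [Group G] [Finite G] (k : ℕ) : Nat.card {x : G // cs[x] = k} =
    Nat.card {C : ConjClasses G // Nat.card C.carrier = k} * k := by
  have e : ∀ x : G, Nat.card (ConjClasses.mk x).carrier = cs[x] := fun x => by
    rw [← CfsgH8.ncard_conj_eq_index]
    exact congrArg Set.ncard (Set.ext fun y => by rw [ConjClasses.mem_carrier_iff_mk_eq,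
      ConjClasses.mk_eq_mk_iff_isConj, isConj_comm]; rfl)
  refine ncard_eq_mul (X := {x : G | cs[x] = k}) (Y := {C : ConjClasses G | Nat.card C.carrier = k})
    (Set.toFinite _) ConjClasses.mk (fun x hx => (e x).trans hx) (fun C hC => ?_) (Set.toFinite _)
  refine Eq.trans (congrArg Set.ncard (Set.ext fun y => ?_)) hC
  rw [ConjClasses.mem_carrier_iff_mk_eq]
  exact and_iff_right_of_imp fun h => (e y).symm.trans (h ▸ hC)

/-- Let G and H be finite groups such that for every natural number k, G and H have the same number of conjugacy classes of size k. If H is nilpotent then G is nilpotent. -/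
theorem result {G H : Type*} [Group G] [Finite G] [Group H] [Finite H]
    (hH : Group.IsNilpotent H)
    (h : ∀ k : ℕ, Nat.card {C : ConjClasses G // Nat.card C.carrier = k} = Nat.card {C : ConjClasses H // Nat.card C.carrier = k}) :
    Group.IsNilpotent G := by
  let e : G ≃ H := Equiv.ofFiberEquiv (f := fun x => cs[x]) (g := fun x => cs[x]) fun m =>
    (Finite.card_eq.1 (by rw [aux, aux, h])).some
  have he : ∀ x, cs[e x] = cs[x] := fun x =>
    Equiv.ofFiberEquiv_map (f := fun x => cs[x]) (g := fun x => cs[x]) _ x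
  refine nilpotent_of_mulEquiv (_h := nil_of_syl fun p hp _ => ?_) topEquiv
  obtain ⟨k, h1, h2⟩ := ncard_ppow_cs (p := p) G
  obtain ⟨l, -, h3⟩ := ncard_ppow_cs (p := p) H
  obtain ⟨Q, hQ⟩ := exists_syl p (⊤ : Subgroup H)
  obtain ⟨P, hP⟩ := exists_syl p C[piRes {p} (⊤ : Subgroup G)]
  have nH : Nil[(⊤ : Subgroup H)] := nilpotent_of_mulEquiv topEquiv.symm
  have h4 := card_dvd_of_le (nil_le_cent' nH le_top le_top (isPGroup_iff_piN.1 hQ.pg)
    (nil_piRes_eq nH ▸ piN_piCoreOf : PiN {p}ᶜ o[piRes {p} ⊤]))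
  have h5 : {x : G | PiN {p} cs[x]}.ncard = {x : H | PiN {p} cs[x]}.ncard :=
    Nat.card_congr (e.subtypeEquiv fun x => by simp [he])
  have h6 := (coprime_of_pgroup hQ.pg h1).dvd_of_dvd_mul_right (h2 ▸ h5 ▸ h3 ▸ h4.mul_right l)
  rw [hQ.card_eq, card_top, ← Nat.card_congr e, ← card_top] at h6
  obtain ⟨R, hR⟩ := exists_syl p (⊤ : Subgroup G)
  have h7 := hR.of_card_ge hP.pg le_top (hR.card_eq ▸ Nat.le_of_dvd Nat.card_pos (hP.pow_dvd h6))
  exact ⟨P, h7, h7.piRes_sup.ge.trans (sup_le ((le_centralizer_iff.1 hP.le).trans (cent_le_norm _))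
    le_normalizer)⟩

end Cfsg.Agent.S4139
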