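import Cfsg.Statements.S4140
import Cfsg.Agent.H3.Hv1
import Cfsg.Agent.H1.Cop2
import Cfsg.Agent.L0.Hughes
import Cfsg.Agent.L0.G2

set_option autoImplicit false
open Cfsg

namespace Cfsg.Agent.S4140
open Subgroup CfsgH2
variable {G : Type*} [Group G] [Finite G] {N : Subgroup G} [N.Normal]

omit [Finite G] in
theorem nN {A : Subgroup G} : A ≤ N[N] := le_normalizer_of_normal

omit [Finite G] [N.Normal] in
theorem ord (hcam : ∀ g : G, g ∉ N → ∀ n ∈ N, ∃ x : G, x * g * x⁻¹ = g * n) {g y : G} (hg : g ∉ N) (hy : y ∈ N)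
    (c : g * y = y * g) {m : ℕ} (hm : g ^ m = 1) : y ^ m = 1 := by
  obtain ⟨x, e⟩ := hcam g hg y hy
  have := congrArg (· ^ m) e
  simp only [conj_pow, hm, (show Commute g y from c).mul_pow] at this
  simpa using this.symm

theorem cent (hcam : ∀ g : G, g ∉ N → ∀ n ∈ N, ∃ x : G, x * g * x⁻¹ = g * n) {u : G} (hu : u ∉ N) :
    o[C1[u]] = o[C1[QuotientGroup.mk' N u]] := by
  set π := QuotientGroup.mk' N
  set D := C1[π u].comap π
  have h1 := CfsgL0.ncard_cls_mul D u
  have h2 := card_map_mul_card_inf_ker π D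
  have e1 : {z | ∃ n ∈ D, n * u * n⁻¹ = z} = (u * ·) '' N := by
    ext z
    constructor
    · rintro ⟨n, hn, rfl⟩
      refine ⟨u⁻¹ * (n * u * n⁻¹), ?_, by simp⟩
      rw [SetLike.mem_coe, ← QuotientGroup.ker_mk' N, MonoidHom.mem_ker, map_mul, map_mul, map_mul,
        mem_centralizer_singleton_iff.1 hn, map_inv, map_inv]
      show (π u)⁻¹ * (π u * π n * (π n)⁻¹) = 1
      group
    · rintro ⟨n, hn, rfl⟩
      obtain ⟨x, e⟩ := hcam u hu n hn
      refine ⟨x, mem_centralizer_singleton_iff.2 ?_, e⟩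
      have := congrArg π e
      rwa [map_mul, map_mul, map_mul, show π n = 1 from (QuotientGroup.eq_one_iff n).2 hn, mul_one, map_inv,
        mul_inv_eq_iff_eq_mul] at this
  rw [e1, Set.ncard_image_of_injective _ (mul_right_injective u), inf_eq_right.2 fun x hx =>
    mem_centralizer_singleton_iff.2 (by rw [← map_mul, ← map_mul, mem_centralizer_singleton_iff.1 hx])] at h1
  rw [map_comap_eq_self_of_surjective (QuotientGroup.mk'_surjective N), QuotientGroup.ker_mk', inf_eq_right.2 fun x hx =>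
    mem_centralizer_singleton_iff.2 (by rw [show π x = 1 from (QuotientGroup.eq_one_iff x).2 hx]; simp), ← h1,
    mul_comm] at h2
  exact (Nat.eq_of_mul_eq_mul_left Nat.card_pos h2).symm

theorem key (hcam : ∀ g : G, g ∉ N → ∀ n ∈ N, ∃ x : G, x * g * x⁻¹ = g * n) {s : ℕ} (hs : s.Prime) (h1 : s ∣ o[N])
    (h2 : s ∣ N.index) {U R : Subgroup G} (hU : N ⊔ U = ⊤) (hR : R ≤ N) (hn : U ≤ N[R]) (hd : ¬ s ∣ o[R])
    (hc : ∀ S : Subgroup G, IsPGroup s S → S ≤ U ⊓ N → S ≤ C[R]) : R = ⊥ := by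
  haveI := Fact.mk hs
  by_contra h0
  set π := QuotientGroup.mk' N with hπ
  have pN : ∀ x, π x = 1 ↔ x ∈ N := QuotientGroup.eq_one_iff
  obtain ⟨S, hS⟩ := exists_syl s U
  have hS' : Syl s (S.map π) ⊤ := by
    have := hS.map π
    rwa [show U.map π = ⊤ by
      rw [← map_top_of_surjective _ (QuotientGroup.mk'_surjective N), ← hU, Subgroup.map_sup,
        QuotientGroup.map_mk'_self, bot_sup_eq]] at this
  have cyc : ∀ a ∈ S, ∀ b ∈ S, π a * π b = π b * π a → ∃ c ∈ S, π a ∈ zpowers (π c) ∧ π b ∈ zpowers (π c) := by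
    intro a ha b hb ab
    set K := S ⊓ N
    set A := zpowers a ⊔ zpowers b
    have AS : A ≤ S := sup_le (zpowers_le.2 ha) (zpowers_le.2 hb)
    have SK : S ≤ N[K] := le_norm_inf le_normalizer nN
    have KR : K ≤ C[R] := hc K (hS.pg.to_le inf_le_left) (inf_le_inf_right _ hS.le)
    have RK : R ≤ N[K] := le_norm_of_le_cent (le_centralizer_iff.1 KR)
    have KR0 : K ⊓ R = ⊥ := inf_eq_bot_of_coprime' (coprime_of_pgroup (hS.pg.to_le inf_le_left) hd)
    have := CfsgH1.isCyclic_of_fpf_comm (K := qt K R) (A := qt K A)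
      (fun e => h0 (by rw [← KR0, eq_comm, inf_eq_right]; exact (qt_eq_bot RK).1 e))
      (qt_le_norm ((AS.trans hS.le).trans hn)) (fun x hx x1 => eq_bot_iff.2 fun y hy => ?_)
      ((isMulComm_qt_iff (AS.trans SK)).2 (le_inf ((comm_le_left le_normalizer).trans AS) ?_))
    · obtain ⟨⟨c, hc⟩, hc'⟩ := IsCyclic.exists_generator (α := qt K A)
      obtain ⟨c, c1, rfl⟩ := mem_qt.1 hc
      have : ∀ x ∈ A, π x ∈ zpowers (π c) := fun x hx => by
        obtain ⟨k, hk⟩ := hc' ⟨_, qmk_mem_qt (SK (AS hx)) hx⟩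
        have := congrArg Subtype.val hk
        simp only [SubgroupClass.coe_zpow, ← map_zpow, qmk_eq_iff] at this
        exact ⟨k, (map_zpow π _ k).symm.trans (QuotientGroup.eq.2 this.2)⟩
      exact ⟨c, AS c1, this a (mem_sup_left (mem_zpowers a)), this b (mem_sup_right (mem_zpowers b))⟩
    · obtain ⟨x, x2, rfl⟩ := mem_qt.1 hx
      obtain ⟨y, y2, rfl⟩ := mem_qt.1 hy.1
      have e := mem_centralizer_singleton_iff.1 hy.2
      rw [← map_mul, ← map_mul, eq_comm, qmk_eq_iff'] at e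
      have : (x * y : G) * (y * x)⁻¹ = 1 := mem_bot.1 (KR0 ▸ ⟨e, by
        simpa [mul_assoc] using mul_mem (conj_mem_of_norm (hn (hS.le (AS x2))) y2) (inv_mem y2)⟩)
      obtain ⟨k, hk⟩ := pgroup_pow_eq_one hS.pg (AS x2)
      have := ord hcam (fun h => x1 (qmk_eq_one.2 ⟨AS x2, h⟩)) (hR y2) (mul_inv_eq_one.1 this) hk
      have y1 : (y : G) = 1 := orderOf_eq_one_iff.1 (Nat.eq_one_of_dvd_coprimes
        (Nat.Coprime.pow_left k ((Nat.Prime.coprime_iff_not_dvd hs).2 hd)) (orderOf_dvd_of_pow_eq_one this)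
        (orderOf_dvd_of_mem y2))
      rw [mem_bot, qmk_eq_one, y1]; exact one_mem _
    · rw [← QuotientGroup.ker_mk' N, ← Subgroup.map_eq_bot_iff, map_commutator, commutator_eq_bot_iff_le_centralizer,
        le_centralizer_iff_isMulCommutative, Subgroup.map_sup, MonoidHom.map_zpowers, MonoidHom.map_zpowers]
      exact isMulComm_sup inferInstance inferInstance (by
        rw [cent_zpowers, zpowers_le]; exact mem_centralizer_singleton_iff.2 ab)
  obtain ⟨u, hu, um⟩ := (S : Set G).toFinite.exists_maximalFor (fun u => orderOf (π u)) _ ⟨1, S.one_mem⟩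
  have uN : u ∉ N := fun h => hS'.ne_bot (by rwa [card_top]) (eq_bot_iff.2 (by
    rintro _ ⟨x, hx, rfl⟩
    have := um hx
    simp only [(pN u).2 h, orderOf_one] at this
    exact orderOf_eq_one_iff.1 (le_antisymm (this (orderOf_pos _)) (orderOf_pos _))))
  obtain ⟨k, hk⟩ := pgroup_pow_eq_one hS.pg hu
  have pu : IsPGroup s (zpowers (π u)) := isPGroup_zpowers (k := k) (by rw [← map_pow, hk, map_one])
  have d1 : orderOf (π u) * s ∣ o[C1[π u]] := by
    rw [← cent hcam uN, ← card_map_mul_card_inf_ker π, QuotientGroup.ker_mk']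
    refine Nat.mul_dvd_mul (orderOf_dvd_of_mem (mem_map_of_mem _ (self_mem_cent1 u))) (dvd_card_of_pgroup
      (isPGroup_of_forall fun y hy => ⟨k, ord hcam uN hy.2 (mem_centralizer_singleton_iff.1 hy.1).symm hk⟩) ?_)
    have := inf_cent_ne_bot (isPGroup_zpowers hk) nN h1
    rwa [cent_zpowers, inf_comm] at this
  obtain ⟨T, hT, uT⟩ := exists_syl_ge pu (zpowers_le.2 (self_mem_cent1 (π u)))
  obtain ⟨t, t1, t2⟩ : ∃ t ∈ T, t ∉ zpowers (π u) := by
    by_contra! hc
    obtain ⟨j, hj⟩ := pgroup_mem_order pu (mem_zpowers _)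
    rw [hj, ← pow_succ] at d1
    have := (hT.pow_dvd d1).trans (card_dvd_of_le hc)
    rw [Nat.card_zpowers, hj, Nat.pow_dvd_pow_iff_le_right hs.one_lt] at this
    omega
  obtain ⟨g, -, hg⟩ := hS'.exists_conj_le hT.pg le_top
  obtain ⟨a, ha, ea⟩ := hg (conj_mem_map_cj (g := g) (uT (mem_zpowers _)))
  obtain ⟨b, hb, eb⟩ := hg (conj_mem_map_cj (g := g) t1)
  obtain ⟨c, hc, ac, bc⟩ := cyc a ha b hb (by
    rw [ea, eb, conj_mul, conj_mul, mem_centralizer_singleton_iff.1 (hT.le t1)])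
  have o1 : orderOf (π a) = orderOf (π u) := by rw [ea, orderOf_conj']
  have o2 := Nat.le_of_dvd (orderOf_pos _) (orderOf_dvd_of_mem_zpowers ac)
  rw [← eq_of_le_of_card_ge (zpowers_le.2 ac) (by
    rw [Nat.card_zpowers, Nat.card_zpowers, o1]; exact um hc (o1.ge.trans o2)), ea, eb] at bc
  obtain ⟨n, hn⟩ := bc
  simp only [conj_zpow, mul_left_inj, mul_right_inj] at hn
  exact t2 ⟨n, hn⟩

/-- Let G be a finite group and N a proper non-trivial normal subgroup such that for every g outside N the conjugacy class of g is a union of cosets of N (equivalently gn is conjugate to g for every n ∈ N). Then either every element of G outside N acts fixed-point-freely on N (C_G(x) ≤ N for all x ∈ N, x ≠ 1, so G is a Frobenius group with kernel N), or N has prime-power order, or G/N has prime-power order. -/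
theorem result {G : Type*} [Group G] [Finite G] (N : Subgroup G) [N.Normal] (hN1 : N ≠ ⊥) (hN2 : N ≠ ⊤)
    (hcam : ∀ g : G, g ∉ N → ∀ n ∈ N, ∃ x : G, x * g * x⁻¹ = g * n) :
    (∀ x ∈ N, x ≠ 1 → Subgroup.centralizer ({x} : Set G) ≤ N) ∨ IsPrimePow (Nat.card N) ∨ IsPrimePow N.index := by
  refine or_iff_not_imp_left.2 fun h1 => or_iff_not_imp_right.2 fun h3 => ?_
  push Not at h1
  obtain ⟨y, y1, y2, y3⟩ := h1
  obtain ⟨g, g1, g2⟩ := SetLike.not_le_iff_exists.1 y3
  set p := (orderOf y).minFac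
  have hp : p.Prime := Nat.minFac_prime fun e => y2 (orderOf_eq_one_iff.1 e)
  haveI := Fact.mk hp
  have pN : p ∣ o[N] := (Nat.minFac_dvd _).trans (orderOf_dvd_of_mem y1)
  have pI : p ∣ N.index := by
    obtain ⟨a, ha, b, hb, e, a1, b1⟩ := exists_pi_parts {p} g
    have bN : b ∈ N := by_contra fun h => b1 p hp ((Nat.minFac_dvd _).trans (orderOf_dvd_of_pow_eq_one (ord hcam h y1
      (mem_centralizer_singleton_iff.1 (zpowers_le.2 g1 hb)) (pow_orderOf_eq_one b)))) rfl
    by_contra hc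
    exact g2 (e ▸ mul_mem (mem_of_pow_mem_coprime (N.pow_index_mem a) (a1.coprime ((piN_compl_singleton hp).2 hc))) bN)
  obtain ⟨q, hq, qI, qp⟩ : ∃ q, q.Prime ∧ q ∣ N.index ∧ q ≠ p := by
    by_contra! hc
    obtain ⟨k, hk⟩ := (piN_singleton hp (index_pos N).ne').1 fun q a b => hc q a b
    exact h3 ⟨p, k, hp.prime, Nat.pos_of_ne_zero fun e => hN2 (index_eq_one.1 (by rw [hk, e, pow_zero])), hk.symm⟩
  obtain ⟨t, ht, x, x1, x2⟩ : ∃ t, t.Prime ∧ ∃ x, orderOf x = t ∧ x ∉ N := by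
    by_cases qN : q ∣ o[N]
    · obtain ⟨U, -, hU, um⟩ := exists_minimal_le (fun U => N ⊔ U = ⊤) (H := ⊤) (by simp)
      have nF : U ≤ N[U ⊓ N] := le_norm_inf le_normalizer nN
      have fr : ∀ (r : ℕ) [Fact r.Prime] (R), Syl r R (U ⊓ N) → U ≤ N[R] := fun r _ R hR => by
        refine inf_eq_left.1 (um (U ⊓ N[R]) (top_le_iff.1 (hU.ge.trans (sup_le le_sup_left ?_))) inf_le_left)
        exact (hR.frattini_sup inf_le_left nF).ge.trans (sup_le (inf_le_right.trans le_sup_left) le_sup_right)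
      have nil : Nil[(U ⊓ N : Subgroup G)] := nil_of_syl fun r _ _ => by
        obtain ⟨R, hR⟩ := exists_syl r (U ⊓ N)
        exact ⟨R, hR, inf_le_left.trans (fr r R hR)⟩
      have F0 : U ⊓ N = ⊥ := by
        by_contra hc
        obtain ⟨r, hr, rd⟩ := Nat.exists_prime_and_dvd (mt card_eq_one.1 hc)
        haveI := Fact.mk hr
        obtain ⟨R, hR⟩ := exists_syl r (U ⊓ N)
        have : ∀ s, s.Prime → s ∣ o[N] → s ∣ N.index → s = r := fun s a b c => by_contra fun n => by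
          haveI := Fact.mk a
          have nd : ¬ s ∣ o[R] := fun h => n (hR.pg.piN (π := {r}) rfl s a h)
          exact hR.ne_bot rd (key hcam a b c hU (hR.le.trans inf_le_right) (fr r R hR) nd fun S s1 s2 =>
            nil_le_cent nil s2 hR.le (coprime_of_pgroup s1 nd))
        exact qp ((this q hq qN qI).trans (this p hp pN pI).symm)
      obtain ⟨x, x1, x2⟩ := exists_prime_order_mem (H := U) hp (by
        rw [← relIndex_top_right, ← hU, relIndex_sup_left] at pI
        exact pI.trans (relIndex_dvd_card _ _))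
      exact ⟨p, hp, x, x2, fun h => hp.one_lt.ne' (by rw [← x2, show x = 1 from mem_bot.1 (F0 ▸ mem_inf.2 ⟨x1, h⟩), orderOf_one])⟩
    · obtain ⟨x, -, x2⟩ := exists_prime_order_mem (H := (⊤ : Subgroup G)) hq (by
        rw [card_top]; exact qI.trans N.index_dvd_card)
      exact ⟨q, hq, x, x2, fun h => qN (x2 ▸ orderOf_dvd_of_mem h)⟩
  haveI := Fact.mk ht
  have nil : Nil[N] := CfsgL0.kegel t _ G N (zpowers x ⊔ N) rfl
    (lt_of_le_of_ne le_sup_right fun e => x2 (e ▸ mem_sup_left (mem_zpowers x))) nN fun g hg gN => by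
      obtain ⟨a, ha, n, hn, rfl⟩ := (mem_sup_of_norm nN).1 hg
      obtain ⟨c, e⟩ := hcam a (fun h => gN (mul_mem h hn)) n hn
      rw [← e, conj_pow, orderOf_dvd_iff_pow_eq_one.1 (x1 ▸ orderOf_dvd_of_mem_zpowers ha)]; simp
  obtain ⟨k, hk⟩ := (piN_singleton hp (card_pos' N).ne').1 fun r hr rd => by_contra fun n => by
    haveI := Fact.mk hr
    obtain ⟨R, hR⟩ := exists_syl r N
    have nd : ¬ p ∣ o[R] := fun h => n (hR.pg.piN (π := {r}) rfl p hp h).symm
    exact hR.ne_bot rd (key hcam hp pN pI (U := ⊤) (by simp) hR.le (le_trans nN (hR.norm_le_of_nil nil)) nd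
      fun S s1 s2 => nil_le_cent nil (s2.trans inf_le_right) hR.le (coprime_of_pgroup s1 nd))
  exact ⟨p, k, hp.prime, Nat.pos_of_ne_zero fun e => hN1 (card_eq_one.1 (by rw [hk, e, pow_zero])), hk.symm⟩


end Cfsg.Agent.S4140
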