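import Cfsg.Statements.S4142
import Mathlib
import Cfsg.Agent.L0.G3

set_option autoImplicit false
open Cfsg

namespace Cfsg.Agent.S4142

open Cfsg Subgroup CfsgH2 CfsgL0

/-- Let G be a finite group and N a normal subgroup. Then the conjugacy class of every element g outside N is a union of cosets of N (gn is conjugate to g for all n ∈ N) if and only if for every g outside N the centralizer of g in G has the same order as the centralizer of gN in G/N. -/
theorem result {G : Type*} [Group G] [Finite G] (N : Subgroup G) [N.Normal] :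
    (∀ g : G, g ∉ N → ∀ n ∈ N, ∃ x : G, x * g * x⁻¹ = g * n) ↔
      ∀ g : G, g ∉ N → Nat.card (Subgroup.centralizer ({g} : Set G)) =
        Nat.card (Subgroup.centralizer ({(QuotientGroup.mk g : G ⧸ N)} : Set (G ⧸ N))) := by
  refine forall₂_congr fun g _ => ?_
  have sf := QuotientGroup.mk'_surjective N
  have h1 := ncard_comap sf {y | IsConj (g : G ⧸ N) y}
  rw [QuotientGroup.ker_mk'] at h1
  have h2 := CfsgH8.ncard_conj_mul_card_centralizer g
  have h3 := CfsgH8.ncard_conj_mul_card_centralizer (g : G ⧸ N)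
  rw [card_eq_card_quotient_mul_card_subgroup N, ← h3, mul_right_comm, ← h1] at h2
  have h4 : {y | IsConj g y} ⊆ QuotientGroup.mk' N ⁻¹' {y | IsConj (g : G ⧸ N) y} := fun y hy =>
    (QuotientGroup.mk' N).map_isConj hy
  refine ⟨fun h => ?_, fun h n hn => isConj_iff.1 ((Set.eq_of_subset_of_ncard_le h4
    (Nat.eq_of_mul_eq_mul_right Nat.card_pos (h ▸ h2)).ge).ge ?_)⟩
  · rw [← h4.antisymm fun y hy => ?_] at h2
    · exact Nat.eq_of_mul_eq_mul_left ((Set.ncard_pos (Set.toFinite _)).2 ⟨g, IsConj.refl g⟩) h2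
    obtain ⟨c, hc⟩ := isConj_iff.1 hy
    obtain ⟨c, rfl⟩ := sf c
    have := QuotientGroup.eq.1 (show ((c * g * c⁻¹ : G) : G ⧸ N) = y from hc)
    obtain ⟨x, hx⟩ := h _ (‹N.Normal›.conj_mem _ this c⁻¹)
    exact isConj_iff.2 ⟨c * x, by rw [show c * x * g * (c * x)⁻¹ = c * (x * g * x⁻¹) * c⁻¹ by group, hx]; group⟩
  · exact isConj_iff.2 ⟨1, by simp [(QuotientGroup.eq_one_iff n).2 hn]⟩

end Cfsg.Agent.S4142
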