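import Cfsg.Statements.S4145
import Mathlib
import Cfsg.Agent.L0.M3
import Cfsg.Agent.H2.BG6
import Cfsg.Agent.H1.Sep

set_option autoImplicit false
open Cfsg

namespace Cfsg.Agent.S4145

open Cfsg Subgroup CfsgH2 CfsgL0
theorem npc_cyc {G : Type*} [Group G] [Finite G] {p : ℕ} [Fact p.Prime] {P M : Subgroup G} (hS : Syl p P M)
    (hP : IsCyclic P) (h : ∀ y ∈ M ⊓ N[P], ¬ p ∣ orderOf y → ⁅P, zpowers y⁆ ≠ P ∨ P ⊓ C[zpowers y] ≠ ⊥) : NPC p M := by
  refine hS.npc_of_norm_le_cent (le_of_forall_pelem fun q hq x hx hxq => ?_)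
  haveI := Fact.mk hq
  by_cases e : q = p
  · subst e
    exact le_cent_self inferInstance (hS.le_of_norm' hxq (zpowers_le.2 hx.1) (zpowers_le.2 hx.2) (mem_zpowers x))
  · obtain ⟨k, hk⟩ := pgroup_mem_order hxq (mem_zpowers x)
    have : ¬ p ∣ orderOf x := fun h1 =>
      e ((Nat.prime_dvd_prime_iff_eq Fact.out hq).1 ((Fact.out : p.Prime).dvd_of_dvd_pow (hk ▸ h1))).symm
    rcases cyc_coprime_cent_or hP hS.pg (zpowers_le.2 hx.2) (by rwa [Nat.card_zpowers]) with h1 | h1
    · exact h1 (mem_zpowers x)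
    · exact ((h x hx this).elim (· h1.1) (· h1.2)).elim
theorem sep_npc {G : Type*} [Group G] [Finite G] {p : ℕ} [Fact p.Prime] (h : NPC p (⊤ : Subgroup G)) :
    CfsgH1.Sep {{p}, {p}ᶜ} G :=
  CfsgH1.SepTo.step _ _ {p} (CfsgH1.SepTo.step ⊥ O[{p}ᶜ, ⊤] {p}ᶜ .bot bot_le inferInstance (by simp)
    (by rw [relIndex_bot_left]; exact piN_piCoreOf)) le_top inferInstance (by simp) h

/-- Let G be a finite group with a cyclic Sylow p-subgroup and H a normal subgroup such that p divides both the order of H and the index of H. Then H has a normal p-complement and G is p-solvable. -/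
theorem result {G : Type*} [Group G] [Finite G] (p : ℕ) [Fact p.Prime]
    (P : Sylow p G) (hP : IsCyclic (P : Subgroup G)) (H : Subgroup G) [H.Normal] (h1 : p ∣ Nat.card H) (h2 : p ∣ H.index) :
    Cfsg.HasNormalPComplement p H ∧ Cfsg.IsPSolvable p G := by
  rename_i hp _
  have hS := syl_top P
  have nH : ∀ X : Subgroup G, X ≤ N[H] := fun X => le_top.trans (top_le_norm_iff.2 inferInstance)
  have h3 : NPC p H := by
    refine (npc_cyc (M := (P : Subgroup G) ⊔ H) (hS.mono le_sup_left le_top) hP fun y hy hd => Or.inl fun e => ?_).mono le_sup_right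
    have hyH : zpowers y ≤ H := by
      refine le_of_coprime_relIndex (M := (P : Subgroup G) ⊔ H) (zpowers_le.2 hy.1) (nH _) ?_
      obtain ⟨n, hn⟩ := exists_relIndex_eq_pow P.isPGroup' H
      rw [relIndex_sup_right, hn, Nat.card_zpowers]
      exact Nat.Coprime.pow_right _ ((coprime_iff_not_dvd hp.out).2 hd)
    have : (P : Subgroup G) ≤ H := e.ge.trans ((commutator_mono le_rfl hyH).trans (comm_le_right (nH _)))
    exact hS.not_dvd_of_le this (by rwa [relIndex_top_right])
  refine ⟨npc_iff.2 h3, (CfsgH1.isPSolvable_iff hp.out).2 ?_⟩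
  set O := O[{p}ᶜ, H]
  refine CfsgH1.Sep.of_quotient_piNum (N := O) (σ := {p}ᶜ) (by simp) piN_piCoreOf ?_
  set f := QuotientGroup.mk' O
  have sH := hS.inf_norm (le_top (a := H)) (nH _)
  have e : H.map f = ((P : Subgroup G) ⊓ H).map f := by
    rw [map_mk_eq_map_mk, sup_comm _ O, sup_comm _ O, h3.sup_eq sH]; exact sup_eq_right.2 piCoreOf_le
  have hS' := CfsgH1.Syl.map_mk_top hS O
  have hle : H.map f ≤ (P : Subgroup G).map f := e ▸ map_mono inf_le_left
  haveI hP' : IsCyclic ((P : Subgroup G).map f) := isCyclic_of_surjective _ (f.subgroupMap_surjective _)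
  haveI hH' : IsCyclic (H.map f) := isCyclic_of_le hle
  haveI : (H.map f).Normal := Normal.map inferInstance f (QuotientGroup.mk'_surjective O)
  have h0 : H.map f ≠ ⊥ := fun e => not_dvd_piCoreOf (h1.trans (card_dvd_of_le ((map_mk_eq_bot O).1 e)))
  have hPC : (P : Subgroup G).map f ≤ C[H.map f] := le_cent_of_comm inferInstance hle
  refine CfsgH1.Sep.extension (N := C[H.map f]) ?_ (CfsgH1.Sep.of_piNum (σ := {p}ᶜ) (by simp) ?_)
  · refine sep_npc (npc_top_iff.1 (npc_iff.2 (npc_cyc (hS'.mono hPC le_top) hP' fun y hy _ => Or.inr fun e => h0 ?_)))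
    exact le_bot_iff.1 (e ▸ le_inf hle (le_centralizer_iff.1 (zpowers_le.2 hy.1)))
  · exact (piN_compl_singleton hp.out).2 (by rw [← index_eq_card, ← relIndex_top_right]; exact hS'.not_dvd_of_le hPC)

end Cfsg.Agent.S4145
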