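import Cfsg.Statements.S4149
import Mathlib
import Cfsg.Agent.H1.CT3
import Cfsg.Agent.L0.G3
import Cfsg.Agent.H1.Misc1

set_option autoImplicit false
open Cfsg

namespace Cfsg.Agent.S4149

/-- Let G be a finite group that has a normal p-complement for at most one prime p dividing its order, and let σ be a natural number such that every conjugacy class size of G has at most σ distinct prime divisors. Then the number of primes dividing at least one conjugacy class size of G is at most 2σ. -/
theorem result {G : Type*} [Group G] [Finite G] (σ : ℕ)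
    (hσ : ∀ x : G, ((Subgroup.centralizer ({x} : Set G)).index).primeFactors.card ≤ σ)
    (hnil : ∀ p q : ℕ, p.Prime → q.Prime → p ∣ Nat.card G → q ∣ Nat.card G →
      Cfsg.HasNormalPComplement p G → Cfsg.HasNormalPComplement q G → p = q) :
    Nat.card {p : ℕ | p.Prime ∧ ∃ x : G, p ∣ (Subgroup.centralizer ({x} : Set G)).index} ≤ 2 * σ := by
  open Subgroup CfsgH2 in
  open CfsgH1 hiding card_inf_mul_relIndex card_lt_of_lt card_lt_of_ne_top card_map_mul_card_inf_ker card_mul_relIndex card_subgroupOf card_sup_dvd card_sup_mul_card_inf coprime_le_sup_cent exists_card_prime_le isNilpotent_map isNilpotent_of_le isPGroup_pCore isSolvable_map isSolvable_of_le le_pCore le_pPrimeCore relIndex_map_dvd in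
  open scoped CfsgH1 in
  open scoped commutatorElement in
  · classical
    haveI := Fintype.ofFinite G
    let T := (Nat.card G).primeFactors.filter fun p => ∃ x : G, p ∣ C1[x].index
    let U := T.filter fun p => ¬ HasNormalPComplement p G
    have e : {p : ℕ | p.Prime ∧ ∃ x : G, p ∣ C1[x].index} = ↑T := by
      ext p
      simp only [T, Finset.coe_filter, Nat.mem_primeFactors, Set.mem_setOf_eq]
      exact ⟨fun ⟨a, x, h⟩ => ⟨⟨a, h.trans (index_dvd_card _), Nat.card_pos.ne'⟩, x, h⟩, fun h => ⟨h.1.1, h.2⟩⟩
    rw [e, Nat.card_coe_set_eq, Set.ncard_coe_finset]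
    have hT : ∀ p ∈ T, p.Prime ∧ p ∣ Nat.card G ∧ ∃ x : G, p ∣ C1[x].index := fun p hp => by
      simp only [T, Finset.mem_filter, Nat.mem_primeFactors] at hp
      exact ⟨hp.1.1, hp.1.2.1, hp.2⟩
    rcases Nat.eq_zero_or_pos σ with rfl | s0
    · refine (Finset.card_eq_zero.2 (Finset.eq_empty_of_forall_notMem fun p hp => ?_)).le
      obtain ⟨a, -, x, h⟩ := hT p hp
      exact Finset.card_ne_zero_of_mem (Nat.mem_primeFactors.2 ⟨a, h, index_ne_zero_of_finite⟩)
        (Nat.le_zero.1 (hσ x))
    have c1 : T.card ≤ U.card + 1 := by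
      rw [← Finset.card_filter_add_card_filter_not (s := T) fun p => HasNormalPComplement p G, add_comm]
      refine Nat.add_le_add_left (Finset.card_le_one.2 fun p hp q hq => ?_) _
      rw [Finset.mem_filter] at hp hq
      exact hnil p q (hT p hp.1).1 (hT q hq.1).1 (hT p hp.1).2.1 (hT q hq.1).2.1 hp.2 hq.2
    have h1 : ∑ p ∈ U, (Finset.univ.filter fun x : G => p ∣ C1[x].index).card =
        ∑ x : G, (U.filter fun p => p ∣ C1[x].index).card := by
      simp only [Finset.card_filter]; exact Finset.sum_comm
    have h2 : ∑ x : G, (U.filter fun p => p ∣ C1[x].index).card ≤ (Nat.card G - 1) * σ := by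
      rw [← Finset.add_sum_erase _ _ (Finset.mem_univ (1 : G)), Finset.card_eq_zero.2 (Finset.filter_eq_empty_iff.2
        fun p hp d => ?_), zero_add]
      · refine (Finset.sum_le_card_nsmul _ _ σ fun x _ => le_trans (Finset.card_le_card fun p hp => ?_) (hσ x)).trans ?_
        · rw [Finset.mem_filter] at hp
          exact Nat.mem_primeFactors.2 ⟨(hT p (Finset.mem_filter.1 hp.1).1).1, hp.2, index_ne_zero_of_finite⟩
        · rw [Finset.card_erase_of_mem (Finset.mem_univ _), Finset.card_univ, Nat.card_eq_fintype_card, smul_eq_mul]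
      · rw [CfsgL0.cs_eq_one.2 (one_mem _)] at d
        exact (hT p (Finset.mem_filter.1 hp).1).1.one_lt.ne' (Nat.dvd_one.1 d)
    have h3 : ∀ p ∈ U, Nat.card G ≤ 2 * (Finset.univ.filter fun x : G => p ∣ C1[x].index).card := fun p hp => by
      rw [Finset.mem_filter] at hp
      haveI := Fact.mk (hT p hp.1).1
      obtain ⟨R, hR⟩ := exists_syl (p := p) (⊤ : Subgroup G)
      have k : 2 * {x | ∃ g, g * x * g⁻¹ ∈ C[R]}.ncard ≤ Nat.card G := by
        have h1 := CfsgL0.two_conj_cover (norm_le_norm_cent R)
        rw [← card_mul_relIndex (cent_le_norm R), mul_comm, mul_comm (Nat.card G), mul_assoc] at h1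
        refine (Nat.mul_le_mul_right _ ?_).trans (Nat.le_of_mul_le_mul_left h1 Nat.card_pos)
        exact lt_of_le_of_ne (relIndex_pos _ _) fun e => hp.2 (npc_top_iff.2 (hR.npc_of_norm_le_cent
          (inf_le_right.trans (relIndex_eq_one.1 e.symm))))
      have k2 : (Finset.univ.filter fun x : G => ¬ p ∣ C1[x].index).card ≤ {x | ∃ g, g * x * g⁻¹ ∈ C[R]}.ncard := by
        rw [← Set.ncard_coe_finset]
        exact Set.ncard_le_ncard (fun x hx => (hR.exists_conj_cent (by
          rw [relIndex_top_right]; exact (Finset.mem_filter.1 hx).2)).imp fun _ h => h.2)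
      have k3 := Finset.card_filter_add_card_filter_not (s := (Finset.univ : Finset G)) fun x => p ∣ C1[x].index
      rw [Finset.card_univ, ← Nat.card_eq_fintype_card] at k3
      omega
    have h4 := Finset.card_nsmul_le_sum _ _ _ h3
    rw [← Finset.mul_sum, h1, smul_eq_mul] at h4
    have h5 : U.card * Nat.card G < 2 * σ * Nat.card G := by
      obtain ⟨n, hn⟩ := Nat.exists_eq_succ_of_ne_zero (Nat.card_pos (α := G)).ne'
      rw [hn] at h2 h4 ⊢
      simp only [Nat.succ_eq_add_one, Nat.add_sub_cancel] at *
      nlinarith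
    have := Nat.lt_of_mul_lt_mul_right h5
    omega

end Cfsg.Agent.S4149
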