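import Mathlib
import Cfsg.Statements.S4151
import Cfsg.Agent.H8.TI1

set_option autoImplicit false
open Cfsg

namespace Cfsg.Agent.S4151

open Subgroup CfsgH1 CfsgH2 CfsgH8 CfsgH8.TI Function
open scoped commutatorElement

/-- Let G be a finite group and H a non-normal subgroup meeting each of its conjugates by elements outside N_G(H) trivially, with the order of H coprime to its index in N_G(H), such that G is π-separable for π the set of primes dividing the order of H (G has a chain of normal subgroups from 1 to G each of whose factors has order divisible only by primes dividing the order of H or coprime to it). Suppose a Sylow 2-subgroup of H is abelian and Q is a complement of H in N_G(H). Then C_H(Q), the subgroup of elements of H commuting with Q, has order coprime to its index in G and has a normal complement in G. -/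
theorem result {G : Type*} [Group G] [Finite G] (H : Subgroup G)
    (hTI : Cfsg.IsTISubset (H : Set G)) (hnn : ¬ H.Normal)
    (hHall : (Nat.card H).Coprime (H.subgroupOf (Subgroup.normalizer (H : Set G))).index)
    (hsep : ∃ (n : ℕ) (M : Fin (n + 1) → Subgroup G), M 0 = ⊥ ∧ M (Fin.last n) = ⊤ ∧ Monotone M ∧ (∀ i, (M i).Normal) ∧
      ∀ i : Fin n, (∀ q : ℕ, q.Prime → q ∣ (M i.castSucc).relIndex (M i.succ) → q ∣ Nat.card H) ∨
        ((M i.castSucc).relIndex (M i.succ)).Coprime (Nat.card H))
    (h2 : ∀ P : Sylow 2 H, IsMulCommutative (P : Subgroup H))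
    (Q : Subgroup G) (hQ : Q ≤ Subgroup.normalizer (H : Set G)) (hQH : Q ⊓ H = ⊥) (hQH' : Q ⊔ H = Subgroup.normalizer (H : Set G)) :
    (Nat.card ↥(H ⊓ Subgroup.centralizer (Q : Set G))).Coprime (H ⊓ Subgroup.centralizer (Q : Set G)).index ∧
    ∃ N : Subgroup G, N.Normal ∧ N.IsComplement' (H ⊓ Subgroup.centralizer (Q : Set G)) := by
  have h := th_of_sep hTI hnn hHall hsep
  set O := O[{p | p ∣ Nat.card H}ᶜ, (⊤ : Subgroup G)]
  haveI := h.zg fun P l pg => by
    obtain ⟨S, hS, l'⟩ := exists_syl_ge pg l
    obtain ⟨T, rfl⟩ := hS.exists_sub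
    haveI := h2 T
    exact isMulComm_of_le inferInstance l'
  have pQ : PiN {p | p ∣ Nat.card H}ᶜ (Nat.card Q) := by
    have := (h.hall.mono le_normalizer le_top).pi'
    rwa [← hQH', relIndex_sup_of_norm hQ, ← mul_one (H.relIndex Q), ← card_bot (G := G), ← hQH, mul_comm,
      inf_comm, CfsgH2.card_inf_mul_relIndex] at this
  have c := pQ.coprime' PiN.self
  obtain ⟨h1, -, h3⟩ := zg_cop hQ c
  have s : ∀ p : ℕ, p.Prime → p ∈ {p | p ∣ Nat.card (H ⊓ C[Q] : Subgroup G)} → p ∈ {p | p ∣ Nat.card H} :=
    fun p _ d => d.trans (card_dvd_of_le inf_le_left)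
  have h4 := h1.trans_hall h.hall s
  have s' : ∀ {n}, PiN {p | p ∣ Nat.card H}ᶜ n → PiN {p | p ∣ Nat.card (H ⊓ C[Q] : Subgroup G)}ᶜ n :=
    fun k => k.mono' fun p hp => mt (s p hp)
  haveI n : (O ⊔ (⁅H, Q⁆ ⊔ Q)).Normal := top_le_norm_iff.1 (h.sup.ge.trans (sup_le
    (le_sup_left.trans le_normalizer) (le_norm_sup h.nO (hQH'.ge.trans (sup_le
      (le_sup_right.trans le_normalizer) (le_norm_of_comm_le ((commutator_comm _ _).le.trans
        (commutator_sup_le' le_normalizer le_norm_comm_right ((commutator_comm _ _).le.trans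
          (comm_le_left le_norm_comm_left)) le_rfl)) le_sup_left))))))
  refine ⟨by simpa using h4.coprime, _, n, isComplement'_of_disjoint_and_mul_eq_univ (disjoint_iff.2 ?_) ?_⟩
  · rw [inf_comm]
    refine inf_eq_bot_of_piN PiN.self (piN_sup (s' h.pi) (piN_sup ?_ (s' pQ) (.inr le_norm_comm_right))
      (.inr h.nO))
    have := (h1.inf_norm (comm_le_left hQ) (.inl (inf_le_left.trans le_norm_comm_left))).pi'
    rwa [eq_bot_iff.2 ((le_inf inf_le_right (inf_le_left.trans inf_le_right)).trans h3.le),
      relIndex_bot_left] at this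
  · rw [← normal_mul, eq_top_iff.2 (h.sup.ge.trans (sup_le (le_sup_left.trans le_sup_left)
      (hQH'.ge.trans (sup_le (le_sup_of_le_left (le_sup_of_le_right le_sup_right))
        ((coprime_comm_sup_cent hQ c (.inr inferInstance)).ge.trans (sup_le_sup_right
          (le_sup_of_le_right le_sup_left) _)))))), coe_top]

end Cfsg.Agent.S4151
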