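import Cfsg.Statements.S4153
import Mathlib
import Cfsg.Agent.L0.G2

set_option autoImplicit false
open Cfsg

namespace Cfsg.Agent.S4153

open Cfsg Subgroup CfsgH2 CfsgL0 CfsgH1

/-- Let G be a finite group, p a prime, N a normal subgroup, P a Sylow p-subgroup of G and P̄ a Sylow p-subgroup of G/N. Count the elements of p-power order, the identity included. Then (number of such elements of G/N)/#P̄ ≤ (number of such elements of G)/#P, stated as a cross-multiplied inequality, with equality when N is central. -/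
theorem result {G : Type*} [Group G] [Finite G] (p : ℕ) [Fact p.Prime] (N : Subgroup G) [N.Normal]
    (P : Sylow p G) (Pbar : Sylow p (G ⧸ N)) :
    Nat.card {g : (G ⧸ N) // ∃ k : ℕ, orderOf g = p ^ k} * Nat.card (P : Subgroup G) ≤ Nat.card {g : G // ∃ k : ℕ, orderOf g = p ^ k} * Nat.card (Pbar : Subgroup (G ⧸ N)) ∧
    (N ≤ Subgroup.center G → Nat.card {g : (G ⧸ N) // ∃ k : ℕ, orderOf g = p ^ k} * Nat.card (P : Subgroup G) = Nat.card {g : G // ∃ k : ℕ, orderOf g = p ^ k} * Nat.card (Pbar : Subgroup (G ⧸ N))) := by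
  have hp : p.Prime := Fact.out
  obtain ⟨Q, hQ⟩ := exists_syl p N
  have e : Nat.card P = Nat.card Q * Nat.card Pbar := by
    rw [hQ.card_eq, P.card_eq_multiplicity, Pbar.card_eq_multiplicity,
      card_eq_card_quotient_mul_card_subgroup N, Nat.factorization_mul Nat.card_pos.ne' Nat.card_pos.ne',
      Finsupp.add_apply, pow_add, mul_comm]
  have pi : ∀ {x : G}, (∃ k, orderOf x = p ^ k) ↔ PiN {p} (orderOf x) :=
    (piN_singleton hp (orderOf_pos _).ne').symm
  have l : ∀ y ∈ {g : G ⧸ N | ∃ k : ℕ, orderOf g = p ^ k}, ∃ x : G, PiN {p} (orderOf x) ∧ QuotientGroup.mk' N x = y := by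
    intro y hy
    obtain ⟨x, rfl⟩ := QuotientGroup.mk'_surjective N y
    obtain ⟨a, -, h⟩ := exists_pi_lift _ ((piN_singleton hp (orderOf_pos _).ne').2 hy)
    exact ⟨a, h⟩
  rw [e, ← mul_assoc]
  refine ⟨Nat.mul_le_mul_right _ (mul_le_ncard (QuotientGroup.mk' N) (fun y hy => ?_) (Set.toFinite _)
    (Set.toFinite _)), fun hN => congrArg (· * _) (ncard_eq_mul (Set.toFinite _) (QuotientGroup.mk' N)
      (fun x hx => ?_) (fun y hy => ?_) (Set.toFinite _)).symm⟩
  · obtain ⟨x, hx, rfl⟩ := l y hy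
    refine Nat.le_of_dvd ((Set.ncard_pos (Set.toFinite _)).2 ⟨x, pi.2 hx, rfl⟩)
      (frob_gen Q (fun z hz h hh => ⟨pi.2 (by rw [orderOf_conj']; exact pi.1 hz.1), ?_⟩) fun z hz u hu h => ⟨pi.2 ?_, ?_⟩)
    · simpa [(QuotientGroup.eq_one_iff h).2 (hQ.le hh)] using hz.2
    · obtain ⟨w, -, e⟩ := h _ dvd_rfl
      refine PiN.of_dvd ((isPGroup_iff_piN.1 hQ.pg).mul ((pi.1 hz.1).of_dvd (orderOf_pow_dvd (Nat.card Q)))) ?_
      rw [orderOf_dvd_iff_pow_eq_one, pow_mul, e, conj_pow, pow_orderOf_eq_one]; simp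
    · simpa [(QuotientGroup.eq_one_iff u).2 (hQ.le hu)] using hz.2
  · exact (piN_singleton hp (orderOf_pos _).ne').1 ((pi.1 hx).of_dvd (orderOf_map_dvd _ _))
  obtain ⟨x, hx, rfl⟩ := l y hy
  rw [← ncard_coe, ← ncard_mul_left x (Q : Set G)]
  congr 1; ext z
  have c : ∀ u ∈ N, ∀ z, z * u = u * z := fun u hu z => mem_center_iff.1 (hN hu) z
  refine ⟨fun h => ⟨x⁻¹ * z, ?_, by simp⟩, ?_⟩
  · have m : x⁻¹ * z ∈ N := QuotientGroup.eq.1 h.2.symm
    obtain ⟨k, hk⟩ := pi.2 (piN_order_mul (a := x⁻¹) (b := z) (by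
      have := c _ m x⁻¹; rw [mul_assoc] at this; exact mul_left_cancel this) (by rwa [orderOf_inv]) (pi.1 h.1))
    exact hQ.mem_of_norm (fun a _ => mem_norm_of_conj fun u hu => by
      rwa [c u (hQ.le hu), mul_inv_cancel_right]) m (hk ▸ pow_orderOf_eq_one _)
  · rintro ⟨u, hu, rfl⟩
    exact ⟨pi.2 (piN_order_mul (c u (hQ.le hu) x) hx (pi.1 (pgroup_mem_order hQ.pg hu))),
      by simp [(QuotientGroup.eq_one_iff u).2 (hQ.le hu)]⟩

end Cfsg.Agent.S4153
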