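import Cfsg.Statements.S4154
import Cfsg.Agent.H1.Misc1

set_option autoImplicit false
open Cfsg

namespace Cfsg.Agent.S4154

/-- Let G be a finite group and α an automorphism of G such that every element of G is the product of an element fixed by α and an element of the form g⁻¹α(g). If N is a normal α-invariant subgroup, then the automorphism ᾱ induced on G/N has the same property, and every coset fixed by ᾱ contains an element fixed by α (so the fixed points of ᾱ are the images of the fixed points of α). -/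
theorem result {G : Type*} [Group G] [Finite G] (α : MulAut G)
    (hccp : ∀ x : G, ∃ c g : G, α c = c ∧ x = c * (g⁻¹ * α g))
    (N : Subgroup G) [N.Normal] (hN : ∀ n ∈ N, α n ∈ N) :
    (∀ x : G, ∃ c g : G, c⁻¹ * α c ∈ N ∧ x⁻¹ * (c * (g⁻¹ * α g)) ∈ N) ∧
    (∀ x : G, x⁻¹ * α x ∈ N → ∃ c : G, α c = c ∧ c⁻¹ * x ∈ N) := by
  open Subgroup CfsgH2 in
  open CfsgH1 hiding card_inf_mul_relIndex card_lt_of_lt card_lt_of_ne_top card_map_mul_card_inf_ker card_mul_relIndex card_subgroupOf card_sup_dvd card_sup_mul_card_inf exists_card_prime_le isNilpotent_map isNilpotent_of_le isPGroup_pCore isSolvable_map isSolvable_of_le le_pCore le_pPrimeCore relIndex_map_dvd in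
  open scoped CfsgH1 in
  open scoped commutatorElement in
  · refine ⟨fun x => (hccp x).imp fun c ⟨g, a, b⟩ => ⟨g, by simp [a], by simp [← b]⟩, fun x hx => ?_⟩
    let β := QuotientGroup.map N N α.toMonoidHom hN
    let F := β.eqLocus (.id _)
    let K := (α.toMonoidHom.eqLocus (.id _)).map (QuotientGroup.mk' N)
    have h1 : K ≤ F := by
      rintro _ ⟨c, hc, rfl⟩
      exact congrArg (QuotientGroup.mk' N) hc
    have h2 := Nat.card_le_card_of_surjective (fun z : K × (G ⧸ N) ⧸ F => z.1.1 * (z.2.out * (β z.2.out)⁻¹)) fun y => by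
      obtain ⟨y, rfl⟩ := QuotientGroup.mk'_surjective N y
      obtain ⟨c, g, a, rfl⟩ := hccp y
      obtain ⟨f, e⟩ := QuotientGroup.mk_out_eq_mul F ((g⁻¹ : G) : G ⧸ N)
      refine ⟨(⟨_, c, a, rfl⟩, ((g⁻¹ : G) : G ⧸ N)), ?_⟩
      dsimp only
      rw [e, map_mul β, show β f = f from f.2]
      simp [β]
    rw [Nat.card_prod, ← F.index_eq_card, ← F.card_mul_index] at h2
    obtain ⟨c, a, b⟩ := (eq_of_le_of_card_ge h1 (Nat.le_of_mul_le_mul_right h2 (index_pos F))).ge (show (x : G ⧸ N) ∈ F from
      (QuotientGroup.eq.2 hx).symm)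
    exact ⟨c, a, QuotientGroup.eq.1 b⟩

end Cfsg.Agent.S4154
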