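import Cfsg.Statements.S4155
import Cfsg.Agent.H1.Misc1
import Cfsg.Agent.H2.BG0
import Cfsg.Agent.S4107
import Cfsg.Agent.S0040
import Cfsg.Agent.L0.G3

set_option autoImplicit false
open Cfsg

namespace Cfsg.Agent.S4155

section
open Subgroup CfsgH2
open CfsgH1 hiding card_inf_mul_relIndex card_lt_of_lt card_lt_of_ne_top card_map_mul_card_inf_ker card_mul_relIndex card_subgroupOf card_sup_dvd card_sup_mul_card_inf coprime_le_sup_cent exists_card_prime_le isNilpotent_map isNilpotent_of_le isPGroup_pCore isSolvable_map isSolvable_of_le le_pCore le_pPrimeCore relIndex_map_dvd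
open scoped CfsgH1
open scoped commutatorElement

theorem key {A V : Type*} [Group A] [Finite A] [Group V] [Finite V] [Nontrivial V] {q : ℕ} [Fact q.Prime] (hA : IsPGroup q A)
    (φ : A →* MulAut V) (h : ∀ a ≠ 1, ∀ v, φ a v = v → v = 1) :
    IsCyclic A ∨ ∃ n : ℕ, Nonempty (A ≃* QuaternionGroup (2 ^ n)) := by
  obtain ⟨X, _, _, i, j, hi, hj, e, n, h0, h1⟩ := exists_ambient φ
  let P : Sylow q (map j ⊤) := default
  have hP : (P : Subgroup (map j ⊤)) = ⊤ := ((P.is_maximal' (((hA.to_subgroup ⊤).map j).to_subgroup ⊤) le_top)).symm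
  let f : P ≃* A := ((MulEquiv.subgroupCongr hP).trans topEquiv).trans ((equivMapOfInjective ⊤ j hj).symm.trans topEquiv)
  refine (S0040.result (map i ⊤) (map j ⊤) (isComplement'_of_disjoint_and_mul_eq_univ (disjoint_iff.2 h0)
    (by rw [← normal_mul, h1, coe_top])) (fun c => top_ne_bot ((map_eq_bot_iff_of_injective _ hi).1 c)) ?_ q P).imp
    f.isCyclic.1 fun ⟨n, ⟨g⟩⟩ => ⟨n, ⟨f.symm.trans g⟩⟩
  rintro _ ⟨a, -, rfl⟩ ha
  refine eq_bot_iff.2 ?_
  rintro _ ⟨⟨v, -, rfl⟩, hv⟩
  rw [h a (fun c => ha (by simp [c])) v (hi (by rw [← e, ← mem_centralizer_singleton_iff.1 hv, mul_inv_cancel_right])), map_one]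
  exact one_mem _

end

/-- Let G be a finite group and N a proper non-trivial normal nilpotent subgroup whose order is not a prime power, such that for every x outside N all elements of the coset xN have the same order as x. Then N is the Fitting subgroup of G, and for every prime q every Sylow q-subgroup of G/N is cyclic or generalized quaternion. -/
theorem result {G : Type*} [Group G] [Finite G] (N : Subgroup G) [N.Normal] (hN1 : N ≠ ⊥) (hN2 : N ≠ ⊤)
    (heq : ∀ x : G, x ∉ N → ∀ n ∈ N, orderOf (x * n) = orderOf x)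
    (hnil : Group.IsNilpotent N) (hnpp : ¬ IsPrimePow (Nat.card N)) :
    N = Cfsg.fittingSubgroup G ∧
    ∀ (q : ℕ) [Fact q.Prime] (Q : Sylow q (G ⧸ N)), IsCyclic (Q : Subgroup (G ⧸ N)) ∨ ∃ n : ℕ, Nonempty ((Q : Subgroup (G ⧸ N)) ≃* QuaternionGroup (2 ^ n)) := by
  open Subgroup CfsgH2 in
  open CfsgH1 hiding card_inf_mul_relIndex card_lt_of_lt card_lt_of_ne_top card_map_mul_card_inf_ker card_mul_relIndex card_subgroupOf card_sup_dvd card_sup_mul_card_inf coprime_le_sup_cent exists_card_prime_le isNilpotent_map isNilpotent_of_le isPGroup_pCore isSolvable_map isSolvable_of_le le_pCore le_pPrimeCore relIndex_map_dvd in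
  open scoped CfsgH1 in
  open scoped commutatorElement in
  · have hF := (le_fitting N).eq_or_lt.resolve_right fun c =>
      hnpp (((S4107.result N hN1 hN2 heq).2 c).dvd (card_dvd_of_le c.le) (mt card_eq_one.1 hN1))
    refine ⟨hF, fun q hq Q => ?_⟩
    obtain ⟨p, hp, h1, h2⟩ : ∃ p : ℕ, p.Prime ∧ p ∣ Nat.card N ∧ p ≠ q := by
      by_contra! c
      obtain ⟨r, hr, h⟩ := Nat.exists_prime_and_dvd (mt card_eq_one.1 hN1)
      exact hnpp (isPrimePow_iff_unique_prime_dvd.2 ⟨r, ⟨hr, h⟩, fun s hs => (c s hs.1 hs.2).trans (c r hr h).symm⟩)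
    haveI := Fact.mk hp
    have h3 := nil_inf_cent_ne_bot hnil piCoreOf_le le_norm_piCoreOf ((nil_syl_core hnil).ne_bot h1)
    have h4 : PG[p, O[{p}, N] ⊓ C[N]] := isPGroup_piCoreOf.to_le inf_le_left
    have h5 : O[{p}, N] ⊓ C[N] ≤ N := inf_le_left.trans piCoreOf_le
    have h6 : O[{p}, N] ⊓ C[N] ≤ C[N] := inf_le_right
    have : (O[{p}, N] ⊓ C[N]).Normal := inferInstance
    generalize O[{p}, N] ⊓ C[N] = V at h3 h4 h5 h6 this
    haveI := (nontrivial_iff_ne_bot V).2 h3
    refine key Q.2 ((QuotientGroup.lift N (MulAut.conjNormal (H := V)) fun n hn => MulEquiv.ext fun v => Subtype.ext ?_).comp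
      (Subgroup.subtype _)) ?_
    · simp [h6 v.2 n hn]
    rintro ⟨a, ha⟩ h1 v hv
    obtain ⟨x, rfl⟩ := QuotientGroup.mk_surjective a
    obtain ⟨y, hy, z, hz, e, c1, c2⟩ := exists_pi_parts {q} x
    have hx : x ∈ C1[(v : G)] := mem_centralizer_singleton_iff.2 (mul_inv_eq_iff_eq_mul.1 (congrArg Subtype.val hv))
    have hzN : z ∈ N := by
      obtain ⟨k, rfl⟩ := hz
      obtain ⟨l, hl⟩ := IsPGroup.iff_orderOf.1 Q.2 ⟨_, zpow_mem ha k⟩
      rw [← QuotientGroup.eq_one_iff, ← orderOf_eq_one_iff]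
      exact Nat.Coprime.eq_one_of_dvd (Nat.Coprime.pow_right l (((piN_compl_singleton' hq.1).1 c2).coprime_dvd_left
        (orderOf_map_dvd (QuotientGroup.mk' N) _))) (hl ▸ (orderOf_coe (⟨_, zpow_mem ha k⟩ : Q)).dvd)
    have hyN : y ∉ N := fun c => h1 (Subtype.ext ((QuotientGroup.eq_one_iff _).2 (e ▸ mul_mem c hzN)))
    have := heq y hyN v (h5 v.2)
    obtain ⟨l, hl⟩ := IsPGroup.iff_orderOf.1 h4 v
    rw [← orderOf_coe] at hl
    rw [Commute.orderOf_mul_eq_mul_orderOf_of_coprime (mem_centralizer_singleton_iff.1 (zpowers_le.2 hx hy))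
      (by rw [hl]; exact Nat.Coprime.pow_right _ ((Nat.Prime.coprime_iff_not_dvd hp).2 fun c => h2 (c1 p hp c)).symm)] at this
    exact Subtype.ext (orderOf_eq_one_iff.1 (by simpa [(orderOf_pos y).ne'] using this))

end Cfsg.Agent.S4155
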