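import Cfsg.Statements.S4156


set_option autoImplicit false
open Cfsg

namespace Cfsg.Agent.S4156

section
open Equiv Equiv.Perm Matrix Matrix.SpecialLinearGroup
open scoped commutatorElement

/-- The action on the sum zero vectors, in the basis `e (succ j) - e 0`. -/
def M (n : ℕ) (F : Type*) [Field F] : Perm (Fin (n + 1)) →* Matrix (Fin n) (Fin n) F where
  toFun s := of fun i j => (if s j.succ = i.succ then 1 else 0) - if s 0 = i.succ then 1 else 0
  map_one' := by ext i j; simp [Matrix.one_apply, eq_comm]
  map_mul' s t := by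
    ext i j
    have : ∀ y, ∑ k : Fin n, ((if s k.succ = i.succ then (1 : F) else 0) - if s 0 = i.succ then 1 else 0) *
        (if y = k.succ then 1 else 0) = (if s y = i.succ then 1 else 0) - if s 0 = i.succ then 1 else 0 := fun y => by
      cases y using Fin.cases <;> simp [eq_comm]
    simp only [Matrix.mul_apply, of_apply, mul_sub, Finset.sum_sub_distrib, this]
    exact (sub_sub_sub_cancel_right _ _ _).symm

end

/-- Let n ≥ 5 and F a finite field. Then the projective special linear group PSL_n(F) contains a subgroup isomorphic to the alternating group of degree n + 1. -/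
theorem result (n : ℕ) (hn : 5 ≤ n) (F : Type*) [Field F] [Finite F] :
    ∃ f : alternatingGroup (Fin (n + 1)) →* Matrix.ProjectiveSpecialLinearGroup (Fin n) F, Function.Injective f := by
  open Equiv Equiv.Perm Matrix Matrix.SpecialLinearGroup in
  open scoped commutatorElement in
  · classical
    have := alternatingGroup.isSimpleGroup (α := Fin (n + 1)) (by simp; omega)
    have h1 : ∀ s : alternatingGroup (Fin (n + 1)), (M n F s).det = 1 := fun s => by
      have := Abelianization.commutator_subset_ker ((detMonoidHom.comp (M n F)).comp (alternatingGroup _).subtype).toHomUnits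
        ((commutator_alternatingGroup_eq_top (α := Fin (n + 1)) (by simp; omega)).ge (Subgroup.mem_top s))
      exact congrArg Units.val this
    let f : alternatingGroup (Fin (n + 1)) →* SpecialLinearGroup (Fin n) F :=
      ⟨⟨fun s => ⟨_, h1 s⟩, Subtype.ext (map_one (M n F))⟩, fun s t => Subtype.ext (map_mul (M n F) _ _)⟩
    refine ⟨(QuotientGroup.mk' _).comp f, (MonoidHom.ker_eq_bot_iff _).1 ((IsSimpleGroup.eq_bot_or_eq_top_of_normal _
      inferInstance).resolve_right fun h => ?_)⟩
    obtain ⟨m, rfl⟩ : ∃ m, n = m + 5 := ⟨n - 5, by omega⟩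
    have a : ∀ k, k < 5 → k % (m + 5 + 1) = k := fun k hk => Nat.mod_eq_of_lt (by omega)
    obtain ⟨r, -, hr⟩ := mem_center_iff.1 ((QuotientGroup.eq_one_iff _).1 (h.ge (Subgroup.mem_top
      ⟨swap 1 3 * swap 2 3, by simp [mem_alternatingGroup, Fin.ext_iff, a]⟩)))
    have := congrFun (congrFun hr 0) 1
    change _ = (if (swap 1 3 * swap 2 3 : Perm (Fin (m + 5 + 1))) 2 = 1 then (1 : F) else 0) -
      if (swap 1 3 * swap 2 3 : Perm (Fin (m + 5 + 1))) 0 = 1 then (1 : F) else 0 at this
    simp [swap_apply_def, Fin.ext_iff, a] at this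

end Cfsg.Agent.S4156
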