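import Cfsg.Statements.S4168
import Cfsg.Agent.H1.Misc1

set_option autoImplicit false
open Cfsg

namespace Cfsg.Agent.S4168

/-- Let L be a finite quasisimple group (perfect with L/Z(L) simple). Then every prime dividing the order of the centre Z(L) also divides the order of L/Z(L). -/
theorem result {L : Type*} [Group L] [Finite L] (hL : Cfsg.IsQuasisimple L)
    (p : ℕ) (hp : p.Prime) (hdiv : p ∣ Nat.card (Subgroup.center L)) : p ∣ (Subgroup.center L).index := by
  open Pointwise Subgroup CfsgH1 in
  open CfsgH2 hiding card_inf_mul_relIndex card_lt_of_lt card_lt_of_ne_top card_map_mul_card_inf_ker card_mul_relIndex card_subgroupOf card_sup_dvd card_sup_mul_card_inf exists_card_prime_le isNilpotent_map isNilpotent_of_le isPGroup_pCore isSolvable_map isSolvable_of_le le_pCore le_pPrimeCore relIndex_map_dvd in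
  open scoped CfsgH2 in
  open scoped commutatorElement in
  · by_contra hn
    haveI := Fact.mk hp
    obtain ⟨P, hP⟩ := CfsgH2.exists_syl (p := p) (center L)
    have hP' := hP.trans le_top (by simpa using hn)
    have h1 := hP'.npc_of_norm_le_cent (le_centralizer_iff.1 (hP.le.trans (center_le_centralizer _)))
    have h2 := hP'.commutator_le_piRes (isMulComm_of_le inferInstance hP.le)
    rw [show ⁅(⊤ : Subgroup L), ⊤⁆ = ⊤ from hL.1.commutator_eq_top, h1.piRes_eq] at h2
    exact not_dvd_piCoreOf (hdiv.trans (card_dvd_of_le (le_top.trans h2)))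

end Cfsg.Agent.S4168
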