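import Cfsg.Statements.S4169
import Mathlib
import Cfsg.Agent.L0.G3

set_option autoImplicit false
open Cfsg

namespace Cfsg.Agent.S4169

open Cfsg CfsgH2 CfsgL0

/-- Let P be a finite p-group whose conjugacy classes have exactly two sizes (1 and one other value). Then P has nilpotency class at most 3. -/
theorem result {P : Type*} [Group P] [Finite P] {p : ℕ} [Fact p.Prime] (hP : IsPGroup p P)
    (m : ℕ) (hm : 1 < m) (h : ∀ x : P, (Subgroup.centralizer ({x} : Set P)).index = 1 ∨ (Subgroup.centralizer ({x} : Set P)).index = m) :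
    upperCentralSeries P 3 = ⊤ := by
  obtain ⟨A, -, hA⟩ := exists_scn_ge (hP.to_subgroup ⊤) bot_le Subgroup.le_normalizer_of_normal
    (inferInstance : IsMulCommutative (⊥ : Subgroup P))
  haveI := normal_of_top_le_norm hA.2.1
  have := lcs3_small (scn_comm hA) (m := m) ((top_inf_eq _).ge.trans hA.2.2.le) fun x hx =>
    ((h x).resolve_left hx.ne').ge
  rwa [Set.eq_univ_of_forall (s := {x : P | cs[x] = 1 ∨ cs[x] = m}) h, Subgroup.closure_univ,
    Subgroup.lowerCentralSeries_eq_bot_iff_upperCentralSeries_eq_top] at this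

end Cfsg.Agent.S4169
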