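import Cfsg.Statements.S4177
import Cfsg.Agent.H1.Misc1
import Mathlib
import Cfsg.Agent.H1.Prod

set_option autoImplicit false
open Cfsg

namespace Cfsg.Agent.S4177

section
open Subgroup CfsgH1 MulAction
open scoped commutatorElement

variable {k V H : Type*} [Field k] [AddCommGroup V] [Module k V] [Group H] [Finite H]

/-- The stabilizer of a vector. -/
def st (ρ : Representation k H V) (a : V) : Subgroup H := @stabilizer H V _ (compHom V ρ) a

theorem card_orb (ρ : Representation k H V) (a : V) : Nat.card {u : V | ∃ h : H, ρ h a = u} = (st ρ a).index :=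
  (@index_stabilizer H V _ (compHom V ρ) a).symm

theorem key (ρ : Representation k H V) (a : V) (hspan : Submodule.span k {u : V | ∃ h : H, ρ h a = u} = ⊤) (L : Subgroup H)
    (h0 : (Nat.card L : k) ≠ 0) (ht : Fac L (st ρ a) ⊤) : ∃ s ∈ ρ.invariants, ∀ b, (∀ l ∈ L, ρ l b = b) → b ∈ k ∙ s := by
  classical
  have := Fintype.ofFinite H
  let _ := compHom V ρ
  let e : Module.End k V := ∑ l : L, ρ l
  have e1 : ∀ b, (∀ l ∈ L, ρ l b = b) → e b = (Nat.card L : k) • b := fun b hb => by
    simp [e, LinearMap.sum_apply, fun l : L => hb l l.2, Nat.cast_smul_eq_nsmul]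
  have e2 : ∀ h, e (ρ h a) = e a := fun h => by
    obtain ⟨l, hl, x, f, rfl⟩ := ht.2.2 h trivial
    rw [map_mul, Module.End.mul_apply, show ρ x a = a from f]
    simp only [e, LinearMap.sum_apply, ← Module.End.mul_apply, ← map_mul]
    exact Fintype.sum_equiv (Equiv.mulRight ⟨l, hl⟩) _ _ fun _ => rfl
  have : Fintype (orbit H a) := (Set.finite_range _).fintype
  have s1 : ∑ u : orbit H a, u.1 ∈ ρ.invariants := fun g => by
    rw [map_sum]; exact Fintype.sum_equiv (MulAction.toPerm g) _ _ fun _ => rfl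
  have s2 := e1 _ fun l _ => s1 l
  rw [map_sum, Finset.sum_congr rfl (g := fun _ => e a) (by rintro ⟨_, h, rfl⟩ _; exact e2 h), Finset.sum_const, ← Nat.cast_smul_eq_nsmul k] at s2
  have s3 : ((Finset.univ : Finset (orbit H a)).card : k) ≠ 0 := fun z => h0 (by
    rw [Finset.card_univ, ← Nat.card_eq_fintype_card, show Nat.card (orbit H a) = _ from card_orb ρ a, ← relIndex_top_right, ← ht.relIndex_eq] at z
    rw [← card_inf_mul_relIndex (st ρ a), Nat.cast_mul, z, mul_zero])
  refine ⟨_, s1, fun b hb => ?_⟩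
  have : Submodule.span k {u : V | ∃ h : H, ρ h a = u} ≤ (k ∙ ∑ u : orbit H a, u.1).comap e := Submodule.span_le.2 (by
    rintro _ ⟨h, rfl⟩
    exact Submodule.mem_comap.2 (e2 h ▸ (Submodule.smul_mem_iff _ s3).1 (s2 ▸ Submodule.smul_mem _ _ (Submodule.mem_span_singleton_self _))))
  exact (Submodule.smul_mem_iff _ h0).1 (e1 b hb ▸ this (hspan ▸ trivial))

theorem main (ρ : Representation k H V) (a : V) (hspan : Submodule.span k {u : V | ∃ h : H, ρ h a = u} = ⊤)
    (h : ∀ B, Fac B (st ρ a) ⊤ → ∃ L ≤ B, (Nat.card L : k) ≠ 0 ∧ Fac L (st ρ a) ⊤) : Module.finrank k ρ.invariants ≤ 1 ∧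
    ∀ b : V, (Nat.card {u : V | ∃ h : H, ρ h a = u}).Coprime (Nat.card {u : V | ∃ h : H, ρ h b = u}) → ∀ h : H, ρ h b = b := by
  refine ⟨?_, fun b hb => ?_⟩
  · obtain ⟨L, -, a1, a2⟩ := h ⊤ (fac_top_iff.2 fun g => ⟨g, trivial, 1, one_mem _, by simp⟩)
    obtain ⟨s, -, e⟩ := key ρ a hspan L a1 a2
    exact (Submodule.finrank_mono (show ρ.invariants ≤ _ from fun b hb => e b fun l _ => hb l)).trans ((finrank_span_le_card {s}).trans (by simp))
  obtain ⟨L, a0, a1, a2⟩ := h (st ρ b) (fac_top_of_coprime_index (by rwa [card_orb, card_orb, Nat.coprime_comm] at hb))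
  obtain ⟨s, s1, e⟩ := key ρ a hspan L a1 a2
  exact (Submodule.span_singleton_le_iff_mem _ _).2 s1 (e b fun l hl => a0 hl)

end

/-- Let k be a field whose characteristic does not divide the order of the finite group H (for instance a field of characteristic zero), and ρ a k-linear representation of H on V. Let a be a vector whose H-orbit spans V. Then the space of H-fixed vectors has dimension at most 1, and every vector b whose H-orbit has size coprime to the size of the orbit of a is fixed by H. -/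
theorem result {k V H : Type*} [Field k] [AddCommGroup V] [Module k V] [Group H] [Finite H]
    (hchar : ¬ ringChar k ∣ Nat.card H) (ρ : Representation k H V) (a : V)
    (hspan : Submodule.span k {u : V | ∃ h : H, ρ h a = u} = ⊤) :
    Module.finrank k ρ.invariants ≤ 1 ∧
    ∀ b : V, (Nat.card {u : V | ∃ h : H, ρ h a = u}).Coprime (Nat.card {u : V | ∃ h : H, ρ h b = u}) → ∀ h : H, ρ h b = b := by
  open Subgroup CfsgH1 MulAction in
  open scoped commutatorElement in
  · exact main ρ a hspan fun B h => ⟨B, le_rfl, fun e => hchar (((ringChar.spec k _).1 e).trans B.card_subgroup_dvd_card), h⟩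

end Cfsg.Agent.S4177
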