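import Cfsg.Statements.S4176
import Cfsg.Agent.H1.Misc1
import Cfsg.Agent.S4177

set_option autoImplicit false
open Cfsg

namespace Cfsg.Agent.S4176

/-- Let k be a field of prime characteristic p, H a finite p-soluble group and ρ a k-linear representation of H on V. Let a be a vector that is fixed by some Sylow p-subgroup of H and whose H-orbit spans V. Then the space of H-fixed vectors has dimension at most 1, and every vector b whose H-orbit has size coprime to the size of the orbit of a is fixed by H. -/
theorem result {k V H : Type*} [Field k] (p : ℕ) [Fact p.Prime] [CharP k p] [AddCommGroup V] [Module k V]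
    [Group H] [Finite H] (hsol : Cfsg.IsPSolvable p H) (ρ : Representation k H V) (a : V)
    (hfix : ∃ P : Sylow p H, ∀ x : H, x ∈ (P : Subgroup H) → ρ x a = a)
    (hspan : Submodule.span k {u : V | ∃ h : H, ρ h a = u} = ⊤) :
    Module.finrank k ρ.invariants ≤ 1 ∧
    ∀ b : V, (Nat.card {u : V | ∃ h : H, ρ h a = u}).Coprime (Nat.card {u : V | ∃ h : H, ρ h b = u}) → ∀ h : H, ρ h b = b := by
  open Subgroup CfsgH1 Cfsg.Agent.S4177 in
  open scoped commutatorElement in
  · have q := (Fact.out : p.Prime)
    obtain ⟨P, hP⟩ := hfix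
    refine main ρ a hspan fun B h => ?_
    obtain ⟨L, hL⟩ := ((hallSep_of_isPSolvable q hsol).subgroup B).sep.exists_hallIn
    refine ⟨L, hL.le, fun e => hL.piNum p q ((CharP.cast_eq_zero_iff k p _).1 e) rfl, fac_top_iff.2 fun g => ?_⟩
    obtain ⟨b, hb, x, hx, rfl⟩ := fac_top_iff.1 h g
    obtain ⟨l, hl, y, hy, rfl⟩ := (fac_of_coprime_relIndex hL.le (inf_le_right (a := st ρ a)) (Nat.coprime_of_dvd fun r hr c d => by
      obtain rfl : r = p := by simpa using hL.piNum_relIndex r hr c
      rw [inf_relIndex_right, h.relIndex_eq, relIndex_top_right] at d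
      exact P.not_dvd_index (d.trans (index_dvd_of_le hP)))).2.2 b hb
    exact ⟨l, hl, _, mul_mem hy.1 hx, mul_assoc _ _ _⟩

end Cfsg.Agent.S4176
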