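import Cfsg.Statements.S4178
import Cfsg.Agent.H3.Hv1

set_option autoImplicit false
open Cfsg

namespace Cfsg.Agent.S4178
theorem idx {H X : Type*} [Group H] [Finite X] (R : Subgroup H) (φ : H → X) (Y : Set X) (x : X) (hx : x ∈ Y)
    (h1 : ∀ a, φ a ∈ Y ∧ φ a ≠ x) (h2 : ∀ a b, φ a = φ b → a⁻¹ * b ∈ R) : R.index + 1 ≤ Y.ncard := by
  rw [← Set.ncard_diff_singleton_add_one hx, Nat.add_le_add_iff_right, ← Nat.card_coe_set_eq]
  refine Nat.card_le_card_of_injective (fun c : H ⧸ R => (⟨φ c.out, h1 _⟩ : (Y \ {x} : Set X))) fun c d e => ?_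
  rw [← c.out_eq', ← d.out_eq']
  exact QuotientGroup.eq.2 (h2 _ _ (congrArg Subtype.val e))

/-- Let F be a finite field with q elements, V a non-zero finite-dimensional F-space of dimension d, H a group of invertible linear maps of V, and R the subgroup of H generated by the elements of H that fix some non-zero vector (have eigenvalue 1). Then the index of R in H is at most q^d − 1; and if H leaves invariant some proper non-zero subspace, the index is at most q^(d/2) − 1. -/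
theorem result {F V : Type*} [Field F] [Fintype F] [AddCommGroup V] [Module F V] [FiniteDimensional F V] [Nontrivial V]
    (H : Subgroup (V ≃ₗ[F] V)) :
    (Subgroup.closure {h : ↥H | ∃ v : V, v ≠ 0 ∧ (h : V ≃ₗ[F] V) v = v}).index ≤ Fintype.card F ^ Module.finrank F V - 1 ∧
    ((∃ W : Submodule F V, W ≠ ⊥ ∧ W ≠ ⊤ ∧ ∀ h ∈ H, ∀ w ∈ W, h w ∈ W) →
      ((Subgroup.closure {h : ↥H | ∃ v : V, v ≠ 0 ∧ (h : V ≃ₗ[F] V) v = v}).index : ℝ) ≤ Real.sqrt ((Fintype.card F : ℝ) ^ Module.finrank F V) - 1) := by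
  haveI : Finite V := Module.finite_of_finite F
  have hV : Nat.card V = Fintype.card F ^ Module.finrank F V := by
    rw [Module.natCard_eq_pow_finrank (K := F), Nat.card_eq_fintype_card]
  set R := Subgroup.closure {h : ↥H | ∃ v : V, v ≠ 0 ∧ (h : V ≃ₗ[F] V) v = v}
  have ap : ∀ (a b : H) (v : V), ((a⁻¹ * b : H) : V ≃ₗ[F] V) v = (a : V ≃ₗ[F] V).symm ((b : V ≃ₗ[F] V) v) :=
    fun _ _ _ => rfl
  have L1 : ∀ W : Submodule F V, W ≠ ⊥ → (∀ h ∈ H, ∀ w ∈ W, h w ∈ W) → R.index + 1 ≤ Nat.card W := by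
    intro W h0 hW
    obtain ⟨v, hv, v0⟩ := (Submodule.ne_bot_iff W).1 h0
    refine idx R (fun a => (a : V ≃ₗ[F] V) v) W 0 W.zero_mem (fun a => ⟨hW _ a.2 v hv, by simpa using v0⟩)
      fun a b e => Subgroup.subset_closure ⟨v, v0, ?_⟩
    rw [ap, ← e, LinearEquiv.symm_apply_apply]
  refine ⟨by have := L1 ⊤ top_ne_bot (by simp); rw [Nat.card_congr Submodule.topEquiv.toEquiv, hV] at this; omega, ?_⟩
  rintro ⟨W, h0, h1, hW⟩
  haveI : Finite (V ⧸ W) := Finite.of_surjective _ W.mkQ_surjective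
  have L2 : R.index + 1 ≤ Nat.card (V ⧸ W) := by
    obtain ⟨v, -, hv⟩ := SetLike.exists_of_lt (lt_top_iff_ne_top.2 h1)
    rw [← Set.ncard_univ]
    refine idx R (fun a => W.mkQ ((a : V ≃ₗ[F] V) v)) _ 0 trivial (fun a => ⟨trivial, fun e => hv ?_⟩)
      fun a b e => Subgroup.subset_closure (by_contra fun hn => hv ?_)
    · simpa using hW _ (H.inv_mem a.2) _ ((Submodule.Quotient.mk_eq_zero W).1 e)
    · set g : V ≃ₗ[F] V := ((a⁻¹ * b : H) : V ≃ₗ[F] V) with hg
      have inj : Function.Injective fun x => g x - x := fun x y e => by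
        by_contra ne
        exact hn ⟨x - y, sub_ne_zero.2 ne, by rw [map_sub, ← hg]; exact sub_eq_sub_iff_sub_eq_sub.1 e⟩
      have hb := ((Set.toFinite (W : Set V)).injOn_iff_bijOn_of_mapsTo (f := fun x => g x - x)
        fun w hw => W.sub_mem (hW _ (a⁻¹ * b).2 w hw) hw).1 inj.injOn
      have hm : g v - v ∈ W := by
        have := hW _ (H.inv_mem a.2) _ ((Submodule.Quotient.eq W).1 e.symm)
        rwa [map_sub, show ((a : V ≃ₗ[F] V)⁻¹) ((a : V ≃ₗ[F] V) v) = v from LinearEquiv.symm_apply_apply _ _] at this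
      obtain ⟨w, hw, e'⟩ := hb.surjOn hm
      exact inj e' ▸ hw
  have e := Submodule.card_eq_card_quotient_mul_card W
  rw [le_sub_iff_add_le]
  refine Real.le_sqrt_of_sq_le ?_
  have := Nat.mul_le_mul (L1 W h0 hW) L2
  rw [← e, hV] at this
  rw [sq]
  exact_mod_cast this


end Cfsg.Agent.S4178
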