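import Cfsg.Statements.S4184
import Mathlib
import Cfsg.Agent.H1.CT3
import Cfsg.Agent.L0.G3
import Cfsg.Agent.H1.Misc1

set_option autoImplicit false
open Cfsg

namespace Cfsg.Agent.S4184

section
open Subgroup CfsgH2
open CfsgH1 hiding card_inf_mul_relIndex card_lt_of_lt card_lt_of_ne_top card_map_mul_card_inf_ker card_mul_relIndex card_subgroupOf card_sup_dvd card_sup_mul_card_inf coprime_le_sup_cent exists_card_prime_le isNilpotent_map isNilpotent_of_le isPGroup_pCore isSolvable_map isSolvable_of_le le_pCore le_pPrimeCore relIndex_map_dvd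
open scoped CfsgH1
open scoped commutatorElement

def FF (N : ℕ) (A : Set ℕ) (n : ℕ) : Prop := ∀ p : ℕ, p.Prime → p ∈ A → p ^ N.factorization p ∣ n

def HH (G : Type*) [Group G] (N : ℕ) (A : Set ℕ) : Prop :=
  ∀ g : G, g ≠ 1 → C1[g].index ∣ N ∧ (FF N A C1[g].index ∨ FF N Aᶜ C1[g].index) ∧
    ¬ (FF N A C1[g].index ∧ FF N Aᶜ C1[g].index)

theorem HH.symm {G : Type*} [Group G] {N : ℕ} {A : Set ℕ} (h : HH G N A) : HH G N Aᶜ := fun g g1 => by
  rw [compl_compl]; exact ⟨(h g g1).1, (h g g1).2.1.symm, fun k => (h g g1).2.2 k.symm⟩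

theorem FF.mono {N m n : ℕ} {A : Set ℕ} (h : FF N A m) (d : m ∣ n) : FF N A n := fun p hp a => (h p hp a).trans d

theorem HH.oth {G : Type*} [Group G] {N : ℕ} {A : Set ℕ} (h : HH G N A) (n0 : N ≠ 0) {a : ℕ} (ha : a.Prime)
    (aA : a ∈ A) (d : a ∣ N) {x : G} (o : orderOf x = a) (n : ¬ a ∣ C1[x].index) : FF N Aᶜ C1[x].index :=
  (h x fun e => ha.one_lt.ne (by rw [← o, e, orderOf_one])).2.1.resolve_left fun k =>
    n ((dvd_pow_self a (ha.factorization_pos_of_dvd n0 d).ne').trans (k a ha aA))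

theorem ex_c {G : Type*} [Group G] [Finite G] {a : ℕ} (ha : a.Prime) (d : a ∣ Nat.card G) :
    ∃ x : G, orderOf x = a ∧ ¬ a ∣ C1[x].index := by
  haveI := Fact.mk ha
  obtain ⟨P, hP⟩ := exists_syl (p := a) (⊤ : Subgroup G)
  obtain ⟨x, -, o, l⟩ := pz hP.pg (hP.ne_bot (by rwa [card_top]))
  exact ⟨x, o, CfsgL0.not_dvd_cs hP l⟩

theorem key {G : Type*} [Group G] [Finite G] {N : ℕ} {A : Set ℕ} (hZ : center G = ⊥) (h : HH G N A) (n0 : N ≠ 0)
    {a : ℕ} (ha : a.Prime) (aA : a ∈ A) (d : a ∣ N) (dG : a ∣ Nat.card G) {q : ℕ} (hq : q.Prime) (qA : q ∉ A) :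
    (Nat.card G).factorization q ≤ N.factorization q := by
  haveI := Fact.mk hq
  by_contra! lt
  have big : q ^ N.factorization q * q ∣ Nat.card G := by
    rw [← pow_succ]; exact (pow_dvd_pow q lt).trans (Nat.ordProj_dvd _ _)
  have nb : ¬ q ^ N.factorization q * q ∣ N := by rw [← pow_succ]; exact Nat.pow_succ_factorization_not_dvd n0 hq
  have aq : a.Coprime q := (Nat.coprime_primes ha hq).2 fun e => qA (e ▸ aA)
  obtain ⟨x, ox, nx⟩ := ex_c ha dG
  have x1 : x ≠ 1 := fun e => ha.one_lt.ne (by rw [← ox, e, orderOf_one])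
  have fx := h.oth n0 ha aA d ox nx
  have mul : ∀ y : G, orderOf y = q → Commute x y → x * y ≠ 1 ∧ C1[x * y] = C1[x] ⊓ C1[y] := fun y oy c =>
    ⟨fun e => by
      rw [eq_inv_of_mul_eq_one_left e, orderOf_inv, oy] at ox
      exact qA (ox ▸ aA), c1_mul_cop c (by rwa [ox, oy])⟩
  have qc : q ∣ o[C1[x]] := by
    by_contra n
    rw [← C1[x].index_mul_card, ← pow_succ] at big
    exact nb (pow_succ q _ ▸ (((hq.coprime_iff_not_dvd.2 n).pow_left _).dvd_of_dvd_mul_right big).trans (h x x1).1)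
  obtain ⟨⟨w, wx⟩, ow⟩ := exists_prime_orderOf_dvd_card' q qc
  replace ow : orderOf w = q := by rw [← ow, ← orderOf_coe]
  have w1 : w ≠ 1 := fun e => hq.one_lt.ne (by rw [← ow, e, orderOf_one])
  obtain ⟨m1', e⟩ := mul w ow (m1.1 wx).symm
  have fw : FF N Aᶜ C1[w].index := (h w w1).2.1.resolve_left fun k => (h _ m1').2.2
    ⟨k.mono (index_dvd_of_le (e ▸ inf_le_right)), fx.mono (index_dvd_of_le (e ▸ inf_le_left))⟩
  obtain ⟨Q0, h0, l0⟩ := exists_syl_ge (p := q) (CfsgH2.isPGroup_zpowers (k := 1) (x := w)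
    (by rw [pow_one, ← ow, pow_orderOf_eq_one])) (M := C1[x * w]) (zpowers_le.2 (e.ge ⟨wx, m1.2 rfl⟩))
  have le : C1[x * w] ≤ C1[w] := e ▸ inf_le_right
  have h1 : Syl q Q0 C1[w] := h0.trans le fun k => nb (by
    refine dvd_trans ?_ (h _ m1').1
    rw [← relIndex_mul_index le, mul_comm]
    exact mul_dvd_mul k (fw q hq qA))
  obtain ⟨Q, hQ, l⟩ := exists_syl_ge h0.pg le_top
  obtain ⟨y, yQ, oy, ly⟩ := pz hQ.pg (fun k => w1 (mem_bot.1 (k ▸ l (l0 (mem_zpowers w)))))
  have y0 : y ∈ Q0 := (h1.eq_of_le (hQ.pg.to_le inf_le_left) (le_inf l h1.le) (inf_le_right : Q ⊓ C1[w] ≤ _)).le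
    ⟨yQ, m1.2 (m1.1 (ly (l (l0 (mem_zpowers w))))).symm⟩
  have qN : q ∣ N := by
    by_contra n
    have : C[Q] = ⊤ := eq_of_forall_conj_mem le_top fun g _ => hQ.exists_conj_cent (by
      rw [relIndex_top_right]
      by_cases k : g = 1
      · rw [CfsgL0.cs_eq_one.2 (k ▸ one_mem _)]; exact hq.not_dvd_one
      · exact fun k' => n (k'.trans (h g k).1))
    exact w1 (mem_bot.1 (hZ.le (mem_center_iff.2 fun g => (this.ge (mem_top g) w (l (l0 (mem_zpowers w)))).symm)))
  have fy := h.symm.oth n0 hq qA qN oy (CfsgL0.not_dvd_cs hQ ly)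
  rw [compl_compl] at fy
  obtain ⟨m2, e2⟩ := mul y oy (m1.1 (e.le (h0.le y0)).1).symm
  exact (h _ m2).2.2 ⟨fy.mono (index_dvd_of_le (e2 ▸ inf_le_right)), fx.mono (index_dvd_of_le (e2 ▸ inf_le_left))⟩

theorem hhM {M : Type*} [Group M] [Finite M] {A : Set ℕ}
    (h : ∀ a ∈ A, ∀ b ∉ A, a.Prime → b.Prime → a ∣ Nat.card M → b ∣ Nat.card M → ¬ ∃ x : M, orderOf x = a * b) :
    HH M (Nat.card M) A := fun g g1 => by
  obtain ⟨s, hs, ds⟩ := Nat.exists_prime_and_dvd (mt orderOf_eq_one_iff.1 g1)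
  haveI := Fact.mk hs
  have sC : s ∣ o[C1[g]] := ds.trans (orderOf_dvd_natCard _ (m1.2 rfl))
  have pr : ∀ t : ℕ, t.Prime → t ∣ o[C1[g]] → t ≠ s → ∃ x : M, orderOf x = s * t := fun t ht d n => by
    haveI := Fact.mk ht
    obtain ⟨⟨y, hy⟩, oy⟩ := exists_prime_orderOf_dvd_card' t d
    replace oy : orderOf y = t := by rw [← oy, ← orderOf_coe]
    have og : orderOf (g ^ (orderOf g / s)) = s := orderOf_pow_orderOf_div (orderOf_pos g).ne' ds
    refine ⟨g ^ (orderOf g / s) * y, ?_⟩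
    rw [((m1.1 hy).symm.pow_left _).orderOf_mul_eq_mul_orderOf_of_coprime
      (by rw [og, oy]; exact (Nat.coprime_primes hs ht).2 n.symm), og, oy]
  have ff : ∀ p : ℕ, p.Prime → ¬ p ∣ o[C1[g]] → p ^ (Nat.card M).factorization p ∣ C1[g].index := fun p hp n => by
    have := Nat.ordProj_dvd (Nat.card M) p
    rw [← C1[g].index_mul_card] at this ⊢
    exact ((hp.coprime_iff_not_dvd.2 n).pow_left _).dvd_of_dvd_mul_right this
  have dM : ∀ {t}, t ∣ o[C1[g]] → t ∣ Nat.card M := fun k => k.trans (card_subgroup_dvd_card _)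
  refine ⟨index_dvd_card _, ?_, fun k => Nat.pow_succ_factorization_not_dvd (Nat.card_pos (α := M)).ne' hs ?_⟩
  · by_cases k : s ∈ A
    · exact Or.inr fun p hp pA => ff p hp fun d => h s k p pA hs hp (dM sC) (dM d) (pr p hp d fun e => pA (e ▸ k))
    · exact Or.inl fun p hp pA => ff p hp fun d => h p pA s k hp hs (dM d) (dM sC)
        (mul_comm s p ▸ pr p hp d fun e => k (e ▸ pA))
  · rw [pow_succ]
    conv_rhs => rw [← C1[g].index_mul_card]
    refine mul_dvd_mul ?_ sC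
    by_cases k' : s ∈ A
    · exact k.1 s hs k'
    · exact k.2 s hs k'

end

/-- Let G and M be finite groups with trivial centres and the same set of conjugacy class sizes, and suppose the prime graph of M is disconnected: the prime divisors of #M split into two non-empty parts such that M has no element of order pq with p in one part and q in the other. Then #G = #M. -/
theorem result {G M : Type*}
    [Group G] [Finite G] [Group M] [Finite M] (hZG : Subgroup.center G = ⊥) (hZM : Subgroup.center M = ⊥)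
    (h : Set.range (fun g : G => (Subgroup.centralizer ({g} : Set G)).index) = Set.range (fun g : M => (Subgroup.centralizer ({g} : Set M)).index))
    (hdisc : ∃ A : Set ℕ, (∃ a ∈ A, a.Prime ∧ a ∣ Nat.card M) ∧ (∃ b ∉ A, b.Prime ∧ b ∣ Nat.card M) ∧
      ∀ a ∈ A, ∀ b ∉ A, a.Prime → b.Prime → a ∣ Nat.card M → b ∣ Nat.card M → ¬ ∃ x : M, orderOf x = a * b) :
    Nat.card G = Nat.card M := by
  open Subgroup CfsgH2 in
  open CfsgH1 hiding card_inf_mul_relIndex card_lt_of_lt card_lt_of_ne_top card_map_mul_card_inf_ker card_mul_relIndex card_subgroupOf card_sup_dvd card_sup_mul_card_inf coprime_le_sup_cent exists_card_prime_le isNilpotent_map isNilpotent_of_le isPGroup_pCore isSolvable_map isSolvable_of_le le_pCore le_pPrimeCore relIndex_map_dvd in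
  open scoped CfsgH1 in
  open scoped commutatorElement in
  · obtain ⟨A, ⟨a, aA, ha, da⟩, ⟨b, bA, hb, db⟩, hd⟩ := hdisc
    have hM := hhM hd
    have n0 : Nat.card M ≠ 0 := Nat.card_pos.ne'
    have hG : HH G (Nat.card M) A := fun g g1 => by
      obtain ⟨m, hm⟩ := h.le ⟨g, rfl⟩
      simp only at hm
      rw [← hm]
      exact hM m fun e => g1 (mem_bot.1 (hZG.le (CfsgL0.cs_eq_one.1 (hm ▸ CfsgL0.cs_eq_one.2 (e ▸ one_mem _)))))
    have tr : ∀ x : M, C1[x].index ∣ Nat.card G := fun x => by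
      obtain ⟨g, hg⟩ := h.ge ⟨x, rfl⟩
      simp only at hg
      exact hg ▸ index_dvd_card _
    obtain ⟨x, ox, nx⟩ := ex_c ha da
    obtain ⟨y, oy, ny⟩ := ex_c hb db
    have fx := (hM.oth n0 ha aA da ox nx).mono (tr x)
    have fy := (hM.symm.oth n0 hb bA db oy ny).mono (tr y)
    rw [compl_compl] at fy
    have d1 : Nat.card M ∣ Nat.card G := (Nat.factorization_prime_le_iff_dvd n0 Nat.card_pos.ne').1 fun p hp =>
      (hp.pow_dvd_iff_le_factorization Nat.card_pos.ne').1 (by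
        by_cases k : p ∈ A
        · exact fy p hp k
        · exact fx p hp k)
    refine Nat.dvd_antisymm ((Nat.factorization_prime_le_iff_dvd Nat.card_pos.ne' n0).1 fun p hp => ?_) d1
    by_cases k : p ∈ A
    · exact key hZG hG.symm n0 hb bA db (db.trans d1) hp fun e => e k
    · exact key hZG hG n0 ha aA da (da.trans d1) hp k

end Cfsg.Agent.S4184
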