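import Cfsg.Statements.S4186
import Cfsg.Agent.H1.Misc1

set_option autoImplicit false
open Cfsg

namespace Cfsg.Agent.S4186

/-- Let T and X be subgroups of a group with T a finite 2-group normalizing X but not centralizing it. Then some element of T inverts some non-identity element of X under conjugation. -/
theorem result {G : Type*} [Group G] (T X : Subgroup G) [Finite ↥T] (hT : IsPGroup 2 ↥T) (hTN : T ≤ Subgroup.normalizer (X : Set G)) (hTC : ¬ T ≤ Subgroup.centralizer (X : Set G)) : ∃ t ∈ T, ∃ x ∈ X, x ≠ 1 ∧ t * x * t⁻¹ = x⁻¹ := by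
  open Pointwise Subgroup CfsgH1 in
  open CfsgH2 hiding card_inf_mul_relIndex card_lt_of_lt card_lt_of_ne_top card_map_mul_card_inf_ker card_mul_relIndex card_subgroupOf card_sup_dvd card_sup_mul_card_inf exists_card_prime_le isNilpotent_map isNilpotent_of_le isPGroup_pCore isSolvable_map isSolvable_of_le le_pCore le_pPrimeCore relIndex_map_dvd in
  open scoped CfsgH2 in
  open scoped commutatorElement in
  · obtain ⟨U, h1, ⟨h2, h3⟩, h4⟩ := exists_minimal_le (G := T) (fun U => True ∧ ¬ U.map T.subtype ≤ C[X])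
      (H := ⊤) ⟨trivial, by rwa [map_subtype_top]⟩
    obtain ⟨_, ⟨t, ht, rfl⟩, h5⟩ := SetLike.not_le_iff_exists.1 h3
    have h6 : (t : G) ^ 2 ∈ C[X] := by_contra fun h => by
      have e := h4 (zpowers (t ^ 2)) ⟨trivial, fun h' => h (h' (mem_map_of_mem _ (mem_zpowers _)))⟩
        (zpowers_le.2 (pow_mem ht 2))
      haveI := Fact.mk Nat.prime_two
      obtain ⟨k, hk⟩ := (IsPGroup.iff_orderOf.1 hT) t
      have h7 : orderOf t ∣ orderOf (t ^ 2) := orderOf_dvd_of_mem_zpowers (e.ge ht)
      rcases k with _ | k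
      · exact h5 (by rw [orderOf_eq_one_iff.1 hk]; exact one_mem _)
      rw [orderOf_pow_of_dvd two_ne_zero (hk ▸ dvd_pow_self 2 k.succ_ne_zero), hk, pow_succ,
        Nat.mul_div_cancel _ two_pos] at h7
      have := Nat.le_of_dvd (by positivity) h7
      have : 0 < 2 ^ k := by positivity
      omega
    obtain ⟨x, hx, h7⟩ : ∃ x ∈ X, x * t ≠ t * x := by
      by_contra hc
      push Not at hc
      exact h5 hc
    refine ⟨t, t.2, x * (t * x⁻¹ * (t : G)⁻¹), mul_mem hx (conj_mem_of_norm (hTN t.2) (inv_mem hx)),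
      fun e => h7 (commutatorElement_eq_one_iff_mul_comm.1 (by rw [← e]; group)), ?_⟩
    calc _ = t * x * (t : G)⁻¹ * ((t : G) ^ 2 * x⁻¹) * ((t : G) ^ 2)⁻¹ := by rw [sq]; group
      _ = _ := by rw [← h6 _ (inv_mem hx)]; group

end Cfsg.Agent.S4186
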