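import Cfsg.Statements.S4189
import Mathlib
import Cfsg.Agent.L0.M3
import Cfsg.Agent.H2.MaxCl3

set_option autoImplicit false
open Cfsg

namespace Cfsg.Agent.S4189

open Cfsg Subgroup CfsgH2 CfsgL0

/-- Let P be a finite non-abelian 2-group whose commutator subgroup has index 4 and whose automorphism group is not a 2-group (some automorphism has order that is not a power of 2). Then P is isomorphic to the quaternion group of order 8. -/
theorem result {P : Type*} [Group P] [Finite P] (hP : IsPGroup 2 P) (hna : ¬ IsMulCommutative P) (h4 : (commutator P).index = 4) (haut : ¬ IsPGroup 2 (MulAut P)) : Nonempty (P ≃* QuaternionGroup 2) := by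
  obtain ⟨a, b, m, h⟩ := taussky (P := (⊤ : Subgroup P)) (hP.to_subgroup _) (by rwa [relIndex_top_right])
    (fun h => hna (isMulComm_top_iff.1 h))
  by_contra hq
  apply haut
  obtain ⟨H, _, _, i, j, hi, hj, hij, -⟩ := exists_hol P
  have h' := h.map hi
  refine isPGroup_iff_piN.2 fun q hq' hd => ?_
  by_contra hq2
  haveI := Fact.mk hq'
  obtain ⟨s, hs⟩ := exists_prime_orderOf_dvd_card' q hd
  have hn := hol_norm hij (zpowers s)
  have hd : ¬ 2 ∣ Nat.card ((zpowers s).map j) := by
    rw [card_map_of_injective hj, Nat.card_zpowers, hs]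
    exact fun h => hq2 ((Nat.prime_dvd_prime_iff_eq Nat.prime_two hq').1 h).symm
  have hsa : s a ∈ zpowers a := by
    by_contra h1
    have ho : orderOf (s a) = 2 ^ (m + 1) := by rw [MulEquiv.orderOf_eq, h.ord]
    have h2 := (h.toCy2.change (mem_top _) h1).sq
    obtain ⟨k, hk⟩ := h.mem_half_of_comm h2 (mem_top _) h1 (by group)
    have h3 : (s a) ^ 2 ^ 2 = 1 := by
      rw [pow_two, pow_mul, ← hk, ← zpow_natCast, ← zpow_mul, mul_comm, zpow_mul, zpow_natCast, pow_two,
        half_sq h.ord, one_zpow]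
    have h4 := (Nat.pow_dvd_pow_iff_le_right one_lt_two).1 (ho ▸ orderOf_dvd_of_pow_eq_one h3)
    obtain rfl : m = 1 := by have := h.pos; omega
    rcases h.rel with ⟨r1, r2⟩ | ⟨r1, r2⟩ | ⟨r1, -⟩
    · obtain ⟨k, hk⟩ := (h.toCy2.mem_iff.1 (mem_top (s a))).resolve_left h1
      have h5 : (s a) ^ 2 ^ 1 = 1 := by
        have e : s a = a ^ k * b := by rw [show a ^ k = s a * b⁻¹ from hk]; group
        have e2 : b * a ^ k * b⁻¹ = (a ^ k)⁻¹ := by rw [← conj_zpow, r2, inv_zpow]
        calc (s a) ^ 2 ^ 1 = a ^ k * (b * a ^ k * b⁻¹) * b ^ 2 := by rw [e, pow_one, pow_two, pow_two]; group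
          _ = 1 := by rw [e2, r1]; group
      have := (Nat.pow_dvd_pow_iff_le_right one_lt_two).1 (ho ▸ orderOf_dvd_of_pow_eq_one h5)
      omega
    · obtain ⟨e⟩ := h.toCy2.quaternion r1 r2
      exact hq ⟨topEquiv.symm.trans e⟩
    · omega
  have h1 : j s ∈ N[zpowers (i a)] := mem_norm_zpowers (by
    rw [hij, ← MonoidHom.map_zpowers]; exact mem_map_of_mem _ hsa)
  have ho : orderOf (j s) = q := by rw [orderOf_injective j hj, hs]
  have pa : IsPGroup 2 (zpowers (i a)) := h'.toCy2.pg.to_le h'.toCy2.ale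
  rw [MonoidHom.map_zpowers] at hn hd
  have h2 : j s ∈ C[zpowers (i a)] := by
    refine cent_of_qt_phi pa (d := 1) ?_ h1 (by rwa [← Nat.card_zpowers]) fun r k hr _ h1 h2 => ?_
    · rw [pow_one]
      refine card_dvd_of_elem_cyclic (elem_qt_phi pa) ?_
      rw [qt_zpowers (le_norm_phi (mem_zpowers _))]; infer_instance
    · rw [show k = 1 by omega]; simpa using hr.one_lt.ne'
  have h3 := coprime_le_cent_of_stable hn (coprime_of_not_dvd hd h'.toCy2.pg) (Or.inl (sol_zpowers _))
    (N := zpowers (i a)) (comm_zpowers_le' h'.toCy2.le_norm h1 fun x hx => by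
      by_cases hxa : x ∈ zpowers (i a)
      · simpa [commutatorElement_def, mul_assoc] using mul_mem hxa (conj_mem_of_norm h1 (inv_mem hxa))
      have a1 := (h'.toCy2.mem_iff.1 hx).resolve_left hxa
      have a2 := (h'.toCy2.mem_iff.1 (conj_mem_of_norm (hn (mem_zpowers _)) hx)).resolve_left fun h =>
        hxa (by simpa [mul_assoc] using conj_mem_of_norm' h1 h)
      simpa [commutatorElement_def, mul_assoc] using mul_mem a1 (inv_mem a2)) (zpowers_le.2 h2)
  have h4 := (hol_cent hi hij).1 (h3 (mem_zpowers _))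
  rw [show s = 1 from MulEquiv.ext fun x => h4 x (mem_top x), orderOf_one] at hs
  exact hq'.one_lt.ne hs

end Cfsg.Agent.S4189
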