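import Cfsg.Statements.S4196
import Cfsg.Agent.H1.Misc1

set_option autoImplicit false
open Cfsg

namespace Cfsg.Agent.S4196

/-- A finite group G has elementary abelian Sylow 2-subgroups (commutative with every element squaring to the identity) if and only if every 2-element of G has a Sylow 2-subgroup in its centralizer and is conjugate to its inverse. -/
theorem result {G : Type*} [Group G] [Finite G] (P : Sylow 2 G) :
    (IsMulCommutative (P : Subgroup G) ∧ ∀ x ∈ (P : Subgroup G), x ^ 2 = 1) ↔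
      ∀ x : G, (∃ k : ℕ, orderOf x = 2 ^ k) → (∃ Q : Sylow 2 G, (Q : Subgroup G) ≤ Subgroup.centralizer ({x} : Set G)) ∧ IsConj x x⁻¹ := by
  open Pointwise Subgroup CfsgH1 in
  open CfsgH2 hiding card_inf_mul_relIndex card_lt_of_lt card_lt_of_ne_top card_map_mul_card_inf_ker card_mul_relIndex card_subgroupOf card_sup_dvd card_sup_mul_card_inf exists_card_prime_le isNilpotent_map isNilpotent_of_le isPGroup_pCore isSolvable_map isSolvable_of_le le_pCore le_pPrimeCore relIndex_map_dvd in
  open scoped CfsgH2 in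
  open scoped commutatorElement in
  · refine ⟨fun ⟨h1, h2⟩ x hx => ?_, fun h => ?_⟩
    · obtain ⟨g, -, hg⟩ := (syl_top P).exists_le_conj (isPGroup_zpowers_iff.2 hx) le_top
      obtain ⟨Q, e⟩ := ((syl_top P).map_cj_mem (mem_top g)).exists_top
      obtain ⟨y, hy, rfl⟩ := hg (mem_zpowers x)
      refine ⟨⟨Q, e ▸ le_cent1_iff.2 (le_cent_self (isMulComm_map _ h1) (mem_map_of_mem _ hy))⟩, ?_⟩
      rw [← map_inv, inv_eq_of_mul_eq_one_right (a := y) (b := y) (by rw [← sq, h2 y hy])]
    · have h2 : ∀ x ∈ (P : Subgroup G), x ^ 2 = 1 := fun x hx => by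
        obtain ⟨⟨Q, h1⟩, h2⟩ := h x (pgroup_mem_order P.isPGroup' hx)
        obtain ⟨y, hy⟩ := isConj_iff.1 h2
        exact sq_eq_one_of_real (L := ⊤) hy trivial ((syl_top Q).not_dvd_of_le h1)
      refine ⟨isMulComm_of_inverted (s := 1) fun k hk => ?_, h2⟩
      rw [inv_eq_of_mul_eq_one_right (a := k) (b := k) (by rw [← sq, h2 k hk])]; group

end Cfsg.Agent.S4196
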