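import Cfsg.Statements.S4226
import Mathlib
import Cfsg.Agent.L0.Yos2

set_option autoImplicit false
open Cfsg

namespace Cfsg.Agent.S4226

open Cfsg Subgroup CfsgH2 CfsgL0

/-- Let `P` be a Sylow `p`-subgroup of the finite group `G` with nilpotency class less than `p` (the term of index `p - 1` of the lower central series of `P`, indexed from `0`, is trivial), and let `N` be its normalizer. Then `O^p(N) = O^p(G) ∩ N`, where `O^p` denotes the subgroup generated by the elements of order prime to `p`; so the largest `p`-factor groups of `G` and of `N` are isomorphic. -/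
theorem result {G : Type*} [Group G] [Finite G] {p : ℕ} [Fact p.Prime] (P : Sylow p G) (hcl : (P : Subgroup G).lowerCentralSeries (p - 1) = ⊥) : Cfsg.pResidualOf p (Subgroup.normalizer ((P : Subgroup G) : Set G)) = Cfsg.pResidual p G ⊓ Subgroup.normalizer ((P : Subgroup G) : Set G) := by
  rw [pResidualOf, map_pResidual, pResidual_eq]
  refine hall_wielandt (syl_top P) ⟨le_rfl, fun g h => eq_of_le_of_card_le h
    (card_map_of_injective (MulAut.conj g).injective).ge⟩ fun x hx z hz => ?_
  have : ∀ n, ic z n x ∈ (P : Subgroup G).lowerCentralSeries n := fun n => by
    induction n with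
    | zero => exact hx
    | succ n ih =>
      rw [ic_succ', Subgroup.lowerCentralSeries_succ]
      simpa only [commutatorElement_def, inv_inv] using commutator_mem_commutator (inv_mem ih) (inv_mem hz)
  exact hcl.le (this _)

end Cfsg.Agent.S4226
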