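import Cfsg.Statements.S4230
import Mathlib
import Cfsg.Agent.L0.M3

set_option autoImplicit false
open Cfsg

namespace Cfsg.Agent.S4230

open Polynomial

/-- Let p be an odd prime, q a natural number not divisible by p, and e the multiplicative order of q modulo p. For a natural number f, p divides the value at q of the f-th cyclotomic polynomial if and only if f = e·p^j for some j ≥ 0. -/
theorem result (p q f : ℕ) (hp : p.Prime) (hp2 : p ≠ 2) (hpq : ¬ p ∣ q) :
    ((p : ℤ) ∣ (Polynomial.cyclotomic f ℤ).eval (q : ℤ)) ↔ ∃ j : ℕ, f = orderOf (q : ZMod p) * p ^ j := by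
  haveI := Fact.mk hp
  have h1 : ((p : ℤ) ∣ (cyclotomic f ℤ).eval (q : ℤ)) ↔ (cyclotomic f (ZMod p)).IsRoot (q : ZMod p) := by
    rw [← ZMod.intCast_zmod_eq_zero_iff_dvd, IsRoot, ← map_cyclotomic_int, ← eq_intCast (Int.castRingHom (ZMod p)),
      ← eval₂_at_apply, eval₂_eq_eval_map]
    simp
  have hq : (q : ZMod p) ≠ 0 := fun h => hpq ((ZMod.natCast_eq_zero_iff q p).1 h)
  have ho : ¬ p ∣ orderOf (q : ZMod p) := fun h => by
    have := Nat.le_of_dvd (Nat.sub_pos_of_lt hp.one_lt) (h.trans (ZMod.orderOf_dvd_card_sub_one hq))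
    have := hp.pos
    omega
  rw [h1]
  constructor
  · intro h
    have f0 : f ≠ 0 := by rintro rfl; simp at h
    obtain ⟨k, m, hm, rfl⟩ := Nat.exists_eq_pow_mul_and_not_dvd f0 p hp.ne_one
    haveI : NeZero (m : ZMod p) := ⟨fun h => hm ((ZMod.natCast_eq_zero_iff m p).1 h)⟩
    exact ⟨k, by rw [← (isRoot_cyclotomic_prime_pow_mul_iff_of_charP.1 h).eq_orderOf, mul_comm]⟩
  · rintro ⟨j, rfl⟩
    haveI : NeZero ((orderOf (q : ZMod p) : ℕ) : ZMod p) := ⟨fun h => ho ((ZMod.natCast_eq_zero_iff _ p).1 h)⟩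
    rw [mul_comm]
    exact isRoot_cyclotomic_prime_pow_mul_iff_of_charP.2 (IsPrimitiveRoot.orderOf _)

end Cfsg.Agent.S4230
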