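import Mathlib
import Cfsg.Statements.S4234
import Cfsg.Agent.H8.P2b
import Cfsg.Agent.H2.Base

set_option autoImplicit false
open Cfsg

namespace Cfsg.Agent.S4234

open CfsgH8 Subgroup
open scoped commutatorElement

/-- Non-normal subgroups have a maximal subgroup in the normalizer. -/
def Q (G : Type*) [Group G] : Prop := ∀ H : Subgroup G, H.Normal ∨ ∃ M, IsCoatom M ∧ M ≤ normalizer (H : Set G)

theorem Q.tr {G K : Type*} [Group G] [Group K] [Finite G] (h : Q K) (f : G →* K) (s : Function.Surjective f)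
    (k : ∀ H : Subgroup G, ∀ x, ∀ a ∈ H, ∀ b ∈ H, f (x * a * x⁻¹) = f b → x * a * x⁻¹ ∈ H) : Q G := fun H => by
  have l : (normalizer (H.map f : Set K)).comap f ≤ normalizer (H : Set G) := fun x hx =>
    mem_normalizer_fintype fun a ha => by
      obtain ⟨b, hb, e⟩ := (mem_normalizer_iff.1 hx (f a)).1 ⟨a, ha, rfl⟩
      exact k H x a ha b hb (by simp [e])
  rcases h (H.map f) with n | ⟨M, c, m⟩
  · exact .inl (normalizer_eq_top_iff.1 (eq_top_iff.2 fun x _ => l ((normalizer_eq_top_iff.2 n).ge trivial)))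
  · exact .inr ⟨_, isCoatom_comap_of_surjective s c, (comap_mono m).trans l⟩

instance f13 : Fact (Nat.Prime 13) := ⟨by norm_num⟩

theorem psl {F : Type*} [Field F] [Fintype F] (cq : Fintype.card F = 13) :
    Q (Matrix.ProjectiveSpecialLinearGroup (Fin 2) F) := fun H => by
  haveI := charP_of_card_eq_prime cq
  have od : Fintype.card F % 2 = 1 := by rw [cq]
  have cG := card_PSL2_odd od
  rw [cq] at cG
  have nm : ∀ G : Subgroup (Matrix.SpecialLinearGroup (Fin 2) F), (∀ x ∈ G, ∀ a ∈ H.comap πS,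
      x * a * x⁻¹ ∈ H.comap πS) → G.map πS ≤ normalizer (H : Set (Matrix.ProjectiveSpecialLinearGroup (Fin 2) F)) := fun G h => by
    rintro _ ⟨x, hx, rfl⟩
    refine mem_normalizer_fintype fun a ha => ?_
    obtain ⟨a, rfl⟩ := πS_surj a
    simpa using h x hx a ha
  have tc : ∀ {C N : Subgroup (Matrix.SpecialLinearGroup (Fin 2) F)}, TorN C N → IsCoatom (N.map πS) :=
    fun h => h.isCoatom (by rcases h.tor.card with e | e <;> rw [e, cq] <;> norm_num)
  have sub : ∀ L : Subfield F, L = ⊤ := sub_eq_top_of_prime (by rw [cq]; norm_num)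
  have a4 : ∀ M : Subgroup (Matrix.ProjectiveSpecialLinearGroup (Fin 2) F),
      Nonempty (M ≃* alternatingGroup (Fin 4)) → IsCoatom M := fun M e => by
    have c := (card_of_equiv e).trans card_A4
    refine isCoatom_of_card (ne_top_of_card od (a := 13) cq.ge (by rw [c]; norm_num)) fun K l t => ?_
    have d := card_subgroup_dvd_card K
    rcases dickson_A4 13 od t ((has_of_equiv e).mono l) with h | h | h | ⟨_, L, h, -⟩
    · rw [card_of_equiv h.2, card_A4, c]
    · rw [card_of_equiv h.2, card_S4] at d; omega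
    · rw [card_of_equiv h.2, card_A5] at d; omega
    · exact absurd (sub L) h
  have ab : (∀ a ∈ H.comap πS, ∀ b ∈ H.comap πS, a * b = b * a) → ¬ 13 ∣ Nat.card H → H ≠ ⊥ →
      ∃ M, IsCoatom M ∧ M ≤ normalizer (H : Set (Matrix.ProjectiveSpecialLinearGroup (Fin 2) F)) := fun c d n => by
    obtain ⟨⟨z, hz⟩, z1⟩ := ne_bot_iff_exists_ne_one.1 n
    obtain ⟨z, rfl⟩ := πS_surj z
    have r := reg_of_not_dvd 13 (mt πS_eq_one.2 (by simpa using z1)) fun t => d (t.trans (H.orderOf_dvd_natCard hz))
    obtain ⟨N, h⟩ := (isTor_centralizer r).exists_N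
    exact ⟨_, tc h, nm N fun x hx a ha => h.conj_mem (fun b hb => mem_centralizer_singleton_iff.2 (c b hb z hz)) hx ha⟩
  by_cases b : H = ⊥
  · exact .inl (b ▸ inferInstance)
  by_cases t : H = ⊤
  · exact .inl (t ▸ inferInstance)
  right
  have cc := card_comap_πS H
  rw [gcd_two_odd od] at cc
  rcases dickson' 13 t with ⟨C, N, h, l⟩ | ⟨s, hs⟩ | h | h | h | ⟨_, L, h, -⟩
  · have i := CfsgH2.card_mul_relIndex l
    by_cases n : (H.comap πS).relIndex N ∣ 2
    · haveI : ((H.comap πS).subgroupOf N).Normal := by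
        rcases (Nat.dvd_prime Nat.prime_two).1 n with e | e
        · rw [index_eq_one.1 e]; infer_instance
        · exact normal_of_index_eq_two e
      exact ⟨_, tc h, nm N fun x hx a ha => (normal_subgroupOf_iff l).1 this a x ha hx⟩
    by_cases c : H.comap πS ≤ C
    · exact ⟨_, tc h, nm N fun x hx a ha => h.conj_mem c hx ha⟩
    have k := h.relIndex_inf l c
    have k2 := card_map_πS (C := H.comap πS ⊓ C) ⟨neg_one_mem_comap H, h.tor.neg_one_mem⟩
    rw [gcd_two_odd od] at k2
    obtain ⟨e⟩ := h.dihedral l c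
    rw [map_comap_πS] at e
    generalize Nat.card ((H.comap πS ⊓ C).map πS) = m at k2 e
    generalize (H.comap πS).relIndex N = r at n i
    have : m = 1 ∨ m = 2 := by
      have : m * r = 7 ∨ m * r = 6 := by
        rcases h.card_or with e | e <;> rw [e, k, k2, cq] at i <;> [left; right] <;> linarith
      have : m ≤ 7 := by rcases this with e | e <;> have := Nat.le_of_dvd (by norm_num) (Dvd.intro _ e) <;> omega
      have : r ≠ 1 ∧ r ≠ 2 := ⟨by rintro rfl; simp at n, by rintro rfl; simp at n⟩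
      interval_cases m <;> omega
    rcases this with rfl | rfl
    · refine ab (fun a ha b hb => ?_) (by omega) b
      obtain ⟨y, -, u⟩ := (Nat.card_eq_two_iff' (1 : H)).1 (by omega)
      by_cases a1 : πS a = 1
      · rcases isSc_SL2.1 (πS_eq_one.1 a1) with rfl | rfl <;> simp
      by_cases b1 : πS b = 1
      · rcases isSc_SL2.1 (πS_eq_one.1 b1) with rfl | rfl <;> simp
      rcases πS_eq_iff.1 (congrArg Subtype.val ((u ⟨_, ha⟩ (mt Subtype.ext_iff.1 a1)).trans (u ⟨_, hb⟩ (mt Subtype.ext_iff.1 b1)).symm)) with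
        rfl | rfl <;> simp
    · have hV : IsKleinFour H := ⟨by omega, by rw [Monoid.exponent_eq_of_mulEquiv e, IsKleinFour.exponent_two]⟩
      obtain ⟨c1, c2, -⟩ := card_normalizer_V od hV
      exact ⟨_, a4 _ (normalizer_klein_A4 c1 (c2 (by omega))), le_rfl⟩
  · have cm : ∀ a ∈ H.comap πS, ∀ b ∈ H.comap πS, ⁅a, b⁆ ^ 13 = 1 := fun a ha b hb => comm_pow_of_BS 13 hs ha hb
    by_cases d : 13 ∣ Nat.card H
    · have u : ∀ x ∈ US F, s⁻¹ * x * s ∈ H.comap πS := by
        obtain ⟨⟨z, hz⟩, o⟩ := exists_prime_orderOf_dvd_card' (G := H.comap πS) 13 (cc ▸ d.mul_left 2)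
        rw [orderOf_mk] at o
        have m : s * z * s⁻¹ ∈ US _ := mem_US'.2 ⟨hs z hz, by
          rw [trace_conj_SL, trace_of_pow_char 13 (k := 1) (by rw [pow_one, ← o, pow_orderOf_eq_one])]⟩
        have : zpowers (s * z * s⁻¹) = US _ := eq_of_le_of_card_ge (zpowers_le.2 m) (by
          rw [card_US, cq, Nat.card_zpowers, ← orderOf_eq_of_isConj (isConj_iff.2 ⟨s, rfl⟩), o])
        intro x hx
        obtain ⟨n, rfl⟩ := mem_zpowers_iff.1 (this.ge hx)
        rw [conj_zpow]
        simpa [mul_assoc] using zpow_mem hz n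
      have c := card_map_πS (C := (BS F).map (MulAut.conj s⁻¹).toMonoidHom) ⟨-1, mem_BS.2 (by simp), by simp⟩
      rw [card_map_of_injective (MulEquiv.injective _), card_BS, gcd_two_odd od, cq] at c
      refine ⟨((BS _).map (MulAut.conj s⁻¹).toMonoidHom).map πS, isCoatom_of_card
        (ne_top_of_card od (a := 13) cq.ge (by omega)) fun K l t => ?_, nm _ ?_⟩
      · have := card_dvd_of_le l
        rcases dickson_p 13 t (Dvd.dvd.trans (by omega) this) with h | ⟨s, h⟩ | h | ⟨_, L, h, -⟩
        · omega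
        · have := Nat.le_of_dvd (by rw [cq]; norm_num) (card_dvd_of_BS h)
          rw [card_comap_πS, gcd_two_odd od, cq] at this
          omega
        · omega
        · exact absurd (sub L) h
      · rintro _ ⟨x, hx, rfl⟩ a ha
        simpa [commutatorElement_def, mul_assoc] using mul_mem (u _ (comm_mem_US hx (hs a ha))) ha
    · refine ab (fun a ha b hb => commutatorElement_eq_one_iff_mul_comm.1 (orderOf_eq_one_iff.1 ?_)) d b
      refine ((Nat.dvd_prime f13.out).1 (orderOf_dvd_of_pow_eq_one (cm a ha b hb))).resolve_right fun e => ?_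
      have := (H.comap πS).orderOf_dvd_natCard (x := ⁅a, b⁆) (mul_mem (mul_mem (mul_mem ha hb) (inv_mem ha)) (inv_mem hb))
      rw [e] at this
      omega
  · exact ⟨H, a4 H h.2, le_normalizer⟩
  · have d := card_subgroup_dvd_card H
    rw [card_of_equiv h.2, card_S4] at d; omega
  · have d := card_subgroup_dvd_card H
    rw [card_of_equiv h.2, card_A5] at d; omega
  · exact absurd (sub L) h

/-- Let K be isomorphic to PSL(2, 13) or to SL(2, 13) and let S be a finite abelian group of order coprime to the order of K. Then in the direct product K × S every subgroup that is not normal has a normalizer that is a maximal subgroup. -/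
theorem result {K S : Type*} [Group K] [CommGroup S] [Finite K] [Finite S]
    (hK : Nonempty (K ≃* Matrix.ProjectiveSpecialLinearGroup (Fin 2) (ZMod 13)) ∨
      Nonempty (K ≃* Matrix.SpecialLinearGroup (Fin 2) (ZMod 13)))
    (hKS : (Nat.card K).Coprime (Nat.card S)) (H : Subgroup (K × S)) (hH : ¬ H.Normal) :
    IsCoatom (Subgroup.normalizer (H : Set (K × S))) := by
  have p := psl (ZMod.card 13)
  have k : Q K := by
    rcases hK with ⟨⟨e⟩⟩ | ⟨⟨e⟩⟩
    · exact p.tr e.toMonoidHom e.surjective fun H x a _ b hb h => e.injective h ▸ hb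
    · refine (p.tr πS πS_surj fun H x a ha b hb h => ?_).tr e.toMonoidHom e.surjective
        fun H x a _ b hb h => e.injective h ▸ hb
      rcases πS_eq_iff.1 h with h | h
      · exact h ▸ hb
      by_cases m : -1 ∈ H
      · simpa [h] using mul_mem m hb
      have od : Fintype.card (ZMod 13) % 2 = 1 := by rw [ZMod.card]
      have o : Odd (Nat.card H) := Nat.not_even_iff_odd.1 fun t => by
        obtain ⟨⟨z, hz⟩, o⟩ := exists_prime_orderOf_dvd_card' (hp := ⟨Nat.prime_two⟩) 2 t.two_dvd
        rw [orderOf_mk] at o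
        exact m (eq_neg_one_of_sq od (o ▸ pow_orderOf_eq_one z) (by rintro rfl; simp at o) ▸ hz)
      have : ∀ a ∈ H, a ^ Nat.card H = 1 := fun a ha => orderOf_dvd_iff_pow_eq_one.1 (H.orderOf_dvd_natCard ha)
      have t := congrArg (· ^ Nat.card H) h
      simp only [conj_pow, this a ha, o.neg_pow, this b hb, mul_one, mul_inv_cancel] at t
      exact absurd t.symm (neg_one_ne_one_SL od)
  refine ((k.tr (MonoidHom.fst K S) Prod.fst_surjective fun H x a ha b hb h => ?_) H).elim (absurd · hH)
    fun ⟨M, c, l⟩ => (c.le_iff.1 l).resolve_left (mt normalizer_eq_top_iff.1 hH) ▸ c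
  obtain ⟨n, h1, h2⟩ := Nat.chineseRemainder hKS 1 0
  have u : ∀ a ∈ H, (a.1, 1) ∈ H := fun a ha => by
    convert pow_mem ha n using 1
    exact Prod.ext ((pow_one _).symm.trans (pow_eq_pow_iff_modEq.2 (h1.of_dvd (orderOf_dvd_natCard _)).symm))
      ((pow_zero _).symm.trans (pow_eq_pow_iff_modEq.2 (h2.of_dvd (orderOf_dvd_natCard _)).symm))
  convert mul_mem (u b hb) (mul_mem (inv_mem (u a ha)) ha) using 1
  exact Prod.ext (by simpa using h) (by simp)

end Cfsg.Agent.S4234
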