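import Cfsg.Statements.S4236
import Cfsg.Agent.H1.Wie
import Cfsg.Agent.H4.MH3

set_option autoImplicit false
open Cfsg

namespace Cfsg.Agent.S4236

section
open CfsgH4 MulAction
open scoped commutatorElement

theorem no_compl {S : Type*} [Group S] [Finite S] [IsSimpleGroup S] {p : ℕ} [Fact p.Prime] {K : Subgroup S} [K.Normal] {P : Sylow p S}
    (h : K.IsComplement' P) (h1 : p ∣ Nat.card S) (h2 : 35 ∣ Nat.card S) : False := by
  rcases Subgroup.Normal.eq_bot_or_eq_top ‹_› with rfl | rfl
  · obtain ⟨k, hk⟩ := P.2.exists_card_eq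
    rw [← h.card_mul, Subgroup.card_bot, one_mul, hk] at h2
    have a := (Nat.prime_dvd_prime_iff_eq Nat.prime_five Fact.out).1 (Nat.prime_five.dvd_of_dvd_pow (Dvd.dvd.trans (by decide) h2))
    have b := (Nat.prime_dvd_prime_iff_eq Nat.prime_seven Fact.out).1 (Nat.prime_seven.dvd_of_dvd_pow (Dvd.dvd.trans (by decide) h2))
    omega
  · exact P.ne_bot_of_dvd_card h1 (Subgroup.isComplement'_top_left.1 h)

theorem simple {S : Type*} [Group S] [Finite S] [IsSimpleGroup S] [Fact (Nat.Prime 17)] (h : Nat.card (Sylow 17 S) = 35) : False := by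
  classical
  have := Fintype.ofFinite (Sylow 17 S)
  obtain ⟨T⟩ : Nonempty (Sylow 2 S) := inferInstance
  obtain ⟨P, hP⟩ := T.2.nonempty_fixed_point_of_prime_not_dvd_card (Sylow 17 S) (by omega)
  rw [Subgroup.sylow_mem_fixedPoints_iff] at hP
  have h1 : Nat.card P = 17 := card_eq_of_orbits (by omega)
    (fun Q R hR => (index_stabilizer _ _).symm.trans (index_stab_sylow (by omega) hR)) P
  have h2 := isCyclic_of_prime_card h1
  have h3 : 35 ∣ Nat.card S := h ▸ P.card_eq_index_normalizer ▸ Subgroup.index_dvd_card _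
  by_cases h4 : 2 ∣ Nat.card S
  · have : IsCyclic (MulAut P) := by
      have := ZMod.isCyclic_units_prime (show (Nat.card P).Prime by rw [h1]; exact Fact.out)
      exact isCyclic_of_surjective _ (IsCyclic.mulAutMulEquiv P).symm.surjective
    refine no_compl (IsCyclic.isComplement' ((Nat.minFac_eq_two_iff _).2 h4) (isCyclic_of_injective
      (P.1.normalizerMonoidHom.comp (Subgroup.inclusion hP)) ((MonoidHom.ker_eq_bot_iff _).1 ?_))) h4 h3
    refine ((T.2.to_subgroup _).card_eq_or_dvd.elim Subgroup.card_eq_one.1 fun e => ?_)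
    obtain ⟨⟨⟨x, x0⟩, x1⟩, hx⟩ := exists_prime_orderOf_dvd_card' 2 e
    rw [Subgroup.orderOf_mk, Subgroup.orderOf_mk] at hx
    have x2 : x ∈ Subgroup.centralizer (P : Set S) := (P.1.normalizerMonoidHom_ker.le x1 :)
    let X : SubMulAction (P : Subgroup S) (Sylow 17 S) := ⟨fixedBy _ x, fun g Q hQ => by
      rw [mem_fixedBy, Subgroup.smul_def, smul_smul, ← x2 g g.2, mul_smul, show x • Q = Q from hQ]⟩
    have a1 := P.2.card_modEq_card_fixedPoints X
    rw [show Nat.card (fixedPoints (P : Subgroup S) X) = 1 from Nat.card_eq_one_iff_unique.2 ⟨⟨fun a b => Subtype.ext (Subtype.ext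
      ((eq_of_fix_sylow fun y hy => congrArg Subtype.val (a.2 ⟨y, hy⟩)).trans
        (eq_of_fix_sylow fun y hy => congrArg Subtype.val (b.2 ⟨y, hy⟩)).symm))⟩,
      ⟨⟨P, Sylow.smul_eq_iff_mem_normalizer.2 (hP x0)⟩, fun y => Subtype.ext (smul_self_sylow y.2)⟩⟩] at a1
    have a2 : toPermHom S (Sylow 17 S) x ^ 2 = 1 := by rw [← map_pow, ← hx, pow_orderOf_eq_one, map_one]
    have a3 := CfsgH8.card_modEq_card_fixedBy (Ω := Sylow 17 S) Nat.prime_two (k := 1) (g := x) (by simp [← hx])
    have a4 : Equiv.Perm.sign (toPermHom S (Sylow 17 S) x) = 1 := Abelianization.commutator_subset_ker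
      (Equiv.Perm.sign.comp (toPermHom S (Sylow 17 S))) ((commutator_eq_top_of_sylow h (by omega)).ge (Subgroup.mem_top x))
    have a5 : Nat.card X < 35 := h ▸ Finite.card_subtype_lt (Classical.choose_spec (not_forall.1 fun a : ∀ Q, Q ∈ X =>
      absurd hx (by simp [eq_one_of_fix_sylow h (by omega) a])))
    rw [Equiv.Perm.sign_of_pow_two_eq_one a2] at a4
    rw [Fintype.card_eq_nat_card, Fintype.card_eq_nat_card, h] at a4
    rw [h] at a3
    change _ ≡ Nat.card X [MOD 2] at a3
    change (-1) ^ ((35 - Nat.card X) / 2) = 1 at a4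
    rw [show Nat.card X = 1 by unfold Nat.ModEq at a1 a3; omega] at a4
    exact absurd a4 (by decide)
  · have key := Subgroup.card_dvd_of_injective _ (QuotientGroup.kerLift_injective P.1.normalizerMonoidHom)
    rw [Subgroup.normalizerMonoidHom_ker, ← Subgroup.index, ← Subgroup.relIndex, h2.card_mulAut, h1] at key
    refine no_compl (MonoidHom.ker_transferSylow_isComplement' P (Subgroup.relIndex_eq_one.1 (Nat.eq_one_of_dvd_coprimes
      (Nat.Coprime.pow_left 4 ((Nat.prime_two.coprime_iff_not_dvd).2 h4)) key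
      ((Subgroup.relIndex_dvd_card _ _).trans (Subgroup.card_subgroup_dvd_card _))))) (h1 ▸ P.1.card_subgroup_dvd_card) h3

end

/-- No finite group has exactly 35 Sylow 17-subgroups. -/
theorem result {G : Type*} [Group G] [Finite G] : Nat.card (Sylow 17 G) ≠ 35 := by
  open CfsgH4 MulAction in
  open scoped commutatorElement in
  · intro h
    have : Fact (Nat.Prime 17) := ⟨by norm_num⟩
    obtain ⟨S, _, _, _, e⟩ := exists_simple_sylow h (by omega) (not_isPrimePow_of Nat.prime_five Nat.prime_seven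
      (by omega) (by omega) (by omega)) fun d h1 h2 => by
        have := Nat.le_of_dvd (by omega) h1
        interval_cases d <;> omega
    exact simple e.symm

end Cfsg.Agent.S4236
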