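import Cfsg.Statements.S4237
import Cfsg.Agent.H1.Misc1
import Cfsg.Agent.H1.Kul

set_option autoImplicit false
open Cfsg

namespace Cfsg.Agent.S4237

/-- Let G be a finite group, p a prime and a a natural number such that p^(a+1) divides the order of G. Then the number of subgroups of G of order p^a is congruent to 1 or to 1 + p modulo p². -/
theorem result {G : Type*} [Group G] [Finite G] (p a : ℕ) (hp : p.Prime) (hdvd : p ^ (a + 1) ∣ Nat.card G) :
    Nat.card {H : Subgroup G // Nat.card H = p ^ a} ≡ 1 [MOD p ^ 2] ∨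
      Nat.card {H : Subgroup G // Nat.card H = p ^ a} ≡ 1 + p [MOD p ^ 2] := by
  open Subgroup CfsgH2 in
  open CfsgH1 hiding card_inf_mul_relIndex card_lt_of_lt card_lt_of_ne_top card_map_mul_card_inf_ker card_mul_relIndex card_subgroupOf card_sup_dvd card_sup_mul_card_inf coprime_le_sup_cent exists_card_prime_le isNilpotent_map isNilpotent_of_le isPGroup_pCore isSolvable_map isSolvable_of_le le_pCore le_pPrimeCore relIndex_map_dvd in
  open scoped CfsgH1 in
  open scoped commutatorElement in
  · haveI := Fact.mk hp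
    rcases eq_or_ne p 2 with rfl | p2
    · have := CfsgL0.card_subgroups_modEq (G := G) hp ((pow_dvd_pow 2 a.le_succ).trans hdvd)
      unfold Nat.ModEq at *
      omega
    obtain ⟨P, hP⟩ := exists_syl (p := p) (⊤ : Subgroup G)
    have d := hP.pow_dvd (card_top (G := G) ▸ hdvd)
    have e : Nat.card {H : Subgroup G // Nat.card H = p ^ a} ≡ {K : Subgroup P | Nat.card K = p ^ a}.ncard [MOD p ^ 2] := by
      rw [← ncard_le_eq]
      refine Nat.ModEq.trans ?_ ((Nat.modEq_zero_iff_dvd.2 (hall_red hP d)).add_left {K : Subgroup G | Nat.card K = p ^ a ∧ K ≤ P}.ncard)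
      rw [← Set.ncard_union_eq (Set.disjoint_left.2 fun K h k => k.2 h.2)]
      exact congrArg (Set.ncard · % p ^ 2) (Set.ext fun K => ⟨fun h => (em _).imp (fun k => ⟨h, k⟩) fun k => ⟨h, k⟩, fun h => h.elim And.left And.left⟩)
    obtain ⟨m, hm⟩ := hP.pg.exists_card_eq
    by_cases c : IsCyclic P ∨ a = 0
    · refine Or.inl (e.trans ?_)
      obtain ⟨K, hK⟩ := Sylow.exists_subgroup_card_pow_prime p ((pow_dvd_pow p a.le_succ).trans d)
      rw [show {K : Subgroup P | Nat.card K = p ^ a} = {K} from Set.eq_singleton_iff_unique_mem.2 ⟨hK, fun L hL => c.elim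
        (fun c => eq_of_card_eq_of_cyclic (C := ⊤) inferInstance le_top le_top (hL.trans hK.symm)) fun c => by
          subst c; exact (card_eq_one.1 hL).trans (card_eq_one.1 hK).symm⟩, Set.ncard_singleton]
    push Not at c
    obtain ⟨k, rfl⟩ := Nat.exists_eq_succ_of_ne_zero c.2
    refine Or.inr (e.trans (kulakoff m P hm c.1 (fun a b n h => p2 ?_) k ((Nat.pow_dvd_pow_iff_le_right hp.one_lt).1 (hm ▸ d))))
    exact ((Nat.prime_dvd_prime_iff_eq Nat.prime_two hp).1 (Nat.prime_two.dvd_of_dvd_pow (by rw [← hm, ← card_top, h.card]; exact dvd_pow_self _ (by omega)))).symm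

end Cfsg.Agent.S4237
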