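import Cfsg.Statements.S4238
import Cfsg.Agent.H2.BG0
import Cfsg.Agent.H2.Sec

set_option autoImplicit false
open Cfsg

namespace Cfsg.Agent.S4238
open CfsgH2
section
open Subgroup Function
open scoped commutatorElement

universe u
theorem key {X : Type u} [Group X] [Finite X] {p : ℕ} [hp : Fact p.Prime]
    (ps : PS X fun _ _ _ M => NPC p M)
    (h : pPrimeCore p X = ⊥ → ∃ k : X, orderOf k = Monoid.exponent X) : NPC p (⊤ : Subgroup X) := by
  by_contra n
  obtain ⟨k, hk⟩ := h (by
    by_contra e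
    exact n (.of_map (QuotientGroup.mk' (pPrimeCore p X)) (by rw [map_mk_top]; exact ps.quot _ e)
      (by rw [QuotientGroup.ker_mk', top_inf_eq]; exact not_dvd_pPrimeCore)))
  refine n (frobenius_npc fun Q _ pQ Q0 g _ gN cop => by_contra fun gC => ?_)
  have e : Q ⊔ zpowers g = ⊤ := by_contra fun e =>
    gC ((ps.sub e).mem_cent pQ le_sup_left (mem_sup_right (mem_zpowers g)) gN cop)
  have nQ : ⊤ ≤ N[Q] := e ▸ sup_le le_normalizer (zpowers_le.2 gN)
  have cg : o[zpowers g].Coprime o[Q] := by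
    rw [Nat.card_zpowers]; exact (coprime_of_pgroup pQ ((coprime_iff_not_dvd hp.out).1 cop)).symm
  have q : ∀ N : Subgroup X, ⊤ ≤ N[N] → N ≠ ⊥ → ⁅Q, zpowers g⁆ ≤ N := fun N hN h0 => by
    haveI := normal_of_top_le_norm hN
    have := (ps.quot N h0).mem_cent (pQ.map (QuotientGroup.mk' N)) le_top (mem_top _)
      (mem_norm_map _ gN) (cop.coprime_dvd_left (orderOf_map_dvd _ _))
    rw [← zpowers_le, ← MonoidHom.map_zpowers, map_le_cent_map_iff_comm, QuotientGroup.ker_mk'] at this
    rwa [commutator_comm]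
  have sQ : Sol[zpowers g] ∨ Sol[Q] := .inr (isSolvable_of_pgroup pQ)
  have ab : Ab[Q] := (elem_of_phi_eq_bot pQ (by_contra fun e => gC (zpowers_le.1 ((le_piRes le_rfl
    ((piN_compl_singleton' hp.out).2 (by rwa [Nat.card_zpowers]))).trans (piRes_le_cent_of_phi pQ
    (zpowers_le.2 gN) (q _ (nQ.trans norm_le_norm_phi) e)))))).1
  obtain ⟨a, ha, b, hb, e1, h1, h2⟩ := exists_pi_parts {p} k
  have cab := commute_of_mem_zpowers ha hb
  have ok : orderOf k = orderOf a * orderOf b := e1 ▸ Commute.orderOf_mul_eq_mul_orderOf_of_coprime cab (h1.coprime h2)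
  have cb : o[zpowers b].Coprime o[Q] := by
    rw [Nat.card_zpowers]; exact (coprime_of_pgroup pQ ((piN_compl_singleton hp.out).1 h2)).symm
  have cX : Nat.card X = o[Q] * orderOf g := by
    rw [← card_top, ← e, card_sup_of_disj (.inr (zpowers_le.2 gN)) (inf_eq_bot_of_coprime' cg.symm), Nat.card_zpowers]
  have sy : Syl p Q ⊤ := ⟨le_top, pQ, by
    have := card_mul_relIndex (le_top (a := Q))
    rw [card_top, cX] at this
    rw [Nat.eq_of_mul_eq_mul_left (card_pos' Q) this]; exact (coprime_iff_not_dvd hp.out).1 cop⟩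
  obtain ⟨j, hj⟩ := (piN_singleton hp.out (orderOf_pos a).ne').1 h1
  have aQ : a ∈ Q := sy.mem_of_norm nQ trivial (k := j) (hj ▸ pow_orderOf_eq_one a)
  have d : orderOf g ∣ orderOf b := (((piN_compl_singleton' hp.out).2 cop).coprime' h1).dvd_of_dvd_mul_left
    (by rw [← ok, hk]; exact Monoid.order_dvd_exponent g)
  have e2 : Q ⊔ zpowers b = ⊤ := eq_of_le_of_card_le le_top (by
    rw [card_top, cX, card_sup_of_disj (.inr (le_top.trans nQ)) (inf_eq_bot_of_coprime' cb.symm), Nat.card_zpowers]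
    exact Nat.mul_le_mul_left _ (Nat.le_of_dvd (orderOf_pos b) d))
  have a0 : a ≠ 1 := by
    rintro rfl
    obtain ⟨x, -, hx⟩ := exists_prime_order_mem hp.out (dvd_card_of_pgroup pQ Q0)
    refine (piN_compl_singleton hp.out).1 h2 ?_
    rw [orderOf_one, one_mul] at ok
    rw [← ok, hk, ← hx]; exact Monoid.order_dvd_exponent x
  have c : ⊤ ≤ C[zpowers a] := e2 ▸ sup_le (le_cent_of_comm ab (zpowers_le.2 aQ))
    (by rw [cent_zpowers, zpowers_le]; exact mem_centralizer_singleton_iff.2 cab.symm)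
  exact gC (zpowers_le.1 (coprime_le_cent (zpowers_le.2 gN) cg sQ ((q _ (c.trans (cent_le_norm _))
    (by simpa using a0)).trans (le_centralizer_iff.1 (le_top.trans c)))))

end

/-- Let G be a finite group and p a prime. Then G has a normal p-complement if and only if every section K = H/N of G (N a normal subgroup of a subgroup H) whose largest normal subgroup of order prime to p is trivial contains an element whose order equals the exponent of K. -/
theorem result {G : Type*} [Group G] [Finite G] (p : ℕ) [Fact p.Prime] :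
    Cfsg.HasNormalPComplement p G ↔
      ∀ (H : Subgroup G) (N : Subgroup H) [N.Normal], Cfsg.pPrimeCore p (H ⧸ N) = ⊥ →
        ∃ k : H ⧸ N, orderOf k = Monoid.exponent (H ⧸ N) := by
  open Subgroup Function in open scoped commutatorElement in
  · refine ⟨fun h H N _ h0 => ?_, fun h => npc_top_iff.2 (sec_ind' (G := G) (fun _ _ _ M => NPC p M)
      (fun _ _ _ _ _ _ f _ h => h.map f) (fun K R _ ps => key ps (h K _)) G ⊤ (Sec.self _))⟩
    have h1 : NPC p (⊤ : Subgroup (H ⧸ N)) := by
      have := (npc_top_iff.1 (npc_iff.2 ((npc_top_iff.1 h).mono (le_top (a := H))))).map (QuotientGroup.mk' N)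
      rwa [map_mk_top] at this
    obtain ⟨P, hP⟩ := exists_syl (p := p) (⊤ : Subgroup (H ⧸ N))
    have := h1.sup_eq hP
    rw [← pPrimeCore_eq', h0, bot_sup_eq] at this
    obtain ⟨n, hn⟩ := (isPGroup_top_iff.1 (this ▸ hP.2)).exists_card_eq
    obtain ⟨m, -, hm⟩ := (Nat.dvd_prime_pow Fact.out).1 (hn ▸ Group.exponent_dvd_nat_card (G := H ⧸ N))
    obtain ⟨k, hk⟩ := (Fact.out : p.Prime).exists_orderOf_eq_pow_factorization_exponent (H ⧸ N)
    exact ⟨k, by rw [hk, hm, (Fact.out : p.Prime).factorization_pow]; simp⟩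

end Cfsg.Agent.S4238
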