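import Cfsg.Statements.S4240
import Mathlib
import Cfsg.Agent.L0.Amb

set_option autoImplicit false
open Cfsg

namespace Cfsg.Agent.S4240

open Cfsg Subgroup CfsgH2 CfsgL0

/-- Let a finite group A act by automorphisms on a finite group G of order coprime to that of A. Suppose every maximal A-invariant proper subgroup of G is nilpotent while G is not. Then G is solvable, the order of G has the form p^a·q^b for two distinct primes p and q, and G has a normal A-invariant Sylow subgroup for some prime dividing its order. -/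
theorem result {A G : Type*} [Group A] [Group G] [Finite A] [Finite G] [MulDistribMulAction A G]
    (hcop : (Nat.card A).Coprime (Nat.card G))
    (hmax : ∀ H : Subgroup G, H ≠ ⊤ → (∀ a : A, ∀ x ∈ H, a • x ∈ H) →
      (∀ K : Subgroup G, H < K → (∀ a : A, ∀ x ∈ K, a • x ∈ K) → K = ⊤) → Group.IsNilpotent H)
    (hG : ¬ Group.IsNilpotent G) :
    Group.IsSolvable G ∧
      (∃ p q a b : ℕ, p.Prime ∧ q.Prime ∧ p ≠ q ∧ Nat.card G = p ^ a * q ^ b) ∧
      ∃ (p : ℕ) (P : Sylow p G), p.Prime ∧ p ∣ Nat.card G ∧ (P : Subgroup G).Normal ∧ (∀ a : A, ∀ x ∈ (P : Subgroup G), a • x ∈ (P : Subgroup G)) := by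
  obtain ⟨X, _, _, i, j, hi, hj, h1, h2, h3⟩ := exists_amb A G
  have hA : map j ⊤ ≤ N[map i ⊤] := le_normalizer_of_normal
  have e : o[map i ⊤] = Nat.card G := by rw [card_map_of_injective hi, card_top]
  have hc : o[map j ⊤].Coprime o[map i ⊤] := by rwa [e, card_map_of_injective hj, card_top]
  have h : ∀ H < map i ⊤, map j ⊤ ≤ N[H] → Nil[H] := fun H hH hn => by
    obtain ⟨H, rfl⟩ := exists_map_eq hH.le
    obtain ⟨M, h4, h5, h6⟩ := exists_maximal_ge (fun M : Subgroup G => M ≠ ⊤ ∧ ∀ a : A, ∀ x ∈ M, a • x ∈ M)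
      (H := H) ⟨fun e => hH.ne (e ▸ rfl), (h3 H).1 hn⟩
    exact isNilpotent_map i (isNilpotent_of_le (hmax M h5.1 h5.2 fun K hK h7 => by
      by_contra h8; exact hK.ne' (h6 K ⟨h8, h7⟩ hK.le)) h4)
  refine ⟨isSolvable_top_iff.1 ((inj_isSolvable hi).1 (sol_of_inv_nil _ X _ _ rfl hA hc h)), ?_⟩
  obtain ⟨q, r, hq, hr, Q, R, h4, h5, hQ, hR, h6, h7, -, h8⟩ := inv_schmidt hA hc h fun h =>
    hG (nilpotent_of_mulEquiv (_h := (inj_isNilpotent hi).1 h) topEquiv)
  obtain ⟨Q, rfl⟩ := exists_map_eq hQ.le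
  obtain ⟨P, rfl⟩ := ((inj_syl hi).1 hQ).exists_top
  refine ⟨?_, q, P, hq.out, e ▸ h5, top_le_norm_iff.1 ((inj_le_norm hi).1 h6), (h3 _).1 h7⟩
  obtain ⟨a, ha⟩ := exists_card_eq_pow hR.pg
  obtain ⟨b, hb⟩ := exists_card_eq_pow hQ.pg
  refine ⟨r, q, a, b, hr.out, hq.out, h4.symm, ?_⟩
  rw [← e, ← h8, card_sup_of_disj (.inl (hR.le.trans h6)) (inf_eq_bot_of_coprime' (by
    rw [ha, hb]; exact Nat.coprime_pow_primes _ _ hr.out hq.out h4.symm)), ha, hb]

end Cfsg.Agent.S4240
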