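import Cfsg.Statements.S4242
import Cfsg.Agent.H1.Misc1
import Cfsg.Agent.H2.BG0

set_option autoImplicit false
open Cfsg

namespace Cfsg.Agent.S4242

/-- Let G be a finite group and p a prime dividing its order. Every maximal subgroup of G of order divisible by p is nilpotent if and only if G is nilpotent, or G is a minimal non-nilpotent group, or G is the internal direct product of a normal subgroup of order p and a normal minimal non-nilpotent subgroup of order prime to p. -/
theorem result {G : Type*} [Group G] [Finite G] (p : ℕ) (hp : p.Prime) (hpG : p ∣ Nat.card G) :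
    (∀ M : Subgroup G, IsCoatom M → p ∣ Nat.card M → Group.IsNilpotent M) ↔
      (Group.IsNilpotent G ∨ Cfsg.IsMinimalNonNilpotent G ∨
        ∃ Z K : Subgroup G, Z.Normal ∧ K.Normal ∧ Z ⊓ K = ⊥ ∧ Z ⊔ K = ⊤ ∧ Nat.card Z = p ∧
          Cfsg.IsMinimalNonNilpotent K ∧ ¬ p ∣ Nat.card K) := by
  open Subgroup CfsgH2 in
  open CfsgH1 hiding card_inf_mul_relIndex card_lt_of_lt card_lt_of_ne_top card_map_mul_card_inf_ker card_mul_relIndex card_subgroupOf card_sup_dvd card_sup_mul_card_inf coprime_le_sup_cent exists_card_prime_le isNilpotent_map isNilpotent_of_le isPGroup_pCore isSolvable_map isSolvable_of_le le_pCore le_pPrimeCore relIndex_map_dvd in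
  open scoped CfsgH1 in
  open scoped commutatorElement in
  · haveI := Fact.mk hp
    refine ⟨fun h => ?_, fun h M hM hd => ?_⟩
    · have h' : ∀ H : Subgroup G, H ≠ ⊤ → p ∣ o[H] → Nil[H] := fun H h1 h2 => by
        obtain ⟨M, hM, hl⟩ := exists_coatom_ge h1
        haveI := h M hM (h2.trans (card_dvd_of_le hl))
        exact CfsgH1.isNilpotent_of_le hl
      refine or_iff_not_imp_left.2 fun h1 => or_iff_not_imp_left.2 fun h2 => ?_
      obtain ⟨K, hK, h3⟩ : ∃ K : Subgroup G, IsCoatom K ∧ ¬ Nil[K] := by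
        by_contra! c
        refine h2 ⟨h1, fun H hH => ?_⟩
        obtain ⟨M, hM, hl⟩ := exists_coatom_ge hH
        haveI := c M hM
        exact CfsgH1.isNilpotent_of_le hl
      have h4 : ¬ p ∣ o[K] := fun c => h3 (h K hK c)
      have key : ∀ V : Subgroup G, PG[p, V] → V ≠ ⊥ → (∀ (q : ℕ) [Fact q.Prime], ∃ Q, Syl q Q K ∧ (V ≤ N[Q] ∨ Q ≤ N[V])) → K ≤ C[V] :=
        fun V v1 v2 v3 => le_of_syl fun q _ hq => by
          obtain ⟨Q, hQ, n⟩ := v3 q
          have c := coprime_of_pgroup v1 h4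
          refine ⟨Q, hQ, nil_le_cent (h' (V ⊔ Q) (fun e => h3 ?_) ((dvd_card_of_pgroup v1 v2).trans (card_dvd_of_le le_sup_left)))
            le_sup_right le_sup_left (c.coprime_dvd_right (card_dvd_of_le hQ.le)).symm⟩
          have := sup_inf_of_norm' n hQ.le
          rw [e, top_inf_eq, inf_eq_bot_of_coprime' c, bot_sup_eq] at this
          exact this ▸ nil_of_pg hQ.pg
      have h5 : pCore p G ≠ ⊥ := fun e => by
        obtain ⟨P, hP⟩ := exists_syl (p := p) (⊤ : Subgroup G)
        have h0 := hP.ne_bot (card_top (G := G) ▸ hpG)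
        have n : NPC p (⊤ : Subgroup G) := hP.frobenius_local fun Q hQ q => .of_nilpotent ((top_inf_eq N[Q]).symm ▸ h' N[Q]
          (fun c => q (eq_bot_iff.2 (e ▸ @CfsgH2.le_pCore _ _ _ _ (normal_of_top_le_norm c.ge) (hP.pg.to_le hQ))))
          ((dvd_card_of_pgroup (hP.pg.to_le hQ) q).trans (card_dvd_of_le le_normalizer)))
        have e1 : O[{p}ᶜ, ⊤] = K := (hK.le_iff.1 (n.le le_top h4)).resolve_left fun c => not_dvd_piCoreOf (M := (⊤ : Subgroup G))
          (by rw [c, card_top]; exact hpG)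
        have n1 : P ≤ N[K] := e1 ▸ le_top.trans le_norm_piCoreOf
        have := key P hP.pg h0 fun q _ => (exists_inv_syl q n1 (coprime_of_pgroup hP.pg h4) (.inl (by
          haveI := nil_of_pg hP.pg; infer_instance))).imp fun Q hQ => ⟨hQ.1, .inl hQ.2⟩
        haveI := normal_of_top_le_norm ((n.sup_eq hP).ge.trans (sup_le (e1 ▸ le_norm_of_le_cent this) le_normalizer))
        exact h0 (eq_bot_iff.2 (e ▸ CfsgH2.le_pCore hP.pg))
      have h6 := key _ CfsgH2.isPGroup_pCore h5 fun q _ => (exists_syl (p := q) K).imp fun Q hQ => ⟨hQ, .inr le_normalizer_of_normal⟩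
      obtain ⟨Z, z1, z2, z3⟩ := exists_central_card_p (CfsgH2.isPGroup_pCore (p := p) (G := G)) le_normalizer
        (dvd_card_of_pgroup CfsgH2.isPGroup_pCore h5)
      have z4 : Z ⊓ K = ⊥ := inf_eq_bot_of_coprime' (z3 ▸ (hp.coprime_iff_not_dvd.2 h4))
      have z5 : Z ⊔ K = ⊤ := hK.2 _ (right_lt_sup.2 fun c => h4 (z3 ▸ card_dvd_of_le c))
      have z6 : K ≤ C[Z] := h6.trans (cent_anti z1)
      refine ⟨Z, K, normal_of_top_le_norm (z5 ▸ sup_le le_normalizer (le_norm_of_le_cent z6)), normal_of_top_le_norm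
        (z5 ▸ sup_le (le_norm_of_le_cent (le_centralizer_iff.1 z6)) le_normalizer), z4, z5, z3, ⟨h3, fun H hH => ?_⟩, h4⟩
      haveI := h' (Z ⊔ H.map K.subtype) (fun e => hH (map_injective K.subtype_injective ?_)) (z3 ▸ card_dvd_of_le le_sup_left)
      · haveI : Nil[H.map K.subtype] := CfsgH1.isNilpotent_of_le (le_sup_right (a := Z))
        exact nilpotent_of_mulEquiv (equivMapOfInjective H _ K.subtype_injective).symm
      have := sup_inf_of_norm' (.inr (le_norm_of_le_cent ((map_subtype_le H).trans z6))) (map_subtype_le H)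
      rw [e, top_inf_eq, z4, bot_sup_eq] at this
      rw [← this, ← MonoidHom.range_eq_map, range_subtype]
    rcases h with h | h | ⟨Z, K, _, _, h1, h2, h3, h4, h5⟩
    · infer_instance
    · exact h.2 M hM.1
    have hZ : Syl p Z ⊤ := ⟨le_top, .of_card (h3.trans (pow_one p).symm), by
      rw [← h2, sup_comm, relIndex_sup_of_norm le_normalizer_of_normal]; exact fun c => h5 (c.trans (relIndex_dvd_card _ _))⟩
    obtain ⟨P, hP⟩ := exists_syl (p := p) M
    have h6 : Z ≤ M := ((eq_of_le_of_card_ge (hZ.le_of_norm' hP.pg le_top le_normalizer_of_normal)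
      (h3 ▸ Nat.le_of_dvd (card_pos' _) (hP.dvd_card hd))).ge.trans hP.le)
    have h7 := sup_inf_of_norm (K := K) (.inl le_normalizer_of_normal) h6
    rw [h2, top_inf_eq] at h7
    haveI := h4.2 (M.subgroupOf K) fun c => hM.1 (top_le_iff.1 (h2 ▸ sup_le h6 (subgroupOf_eq_top.1 c)))
    rw [h7]
    refine nil_sup (nil_of_pg hZ.pg) ?_ (le_norm_inf le_normalizer_of_normal (le_norm_of_le h6)) le_normalizer_of_normal
    rw [inf_comm, ← subgroupOf_map_subtype]
    exact nilpotent_of_mulEquiv (equivMapOfInjective _ _ K.subtype_injective)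

end Cfsg.Agent.S4242
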