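import Cfsg.Statements.S4245
import Mathlib
import Cfsg.Agent.L0.Kaz2
import Cfsg.Agent.H1.SS
import Cfsg.Agent.H1.TT2
import Cfsg.Agent.H2.BG7

set_option autoImplicit false
open Cfsg

namespace Cfsg.Agent.S4245

open Cfsg Subgroup CfsgH2 CfsgL0
theorem aux {G : Type*} [Group G] [Finite G] {A B : Subgroup G} {p s : ℕ} (hp : p.Prime) (h2 : p ≠ 2)
    (hA : A.index ∣ p ^ s) (hB : Cyc[B]) (hn : A ≤ N[B]) {a : G} (e : zpowers a ⊔ B = A) (hR : R[G] = ⊥) :
    Group.IsSolvable G := by
  have h1 : ¬ 2 ∣ o[B] := fun hd => by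
    obtain ⟨z, hz⟩ := exists_prime_orderOf_dvd_card' 2 hd
    have hz' : orderOf (z : G) = 2 := by rw [orderOf_coe, hz]
    have h3 : A ≤ C1[(z : G)] := fun g hg => by
      have := (mem_normalizer_iff.1 (CfsgH1.le_normalizer_of_le_of_isCyclic (zpowers_le.2 z.2) hn hg) z).1 (mem_zpowers _)
      rcases CfsgH1.eq_or_of_mem_zpowers hz' this with h | h
      · exact mem_c1.2 (mul_inv_eq_iff_eq_mul.1 h)
      · exact absurd (orderOf_eq_one_iff.2 (by simpa using h : (z : G) = 1)) (by omega)
    have := mem_solR hp ((index_dvd_of_le h3).trans hA)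
    rw [hR, mem_bot, ← orderOf_eq_one_iff] at this
    omega
  obtain ⟨T, hT⟩ := exists_syl 2 (zpowers a)
  have := isCyclic_of_le hT.le
  refine sol_of_cyc_syl ((hT.trans le_sup_left fun d => h1 (d.trans (relIndex_sup_dvd_card (K := B)
    (.inl ((le_sup_left.trans e.le).trans hn))))).trans le_top fun d => ?_) this
  rw [e, relIndex_top_right] at d
  exact h2 ((Nat.prime_dvd_prime_iff_eq Nat.prime_two hp).1 (Nat.prime_two.dvd_of_dvd_pow (d.trans hA))).symm

/-- Let G be a finite group with a subgroup A of prime-power index. Suppose A has a normal cyclic subgroup B such that A/B is cyclic of order a power of 2. Then G is solvable. -/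
theorem result {G : Type*} [Group G] [Finite G] (A : Subgroup G) (p s : ℕ) (hp : p.Prime) (hA : A.index = p ^ s)
    (B : Subgroup A) [B.Normal] (hB : IsCyclic B) (hAB : IsCyclic (A ⧸ B)) (r : ℕ) (hr : Nat.card (A ⧸ B) = 2 ^ r) :
    Group.IsSolvable G := by
  have hB' : Cyc[B.map A.subtype] := isCyclic_of_surjective _ (B.equivMapOfInjective _ A.subtype_injective).surjective
  by_cases h2 : p = 2
  · subst h2
    refine sol_of_ab_index (k := r + s) Nat.prime_two (A := B.map A.subtype) hB'.isMulCommutative ?_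
    rw [index_map_subtype, hA, pow_add, ← hr]; rfl
  obtain ⟨a, ha⟩ := hAB.exists_generator
  obtain ⟨a, rfl⟩ := QuotientGroup.mk_surjective a
  have e : zpowers a ⊔ B = ⊤ := by
    rw [← QuotientGroup.ker_mk' B, ← comap_map_eq, MonoidHom.map_zpowers]
    exact (congrArg _ ((eq_top_iff' _).2 ha)).trans (comap_top _)
  let f := (QuotientGroup.mk' R[G]).comp A.subtype
  refine sol_of_quot_solR (aux (A := A.map (QuotientGroup.mk' _)) (B := B.map f) hp h2
    (hA ▸ index_map_dvd _ (QuotientGroup.mk'_surjective _)) (isCyclic_of_surjective _ (f.subgroupMap_surjective B)) ?_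
    (a := f a) ?_ solR_quot)
  · refine le_trans ?_ (le_normalizer_map f)
    rw [normalizer_eq_top B, ← MonoidHom.range_eq_map, ← MonoidHom.map_range, range_subtype]
  · rw [← MonoidHom.map_zpowers, ← Subgroup.map_sup, e, ← MonoidHom.range_eq_map, ← MonoidHom.map_range, range_subtype]

end Cfsg.Agent.S4245
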