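import Cfsg.Statements.S4249
import Mathlib
import Cfsg.Agent.L0.Hughes
import Cfsg.Agent.H1.Frob2

set_option autoImplicit false
open Cfsg

namespace Cfsg.Agent.S4249

open Cfsg Subgroup CfsgH2 CfsgL0
theorem aux {G : Type*} [Group G] [Finite G] {p : ℕ} [hp : Fact p.Prime] {K : Subgroup G} [K.Normal] (h0 : K ≠ ⊥)
    (h1 : K ≠ ⊤) (hd : ¬ p ∣ o[K]) (h : ∀ g ∈ (⊤ : Subgroup G), g ∉ K → g ^ p = 1) : K.index = p := by
  obtain ⟨H, hH⟩ := CfsgH1.exists_frob_of_cent h1.lt_top h0 le_normalizer_of_normal fun x hx e g hg => by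
    by_contra hgK
    exact e (mem_bot.1 (split_fpf h le_top hp.out le_rfl hd trivial hgK ▸ mem_inf.2 ⟨hx, mem_c1.2 (mem_c1.1 hg.2).symm⟩))
  have h2 : ∀ g ∈ H, g ^ p = 1 := fun g hg => by
    by_cases e : g ∈ K
    · rw [show g = 1 from mem_bot.1 (hH.disj ▸ mem_inf.2 ⟨e, hg⟩), one_pow]
    · exact h g trivial e
  obtain ⟨y, hy, h3⟩ := exists_ne_one hH.comp_ne
  have : H = zpowers y := le_antisymm (fun g hg => by
    by_cases e : g = 1
    · exact e ▸ one_mem _
    · exact hH.unique_prime le_rfl (isPGroup_of_exp h2) (zpowers_le.2 hg) (zpowers_le.2 hy)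
        (card_zpowers_eq hp.out (h2 g hg) e) (card_zpowers_eq hp.out (h2 y hy) h3) ▸ mem_zpowers g) (zpowers_le.2 hy)
  rw [← relIndex_top_right, hH.relIndex_ker, this, card_zpowers_eq hp.out (h2 y hy) h3]

/-- Let G be a finite group and p a prime such that G is not a p-group, and suppose the Hughes subgroup H_p(G), generated by all elements g with g^p ≠ 1, is a proper subgroup. Then H_p(G) is nilpotent and has index p in G. -/
theorem result {G : Type*} [Group G] [Finite G] (p : ℕ) (hp : p.Prime) (hG : ¬ IsPGroup p G)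
    (hH : Subgroup.closure {g : G | g ^ p ≠ 1} ≠ ⊤) :
    Group.IsNilpotent (Subgroup.closure {g : G | g ^ p ≠ 1}) ∧ (Subgroup.closure {g : G | g ^ p ≠ 1}).index = p := by
  haveI := Fact.mk hp
  set H := closure {g : G | g ^ p ≠ 1}
  have h1 : ∀ g ∈ (⊤ : Subgroup G), g ∉ H → g ^ p = 1 := fun g _ h => by
    by_contra e
    exact h (subset_closure e)
  haveI : H.Normal := ⟨fun x hx g => by
    refine closure_induction (fun y hy => subset_closure ?_) (by simp) (fun a b _ _ ha hb => ?_)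
      (fun a _ ha => ?_) hx
    · change _ ≠ 1
      rw [conj_pow]
      exact fun e => hy (by simpa using e)
    · rw [show g * (a * b) * g⁻¹ = g * a * g⁻¹ * (g * b * g⁻¹) by group]; exact mul_mem ha hb
    · rw [show g * a⁻¹ * g⁻¹ = (g * a * g⁻¹)⁻¹ by group]; exact inv_mem ha⟩
  have hN := kegel p _ G H ⊤ rfl hH.lt_top le_normalizer_of_normal h1
  refine ⟨hN, ?_⟩
  obtain ⟨P, hP⟩ := exists_syl p H
  haveI : P.Normal := normalizer_eq_top_iff.1 (top_le_iff.1 (le_normalizer_of_normal.trans (hP.norm_le_of_nil hN)))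
  have e : (H.map (QuotientGroup.mk' P)).comap (QuotientGroup.mk' P) = H :=
    comap_map_eq_self (by rw [QuotientGroup.ker_mk']; exact hP.le)
  haveI := Normal.map ‹H.Normal› _ (QuotientGroup.mk'_surjective P)
  rw [← e, index_comap_of_surjective _ (QuotientGroup.mk'_surjective P)]
  refine aux (fun h => hG fun g => ?_) (fun h => hH (by rw [← e, h, comap_top])) (card_map_mk P H ▸ hP.nd) fun x _ hx => ?_
  · rw [h, MonoidHom.comap_bot, QuotientGroup.ker_mk'] at e
    by_cases hg : g ∈ H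
    · exact pgroup_pow_eq_one hP.pg (e.ge hg)
    · exact ⟨1, by rw [pow_one, h1 g trivial hg]⟩
  · obtain ⟨g, rfl⟩ := QuotientGroup.mk'_surjective P x
    rw [← map_pow, h1 g trivial fun h => hx (mem_map_of_mem _ h), map_one]

end Cfsg.Agent.S4249
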