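import Cfsg.Statements.S4250
import Mathlib
import Cfsg.Agent.L0.M3

set_option autoImplicit false
open Cfsg

namespace Cfsg.Agent.S4250

open Cfsg Subgroup CfsgH2 CfsgL0
open scoped commutatorElement

/-- Let P be a Sylow p-subgroup of a finite group G. Call an intersection H = P ∩ Q with a Sylow p-subgroup Q tame when N_P(H) and N_Q(H) are Sylow p-subgroups of N_G(H). Then P ∩ G′ is generated by [P, N_G(P)] together with the commutator subgroups [P ∩ Q, ⟨x⟩] for all tame intersections P ∩ Q and all p-elements x of N_G(P ∩ Q). -/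
theorem result {G : Type*} [Group G] [Finite G] (p : ℕ) [Fact p.Prime] (P : Sylow p G) :
    (P : Subgroup G) ⊓ commutator G =
      ⁅(P : Subgroup G), Subgroup.normalizer ((P : Subgroup G) : Set G)⁆ ⊔
        ⨆ (Q : Sylow p G) (_ : (¬ p ∣ ((P : Subgroup G) ⊓ Subgroup.normalizer (((P : Subgroup G) ⊓ (Q : Subgroup G) : Subgroup G) : Set G)).relIndex (Subgroup.normalizer (((P : Subgroup G) ⊓ (Q : Subgroup G) : Subgroup G) : Set G)) ∧ ¬ p ∣ ((Q : Subgroup G) ⊓ Subgroup.normalizer (((P : Subgroup G) ⊓ (Q : Subgroup G) : Subgroup G) : Set G)).relIndex (Subgroup.normalizer (((P : Subgroup G) ⊓ (Q : Subgroup G) : Subgroup G) : Set G))))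
          (x : G) (_ : x ∈ Subgroup.normalizer (((P : Subgroup G) ⊓ (Q : Subgroup G) : Subgroup G) : Set G) ∧ ∃ k : ℕ, orderOf x = p ^ k),
          ⁅(P : Subgroup G) ⊓ (Q : Subgroup G), Subgroup.zpowers x⁆ := by
  rename_i hp
  have hP := syl_top P
  refine le_antisymm ?_ (sup_le (le_inf (comm_le_left le_rfl) (commutator_mono le_top le_top))
    (iSup_le fun Q => iSup_le fun _ => iSup_le fun x => iSup_le fun hx =>
      le_inf ((comm_le_left (zpowers_le.2 hx.1)).trans inf_le_left) (commutator_mono le_top le_top)))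
  generalize hK : (⁅(P : Subgroup G), N[(P : Subgroup G)]⁆ ⊔ _ : Subgroup G) = K
  rw [inf_comm]
  suffices key : ∀ (n : ℕ) (U : Subgroup G), U.index = n → ∀ g : G, U ≤ P → U.map (cj g⁻¹) ≤ P →
      ∀ u ∈ U, u * (g⁻¹ * u * g)⁻¹ ∈ K by
    refine hP.focal_le fun x hx u _ hu => ?_
    simpa using key _ (zpowers x) rfl u⁻¹ (zpowers_le.2 hx) (by
      rw [inv_inv, MonoidHom.map_zpowers]; exact zpowers_le.2 hu) x (mem_zpowers x)
  intro n
  induction n using Nat.strong_induction_on with | _ n ih => ?_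
  intro U hn g h1 h2
  have hc := alperin hP n U hn g h1 h2
  clear h1 h2
  induction hc with
  | nil U => simp
  | cons U Q x g hQ s1 s2 hx hU _ ih2 =>
    intro u hu
    have e : u * ((x * g)⁻¹ * u * (x * g))⁻¹ = u * (x⁻¹ * u * x)⁻¹ * (x⁻¹ * u * x * (g⁻¹ * (x⁻¹ * u * x) * g)⁻¹) := by group
    rw [e]
    refine mul_mem ?_ (ih2 (by rw [index_map_cj, hn]) _ (by simpa using conj_mem_map_cj (g := x⁻¹) hu))
    set H := (P : Subgroup G) ⊓ Q
    by_cases hH : H = P
    · rw [← hK]
      refine mem_sup_left ?_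
      have := commutator_mem_commutator (hH.le (hU hu)) (inv_mem (hH ▸ hx : x ∈ N[(P : Subgroup G)]))
      simpa [commutatorElement_def, mul_assoc] using this
    let T : Subgroup G :=
      { carrier := {y | y ∈ N[H] ∧ ∀ v ∈ H, v * (y⁻¹ * v * y)⁻¹ ∈ K}
        one_mem' := ⟨one_mem _, fun v _ => by simp⟩
        mul_mem' := fun {a b} ha hb => ⟨mul_mem ha.1 hb.1, fun v hv => by
          have := mul_mem (ha.2 v hv) (hb.2 _ (conj_mem_of_norm' ha.1 hv))
          convert this using 1; group⟩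
        inv_mem' := fun {a} ha => ⟨inv_mem ha.1, fun v hv => by
          have := inv_mem (ha.2 _ (conj_mem_of_norm ha.1 hv))
          convert this using 1; group⟩ }
    have hlt : H < (P : Subgroup G) ⊓ N[H] := lt_inf_norm (nil_of_pg hP.pg) (lt_of_le_of_ne inf_le_left hH)
    have hD : (P : Subgroup G) ⊓ N[H] ≤ piRes {p}ᶜ N[H] :=
      le_piRes inf_le_right (by rw [compl_compl]; exact isPGroup_iff_piN.1 s1.pg)
    have hfr := (s1.mono hD piRes_le).frattini_sup piRes_le le_norm_piRes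
    suffices N[H] ≤ T from (this hx).2 u (hU hu)
    rw [← hfr]
    refine sup_le (piRes_le_iff'.2 fun y hy ho => ⟨hy, fun v hv => ?_⟩) fun y hy => ⟨hy.1, fun v hv => ?_⟩
    · obtain ⟨Q, rfl⟩ := hQ.exists_top
      rw [compl_compl, piN_singleton hp.out (orderOf_pos y).ne'] at ho
      rw [← hK]
      refine mem_sup_right (mem_iSup_of_mem Q (mem_iSup_of_mem ⟨s1.nd, s2.nd⟩ (mem_iSup_of_mem y
        (mem_iSup_of_mem ⟨hy, ho⟩ ?_))))
      have := commutator_mem_commutator hv (inv_mem (mem_zpowers y))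
      simpa [commutatorElement_def, mul_assoc] using this
    · refine ih _ (hn ▸ index_lt_of_lt (lt_of_le_of_lt hU hlt)) _ rfl y inf_le_left ?_ v (hlt.le hv)
      rw [map_cj_eq (inv_mem hy.2)]; exact inf_le_left

end Cfsg.Agent.S4250
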