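import Cfsg.Statements.S4251
import Mathlib
import Cfsg.Agent.L0.M3

set_option autoImplicit false
open Cfsg

namespace Cfsg.Agent.S4251

open Cfsg Subgroup CfsgH2 CfsgL0

/-- Let P be a Sylow p-subgroup of a finite group G. Call an intersection H = P ∩ Q with a Sylow p-subgroup Q tame when N_P(H) and N_Q(H) are Sylow p-subgroups of N_G(H). If N_G(H)/C_G(H) is a p-group for every nontrivial tame intersection H = P ∩ Q, then G has a normal p-complement. -/
theorem result {G : Type*} [Group G] [Finite G] (p : ℕ) [Fact p.Prime] (P : Sylow p G)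
    (h : ∀ Q : Sylow p G, (P : Subgroup G) ⊓ (Q : Subgroup G) ≠ ⊥ → (¬ p ∣ ((P : Subgroup G) ⊓ Subgroup.normalizer (((P : Subgroup G) ⊓ (Q : Subgroup G) : Subgroup G) : Set G)).relIndex (Subgroup.normalizer (((P : Subgroup G) ⊓ (Q : Subgroup G) : Subgroup G) : Set G)) ∧ ¬ p ∣ ((Q : Subgroup G) ⊓ Subgroup.normalizer (((P : Subgroup G) ⊓ (Q : Subgroup G) : Subgroup G) : Set G)).relIndex (Subgroup.normalizer (((P : Subgroup G) ⊓ (Q : Subgroup G) : Subgroup G) : Set G))) →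
      IsPGroup p (Subgroup.normalizer (((P : Subgroup G) ⊓ (Q : Subgroup G) : Subgroup G) : Set G) ⧸
        (Subgroup.centralizer (((P : Subgroup G) ⊓ (Q : Subgroup G) : Subgroup G) : Set G)).subgroupOf
          (Subgroup.normalizer (((P : Subgroup G) ⊓ (Q : Subgroup G) : Subgroup G) : Set G)))) :
    Cfsg.HasNormalPComplement p G := by
  rename_i hp
  have hP := syl_top P
  rw [npc_top_iff]
  suffices key : ∀ (U : Subgroup G) (g : G), AlpChain P p U g → ∀ u ∈ U, ∃ v ∈ (P : Subgroup G), v⁻¹ * u * v = g⁻¹ * u * g by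
    refine hP.npc_of_fusion fun x hx u _ hu => ?_
    obtain ⟨v, hv, e⟩ := key _ u⁻¹ (alperin hP _ (zpowers x) rfl u⁻¹ (zpowers_le.2 hx) (by
      rw [inv_inv, MonoidHom.map_zpowers]; exact zpowers_le.2 hu)) x (mem_zpowers x)
    exact ⟨v⁻¹, inv_mem hv, by simpa using e⟩
  intro U g hc
  induction hc with
  | nil U => exact fun u _ => ⟨1, one_mem _, rfl⟩
  | cons U Q x g hQ s1 s2 hx hU _ ih2 =>
    intro u hu
    obtain ⟨v, hv, e⟩ := ih2 _ (by simpa using conj_mem_map_cj (g := x⁻¹) hu : x⁻¹ * u * x ∈ _)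
    suffices ∃ w ∈ (P : Subgroup G), w⁻¹ * u * w = x⁻¹ * u * x by
      obtain ⟨w, hw, e2⟩ := this
      refine ⟨w * v, mul_mem hw hv, ?_⟩
      calc _ = v⁻¹ * (w⁻¹ * u * w) * v := by group
        _ = _ := by rw [e2, e]; group
    obtain ⟨Q, rfl⟩ := hQ.exists_top
    by_cases h0 : (P : Subgroup G) ⊓ Q = ⊥
    · rw [mem_bot.1 (h0.le (hU hu))]; exact ⟨1, one_mem _, by simp⟩
    have h1 := s1.sup_eq_of_index (cent_le_norm _) (isPGroup_iff_piN.1 (h Q h0 ⟨s1.nd, s2.nd⟩))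
    obtain ⟨c, hc, w, hw, rfl⟩ := (mem_sup_of_norm' (inf_le_right.trans (norm_le_norm_cent _))).1 (h1.ge hx)
    refine ⟨w, hw.1, ?_⟩
    rw [mul_inv_rev, mul_assoc, mul_assoc, mul_assoc, ← mul_assoc u, hc u (hU hu)]; group

end Cfsg.Agent.S4251
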