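import Cfsg.Statements.S4252
import Cfsg.Agent.H1.Frob2

set_option autoImplicit false
open Cfsg

namespace Cfsg.Agent.S4252

/-- Let a finite group G act on a finite set Ω with more than one point, transitively but not regularly, so that no non-identity element of G fixes two distinct points. Then the stabilizer H of any point is a Frobenius complement in G (nontrivial, proper, meeting its other conjugates trivially), and the Frobenius kernel of G with respect to H (the identity together with the elements lying in no conjugate of H) is exactly the set consisting of the identity and the elements fixing no point. -/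
theorem result {G Ω : Type*} [Group G] [Finite G] [Fintype Ω] [MulAction G Ω] (hΩ : 1 < Fintype.card Ω)
    (htrans : ∀ α β : Ω, ∃ g : G, g • α = β) (hnreg : ∃ g : G, g ≠ 1 ∧ ∃ α : Ω, g • α = α)
    (hfix : ∀ g : G, g ≠ 1 → ∀ α β : Ω, g • α = α → g • β = β → α = β) (α : Ω) :
    Cfsg.IsFrobeniusComplement (MulAction.stabilizer G α) ∧
      Cfsg.frobeniusKernel (MulAction.stabilizer G α) = {g : G | g = 1 ∨ ∀ ω : Ω, g • ω ≠ ω} := by
  open Pointwise Subgroup CfsgH1 in
  open CfsgH2 hiding card_inf_mul_relIndex card_lt_of_lt card_lt_of_ne_top card_map_mul_card_inf_ker card_mul_relIndex card_subgroupOf card_sup_dvd card_sup_mul_card_inf exists_card_prime_le isNilpotent_map isNilpotent_of_le isPGroup_pCore isSolvable_map isSolvable_of_le le_pCore le_pPrimeCore relIndex_map_dvd in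
  open scoped CfsgH2 in
  open scoped commutatorElement in
  · have hm : ∀ g x : G, x ∈ MulAut.conj g • MulAction.stabilizer G α ↔ x • g • α = g • α := fun g x => by
      rw [mem_conj_smul, MulAction.mem_stabilizer_iff, mul_smul, mul_smul, inv_smul_eq_iff]
    refine ⟨⟨fun e => ?_, fun e => ?_, fun g hg => eq_bot_iff.2 fun x hx => ?_⟩, ?_⟩
    · obtain ⟨g, hg, β, hβ⟩ := hnreg
      obtain ⟨k, rfl⟩ := htrans α β
      have := (hm k g).2 hβ
      rw [e, conj_smul_eq_bot_iff.2 rfl, mem_bot] at this
      exact hg this
    · obtain ⟨β, hβ⟩ := Fintype.exists_ne_of_one_lt_card hΩ α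
      obtain ⟨k, rfl⟩ := htrans α β
      exact hβ (MulAction.mem_stabilizer_iff.1 (e ▸ mem_top k))
    · by_contra h1
      exact hg (hfix x h1 _ _ hx.1 ((hm g x).1 hx.2)).symm
    · ext x
      simp only [Cfsg.frobeniusKernel, Set.mem_setOf_eq, hm]
      refine or_congr_right ⟨fun h ω => ?_, fun h g => h _⟩
      obtain ⟨k, rfl⟩ := htrans α ω
      exact h k

end Cfsg.Agent.S4252
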