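import Cfsg.Statements.S4253
import Cfsg.Agent.H1.Frob2

set_option autoImplicit false
open Cfsg

namespace Cfsg.Agent.S4253

/-- Let H be a Frobenius complement in a finite group G (a nontrivial proper subgroup meeting each conjugate gHg⁻¹ with g outside H trivially). Then in the action of G on the left cosets of H by left multiplication, no non-identity element of G fixes two distinct cosets. -/
theorem result {G : Type*} [Group G] [Finite G] (H : Subgroup G) (hH : Cfsg.IsFrobeniusComplement H)
    (g : G) (hg : g ≠ 1) (a b : G ⧸ H) (ha : g • a = a) (hb : g • b = b) : a = b := by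
  open Pointwise Subgroup CfsgH1 in
  open CfsgH2 hiding card_inf_mul_relIndex card_lt_of_lt card_lt_of_ne_top card_map_mul_card_inf_ker card_mul_relIndex card_subgroupOf card_sup_dvd card_sup_mul_card_inf exists_card_prime_le isNilpotent_map isNilpotent_of_le isPGroup_pCore isSolvable_map isSolvable_of_le le_pCore le_pPrimeCore relIndex_map_dvd in
  open scoped CfsgH2 in
  open scoped commutatorElement in
  · obtain ⟨a, rfl⟩ := QuotientGroup.mk_surjective a
    obtain ⟨b, rfl⟩ := QuotientGroup.mk_surjective b
    rw [MulAction.Quotient.smul_mk, QuotientGroup.eq, smul_eq_mul] at ha hb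
    rw [QuotientGroup.eq]
    by_contra h
    have : a⁻¹ * g⁻¹ * a ∈ H ⊓ MulAut.conj (a⁻¹ * b) • H := ⟨by simpa [mul_assoc] using ha,
      mem_conj_smul.2 (by simpa [mul_assoc] using hb)⟩
    rw [hH.2.2 _ h, mem_bot] at this
    apply hg
    rw [← inv_eq_one]
    calc g⁻¹ = a * (a⁻¹ * g⁻¹ * a) * a⁻¹ := by group
      _ = 1 := by rw [this]; group

end Cfsg.Agent.S4253
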