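import Cfsg.Statements.S4261
import Mathlib
import Cfsg.Agent.L0.M3

set_option autoImplicit false
open Cfsg

namespace Cfsg.Agent.S4261

open Cfsg Subgroup CfsgH2 CfsgL0

/-- Let M be a maximal subgroup of a finite solvable group G such that x^[G : M] lies in M for every x in G. Then M is normal in G. -/
theorem result {G : Type*} [Group G] [Finite G] (hG : Group.IsSolvable G) (M : Subgroup G) (hM : IsCoatom M)
    (hexp : ∀ x : G, x ^ M.index ∈ M) : M.Normal := by
  obtain ⟨N, -, ⟨hN, hNM⟩, hmax⟩ := exists_maximal_ge (fun N : Subgroup G => N.Normal ∧ N ≤ M) (H := ⊥)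
    ⟨inferInstance, bot_le⟩
  have nN : (⊤ : Subgroup G) ≤ N[N] := top_le_norm_iff.2 hN
  obtain ⟨U, -, hU⟩ := exists_chf_above (M := ⊤) (lt_of_le_of_lt hNM hM.lt_top) le_rfl (le_norm_of_le le_rfl) nN
  obtain ⟨p, hp, hE, -⟩ := hU.exists_elem inferInstance
  have hUn := top_le_norm_iff.1 hU.nX
  have hUM : M ⊔ U = ⊤ := hM.2 _ (lt_of_le_of_ne le_sup_left fun e =>
    hU.lt.ne' (hmax U ⟨hUn, le_sup_right.trans e.ge⟩ hU.lt.le))
  have hi : PiN {p} M.index := by
    have h1 := isPGroup_iff_piN.1 (elem_pgroup hE)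
    rw [card_qt (le_top.trans nN)] at h1
    rw [← relIndex_top_right, ← hUM, sup_comm, CfsgH1.relIndex_sup_right_of_le_normalizer (le_top.trans hU.nX)]
    exact h1.of_dvd (relIndex_dvd_of_le_left _ hNM)
  have hD : piRes {p} ⊤ ≤ M := piRes_le_iff'.2 fun x _ hx =>
    zpowers_le.2 (hexp x) (mem_zpowers_pow_iff.2 (PiN.coprime hi hx))
  obtain ⟨P, hP⟩ := exists_syl p (⊤ : Subgroup G)
  have hlt : P ⊓ M < P := lt_of_le_of_ne inf_le_left fun e =>
    hM.1 (eq_top_iff.2 (hP.piRes_sup.ge.trans (sup_le hD (e.ge.trans inf_le_right))))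
  have h1 := lt_inf_norm (nil_of_pg hP.pg) hlt
  have e : piRes {p} ⊤ ⊔ P ⊓ M = M := by
    rw [← sup_inf_of_norm (Or.inr (le_top.trans le_norm_piRes)) hD, hP.piRes_sup, top_inf_eq]
  have h2 : P ⊓ N[P ⊓ M] ≤ N[M] := by
    conv_rhs => rw [← e]
    exact le_norm_sup (le_top.trans le_norm_piRes) inf_le_right
  refine top_le_norm_iff.1 (hM.2 _ (lt_of_le_of_ne le_normalizer fun e => h1.not_ge ?_)).ge
  exact le_inf inf_le_left (h2.trans e.ge)

end Cfsg.Agent.S4261
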