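import Cfsg.Statements.S4262
import Mathlib
import Cfsg.Agent.L0.G3
import Cfsg.Agent.L0.M4
import Cfsg.Agent.H4.PPart

set_option autoImplicit false
open Cfsg

namespace Cfsg.Agent.S4262

open Cfsg Subgroup CfsgH2 CfsgL0

/-- Let G be a finite group in which the centralizer of every non-central element is a maximal subgroup of G. Then G is solvable. -/
theorem result {G : Type*} [Group G] [Finite G]
    (h : ∀ g : G, g ∉ Subgroup.center G → IsCoatom (Subgroup.centralizer ({g} : Set G))) :
    Group.IsSolvable G := by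
  by_cases h2 : IsPGroup 2 (G ⧸ center G)
  · haveI := h2.isNilpotent
    haveI := of_quotient_center_nilpotent (G := G) inferInstance
    infer_instance
  obtain ⟨p, hp, hd, hp2⟩ : ∃ p : ℕ, p.Prime ∧ p ∣ (center G).relIndex ⊤ ∧ p ≠ 2 := by
    by_contra! h3
    exact h2 (isPGroup_iff_piN.2 fun p hp hd => h3 p hp (by rwa [relIndex_top_right]))
  haveI := Fact.mk hp
  obtain ⟨x, -, hx, hxc⟩ := exists_pelem_not_mem hp hd
  have key : ∀ a b : G, a ∉ center G → b ∉ center G → a * b = b * a →
      (orderOf a).Coprime (orderOf b) → C1[a] = C1[b] := fun a b ha hb hc ho => by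
    have e := c1_mul hc ho
    have h1 := h (a * b) fun h1 => ha (zpowers_le.2 h1 (mem_zpowers_mul hc ho))
    rw [e] at h1
    exact ((h1.le_iff.1 inf_le_left).resolve_left (h a ha).1).trans
      ((h1.le_iff.1 inf_le_right).resolve_left (h b hb).1).symm
  by_cases h3 : ∃ y ∈ C1[x], y ∉ center G ∧ PiN {p}ᶜ (orderOf y)
  · obtain ⟨y, hy, hyc, hy'⟩ := h3
    have e := key x y hxc hyc (mem_c1.1 hy).symm (hx.coprime hy')
    have hab : C1[x] ≤ C[C1[x]] := fun g hg => by
      obtain ⟨a, ha, b, hb, rfl, ha', hb'⟩ := exists_pi_parts {p} g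
      refine mul_mem (le_cent1_iff.1 ?_) (le_cent1_iff.1 ?_)
      · by_cases h4 : a ∈ center G
        · exact (c1_eq_top.2 h4).ge.trans' le_top
        · exact (e.trans (key a y h4 hyc (mem_c1.1 (e.le (zpowers_le.2 hg ha))) (ha'.coprime hy')).symm).le
      · by_cases h4 : b ∈ center G
        · exact (c1_eq_top.2 h4).ge.trans' le_top
        · exact (key x b hxc h4 (mem_c1.1 (zpowers_le.2 hg hb)).symm (hx.coprime hb')).le
    exact sol_of_max_nil _ G _ rfl (h x hxc) (isNilpotent_of_comm (isMulComm_of_le_cent hab))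
      (.inr (commutator_self_le.trans hab))
  have h4 : PG[p, C1[x].map (QuotientGroup.mk' (center G))] := isPGroup_iff_piN.2 (by
    rw [card_map_mk]
    intro q hq hd
    by_contra h5
    obtain ⟨y, hy, hy', hyc⟩ := exists_pelem_not_mem hq hd
    exact h3 ⟨y, hy, hyc, hy'.mono fun r hr => by rwa [Set.mem_singleton_iff.1 hr]⟩)
  have h5 := sol_of_max_nil _ (G ⧸ center G) _ rfl (CfsgH1.isCoatom_map_of_ker_le (QuotientGroup.mk'_surjective _)
    (h x hxc) (by rw [QuotientGroup.ker_mk']; exact center_le_c1)) (nil_of_pg h4)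
    (.inl (by obtain ⟨n, hn⟩ := exists_card_eq_pow h4; rw [hn]; exact (hp.odd_of_ne_two hp2).pow))
  haveI : Sol[center G] := isSolvable_of_comm inferInstance
  exact solvable_of_ker_le_range (center G).subtype (QuotientGroup.mk' (center G)) (by simp)

end Cfsg.Agent.S4262
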