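import Cfsg.Statements.S4263
import Cfsg.Agent.H3.Hv1
import Cfsg.Agent.H2.BG0

set_option autoImplicit false
open Cfsg

namespace Cfsg.Agent.S4263
open Subgroup CfsgH2

theorem pow_nil {G : Type*} [Group G] [Finite G] {F : Subgroup G} (hF : Group.IsNilpotent F) {x : G} (hx : x ∈ F) :
    ∀ n : ℕ, ∀ K : Subgroup G, K.index = n → K ≤ F → x ^ K.relIndex F ∈ K := by
  intro n
  induction n using Nat.strong_induction_on with
  | _ n ih =>
    intro K hn hK
    rcases hK.lt_or_eq with h | h
    · have h1 := lt_inf_norm hF h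
      have h2 := ih _ (hn ▸ index_lt_of_lt h1) (F ⊓ N[K]) rfl inf_le_left
      have h3 := pow_relIndex_mem' (H := K) (K := F ⊓ N[K]) inf_le_right h2
      rw [← pow_mul, mul_comm, relIndex_mul_relIndex K _ F h1.le inf_le_left] at h3
      exact h3
    · subst h
      exact pow_mem hx _

/-- Let G be a finite group. An element x lies in the Fitting subgroup F(G) if and only if, for every subgroup H of G, the power x^[G : H] lies in H. -/
theorem result {G : Type*} [Group G] [Finite G] (x : G) :
    x ∈ Cfsg.fittingSubgroup G ↔ ∀ H : Subgroup G, x ^ H.index ∈ H := by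
  constructor
  · intro hx H
    rw [← fit_top] at hx
    have hn : H ≤ N[F[(⊤ : Subgroup G)]] := le_top.trans le_norm_fit
    have h1 := pow_nil fit_nil hx _ (H ⊓ F[(⊤ : Subgroup G)]) rfl inf_le_right
    rw [inf_relIndex_right] at h1
    have h2 : H.relIndex F[(⊤ : Subgroup G)] = H.relIndex (H ⊔ F[(⊤ : Subgroup G)]) := by
      have e1 := card_sup_mul_card_inf hn
      have e2 := card_inf_mul_relIndex H F[(⊤ : Subgroup G)]
      have e3 := card_mul_relIndex (le_sup_left : H ≤ H ⊔ F[(⊤ : Subgroup G)])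
      have p1 := card_pos' H
      have p2 := card_pos' (H ⊓ F[(⊤ : Subgroup G)])
      rw [← e3, ← e2] at e1
      have : Nat.card H * Nat.card (H ⊓ F[(⊤ : Subgroup G)] : Subgroup G) * H.relIndex (H ⊔ F[(⊤ : Subgroup G)]) =
          Nat.card H * Nat.card (H ⊓ F[(⊤ : Subgroup G)] : Subgroup G) * H.relIndex F[(⊤ : Subgroup G)] := by
        linarith
      exact (Nat.eq_of_mul_eq_mul_left (Nat.mul_pos p1 p2) this).symm
    obtain ⟨c, hc⟩ := relIndex_dvd_index_of_le (le_sup_left : H ≤ H ⊔ F[(⊤ : Subgroup G)])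
    rw [hc, ← h2, pow_mul]
    exact pow_mem h1.1 c
  · intro h
    rw [← fit_top]
    by_contra hx
    have hm : F[(⊤ : Subgroup G)].relIndex (zpowers x) ≠ 1 := by
      intro e
      exact hx (relIndex_eq_one.1 e (mem_zpowers x))
    obtain ⟨p, hp, hpm⟩ := Nat.exists_prime_and_dvd hm
    haveI : Fact p.Prime := ⟨hp⟩
    obtain ⟨P⟩ : Nonempty (Sylow p G) := inferInstance
    have h1 : x ^ (P : Subgroup G).index ∈ (P : Subgroup G).normalCore := by
      intro b
      have := h ((P : Subgroup G).map (cj b⁻¹))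
      rw [index_map_cj, mem_map_cj, inv_inv] at this
      exact this
    have h2 : (P : Subgroup G).normalCore ≤ F[(⊤ : Subgroup G)] := by
      refine le_trans (le_pCoreOf le_top (top_le_norm_iff.2 inferInstance) ?_) (core_le_fit (p := p))
      exact P.isPGroup'.to_le (normalCore_le _)
    have h3 := relIndex_zpowers_dvd (H := F[(⊤ : Subgroup G)]) (le_norm_fit (mem_top x)) (h2 h1)
    exact P.not_dvd_index (hpm.trans h3)


end Cfsg.Agent.S4263
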