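import Cfsg.Statements.S4269
import Cfsg.Agent.H1.Pron

set_option autoImplicit false
open Cfsg

namespace Cfsg.Agent.S4269

/-- Let G be a finite group, V an abelian normal subgroup and H a subgroup with HV = G. Then H is pronormal in G (H and gHg⁻¹ are conjugate inside the subgroup they generate, for every g) if and only if every H-invariant subgroup U of V satisfies U = N_U(H)·[H, U], that is, U is the join of U ∩ N_G(H) and the commutator subgroup [H, U]. -/
theorem result {G : Type*} [Group G] [Finite G]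
    (V : Subgroup G) [V.Normal] (hV : IsMulCommutative ↥V) (H : Subgroup G) (hHV : H ⊔ V = ⊤) :
    Cfsg.IsPronormal H ↔
      ∀ U : Subgroup G, U ≤ V → (∀ h ∈ H, U.map (MulAut.conj h).toMonoidHom = U) →
        U = (U ⊓ Subgroup.normalizer (H : Set G)) ⊔ ⁅H, U⁆ := by
  open Pointwise Subgroup CfsgH1 in
  open CfsgH2 hiding card_inf_mul_relIndex card_lt_of_lt card_lt_of_ne_top card_map_mul_card_inf_ker card_mul_relIndex card_subgroupOf card_sup_dvd card_sup_mul_card_inf exists_card_prime_le isNilpotent_map isNilpotent_of_le isPGroup_pCore isSolvable_map isSolvable_of_le le_pCore le_pPrimeCore relIndex_map_dvd in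
  open scoped CfsgH2 in
  open scoped commutatorElement in
  · refine ⟨fun h U hU hn => ?_, fun h g => ?_⟩
    · have hn' : H ≤ N[U] := fun x hx => map_cj_eq_iff.1 (hn x hx)
      refine le_antisymm (fun u hu => ?_) (sup_le inf_le_left (comm_le_right hn'))
      obtain ⟨x, hx, n, hn2, e⟩ := PronAt.exists_norm (K := nc U H) (h u) le_nc (cj_le_nc hu)
      rw [nc_eq_sup_commutator] at hx
      obtain ⟨w, hw, y, hy, rfl⟩ := (mem_sup_of_norm' le_norm_comm_left).1 (by rwa [sup_comm] at hx)
      rw [e, mul_assoc]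
      refine mul_mem (mem_sup_right hw) (mem_sup_left ⟨?_, mul_mem (le_normalizer hy) hn2⟩)
      rw [show y * n = w⁻¹ * u by rw [e]; group]
      exact U.mul_mem (U.inv_mem (comm_le_right hn' hw)) hu
    · obtain ⟨v, hv, y, hy, rfl⟩ := mem_sup_normal_left.1 ((sup_comm H V ▸ hHV).ge (mem_top g))
      refine PronAt.mul_norm ?_ (le_normalizer hy)
      have hU : nc H (zpowers v) ≤ V := nc_le (zpowers_le.2 hv) le_normalizer_of_normal
      have e := h _ hU fun x hx => map_cj_eq (le_norm_nc hx)
      have hc : ⁅H, nc H (zpowers v)⁆ ≤ H ⊔ H.map (cj v) := by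
        let T : Subgroup G := {
          carrier := {u | u ∈ V ∧ ∀ x ∈ H, ⁅x, u⁆ ∈ H ⊔ H.map (cj v)}
          one_mem' := ⟨one_mem _, fun x _ => by simp⟩
          mul_mem' := fun {a b} ha hb => ⟨mul_mem ha.1 hb.1, fun x hx => by
            have : ⁅x, b⁆ ∈ V := comm_le_right le_normalizer_of_normal (commutator_mem_commutator hx hb.1)
            rw [show ⁅x, a * b⁆ = ⁅x, a⁆ * (a * ⁅x, b⁆ * a⁻¹) by group, ← comm_of_isMulComm hV this ha.1, mul_inv_cancel_right]
            exact mul_mem (ha.2 x hx) (hb.2 x hx)⟩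
          inv_mem' := fun {a} ha => ⟨inv_mem ha.1, fun x hx => by
            have : ⁅x, a⁆⁻¹ ∈ V := inv_mem
              (comm_le_right le_normalizer_of_normal (commutator_mem_commutator hx ha.1))
            rw [show ⁅x, a⁻¹⁆ = a⁻¹ * (⁅x, a⁆⁻¹ * a) by group, comm_of_isMulComm hV this ha.1,
              inv_mul_cancel_left]
            exact inv_mem (ha.2 x hx)⟩ }
        have : nc H (zpowers v) ≤ T := nc_le (zpowers_le.2 ⟨hv, fun x hx => by
            rw [show ⁅x, v⁆ = x * (v * x⁻¹ * v⁻¹) by group]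
            exact mul_mem_sup hx (conj_mem_map_cj (inv_mem hx))⟩)
          (le_norm_of_forall_cj fun k hk => map_cj_le_iff'.2 fun u hu =>
            ⟨‹V.Normal›.conj_mem _ hu.1 _, fun x hx => by
              rw [show ⁅x, k * u * k⁻¹⁆ = k * ⁅k⁻¹ * x * k, u⁆ * k⁻¹ by group]
              exact mul_mem (mul_mem (mem_sup_left hk) (hu.2 _ (mul_mem (mul_mem (inv_mem hk) hx) hk)))
                (mem_sup_left (inv_mem hk))⟩)
        exact commutator_le.2 fun x hx u hu => (this hu).2 x hx
      have hv' : v ∈ nc H (zpowers v) := le_nc (mem_zpowers v)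
      rw [e, sup_comm] at hv'
      obtain ⟨w, hw, n, hn, e2⟩ := (mem_sup_of_norm' (inf_le_left.trans le_norm_comm_right)).1 hv'
      exact .of_mul (hc hw) (.of_norm (by rw [← e2, inv_mul_cancel_left]; exact hn.2))

end Cfsg.Agent.S4269
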