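import Cfsg.Statements.S4270
import Cfsg.Agent.H1.Pron

set_option autoImplicit false
open Cfsg

namespace Cfsg.Agent.S4270

/-- Let p be a prime and G a finite group with a normal subgroup A such that, both in A and in G/A, every subgroup containing a Sylow p-subgroup of that group is pronormal in that group. Let T be a Sylow p-subgroup of A. Then every subgroup of G containing a Sylow p-subgroup of G is pronormal in G if and only if (i) every subgroup of N_G(T)/T containing a Sylow p-subgroup of N_G(T)/T is pronormal there, and (ii) for every subgroup H of G containing a Sylow p-subgroup of G, the image of N_G(H) in G/A is the full normalizer of the image of H. (Pronormal: H and gHg⁻¹ are conjugate inside the subgroup they generate, for every g.) -/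
theorem result {G : Type*} [Group G] [Finite G] {p : ℕ} [Fact p.Prime]
    (A : Subgroup G) [A.Normal] (hA : (∀ K : Subgroup ↥A, (∃ P : Sylow p ↥A, (P : Subgroup ↥A) ≤ K) → Cfsg.IsPronormal K)) (hQ : (∀ K : Subgroup (G ⧸ A), (∃ P : Sylow p (G ⧸ A), (P : Subgroup (G ⧸ A)) ≤ K) → Cfsg.IsPronormal K))
    (T : Subgroup G) (hT : ∃ P : Sylow p ↥A, (P : Subgroup ↥A).map A.subtype = T) [(T.subgroupOf (Subgroup.normalizer (T : Set G))).Normal] :
    (∀ K : Subgroup G, (∃ P : Sylow p G, (P : Subgroup G) ≤ K) → Cfsg.IsPronormal K) ↔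
      ((∀ K : Subgroup (↥(Subgroup.normalizer (T : Set G)) ⧸ T.subgroupOf (Subgroup.normalizer (T : Set G))), (∃ P : Sylow p (↥(Subgroup.normalizer (T : Set G)) ⧸ T.subgroupOf (Subgroup.normalizer (T : Set G))), (P : Subgroup (↥(Subgroup.normalizer (T : Set G)) ⧸ T.subgroupOf (Subgroup.normalizer (T : Set G)))) ≤ K) → Cfsg.IsPronormal K) ∧
        ∀ K : Subgroup G, (∃ P : Sylow p G, (P : Subgroup G) ≤ K) →
          (Subgroup.normalizer (K : Set G)).map (QuotientGroup.mk' A) = Subgroup.normalizer ((K.map (QuotientGroup.mk' A) : Subgroup (G ⧸ A)) : Set (G ⧸ A))) := by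
  open Pointwise Subgroup CfsgH1 in
  open CfsgH2 hiding card_inf_mul_relIndex card_lt_of_lt card_lt_of_ne_top card_map_mul_card_inf_ker card_mul_relIndex card_subgroupOf card_sup_dvd card_sup_mul_card_inf exists_card_prime_le isNilpotent_map isNilpotent_of_le isPGroup_pCore isSolvable_map isSolvable_of_le le_pCore le_pPrimeCore relIndex_map_dvd in
  open scoped CfsgH2 in
  open scoped commutatorElement in
  · obtain ⟨P, rfl⟩ := hT
    have hT := syl_sub P
    rw [← sylPron_top_iff, ← sylPron_top_iff]
    refine ⟨fun h => ⟨(sylPron_qt_iff hT.pg).2 (h.mono le_top (not_dvd_index_norm hT)), ?_⟩,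
      fun h => sylPron_of_ext (sylPron_sub_iff.2 hA) hT ((sylPron_qt_iff hT.pg).1 h.1)
        (sylPron_top_iff.2 hQ) fun K S h1 h2 => ?_⟩
    · rintro K ⟨S, hS⟩
      refine le_antisymm (map_le_norm_map _ le_rfl) fun y hy => ?_
      obtain ⟨g, rfl⟩ := QuotientGroup.mk'_surjective A y
      obtain ⟨x, hx, n, hn, rfl⟩ := PronAt.exists_norm (K := A ⊔ K) (h K S (syl_top S) hS le_top g (mem_top g))
        le_sup_right (by
          rw [sup_comm, ← map_mk_le_map_mk, map_map_cj, map_cj_eq hy])
      obtain ⟨a, ha, k, hk, rfl⟩ := mem_sup_normal_left.1 hx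
      refine ⟨k * n, mul_mem (le_normalizer hk) hn, ?_⟩
      rw [mul_assoc, map_mul _ a, QuotientGroup.mk'_apply _ a, (QuotientGroup.eq_one_iff a).2 ha, one_mul]
    · obtain ⟨S, rfl⟩ := h1.exists_top
      exact (h.2 K ⟨S, h2⟩).ge

end Cfsg.Agent.S4270
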