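import Cfsg.Statements.S4271
import Cfsg.Agent.H1.Pron

set_option autoImplicit false
open Cfsg

namespace Cfsg.Agent.S4271

/-- Let p be a prime and G a finite group with a normal subgroup A such that every subgroup of A containing a Sylow p-subgroup of A is pronormal in A, and the Sylow p-subgroups of G/A are self-normalizing. Let T be a Sylow p-subgroup of A. Then every subgroup of G containing a Sylow p-subgroup of G is pronormal in G if and only if every subgroup of N_G(T)/T containing a Sylow p-subgroup of N_G(T)/T is pronormal in N_G(T)/T. (Pronormal: H and gHg⁻¹ are conjugate inside the subgroup they generate, for every g.) -/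
theorem result {G : Type*} [Group G] [Finite G] {p : ℕ} [Fact p.Prime]
    (A : Subgroup G) [A.Normal] (hA : (∀ K : Subgroup ↥A, (∃ P : Sylow p ↥A, (P : Subgroup ↥A) ≤ K) → Cfsg.IsPronormal K))
    (hQ : ∀ P : Sylow p (G ⧸ A), Subgroup.normalizer ((P : Subgroup (G ⧸ A)) : Set (G ⧸ A)) = P)
    (T : Subgroup G) (hT : ∃ P : Sylow p ↥A, (P : Subgroup ↥A).map A.subtype = T) [(T.subgroupOf (Subgroup.normalizer (T : Set G))).Normal] :
    (∀ K : Subgroup G, (∃ P : Sylow p G, (P : Subgroup G) ≤ K) → Cfsg.IsPronormal K) ↔ (∀ K : Subgroup (↥(Subgroup.normalizer (T : Set G)) ⧸ T.subgroupOf (Subgroup.normalizer (T : Set G))), (∃ P : Sylow p (↥(Subgroup.normalizer (T : Set G)) ⧸ T.subgroupOf (Subgroup.normalizer (T : Set G))), (P : Subgroup (↥(Subgroup.normalizer (T : Set G)) ⧸ T.subgroupOf (Subgroup.normalizer (T : Set G)))) ≤ K) → Cfsg.IsPronormal K) := by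
  open Pointwise Subgroup CfsgH1 in
  open CfsgH2 hiding card_inf_mul_relIndex card_lt_of_lt card_lt_of_ne_top card_map_mul_card_inf_ker card_mul_relIndex card_subgroupOf card_sup_dvd card_sup_mul_card_inf exists_card_prime_le isNilpotent_map isNilpotent_of_le isPGroup_pCore isSolvable_map isSolvable_of_le le_pCore le_pPrimeCore relIndex_map_dvd in
  open scoped CfsgH2 in
  open scoped commutatorElement in
  · obtain ⟨P, rfl⟩ := hT
    have hT := syl_sub P
    rw [← sylPron_top_iff, ← sylPron_top_iff]
    refine ⟨fun h => (sylPron_qt_iff hT.pg).2 (h.mono le_top (not_dvd_index_norm hT)),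
      fun h => sylPron_of_ext (sylPron_sub_iff.2 hA) hT ((sylPron_qt_iff hT.pg).1 h)
        (fun K S h1 h2 _ => ?_) fun K S h1 h2 => ?_⟩
    · obtain ⟨S, rfl⟩ := h1.exists_top
      exact pron_of_norm_le (syl_top S) h2 le_top (inf_le_right.trans ((hQ S).le.trans h2))
    · have h3 := h1.map (QuotientGroup.mk' A)
      rw [map_mk_top] at h3
      obtain ⟨S', e⟩ := h3.exists_top
      intro g hg
      obtain ⟨k, hk, n, hn, rfl⟩ := (h3.mono (map_mono h2) le_top).frattini hg
      rw [← e, hQ, e] at hn
      exact map_mono le_normalizer (mul_mem hk (map_mono h2 hn))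

end Cfsg.Agent.S4271
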