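import Cfsg.Statements.S4314
import Cfsg.Agent.H1.BHM
import Cfsg.Agent.S4138
import Cfsg.Agent.S4134

set_option autoImplicit false
open Cfsg

namespace Cfsg.Agent.S4314

/-- Let `G` be a finite group every conjugacy class of which has size 1 or a prime. Then either `G` is nilpotent of class at most 2, or `G/Z(G)` is a non-abelian group of order `pq` for distinct primes `p, q` (a Frobenius group of order `pq`). -/
theorem result {G : Type*} [Group G] [Finite G]
    (h : ∀ x : G, (Subgroup.centralizer ({x} : Set G)).index = 1 ∨ ((Subgroup.centralizer ({x} : Set G)).index).Prime) :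
    Subgroup.upperCentralSeries G 2 = ⊤ ∨
      ∃ p q : ℕ, p.Prime ∧ q.Prime ∧ p ≠ q ∧ Nat.card (G ⧸ Subgroup.center G) = p * q ∧ ¬ IsMulCommutative (G ⧸ Subgroup.center G) := by
  open Subgroup CfsgH2 in
  open CfsgH1 hiding card_inf_mul_relIndex card_lt_of_lt card_lt_of_ne_top card_map_mul_card_inf_ker card_mul_relIndex card_subgroupOf card_sup_dvd card_sup_mul_card_inf coprime_le_sup_cent exists_card_prime_le isNilpotent_map isNilpotent_of_le isPGroup_pCore isSolvable_map isSolvable_of_le le_pCore le_pPrimeCore relIndex_map_dvd in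
  open scoped CfsgH1 in
  open CfsgL0 hiding cj cj_injective conj_mem_of_mem_normalizer conj_mem_of_mem_normalizer' isPGroup_of_forall isPGroup_zpowers isPGroup_zpowers_of_orderOf mem_normalizer_of_conj_mem in
  open scoped CfsgL0 in
  open scoped commutatorElement in
  · classical
    by_cases c : ∃ x y : G, 1 < cs[x] ∧ cs[x] < cs[y]
    · right
      obtain ⟨y, hy⟩ := exists_max_cs G
      obtain ⟨x0, y0, h1, h2⟩ := c
      obtain ⟨x, hx, hx'⟩ := Set.exists_max_image {z : G | cs[z] < cs[y]} (fun z => cs[z]) (Set.toFinite _) ⟨x0, h2.trans_le (hy _)⟩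
      have k1 : 1 < cs[x] := h1.trans_le (hx' x0 (h2.trans_le (hy _)))
      have p1 := (h x).resolve_left k1.ne'
      have p2 := (h y).resolve_left (k1.trans hx).ne'
      obtain ⟨-, -, fr⟩ := S4138.main k1 ((Nat.coprime_primes p2 p1).2 (ne_of_gt hx)) hy hx' rfl
      have e : ∀ w : G, (C1[w].map (QuotientGroup.mk' (center G))).relIndex ⊤ = cs[w] := fun w => by
        rw [relIndex_top_right, index_map_eq _ (QuotientGroup.mk'_surjective _) ((QuotientGroup.ker_mk' _).le.trans center_le_c1)]
      refine ⟨_, _, p2, p1, ne_of_gt hx, by rw [← card_top, fr.card, ← fr.relIndex_ker, ← fr.relIndex_comp, e, e], fun ab => ?_⟩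
      obtain ⟨⟨a, ha⟩, a1⟩ := ne_bot_iff_exists_ne_one.1 fr.comp_ne
      exact fr.ker_ne (eq_bot_iff.2 (le_trans (le_inf le_rfl fun g _ => mem_c1.2 (ab.1.1 g a)) (fr.fpf a ha fun d => a1 (Subtype.ext d)).le))
    · left
      have nil : Nil[(⊤ : Subgroup G)] := by
        have key : ∀ (q : ℕ) [Fact q.Prime], (∀ g : G, ¬ q ∣ cs[g]) → ∀ H : Subgroup G, ∃ Q, Syl q Q ⊤ ∧ Q ≤ N[H] := fun q _ d H => by
          obtain ⟨Q, hQ⟩ := exists_syl q (⊤ : Subgroup G)
          exact ⟨Q, hQ, (S4134.syl_central hQ d).trans (center_le_normalizer _)⟩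
        refine nil_of_syl fun p hp _ => ?_
        obtain ⟨P, hP⟩ := exists_syl p (⊤ : Subgroup G)
        refine ⟨P, hP, ?_⟩
        by_cases d : ∀ g : G, ¬ p ∣ cs[g]
        · exact le_norm_of_le_cent (le_centralizer_iff.1 ((S4134.syl_central hP d).trans (center_le_cent _)))
        refine le_of_syl fun q hq _ => ?_
        by_cases e : q = p
        · subst e; exact ⟨P, hP, le_normalizer⟩
        refine key q (fun g hg => d fun k hk => ?_) P
        have f : ∀ (r : ℕ) (g : G), r.Prime → r ∣ cs[g] → cs[g] = r := fun r g hr hg =>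
          ((Nat.prime_dvd_prime_iff_eq hr ((h g).resolve_left fun t => hr.not_dvd_one (t ▸ hg))).1 hg).symm
        rcases lt_or_gt_of_ne e with l | l
        · exact c ⟨g, k, (f q g hq.out hg).symm ▸ hq.out.one_lt, by rwa [f q g hq.out hg, f p k hp.out hk]⟩
        · exact c ⟨k, g, (f p k hp.out hk).symm ▸ hp.out.one_lt, by rwa [f q g hq.out hg, f p k hp.out hk]⟩
      haveI : Group.IsNilpotent G := Group.nilpotent_of_mulEquiv (topEquiv (G := G))
      have : ∀ x : G, commutator G ≤ C1[x] := fun x => by
        rcases h x with e | e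
        · exact le_top.trans (index_eq_one.1 e).ge
        haveI := NormalizerCondition.normal_of_coatom _ normalizerCondition_of_isNilpotent (isCoatom_of_index_prime e)
        haveI := Fact.mk e
        haveI := isCyclic_of_prime_card (α := G ⧸ C1[x]) (p := cs[x]) rfl
        exact Normal.quotient_commutative_iff_commutator_le.1 inferInstance
      refine eq_top_iff.2 fun g _ => Subgroup.mem_upperCentralSeries_succ_iff.2 fun y => ?_
      rw [Subgroup.upperCentralSeries_one]
      exact mem_center_iff.2 fun w => (mem_c1.1 (this w (commutator_mem_commutator (mem_top g) (mem_top y)))).symm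

end Cfsg.Agent.S4314
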