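import Cfsg.Statements.S4331
import Cfsg.Agent.H9.Fitting
import Cfsg.Agent.H3.Burnside

set_option autoImplicit false
open Cfsg

namespace Cfsg.Agent.S4331

section
open Subgroup CfsgH9
open scoped commutatorElement

/-- The semilinear affine maps `x ↦ a x^e + b` of the field with nine elements. -/
abbrev T := {p : ZMod 3 × ZMod 3 × ZMod 3 × ZMod 3 × ZMod 3 // (p.1 ≠ 0 ∨ p.2.1 ≠ 0) ∧ p.2.2.2.2 ≠ 0}

theorem cl1 : ∀ a b e c d f : ZMod 3, (a ≠ 0 ∨ b ≠ 0) ∧ e ≠ 0 → (c ≠ 0 ∨ d ≠ 0) ∧ f ≠ 0 →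
    (a * c - b * e * d ≠ 0 ∨ a * e * d + b * c ≠ 0) ∧ e * f ≠ 0 := by decide +kernel

theorem cl2 : ∀ a b e : ZMod 3, (a ≠ 0 ∨ b ≠ 0) ∧ e ≠ 0 → ((a * a + b * b) * a ≠ 0 ∨ -((a * a + b * b) * e * b) ≠ 0) ∧ e ≠ 0 := by
  decide +kernel

/-- The product on coordinates. -/
def m {R : Type} [CommRing R] : R × R × R × R × R → R × R × R × R × R → R × R × R × R × R := fun (a, b, x, y, e) (c, d, z, w, f) =>
  (a * c - b * e * d, a * e * d + b * c, a * z - b * e * w + x, a * e * w + b * z + y, e * f)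

theorem m_assoc {R : Type} [CommRing R] (p q r : R × R × R × R × R) (h : p.2.2.2.2 * p.2.2.2.2 = 1) : m (m p q) r = m p (m q r) := by
  obtain ⟨a, b, x, y, e⟩ := p
  obtain ⟨c, d, z, w, f⟩ := q
  obtain ⟨g, i, u, v, j⟩ := r
  simp only [m, Prod.mk.injEq] at h ⊢
  grind

instance : Mul T := ⟨fun p q => ⟨m p.1 q.1, cl1 _ _ _ _ _ _ p.2 q.2⟩⟩

instance : One T := ⟨⟨(1, 0, 0, 0, 1), by decide⟩⟩

instance : Inv T := ⟨fun ⟨(a, b, x, y, e), h⟩ => ⟨((a * a + b * b) * a, -((a * a + b * b) * e * b), -((a * a + b * b) * (a * x + b * y)),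
  -((a * a + b * b) * e * (a * y - b * x)), e), cl2 _ _ _ h⟩⟩

instance : Group T := .ofLeftAxioms (fun p q r => Subtype.ext (m_assoc _ _ _ ((by decide : ∀ e : ZMod 3, e ≠ 0 → e * e = 1) _ p.2.2)))
  (by decide +kernel) (by decide +kernel)

/-- The linear maps. -/
def S : Subgroup T where
  carrier := {p | p.1.2.2.1 = 0 ∧ p.1.2.2.2.1 = 0}
  one_mem' := by decide
  mul_mem' := by decide +kernel
  inv_mem' := by decide +kernel

/-- The field automorphism. -/
def t : T := ⟨(1, 0, 0, 0, -1), by decide⟩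

set_option synthInstance.maxSize 2000 in
theorem key : ∀ g : T, ∃ c : T, ((c * g * c⁻¹).1.2.2.1 = 0 ∧ (c * g * c⁻¹).1.2.2.2.1 = 0) ∨ c * g * c⁻¹ * t = t * (c * g * c⁻¹) := by
  decide +kernel

theorem pS : IsPGroup 2 S := fun g => ⟨3, Subtype.ext ((by decide +kernel : ∀ g : T, g.1.2.2.1 = 0 ∧ g.1.2.2.2.1 = 0 → g ^ 8 = 1) _ g.2)⟩

end

/-- There is a finite solvable group G with a subgroup A of order 2 such that every conjugacy class of G contains an element g for which A is subnormal in the subgroup generated by A and g, and yet A is not contained in O_2(G). (So the corresponding criteria for odd primes fail at the prime 2, even for solvable groups.) -/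
theorem result :
    ∃ (G : Type) (_ : Group G) (_ : Finite G) (A : Subgroup G), Group.IsSolvable G ∧ Nat.card A = 2 ∧
      (∀ c : G, ∃ g : G, IsConj c g ∧ (A.subgroupOf (A ⊔ Subgroup.zpowers g)).IsSubnormal) ∧
      ¬ A ≤ Cfsg.pCore 2 G := by
  open Subgroup CfsgH9 in
  open scoped commutatorElement in
  · have : Fact (Nat.Prime 2) := Nat.fact_prime_two
    refine ⟨T, inferInstance, inferInstance, zpowers t, CfsgH3.burnside_paqb 2 3 4 2 (by decide) (by decide)
      (by rw [Nat.card_eq_fintype_card]; decide +kernel), (Nat.card_zpowers t).trans (orderOf_eq_prime (by decide) (by decide)),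
      fun g => ?_, fun h => ?_⟩
    · obtain ⟨c, h | h⟩ := key g <;> refine ⟨_, isConj_iff.2 ⟨c, rfl⟩, (sn_iff_subgroupOf le_sup_left).1 ?_⟩
      · exact sn_of_nilpotent (pS.to_le (sup_le (zpowers_le.2 ⟨rfl, rfl⟩) (zpowers_le.2 h))).isNilpotent le_sup_left
      · exact .of_normal le_sup_left (sup_le le_normalizer (zpowers_le.2 (centralizer_le_normalizer _ (by
          rintro _ ⟨k, rfl⟩; exact (Commute.zpow_right h k).symm))))
    let v : T := ⟨(1, 0, 0, 1, 1), by decide⟩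
    obtain ⟨k, hk⟩ := pCore_isPGroup 2 ⟨_, mul_mem (h (mem_zpowers t)) ((inferInstance : (pCore 2 T).Normal).conj_mem _ (h (mem_zpowers t)) v)⟩
    have h3 : orderOf (t * (v * t * v⁻¹)) = 3 := haveI : Fact (Nat.Prime 3) := ⟨by decide⟩; orderOf_eq_prime (by decide) (by decide)
    exact absurd (Nat.prime_three.dvd_of_dvd_pow (h3 ▸ orderOf_dvd_of_pow_eq_one (congrArg Subtype.val hk))) (by decide)

end Cfsg.Agent.S4331
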