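import Cfsg.Statements.S4332
import Cfsg.Agent.H1.Sn1

set_option autoImplicit false
open Pointwise
open Cfsg

namespace Cfsg.Agent.S4332

section
open CfsgH1 CfsgH1.Sn Equiv Equiv.Perm MulAction
open scoped commutatorElement

theorem out {S : Finset (Fin 8)} {l : List (Fin 8)} (h : l.length < S.card) : ∃ z ∈ S, z ∉ l := by
  obtain ⟨z, h1, h2⟩ := Finset.exists_mem_notMem_of_card_lt_card ((List.toFinset_card_le l).trans_lt h)
  exact ⟨z, h1, by simpa using h2⟩

theorem ex (c : Perm (Fin 8)) : ∃ T : Finset (Fin 8), T.card = 3 ∧ ((∀ x ∈ T, c x ∈ T) ∨ ∀ x ∈ T, c x ∉ T) := by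
  have hi := c.injective
  have mk : ∀ x y z : Fin 8, x ≠ y → x ≠ z → y ≠ z → ((∀ a ∈ [x, y, z], c a ∈ [x, y, z]) ∨ ∀ a ∈ [x, y, z], c a ∉ [x, y, z]) →
      ∃ T : Finset (Fin 8), T.card = 3 ∧ ((∀ x ∈ T, c x ∈ T) ∨ ∀ x ∈ T, c x ∉ T) := fun x y z h1 h2 h3 h =>
    ⟨{x, y, z}, Finset.card_eq_three.2 ⟨_, _, _, h1, h2, h3, rfl⟩, by simpa using h⟩
  by_cases h : c.support.card ≤ 5
  · obtain ⟨T, h1, h2⟩ := Finset.exists_subset_card_eq (s := c.supportᶜ) (n := 3) (by simp [Finset.card_compl]; omega)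
    exact ⟨T, h2, Or.inl fun x hx => by rwa [show c x = x by simpa using h1 hx]⟩
  by_cases h2 : ∀ x, c (c x) = x
  · obtain ⟨x, hx, -⟩ := out (S := c.support) (l := []) (by rw [List.length_nil]; omega)
    obtain ⟨y, hy, h3⟩ := out (S := c.support) (l := [x, c x]) (by simp; omega)
    obtain ⟨z, hz, h4⟩ := out (S := c.support) (l := [x, c x, y, c y]) (by simp; omega)
    rw [mem_support] at hx hy hz
    exact mk x y z (by grind) (by grind) (by grind) (Or.inr (by simp; grind))
  push Not at h2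
  obtain ⟨x, hx⟩ := h2
  have h3 : c x ≠ x := by grind
  by_cases h4 : c (c (c x)) = x
  · exact mk x (c x) (c (c x)) (by grind) (by grind) (by grind) (Or.inl (by simp [h4]))
  obtain ⟨z, hz, h5⟩ := out (S := c.support) (l := [c⁻¹ x, x, c x, c (c x), c (c (c x))]) (by simp; omega)
  rw [mem_support] at hz
  have h6 : c z ≠ x := fun e => h5 (by simp [← e])
  exact mk x (c (c x)) z (by grind) (by grind) (by grind) (Or.inr (by simp; grind))

theorem comm3 {σ τ : Perm (Fin 8)} (hσ : σ.IsThreeCycle) (h : τ.support = σ.support) : Commute σ τ := by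
  ext1 x
  simp only [Perm.mul_apply]
  by_cases hx : x ∈ σ.support
  · have h1 := hσ.support_eq_iff_mem_support.2 hx
    have h2 : σ (σ (σ x)) = x := by
      have := pow_orderOf_eq_one σ
      rw [hσ.orderOf] at this
      exact congrArg (fun g : Perm (Fin 8) => g x) this
    have h3 : ∀ y ∈ σ.support, τ y ∈ σ.support ∧ τ y ≠ y := fun y hy => by
      rw [← h] at hy ⊢; exact ⟨apply_mem_support.2 hy, mem_support.1 hy⟩
    rw [h1] at h3
    simp only [Finset.mem_insert, Finset.mem_singleton, forall_eq_or_imp, forall_eq] at h3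
    have := τ.injective
    grind
  · rw [notMem_support.1 hx, notMem_support.1 (h ▸ hx : x ∉ τ.support), notMem_support.1 hx]

end

/-- In the symmetric group of degree 8, let A be the subgroup generated by a 3-cycle. Then every conjugacy class contains an element g for which A is subnormal in the subgroup generated by A and its conjugate by g, although O_3 of the symmetric group of degree 8 is trivial. -/
theorem result
    (σ : Equiv.Perm (Fin 8)) (hσ : σ.IsThreeCycle) :
    (∀ c : Equiv.Perm (Fin 8), ∃ g : Equiv.Perm (Fin 8), IsConj c g ∧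
      ((Subgroup.zpowers σ).subgroupOf (Subgroup.zpowers σ ⊔ MulAut.conj g • Subgroup.zpowers σ)).IsSubnormal) ∧
    Cfsg.pCore 3 (Equiv.Perm (Fin 8)) = ⊥ := by
  open CfsgH1 CfsgH1.Sn Equiv Equiv.Perm MulAction in
  open scoped commutatorElement in
  · refine ⟨fun c => ?_, by_contra fun h => ?_⟩
    · obtain ⟨T, h1, h2⟩ := ex c
      obtain ⟨π, hπ⟩ := Perm.exists_map_finset_eq T σ.support (h1.trans hσ.card_support.symm)
      have hm : ∀ x, π x ∈ σ.support ↔ x ∈ T := fun x => by rw [← hπ]; simp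
      have hs : ∀ x, π (c x) ∈ ((π * c * π⁻¹) * σ * (π * c * π⁻¹)⁻¹).support ↔ x ∈ T := fun x => by
        rw [support_conj, ← hm, show π (c x) = (π * c * π⁻¹).toEmbedding (π x) by simp, Finset.mem_map']
      have hc : Commute σ ((π * c * π⁻¹) * σ * (π * c * π⁻¹)⁻¹) := by
        rcases h2 with h2 | h2
        · have h3 : (π * c * π⁻¹ * σ * (π * c * π⁻¹)⁻¹).IsThreeCycle := by rw [IsThreeCycle, cycleType_conj]; exact hσ
          refine comm3 hσ (show (π * c * π⁻¹ * σ * (π * c * π⁻¹)⁻¹).support = σ.support from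
            Finset.eq_of_subset_of_card_le (fun y hy => by
              obtain ⟨x, rfl⟩ := (π * c).surjective y
              exact (hm _).2 (h2 _ ((hs x).1 hy))) (by rw [h3.card_support, hσ.card_support]))
        · refine Perm.Disjoint.commute (disjoint_iff_disjoint_support.2 (Finset.disjoint_left.2 fun y h3 h4 => ?_))
          obtain ⟨x, rfl⟩ := (π * c).surjective y
          exact h2 _ ((hs x).1 h4) ((hm _).1 h3)
      refine ⟨π * c * π⁻¹, isConj_iff.2 ⟨π, rfl⟩, Subgroup.Normal.isSubnormal ?_⟩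
      rw [Subgroup.normal_subgroupOf_iff_le_normalizer le_sup_left, sup_le_iff]
      refine ⟨Subgroup.le_normalizer, le_trans ?_ (Subgroup.centralizer_le_normalizer _)⟩
      rintro _ ⟨_, ⟨k, rfl⟩, rfl⟩ _ ⟨j, rfl⟩
      exact (conj_zpow (a := π * c * π⁻¹) (b := σ) ▸ (hc.zpow_zpow j k).eq :)
    · have h1 := Subgroup.card_dvd_of_le (alternatingGroup_le_of_normal (α := Fin 8) (N := pCore 3 (Perm (Fin 8))) (by simp)
        ((Subgroup.nontrivial_iff_ne_bot _).2 h))
      have : Fact (Nat.Prime 3) := ⟨Nat.prime_three⟩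
      obtain ⟨k, hk⟩ := IsPGroup.iff_card.1 (isPGroup_pCore (G := Perm (Fin 8)) 3)
      rw [hk, nat_card_alternatingGroup, Nat.card_fin] at h1
      exact absurd (Nat.prime_two.dvd_of_dvd_pow (Dvd.dvd.trans (by decide) h1)) (by decide)

end Cfsg.Agent.S4332
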