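import Cfsg.Statements.S4337
import Cfsg.Agent.H1.Sn1
import Cfsg.Agent.H3.Burnside

set_option autoImplicit false
open Cfsg

namespace Cfsg.Agent.S4337

/-- In a finite symmetric group, any three transpositions generate a solvable subgroup. -/
theorem result (n : ℕ) (a b c : Equiv.Perm (Fin n))
    (ha : a.IsSwap) (hb : b.IsSwap) (hc : c.IsSwap) :
    Group.IsSolvable (Subgroup.closure ({a, b, c} : Set (Equiv.Perm (Fin n)))) := by
  open CfsgH1 CfsgH1.Sn Equiv Equiv.Perm MulAction in
  open scoped commutatorElement in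
  · classical
    have h := @prime_le_of_swaps _ _ _ {a, b, c} (by simp [ha, hb, hc])
    rw [show (({a, b, c} : Finset (Perm (Fin n))) : Set (Perm (Fin n))) = {a, b, c} by simp] at h
    set N := Nat.card (Subgroup.closure ({a, b, c} : Set (Perm (Fin n)))) with hN
    have h0 : N ≠ 0 := Nat.card_pos.ne'
    refine CfsgH3.burnside_paqb 2 3 N N Nat.prime_two Nat.prime_three ((Nat.dvd_iff_prime_pow_dvd_dvd _ _).2 fun p k hp hd => ?_)
    rcases Nat.eq_zero_or_pos k with rfl | hk
    · simp
    have h1 := h hp ((dvd_pow_self p hk.ne').trans hd)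
    have h2 := Finset.card_le_three (a := a) (b := b) (c := c)
    have h3 : k ≤ N := (Nat.lt_pow_self hp.one_lt).le.trans (Nat.le_of_dvd (Nat.pos_of_ne_zero h0) hd)
    have h4 := hp.two_le
    have h5 : p ≠ 4 := by rintro rfl; exact absurd hp (by decide)
    obtain rfl | rfl : p = 2 ∨ p = 3 := by omega
    · exact (pow_dvd_pow _ h3).mul_right _
    · exact (pow_dvd_pow _ h3).mul_left _

end Cfsg.Agent.S4337
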