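import Cfsg.Statements.S4341
import Mathlib
import Cfsg.Agent.L0.M3
import Cfsg.Agent.H1.System

set_option autoImplicit false
open Cfsg

namespace Cfsg.Agent.S4341

open Cfsg Subgroup CfsgH2 CfsgL0

/-- Let K be a normal subgroup of a finite group G, p a prime and P a Sylow p-subgroup of G; let N be the normalizer of P ∩ K inside the subgroup PK. Then the number of Sylow p-subgroups of G equals the product of the numbers of Sylow p-subgroups of G/K, of K, and of N/(P ∩ K). (The normality of P ∩ K in N, which always holds, is assumed as a hypothesis so that the quotient can be formed.) -/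
theorem result {G : Type*} [Group G] [Finite G]
    (p : ℕ) [Fact p.Prime] (K : Subgroup G) [K.Normal] (P : Sylow p G) (N : Subgroup G)
    (hN : N = ((P : Subgroup G) ⊔ K) ⊓ Subgroup.normalizer (((P : Subgroup G) ⊓ K : Subgroup G) : Set G))
    [hn : (((P : Subgroup G) ⊓ K).subgroupOf N).Normal] :
    Nat.card (Sylow p G) =
      Nat.card (Sylow p (G ⧸ K)) * Nat.card (Sylow p K) * Nat.card (Sylow p (N ⧸ ((P : Subgroup G) ⊓ K).subgroupOf N)) := by
  have hP := syl_top P
  have nK : ∀ X : Subgroup G, X ≤ N[K] := fun X => le_top.trans (top_le_norm_iff.2 inferInstance)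
  have hQ := hP.inf_norm (le_top (a := K)) (nK _)
  set Q := (P : Subgroup G) ⊓ K with hQd
  have hPQ : N[(P : Subgroup G)] ≤ N[Q] := le_norm_inf le_rfl (nK _)
  have hPN : (P : Subgroup G) ≤ N := hN ▸ le_inf le_sup_left (le_normalizer.trans hPQ)
  have e1 : N = (P : Subgroup G) ⊔ K ⊓ N[Q] := by rw [hN, sup_inf_of_norm (Or.inl (nK _)) (le_normalizer.trans hPQ)]
  have h1 : Nat.card (Sylow p (N ⧸ Q.subgroupOf N)) = N[(P : Subgroup G)].relIndex (K ⊓ N[Q]) := by
    rw [CfsgH1.Syl.card_sylow_quot (hP.mono hPN le_top).subgroupOf,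
      sup_eq_left.2 (show Q.subgroupOf N ≤ N[(P : Subgroup G).subgroupOf N] from
        le_trans (comap_mono inf_le_left) le_normalizer), ← subgroupOf_normalizer_eq hPN]
    show N[(P : Subgroup G)].relIndex N = _
    have nP : (P : Subgroup G) ≤ N[K ⊓ N[Q]] := le_norm_inf (nK _) (le_norm_of_le (le_normalizer.trans hPQ))
    have a := relIndex_mul_relIndex P (N[(P : Subgroup G)] ⊓ N) N (le_inf le_normalizer hPN) inf_le_right
    have b := relIndex_inf_mul_relIndex P N[(P : Subgroup G)] (K ⊓ N[Q])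
    rw [inf_eq_left.2 le_normalizer, ← CfsgH1.relIndex_sup_right_of_le_normalizer nP, sup_comm, ← e1, ← a,
      inf_relIndex_right] at b
    have c : N[(P : Subgroup G)] ⊓ N = (P : Subgroup G) ⊔ (N[(P : Subgroup G)] ⊓ (K ⊓ N[Q])) := by
      rw [e1, inf_comm, sup_inf_of_norm (Or.inl nP) le_normalizer, inf_comm]
    rw [c, sup_comm, CfsgH1.relIndex_sup_right_of_le_normalizer (le_norm_inf (le_norm_of_le le_normalizer) nP)] at b
    exact (Nat.eq_of_mul_eq_mul_left (relIndex_pos _ _) b).symm
  rw [h1, CfsgH1.Syl.card_sylow hP, CfsgH1.Syl.card_sylow_quot hP, CfsgH1.Syl.card_sylow_sub hQ,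
    ← relIndex_mul_index (le_sup_left : _ ≤ N[(P : Subgroup G)] ⊔ K), sup_comm,
    CfsgH1.relIndex_sup_right_of_le_normalizer (nK _), inf_comm K, mul_assoc, mul_comm (N[Q].relIndex K),
    relIndex_inf_mul_relIndex, inf_eq_left.2 hPQ, mul_comm]

end Cfsg.Agent.S4341
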