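import Cfsg.Statements.S4342
import Cfsg.Agent.H1.Misc1

set_option autoImplicit false
open Cfsg

namespace Cfsg.Agent.S4342

/-- Let H be a normal subgroup of a finite group G and p a prime not dividing the index of H. Then the number of Sylow p-subgroups of H/Z(H) equals the number of Sylow p-subgroups of G. -/
theorem result {G : Type*} [Group G] [Finite G]
    (p : ℕ) [Fact p.Prime] (H : Subgroup G) [H.Normal] (hp : ¬ p ∣ H.index) :
    Nat.card (Sylow p (H ⧸ Subgroup.center H)) = Nat.card (Sylow p G) := by
  open Pointwise Subgroup CfsgH1 in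
  open CfsgH2 hiding card_inf_mul_relIndex card_lt_of_lt card_lt_of_ne_top card_map_mul_card_inf_ker card_mul_relIndex card_subgroupOf card_sup_dvd card_sup_mul_card_inf exists_card_prime_le isNilpotent_map isNilpotent_of_le isPGroup_pCore isSolvable_map isSolvable_of_le le_pCore le_pPrimeCore relIndex_map_dvd in
  open scoped CfsgH2 in
  open scoped commutatorElement in
  · obtain ⟨P, hP⟩ := CfsgH2.exists_syl (p := p) H
    have hP' := hP.trans le_top (by simpa using hp)
    obtain ⟨Q, hQ⟩ := CfsgH2.exists_syl (p := p) (⊤ : Subgroup H)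
    rw [Syl.card_sylow_quot hQ, sup_eq_left.2 (center_le_normalizer _), ← Syl.card_sylow hQ, Syl.card_sylow_sub hP,
      Syl.card_sylow hP', ← relIndex_top_right,
      ← hP.frattini_sup le_top le_normalizer_of_normal, top_inf_eq]
    exact (fac_sup_of_le_normalizer le_normalizer_of_normal).relIndex_eq

end Cfsg.Agent.S4342
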