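import Cfsg.Statements.S4343
import Cfsg.Agent.H1.Wie
import Cfsg.Agent.H4.MH3

set_option autoImplicit false
open Cfsg

namespace Cfsg.Agent.S4343

/-- Let S be a finite non-abelian simple group and p a prime dividing its order. If S has fewer than p² Sylow p-subgroups, then its Sylow p-subgroups have order p. -/
theorem result {S : Type*} [Group S] [Finite S]
    [IsSimpleGroup S] (hS : ¬ IsMulCommutative S) (p : ℕ) [Fact p.Prime] (hp : p ∣ Nat.card S)
    (hn : Nat.card (Sylow p S) < p ^ 2) (P : Sylow p S) : Nat.card P = p := by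
  open CfsgH4 MulAction in
  open scoped commutatorElement in
  · refine card_eq_of_orbits (fun h => hS ?_) (fun Q R hR => (index_stabilizer _ _).symm.trans (index_stab_sylow hn.le hR)) P
    have := (Nat.card_eq_one_iff_unique.1 h).1
    have h1 := (P.normal_of_subsingleton.eq_bot_or_eq_top).resolve_left (P.ne_bot_of_dvd_card hp)
    have : Group.IsNilpotent S := ((h1 ▸ P.2 : IsPGroup p (⊤ : Subgroup S)).of_equiv Subgroup.topEquiv).isNilpotent
    exact ⟨⟨IsSimpleGroup.comm_iff_isSolvable.2 inferInstance⟩⟩

end Cfsg.Agent.S4343
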