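import Cfsg.Statements.S4345
import Mathlib
import Cfsg.Agent.L0.HallN

set_option autoImplicit false
open Cfsg

namespace Cfsg.Agent.S4345

open Cfsg Subgroup CfsgH2 CfsgL0

/-- Let G be a finite solvable group and p, ℓ primes. Then the largest power of ℓ dividing the number of Sylow p-subgroups of G is congruent to 1 modulo p. -/
theorem result {G : Type*} [Group G] [Finite G]
    (hG : Group.IsSolvable G) (p ℓ : ℕ) [Fact p.Prime] (hℓ : ℓ.Prime) :
    ℓ ^ (Nat.card (Sylow p G)).factorization ℓ ≡ 1 [MOD p] := by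
  rename_i hp
  obtain ⟨P, hP⟩ := exists_syl p (⊤ : Subgroup G)
  rw [CfsgH1.Syl.card_sylow hP]
  have h := hall_index_mem (hall_singleton.2 hP)
  generalize N[P].index = n at h
  suffices n ≠ 0 ∧ ℓ ^ n.factorization ℓ ≡ 1 [MOD p] from this.2
  induction h using Submonoid.closure_induction with
  | mem a ha =>
    obtain ⟨⟨q, e, hq, rfl⟩, -, r, hr, h1, h2⟩ := ha
    obtain rfl : r = p := isPGroup_iff_piN.1 hP.pg r hr h1
    refine ⟨pow_ne_zero _ hq.ne_zero, ?_⟩
    by_cases h : q = ℓ
    · subst h; rwa [hq.factorization_pow, Finsupp.single_eq_same]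
    · rw [hq.factorization_pow, Finsupp.single_eq_of_ne (Ne.symm h), pow_zero]
  | one => simp [Nat.ModEq]
  | mul a b _ _ ha hb =>
    refine ⟨mul_ne_zero ha.1 hb.1, ?_⟩
    rw [Nat.factorization_mul ha.1 hb.1, Finsupp.add_apply, pow_add]
    simpa using ha.2.mul hb.2

end Cfsg.Agent.S4345
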