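import Cfsg.Statements.S4370
import Cfsg.Agent.H2.Pq0

set_option autoImplicit false
open Cfsg

namespace Cfsg.Agent.S4370
open CfsgH2

/-- Let G be a finite non-abelian nilpotent group. Then the centralizer of every non-central element of G is cyclic if and only if G is isomorphic to the direct product of a generalized quaternion group and a cyclic group of odd order. -/
theorem result {G : Type*} [Group G] [Finite G] (hG : Group.IsNilpotent G)
    (hna : ¬ IsMulCommutative G) :
    (∀ x : G, x ∉ Subgroup.center G → IsCyclic (Subgroup.centralizer ({x} : Set G))) ↔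
      ∃ (k m : ℕ), 1 ≤ k ∧ Odd m ∧ Nonempty (G ≃* QuaternionGroup (2 ^ k) × Multiplicative (ZMod m)) := by
  open Subgroup Function in open scoped commutatorElement in
  · haveI := Fact.mk Nat.prime_two
    constructor
    · intro h
      have ab : ∀ A : Subgroup G, Ab[A] → Cyc[A] := fun A hA => by
        by_cases h1 : A ≤ center G
        · obtain ⟨x, hx⟩ : ∃ x, x ∉ center G := by
            by_contra hc; push Not at hc; exact hna ⟨⟨fun a b => mem_center_iff.1 (hc b) a⟩⟩
          exact isCyclic_of_le (h x hx) fun a ha => mem_centralizer_singleton_iff.2 (mem_center_iff.1 (h1 ha) x).symm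
        · obtain ⟨x, hx, hx'⟩ := SetLike.not_le_iff_exists.1 h1
          exact isCyclic_of_le (h x hx') (le_cent1_iff.2 (le_cent_self hA hx))
      have pr : ∀ (p : ℕ) [Fact p.Prime] (H : Subgroup G), prk p H ≤ 1 := fun p _ H => by
        obtain ⟨E, -, b⟩ := exists_el_prk p H
        rw [← b.prk_eq]; exact prk_le_one_of_cyclic (ab E b.comm)
      have nil : Nil[(⊤ : Subgroup G)] := inferInstance
      have odd : Odd o[O[{2}ᶜ, (⊤ : Subgroup G)]] := Nat.odd_iff.2 (Nat.two_dvd_ne_zero.1 not_dvd_piCoreOf)
      have hA : Cyc[O[{2}ᶜ, (⊤ : Subgroup G)]] := nil_cyc_of_rk inferInstance odd (rk_le_of fun p _ => pr p _)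
      have e : O[{2}, (⊤ : Subgroup G)] ⊔ O[{2}ᶜ, ⊤] = ⊤ := nil_sup_core nil
      obtain ⟨f⟩ := equiv_prod' (piCoreOf_le_cent (π := {2}) (M := (⊤ : Subgroup G))) piCoreOf_inf_compl
      rcases cyc_or_quat (isPGroup_piCoreOf (p := 2) (M := (⊤ : Subgroup G))) (pr 2 _) with h1 | ⟨-, a, b, m, h1, h2, h3⟩
      · exact (hna (isMulComm_top_iff.1 (e ▸ isMulComm_sup inferInstance inferInstance piCoreOf_le_cent))).elim
      exact ⟨m, _, h1.pos, odd, ⟨topEquiv.symm.trans ((MulEquiv.subgroupCongr e.symm).trans (f.trans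
        ((h1.quaternion h2 h3).some.prodCongr (zmodCyclicMulEquiv hA).symm)))⟩⟩
    · rintro ⟨k, m, hk, hm, ⟨e⟩⟩ x hx
      haveI : NeZero m := ⟨by rintro rfl; simp at hm⟩
      have h1 : (e x).1 ∉ center (QuaternionGroup (2 ^ k)) := fun a => hx (mem_center_iff.2 fun g => e.injective (by
        rw [map_mul, map_mul]; exact Prod.ext (mem_center_iff.1 a _) (mul_comm _ _)))
      obtain ⟨y, hy⟩ : ∃ y, C1[(e x).1] ≤ zpowers y := by
        generalize (e x).1 = u at h1
        have mc : MC (⊤ : Subgroup (QuaternionGroup (2 ^ k))) (.a 1) (.xa 0) k := by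
          have c : (QuaternionGroup.xa 0 : QuaternionGroup (2 ^ k)) * .a 1 * (.xa 0)⁻¹ = (.a 1)⁻¹ := by
            rw [mul_inv_eq_iff_eq_mul, eq_inv_mul_iff_mul_eq]; simp
          have c2 : (QuaternionGroup.xa 0 : QuaternionGroup (2 ^ k)) ^ 2 = .a 1 ^ 2 ^ k := by
            rw [QuaternionGroup.xa_sq, QuaternionGroup.a_one_pow]
          have c3 : ∀ i, QuaternionGroup.a i ∈ zpowers (QuaternionGroup.a 1 : QuaternionGroup (2 ^ k)) := fun i => by
            obtain ⟨j, rfl⟩ := ZMod.natCast_zmod_surjective i
            rw [← QuaternionGroup.a_one_pow]; exact pow_mem (mem_zpowers _) j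
          refine ⟨⟨by rw [QuaternionGroup.orderOf_a_one, pow_succ'], fun a => ?_, ?_, c2 ▸ pow_mem (mem_zpowers _) _,
            mem_norm_zpowers (c ▸ inv_mem (mem_zpowers _))⟩, hk, .inr (.inl ⟨c2, c⟩)⟩
          · obtain ⟨j, hj⟩ := mem_powers_iff_mem_zpowers.2 a
            simp only [QuaternionGroup.a_one_pow] at hj
            cases hj
          · rw [eq_top_iff]
            rintro (i | i) -
            · exact mem_sup_left (c3 i)
            · simpa using mul_mem (mem_sup_right (mem_zpowers (QuaternionGroup.xa 0)) : _ ∈ zpowers (QuaternionGroup.a 1) ⊔ _)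
                (mem_sup_left (c3 i))
        by_cases h2 : u ∈ zpowers (QuaternionGroup.a 1)
        · refine ⟨.a 1, fun g hg => by_contra fun a => h1 ?_⟩
          rw [← center_top, mc.center_eq]
          exact mc.mem_half_of_comm h2 (mem_top g) a (mem_centralizer_singleton_iff.1 hg)
        · refine ⟨u, (le_inf le_top le_rfl).trans ((mc.cent_le (mem_top u) h2).trans (sup_le (zpowers_le.2 ?_) le_rfl))⟩
          rcases u with i | i
          · obtain ⟨j, rfl⟩ := ZMod.natCast_zmod_surjective i
            exact (h2 (by rw [← QuaternionGroup.a_one_pow]; exact pow_mem (mem_zpowers _) j)).elim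
          · rw [QuaternionGroup.a_one_pow, ← QuaternionGroup.xa_sq i]; exact pow_mem (mem_zpowers _) 2
      haveI : IsCyclic ((zpowers y).prod (⊤ : Subgroup (Multiplicative (ZMod m)))) := by
        rw [(Subgroup.prodEquiv _ _).isCyclic, Group.isCyclic_prod_iff]
        refine ⟨inferInstance, inferInstance, Nat.Coprime.coprime_dvd_left (card_subgroup_dvd_card _) ?_⟩
        rw [card_top, Nat.card_eq_fintype_card, QuaternionGroup.card, Nat.card_congr Multiplicative.toAdd, Nat.card_zmod,
          show 4 * 2 ^ k = 2 ^ (k + 2) by ring]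
        exact (Nat.coprime_two_left.2 hm).pow_left _
      refine isCyclic_of_injective (G' := (zpowers y).prod (⊤ : Subgroup (Multiplicative (ZMod m))))
        ((e.toMonoidHom.comp (Subgroup.subtype _)).codRestrict _ fun g => ⟨hy (mem_centralizer_singleton_iff.2 ?_), mem_top _⟩)
        fun a b h => Subtype.ext (e.injective (congrArg Subtype.val h))
      exact congrArg Prod.fst ((map_mul e g.1 x).symm.trans ((congrArg e (mem_centralizer_singleton_iff.1 g.2)).trans (map_mul e x g.1)))

end Cfsg.Agent.S4370
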