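import Cfsg.Statements.S4378
import Mathlib
import Cfsg.Agent.H9.Tb8

set_option autoImplicit false
open Cfsg

namespace Cfsg.Agent.S4378

/-- Let G be a finite solvable group in which every maximal subgroup either has a normal 2-complement or has prime index. Then G has a chain of normal subgroups 1 ≤ A ≤ B ≤ C ≤ G in which A and C/B have odd order and B/A and G/C are 2-groups (so the 2-length of G is at most 2). -/
theorem result {G : Type*} [Group G] [Finite G]
    (hG : Group.IsSolvable G)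
    (hmax : ∀ M : Subgroup G, IsCoatom M → (∃ K : Subgroup ↥M, K.Normal ∧ ¬ 2 ∣ Nat.card K ∧ ∃ k : ℕ, K.index = 2 ^ k) ∨ (M.index).Prime) :
    ∃ A B C : Subgroup G, A.Normal ∧ B.Normal ∧ C.Normal ∧ A ≤ B ∧ B ≤ C ∧ Odd (Nat.card A) ∧
      (∃ k : ℕ, A.relIndex B = 2 ^ k) ∧ Odd (B.relIndex C) ∧ ∃ k : ℕ, C.index = 2 ^ k := by
  open Subgroup Cfsg CfsgH2 Function CfsgCP CfsgTB in
  open scoped commutatorElement in
  have a := npc_max (CfsgH1.isPSolvable_of_isSolvable Nat.prime_two) hmax
  have n := le_norm_piRes (π := {2}) (M := (⊤ : Subgroup G))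
  have m := n.trans (norm_le_norm_piRes (π := {2}ᶜ))
  refine ⟨_, _, _, top_le_norm_iff.1 (m.trans (norm_le_norm_piRes (π := {2}))), top_le_norm_iff.1 m,
    top_le_norm_iff.1 n, piRes_le, piRes_le, Nat.two_dvd_ne_zero.1 (NPC.iff_piRes.1 a) |> Nat.odd_iff.2,
    (piN_singleton Nat.prime_two (relIndex_pos _ _).ne').1 piN_relIndex_piRes,
    Nat.odd_iff.2 (Nat.two_dvd_ne_zero.1 ((piN_compl_singleton Nat.prime_two).1 piN_relIndex_piRes)), ?_⟩
  rw [← relIndex_top_right]
  exact (piN_singleton Nat.prime_two (relIndex_pos _ _).ne').1 piN_relIndex_piRes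

end Cfsg.Agent.S4378
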