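import Cfsg.Statements.S4381
import Cfsg.Agent.H1.Misc1
import Cfsg.Agent.H2.BG0
import Cfsg.Agent.H9.BG40

set_option autoImplicit false
open Pointwise
open Cfsg

namespace Cfsg.Agent.S4381

/-- Let the finite group A act by automorphisms on the finite group G with the orders of A and G coprime, and assume that A or G is solvable. Call a proper A-invariant subgroup of G maximal A-invariant when no A-invariant subgroup lies strictly between it and G. Then all maximal A-invariant subgroups of G are conjugate under elements of the fixed-point subgroup C_G(A) if and only if G is a p-group for some prime p and A leaves invariant no subgroup strictly between the Frattini subgroup of G and G. In that case, if G is nontrivial, the Frattini subgroup is the only maximal A-invariant subgroup (a trivial G has none). -/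
theorem result {A G : Type*} [Group A] [Finite A]
    [Group G] [Finite G] [MulDistribMulAction A G] (hcop : (Nat.card A).Coprime (Nat.card G)) (hsol : Group.IsSolvable A ∨ Group.IsSolvable G) :
    ((∀ M N : Subgroup G, (M ≠ ⊤ ∧ (∀ a : A, ∀ x ∈ M, a • x ∈ M) ∧ ∀ L : Subgroup G, M < L → (∀ a : A, ∀ x ∈ L, a • x ∈ L) → L = ⊤) → (N ≠ ⊤ ∧ (∀ a : A, ∀ x ∈ N, a • x ∈ N) ∧ ∀ L : Subgroup G, N < L → (∀ a : A, ∀ x ∈ L, a • x ∈ L) → L = ⊤) →
        ∃ c : G, (∀ a : A, a • c = c) ∧ N = MulAut.conj c • M) ↔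
      ((∃ p : ℕ, p.Prime ∧ IsPGroup p G) ∧ ∀ L : Subgroup G, frattini G < L → (∀ a : A, ∀ x ∈ L, a • x ∈ L) → L = ⊤)) ∧
    (((∃ p : ℕ, p.Prime ∧ IsPGroup p G) ∧ ∀ L : Subgroup G, frattini G < L → (∀ a : A, ∀ x ∈ L, a • x ∈ L) → L = ⊤) →
      ∀ M : Subgroup G, (M ≠ ⊤ ∧ (∀ a : A, ∀ x ∈ M, a • x ∈ M) ∧ ∀ L : Subgroup G, M < L → (∀ a : A, ∀ x ∈ L, a • x ∈ L) → L = ⊤) ↔ (M = frattini G ∧ M ≠ ⊤)) := by
  open Subgroup CfsgH2 in
  open CfsgH1 hiding card_inf_mul_relIndex card_lt_of_lt card_lt_of_ne_top card_map_mul_card_inf_ker card_mul_relIndex card_subgroupOf card_sup_dvd card_sup_mul_card_inf coprime_le_sup_cent exists_card_prime_le isNilpotent_map isNilpotent_of_le isPGroup_pCore isSolvable_map isSolvable_of_le le_pCore le_pPrimeCore relIndex_map_dvd in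
  open scoped CfsgH1 in
  open scoped commutatorElement in
  · obtain ⟨X, _, _, i, j, hi, hj, e, n, h0, h1⟩ := exists_ambient (MulDistribMulAction.toMulAut A G)
    have iv : ∀ L : Subgroup G, (∀ a : A, ∀ x ∈ L, a • x ∈ L) ↔ map j ⊤ ≤ N[L.map i] := fun L => ⟨fun h => by
        rintro _ ⟨a, -, rfl⟩
        refine mem_norm_of_conj ?_
        rintro _ ⟨x, hx, rfl⟩
        exact ⟨_, h a x hx, (e a x).symm⟩, fun h a x hx => (mem_map_iff_mem hi).1 (by
          have := conj_mem_of_norm (h ⟨a, trivial, rfl⟩) (mem_map_of_mem i hx); rwa [e] at this)⟩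
    have ci : o[map i ⊤] = Nat.card G := by rw [card_map_of_injective hi, card_top]
    have cj' : o[map j ⊤] = Nat.card A := by rw [card_map_of_injective hj, card_top]
    have ex : ∀ L : Subgroup G, L ≠ ⊤ → (∀ a : A, ∀ x ∈ L, a • x ∈ L) → ∃ M : Subgroup G, L ≤ M ∧ M ≠ ⊤ ∧ (∀ a : A, ∀ x ∈ M, a • x ∈ M) ∧
        ∀ L : Subgroup G, M < L → (∀ a : A, ∀ x ∈ L, a • x ∈ L) → L = ⊤ := fun L h1 h2 => by
      obtain ⟨M, a, b, c⟩ := exists_maximal_ge (fun M : Subgroup G => M ≠ ⊤ ∧ ∀ a : A, ∀ x ∈ M, a • x ∈ M) ⟨h1, h2⟩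
      exact ⟨M, a, b.1, b.2, fun K d f => by_contra fun g => d.ne' (c K ⟨g, f⟩ d.le)⟩
    have iF : ∀ a : A, ∀ x ∈ frattini G, a • x ∈ frattini G := fun a x hx =>
      (characteristic_iff_le_comap.1 inferInstance (MulDistribMulAction.toMulAut A G a)) hx
    have lF : ∀ M : Subgroup G, (M ≠ ⊤ ∧ (∀ a : A, ∀ x ∈ M, a • x ∈ M) ∧ ∀ L : Subgroup G, M < L → (∀ a : A, ∀ x ∈ L, a • x ∈ L) → L = ⊤) →
        frattini G ≤ M := fun M h => by_contra fun c => h.1 (eq_top_of_sup_le_frattini le_rfl (h.2.2 _ (right_lt_sup.2 c)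
          ((iv _).2 (by rw [Subgroup.map_sup]; exact le_norm_sup ((iv _).1 iF) ((iv _).1 h.2.1)))))
    have B : ((∃ p : ℕ, p.Prime ∧ IsPGroup p G) ∧ ∀ L : Subgroup G, frattini G < L → (∀ a : A, ∀ x ∈ L, a • x ∈ L) → L = ⊤) →
        ∀ M : Subgroup G, (M ≠ ⊤ ∧ (∀ a : A, ∀ x ∈ M, a • x ∈ M) ∧ ∀ L : Subgroup G, M < L → (∀ a : A, ∀ x ∈ L, a • x ∈ L) → L = ⊤) ↔
          (M = frattini G ∧ M ≠ ⊤) := fun h M => ⟨fun a => ⟨((lF M a).eq_or_lt.resolve_right fun c => a.1 (h.2 M c a.2.1)).symm, a.1⟩,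
      by rintro ⟨rfl, a⟩; exact ⟨a, iF, h.2⟩⟩
    refine ⟨⟨fun h => ?_, fun h M N a b => ⟨1, smul_one, by rw [((B h M).1 a).1, ((B h N).1 b).1, map_one, one_smul]⟩⟩, B⟩
    obtain ⟨p, hp, hG⟩ : ∃ p : ℕ, p.Prime ∧ IsPGroup p G := by
      by_contra! c
      obtain ⟨M, -, hM⟩ := ex ⊥ (fun d => c 2 Nat.prime_two (.of_card (n := 0) (by rw [← card_top, ← d, card_bot]; rfl)))
        fun a x hx => by simp [mem_bot.1 hx]
      refine hM.1 (top_le_iff.1 (le_of_syl fun p hp _ => ?_))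
      obtain ⟨P, h2, h3⟩ := exists_inv_syl (K := map i ⊤) p (A := map j ⊤) le_normalizer_of_normal (ci ▸ cj' ▸ hcop)
        (hsol.imp (fun s => by haveI := s; exact j.range_eq_map ▸ solvable_of_surjective j.rangeRestrict_surjective)
          fun s => by haveI := s; exact i.range_eq_map ▸ solvable_of_surjective i.rangeRestrict_surjective)
      obtain ⟨P, rfl⟩ : ∃ Q : Subgroup G, Q.map i = P := ⟨_, map_comap_eq_self (i.range_eq_map ▸ h2.le)⟩
      rw [inj_syl hi] at h2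
      obtain ⟨N, h4, hN⟩ := ex P (fun d => c p hp.out ((d ▸ h2.pg : PG[p, ⊤]).of_equiv topEquiv)) ((iv _).2 h3)
      obtain ⟨g, -, rfl⟩ := h M N hM hN
      exact ⟨_, h2.map_cj_mem (g := g⁻¹) trivial, map_cj_le_iff.2 (by rwa [inv_inv])⟩
    haveI := Fact.mk hp
    refine ⟨⟨p, hp, hG⟩, fun L h2 h3 => by_contra fun c => ?_⟩
    obtain ⟨M, h4, hM⟩ := ex L c h3
    have pK : PG[p, map i ⊤] := (hG.to_subgroup ⊤).map i
    have eF : Φ[map i ⊤] = (frattini G).map i := by rw [← map_phi i (hG.to_subgroup ⊤), frattiniOf_top]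
    have nA : map j ⊤ ≤ N[Φ[map i ⊤]] := le_normalizer_of_normal.trans norm_le_norm_phi
    have lM : M.map i ≤ map i ⊤ := map_mono le_top
    obtain ⟨U, u1, u2, u3⟩ := CfsgBG.maschke (elem_qt_phi pK) (qt_mono lM) (qt_le_norm (A := map j ⊤) le_normalizer_of_normal)
      (qt_le_norm ((iv _).1 hM.2.1)) fun d => hp.ne_one (Nat.eq_one_of_dvd_coprimes hcop (cj' ▸ d.trans card_qt_dvd)
        (card_top (G := G) ▸ dvd_card_of_pgroup (hG.to_subgroup ⊤) fun d => c (top_le_iff.1 (d ▸ bot_le))))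
    have u4 := congrArg (qc _) u2
    have u5 := congrArg (qc _) u3
    have f1 : Φ[map i ⊤] ≤ M.map i := eF ▸ map_mono (lF M hM)
    rw [qc_inf, qc_qt_of_le (lM.trans le_norm_phi) f1, qc_eq_self.2 rfl] at u4
    rw [qc_sup, qc_qt_of_le (lM.trans le_norm_phi) f1, qc_qt_of_le le_norm_phi phi_le] at u5
    have u6 := le_norm_qc nA u1
    obtain ⟨V, hV⟩ : ∃ Q : Subgroup G, Q.map i = qc _ U := ⟨_, map_comap_eq_self ((le_sup_right.trans u5.le).trans i.range_eq_map.ge)⟩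
    rw [← hV] at u4 u5 u6
    rw [← map_inf_eq _ _ _ hi, eF] at u4
    rw [← Subgroup.map_sup] at u5
    replace u4 := map_injective hi u4
    replace u5 := map_injective hi u5
    obtain ⟨N, h5, hN⟩ := ex V (fun d => h2.not_ge (h4.trans (by rw [← u4, d, inf_top_eq]))) ((iv _).2 u6)
    obtain ⟨g, -, rfl⟩ := h M N hM hN
    haveI := hG.isNilpotent
    haveI : M.Normal := normal_of_top_le_norm (le_norm_of_commutator_le (commutator_le_frattini.trans (lF M hM)) le_top)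
    rw [smul_eq_map_cj, map_cj_normal] at h5
    exact hM.1 (top_le_iff.1 (u5 ▸ sup_le le_rfl h5))

end Cfsg.Agent.S4381
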