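import Cfsg.Statements.S4387
import Cfsg.Agent.H1.Misc1

set_option autoImplicit false
open Pointwise
open Cfsg

namespace Cfsg.Agent.S4387

/-- Let G be a non-trivial finite group in which any two maximal subgroups are conjugate. Then G is cyclic of prime-power order. -/
theorem result {G : Type*} [Group G] [Finite G] [Nontrivial G]
    (h : ∀ M N : Subgroup G, IsCoatom M → IsCoatom N → ∃ g : G, N = MulAut.conj g • M) :
    IsCyclic G ∧ IsPrimePow (Nat.card G) := by
  open Pointwise Subgroup CfsgH1 in
  open CfsgH2 hiding card_inf_mul_relIndex card_lt_of_lt card_lt_of_ne_top card_map_mul_card_inf_ker card_mul_relIndex card_subgroupOf card_sup_dvd card_sup_mul_card_inf exists_card_prime_le isNilpotent_map isNilpotent_of_le isPGroup_pCore isSolvable_map isSolvable_of_le le_pCore le_pPrimeCore relIndex_map_dvd in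
  open scoped CfsgH2 in
  open scoped commutatorElement in
  · obtain ⟨M, hM, -⟩ := exists_coatom_ge (bot_ne_top : (⊥ : Subgroup G) ≠ ⊤)
    have hc : IsCyclic G := by_contra fun hc => hM.1 (eq_of_forall_conj_mem le_top fun x _ => by
      obtain ⟨K, h1, h2⟩ := exists_coatom_ge (H := zpowers x) fun e => hc (isCyclic_top_iff.1 (e ▸ inferInstance))
      obtain ⟨g, rfl⟩ := h K M h1 hM
      exact ⟨g, trivial, conj_mem_conj_smul g (h2 (mem_zpowers x))⟩)
    refine ⟨hc, ?_⟩
    have hcm := isMulComm_of_cyclic (isCyclic_top_iff.2 hc)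
    haveI : M.Normal := normal_of_top_le_norm (le_norm_of_le_cent (le_cent_of_comm hcm le_top))
    haveI := Fact.mk (index_prime_of_isCoatom hM)
    obtain ⟨P, hP⟩ := CfsgH2.exists_syl (p := M.index) (⊤ : Subgroup G)
    obtain rfl : P = ⊤ := by_contra fun e => by
      obtain ⟨K, h1, h2⟩ := exists_coatom_ge e
      obtain ⟨g, rfl⟩ := h M K hM h1
      exact hP.not_dvd_of_le h2 (by rw [relIndex_top_right, index_conj_smul])
    obtain ⟨n, hn⟩ := exists_card_eq_pow hP.pg
    rw [card_top] at hn
    refine ⟨M.index, n, (Fact.out : M.index.Prime).prime, Nat.pos_of_ne_zero ?_, hn.symm⟩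
    rintro rfl
    exact Finite.one_lt_card.ne' hn

end Cfsg.Agent.S4387
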