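import Mathlib
import Cfsg.Statements.S4396
import Cfsg.Agent.H1.Frob
import Cfsg.Agent.H8.PermModule
import Cfsg.Agent.H1.Cores

set_option autoImplicit false
open Cfsg

namespace Cfsg.Agent.S4396

open Module

theorem nb {B S : Type*} [CommRing B] [Group S] [Finite S] (m : Ideal B) [hm : m.IsMaximal]
    (ψ : S →* RingAut B) (hψ : ∀ s, ∀ b ∈ m, ψ s b ∈ m) (hf : ∀ s ≠ 1, ∃ b, ψ s b - b ∉ m) :
    ∃ β : B, (∀ c : S → B, (∀ s t, ψ t (c s) - c s ∈ m) → ∑ᶠ s, ψ s β * c s ∈ m → ∀ s, c s ∈ m) ∧
      ∀ b : B, ∃ c : S → B, (∀ s t, ψ t (c s) - c s ∈ m) ∧ b - ∑ᶠ s, ψ s β * c s ∈ m := by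
  classical
  haveI := Fintype.ofFinite S
  letI : Field (B ⧸ m) := Ideal.Quotient.field m
  have hmap : ∀ s, m = m.map (ψ s : B →+* B) := fun s => by
    refine le_antisymm (fun b hb => ?_) (Ideal.map_le_iff_le_comap.2 fun b hb => hψ s b hb)
    have : b = (ψ s : B →+* B) (ψ s⁻¹ b) := by
      show b = (ψ s * ψ s⁻¹) b
      rw [← map_mul, mul_inv_cancel, map_one]; rfl
    rw [this]
    exact Ideal.mem_map_of_mem _ (hψ _ b hb)
  let χ : S →* RingAut (B ⧸ m) := MonoidHom.mk' (fun s => Ideal.quotientEquiv m m (ψ s) (hmap s)) (fun s t => by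
    ext x
    obtain ⟨b, rfl⟩ := Ideal.Quotient.mk_surjective x
    show Ideal.Quotient.mk m (ψ (s * t) b) = Ideal.Quotient.mk m (ψ s (ψ t b))
    rw [map_mul]; rfl)
  letI : MulSemiringAction S (B ⧸ m) := MulSemiringAction.compHom _ χ
  have hs : ∀ (s : S) (b : B), s • Ideal.Quotient.mk m b = Ideal.Quotient.mk m (ψ s b) := fun _ _ => rfl
  haveI : FaithfulSMul S (B ⧸ m) := ⟨fun {s t} h => by
    by_contra hst
    obtain ⟨b, hb⟩ := hf (t⁻¹ * s) (fun h => hst (inv_mul_eq_one.1 h).symm)
    apply hb
    rw [← Ideal.Quotient.eq, ← hs, mul_smul, h, inv_smul_smul]⟩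
  let K0 := FixedPoints.subfield S (B ⧸ m)
  let e := FixedPoints.toAlgAutMulEquiv S (B ⧸ m)
  let bs := (IsGalois.normalBasis K0 (B ⧸ m)).reindex e.toEquiv.symm
  obtain ⟨β, hβ⟩ := Ideal.Quotient.mk_surjective (IsGalois.normalBasis K0 (B ⧸ m) 1)
  have hbs : ∀ s, bs s = Ideal.Quotient.mk m (ψ s β) := fun s => by
    rw [← hs, hβ, Basis.reindex_apply, IsGalois.normalBasis_apply]; rfl
  refine ⟨β, fun c hc h0 s => ?_, fun b => ?_⟩
  · let c' : S → K0 := fun s => ⟨Ideal.Quotient.mk m (c s), fun t => by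
      rw [hs, Ideal.Quotient.eq]; exact hc s t⟩
    have := Fintype.linearIndependent_iff.1 bs.linearIndependent c' (by
      rw [finsum_eq_sum_of_fintype, ← Ideal.Quotient.eq_zero_iff_mem, map_sum] at h0
      rw [← h0]
      refine Finset.sum_congr rfl fun t _ => ?_
      rw [hbs, map_mul, mul_comm]; rfl) s
    exact Ideal.Quotient.eq_zero_iff_mem.1 (congrArg Subtype.val this)
  · choose c hc using fun s => Ideal.Quotient.mk_surjective
      ((bs.repr (Ideal.Quotient.mk m b) s : K0) : B ⧸ m)
    refine ⟨c, fun s t => ?_, ?_⟩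
    · rw [← Ideal.Quotient.eq, ← hs, hc]
      exact (bs.repr (Ideal.Quotient.mk m b) s).2 t
    · rw [← Ideal.Quotient.eq, finsum_eq_sum_of_fintype, map_sum]
      conv_lhs => rw [← bs.sum_repr (Ideal.Quotient.mk m b)]
      refine Finset.sum_congr rfl fun t _ => ?_
      rw [hbs, map_mul, hc, mul_comm]; rfl

theorem core {k B V H : Type*} [Field k] [CommRing B] [Algebra k B] [Module.Finite k B]
    [AddCommGroup V] [Module k V] [Module B V] [IsScalarTower k B V] [FiniteDimensional k V] [Nontrivial V]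
    [Group H] [Finite H] (τ : Representation k H V) (ψ : H →* RingAut B)
    (hc : ∀ h (b : B) v, τ h (b • v) = ψ h b • τ h v)
    (hf : ∀ (m : Ideal B), m ≠ ⊤ → (∀ b, (∀ v : V, b • v = 0) → b ∈ m) → ∀ h ≠ 1, ∃ b, ψ h b - b ∉ m) :
    ∃ W : Submodule k V, (⨆ h, W.map (τ h)) ≠ ⊥ ∧
      (∀ (b : B), ∀ v ∈ ⨆ h, W.map (τ h), b • v ∈ ⨆ h, W.map (τ h)) ∧
      Nat.card H * finrank k W ≤ finrank k (⨆ h, W.map (τ h) : Submodule k V) := by
  classical
  haveI := Fintype.ofFinite H
  haveI : IsArtinianRing B := IsArtinianRing.of_finite k B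
  obtain ⟨m, hm⟩ := associatedPrimes.nonempty B V
  obtain ⟨hp, v, hv⟩ := isAssociatedPrime_iff.1 hm
  haveI : m.IsMaximal := IsArtinianRing.isMaximal_of_isPrime m
  have hv' : ∀ b, b ∈ m ↔ b • v = 0 := fun b => by rw [hv]; simp
  have hψψ : ∀ (s t : H) b, ψ (s * t) b = ψ s (ψ t b) := fun s t b => by rw [map_mul]; rfl
  have hψ1 : ∀ b, ψ 1 b = b := fun b => by rw [map_one]; rfl
  have hττ : ∀ (s t : H) v, τ (s * t) v = τ s (τ t v) := fun s t b => by rw [map_mul]; rfl
  let S : Subgroup H :=
    { carrier := {h | ∀ b, ψ h b ∈ m ↔ b ∈ m}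
      one_mem' := fun b => by rw [hψ1]
      mul_mem' := fun {s t} hs ht b => by rw [hψψ, hs, ht]
      inv_mem' := fun {s} hs b => by rw [← hs, ← hψψ, mul_inv_cancel, hψ1] }
  haveI := Fintype.ofFinite S
  have hfm := hf m hp.ne_top fun b hb => (hv' b).2 (hb v)
  have hfS : ∀ s : S, s ≠ 1 → ∃ b, ψ s b - b ∉ m := fun s hs => hfm s fun h => hs (Subtype.ext h)
  -- a fixed vector
  obtain ⟨v0, hv0, hfix⟩ : ∃ v0 : V, (∀ b, b ∈ m ↔ b • v0 = 0) ∧ ∀ s ∈ S, τ s v0 = v0 := by
    have hT : ∃ b : B, ∑ s : S, τ s (b • v) ≠ 0 := by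
      by_contra h0
      push Not at h0
      choose! bb hbb using hfS
      have key : ∀ T : Finset S, ∀ b : B,
          ∑ s : S, (ψ s b * ∏ t ∈ T, (ψ t (bb t) - ψ s (bb t))) • τ s v = 0 := by
        intro T
        induction T using Finset.induction_on with
        | empty => intro b; simpa [hc] using h0 b
        | insert t T ht ih =>
          intro b
          have h1 := congrArg (fun x => ψ t (bb t) • x) (ih b)
          have h2 := ih (b * bb t)
          simp only [smul_zero, Finset.smul_sum, smul_smul] at h1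
          rw [← sub_eq_zero.2 (h1.trans h2.symm), ← Finset.sum_sub_distrib]
          refine Finset.sum_congr rfl fun s _ => ?_
          rw [← sub_smul, Finset.prod_insert ht, map_mul]
          congr 1; ring
      have h3 := key (Finset.univ.erase 1) 1
      rw [Finset.sum_eq_single (1 : S) (fun s _ hs => by
        rw [Finset.prod_eq_zero (Finset.mem_erase.2 ⟨hs, Finset.mem_univ s⟩) (sub_self _), mul_zero, zero_smul])
        (by simp)] at h3
      simp only [OneMemClass.coe_one, map_one, one_mul, Module.End.one_apply] at h3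
      obtain ⟨t, ht, h4⟩ := (Ideal.IsPrime.prod_mem_iff (hp := hp)).1 ((hv' _).2 h3)
      exact hbb t (Finset.ne_of_mem_erase ht) h4
    obtain ⟨b, hb⟩ := hT
    have hk : ∀ a ∈ m, a • ∑ s : S, τ s (b • v) = 0 := fun a ha => by
      rw [Finset.smul_sum]
      refine Finset.sum_eq_zero fun s _ => ?_
      have : a = ψ s (ψ (s⁻¹ : S) a) := by rw [← hψψ]; simp [hψ1]
      rw [this, ← hc, smul_comm, (hv' _).1 (((s⁻¹ : S).2 a).2 ha), smul_zero, map_zero]
    refine ⟨_, fun a => ⟨hk a, fun ha => ?_⟩, fun s hs => ?_⟩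
    · by_contra ham
      obtain ⟨x, y, hy, hxy⟩ := Ideal.IsMaximal.exists_inv ‹m.IsMaximal› ham
      apply hb
      rw [← one_smul B (∑ s : S, τ s (b • v)), ← hxy, add_smul, mul_smul, ha, hk y hy, smul_zero, add_zero]
    · rw [map_sum]
      exact Fintype.sum_equiv (Equiv.mulLeft (⟨s, hs⟩ : S)) _ _ fun t => (hττ _ _ _).symm
  obtain ⟨β, hβ1, hβ2⟩ := nb m (ψ.comp S.subtype) (fun s b hb => (s.2 b).2 hb) hfS
  simp only [finsum_eq_sum_of_fintype, MonoidHom.comp_apply, Subgroup.coe_subtype] at hβ1 hβ2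
  have hcong : ∀ a b : B, a - b ∈ m → a • v0 = b • v0 := fun a b h => by
    rw [hv0, sub_smul, sub_eq_zero] at h; exact h
  let W : Submodule k V :=
    { carrier := {w | ∃ c : B, (∀ t : S, ψ t c - c ∈ m) ∧ w = (β * c) • v0}
      zero_mem' := ⟨0, by simp, by simp⟩
      add_mem' := by
        rintro _ _ ⟨c, h1, rfl⟩ ⟨d, h2, rfl⟩
        refine ⟨c + d, fun t => ?_, by rw [mul_add, add_smul]⟩
        convert m.add_mem (h1 t) (h2 t) using 1
        rw [map_add]; ring
      smul_mem' := by
        rintro a _ ⟨c, h1, rfl⟩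
        refine ⟨algebraMap k B a * c, fun t => ?_, by rw [mul_left_comm, mul_smul (algebraMap k B a), algebraMap_smul]⟩
        have h2 : ψ t (algebraMap k B a) - algebraMap k B a ∈ m := by
          rw [hv0, sub_smul, algebraMap_smul]
          conv_lhs => rw [← hfix t t.2, ← hc, algebraMap_smul, map_smul]
          rw [hfix t t.2, sub_self]
        convert m.add_mem (m.mul_mem_left (ψ t (algebraMap k B a)) (h1 t)) (m.mul_mem_right c h2) using 1
        rw [map_mul]; ring }
  have hτW : ∀ (s : S) (c : B), (∀ t : S, ψ t c - c ∈ m) → τ s ((β * c) • v0) = (ψ s β * c) • v0 := fun s c h => by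
    rw [hc, hfix s s.2, map_mul]
    refine hcong _ _ ?_
    rw [← mul_sub]
    exact m.mul_mem_left _ (h s)
  set U := ⨆ h, W.map (τ h) with hU
  have hBU : ∀ b : B, b • v0 ∈ U := fun b => by
    obtain ⟨c, h1, h2⟩ := hβ2 b
    rw [hcong _ _ h2, Finset.sum_smul]
    refine U.sum_mem fun s _ => Submodule.mem_iSup_of_mem (s : H) ⟨_, ⟨c s, h1 s, rfl⟩, hτW s _ (h1 s)⟩
  have hUτ : ∀ g, ∀ u ∈ U, τ g u ∈ U := fun g u hu => by
    induction hu using Submodule.iSup_induction' with
    | mem h x hx =>
      obtain ⟨w, hw, rfl⟩ := hx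
      exact Submodule.mem_iSup_of_mem (g * h) ⟨w, hw, hττ _ _ _⟩
    | zero => simp
    | add x y _ _ hx hy => rw [map_add]; exact U.add_mem hx hy
  refine ⟨W, fun h0 => ?_, fun b u hu => ?_, ?_⟩
  · have := hBU 1
    rw [← hU] at h0
    rw [h0, Submodule.mem_bot, ← hv0] at this
    exact hp.ne_top ((Ideal.eq_top_iff_one m).2 this)
  · rw [← hU] at hu ⊢
    induction hu using Submodule.iSup_induction' with
    | mem h x hx =>
      obtain ⟨_, ⟨c, -, rfl⟩, rfl⟩ := hx
      have : b = ψ h (ψ h⁻¹ b) := by rw [← hψψ]; simp [hψ1]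
      rw [this, ← hc, smul_smul]
      exact hUτ _ _ (hBU _)
    | zero => simp
    | add x y _ _ hx hy => rw [smul_add]; exact U.add_mem hx hy
  · let Φ : (H → W) →ₗ[k] U := LinearMap.codRestrict U
      (∑ h : H, (τ h).comp (W.subtype.comp (LinearMap.proj h))) (fun f => by
        rw [LinearMap.sum_apply]
        exact U.sum_mem fun h _ => Submodule.mem_iSup_of_mem h ⟨_, (f h).2, rfl⟩)
    have key : ∀ f : H → W, ∑ h : H, τ h (f h : V) = 0 → f 1 = 0 := fun f h0 => by
      choose c hc1 hc2 using fun h => (f h).2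
      have hb : ∀ h ∉ S, ∃ b, b ∉ m ∧ ψ h⁻¹ b ∈ m := fun h hh => by
        by_contra hcon
        push Not at hcon
        apply hh
        have h1 : m.comap (ψ h⁻¹ : B →+* B) ≤ m := fun b hb => by
          by_contra h'
          exact hcon b h' hb
        haveI : (m.comap (ψ h⁻¹ : B →+* B)).IsMaximal := IsArtinianRing.isMaximal_of_isPrime _
        have h2 := Ideal.IsMaximal.eq_of_le this hp.ne_top h1
        refine S.inv_mem_iff.1 fun b => ?_
        conv_rhs => rw [← h2]
        rfl
      choose! bb hbb1 hbb2 using hb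
      set b := ∏ h ∈ Finset.univ.filter (· ∉ S), bb h with hbdef
      have hbm : b ∉ m := fun h => by
        obtain ⟨t, ht, h4⟩ := (Ideal.IsPrime.prod_mem_iff (hp := hp)).1 h
        exact hbb1 t (Finset.mem_filter.1 ht).2 h4
      have h1 := congrArg (fun x => b • x) h0
      simp only [smul_zero, Finset.smul_sum] at h1
      rw [← Finset.sum_filter_add_sum_filter_not Finset.univ (· ∈ S), Finset.sum_eq_zero
        (s := Finset.univ.filter (· ∉ S)) (fun h hh => by
          have h2 : b = ψ h (ψ h⁻¹ b) := by rw [← hψψ]; simp [hψ1]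
          have h3 : ψ h⁻¹ b ∈ m := by
            rw [hbdef, ← Finset.mul_prod_erase _ _ hh, map_mul]
            exact m.mul_mem_right _ (hbb2 h (Finset.mem_filter.1 hh).2)
          rw [h2, ← hc, hc2, smul_comm, (hv0 _).1 h3, smul_zero, map_zero]), add_zero,
        Finset.sum_subtype (p := (· ∈ S)) _ (by simp)] at h1
      have h4 : b * ∑ s : S, ψ s β * c s ∈ m := by
        rw [hv0, ← h1, mul_smul, Finset.sum_smul, Finset.smul_sum]
        exact Finset.sum_congr rfl fun s _ => by rw [hc2, hτW s _ (hc1 s)]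
      have h5 := hβ1 (fun s => c s) (fun s => hc1 s) ((hp.mem_or_mem h4).resolve_left hbm) 1
      refine Subtype.ext ?_
      rw [hc2]
      exact (hv0 _).1 (m.mul_mem_left _ h5)
    have hΦ : Function.Injective Φ := by
      rw [injective_iff_map_eq_zero]
      intro f hf0
      have h0 : ∑ h : H, τ h (f h : V) = 0 := by
        have := congrArg Subtype.val hf0
        simpa [Φ, LinearMap.sum_apply] using this
      funext g
      have := key (fun h => f (g * h)) (by
        have h1 := congrArg (τ g⁻¹) h0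
        rw [map_zero, map_sum] at h1
        rw [← h1]
        exact Fintype.sum_equiv (Equiv.mulLeft g) _ _ fun h => by
          rw [← hττ]; simp)
      simpa using this
    have := LinearMap.finrank_le_finrank_of_injective hΦ
    rwa [Module.finrank_pi_fintype, Finset.sum_const, Finset.card_univ, smul_eq_mul,
      ← Nat.card_eq_fintype_card] at this

universe w

def Fr {k V H : Type*} [Field k] [AddCommGroup V] [Module k V] [Group H] (τ : Representation k H V) : Prop :=
  ∃ W : Submodule k V, (⨆ h, W.map (τ h)) = ⊤ ∧ Nat.card H * finrank k W ≤ finrank k V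

theorem ext_fr {k V H : Type*} [Field k] [AddCommGroup V] [Module k V] [FiniteDimensional k V] [Group H]
    (τ : Representation k H V) (W U : Submodule k V) (hU : (⨆ h, W.map (τ h)) = U)
    (hd : Nat.card H * finrank k W ≤ finrank k U) (hi : ∀ g, U ≤ U.comap (τ g))
    (h : Fr (τ.quotient U hi)) : Fr τ := by
  obtain ⟨W2, h1, h2⟩ := h
  obtain ⟨s, hs⟩ := U.mkQ.exists_rightInverse_of_surjective U.range_mkQ
  refine ⟨W ⊔ W2.map s, ?_, ?_⟩
  · set T := ⨆ h, (W ⊔ W2.map s).map (τ h) with hT
    have hUT : U ≤ T := by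
      rw [← hU]
      exact iSup_mono fun h => Submodule.map_mono le_sup_left
    have : ⊤ ≤ T.map U.mkQ := by
      rw [← h1]
      refine iSup_le fun h => ?_
      rintro _ ⟨x, hx, rfl⟩
      refine ⟨τ h (s x), Submodule.mem_iSup_of_mem h ⟨s x, Submodule.mem_sup_right ⟨x, hx, rfl⟩, rfl⟩, ?_⟩
      have : x = U.mkQ (s x) := (LinearMap.congr_fun hs x).symm
      conv_rhs => rw [this]
      rfl
    rw [top_le_iff, Submodule.map_mkQ_eq_top, sup_eq_right.2 hUT] at this
    exact this
  · have h3 := Submodule.finrank_add_le_finrank_add_finrank W (W2.map s)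
    have h4 := Submodule.finrank_map_le s W2
    have h5 := U.finrank_quotient_add_finrank
    have h6 := Nat.mul_le_mul_left (Nat.card H) (h3.trans (Nat.add_le_add_left h4 _))
    rw [mul_add] at h6
    omega

theorem lem1 {k Q H : Type*} [Field k] [CommGroup Q] [Finite Q] [Group H] [Finite H]
    (φ : H →* MulAut Q) (hφ : ∀ h ≠ 1, ∀ q, ∃ r, r⁻¹ * φ h r = q) (hQ : (Nat.card Q : k) ≠ 0) (n : ℕ) :
    ∀ (V : Type w) [AddCommGroup V] [Module k V] [FiniteDimensional k V] (σ : Representation k Q V)
      (τ : Representation k H V), finrank k V = n → (∀ h q v, τ h (σ q v) = σ (φ h q) (τ h v)) →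
      (∀ v, ∑ᶠ q, σ q v = 0) → Fr τ := by
  classical
  haveI := Fintype.ofFinite Q
  induction n using Nat.strong_induction_on with
  | _ n ih =>
  intro V _ _ _ σ τ hn hc hN
  rcases subsingleton_or_nontrivial V with hV | hV
  · exact ⟨⊥, Subsingleton.elim _ _, by simp⟩
  letI : Module (MonoidAlgebra k Q) V := Module.compHom V σ.asAlgebraHom.toRingHom
  have hsm : ∀ (b : MonoidAlgebra k Q) (v : V), b • v = σ.asAlgebraHom b v := fun _ _ => rfl
  haveI : IsScalarTower k (MonoidAlgebra k Q) V := ⟨fun c b v => by rw [hsm, hsm, map_smul]; rfl⟩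
  let ψ : H →* RingAut (MonoidAlgebra k Q) := MonoidHom.mk'
    (fun h => (MonoidAlgebra.domCongr k k (φ h)).toRingEquiv) (fun g h => by
      ext b : 1
      show MonoidAlgebra.domCongr k k (φ (g * h)) b = MonoidAlgebra.domCongr k k (φ g) (MonoidAlgebra.domCongr k k (φ h) b)
      induction b using MonoidAlgebra.induction_linear with
      | zero => simp
      | add a b ha hb => simp only [map_add, ha, hb]
      | single q c => simp)
  have hψ : ∀ h q (c : k), ψ h (MonoidAlgebra.single q c) = MonoidAlgebra.single (φ h q) c := fun h q c => by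
    show MonoidAlgebra.domCongr k k (φ h) _ = _
    simp
  obtain ⟨W, h1, h2, h3⟩ := core (k := k) τ ψ (fun h b v => by
      induction b using MonoidAlgebra.induction_linear with
      | zero => simp
      | add a b ha hb => simp only [map_add, add_smul, ha, hb]
      | single q c => rw [hψ, hsm, hsm]; simp [hc]) (fun m hm hann h h1 => by
      by_contra hcon
      push Not at hcon
      have h2 : ∀ q : Q, MonoidAlgebra.single q (1 : k) - 1 ∈ m := fun q => by
        obtain ⟨r, rfl⟩ := hφ h h1 q
        have := m.mul_mem_left (MonoidAlgebra.single r⁻¹ 1) (hcon (MonoidAlgebra.single r 1))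
        rw [hψ, mul_sub, MonoidAlgebra.single_mul_single, MonoidAlgebra.single_mul_single] at this
        simpa [MonoidAlgebra.one_def] using this
      have h3 := m.sum_mem (t := Finset.univ) fun q _ => h2 q
      have h4 := hann (∑ q : Q, MonoidAlgebra.single q (1 : k)) fun v => by
        rw [hsm, map_sum, LinearMap.sum_apply, ← hN v, finsum_eq_sum_of_fintype]
        simp
      have h5 := m.sub_mem h4 h3
      rw [Finset.sum_sub_distrib, sub_sub_cancel, Finset.sum_const, Finset.card_univ, ← Nat.card_eq_fintype_card,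
        nsmul_eq_mul, mul_one, ← map_natCast (algebraMap k (MonoidAlgebra k Q))] at h5
      exact hm (Ideal.eq_top_of_isUnit_mem m h5 ((IsUnit.mk0 _ hQ).map _)))
  set U := ⨆ h, W.map (τ h) with hU
  have hi : ∀ g, U ≤ U.comap (τ g) := fun g => iSup_le fun h => by
    rintro _ ⟨x, hx, rfl⟩
    exact Submodule.mem_iSup_of_mem (g * h) ⟨x, hx, by rw [map_mul]; rfl⟩
  have hi' : ∀ q, U ≤ U.comap (σ q) := fun q u hu => by
    have := h2 (MonoidAlgebra.single q 1) u hu
    rw [hsm] at this
    simpa using this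
  refine ext_fr τ W U rfl h3 hi (ih _ ?_ (V ⧸ U) (σ.quotient U hi') _ rfl (fun h q v => ?_) fun v => ?_)
  · have := U.finrank_quotient_add_finrank
    have : 0 < finrank k U := Nat.pos_of_ne_zero fun h => h1 (Submodule.finrank_eq_zero.1 h)
    omega
  · obtain ⟨v, rfl⟩ := U.mkQ_surjective v
    exact congrArg U.mkQ (hc h q v)
  · obtain ⟨v, rfl⟩ := U.mkQ_surjective v
    have := congrArg U.mkQ (hN v)
    rw [finsum_eq_sum_of_fintype] at this ⊢
    rw [map_sum] at this
    exact this

theorem lem1' {k R H : Type*} [Field k] [Group R] [Finite R] [Group H] [Finite H]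
    (φ : H →* MulAut R) (hφ : ∀ h ≠ 1, ∀ r, φ h r = r → r = 1) (hR : (Nat.card R : k) ≠ 0)
    (V : Type*) [AddCommGroup V] [Module k V] [FiniteDimensional k V] (σ : Representation k R V)
    (τ : Representation k H V) (hc : ∀ h q v, τ h (σ q v) = σ (φ h q) (τ h v))
    (hN : ∀ v, ∑ᶠ q, σ q v = 0) (hk : commutator R ≤ σ.ker) : Fr τ := by
  classical
  haveI := Fintype.ofFinite R
  haveI := Fintype.ofFinite (Abelianization R)
  let φ' : H →* MulAut (Abelianization R) := MonoidHom.mk' (fun h => (φ h).abelianizationCongr) (fun g h => by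
    ext x
    obtain ⟨r, rfl⟩ := QuotientGroup.mk_surjective x
    show Abelianization.of (φ (g * h) r) = Abelianization.of (φ g (φ h r))
    rw [map_mul]; rfl)
  let σ' : Representation k (Abelianization R) V := QuotientGroup.lift (commutator R) σ hk
  have hcard : Nat.card R = Nat.card (Abelianization R) * Nat.card (commutator R) :=
    Subgroup.card_eq_card_quotient_mul_card_subgroup _
  rw [hcard, Nat.cast_mul, mul_ne_zero_iff] at hR
  refine lem1 φ' (fun h h1 q => ?_) hR.1 _ V σ' τ rfl (fun h q v => ?_) fun v => ?_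
  · obtain ⟨q, rfl⟩ := QuotientGroup.mk_surjective q
    have : Function.Injective fun r : R => r⁻¹ * φ h r := fun a b hab => by
      have h2 := hφ h h1 (a * b⁻¹) (by
        simp only at hab
        rw [map_mul, map_inv]
        calc φ h a * (φ h b)⁻¹ = a * (a⁻¹ * φ h a) * (φ h b)⁻¹ := by group
          _ = _ := by rw [hab]; group)
      exact mul_inv_eq_one.1 h2
    obtain ⟨r, rfl⟩ := Finite.injective_iff_surjective.1 this q
    exact ⟨Abelianization.of r, rfl⟩
  · obtain ⟨q, rfl⟩ := QuotientGroup.mk_surjective q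
    exact hc h q v
  · have h1 := hN v
    rw [finsum_eq_sum_of_fintype] at h1 ⊢
    rw [← Finset.sum_fiberwise Finset.univ (fun r : R => Abelianization.of r)] at h1
    have h2 : ∀ q : Abelianization R, ∑ r ∈ Finset.univ.filter (fun r : R => Abelianization.of r = q), σ r v =
        (Nat.card (commutator R) : k) • σ' q v := fun q => by
      rw [Finset.sum_congr rfl (g := fun _ => σ' q v) (fun r hr => by rw [← (Finset.mem_filter.1 hr).2]; rfl),
        Finset.sum_const, Nat.cast_smul_eq_nsmul]
      congr 1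
      obtain ⟨q, rfl⟩ := QuotientGroup.mk_surjective q
      rw [← Fintype.card_subtype, ← Nat.card_eq_fintype_card]
      refine Nat.card_congr ⟨fun r => ⟨q⁻¹ * r.1, QuotientGroup.eq.1 r.2.symm⟩, fun c => ⟨q * c.1, ?_⟩,
        fun r => by simp, fun c => by simp⟩
      exact (QuotientGroup.eq.2 (by simp)).symm
    simp_rw [h2] at h1
    rw [← Finset.smul_sum] at h1
    exact (smul_eq_zero.1 h1).resolve_left hR.2

universe z

theorem lem2 {k H : Type*} [Field k] [Group H] [Finite H] (n : ℕ) :
    ∀ (R : Type z) [Group R] [Finite R] [Group.IsSolvable R] (φ : H →* MulAut R), Nat.card R = n →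
    (∀ h ≠ 1, ∀ r, φ h r = r → r = 1) → (Nat.card R : k) ≠ 0 →
    ∀ (V : Type w) [AddCommGroup V] [Module k V] [FiniteDimensional k V] (σ : Representation k R V)
    (τ : Representation k H V), (∀ h q v, τ h (σ q v) = σ (φ h q) (τ h v)) →
    (∀ v, ∑ᶠ q, σ q v = 0) → Fr τ := by
  classical
  induction n using Nat.strong_induction_on with
  | _ n ih =>
  intro R _ _ _ φ hn hφ hR V _ _ _ σ τ hc hN
  rcases subsingleton_or_nontrivial R with hs | hs
  · exact lem1' φ hφ hR V σ τ hc hN fun r _ => by rw [Subsingleton.elim r 1]; exact one_mem _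
  haveI := Fintype.ofFinite (commutator R)
  let φ' : H →* MulAut (commutator R) := (MulAut.characteristic (commutator R)).comp φ
  have hφ' : ∀ h (r : commutator R), (φ' h r : R) = φ h r := fun _ _ => rfl
  let U : Submodule k V := LinearMap.ker (∑ r : commutator R, σ r)
  have hU : ∀ v, v ∈ U ↔ ∑ r : commutator R, σ r v = 0 := fun v => by
    rw [LinearMap.mem_ker, LinearMap.sum_apply]
  have hi : ∀ g, U ≤ U.comap (τ g) := fun g v hv => by
    rw [Submodule.mem_comap, hU]
    have := congrArg (τ g) ((hU v).1 hv)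
    rw [map_sum, map_zero] at this
    rw [← this]
    exact (Fintype.sum_equiv (φ' g).toEquiv _ _ fun r => hc g r v).symm
  have hi' : ∀ g, U ≤ U.comap (σ g) := fun g v hv => by
    rw [Submodule.mem_comap, hU]
    have := congrArg (σ g) ((hU v).1 hv)
    rw [map_sum, map_zero] at this
    rw [← this]
    refine (Fintype.sum_equiv (MulAut.conjNormal (H := commutator R) g).toEquiv _ _ fun r => ?_).symm
    show (σ g * σ r) v = (σ (g * r * g⁻¹) * σ g) v
    rw [← map_mul, ← map_mul, inv_mul_cancel_right]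
  have hlt : Nat.card (commutator R) < n := by
    rw [← hn]
    exact (Subgroup.card_le_card_group _).lt_of_ne fun h =>
      (IsSolvable.commutator_lt_top_of_nontrivial R).ne (Subgroup.eq_top_of_card_eq _ h)
  obtain ⟨W, h1, h2⟩ := ih _ hlt (commutator R) φ' rfl (fun h h1 r hr => Subtype.ext (hφ h h1 r (congrArg Subtype.val hr)))
    (fun h => hR (by
      obtain ⟨c, hc⟩ := (commutator R).card_subgroup_dvd_card
      rw [hc, Nat.cast_mul, h, zero_mul])) U ((σ.subrepresentation U hi').comp (commutator R).subtype)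
    (τ.subrepresentation U hi) (fun h q v => Subtype.ext (hc h q v)) (fun v => by
      rw [finsum_eq_sum_of_fintype]
      refine Subtype.ext ?_
      rw [Submodule.coe_sum]
      exact (hU v).1 v.2)
  refine ext_fr τ (W.map U.subtype) U ?_ (by rwa [Submodule.finrank_map_subtype_eq]) hi
    (lem1' φ hφ hR _ (σ.quotient U hi') _ (fun h q v => ?_) (fun v => ?_) fun r hr => ?_)
  · conv_rhs => rw [← U.range_subtype, ← Submodule.map_top, ← h1, Submodule.map_iSup]
    refine iSup_congr fun h => ?_
    rw [← Submodule.map_comp, ← Submodule.map_comp]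
    rfl
  · obtain ⟨v, rfl⟩ := U.mkQ_surjective v
    exact congrArg U.mkQ (hc h q v)
  · haveI := Fintype.ofFinite R
    obtain ⟨v, rfl⟩ := U.mkQ_surjective v
    have := congrArg U.mkQ (hN v)
    rw [finsum_eq_sum_of_fintype] at this ⊢
    rw [map_sum] at this
    exact this
  · rw [MonoidHom.mem_ker]
    ext v
    show U.mkQ (σ r v) = U.mkQ v
    rw [Submodule.mkQ_apply, Submodule.mkQ_apply, Submodule.Quotient.eq, hU]
    simp only [map_sub, Finset.sum_sub_distrib, sub_eq_zero]
    refine Fintype.sum_equiv (Equiv.mulRight (⟨r, hr⟩ : commutator R)) _ _ fun t => ?_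
    show (σ t * σ r) v = σ (t * r) v
    rw [map_mul]

/-- Let the finite group A act faithfully and linearly on a finite-dimensional vector space V over a field k, and suppose A is a Frobenius group with nilpotent kernel F (every Frobenius kernel is nilpotent) and complement H such that F fixes no nonzero vector. Then V is free as a module for H: there is a subspace W with V the direct sum of the translates hW, h ∈ H. (No assumption on the characteristic of k.) -/
theorem result {k V A : Type*} [Field k] [AddCommGroup V] [Module k V] [FiniteDimensional k V] [Group A] [Finite A] [DecidableEq A]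
    (ρ : Representation k A V) (hρ : Function.Injective ρ)
    (Fk Hc : Subgroup A) [Fk.Normal] (hHc : Cfsg.IsFrobeniusComplement Hc) (hker : Cfsg.frobeniusKernel Hc = (Fk : Set A)) (hnil : Group.IsNilpotent ↥Fk)
    (hCF : ∀ v : V, (∀ f ∈ Fk, ρ f v = v) → v = 0) :
    ∃ W : Submodule k V, DirectSum.IsInternal (fun h : ↥Hc => W.map (ρ (h : A))) := by
  classical
  haveI := Fintype.ofFinite Hc
  have hFr : CfsgH1.Frob Fk Hc ⊤ := CfsgH1.frob_top_iff.2 ⟨hHc, hker⟩
  obtain ⟨R, hRc, hR, hRV⟩ : ∃ R : Subgroup Fk, R.Characteristic ∧ (Nat.card R : k) ≠ 0 ∧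
      ∀ v : V, (∀ r ∈ R, ρ (r : A) v = v) → v = 0 := by
    obtain ⟨p, hp⟩ := CharP.exists k
    rcases CharP.char_is_prime_or_zero k p with hpp | rfl
    · haveI := Fact.mk hpp
      refine ⟨pPrimeCore p Fk, inferInstance, fun h => CfsgH1.not_dvd_card_pPrimeCore p
        ((CharP.cast_eq_zero_iff k p _).1 h), fun v hv => ?_⟩
      obtain ⟨P⟩ : Nonempty (Sylow p Fk) := inferInstance
      have htop : pPrimeCore p Fk ⊔ (P : Subgroup Fk) = ⊤ := by
        rw [← Subgroup.index_eq_one]
        by_contra h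
        obtain ⟨q, hq, hd⟩ := Nat.exists_prime_and_dvd h
        haveI := Fact.mk hq
        by_cases hqp : q = p
        · subst hqp
          exact P.not_dvd_index (hd.trans (Subgroup.index_dvd_of_le le_sup_right))
        · obtain ⟨Q⟩ : Nonempty (Sylow q Fk) := inferInstance
          haveI : (Q : Subgroup Fk).Normal := inferInstance
          have : (Q : Subgroup Fk) ≤ pPrimeCore p Fk := CfsgH1.le_pPrimeCore (by
            obtain ⟨j, hj⟩ := IsPGroup.iff_card.1 Q.isPGroup'
            rw [hj]
            exact Nat.Coprime.pow_left _ ((Nat.coprime_primes hq hpp).2 hqp))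
          exact Q.not_dvd_index (hd.trans (Subgroup.index_dvd_of_le (this.trans le_sup_left)))
      let W : Submodule k V :=
        { carrier := {v | ∀ r ∈ pPrimeCore p Fk, ρ (r : A) v = v}
          zero_mem' := fun _ _ => map_zero _
          add_mem' := fun {a b} ha hb r hr => by rw [map_add, ha r hr, hb r hr]
          smul_mem' := fun c a ha r hr => by rw [map_smul, ha r hr] }
      by_contra hv0
      obtain ⟨u, hu, hu0, hu1⟩ := CfsgH8.exists_fixed_of_isPGroup P.isPGroup'
        (ρ.comp (Fk.subtype.comp (P : Subgroup Fk).subtype)) W (fun g u hu r hr => by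
          have := hu _ ((inferInstance : (pPrimeCore p Fk).Normal).conj_mem' r hr g)
          show (ρ r * ρ ((g : Fk) : A)) u = ρ ((g : Fk) : A) u
          conv_rhs => rw [← this]
          show _ = (ρ ((g : Fk) : A) * ρ _) u
          rw [← map_mul, ← map_mul]
          congr 2
          simp [mul_assoc]) (fun h => hv0 (by
            have : v ∈ W := hv
            rwa [h] at this))
      refine hu0 (hCF u fun f hf => ?_)
      obtain ⟨a, ha, b, hb, hab⟩ := Subgroup.mem_sup_of_normal_left.1 (htop ▸ Subgroup.mem_top (⟨f, hf⟩ : Fk))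
      have h1 : f = a * b := (congrArg Subtype.val hab).symm
      have h2 : ρ (b : A) u = u := hu1 ⟨b, hb⟩
      rw [h1, map_mul, Module.End.mul_apply, h2, hu a ha]
    · haveI := CharP.charP_to_charZero k
      exact ⟨⊤, inferInstance, Nat.cast_ne_zero.2 Nat.card_pos.ne', fun v hv =>
        hCF v fun f hf => hv ⟨f, hf⟩ trivial⟩
  haveI := Fintype.ofFinite R
  let φ : Hc →* MulAut R := (MulAut.characteristic R).comp ((MulAut.conjNormal (H := Fk)).comp Hc.subtype)
  have hφ : ∀ (h : Hc) (r : R), ((φ h r : Fk) : A) = h * r * (h : A)⁻¹ := fun _ _ => rfl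
  obtain ⟨W, h1, h2⟩ := lem2 (k := k) _ R φ rfl (fun h h1 r hr => by
      have := congrArg (fun x : R => ((x : Fk) : A)) hr
      simp only [hφ] at this
      rcases hFr.eq_one (r : Fk).2 h.2 (mul_inv_eq_iff_eq_mul.1 this).symm with h2 | h2
      · exact Subtype.ext (Subtype.ext h2)
      · exact absurd (Subtype.ext h2) h1) hR V (ρ.comp (Fk.subtype.comp R.subtype)) (ρ.comp Hc.subtype)
    (fun h q v => by
      show (ρ h * ρ ((q : Fk) : A)) v = (ρ ((φ h q : Fk) : A) * ρ h) v
      rw [← map_mul, ← map_mul, hφ, inv_mul_cancel_right]) (fun v => hRV _ fun r hr => by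
      rw [finsum_eq_sum_of_fintype, map_sum]
      refine Fintype.sum_equiv (Equiv.mulLeft (⟨r, hr⟩ : R)) _ _ fun t => ?_
      show (ρ (r : A) * ρ ((t : Fk) : A)) v = ρ ((r : A) * t) v
      rw [map_mul])
  refine ⟨W, ?_⟩
  have hs : Function.Surjective (DirectSum.coeLinearMap fun h : Hc => W.map (ρ (h : A))) := by
    rw [← LinearMap.range_eq_top, DirectSum.range_coeLinearMap]
    exact h1
  have hd : finrank k (DirectSum Hc fun h : Hc => W.map (ρ (h : A))) ≤ finrank k V := by
    rw [Module.finrank_directSum]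
    refine le_trans ?_ h2
    rw [Nat.card_eq_fintype_card, ← smul_eq_mul, ← Finset.card_univ]
    exact Finset.sum_le_card_nsmul _ _ _ fun h _ => Submodule.finrank_map_le _ _
  have he := le_antisymm hd (LinearMap.finrank_le_finrank_of_surjective hs)
  exact ⟨(LinearMap.injective_iff_surjective_of_finrank_eq_finrank he).2 hs, hs⟩


end Cfsg.Agent.S4396
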