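import Cfsg.Statements.S4398
import Cfsg.Agent.H2.Pq3

set_option autoImplicit false
open Cfsg

namespace Cfsg.Agent.S4398
open CfsgH2
section
open Subgroup Function
open scoped commutatorElement

theorem aux {G K : Type*} [Group G] [Group K] {H : Subgroup G} (e : H ≃* K) (h : ¬ ∀ a b : K, a * b = b * a) :
    ¬ IsMulCommutative H := fun c => h fun a b => by
  obtain ⟨a, rfl⟩ := e.surjective a
  obtain ⟨b, rfl⟩ := e.surjective b
  rw [← map_mul, ← map_mul, c.is_comm.comm]

end

/-- Let S be a finite 2-group of sectional 2-rank at most 2 that contains a subgroup isomorphic to the dihedral group of order 8 or to the quaternion group of order 8. Then S is dihedral of order at least 8, semidihedral of order at least 16 (order 2^(k+4) with an element a of order 2^(k+3) and an involution b with b a b⁻¹ = a^(2^(k+2)−1)), or generalized quaternion of order at least 8. -/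
theorem result {S : Type*} [Group S] [Finite S] (h2 : IsPGroup 2 S) (hr : Cfsg.SectionalPRankLE 2 2 S)
    (hsub : ∃ H : Subgroup S, Nonempty (↥H ≃* DihedralGroup 4) ∨ Nonempty (↥H ≃* QuaternionGroup 2)) :
    ((∃ k : ℕ, Nonempty (S ≃* DihedralGroup (2 ^ (k + 2)))) ∨
      (∃ k : ℕ, Nat.card S = 2 ^ (k + 4) ∧ ∃ a b : S, orderOf a = 2 ^ (k + 3) ∧ orderOf b = 2 ∧ b * a * b⁻¹ = a ^ (2 ^ (k + 2) - 1)) ∨
      (∃ k : ℕ, Nonempty (S ≃* QuaternionGroup (2 ^ (k + 1))))) := by
  open Subgroup Function in open scoped commutatorElement in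
  · obtain ⟨H, hH⟩ := hsub
    have h : ¬ IsMulCommutative H ∧ Nat.card H = 2 ^ (0 + 3) := by
      rcases hH with ⟨⟨e⟩⟩ | ⟨⟨e⟩⟩
      · exact ⟨aux e (by decide), by rw [Nat.card_congr e.toEquiv, DihedralGroup.nat_card]; rfl⟩
      · exact ⟨aux e (by decide), by rw [Nat.card_congr e.toEquiv, Nat.card_eq_fintype_card, QuaternionGroup.card]; rfl⟩
    have h4 := (sr_of_sec hr).index_der (h2.to_subgroup _) h.1 (relIndex_commutator_of_maxclass (h2.to_subgroup H) h.2
      (mt comm_self_eq_bot_iff.1 h.1)) ⊤ le_top le_rfl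
    obtain ⟨a, b, m, e⟩ := taussky (h2.to_subgroup _) h4 fun c => h.1 (isMulComm_of_le c le_top)
    obtain ⟨k, rfl⟩ := Nat.exists_eq_add_of_le' e.pos
    rcases e.types with a | a | ⟨-, n, h3, a⟩
    · exact .inl ⟨k, a⟩
    · exact .inr (.inr ⟨k, a⟩)
    · obtain ⟨n, rfl⟩ := Nat.exists_eq_add_of_le' h3
      exact .inr (.inl ⟨n, a⟩)

end Cfsg.Agent.S4398
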