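import Cfsg.Statements.S4399
import Cfsg.Agent.H2.MaxCl3

set_option autoImplicit false
open Cfsg

namespace Cfsg.Agent.S4399
open CfsgH2

/-- Let S be a finite 2-group whose commutator quotient S/[S,S] is a Klein four-group (order 4 and exponent 2). Then S itself has order 4, or S is dihedral of order at least 8, semidihedral of order at least 16 (order 2^(k+4) with an element a of order 2^(k+3) and an involution b with b a b⁻¹ = a^(2^(k+2)−1)), or generalized quaternion of order at least 8. -/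
theorem result {S : Type*} [Group S] [Finite S] (h2 : IsPGroup 2 S) (hab : Nat.card (Abelianization S) = 4)
    (hexp : ∀ x : Abelianization S, x ^ 2 = 1) :
    Nat.card S = 4 ∨
    ((∃ k : ℕ, Nonempty (S ≃* DihedralGroup (2 ^ (k + 2)))) ∨
      (∃ k : ℕ, Nat.card S = 2 ^ (k + 4) ∧ ∃ a b : S, orderOf a = 2 ^ (k + 3) ∧ orderOf b = 2 ∧ b * a * b⁻¹ = a ^ (2 ^ (k + 2) - 1)) ∨
      (∃ k : ℕ, Nonempty (S ≃* QuaternionGroup (2 ^ (k + 1))))) := by
  open Subgroup Function in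
  have hP := isPGroup_top_iff.2 h2
  have h1 : (⁅(⊤ : Subgroup S), ⊤⁆ : Subgroup S).relIndex ⊤ = 4 := by
    rw [relIndex_top_right]; exact hab
  by_cases hc : IsMulCommutative (⊤ : Subgroup S)
  · rw [comm_self_eq_bot_iff.2 hc, relIndex_bot_left, card_top] at h1
    exact Or.inl h1
  obtain ⟨a, b, m, h⟩ := taussky hP h1 hc
  obtain ⟨k, rfl⟩ : ∃ k, m = k + 1 := ⟨m - 1, by have := h.pos; omega⟩
  right
  rcases h.rel with ⟨h1, h2⟩ | ⟨h1, h2⟩ | ⟨h0, h1, h2⟩
  · exact Or.inl ⟨k, ⟨topEquiv.symm.trans (h.toCy2.dihedral h1 h2).some⟩⟩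
  · exact Or.inr (Or.inr ⟨k, ⟨topEquiv.symm.trans (h.toCy2.quaternion h1 h2).some⟩⟩)
  · obtain ⟨k, rfl⟩ : ∃ j, k = j + 1 := ⟨k - 1, by omega⟩
    exact Or.inr (Or.inl ⟨k, by rw [← card_top, h.card], a, b, h.ord,
      orderOf_eq_prime h1 (fun e => h.nmem (e ▸ one_mem _)), by rw [h2, inv_mul_half]⟩)

end Cfsg.Agent.S4399
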