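import Cfsg.Statements.S4401
import Cfsg.Agent.H2.Pq3

set_option autoImplicit false
open Cfsg

namespace Cfsg.Agent.S4401
open CfsgH2
section
open Subgroup Function
open scoped commutatorElement

theorem four {G : Type*} [Group G] [Finite G] {P : Subgroup G} (h : Nat.card P = 2) :
    ∃ z ∈ P, z ≠ 1 ∧ z * z = 1 ∧ zpowers z = P ∧ ∀ x ∈ P, x = 1 ∨ x = z := by
  obtain ⟨z, hz, e⟩ := exists_prime_order_mem Nat.prime_two h.symm.dvd
  have h1 : z ≠ 1 := fun c => by simp [c] at e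
  have e1 := zpowers_eq_of_prime (h ▸ Nat.prime_two) hz h1
  refine ⟨z, hz, h1, by rw [← sq, ← e, pow_orderOf_eq_one], e1, fun x hx => ?_⟩
  classical
  rw [← e1, mem_zpowers_iff_mem_range_orderOf, e] at hx
  simp only [Finset.mem_image, Finset.mem_range] at hx
  obtain ⟨i, hi, rfl⟩ := hx
  interval_cases i <;> simp

end

/-- Let S be a finite 2-group of sectional 2-rank at most 4 and P a proper non-abelian subgroup whose centre has order 2. Let S₀ be the centralizer in S of Z(P) and suppose P is normal in S₀. Then either S₀ = S, or P has sectional 2-rank at most 2 and S₀ has index 2 in S. -/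
theorem result {S : Type*} [Group S] [Finite S] (h2 : IsPGroup 2 S) (hr : Cfsg.SectionalPRankLE 2 4 S)
    (P : Subgroup S) (hPlt : P ≠ ⊤) (hP : ¬ IsMulCommutative ↥P) (hZP : Nat.card ↥(Subgroup.center ↥P) = 2)
    (S₀ : Subgroup S) (hS₀ : S₀ = Subgroup.centralizer (((Subgroup.center ↥P).map P.subtype : Subgroup S) : Set S))
    (hPn : ∀ s ∈ S₀, ∀ x ∈ P, s * x * s⁻¹ ∈ P) :
    S₀ = ⊤ ∨ (Cfsg.SectionalPRankLE 2 2 ↥P ∧ S₀.index = 2) := by
  open Subgroup Function in open scoped commutatorElement in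
  · rw [map_center_subtype] at hS₀
    replace hZP : Nat.card Z[P] = 2 := by rw [← map_center_subtype, card_map_of_injective (subtype_injective _), hZP]
    obtain ⟨z, hz, z1, z2, z3, z4⟩ := four hZP
    rw [← z3, cent_zpowers] at hS₀
    have mem : ∀ g, g ∈ S₀ ↔ g * z * g⁻¹ = z := fun g => by
      rw [hS₀, mem_centralizer_singleton_iff, mul_inv_eq_iff_eq_mul]
    have nP : S₀ ≤ N[P] := fun s hs => mem_norm_of_conj (hPn s hs)
    have lP : P ≤ S₀ := fun x hx => by rw [hS₀]; exact cent_le_cent1 hx |> fun _ => mem_centralizer_singleton_iff.2 (mem_cent_iff.1 hz.2 x hx)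
    refine or_iff_not_imp_left.2 fun h0 => ?_
    obtain ⟨s, ⟨-, s1⟩, s2⟩ := SetLike.exists_of_lt (lt_inf_norm (h2.to_subgroup ⊤).isNilpotent (lt_top_iff_ne_top.2 h0))
    replace s1 : s ∈ N[S₀] := s1
    set Q := P.map (cj s) with hQ
    set w := s * z * s⁻¹ with hw
    have wz : w ≠ z := fun e => s2 ((mem s).2 e)
    have lQ : Q ≤ S₀ := map_cj_le_of_norm lP s1
    have nQ : S₀ ≤ N[Q] := by rw [hQ, normalizer_map_cj, ← map_cj_eq s1]; exact map_mono nP
    have eZ : Z[Q] = Z[P].map (cj s) := by rw [map_cj_inf, centralizer_map_cj]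
    have hw1 : w ∈ Z[Q] := eZ ▸ conj_mem_map_cj hz
    have w4 : ∀ x ∈ Z[Q], x = 1 ∨ x = w := by
      rw [eZ]; rintro _ ⟨x, hx, rfl⟩
      rcases z4 x hx with rfl | rfl <;> simp [cj_apply, hw]
    have w1 : w ≠ 1 := by simpa [hw] using z1
    have w2 : w * w = 1 := by simp [hw, mul_assoc, ← mul_assoc z z, z2]
    obtain ⟨d, c, k, r⟩ := ((sr_of_sec hr).mono (le_top : S₀ ≤ ⊤)).two_normal (h2.to_subgroup _) lP lQ nP nQ hP
      (fun e => hP ((inj_isMulComm (cj_injective s)).1 e)) hZP (by rw [eZ, card_map_cj, hZP])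
      fun e => ((z4 w (e ▸ hw1)).resolve_left w1 |> wz)
    have dd : ∀ x ∈ P, x ∈ Q → x = 1 := fun x a b => mem_bot.1 (d ▸ mem_inf.2 ⟨a, b⟩)
    have V : ∀ x ∈ S₀, x ∈ C[P ⊔ Q] → x = 1 ∨ x = z ∨ x = w ∨ x = z * w := fun x a b => by
      obtain ⟨u, hu, v, hv, rfl⟩ := (mem_sup_of_norm (le_norm_of_le_cent (inf_le_left.trans (c.trans
        (cent_anti inf_le_left))))).1 (inf_cent_sup_le c ⟨k ⟨a, b⟩, b⟩)
      rcases z4 u hu with rfl | rfl <;> rcases w4 v hv with rfl | rfl <;> simp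
    have zS : z ∈ C[S₀] := le_cent1_iff.1 hS₀.le
    have wS : w ∈ C[S₀] := conj_mem_of_norm (norm_le_norm_cent _ s1) zS
    have zw : z * w = w * z := (mem_cent_iff.1 wS z (lP hz.1))
    have l0 : P ⊔ Q ≤ S₀ := sup_le lP lQ
    have V2 : ∀ u ∈ N[S₀], u ∈ C[N[S₀]] → u ≠ 1 → u = z * w := fun u a b u1 => by
      have e := mem_cent_iff.1 b s s1
      have u2 : u ≠ z := fun e1 => s2 ((mem s).2 (by rw [← e1, e, mul_inv_cancel_right]))
      refine (((V u ((mem u).2 (by rw [← mem_cent_iff.1 b z (le_normalizer (lP hz.1)), mul_inv_cancel_right]))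
        (cent_anti (l0.trans le_normalizer) b)).resolve_left u1).resolve_left u2).resolve_left fun e1 => wz ?_
      rw [e1] at e
      exact mul_left_cancel (a := s) (e.trans (by simp [hw]))
    have zwc : z * w ∈ C[N[S₀]] := by
      obtain ⟨u, hu, u1⟩ := exists_ne_one (inf_cent_ne_bot' (h2.to_subgroup _) (h2.to_subgroup _)
        (norm_le_norm_center (H := S₀)) fun e => z1 (mem_bot.1 (e ▸ mem_inf.2 ⟨lP hz.1, zS⟩)))
      exact V2 u (le_normalizer hu.1.1) hu.2 u1 ▸ hu.2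
    have cj1 : ∀ g ∈ N[S₀], g * z * g⁻¹ = z ∨ g * z * g⁻¹ = w := fun g hg => by
      rcases V _ (conj_mem_of_norm hg (lP hz.1)) (cent_anti l0 (conj_mem_of_norm (norm_le_norm_cent _ hg) zS)) with e | e | e | e
      · exact absurd (by simpa using e) z1
      · exact .inl e
      · exact .inr e
      · rw [mul_inv_eq_iff_eq_mul, ← mem_cent_iff.1 zwc g hg, mul_right_inj] at e
        exact absurd (by simpa using e) w1
    refine ⟨r.sec, ?_⟩
    by_cases h1 : N[S₀] = ⊤
    · rw [index_eq_two_iff]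
      refine ⟨s, fun b => ?_⟩
      have e : b * s * z * (b * s)⁻¹ = b * z * b⁻¹ * (z * w) := by
        rw [mul_assoc _ b⁻¹, mem_cent_iff.1 zwc b⁻¹ (h1 ▸ mem_top _), hw]
        simp [mul_assoc, ← mul_assoc z z, z2]
      rw [mem, mem, e]
      rcases cj1 b (h1 ▸ mem_top _) with e | e <;> rw [e]
      · exact .inr ⟨rfl, by rw [← mul_assoc, z2, one_mul]; exact wz⟩
      · exact .inl ⟨by rw [zw, ← mul_assoc, w2, one_mul], wz⟩
    exfalso
    obtain ⟨t, ⟨-, t1⟩, t2⟩ := SetLike.exists_of_lt (lt_inf_norm (h2.to_subgroup ⊤).isNilpotent (lt_top_iff_ne_top.2 h1))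
    replace t1 : t ∈ N[N[S₀]] := t1
    have zwN : z * w ∈ N[S₀] := le_normalizer (mul_mem (lP hz.1) (lQ hw1.1))
    have e1 : t * (z * w) * t⁻¹ = z * w := V2 _ (conj_mem_of_norm t1 zwN) (conj_mem_of_norm (norm_le_norm_cent _ t1) zwc)
      fun e => wz (by rw [eq_inv_of_mul_eq_one_right (conj_eq_one_iff.1 e), inv_eq_of_mul_eq_one_right z2])
    set y := t * z * t⁻¹ with hy
    have yN : y ∈ N[S₀] := conj_mem_of_norm t1 (le_normalizer (lP hz.1))
    have cj2 : ∀ g ∈ N[S₀], g * y * g⁻¹ * y⁻¹ = 1 ∨ g * y * g⁻¹ * y⁻¹ = z * w := fun g hg => by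
      have e : g * y * g⁻¹ = t * (t⁻¹ * g * t * z * (t⁻¹ * g * t)⁻¹) * t⁻¹ := by simp [hy, mul_assoc]
      rcases cj1 _ (conj_mem_of_norm' t1 hg) with a | a <;> rw [e, a]
      · exact .inl (mul_inv_cancel _)
      · refine .inr ?_
        rw [← e1, zw, hy]; simp [mul_assoc, inv_eq_of_mul_eq_one_right z2]
    by_cases h3 : y ∈ S₀
    · have a1 : y ∈ C[P ⊔ Q] := by
        rw [cent_sup]
        refine ⟨mem_cent_iff.2 fun g hg => ?_, mem_cent_iff.2 fun g hg => ?_⟩
        · rcases cj2 g (le_normalizer (lP hg)) with a | a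
          · rwa [mul_inv_eq_one, mul_inv_eq_iff_eq_mul] at a
          · refine absurd (dd w ((P.mul_mem_cancel_left hz.1).1 (a ▸ ?_)) hw1.1) w1
            simpa [mul_assoc] using mul_mem hg (conj_mem_of_norm (nP h3) (inv_mem hg))
        · rcases cj2 g (le_normalizer (lQ hg)) with a | a
          · rwa [mul_inv_eq_one, mul_inv_eq_iff_eq_mul] at a
          · refine absurd (dd z hz.1 ((Q.mul_mem_cancel_right hw1.1).1 (a ▸ ?_))) z1
            simpa [mul_assoc] using mul_mem hg (conj_mem_of_norm (nQ h3) (inv_mem hg))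
      have a2 : y ∈ C[S₀] := by
        rcases V y h3 a1 with a | a | a | a <;> rw [a]
        exacts [one_mem _, zS, wS, mul_mem zS wS]
      refine t2 (map_cj_eq_iff.1 (eq_of_le_of_card_le ?_ (card_map_cj t S₀).le).symm)
      conv_rhs => rw [hS₀, ← centralizer_conj]
      exact le_cent1_iff.2 a2
    · have a1 : s⁻¹ * y ∈ N[P] := nP ((mem _).2 (by
        rw [mul_inv_rev, mul_assoc s⁻¹, mul_assoc s⁻¹, ← mul_assoc (y * z), (cj1 y yN).resolve_left (mt (mem y).2 h3), hw]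
        simp [mul_assoc]))
      refine hP (isMulComm_of_le (isMulComm_cent_inf P) fun g hg => ?_)
      have a2 : y * g⁻¹ * y⁻¹ ∈ Q := mem_map_cj.2 (by simpa [mul_assoc] using conj_mem_of_norm a1 (inv_mem hg))
      rcases cj2 g (le_normalizer (lP hg)) with a | a
      · rw [dd g hg ((mul_mem_cancel_right a2).1 (by rw [← mul_assoc g, ← mul_assoc g, a]; exact one_mem Q))]; exact one_mem _
      · have := dd (z⁻¹ * g) (mul_mem (inv_mem hz.1) hg) ((mul_mem_cancel_right a2).1 (by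
          rw [show z⁻¹ * g * (y * g⁻¹ * y⁻¹) = z⁻¹ * (g * y * g⁻¹ * y⁻¹) by simp [mul_assoc], a, inv_mul_cancel_left]
          exact hw1.1))
        rw [← inv_mul_eq_one.1 this]; exact hz

end Cfsg.Agent.S4401
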