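import Cfsg.Statements.S4403
import Cfsg.Agent.H1.Misc1
import Cfsg.Agent.H2.BG0
import Cfsg.Agent.H9.Comp2

set_option autoImplicit false
open Cfsg

namespace Cfsg.Agent.S4403

section
open Subgroup CfsgH2
open CfsgH1 hiding card_inf_mul_relIndex card_lt_of_lt card_lt_of_ne_top card_map_mul_card_inf_ker card_mul_relIndex card_subgroupOf card_sup_dvd card_sup_mul_card_inf coprime_le_sup_cent exists_card_prime_le isNilpotent_map isNilpotent_of_le isPGroup_pCore isSolvable_map isSolvable_of_le le_pCore le_pPrimeCore relIndex_map_dvd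
open scoped CfsgH1
open scoped commutatorElement

variable {G : Type*} [Group G] [Finite G] {p : ℕ} [hp : Fact p.Prime] {P M A B : Subgroup G}

theorem tot (h : PG[p, P]) (hc : Cyc[P]) (hA : A ≤ P) (hB : B ≤ P) : A ≤ B ∨ B ≤ A := by
  obtain ⟨a, ha⟩ := exists_card_eq_pow (h.to_le hA)
  obtain ⟨b, hb⟩ := exists_card_eq_pow (h.to_le hB)
  exact (le_total a b).imp (fun c => le_of_card_dvd_of_cyclic hc hA hB (ha ▸ hb ▸ pow_dvd_pow _ c))
    fun c => le_of_card_dvd_of_cyclic hc hB hA (ha ▸ hb ▸ pow_dvd_pow _ c)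

theorem dich (h : Syl p P M) (hc : Cyc[P]) : NPC p M ∨ (P ≤ piRes {p} M ∧ P ⊓ C[M] = ⊥) := by
  have ab : Ab[P] := inferInstance
  have hN := hall_singleton.2 (h.mono (le_inf h.le le_normalizer) (inf_le_left (b := N[P])))
  have h1 := hN.comm_sup_cent inf_le_right ab
  have h2 := hN.central_mem
  have h3 : ⁅P, M ⊓ N[P]⁆ ≤ P := comm_le_left inf_le_right
  have h4 : ⁅P, M ⊓ N[P]⁆ ⊓ (P ⊓ C[M ⊓ N[P]]) = ⊥ := eq_bot_iff.2 ((le_inf (le_inf (inf_le_left.trans h3)
    (inf_le_left.trans (commutator_mono hN.le le_rfl))) (inf_le_right.trans inf_le_right)).trans (comm_self_eq_bot_iff.2 ab ▸ h2))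
  refine (tot h.pg hc h3 (inf_le_left (b := C[M ⊓ N[P]]))).imp (fun c => h.npc_of_norm_le_cent ?_) fun c => ⟨?_, ?_⟩
  · exact le_centralizer_iff.1 (comm_eq_bot_iff.1 (by rwa [inf_eq_left.2 c] at h4))
  · rw [sup_eq_left.2 c, ← h.piRes_inf_abelian ab] at h1; exact h1.ge.trans inf_le_left
  · exact eq_bot_iff.2 ((inf_le_inf_left _ (cent_anti inf_le_left)).trans (by rw [inf_eq_right.2 c] at h4; exact h4.le))

end

/-- Let K be a finite group, p a prime dividing its order with O_{p'}(K) = 1 (no nontrivial normal subgroup of order prime to p), and P a cyclic Sylow p-subgroup of K. Then either P is normal and self-centralizing in K with K/P cyclic of order dividing p − 1 (so K is the semidirect product of P by a group of automorphisms of P of order dividing p − 1), or the generalized Fitting subgroup F*(K) is a non-abelian simple group and p does not divide the index of F*(K) in K. -/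
theorem result {K : Type*} [Group K] [Finite K] (p : ℕ) [Fact p.Prime] (hp : p ∣ Nat.card K) (hO : Cfsg.pPrimeCore p K = ⊥)
    (P : Sylow p K) (hP : IsCyclic ↥(P : Subgroup K)) :
    ((P : Subgroup K).Normal ∧ Subgroup.centralizer ((P : Subgroup K) : Set K) = (P : Subgroup K) ∧
      (∀ (_ : (P : Subgroup K).Normal), IsCyclic (K ⧸ (P : Subgroup K))) ∧ (P : Subgroup K).index ∣ p - 1) ∨
    (IsSimpleGroup ↥(Cfsg.generalizedFittingSubgroup K) ∧ ¬ IsMulCommutative ↥(Cfsg.generalizedFittingSubgroup K) ∧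
      ¬ p ∣ (Cfsg.generalizedFittingSubgroup K).index) := by
  open Subgroup CfsgH2 in
  open CfsgH1 hiding card_inf_mul_relIndex card_lt_of_lt card_lt_of_ne_top card_map_mul_card_inf_ker card_mul_relIndex card_subgroupOf card_sup_dvd card_sup_mul_card_inf coprime_le_sup_cent exists_card_prime_le isNilpotent_map isNilpotent_of_le isPGroup_pCore isSolvable_map isSolvable_of_le le_pCore le_pPrimeCore relIndex_map_dvd in
  open scoped CfsgH1 in
  open scoped commutatorElement in
  · have hp' : p.Prime := Fact.out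
    have hS := syl_top P
    have pg : ∀ L : Subgroup K, L.Normal → NPC p L → PG[p, L] := fun L _ h => isPGroup_of_npc h
      (eq_bot_iff.2 (hO ▸ pPrimeCore_eq' (G := K) (p := p) ▸ piCoreOf_le_of_norm le_top le_normalizer_of_normal))
    by_cases h : pCore p K = ⊥
    · right
      have hF : CfsgH9.Fit (⊤ : Subgroup K) = ⊥ := by rw [CfsgH9.Fit_top, fitting_eq_pCore p hO, h]
      have h0 : (⊤ : Subgroup K) ≠ ⊥ := fun c => hp'.one_lt.ne' (Nat.dvd_one.1 (by rwa [← card_top, c, card_bot] at hp))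
      have e : CfsgH9.Fs (⊤ : Subgroup K) = CfsgH9.Lay ⊤ := by rw [CfsgH9.Fs_eq, hF, sup_bot_eq]
      obtain ⟨L, hL⟩ := CfsgH9.exists_comp_of_Lay_ne_bot (e ▸ mt CfsgH9.Fs_eq_bot_iff.1 h0)
      have z : ∀ L, CfsgH9.Comp L (⊤ : Subgroup K) → L ⊓ C[L] = ⊥ ∧ ∃ x ∈ L, orderOf x = p := fun L hL =>
        ⟨eq_bot_iff.2 (hF ▸ CfsgH9.center_le_Fit hL.sn), exists_prime_order_mem hp' (by_contra fun c => hL.ne_bot (eq_bot_iff.2
          (hO ▸ CfsgH9.Opp_top (G := K) p ▸ CfsgH9.le_Opp hL.sn ((coprime_iff_not_dvd hp').2 c))))⟩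
      have e2 : CfsgH9.Lay (⊤ : Subgroup K) = L := le_antisymm (CfsgH9.Lay_le_iff.2 fun L' hL' => ((hL'.eq_or_comm hL).resolve_right fun c => by
        obtain ⟨x, hx, h1⟩ := (z L hL).2
        obtain ⟨y, hy, h2⟩ := (z L' hL').2
        have c1 : L' ≤ C[L] := comm_eq_bot_iff.1 c
        have p1 : PG[p, zpowers x] := .of_card ((Nat.card_zpowers x).trans (h1.trans (pow_one p).symm))
        have p2 : PG[p, zpowers y] := .of_card ((Nat.card_zpowers y).trans (h2.trans (pow_one p).symm))
        obtain ⟨g, -, hg⟩ := hS.exists_le_conj (isPGroup_sup p2 p1 (.inl (le_norm_of_le_cent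
          ((zpowers_le.2 hy).trans (c1.trans (cent_anti (zpowers_le.2 hx))))))) le_top
        haveI : Cyc[P.1.map (cj g)] := isCyclic_of_surjective _ ((cj g).subgroupMap_surjective _)
        have := eq_of_card_eq_of_cyclic this (le_sup_left.trans hg) (le_sup_right.trans hg) (by simp only [Nat.card_zpowers, h1, h2])
        have h3 : x ∈ L ⊓ C[L] := ⟨hx, c1 (zpowers_le.2 hy (this.ge (mem_zpowers x)))⟩
        rw [(z L hL).1, mem_bot] at h3
        exact hp'.one_lt.ne (by rw [← h1, h3, orderOf_one])).le) hL.le_Lay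
      rw [← CfsgH9.Fs_top, e, e2]
      haveI : L.Normal := e2 ▸ CfsgH9.Lay_top (G := K) ▸ CfsgH9.layer_normal
      refine ⟨hL.qs.isSimpleGroup (z L hL).1, hL.qs.not_isMulCommutative, relIndex_top_right L ▸ hS.not_dvd_of_le ?_⟩
      refine (((dich (hS.mono (le_sup_left (b := L)) le_top) hP).resolve_left fun c => hL.qs.not_solvable ?_).1.trans
        (piRes_le_of le_normalizer_of_normal ?_))
      · haveI := nil_of_pg (pg L this (c.mono le_sup_right)); infer_instance
      · rw [relIndex_sup_of_norm le_normalizer_of_normal]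
        exact (IsPGroup.piN (π := {p}) P.2 rfl).of_dvd (relIndex_dvd_card _ _)
    left
    obtain ⟨Z, z1, -, z3⟩ := exists_central_card_p (CfsgH2.isPGroup_pCore (p := p) (G := K)) le_normalizer
      (dvd_card_of_pgroup CfsgH2.isPGroup_pCore h)
    have z4 := pCore_le_sylow P
    haveI : Z.Normal := normal_of_top_le_norm (le_normalizer_of_normal.trans (norm_le_norm_of_cyclic (Subgroup.isCyclic_of_le z4) z1))
    have z5 : P.1 ≤ C[Z] := le_cent_of_comm inferInstance (z1.trans z4)
    have z6 : P.1 = C[Z] := (hS.mono z5 le_top).eq_of_pgroup (pg _ inferInstance ((dich (hS.mono z5 le_top) hP).resolve_right fun c => by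
      have := c.2 ▸ le_inf (z1.trans z4) (le_centralizer_iff.1 le_rfl)
      exact hp'.one_lt.ne (by rw [← z3, le_bot_iff.1 this, card_bot])))
    have z7 : (MulAut.conjNormal (H := Z)).ker = P := by
      rw [z6]; ext x; simp [MulEquiv.ext_iff, Subtype.ext_iff, mem_centralizer_iff, mul_inv_eq_iff_eq_mul, @eq_comm _ (x * _)]
    haveI := isCyclic_of_prime_card z3
    haveI : IsCyclic (MulAut Z) := (IsCyclic.mulAutMulEquiv Z).isCyclic.2 (z3 ▸ ZMod.isCyclic_units_prime hp')
    refine ⟨z6 ▸ inferInstance, le_antisymm ((cent_anti (z1.trans z4)).trans z6.ge) (le_cent_self inferInstance), fun _ => ?_, ?_⟩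
    · exact isCyclic_of_injective (QuotientGroup.lift _ _ z7.ge) ((QuotientGroup.injective_lift_iff _ _ _).2 z7.symm)
    · rw [← z7, index_ker, ← Nat.totient_prime hp', ← z3, ← IsCyclic.card_mulAut]
      exact card_subgroup_dvd_card _

end Cfsg.Agent.S4403
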