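import Cfsg.Statements.S4405
import Cfsg.Agent.H2.Pq1

set_option autoImplicit false
open Cfsg

namespace Cfsg.Agent.S4405
open CfsgH2

/-- Let G be a finite group of order 320 = 64·5 whose largest normal 2-subgroup H = O₂(G) equals the Fitting subgroup F(G) and is extraspecial of order 32 containing no elementary abelian subgroup of order 8 (so H is the central product of a quaternion group and a dihedral group of order 8). If T is an involution of G outside H whose centralizer in H contains an elementary abelian subgroup of order 4, then C_H(T) itself is elementary abelian of order 4. -/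
theorem result {G : Type*} [Group G] [Finite G]
    (hG : Nat.card G = 320) (hHF : Cfsg.pCore 2 G = Cfsg.fittingSubgroup G)
    (hex : Cfsg.IsExtraspecial 2 ↥(Cfsg.pCore 2 G)) (h32 : Nat.card ↥(Cfsg.pCore 2 G) = 32)
    (hminus : ∀ A : Subgroup G, A ≤ Cfsg.pCore 2 G → Cfsg.IsElementaryAbelian 2 A → Nat.card ↥A ≤ 4)
    (T : G) (hT : orderOf T = 2) (hTH : T ∉ Cfsg.pCore 2 G)
    (V : Subgroup G) (hV : V ≤ Cfsg.pCore 2 G ⊓ Subgroup.centralizer ({T} : Set G)) (hV4 : Nat.card ↥V = 4) (hVe : Cfsg.IsElementaryAbelian 2 V) :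
    Nat.card ↥(Cfsg.pCore 2 G ⊓ Subgroup.centralizer ({T} : Set G)) = 4 ∧
      Cfsg.IsElementaryAbelian 2 (Cfsg.pCore 2 G ⊓ Subgroup.centralizer ({T} : Set G)) := by
  open Subgroup Function in open scoped commutatorElement in
  · classical
    haveI := Fact.mk Nat.prime_two
    set H := pCore 2 G
    have h : Mn H := ⟨(extraspecial_top_iff.1 hex).1, h32, fun A hA => by
      rw [← card_map_of_injective H.subtype_injective]; exact hminus _ (map_subtype_le A) (elem_map _ hA)⟩
    let κ := (autX : MulAut H →* _).comp (MulAut.conjNormal : G →* MulAut H)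
    have i10 : H.index = 10 := by have := H.card_mul_index; rw [h32, hG] at this; omega
    have sol : Sol[(⊤ : Subgroup G)] := by
      refine isSolvable_of_map (QuotientGroup.mk' H) (by
        rw [QuotientGroup.ker_mk', top_inf_eq]; exact isSolvable_of_pgroup isPGroup_pCore) ?_
      haveI : IsZGroup (G ⧸ H) := IsZGroup.of_squarefree (by rw [← index_eq_card, i10]; decide +kernel)
      infer_instance
    have hk : κ.ker = H := by
      refine le_antisymm (fun g hg => ?_) fun g hg => h.ker.ge ⟨⟨g, hg⟩, by ext; simp⟩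
      obtain ⟨u, hu⟩ := h.ker.le (hg : MulAut.conjNormal g ∈ _)
      have : (u : G)⁻¹ * g ∈ H := by
        have := cent_fit_le sol
        rw [fit_top, ← hHF] at this
        refine this ⟨mem_top _, mem_cent_iff.2 fun x hx => ?_⟩
        have := congrArg (fun φ : MulAut H => (φ ⟨x, hx⟩ : G)) hu
        simp only [MulAut.conj_apply, MulAut.conjNormal_apply, coe_mul, coe_inv] at this
        calc _ = (u : G)⁻¹ * (u * x * (u : G)⁻¹) * g := by group
          _ = _ := by rw [this]; group
      simpa using mul_mem u.2 this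
    have hr : Nat.card κ.range = 10 := by rw [← index_ker, hk, i10]
    haveI := Fintype.ofFinite (IX H)
    have c5 : Fintype.card (IX H) = 5 := by rw [← Nat.card_eq_fintype_card, h.cardX]
    have t2 : T * T = 1 := by rw [← sq, ← hT, pow_orderOf_eq_one]
    have k2 : ∀ c, κ T (κ T c) = c := fun c => by rw [← Equiv.Perm.mul_apply, ← map_mul, t2, map_one]; rfl
    obtain ⟨c, hc⟩ : ∃ c, κ T c ≠ c := by
      by_contra a; push Not at a; exact hTH (hk.le (Equiv.ext a))
    obtain ⟨d, d1, d2, d3⟩ : ∃ d, c ≠ d ∧ κ T c ≠ d ∧ d ≠ κ T d := by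
      by_contra a; push Not at a
      have := Equiv.Perm.subgroup_eq_top_of_swap_mem (H := κ.range) (τ := κ T) (by rw [c5]; norm_num)
        (by rw [c5, ← Nat.card_eq_fintype_card, hr]; norm_num) ⟨T, rfl⟩ ⟨c, κ T c, hc.symm, Equiv.ext fun x => by
          by_cases h1 : x = c
          · rw [h1, Equiv.swap_apply_left]
          by_cases h2 : x = κ T c
          · rw [h2, Equiv.swap_apply_right, k2]
          · rw [Equiv.swap_apply_of_ne_of_ne h1 h2, ← a x (Ne.symm h1) (Ne.symm h2)]⟩
      rw [this, card_top, Nat.card_perm, h.cardX] at hr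
      simp [Nat.factorial] at hr
    have := h.card_fix (φ := MulAut.conjNormal T) (by rw [← map_mul, t2, map_one]) hc.symm d1 d2 d3
      (F := (H ⊓ C1[T]).subgroupOf H) fun g hg => Subtype.ext (by
        rw [MulAut.conjNormal_apply, mul_inv_eq_iff_eq_mul]; exact (mem_centralizer_singleton_iff.1 hg.2).symm)
    rw [card_subgroupOf inf_le_left] at this
    have e := eq_of_le_of_card_le hV (hV4 ▸ this)
    exact e ▸ ⟨hV4, hVe⟩

end Cfsg.Agent.S4405
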