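import Cfsg.Statements.S4406


set_option autoImplicit false
open Cfsg

namespace Cfsg.Agent.S4406

section
open Equiv Equiv.Perm MulAction Subgroup
open scoped commutatorElement

abbrev A := alternatingGroup (Fin 4)

set_option synthInstance.maxSize 2000 in
theorem key : ∀ q : A, q ^ 3 = 1 → q ≠ 1 → ∀ x : A, x ^ 4 = 1 → x ≠ 1 → ∀ y : A, y ^ 4 = 1 → y ≠ 1 → x ≠ y →
    ((q * x * q⁻¹ = y ∧ q * y * q⁻¹ = x * y) ∨ (q⁻¹ * x * q⁻¹⁻¹ = y ∧ q⁻¹ * y * q⁻¹⁻¹ = x * y)) ∧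
      ∀ z : A, z ^ 4 = 1 → z = 1 ∨ z = x ∨ z = y ∨ z = x * y := by
  decide +kernel

theorem key3 : ∀ q : A, q ^ 4 = 1 ∨ q ^ 3 = 1 := by decide +kernel

theorem ex3 {K : Subgroup A} (h : IsPGroup 3 K) (h1 : K ≠ ⊥) {x y : A} (a : x ^ 4 = 1) (b : x ≠ 1) (c : y ^ 4 = 1) (d : y ≠ 1) (e : x ≠ y) :
    (∃ q ∈ K, q ≠ 1 ∧ q ^ 3 = 1 ∧ q * x * q⁻¹ = y ∧ q * y * q⁻¹ = x * y) ∧ ∀ z : A, z ^ 4 = 1 → z = 1 ∨ z = x ∨ z = y ∨ z = x * y := by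
  obtain ⟨q, hq⟩ := ne_bot_iff_exists_ne_one.1 h1
  have q1 : q.1 ≠ 1 := fun e => hq (Subtype.ext e)
  have q3 : q.1 ^ 3 = 1 := (key3 q).resolve_left fun e => by
    obtain ⟨k, hk⟩ := h q
    exact q1 (by simpa [(Nat.Coprime.pow_right k (by decide : Nat.Coprime 4 3)).gcd_eq_one] using
      pow_gcd_eq_one.2 ⟨e, congrArg Subtype.val hk⟩)
  obtain ⟨h2 | h2, h3⟩ := key q q3 q1 x a b y c d e
  · exact ⟨⟨_, q.2, q1, q3, h2⟩, h3⟩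
  · exact ⟨⟨_, inv_mem q.2, by simpa, by simpa, h2⟩, h3⟩

theorem pprod {K L : Subgroup A} (h : IsPGroup 3 K) (h1 : IsPGroup 3 L) : IsPGroup 3 (K.prod L) := fun x => by
  obtain ⟨a, ha⟩ := h ⟨_, x.2.1⟩
  obtain ⟨b, hb⟩ := h1 ⟨_, x.2.2⟩
  refine ⟨a + b, Subtype.ext (Prod.ext ?_ ?_)⟩
  · simp [pow_add, pow_mul, show x.1.1 ^ 3 ^ a = 1 from congrArg Subtype.val ha]
  · simp [pow_add, pow_mul', show x.1.2 ^ 3 ^ b = 1 from congrArg Subtype.val hb]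

end

/-- In the direct product P = A₄ × A₄, let X be the Sylow 2-subgroup, X₁ and X₂ its intersections with the two direct factors, Q a Sylow 3-subgroup and Q₁, Q₂ its intersections with the two factors. Then every subgroup B of X of order 4 either meets X₁ or X₂ nontrivially, or is normalized by one of the two subgroups of Q of order 3 other than Q₁ and Q₂. -/
theorem result
    (X : Sylow 2 (↥(alternatingGroup (Fin 4)) × ↥(alternatingGroup (Fin 4))))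
    (Q : Sylow 3 (↥(alternatingGroup (Fin 4)) × ↥(alternatingGroup (Fin 4))))
    (B : Subgroup (↥(alternatingGroup (Fin 4)) × ↥(alternatingGroup (Fin 4)))) (hBX : B ≤ (X : Subgroup _)) (hB4 : Nat.card ↥B = 4) :
    B ⊓ ((X : Subgroup _) ⊓ Subgroup.prod ⊤ ⊥) ≠ ⊥ ∨ B ⊓ ((X : Subgroup _) ⊓ Subgroup.prod ⊥ ⊤) ≠ ⊥ ∨
      ∃ R : Subgroup (↥(alternatingGroup (Fin 4)) × ↥(alternatingGroup (Fin 4))), R ≤ (Q : Subgroup _) ∧ Nat.card ↥R = 3 ∧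
        R ≠ (Q : Subgroup _) ⊓ Subgroup.prod ⊤ ⊥ ∧ R ≠ (Q : Subgroup _) ⊓ Subgroup.prod ⊥ ⊤ ∧ R ≤ Subgroup.normalizer (B : Set _) := by
  open Equiv Equiv.Perm MulAction Subgroup in
  open scoped commutatorElement in
  · classical
    have : Fact (Nat.Prime 3) := ⟨by decide⟩
    by_contra! h
    obtain ⟨h1, h2, h⟩ := h
    have := Fintype.ofFinite B
    have i1 : ∀ b ∈ B, b.2 = 1 → b = 1 := fun b hb e => mem_bot.1 (h1.le ⟨hb, hBX hb, trivial, e⟩)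
    have i2 : ∀ b ∈ B, b.1 = 1 → b = 1 := fun b hb e => mem_bot.1 (h2.le ⟨hb, hBX hb, e, trivial⟩)
    have j1 : ∀ b ∈ B, ∀ c ∈ B, b.2 = c.2 → b = c := fun b hb c hc e => inv_mul_eq_one.1 (i1 _ (mul_mem (inv_mem hb) hc) (by simp [e]))
    have j2 : ∀ b ∈ B, ∀ c ∈ B, b.1 = c.1 → b = c := fun b hb c hc e => inv_mul_eq_one.1 (i2 _ (mul_mem (inv_mem hb) hc) (by simp [e]))
    have b4 : ∀ b ∈ B, b ^ 4 = 1 := fun b hb => congrArg Subtype.val (hB4 ▸ pow_card_eq_one' (x := (⟨b, hb⟩ : B)))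
    obtain ⟨u, v, u1, v1, uv⟩ : ∃ u v : B, u.1 ≠ 1 ∧ v.1 ≠ 1 ∧ u.1 ≠ v.1 := by
      obtain ⟨a, b, c, x, y, z⟩ := Fintype.two_lt_card_iff.1 (show 2 < Fintype.card B by rw [← Nat.card_eq_fintype_card, hB4]; decide)
      exact ⟨a⁻¹ * b, a⁻¹ * c, by simpa [inv_mul_eq_one], by simpa [inv_mul_eq_one], by simpa⟩
    have p1 := Q.2.map (MonoidHom.fst A A)
    have p2 := Q.2.map (MonoidHom.snd A A)
    have hQ : ∀ K L : Subgroup A, IsPGroup 3 K → IsPGroup 3 L → Q.1.map (MonoidHom.fst A A) ≤ K → Q.1.map (MonoidHom.snd A A) ≤ L →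
        K.prod L = Q := fun K L a b c d => Q.3 (pprod a b) fun x hx => ⟨c ⟨x, hx, rfl⟩, d ⟨x, hx, rfl⟩⟩
    obtain ⟨c, hc⟩ := exists_prime_orderOf_dvd_card' (G := A) 3 (by rw [Nat.card_eq_fintype_card]; decide +kernel)
    have pc : IsPGroup 3 (zpowers c) := .of_card (n := 1) (by rw [Nat.card_zpowers, hc, pow_one])
    have c1 : c ≠ 1 := fun e => by simp [e] at hc
    obtain ⟨⟨q, ⟨q', hq, rfl⟩, q1, q3, a1, a2⟩, a3⟩ := ex3 p1 (fun e => c1 (mem_bot.1 (e.le ⟨(c, 1), (hQ _ _ pc p2 (e.le.trans bot_le) le_rfl).le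
      ⟨mem_zpowers c, one_mem _⟩, rfl⟩))) (congrArg Prod.fst (b4 _ u.2)) (mt (i2 _ u.2) u1) (congrArg Prod.fst (b4 _ v.2)) (mt (i2 _ v.2) v1)
      (mt (j2 _ u.2 _ v.2) uv)
    obtain ⟨⟨r, ⟨r', hr, rfl⟩, r1, r3, d1, d2⟩, -⟩ := ex3 p2 (fun e => c1 (mem_bot.1 (e.le ⟨(1, c), (hQ _ _ p1 pc le_rfl (e.le.trans bot_le)).le
      ⟨one_mem _, mem_zpowers c⟩, rfl⟩))) (congrArg Prod.snd (b4 _ u.2)) (mt (i1 _ u.2) u1) (congrArg Prod.snd (b4 _ v.2)) (mt (i1 _ v.2) v1)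
      (mt (j1 _ u.2 _ v.2) uv)
    have e1 : (q'.1, r'.2) * u.1 * (q'.1, r'.2)⁻¹ = v := Prod.ext a1 d1
    have e2 : (q'.1, r'.2) * v.1 * (q'.1, r'.2)⁻¹ = u * v := Prod.ext a2 d2
    refine h (zpowers (q'.1, r'.2)) (zpowers_le.2 ((hQ _ _ p1 p2 le_rfl le_rfl).le ⟨⟨_, hq, rfl⟩, _, hr, rfl⟩)) ?_
      (fun e => r1 (e.le (mem_zpowers _)).2.2) (fun e => q1 (e.le (mem_zpowers _)).2.1) (zpowers_le.2 (mem_normalizer_fintype fun b hb => ?_))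
    · rw [Nat.card_zpowers]
      exact orderOf_eq_prime (Prod.ext q3 r3) fun e => q1 (congrArg Prod.fst e)
    rcases a3 b.1 (congrArg Prod.fst (b4 b hb)) with e | e | e | e
    · rw [i2 b hb e, mul_one, mul_inv_cancel]; exact one_mem _
    · rw [j2 b hb _ u.2 e, e1]; exact v.2
    · rw [j2 b hb _ v.2 e, e2]; exact (u * v).2
    · rw [j2 b hb _ (u * v).2 e, Subgroup.coe_mul, ← conj_mul, e1, e2]; exact (v * (u * v)).2

end Cfsg.Agent.S4406
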