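import Cfsg.Statements.S4410
import Mathlib
import Cfsg.Agent.H9.Tb7

set_option autoImplicit false
open Cfsg

namespace Cfsg.Agent.S4410

/-- Let V be a finite-dimensional vector space over the field with two elements and S a solvable group of linear automorphisms of V with O₂(S) = 1. If P ∈ S has order 4 and (P − 1)³ = 0 on V, then the image of (P − 1)² has at least 4 elements; equivalently, in the decomposition of V into indecomposable modules for the cyclic group generated by P, at least two summands have dimension 3. -/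
theorem result
    {V : Type*} [AddCommGroup V] [Module (ZMod 2) V] [Finite V]
    (S : Subgroup (V ≃ₗ[ZMod 2] V)) (hS : Group.IsSolvable ↥S) (hO2 : Cfsg.pCore 2 ↥S = ⊥)
    (P : V ≃ₗ[ZMod 2] V) (hPS : P ∈ S) (hP4 : orderOf P = 4)
    (hcub : ((P : V →ₗ[ZMod 2] V) - LinearMap.id) ^ 3 = 0) :
    4 ≤ Nat.card ↥(LinearMap.range (((P : V →ₗ[ZMod 2] V) - LinearMap.id) ^ 2)) := by
  open Subgroup Cfsg CfsgH2 Function CfsgCP CfsgTB in
  open scoped commutatorElement in
  haveI : Module.Finite (ZMod 2) V := Module.Finite.of_finite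
  haveI : Finite (V ≃ₗ[ZMod 2] V) := Finite.of_injective _ DFunLike.coe_injective
  let ρ : Representation (ZMod 2) S V := (LinearEquiv.automorphismGroup.toLinearMapMonoidHom).comp S.subtype
  have i : Injective ρ := fun a b e => Subtype.ext (LinearEquiv.toLinearMap_injective e)
  obtain ⟨q, _, Q, pq, n, s, t⟩ := thmB (p := 2) (n := 1) (r := 3) (x := ⟨P, hPS⟩) i
    (CfsgH1.isPSolvable_of_isSolvable Nat.prime_two) hO2 (by rw [orderOf_mk]; exact hP4) hcub
  obtain ⟨_, -, _, -, -, t, -⟩ := t.resolve_left (by norm_num)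
  obtain ⟨z, z1, z2⟩ := exists_ne_one (H := Φ[Q]) fun e => t ((comm_le_phi (nil_of_pg s.pg)).trans (e.le.trans bot_le))
  have zQ := phi_le z1
  obtain ⟨W, w1, w2, w3⟩ := exists_W (ρ := ρ) (card_ne (s.pg.to_le (zpowers_le.2 zQ)) pq)
    ⟨z, mem_zpowers z, fun e => z2 (i (e.trans ρ.map_one.symm))⟩
  have a : Q ≤ St ρ W := (le_centralizer_iff.1 (zpowers_le.2 (s.phi z1))).trans ((cent_le_norm _).trans w2)
  have c := (s.cen.ge z1).2
  have b := w2 (cent_le_norm _ (le_centralizer_iff.1 (zpowers_le.2 c) (mem_zpowers _)))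
  set y : S := ⟨P, hPS⟩ ^ 2 ^ 1 with hy
  have e : ((P : V →ₗ[ZMod 2] V) - LinearMap.id) ^ 2 = ρ y - 1 := by
    rw [hy, map_pow]; exact sub_one_pow (K := ZMod 2) (p := 2) _ 1
  obtain ⟨w, x1, x2⟩ : ∃ w ∈ W, ρ y w - w ≠ 0 := by
    by_contra! f
    exact w1 (w3 W le_rfl ((zpowers_le.2 zQ).trans (s.comm.ge.trans ((commutator_mono le_rfl
      (zpowers_le.2 (show y ∈ Fx ρ W from fun v hv => sub_eq_zero.1 (f v hv)))).trans (comm_le_right (a.trans St_le_norm))))))
  have x3 : ρ z (ρ y w - w) ≠ ρ y w - w := fun f => x2 (by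
    refine Submodule.span_singleton_eq_bot.1 (w3 _ ((Submodule.span_singleton_le_iff_mem _ _).2
      (sub_mem (b w x1) x1)) (zpowers_le.2 fun v hv => ?_))
    obtain ⟨d, rfl⟩ := Submodule.mem_span_singleton.1 hv
    rw [map_smul, f])
  rw [e]
  have m : ρ z (ρ y w - w) ∈ LinearMap.range (ρ y - 1) := ⟨ρ z w, by
    rw [map_sub, ← Module.End.mul_apply (ρ z), ← map_mul, ← c y (mem_zpowers y)]; simp⟩
  have h1 : 2 < Nat.card (LinearMap.range (ρ y - 1)) := by
    have := Fintype.ofFinite (LinearMap.range (ρ y - 1))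
    rw [Nat.card_eq_fintype_card, Fintype.two_lt_card_iff]
    refine ⟨0, ⟨_, w, rfl⟩, ⟨_, m⟩, fun f => x2 (congrArg Subtype.val f).symm, fun f => x2 ?_,
      fun f => x3 (congrArg Subtype.val f).symm⟩
    simpa using congrArg (fun v => ρ z⁻¹ v.1) f.symm
  rw [Module.natCard_eq_pow_finrank (K := ZMod 2), Nat.card_zmod] at h1 ⊢
  exact Nat.pow_le_pow_right (n := 2) (i := 2) two_pos ((Nat.pow_lt_pow_iff_right (n := 1) one_lt_two).1 h1)

end Cfsg.Agent.S4410
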