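import Cfsg.Statements.S4411
import Mathlib
import Cfsg.Agent.H9.MvP2

set_option autoImplicit false
open Cfsg

namespace Cfsg.Agent.S4411

/-- Let p and q be distinct primes with {p, q} ≠ {2, 3}, and let G be a finite group such that for every p-subgroup H of G the automizer N_G(H)/C_G(H) is p-solvable. If q divides the order of N_G(H)/C_G(H) for some p-subgroup H, then a Sylow p-subgroup of G has a normal subgroup K (normal in the Sylow subgroup) such that q divides the order of N_G(K)/C_G(K). -/
theorem result {G : Type*} [Group G] [Finite G]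
    (p q : ℕ) [Fact p.Prime] [Fact q.Prime] (hpq : p ≠ q) (h23 : ¬ ((p = 2 ∧ q = 3) ∨ (p = 3 ∧ q = 2)))
    (hsol : ∀ H : Subgroup G, IsPGroup p ↥H →
      Cfsg.IsPSolvable p (↥(Subgroup.normalizer (H : Set G)) ⧸ (Subgroup.centralizer (H : Set G)).subgroupOf (Subgroup.normalizer (H : Set G))))
    (H : Subgroup G) (hH : IsPGroup p ↥H)
    (hq : q ∣ ((Subgroup.centralizer (H : Set G)).subgroupOf (Subgroup.normalizer (H : Set G))).index)
    (Gp : Sylow p G) :
    ∃ K : Subgroup G, K ≤ (Gp : Subgroup G) ∧ (Gp : Subgroup G) ≤ Subgroup.normalizer (K : Set G) ∧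
      q ∣ ((Subgroup.centralizer (K : Set G)).subgroupOf (Subgroup.normalizer (K : Set G))).index := by
  open Subgroup Cfsg CfsgH2 Function in
  open scoped commutatorElement in
  open CfsgMV in
  have h6 : ∀ n, PiN {p, q} n → ¬ 6 ∣ n := fun n h hd => by
    have h2 := h 2 Nat.prime_two (Dvd.dvd.trans (by norm_num) hd)
    have h3 := h 3 Nat.prime_three (Dvd.dvd.trans (by norm_num) hd)
    simp only [Set.mem_insert_iff, Set.mem_singleton_iff] at h2 h3
    omega
  obtain ⟨K, k1, k2, k3⟩ := main hpq h6 _ G ⊤ rfl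
    (fun H _ h => (ps_of_quot (hsol H h)).mono inf_le_right le_rfl) H le_top hH
    (mv_iff.2 (by rw [top_inf_eq]; exact hq)) Gp (syl_top Gp)
  rw [mv_iff, top_inf_eq] at k3
  exact ⟨K, k1, k2, k3⟩

end Cfsg.Agent.S4411
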