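import Cfsg.Statements.S4412
import Mathlib
import Cfsg.Agent.L0.Brd

set_option autoImplicit false
open Cfsg

namespace Cfsg.Agent.S4412

open CfsgL0 Subgroup CfsgH2 CfsgHv Cfsg

/-- Let p be an odd prime, P a finite p-group and I an elementary abelian subgroup of order 8 of Aut(P). Call T ∈ I, T ≠ 1, broad when its fixed-point subgroup C_P(T) is not cyclic. Suppose I has a proper subgroup I₀ containing no broad element such that the product of any two broad elements lies in I₀. Then P is abelian of rank exactly 3 (generated by three elements but not by two), there are exactly three broad elements and they generate I, and I₀ is exactly the set of products of two broad elements. -/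
theorem result
    {P : Type*} [Group P] [Finite P] (p : ℕ) (hp : p.Prime) (hp2 : p ≠ 2) (hP : IsPGroup p P)
    (I : Subgroup (MulAut P)) (hI : Cfsg.IsElementaryAbelian 2 I) (hI8 : Nat.card ↥I = 8)
    (I₀ : Subgroup (MulAut P)) (hI₀ : I₀ < I)
    (hdisj : ∀ T ∈ I₀, T ≠ 1 → ∃ g : P, ∀ x : P, (T x = x ↔ x ∈ Subgroup.zpowers g))
    (hprod : ∀ T ∈ I, ∀ T' ∈ I, T ≠ 1 → T' ≠ 1 → (¬ ∃ g : P, ∀ x : P, (T x = x ↔ x ∈ Subgroup.zpowers g)) →
      (¬ ∃ g : P, ∀ x : P, (T' x = x ↔ x ∈ Subgroup.zpowers g)) → T * T' ∈ I₀) :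
    IsMulCommutative P ∧ (∃ a b c : P, Subgroup.closure {a, b, c} = ⊤) ∧ (¬ ∃ a b : P, Subgroup.closure {a, b} = ⊤) ∧
      Nat.card {T : MulAut P // T ∈ I ∧ T ≠ 1 ∧ ¬ ∃ g : P, ∀ x : P, (T x = x ↔ x ∈ Subgroup.zpowers g)} = 3 ∧
      Subgroup.closure {T : MulAut P | T ∈ I ∧ T ≠ 1 ∧ ¬ ∃ g : P, ∀ x : P, (T x = x ↔ x ∈ Subgroup.zpowers g)} = I ∧
      (I₀ : Set (MulAut P)) = {S : MulAut P | ∃ T T' : MulAut P, T ∈ I ∧ T' ∈ I ∧ T ≠ 1 ∧ T' ≠ 1 ∧
        (¬ ∃ g : P, ∀ x : P, (T x = x ↔ x ∈ Subgroup.zpowers g)) ∧ (¬ ∃ g : P, ∀ x : P, (T' x = x ↔ x ∈ Subgroup.zpowers g)) ∧ S = T * T'} := by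
  classical
  have : Fact p.Prime := ⟨hp⟩
  have := hI.1
  have sq (x) (hx : x ∈ I) : x * x = 1 := by rw [← sq, hI.2 x hx]
  have cm {S T} (hS : S ∈ I) (hT : T ∈ I) (x : P) : S (T x) = T (S x) := by
    rw [← MulAut.mul_apply, setLike_mul_comm hS hT]; rfl
  have cop : (2 : ℕ).Coprime (Nat.card P) := by
    obtain ⟨n, hn⟩ := IsPGroup.iff_card.1 hP
    exact hn ▸ ((Nat.coprime_primes Nat.prime_two hp).2 hp2.symm).pow_right n
  have ni {x : P} (e : x⁻¹ = x) : x = 1 := orderOf_eq_one_iff.1 (Nat.eq_one_of_dvd_coprimes cop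
    (orderOf_dvd_of_pow_eq_one (by rw [pow_two, inv_eq_iff_mul_eq_one.1 e])) (orderOf_dvd_natCard x))
  obtain ⟨U, l0, lU, kU, hU⟩ : ∃ U, I₀ ≤ U ∧ U ≤ I ∧ IsKleinFour U ∧ ∀ T ∈ U, T ≠ 1 → ∃ g : P, ∀ x : P, (T x = x ↔ x ∈ zpowers g) := by
    by_cases k : ∃ t ∈ I, t ≠ 1 ∧ ¬ ∃ g : P, ∀ x : P, (t x = x ↔ x ∈ zpowers g)
    · obtain ⟨t, ht, t1, k⟩ := k
      obtain ⟨U, h1, h2, h3, h4⟩ := exists_klein_avoid hI hI8 hI₀.le ht fun e => k (hdisj t e t1)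
      exact ⟨U, h1, h2, h4, fun T hT T1 => by_contra fun n => h3 ((mul_mem_cancel_right hT).1 (h1 (hprod t ht T (h2 hT) t1 T1 k n)))⟩
    · obtain ⟨t, ht, n⟩ := SetLike.exists_of_lt hI₀
      obtain ⟨U, h1, h2, -, h4⟩ := exists_klein_avoid hI hI8 hI₀.le ht n
      exact ⟨U, h1, h2, h4, fun T hT T1 => by_contra fun n => k ⟨T, h2 hT, T1, n⟩⟩
  obtain ⟨a, ha, a1, -⟩ := klein_other kU 1
  obtain ⟨b, hb, b1, ab⟩ := klein_other kU a
  obtain ⟨u, hu, u1, uU⟩ : ∃ u : Fin 3 → MulAut P, (∀ i, u i ∈ U) ∧ (∀ i, u i ≠ 1) ∧ ∀ T ∈ U, T = 1 ∨ ∃ i, T = u i := by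
    refine ⟨![a, b, a * b], fun i => ?_, fun i => ?_, fun T hT => ?_⟩
    · fin_cases i; exacts [ha, hb, mul_mem ha hb]
    · fin_cases i; exacts [a1, b1, fun e => ab (mul_left_cancel (a := a) (e.trans (sq a (lU ha)).symm))]
    · rcases klein_mem kU ha hb a1 b1 ab.symm hT with e | e | e | e
      exacts [.inl e, .inr ⟨0, e⟩, .inr ⟨1, e⟩, .inr ⟨2, e⟩]
  choose c hc using fun i => hU _ (hu i) (u1 i)
  have gen : closure (Set.range c) = ⊤ := aut_gen kU (cop.pow_left 2) fun T hT T1 x hx => by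
    obtain ⟨i, rfl⟩ := (uU T hT).resolve_left T1
    exact zpowers_le.2 (Subgroup.subset_closure (Set.mem_range_self i)) ((hc i x).1 hx)
  have sg {S T} (hS : S ∈ I) (hT : T ∈ I) {g : P} (h : ∀ x, S x = x ↔ x ∈ zpowers g) : T g = g ∨ T g = g⁻¹ :=
    aut_sign hp hp2 hP (sq T hT) ((h _).1 (by rw [cm hS hT, (h g).2 (mem_zpowers g)]))
  have sn {T} (hT : T ∈ I) (i) (n : T (c i) ≠ c i) : T (c i) = (c i)⁻¹ := (sg (lU (hu i)) hT (hc i)).resolve_left n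
  have zi {T : MulAut P} {g x : P} (e : T g = g⁻¹) (hx : x ∈ zpowers g) : T x = x⁻¹ := by
    obtain ⟨k, rfl⟩ := hx; simp [e]
  have zf {T : MulAut P} {g x : P} (e : T g = g) (hx : x ∈ zpowers g) : T x = x := by
    obtain ⟨k, rfl⟩ := hx; simp [e]
  have ext {S T} (hS : S ∈ I) (hT : T ∈ I) (h : ∀ i, S (c i) = c i ↔ T (c i) = c i) : S = T := by
    refine MulEquiv.toMonoidHom_injective (MonoidHom.eq_of_eqOn_dense gen ?_)
    rintro _ ⟨i, rfl⟩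
    by_cases k : S (c i) = c i
    · exact k.trans ((h i).1 k).symm
    · exact (sn hS i k).trans (sn hT i fun e => k ((h i).2 e)).symm
  have sj (σ : Fin 3 → Bool) : ∃ T ∈ I, ∀ i, T (c i) = c i ↔ σ i := by
    obtain ⟨T, e⟩ := ((Nat.bijective_iff_injective_and_card fun (T : I) i => decide (T.1 (c i) = c i)).2
      ⟨fun S T e => Subtype.ext (ext S.2 T.2 fun i => decide_eq_decide.1 (congrFun e i)), by simp [hI8]⟩).2 σ
    exact ⟨T, T.2, fun i => by rw [← e]; simp⟩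
  choose t ht tc using fun i => sj fun j => j ≠ i
  simp only [decide_eq_true_iff] at tc
  have ti (i) : t i (c i) = (c i)⁻¹ := sn (ht i) i fun e => (tc i i).1 e rfl
  have c1 (i) : c i ≠ 1 := fun e => (tc i i).1 (by rw [e, map_one]) rfl
  have uc (i j) : u i (c j) = c j ↔ j = i := ⟨fun e => by_contra fun n =>
    c1 j (ni ((zi (ti i) ((hc i _).1 e)).symm.trans ((tc i j).2 n))), fun e => e ▸ (hc j _).2 (mem_zpowers _)⟩
  have sm {S T} (hS : S ∈ I) (hT : T ∈ I) (i) : (S * T) (c i) = c i ↔ (S (c i) = c i ↔ T (c i) = c i) := by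
    rw [MulAut.mul_apply]
    by_cases k : T (c i) = c i
    · simp [k]
    · rw [sn hT i k, map_inv]
      by_cases k' : S (c i) = c i
      · simpa [k, k'] using fun e => c1 i (ni e)
      · simp [sn hS i k', fun e => c1 i (ni e)]
  have ut (i) : u i = t (i + 1) * t (i + 2) := ext (lU (hu i)) (mul_mem (ht _) (ht _)) fun j => by
    rw [uc, sm (ht _) (ht _), tc, tc]; revert i j; decide
  have cc (i j) : c i * c j = c j * c i := by
    obtain rfl | ⟨k, h1, h2⟩ := (by decide : ∀ i j : Fin 3, i = j ∨ ∃ k, i ≠ k ∧ j ≠ k) i j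
    · rfl
    let F := (t k).toMonoidHom.eqLocus (MonoidHom.id P)
    let φ : F →* F := ((u k).toMonoidHom.comp F.subtype).codRestrict F fun x =>
      (cm (ht k) (lU (hu k)) x).trans (congrArg (u k) x.2)
    exact congrArg Subtype.val (MonoidHom.FixedPointFree.commute_all_of_involutive (φ := φ)
      (fun x e => Subtype.ext (ni ((zi (ti k) ((hc k _).1 (congrArg Subtype.val e))).symm.trans x.2)))
      (fun x => Subtype.ext (by change (u k * u k) x = x; rw [sq _ (lU (hu k))]; rfl)) ⟨c i, (tc k i).2 h1⟩ ⟨c j, (tc k j).2 h2⟩)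
  have ab : IsMulCommutative P := by
    have := isMulCommutative_closure (k := Set.range c) (by rintro _ ⟨i, rfl⟩ _ ⟨j, rfl⟩; exact cc i j)
    exact ⟨⟨fun x y => setLike_mul_comm (s := closure (Set.range c)) (gen.ge (mem_top x)) (gen.ge (mem_top y))⟩⟩
  have cl (T) (hT : T ∈ I) : T = 1 ∨ (∃ i, T = t i) ∨ (∃ i, T = u i) ∨ T = t 0 * u 0 := by
    rcases (by decide : ∀ σ : Fin 3 → Bool, (∀ j, σ j ↔ j = j) ∨ (∃ i, ∀ j, σ j ↔ j ≠ i) ∨ (∃ i, ∀ j, σ j ↔ j = i) ∨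
      ∀ j, σ j ↔ (j ≠ 0 ↔ j = 0)) fun j => decide (T (c j) = c j) with e | ⟨i, e⟩ | ⟨i, e⟩ | e <;> simp only [decide_eq_true_iff] at e
    · exact .inl (ext hT (one_mem _) fun j => by simp [e])
    · exact .inr (.inl ⟨i, ext hT (ht i) fun j => by rw [e, tc]⟩)
    · exact .inr (.inr (.inl ⟨i, ext hT (lU (hu i)) fun j => by rw [e, uc]⟩))
    · exact .inr (.inr (.inr (ext hT (mul_mem (ht _) (lU (hu _))) fun j => by rw [e, sm (ht _) (lU (hu _)), tc, uc])))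
  have br (T) : (T ∈ I ∧ T ≠ 1 ∧ ¬ ∃ g : P, ∀ x : P, (T x = x ↔ x ∈ zpowers g)) ↔ ∃ i, t i = T := by
    refine ⟨fun ⟨hT, T1, n⟩ => ?_, ?_⟩
    · rcases cl T hT with e | ⟨i, e⟩ | ⟨i, rfl⟩ | rfl
      exacts [(T1 e).elim, ⟨i, e.symm⟩, (n ⟨_, hc i⟩).elim, (n ⟨1, fun x => by
        have : (t 0 * u 0).toMonoidHom = MonoidHom.mk' (·⁻¹) fun a b => by rw [mul_inv_rev, mul_comm'] :=
          MonoidHom.eq_of_eqOn_dense gen (by
            rintro _ ⟨i, rfl⟩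
            exact sn hT i (by rw [Ne, sm (ht _) (lU (hu _)), tc, uc]; tauto))
        rw [zpowers_one_eq_bot, mem_bot]
        exact ⟨fun e => ni ((DFunLike.congr_fun this x).symm.trans e), fun e => by rw [e, map_one]⟩⟩).elim]
    rintro ⟨k, rfl⟩
    refine ⟨ht k, fun e => (tc k k).1 (by rw [e]; rfl) rfl, fun ⟨g, hg⟩ => ?_⟩
    obtain ⟨i, j, h1, h2, h3⟩ := (by decide : ∀ k : Fin 3, ∃ i j, i ≠ k ∧ j ≠ k ∧ j ≠ i) k
    rcases sg (ht k) (ht i) hg with e | e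
    · exact (tc i i).1 (zf e ((hg _).1 ((tc k i).2 h1))) rfl
    · exact c1 j (ni ((zi e ((hg _).1 ((tc k j).2 h2))).symm.trans ((tc i j).2 h3)))
  refine ⟨ab, ⟨c 0, c 1, c 2, by rw [← gen]; congr 1; ext x; simp [Fin.exists_fin_succ, eq_comm]⟩, fun ⟨a, b, e⟩ => ?_, ?_, le_antisymm
    ((closure_le _).2 fun T hT => hT.1) fun T hT => ?_, Set.Subset.antisymm (fun T hT => ?_) ?_⟩
  · have : ∀ i, ∃ d ∈ zpowers (c i), orderOf d = p := fun i => exists_prime_order_mem hp (by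
      obtain ⟨_ | n, hn⟩ := IsPGroup.iff_orderOf.1 hP (c i)
      · exact (c1 i (orderOf_eq_one_iff.1 hn)).elim
      · rw [Nat.card_zpowers, hn]; exact dvd_pow_self p n.succ_ne_zero)
    choose d hd od using this
    have d1 (i) (e : t i (d i) = d i) : False := hp.one_lt.ne' (od i ▸ orderOf_eq_one_iff.2 (ni ((zi (ti i) (hd i)).symm.trans e)))
    have df (i j) (n : j ≠ i) : zpowers (d j) ≤ (t i).toMonoidHom.eqLocus (MonoidHom.id P) := zpowers_le.2 (zf ((tc i j).2 n) (hd j))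
    exact not_two_gen hp (od 0) (od 1 ▸ pow_orderOf_eq_one _) (od 2 ▸ pow_orderOf_eq_one _) (fun k => d1 1 (df 1 0 (by decide) k))
      (fun k => d1 2 (sup_le (df 2 0 (by decide)) (df 2 1 (by decide)) k)) a b e
  · simp only [br]
    exact (Nat.card_range_of_injective (f := t) fun i j e => by_contra fun n => (tc i i).1 (e ▸ (tc j i).2 n) rfl).trans (by simp)
  · have m (i) := Subgroup.subset_closure (G := MulAut P) (k := {T | T ∈ I ∧ T ≠ 1 ∧ ¬ ∃ g : P, ∀ x : P, (T x = x ↔ x ∈ zpowers g)}) ((br _).2 ⟨i, rfl⟩)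
    rcases cl T hT with rfl | ⟨i, rfl⟩ | ⟨i, rfl⟩ | rfl
    exacts [one_mem _, m i, ut i ▸ mul_mem (m _) (m _), ut 0 ▸ mul_mem (m _) (mul_mem (m _) (m _))]
  · have m (i j) : t i * t j ∈ {S : MulAut P | ∃ T T' : MulAut P, T ∈ I ∧ T' ∈ I ∧ T ≠ 1 ∧ T' ≠ 1 ∧
        (¬ ∃ g : P, ∀ x : P, (T x = x ↔ x ∈ zpowers g)) ∧ (¬ ∃ g : P, ∀ x : P, (T' x = x ↔ x ∈ zpowers g)) ∧ S = T * T'} :=
      ⟨_, _, ht i, ht j, ((br _).2 ⟨i, rfl⟩).2.1, ((br _).2 ⟨j, rfl⟩).2.1, ((br _).2 ⟨i, rfl⟩).2.2, ((br _).2 ⟨j, rfl⟩).2.2, rfl⟩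
    rcases uU T (l0 hT) with rfl | ⟨i, rfl⟩
    exacts [sq _ (ht 0) ▸ m 0 0, ut i ▸ m _ _]
  · rintro _ ⟨S, T, h1, h2, h3, h4, h5, h6, rfl⟩
    exact hprod S h1 T h2 h3 h4 h5 h6

end Cfsg.Agent.S4412
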