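import Cfsg.Statements.S4413
import Cfsg.Agent.H2.Pq1

set_option autoImplicit false
open Cfsg

namespace Cfsg.Agent.S4413
open CfsgH2

/-- Let P be an extraspecial 2-group of order 32 with no elementary abelian subgroup of order 8 (the central product of a dihedral and a quaternion group of order 8). Then the inner automorphism group of P has order 16 and the outer automorphism group Aut(P)/Inn(P) is isomorphic to the symmetric group of degree 5; in particular Aut(P) has order 1920. -/
theorem result {P : Type*} [Group P] [Finite P]
    (hex : Cfsg.IsExtraspecial 2 P) (h32 : Nat.card P = 32)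
    (hminus : ∀ A : Subgroup P, Cfsg.IsElementaryAbelian 2 A → Nat.card ↥A ≤ 4)
    [(MulAut.conj : P →* MulAut P).range.Normal] :
    Nat.card ↥(MulAut.conj : P →* MulAut P).range = 16 ∧ Nat.card (MulAut P) = 1920 ∧
      Nonempty ((MulAut P ⧸ (MulAut.conj : P →* MulAut P).range) ≃* Equiv.Perm (Fin 5)) := by
  open Subgroup Function in open scoped commutatorElement in
  · have h : Mn P := ⟨(extraspecial_top_iff.1 hex).1, h32, hminus⟩
    have h1 : Nat.card (MulAut.conj : P →* MulAut P).range = 16 := by
      have := (MulAut.conj : P →* MulAut P).ker.card_mul_index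
      have e : (MulAut.conj : P →* MulAut P).ker = center P := by
        ext g; simp only [MonoidHom.mem_ker, MulEquiv.ext_iff, mem_center_iff, MulAut.conj_apply, mul_inv_eq_iff_eq_mul,
          MulAut.one_apply]
        exact forall_congr' fun _ => eq_comm
      rw [index_ker, e, h.cardZ, h32] at this
      omega
    have e := ((QuotientGroup.quotientMulEquivOfEq h.ker.symm).trans (QuotientGroup.quotientKerEquivOfSurjective _ h.surj)).trans
      (Finite.equivFinOfCardEq h.cardX).permCongrHom
    refine ⟨h1, ?_, ⟨e⟩⟩
    rw [card_eq_card_quotient_mul_card_subgroup (MulAut.conj : P →* MulAut P).range, h1, Nat.card_congr e.toEquiv, Nat.card_perm]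
    simp [Nat.factorial]

end Cfsg.Agent.S4413
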