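import Cfsg.Statements.S4417
import Cfsg.Agent.H2.PG1

set_option autoImplicit false
open Cfsg

open Function Subgroup Module
open scoped commutatorElement

namespace Cfsg.Agent.S4417
universe u
variable {K : Type u} [Field K] {p : ℕ} [hp : Fact p.Prime]

theorem exists_z {P : Type*} [Group P] [Finite P] (hP : IsPGroup p P) {D : Subgroup P} [D.Normal] (h : D ≠ ⊥) :
    ∃ z ∈ D, z ∈ center P ∧ orderOf z = p := by
  have h1 := CfsgH2.inf_cent_ne_bot' (hP.to_subgroup ⊤) (hP.to_subgroup D) le_normalizer_of_normal h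
  obtain ⟨z, hz⟩ := exists_prime_orderOf_dvd_card' p (CfsgH2.dvd_card_of_pgroup (hP.to_subgroup _) h1)
  exact ⟨z, z.2.1, mem_center_iff.2 fun g => z.2.2 g trivial, (orderOf_coe z).trans hz⟩

theorem eig [IsAlgClosed K] (h0 : (p : K) ≠ 0) {V : Type*} [AddCommGroup V] [Module K V] [FiniteDimensional K V]
    {f : End K V} (h : f ^ p = 1) (h1 : f ≠ 1) : ∃ ζ ≠ 1, f.HasEigenvalue ζ := by
  have hi : ∀ v ∈ LinearMap.range (f - 1), f v ∈ LinearMap.range (f - 1) := by
    rintro _ ⟨v, rfl⟩
    exact ⟨f v, by simp⟩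
  haveI : Nontrivial (LinearMap.range (f - 1)) := Submodule.nontrivial_iff_ne_bot.2 fun c =>
    h1 (sub_eq_zero.1 (LinearMap.range_eq_bot.1 c))
  obtain ⟨ζ, hζ⟩ := End.exists_eigenvalue (f.restrict hi)
  obtain ⟨⟨_, v, rfl⟩, hv⟩ := hζ.exists_hasEigenvector
  have h2 : f ((f - 1) v) = ζ • (f - 1) v := congrArg Subtype.val hv.apply_eq_smul
  have h3 : (f - 1) v ≠ 0 := fun c => hv.2 (Subtype.ext c)
  refine ⟨ζ, ?_, End.hasEigenvalue_of_hasEigenvector ⟨End.mem_eigenspace_iff.2 h2, h3⟩⟩
  rintro rfl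
  have h4 : ∀ i, (f ^ i) ((f - 1) v) = (f - 1) v := fun i => by
    induction i with
    | zero => rfl
    | succ i ih => rw [pow_succ, End.mul_apply, h2, one_smul, ih]
  have h5 := LinearMap.congr_fun (geom_sum_mul f p) v
  rw [h, sub_self, End.mul_apply, LinearMap.sum_apply, Finset.sum_congr rfl fun i _ => h4 i, Finset.sum_const,
    Finset.card_range, ← Nat.cast_smul_eq_nsmul K] at h5
  exact smul_ne_zero h0 h3 h5

variable (K p) in
def A (k : ℕ) (V : Type u) [AddCommGroup V] [Module K V] : Prop :=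
  ∀ P : Subgroup (End K V)ˣ, Finite P → IsPGroup p P → derivedSeries P (k + 1) = ⊥

theorem A.fix {k : ℕ} {V : Type u} [AddCommGroup V] [Module K V] {W : Submodule K V} (h : A K p k W) {Q : Type*} [Group Q]
    [Finite Q] (hQ : IsPGroup p Q) (ρ : Q →* End K V) (hW : ∀ g, ∀ w ∈ W, ρ g w ∈ W) {x : Q}
    (hx : x ∈ derivedSeries Q (k + 1)) {w : V} (hw : w ∈ W) : ρ x w = w := by
  let r := (Representation.subrepresentation ρ W hW).toHomUnits
  have := map_derivedSeries_le_derivedSeries r.rangeRestrict (k + 1) ⟨x, hx, rfl⟩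
  rw [h r.range (Finite.of_surjective _ r.rangeRestrict_surjective) (hQ.of_surjective _ r.rangeRestrict_surjective),
    mem_bot] at this
  exact congrArg (fun f : r.range => ((f.1.1 ⟨w, hw⟩ : W) : V)) this

theorem der_succ {P : Type*} [Group P] (k : ℕ) :
    (derivedSeries (commutator P) k).map (commutator P).subtype = derivedSeries P (k + 1) := by
  induction k with
  | zero => exact (MonoidHom.range_eq_map _).symm.trans (range_subtype _)
  | succ k ih => rw [derivedSeries_succ, map_commutator, ih]; rfl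

theorem comm_eig {V : Type*} [AddCommGroup V] [Module K V] {f g : End K V} (h : f * g = g * f) (a : K) :
    ∀ w ∈ f.eigenspace a, g w ∈ f.eigenspace a := fun w hw => End.mem_eigenspace_iff.2 <| by
  rw [← End.mul_apply, h, End.mul_apply, End.mem_eigenspace_iff.1 hw, map_smul]

theorem step [IsAlgClosed K] (h0 : (p : K) ≠ 0) {k : ℕ} (ih : ∀ (V : Type u) [AddCommGroup V] [Module K V]
    [FiniteDimensional K V], finrank K V < 2 ^ (k + 1) → A K p k V) (n : ℕ) : ∀ (V : Type u) [AddCommGroup V] [Module K V]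
    [FiniteDimensional K V], finrank K V < n → finrank K V < 2 ^ (k + 2) → A K p (k + 1) V := by
  induction n with
  | zero => exact fun V _ _ _ h => absurd h (Nat.not_lt_zero _)
  | succ n ih2 =>
    intro V _ _ _ h1 h2 P _ hP
    by_contra hD
    obtain ⟨z, hz, hzc, hzp⟩ := exists_z hP hD
    let ρ : P →* End K V := (Units.coeHom _).comp P.subtype
    have inj : Injective ρ := Units.val_injective.comp Subtype.val_injective
    have hz1 : z ≠ 1 := fun c => hp.out.one_lt.ne (by rw [← hzp, c, orderOf_one])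
    obtain ⟨ζ, hζ1, hζ⟩ := eig h0 (f := ρ z) (by rw [← map_pow, ← hzp, pow_orderOf_eq_one, map_one])
      fun c => hz1 (inj (c.trans (map_one ρ).symm))
    have h3 : ∀ W : Submodule K V, (∀ g, ∀ w ∈ W, ρ g w ∈ W) → W ≠ ⊤ → ∀ w ∈ W, ρ z w = w := fun W hW h w hw =>
      (ih2 W ((Submodule.finrank_lt h).trans_le (Nat.le_of_lt_succ h1)) (W.finrank_le.trans_lt h2)).fix hP ρ hW hz hw
    have cen : ∀ y ∈ center P, ∀ a, ∀ g, ∀ w ∈ (ρ y).eigenspace a, ρ g w ∈ (ρ y).eigenspace a := fun y hy a g =>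
      comm_eig (by rw [← map_mul, ← map_mul, mem_center_iff.1 hy]) a
    have h4 : ∀ w, ρ z w = w → w ∈ (ρ z).eigenspace ζ → w = 0 := fun w h hw => by
      rw [End.mem_eigenspace_iff, h] at hw
      exact (smul_eq_zero.1 (show (ζ - 1) • w = 0 by rw [sub_smul, one_smul, ← hw, sub_self])).resolve_left
        (sub_ne_zero.2 hζ1)
    have h5 : (ρ z).eigenspace ζ = ⊤ := by_contra fun c =>
      hζ (eq_bot_iff.2 fun w hw => h4 w (h3 _ (cen z hzc ζ) c w hw) hw)
    haveI : Nontrivial V := not_subsingleton_iff_nontrivial.1 fun _ => hζ (Subsingleton.elim _ _)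
    have schur : ∀ y ∈ center P, ∃ a : K, ∀ w, ρ y w = a • w := fun y hy => by
      obtain ⟨a, ha⟩ := End.exists_eigenvalue (ρ y)
      have : (ρ y).eigenspace a = ⊤ := by_contra fun c =>
        ha (eq_bot_iff.2 fun w hw => h4 w (h3 _ (cen y hy a) c w hw) (h5.ge trivial))
      exact ⟨a, fun w => End.mem_eigenspace_iff.1 (this.ge trivial)⟩
    haveI : Nontrivial (P ⧸ center P) := QuotientGroup.nontrivial_iff.2 fun c => hD (eq_bot_iff.2
      ((derivedSeries_antitone P (Nat.le_add_left 1 (k + 1))).trans ((commutator_eq_bot_iff_center_eq_top P).2 c).le))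
    haveI := (hP.to_quotient (center P)).center_nontrivial
    obtain ⟨⟨x, hx⟩, hx1⟩ := exists_ne (1 : center (P ⧸ center P))
    obtain ⟨x, rfl⟩ := QuotientGroup.mk_surjective x
    have h6 : ∀ g, (g * x)⁻¹ * (x * g) ∈ center P := fun g => QuotientGroup.eq.1 (mem_center_iff.1 hx g)
    obtain ⟨g, hg⟩ := not_forall.1 fun c => hx1 (Subtype.ext ((QuotientGroup.eq_one_iff x).2 (mem_center_iff.2 c)))
    obtain ⟨c, hc⟩ := schur _ (h6 g)
    obtain ⟨a, ha⟩ := End.exists_eigenvalue (ρ x)
    have inj2 : ∀ g, Injective (ρ g) := fun g => LeftInverse.injective (g := ρ g⁻¹) fun w => by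
      rw [← End.mul_apply, ← map_mul, inv_mul_cancel, map_one, End.one_apply]
    have h7 : ∀ w, ρ x (ρ g w) = c • ρ g (ρ x w) := fun w => by
      rw [← map_smul, ← map_smul, ← hc, ← End.mul_apply, ← End.mul_apply, ← End.mul_apply, ← map_mul, ← map_mul,
        ← map_mul, mul_inv_cancel_left]
    have h8 : Disjoint ((ρ x).eigenspace a) (((ρ x).eigenspace a).map (ρ g)) := by
      rw [Submodule.disjoint_def]
      rintro _ e1 ⟨w, e2, rfl⟩
      by_contra e3
      rw [End.mem_eigenspace_iff, h7, End.mem_eigenspace_iff.1 e2, map_smul, smul_smul] at e1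
      have e4 : a ≠ 0 := fun e => e3 (by
        rw [inj2 x ((End.mem_eigenspace_iff.1 e2).trans (by rw [e, zero_smul, map_zero])), map_zero])
      have e5 := mul_right_cancel₀ e4 ((smul_left_injective K e3 e1).trans (one_mul a).symm)
      exact hg (inv_mul_eq_one.1 (inj (LinearMap.ext fun w => by rw [hc, e5, one_smul, map_one, End.one_apply])))
    have h9 := Submodule.finrank_add_finrank_le_of_disjoint h8
    rw [← (Submodule.equivMapOfInjective _ (inj2 g) _).finrank_eq] at h9
    have h10 : commutator P ≤ centralizer {x} := by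
      refine commutator_le.2 fun a _ b _ => mem_centralizer_singleton_iff.2 ?_
      have e1 := mem_center_iff.1 (h6 a)
      have e2 := mem_center_iff.1 (h6 b)
      have e3 := (mul_inv_cancel_left (a * x) (x * a)).symm
      have e4 := (mul_inv_cancel_left (b * x) (x * b)).symm
      generalize (a * x)⁻¹ * (x * a) = u at e1 e3
      generalize (b * x)⁻¹ * (x * b) = v at e2 e4
      have k1 : x * (a * b) = a * b * (x * v * u) := by
        rw [← mul_assoc, e3, mul_assoc _ u, ← e1, ← mul_assoc, mul_assoc a x, e4]; group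
      have k2 : x * (b * a) = b * a * (x * v * u) := by
        rw [← mul_assoc, e4, mul_assoc _ v, ← e2, ← mul_assoc, mul_assoc b x, e3, mul_assoc x v, ← e2]; group
      calc _ = a * b * (b * a)⁻¹ * (x * (b * a)) * (b * a)⁻¹ := by group
        _ = a * b * (x * v * u) * (b * a)⁻¹ := by rw [k2]; group
        _ = _ := by rw [← k1]; group
    obtain ⟨y, hy, rfl⟩ := (der_succ (k + 1)).ge hz
    exact ha (eq_bot_iff.2 fun w hw => h4 w ((ih _ (by rw [pow_succ] at h2; omega)).fix (hP.to_subgroup _)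
      (ρ.comp (commutator P).subtype) (fun g => comm_eig (by
        show ρ x * ρ g = ρ g * ρ x
        rw [← map_mul, ← map_mul, mem_centralizer_singleton_iff.1 (h10 g.2)]) a) hy hw) (h5.ge trivial))

theorem allA [IsAlgClosed K] (h0 : (p : K) ≠ 0) (k : ℕ) : ∀ (V : Type u) [AddCommGroup V] [Module K V]
    [FiniteDimensional K V], finrank K V < 2 ^ (k + 1) → A K p k V := by
  induction k with
  | zero =>
    intro V _ _ _ h P _ _
    obtain ⟨v, hv⟩ := finrank_le_one_iff.1 (Nat.le_of_lt_succ h)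
    refine (commutator_eq_bot_iff_center_eq_top P).2 (eq_top_iff.2 fun a _ => mem_center_iff.2 fun b =>
      Subtype.ext (Units.ext (LinearMap.ext fun w => ?_)))
    obtain ⟨c, rfl⟩ := hv w
    obtain ⟨s, hs⟩ := hv (a.1.1 v)
    obtain ⟨t, ht⟩ := hv (b.1.1 v)
    show b.1.1 (a.1.1 _) = a.1.1 (b.1.1 _)
    simp only [map_smul, ← hs, ← ht, smul_smul, mul_right_comm c s t]
  | succ k ih => exact fun V _ _ _ => step h0 ih _ V (Nat.lt_succ_self _)

/-- Let F be a field with q elements, p a prime not dividing q, and e the multiplicative order of q modulo p; assume e ≤ n. Then every p-subgroup of GL_n(F) has derived length at most ⌊log₂(n/e)⌋ + 1: that term of its derived series is trivial (n/e is the integer quotient). -/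
theorem result {F : Type*} [Field F] [Fintype F] (q : ℕ) (hF : Fintype.card F = q) (p : ℕ) [Fact p.Prime] (hpq : ¬ p ∣ q) (n e : ℕ) (he : e = orderOf (q : ZMod p)) (hen : e ≤ n) (P : Subgroup (GL (Fin n) F)) (hP : IsPGroup p P) : derivedSeries ↥P (Nat.log 2 (n / e) + 1) = ⊥ := by
  classical
  by_contra hD
  obtain ⟨z, hz, hzc, hzp⟩ := exists_z hP hD
  obtain ⟨K, _, _, _, -⟩ : ∃ (K : Type _) (_ : Field K) (_ : Algebra F K) (_ : IsAlgClosed K), K = AlgebraicClosure F :=
    ⟨AlgebraicClosure F, inferInstance, inferInstance, inferInstance, rfl⟩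
  have h0 : (p : K) ≠ 0 := fun c => hpq (by
    obtain ⟨r, hr⟩ := CharP.exists F
    obtain ⟨m, hr', hm⟩ := FiniteField.card F r
    haveI := charP_of_injective_algebraMap (algebraMap F K).injective r
    have := (CharP.cast_eq_zero_iff K r p).1 c
    rw [← hF, hm, ← (Nat.prime_dvd_prime_iff_eq hr' Fact.out).1 this]
    exact dvd_pow_self _ m.ne_zero)
  obtain ⟨ρ, hρ⟩ : ∃ ρ : P →* End K (Fin n → K), ∀ g, ρ g = Matrix.toLin' (g.1.1.map (algebraMap F K)) :=
    ⟨⟨⟨fun g => Matrix.toLin' (g.1.1.map (algebraMap F K)), by simp [End.one_eq_id]⟩, fun a b => by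
      simp [Matrix.map_mul, End.mul_eq_comp]⟩, fun _ => rfl⟩
  have inj : Injective ρ := fun a b h => by
    rw [hρ, hρ] at h
    exact Subtype.ext (Units.ext (Matrix.map_injective (algebraMap F K).injective (Matrix.toLin'.injective h)))
  have h1 : ρ z ^ p = 1 := by rw [← map_pow, ← hzp, pow_orderOf_eq_one, map_one]
  obtain ⟨ζ, hζ1, hζ⟩ := eig h0 h1 fun c => (Fact.out : p.Prime).one_lt.ne
    (by rw [← hzp, inj (c.trans (map_one ρ).symm), orderOf_one])
  obtain ⟨w, hw⟩ := hζ.exists_hasEigenvector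
  have h2 : orderOf ζ = p := orderOf_eq_prime (smul_left_injective K hw.2 (by
    show ζ ^ p • w = (1 : K) • w
    rw [← hw.pow_apply, h1, one_smul, End.one_apply])) hζ1
  have hc : (ρ z).charpoly = (z.1.1.charpoly).map (algebraMap F K) := by
    rw [hρ, Matrix.charpoly_toLin', Matrix.charpoly_map]
  have h3 : ∀ i, (ρ z).charpoly.rootMultiplicity (ζ ^ q ^ i) = (ρ z).charpoly.rootMultiplicity ζ := fun i => by
    induction i with
    | zero => rw [pow_zero, pow_one]
    | succ i ih =>
      rw [← ih, Polynomial.eq_rootMultiplicity_map (FiniteField.frobeniusAlgHom F K).toRingHom.injective (ζ ^ q ^ i), hc,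
        Polynomial.map_map, AlgHom.toRingHom_eq_coe, AlgHom.comp_algebraMap, pow_succ, pow_mul, ← hF]
      rfl
  have h4 : e * finrank K ((ρ z).eigenspace ζ) ≤ n := by
    have h5 : Set.InjOn (fun i => ζ ^ q ^ i) (Finset.range e) := fun i hi j hj h => by
      refine pow_injOn_Iio_orderOf (x := (q : ZMod p)) (he ▸ Finset.mem_range.1 hi) (he ▸ Finset.mem_range.1 hj) ?_
      have := ((orderOf_pos_iff.1 (h2 ▸ (Fact.out : p.Prime).pos)).pow_eq_pow_iff_modEq).1 h
      rw [h2, ← ZMod.natCast_eq_natCast_iff] at this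
      simpa using this
    calc _ ≤ ∑ i ∈ Finset.range e, (ρ z).charpoly.roots.count (ζ ^ q ^ i) := by
          rw [Finset.sum_congr rfl fun i _ => (Polynomial.count_roots _).trans (h3 i), Finset.sum_const, Finset.card_range]
          exact Nat.mul_le_mul_left _ (LinearMap.finrank_eigenspace_le _ _)
      _ = ∑ a ∈ (Finset.range e).image fun i => ζ ^ q ^ i, (ρ z).charpoly.roots.count a := by
          rw [Finset.sum_image h5]
      _ ≤ ∑ a ∈ ((Finset.range e).image fun i => ζ ^ q ^ i) ∪ (ρ z).charpoly.roots.toFinset,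
          (ρ z).charpoly.roots.count a := Finset.sum_le_sum_of_subset Finset.subset_union_left
      _ = (ρ z).charpoly.roots.card := Multiset.sum_count_eq_card fun a ha =>
          Finset.mem_union_right _ (Multiset.mem_toFinset.2 ha)
      _ ≤ n := (Polynomial.card_roots' _).trans (by rw [LinearMap.charpoly_natDegree, finrank_fin_fun])
  have he0 : 0 < e := he ▸ (isOfFinOrder_iff_pow_eq_one.2 ⟨p - 1, Nat.sub_pos_of_lt (Fact.out : p.Prime).one_lt,
    ZMod.pow_card_sub_one_eq_one (mt (ZMod.natCast_eq_zero_iff q p).1 hpq)⟩).orderOf_pos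
  have := (allA h0 _ ((ρ z).eigenspace ζ) (((Nat.le_div_iff_mul_le he0).2 (mul_comm e _ ▸ h4)).trans_lt
    (Nat.lt_pow_succ_log_self one_lt_two _))).fix hP ρ (fun g => comm_eig
      (by rw [← map_mul, ← map_mul, mem_center_iff.1 hzc]) ζ) hz hw.1
  rw [hw.apply_eq_smul] at this
  exact hζ1 (smul_left_injective K hw.2 (this.trans (one_smul K w).symm))


end Cfsg.Agent.S4417
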