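import Cfsg.Statements.S4420
import Mathlib
import Cfsg.Agent.L0.M3

set_option autoImplicit false
open Cfsg

namespace Cfsg.Agent.S4420

open Cfsg Subgroup CfsgH2 CfsgL0
theorem inv1 {H : Type*} [Group H] {A : Subgroup H} (hD : ∀ x : H, x ∉ A → x ^ 2 = 1) {x b : H} (hx : x ∉ A)
    (hb : b ∈ A) : x * b * x⁻¹ = b⁻¹ := by
  have h1 := hD x hx
  have h2 := hD (x * b) (fun h => hx (by simpa using mul_mem h (inv_mem hb)))
  rw [pow_two] at h1 h2
  rw [inv_eq_of_mul_eq_one_right h1]
  exact eq_inv_of_mul_eq_one_left (by rw [← h2]; group)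
theorem exp2 {H : Type*} [Group H] {A : Subgroup H} (hA : A ≠ ⊤) (hD : ∀ x : H, x ∉ A → x ^ 2 = 1)
    (hi : A.index ≠ 2) (x : H) : x ^ 2 = 1 := by
  by_cases hx : x ∈ A
  swap
  · exact hD x hx
  obtain ⟨a, -, ha⟩ := SetLike.exists_of_lt (lt_top_iff_ne_top.2 hA)
  rw [Ne, index_eq_two_iff] at hi
  push Not at hi
  obtain ⟨b, hb⟩ := hi a
  have h1 : b ∉ A := fun h => hb (Or.inr ⟨h, fun h2 => ha (by simpa using mul_mem (inv_mem h) h2)⟩)
  have h2 : b * a ∉ A := fun h => hb (Or.inl ⟨h, h1⟩)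
  have h3 := inv1 hD h2 hx
  have h4 : b * a * x * (b * a)⁻¹ = x := by
    calc _ = b * (a * x * a⁻¹) * b⁻¹ := by group
      _ = _ := by rw [inv1 hD ha hx, inv1 hD h1 (inv_mem hx), inv_inv]
  rw [h4] at h3
  rw [pow_two]; nth_rewrite 1 [h3]; simp
theorem comm2 {H : Type*} [Group H] (h : ∀ x : H, x ^ 2 = 1) : IsMulCommutative H := ⟨⟨fun a b => by
  have : ∀ x : H, x⁻¹ = x := fun x => inv_eq_of_mul_eq_one_right (by rw [← pow_two, h])
  rw [← this (a * b), mul_inv_rev, this, this]⟩⟩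

/-- Structure of groups in which every element outside some proper subgroup has square 1. Let H be a finite group with a proper subgroup A such that every element outside A has square 1. Then H has an abelian normal subgroup B of index 2 such that every element outside B is an involution inverting every element of B; and if H is not an elementary abelian 2-group, B is the only abelian normal subgroup of index 2 with this property. -/
theorem result {H : Type*} [Group H] [Finite H] (A : Subgroup H) (hA : A ≠ ⊤) (hD : ∀ x : H, x ∉ A → x ^ 2 = 1) :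
    ∃ B : Subgroup H, B.Normal ∧ IsMulCommutative ↥B ∧ B.index = 2 ∧
      (∀ x : H, x ∉ B → x ^ 2 = 1 ∧ ∀ b ∈ B, x * b * x⁻¹ = b⁻¹) ∧
      (¬ (IsMulCommutative H ∧ ∀ x : H, x ^ 2 = 1) →
        ∀ B' : Subgroup H, B'.Normal → IsMulCommutative ↥B' → B'.index = 2 →
          (∀ x : H, x ∉ B' → x ^ 2 = 1 ∧ ∀ b ∈ B', x * b * x⁻¹ = b⁻¹) → B' = B) := by
  obtain ⟨B, hB, hi⟩ : ∃ B : Subgroup H, (∀ x : H, x ∉ B → x ^ 2 = 1) ∧ B.index = 2 := by
    by_cases hi : A.index = 2
    · exact ⟨A, hD, hi⟩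
    have h := exp2 hA hD hi
    obtain ⟨L, -, -, -, h4⟩ := exists_maximal_sub (p := 2) (isPGroup_of_exp fun x _ => h x) (lt_top_iff_ne_top.2 hA)
    exact ⟨L, fun x _ => h x, by rwa [relIndex_top_right] at h4⟩
  have hB' : B ≠ ⊤ := fun e => by rw [e, index_top] at hi; omega
  obtain ⟨a, -, ha⟩ := SetLike.exists_of_lt (lt_top_iff_ne_top.2 hB')
  refine ⟨B, normal_of_index_eq_two hi, CfsgH1.isMulComm_of_inverted fun k hk => inv1 hB ha hk, hi,
    fun x hx => ⟨hB x hx, fun b hb => inv1 hB hx hb⟩, fun h B' _ _ hi' h' => ?_⟩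
  by_contra hne
  have := exp2 (A := B ⊓ B') (fun e => hB' (eq_top_iff.2 (e.ge.trans inf_le_left)))
    (fun x hx => by
      by_cases h1 : x ∈ B
      · exact (h' x fun h2 => hx ⟨h1, h2⟩).1
      · exact hB x h1) fun e => hne (by
      have h1 : B ⊓ B' = B := by
        by_contra h; have := index_lt_of_lt (lt_of_le_of_ne inf_le_left h); omega
      have h2 : B ⊓ B' = B' := by
        by_contra h; have := index_lt_of_lt (lt_of_le_of_ne inf_le_right h); omega
      exact h2.symm.trans h1)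
  exact h ⟨comm2 this, this⟩

end Cfsg.Agent.S4420
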