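import Cfsg.Statements.S4441
import Mathlib
import Cfsg.Agent.H4.Cy7

set_option autoImplicit false
open Cfsg

open Cfsg CfsgH3 CfsgH4 CfsgH1 CfsgL0 MonoidAlgebra

namespace Cfsg.Agent.S4441

/-- Let p be an odd prime and G a finite group whose Sylow p-subgroup P has order p; let C = C_G(P), N = N_G(P), e the index of C in N and t = (p − 1)/e; fix a maximal ideal M of the algebraic integers containing p and let B₀ be the principal block. Then B₀ is the disjoint union of a set X of e characters and a set Y of t characters such that: each χ ∈ X has a sign ε_χ with χ(1) ≡ ε_χ (mod p) and χ(x y) = ε_χ for every non-identity x ∈ P and every p-regular y ∈ C; all members of Y agree on the p-regular elements of G; there is one sign ε with θ(1) ≡ ε e (mod p) for every θ ∈ Y; and for every θ ∈ Y and every p-regular g, ε θ(g) = Σ_{χ ∈ X} ε_χ χ(g). -/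
theorem result {G : Type*} [Group G] [Fintype G] (p : ℕ) [Fact p.Prime] (M : Ideal Cfsg.AlgInt) (hM : Cfsg.IsPModular p M) (hodd : p ≠ 2) (P : Sylow p G) (hP : Nat.card P = p) (e : ℕ) (he : (Subgroup.centralizer ((P : Subgroup G) : Set G)).relIndex (Subgroup.normalizer ((P : Subgroup G) : Set G)) = e) : ∃ X Y : Set (Cfsg.IrrCharacter G), Cfsg.principalBlock M G = X ∪ Y ∧ Disjoint X Y ∧ Nat.card X = e ∧ Nat.card Y = (p - 1) / e ∧ ∃ (εX : Cfsg.IrrCharacter G → ℤ) (ε : ℤ), (∀ χ ∈ X, (εX χ = 1 ∨ εX χ = -1) ∧ (Cfsg.charDegree (χ : G → ℂ) : ℤ) ≡ εX χ [ZMOD p] ∧ ∀ x : G, x ∈ (P : Subgroup G) → x ≠ 1 → ∀ y : G, y ∈ Subgroup.centralizer ((P : Subgroup G) : Set G) → ¬ p ∣ orderOf y → (χ : G → ℂ) (x * y) = (εX χ : ℂ)) ∧ (ε = 1 ∨ ε = -1) ∧ (∀ θ ∈ Y, (Cfsg.charDegree (θ : G → ℂ) : ℤ) ≡ ε * (e : ℤ) [ZMOD p]) ∧ (∀ θ ∈ Y, ∀ θ' ∈ Y, ∀ g : G, ¬ p ∣ orderOf g → (θ : G → ℂ) g = (θ' : G → ℂ) g) ∧ ∀ θ ∈ Y, ∀ g : G,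 ¬ p ∣ orderOf g → (ε : ℂ) * (θ : G → ℂ) g = ∑ᶠ χ ∈ X, (εX χ : ℂ) * (χ : G → ℂ) g := by
  haveI : PMod p M := ⟨hM⟩
  have hm := maxPr_principal (M := M) (isSylowIn_top P)
  obtain ⟨u, hu, hP⟩ := exists_zpowers_eq hP
  rw [← hP] at hm he ⊢
  have := Fintype.ofFinite (Subgroup.centralizer (Subgroup.zpowers u : Set G))
  obtain ⟨β, e', Φ, X, y, ε, δ, h⟩ := hm.exists_d1 isPBlock_principal hu
  have he' := h.card_aut.trans he
  refine ⟨X, exc y, h.s.eq_union, Finset.disjoint_coe.2 h.s.disjoint,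
    by simpa using h.s.card.trans he',
    by simpa using (h.s.card_exc' h.d).trans (by rw [he', h.card]), fun χ => -ε χ, δ,
    fun χ hχ => ⟨by rcases h.s.sgn χ with h | h <;> simp [h], h.prX_modEq hχ,
      fun x hx h1 g hg h2 => ?_⟩, h.s.sgn', fun θ hθ => he ▸ h.prY_modEq hθ,
    fun θ h1 θ' h2 g hg => by rw [h.s.apply_reg h1 hg, h.s.apply_reg h2 hg], fun θ hθ g hg => ?_⟩
  · have h3 := ppart_mul (p := p) (Subgroup.mem_centralizer_iff.1 hg x hx)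
      (IsPGroup.iff_orderOf.1 h.d.hm.pr.pgrp ⟨x, hx⟩ |>.imp fun k hk => by simpa using hk) h2
    rw [h.prX hχ (h3.symm ▸ hx) (by_contra fun h4 => h1 (h3 ▸ ppart_eq_one_iff.2 h4))]
    simp
  · rw [finsum_mem_coe_finset, h.s.apply_reg hθ hg, mul_neg, ← mul_assoc, h.s.sq']
    simp

end Cfsg.Agent.S4441
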