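import Cfsg.Statements.S4445
import Mathlib
import Cfsg.Agent.H4.Gla2

set_option autoImplicit false
open Cfsg

open Cfsg CfsgH3 CfsgH4 CfsgH1 Function
open scoped CfsgH2 Pointwise

namespace Cfsg.Agent.S4445

/-- Inside a finite group Γ let the solvable subgroup S normalise G with the orders of G and S coprime. Then the number of S-invariant irreducible characters of G (χ(s g s⁻¹) = χ(g) for all s ∈ S, g ∈ G) equals the number of conjugacy classes of G mapped to themselves by conjugation by every element of S. -/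
theorem result {Γ : Type*} [Group Γ] [Fintype Γ] (G S : Subgroup Γ) [Fintype G] (hnorm : ∀ s ∈ S, ∀ g ∈ G, s * g * s⁻¹ ∈ G) (hcop : (Nat.card G).Coprime (Nat.card S)) (hsolv : Group.IsSolvable S) : Nat.card {χ : Cfsg.IrrCharacter G // (∀ s ∈ S, ∀ g g' : G, (g' : Γ) = s * g * s⁻¹ → (χ : G → ℂ) g' = (χ : G → ℂ) g)} = Nat.card {K : ConjClasses G // ∀ s ∈ S, ∀ g g' : G, (g' : Γ) = s * g * s⁻¹ → ConjClasses.mk g = K → ConjClasses.mk g' = K} := by
  have hn : S ≤ N[G] := fun s hs => mem_normalizer_of_conj_mem (hnorm s hs)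
  simp only [← le_aI_iff hn]
  rw [card_inv_irr hn hcop, card_irr_eq_card_conjClasses]
  refine card_eq_of_rel (fun K L => ∃ c : (G ⊓ C[S] :), ConjClasses.mk c = K ∧
    ConjClasses.mk ⟨c, c.2.1⟩ = L.1) (fun K => ?_) (fun L => ?_) ?_ ?_
  · obtain ⟨c, rfl⟩ := K.exists_rep
    refine ⟨⟨.mk ⟨c, c.2.1⟩, fun s hs g g' h1 h2 => ?_⟩, c, rfl, rfl⟩
    obtain ⟨x, h3⟩ := isConj_iff.1 (ConjClasses.mk_eq_mk_iff_isConj.1 h2)
    refine ConjClasses.mk_eq_mk_iff_isConj.2 (isConj_iff.2 ⟨⟨_, hnorm s hs x x.2⟩, Subtype.ext ?_⟩)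
    have h4 : (x : Γ) * g * (x : Γ)⁻¹ = c := congrArg Subtype.val h3
    have h5 : s * c * s⁻¹ = c := mul_inv_eq_iff_eq_mul.2 (c.2.2 s hs)
    simp only [Subgroup.coe_mul, Subgroup.coe_inv, h1]
    rw [← h5, ← h4]; group
  · obtain ⟨x, hx⟩ := L.1.exists_rep
    obtain ⟨k, h1, h2⟩ := coprime_conj_le_of_supplement (T := C1[(x : Γ)]) hn hcop.symm (.inl hsolv)
      fun a ha => by
        obtain ⟨k, h1⟩ := isConj_iff.1 (ConjClasses.mk_eq_mk_iff_isConj.1
          ((L.2 a ha x ⟨_, hnorm a ha x x.2⟩ rfl hx).trans hx.symm))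
        have h2 : (k : Γ) * (a * x * a⁻¹) * (k : Γ)⁻¹ = x := congrArg Subtype.val h1
        exact ⟨k, k.2, Subgroup.mem_centralizer_singleton_iff.2 (by
          conv_rhs => rw [← h2]
          group)⟩
    refine ⟨_, ⟨k⁻¹ * x * k, G.mul_mem (G.mul_mem (G.inv_mem h1) x.2) h1, fun a ha => ?_⟩, rfl, ?_⟩
    · have := Subgroup.mem_centralizer_singleton_iff.1 (h2 (conj_mem_conj_smul k ha))
      calc _ = k⁻¹ * (k * a * k⁻¹ * x) * k := by group
        _ = _ := by rw [this]; group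
    · exact (ConjClasses.mk_eq_mk_iff_isConj.2 (isConj_iff.2 ⟨⟨k, h1⟩, Subtype.ext (by
        simp [mul_assoc])⟩)).trans hx
  · rintro _ _ L ⟨c, rfl, h1⟩ ⟨d, rfl, h2⟩
    obtain ⟨k, h3⟩ := isConj_iff.1 (ConjClasses.mk_eq_mk_iff_isConj.1 (h1.trans h2.symm))
    have h4 : (k : Γ) * c * (k : Γ)⁻¹ = d := congrArg Subtype.val h3
    obtain ⟨n, h5, h6⟩ := coprime_fixed_coset (A := S) (N := G ⊓ C1[(c : Γ)]) (k := k)
      (le_normalizer_inf hn fun a ha => Subgroup.le_normalizer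
        (Subgroup.mem_centralizer_singleton_iff.2 (c.2.2 a ha)))
      (hcop.symm.coprime_dvd_right (Subgroup.card_dvd_of_le inf_le_left)) (.inl hsolv) fun a ha =>
      ⟨G.mul_mem (G.inv_mem k.2) (hnorm a ha k k.2), Subgroup.mem_centralizer_singleton_iff.2 (by
        have h5 := c.2.2 a⁻¹ (inv_mem ha)
        have h6 := d.2.2 a ha
        calc _ = (k : Γ)⁻¹ * (a * (k * c * (k : Γ)⁻¹)) * k * a⁻¹ := by
              simp only [mul_assoc, h5, inv_mul_cancel_left]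
          _ = _ := by rw [h4, h6, ← h4]; group)⟩
    refine ConjClasses.mk_eq_mk_iff_isConj.2 (isConj_iff.2 ⟨⟨_, mul_mem k.2 h5.1, h6⟩,
      Subtype.ext ?_⟩)
    simp only [Subgroup.coe_mul, Subgroup.coe_inv]
    rw [mul_assoc _ n, Subgroup.mem_centralizer_singleton_iff.1 h5.2, ← h4]; group
  · rintro K L L' ⟨c, rfl, h1⟩ ⟨d, h2, h3⟩
    exact Subtype.ext (h1.symm.trans ((ConjClasses.mk_eq_mk_iff_isConj.2 ((Subgroup.inclusion
      inf_le_left).map_isConj (ConjClasses.mk_eq_mk_iff_isConj.1 h2.symm))).trans h3))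

end Cfsg.Agent.S4445
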