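import Cfsg.Statements.S4845
import Cfsg.Agent.H3.Cd1
import Cfsg.Agent.H2.PG2

set_option autoImplicit false
open Cfsg

open CfsgH3 CfsgH4 CfsgCd Function Subgroup
open scoped ComplexConjugate CfsgH2 commutatorElement

namespace Cfsg.Agent.S4845
universe u
section
variable {G : Type*} [Group G] [Finite G] {χ ψ : G → ℂ} {p : ℕ}

theorem deg_sq (hχ : IsIrrCharacter G χ) : charDegree χ ^ 2 ≤ (center G).index ∧
    ((∀ g ∉ center G, χ g = 0) → charDegree χ ^ 2 = (center G).index) := by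
  classical
  haveI := Fintype.ofFinite G
  have e := classInner_self_re χ
  rw [hχ.classInner_self, Complex.one_re, eq_inv_mul_iff_mul_eq₀ (Nat.cast_ne_zero.2
    Nat.card_pos.ne'), mul_one, ← (center G).card_mul_index, Nat.cast_mul,
    ← Finset.sum_filter_add_sum_filter_not _ (· ∈ center G),
    Finset.sum_congr rfl (g := fun _ => (charDegree χ : ℝ) ^ 2) fun g hg => by
      rw [hχ.norm_apply_of_mem_center (Finset.mem_filter.1 hg).2, norm_one_eq hχ.isCharacter],
    Finset.sum_const, ← Fintype.card_subtype, Fintype.card_eq_nat_card, nsmul_eq_mul] at e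
  have h0 : (0 : ℝ) < Nat.card (center G) := Nat.cast_pos.2 Nat.card_pos
  refine ⟨?_, fun h => ?_⟩
  · have : (0 : ℝ) ≤ ∑ g with ¬ g ∈ center G, ‖χ g‖ ^ 2 := Finset.sum_nonneg fun _ _ => sq_nonneg _
    exact_mod_cast le_of_mul_le_mul_left ((le_add_of_nonneg_right this).trans e.ge) h0
  · rw [Finset.sum_eq_zero fun g hg => by rw [h g (Finset.mem_filter.1 hg).2]; simp, add_zero] at e
    exact_mod_cast (mul_left_cancel₀ h0.ne' e).symm

theorem cen_hom (hχ : IsIrrCharacter G χ) : ∃ L : center G →* ℂ, ∀ z : center G, χ z = χ 1 * L z := by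
  have h0 := hχ.apply_one_ne_zero
  refine ⟨⟨⟨fun z => χ z / χ 1, div_self h0⟩, fun a b => ?_⟩, fun z => (mul_div_cancel₀ _ h0).symm⟩
  have := hχ.isCharacter.apply_mul_of_norm_eq (hχ.norm_apply_of_mem_center b.2) a
  simp only [Subgroup.coe_mul]
  field_simp
  linear_combination this

/-- Nonlinear irreducible characters of the same degree have the same kernel. -/
def KK (G : Type*) [Group G] : Prop := ∀ χ ψ : G → ℂ, IsIrrCharacter G χ → IsIrrCharacter G ψ →
  χ 1 ≠ 1 → χ 1 = ψ 1 → ∀ g, χ g = χ 1 → ψ g = ψ 1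

theorem KK.quot (h : KK G) (M : Subgroup G) [M.Normal] : KK (G ⧸ M) := fun _ _ a b c d g e => by
  obtain ⟨g, rfl⟩ := QuotientGroup.mk_surjective g
  exact h _ _ (irr_inflate a) (irr_inflate b) c d g e

theorem KK.ker (h : KK G) (hχ : IsIrrCharacter G χ) (h1 : χ 1 ≠ 1) {g : G} (hg : χ g = χ 1) :
    g ∈ commutator G := mem_of_forall_irr _ fun l hl hk => by
  have l1 := lin_of_comm hl hk
  have := h χ (χ * l) hχ (hχ.mul_of_apply_one hl.isCharacter l1) h1 (by simp [l1]) g hg
  rw [Pi.mul_apply, Pi.mul_apply, hg] at this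
  exact mul_left_cancel₀ hχ.apply_one_ne_zero this

theorem card_comm (M : Subgroup G) [M.Normal] (h : M ≤ commutator G) :
    M.relIndex (commutator G) = Nat.card (commutator (G ⧸ M)) := by
  conv_lhs => rw [← QuotientGroup.ker_mk' M]
  rw [relIndex_ker, commutator_def, map_commutator,
    map_top_of_surjective _ (QuotientGroup.mk'_surjective M), commutator_def]

variable [hp : Fact p.Prime]

theorem le_cen (hG : IsPGroup p G) {M : Subgroup G} [M.Normal] (h : Nat.card M = p) :
    M ≤ center G := fun x hx => mem_center_iff.2 fun g =>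
  (CfsgH2.le_cent_of_card_prime (hG.to_subgroup ⊤) (normalizer_eq_top M).ge h (mem_top g) x hx).symm

theorem lemA (hG : IsPGroup p G) (h : KK G) (hc : Nat.card (commutator G) = p) :
    IsCyclic (center G) ∧ ∃ χ, IsIrrCharacter G χ ∧ χ 1 ≠ 1 ∧ (∀ g, χ g = χ 1 → g = 1) ∧
      charDegree χ ^ 2 = (center G).index := by
  obtain ⟨t, ht, h1⟩ := (commutator G).bot_or_exists_ne_one.resolve_left fun e => by
    rw [e, card_bot] at hc; exact hp.out.ne_one hc.symm
  obtain ⟨χ, a1, a2⟩ := exists_irr_ne h1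
  have a3 : χ 1 ≠ 1 := fun e => a2 (by rw [lin_comm a1.isCharacter e ht, e])
  have a4 : ∀ g, χ g = χ 1 → g = 1 := fun g hg => by
    rcases CfsgH1.eq_bot_or_eq_of_card_prime (H := charKer χ) (hc ▸ hp.out)
      fun x hx => h.ker a1 a3 (a1.isCharacter.mem_charKer.1 hx) with e | e
    · exact (eq_bot_iff_forall _).1 e g (a1.isCharacter.mem_charKer.2 hg)
    · exact absurd (a1.isCharacter.mem_charKer.1 (e ▸ ht)) a2
  obtain ⟨L, hL⟩ := cen_hom a1
  exact ⟨isCyclic_of_injective_ringHom L ((injective_iff_map_eq_one L).2 fun z hz =>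
    Subtype.ext (a4 _ (by rw [hL, hz, mul_one]))), χ, a1, a3, a4,
    (deg_sq a1).2 fun g => van_center hp.out hc (le_cen hG hc) a1 a3⟩

theorem lemB (hG : IsPGroup p G) (h : KK G) {M : Subgroup G} [M.Normal] (h1 : Nat.card M = p)
    (h2 : Nat.card (commutator (G ⧸ M)) = p) :
    (∀ a b : G, (∀ g, ⁅a, g⁆ ∈ M) → (∀ g, ⁅b, g⁆ ∈ M) →
      (∃ k : ℤ, (b ^ k)⁻¹ * a ∈ M) ∨ ∃ k : ℤ, (a ^ k)⁻¹ * b ∈ M) ∧
    ∃ ψ, IsIrrCharacter G ψ ∧ ψ 1 ≠ 1 ∧ (∀ g, ψ g = ψ 1 ↔ g ∈ M) ∧
      (∀ χ, IsIrrCharacter G χ → charDegree χ ≤ charDegree ψ) ∧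
      ∀ A : Subgroup G, ⁅A, A⁆ ≤ M → charDegree ψ ≤ A.index := by
  have hQ := hG.to_quotient M
  obtain ⟨a1, β, a2, a3, a4, a5⟩ := lemA hQ (h.quot M) h2
  have hM := le_cen hG h1
  have b1 : ∀ a : G, (a : G ⧸ M) ∈ center (G ⧸ M) ↔ ∀ g, ⁅a, g⁆ ∈ M := fun a => by
    rw [mem_center_iff, QuotientGroup.mk_surjective.forall]
    refine forall_congr' fun g => ?_
    rw [← QuotientGroup.eq_one_iff, eq_comm, ← commutatorElement_eq_one_iff_mul_comm]
    rfl
  refine ⟨fun a b ha hb => ?_, _, irr_inflate a2, a3, fun g => ⟨fun e =>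
    (QuotientGroup.eq_one_iff g).1 (a4 _ e), fun e => congrArg β ((QuotientGroup.eq_one_iff g).2 e)⟩,
    fun χ hχ => ?_, fun A hA => ?_⟩
  · have : ∀ a b : G, (∀ g, ⁅a, g⁆ ∈ M) → (∀ g, ⁅b, g⁆ ∈ M) → orderOf (a : G ⧸ M) ∣
        orderOf (b : G ⧸ M) → ∃ k : ℤ, (b ^ k)⁻¹ * a ∈ M := fun a b ha hb hd => by
      obtain ⟨k, hk⟩ := CfsgH2.le_of_card_dvd_of_cyclic a1 (zpowers_le.2 ((b1 a).2 ha))
        (zpowers_le.2 ((b1 b).2 hb)) (by rwa [Nat.card_zpowers, Nat.card_zpowers]) (mem_zpowers _)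
      exact ⟨k, QuotientGroup.eq.1 hk⟩
    obtain ⟨i, hi⟩ := (IsPGroup.iff_orderOf.1 hQ) a
    obtain ⟨j, hj⟩ := (IsPGroup.iff_orderOf.1 hQ) b
    exact (le_total i j).imp (fun e => this a b ha hb (hi ▸ hj ▸ pow_dvd_pow p e))
      fun e => this b a hb ha (hi ▸ hj ▸ pow_dvd_pow p e)
  · obtain ⟨⟨w, hw⟩, c1⟩ := IsCyclic.exists_generator (α := center (G ⧸ M))
    obtain ⟨w, rfl⟩ := QuotientGroup.mk_surjective w
    have c2 : (w : G ⧸ center G) ^ p = 1 := by
      refine (QuotientGroup.eq_one_iff (w ^ p)).2 (mem_center_iff.2 fun g => ?_)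
      have := (b1 w).1 hw g
      rw [eq_comm, ← commutatorElement_eq_one_iff_mul_comm, CfsgH2.commutator_pow_left
        (mem_center_iff.1 (hM this) w).symm, ← h1]
      exact congrArg Subtype.val (pow_card_eq_one' (x := (⟨_, this⟩ : M)))
    have c3 : center G ≤ (center (G ⧸ M)).comap (QuotientGroup.mk' M) := fun z hz =>
      (b1 z).2 fun g => by
        rw [commutatorElement_eq_one_iff_mul_comm.2 (mem_center_iff.1 hz g).symm]; exact one_mem _
    have c4 : (center G).relIndex ((center (G ⧸ M)).comap (QuotientGroup.mk' M)) ≤ p := by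
      conv_lhs => rw [← QuotientGroup.ker_mk' (center G)]
      rw [relIndex_ker]
      refine (card_le_of_le (K := zpowers (w : G ⧸ center G)) ?_).trans ?_
      · rintro _ ⟨x, hx, rfl⟩
        obtain ⟨k, hk⟩ := c1 ⟨_, hx⟩
        exact ⟨k, QuotientGroup.eq.2 (hM (QuotientGroup.eq.1 (congrArg Subtype.val hk)))⟩
      · rw [Nat.card_zpowers]; exact orderOf_le_of_pow_eq_one hp.out.pos c2
    have c5 := (deg_sq hχ).1
    rw [← relIndex_mul_index c3, index_comap_of_surjective _ (QuotientGroup.mk'_surjective M),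
      ← a5] at c5
    obtain ⟨i, hi⟩ := deg_pow_of_pgroup hG hχ
    obtain ⟨j, hj⟩ := deg_pow_of_pgroup hQ a2
    have c6 := c5.trans (Nat.mul_le_mul_right _ c4)
    rw [hi, hj, ← pow_mul, ← pow_mul, ← pow_succ', Nat.pow_le_pow_iff_right hp.out.one_lt] at c6
    rw [deg_inflate, hi, hj]
    exact Nat.pow_le_pow_right hp.out.pos (by omega)
  · rw [deg_inflate]
    refine (deg_le_index_ab a2 (A.map (QuotientGroup.mk' M)) ?_).trans (Nat.le_of_dvd
      (Nat.pos_of_ne_zero index_ne_zero_of_finite)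
      (A.index_map_dvd (QuotientGroup.mk'_surjective M)))
    rintro _ ⟨a, ha, rfl⟩ _ ⟨b, hb, rfl⟩
    rw [← commutatorElement_eq_one_iff_mul_comm, ← map_commutatorElement]
    exact (QuotientGroup.eq_one_iff _).2 (hA (commutator_mem_commutator ha hb))

end

theorem main {p : ℕ} [hp : Fact p.Prime] (n : ℕ) : ∀ (G : Type u) [Group G] [Finite G],
    Nat.card G = n → IsPGroup p G → KK G → Nat.card (commutator G) ∣ p := by
  induction n using Nat.strong_induction_on with | _ n ih => ?_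
  intro G _ _ hn hG h
  by_contra hc
  have h0 : p ∣ Nat.card (commutator G) := ((hG.to_subgroup _).card_eq_or_dvd).resolve_left
    fun e => hc (e ▸ one_dvd p)
  obtain ⟨M, m1, m2, m3⟩ := CfsgH2.exists_central_card_p (hG.to_subgroup ⊤)
    (normalizer_eq_top _).ge h0
  have key : ∀ M : Subgroup G, ∀ [M.Normal], M ≤ commutator G → Nat.card M = p →
      Nat.card (commutator (G ⧸ M)) = p := fun M _ m1 m3 => by
    refine ((Nat.dvd_prime hp.out).1 (ih _ ?_ _ rfl (hG.to_quotient M) (h.quot M))).resolve_left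
      fun e => hc ?_
    · rw [← hn, ← M.card_mul_index, m3]
      exact lt_mul_of_one_lt_left (Nat.pos_of_ne_zero index_ne_zero_of_finite) hp.out.one_lt
    · rw [← CfsgH1.card_mul_relIndex m1, card_comm M m1, e, m3, mul_one]
  have m4 : M ≤ center G := fun x hx => mem_center_iff.2 fun g => m2 hx g (mem_top g)
  haveI := CfsgH3.normal_of_le_center m4
  have m5 : M.relIndex (commutator G) = p := (card_comm M m1).trans (key M m1 m3)
  obtain ⟨a1, ψ, a2, a3, a4, a5, a6⟩ := lemB hG h m3 (key M m1 m3)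
  have hd : ∀ {χ ψ : G → ℂ}, IsIrrCharacter G χ → IsIrrCharacter G ψ →
      charDegree χ = charDegree ψ → χ 1 = ψ 1 := fun a b e => by
    rw [← coe_charDegree a.isCharacter, e, coe_charDegree b.isCharacter]
  by_cases hz : commutator G ≤ center G
  · have b1 : ∀ x y : G, ⁅x, y⁆ ∈ commutator G := fun x y =>
      commutator_mem_commutator (mem_top x) (mem_top y)
    have b2 : ∀ x y z : G, Commute ⁅x, y⁆ z := fun x y z => (mem_center_iff.1 (hz (b1 x y)) z).symm
    have b3 : ∀ x g : G, ⁅x ^ p, g⁆ ∈ M := fun x g => by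
      rw [CfsgH2.commutator_pow_left (b2 _ _ _), ← m5]; exact M.pow_relIndex_mem (b1 x g)
    have b4 : ∀ x y : G, (∃ k : ℤ, ((y ^ p) ^ k)⁻¹ * x ^ p ∈ M) → Commute (x ^ p) y := by
      rintro x y ⟨k, hk⟩
      rw [← mul_inv_cancel_left ((y ^ p) ^ k) (x ^ p)]
      exact (((Commute.refl y).pow_left p).zpow_left k).mul_left
        (mem_center_iff.1 (m4 hk) y).symm
    obtain ⟨x, y, hxy⟩ : ∃ x y : G, ⁅x, y⁆ ∉ M := by
      by_contra hh
      push Not at hh
      rw [relIndex_eq_one.2 (show commutator G ≤ M from commutator_le.2 fun x _ y _ => hh x y)] at m5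
      exact hp.out.ne_one m5.symm
    have b5 : ⁅x, y⁆ ^ p = 1 := by
      rcases a1 _ _ (b3 x) (b3 y) with e | e
      · rw [← CfsgH2.commutator_pow_left (b2 _ _ _)]
        exact commutatorElement_eq_one_iff_commute.2 (b4 x y e)
      · rw [← CfsgH2.commutator_pow_right (b2 _ _ _)]
        exact commutatorElement_eq_one_iff_commute.2 (b4 y x e).symm
    have b6 := CfsgH2.card_zpowers_eq hp.out b5 fun e => hxy (e ▸ one_mem M)
    have b7 := zpowers_le.2 (b1 x y)
    haveI := CfsgH3.normal_of_le_center (b7.trans hz)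
    obtain ⟨-, ψ', c2, c3, c4, c5, -⟩ := lemB hG h b6 (key _ b7 b6)
    exact hxy ((a4 _).1 (h ψ' ψ c2 a2 c3 (hd c2 a2 ((a5 _ c2).antisymm (c5 _ a2))) _
      ((c4 _).2 (mem_zpowers _))))
  · have b1 : ⁅C[commutator G], C[commutator G]⁆ ≤ center G := by
      have : ⁅⁅C[commutator G], C[commutator G]⁆, ⊤⁆ = ⊥ := commutator_commutator_eq_bot_of_rotate
        (commutator_eq_bot_iff_le_centralizer.2 ((commutator_mono le_top le_top).trans
          (le_centralizer_iff.1 le_rfl)))
        (commutator_eq_bot_iff_le_centralizer.2 ((commutator_mono le_top le_top).trans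
          (le_centralizer_iff.1 le_rfl)))
      exact fun x hx => mem_center_iff.2 fun g =>
        commutator_eq_bot_iff_le_centralizer.1 this hx g (mem_top g)
    have b2 : center G ⊓ commutator G ≤ M := by
      have := relIndex_mul_relIndex M _ _ (le_inf m4 m1) inf_le_right
      rw [m5] at this
      exact relIndex_eq_one.1 (((Nat.dvd_prime hp.out).1 (Dvd.intro _ this)).resolve_right
        fun e => hz (le_trans (relIndex_eq_one.1 (by
          rw [e] at this
          exact (mul_eq_left₀ hp.out.ne_zero).1 this)) inf_le_left))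
    have b3 := a6 _ ((le_inf b1 (commutator_mono le_top le_top)).trans b2)
    have b4 := CfsgH2.relIndex_cent_dvd_of_card_sq (hG.to_subgroup ⊤)
      (normalizer_eq_top (commutator G)).ge (by rw [← CfsgH1.card_mul_relIndex m1, m3, m5, sq])
    rw [relIndex_top_right] at b4
    obtain ⟨t, ht, t1⟩ := M.bot_or_exists_ne_one.resolve_left fun e => by
      rw [e, card_bot] at m3; exact hp.out.ne_one m3.symm
    obtain ⟨χ, c1, c2⟩ := exists_irr_ne t1
    have c3 : p ∣ charDegree χ := by_contra fun e => c2 (by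
      have := lin_of_pgroup hG c1 e
      rw [lin_comm c1.isCharacter this (m1 ht), this])
    exact c2 (h ψ χ a2 c1 a3 (hd a2 c1 (((b3.trans (Nat.le_of_dvd hp.out.pos b4)).trans
      (Nat.le_of_dvd (charDegree_pos c1) c3)).antisymm (a5 _ c1))) t ((a4 t).2 ht))

/-- Let p be a prime and P a finite non-commutative p-group. Then every two irreducible characters of P of the same degree greater than 1 are Galois conjugate (one is obtained from the other by composing with g ↦ g^k for some k prime to the order of P) if and only if the centre of P is cyclic and the derived subgroup of P has order p. -/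
theorem result {P : Type*} [Group P] [Finite P] (p : ℕ) [Fact p.Prime] (hP : IsPGroup p P) (hna : ¬ IsMulCommutative P) :
    (∀ χ ψ : Cfsg.IrrCharacter P, Cfsg.charDegree (χ : P → ℂ) ≠ 1 → Cfsg.charDegree (χ : P → ℂ) = Cfsg.charDegree (ψ : P → ℂ) → ∃ k : ℕ, Nat.Coprime k (Nat.card P) ∧ ∀ g : P, (ψ : P → ℂ) g = (χ : P → ℂ) (g ^ k)) ↔
      (IsCyclic (Subgroup.center P) ∧ Nat.card (commutator P) = p) := by
  rename_i hp
  refine ⟨fun h => ?_, fun ⟨hZ, hc⟩ χ ψ h1 h2 => ?_⟩
  · have hK : KK P := fun χ ψ a b c d g e => by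
      obtain ⟨k, -, hk⟩ := h ⟨χ, a⟩ ⟨ψ, b⟩ (mt (charDegree_eq_one a.isCharacter).1 c)
        (Nat.cast_injective (R := ℂ) (by
          rw [coe_charDegree a.isCharacter, coe_charDegree b.isCharacter]; exact d))
      exact (hk g).trans ((a.isCharacter.mem_charKer.1
        (pow_mem (a.isCharacter.mem_charKer.2 e) k)).trans d)
    have hc := ((Nat.dvd_prime hp.out).1 (main _ P rfl hP hK)).resolve_left fun e =>
      hna ⟨⟨fun a b => commutatorElement_eq_one_iff_mul_comm.1 ((eq_bot_iff_forall _).1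
        (card_eq_one.1 e) _ (commutator_mem_commutator (mem_top a) (mem_top b)))⟩⟩
    exact ⟨(lemA hP hK hc).1, hc⟩
  · have hz := le_cen hP hc
    have key : ∀ χ : P → ℂ, IsIrrCharacter P χ → χ 1 ≠ 1 →
        ∃ L : center P →* ℂ, Injective L ∧ ∀ z : center P, χ z = χ 1 * L z := fun χ a b => by
      obtain ⟨L, hL⟩ := cen_hom a
      refine ⟨L, (injective_iff_map_eq_one L).2 fun z e => by_contra fun hz1 => b ?_, hL⟩
      refine lin_of_comm a fun g hg => a.isCharacter.mem_charKer.1 (zpowers_le.2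
        (a.isCharacter.mem_charKer.2 (by rw [hL, e, mul_one]))
        (CfsgH2.le_of_card_dvd_of_cyclic hZ hz (zpowers_le.2 z.2) ?_ hg))
      rw [hc]
      exact ((hP.to_subgroup _).card_eq_or_dvd).resolve_left fun e =>
        hz1 (Subtype.ext (zpowers_eq_bot.1 (card_eq_one.1 e)))
    have d : χ.1 1 = ψ.1 1 := by
      rw [← coe_charDegree χ.2.isCharacter, h2, coe_charDegree ψ.2.isCharacter]
    have d1 : χ.1 1 ≠ 1 := mt (charDegree_eq_one χ.2.isCharacter).2 h1
    obtain ⟨L, l1, l2⟩ := key _ χ.2 d1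
    obtain ⟨L', l3, l4⟩ := key _ ψ.2 (d ▸ d1)
    obtain ⟨z, hz'⟩ := IsCyclic.exists_monoid_generator (α := center P)
    haveI : NeZero (orderOf z) := ⟨(orderOf_pos z).ne'⟩
    obtain ⟨k, -, k1, k2⟩ := (orderOf_injective L l1 z ▸ IsPrimitiveRoot.orderOf (L z) :
      IsPrimitiveRoot (L z) (orderOf z)).isPrimitiveRoot_iff.1
        (orderOf_injective L' l3 z ▸ IsPrimitiveRoot.orderOf (L' z))
    have k3 : k.Coprime (Nat.card P) := by
      obtain ⟨n, hn⟩ := IsPGroup.iff_card.1 hP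
      rw [hn]
      refine (k1.coprime_dvd_right ?_).pow_right n
      rw [orderOf_eq_card_of_forall_mem_powers hz', ← hc]
      exact card_dvd_of_le hz
    refine ⟨k, k3, fun g => ?_⟩
    by_cases hg : g ∈ center P
    · obtain ⟨i, hi⟩ := hz' ⟨g, hg⟩
      refine (l4 ⟨g, hg⟩).trans (Eq.trans ?_ (l2 (⟨g, hg⟩ ^ k)).symm)
      simp only [← hi, map_pow, ← k2, d, ← pow_mul, mul_comm i k]
    · rw [van_center hp.out hc hz ψ.2 (d ▸ d1) hg,
        van_center hp.out hc hz χ.2 d1 (pow_notMem_of_coprime hg k3)]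


end Cfsg.Agent.S4845
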