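import Cfsg.Statements.S4463
import Cfsg.Agent.S4464
import Cfsg.Agent.S4845
import Cfsg.Agent.H3.Cd5
import Cfsg.Agent.H3.Burnside
import Cfsg.Agent.H4.Lan

set_option autoImplicit false
open Cfsg

open CfsgH3 CfsgH4 CfsgCd Function Subgroup
open scoped ComplexConjugate CfsgH2 commutatorElement

namespace Cfsg.Agent.S4463
universe u
section
variable {G : Type*} [Group G] [Finite G] {χ : G → ℂ} {b : ℕ}

theorem small_class [Nontrivial G] (h : ∀ χ, IsIrrCharacter G χ → charDegree χ ≤ b) :
    ∃ x : G, x ≠ 1 ∧ C1[x].index ≤ b ^ 2 := by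
  classical
  by_contra hc
  push Not at hc
  haveI := Fintype.ofFinite (ConjClasses G)
  have e1 := sum_index_crep G
  have e2 := sum_deg_sq_nat (G := G)
  rw [← Finset.add_sum_erase _ _ (Finset.mem_univ 1)] at e1
  rw [← Finset.add_sum_erase _ _ (Finset.mem_univ ⟨_, isIrr_one⟩), deg_one] at e2
  have e3 := Finset.card_nsmul_le_sum (Finset.univ.erase (1 : ConjClasses G))
    (fun c => C1[crep c].index) (b ^ 2 + 1) fun c hc' => hc _ fun e =>
      Finset.ne_of_mem_erase hc' (by rw [← mk_crep c, e]; rfl)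
  have e4 := Finset.sum_le_card_nsmul (Finset.univ.erase (⟨_, isIrr_one⟩ : IrrCharacter G))
    (fun χ => charDegree χ.1 ^ 2) (b ^ 2) fun χ _ => Nat.pow_le_pow_left (h _ χ.2) 2
  rw [Finset.card_erase_of_mem (Finset.mem_univ _), Finset.card_univ, Fintype.card_eq_nat_card,
    smul_eq_mul] at e3 e4
  rw [card_irr_eq_card_conjClasses] at e4
  have e5 := Nat.pos_of_ne_zero (index_ne_zero_of_finite (H := C1[crep (1 : ConjClasses G)]))
  have e6 := Finite.one_lt_card (α := G)
  replace e4 := e2.ge.trans (Nat.add_le_add_left e4 _)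
  generalize Nat.card (ConjClasses G) - 1 = k at e3 e4
  rw [mul_add] at e3
  obtain rfl : k = 0 := by omega
  omega

theorem van_bound (hχ : IsIrrCharacter G χ) {K : Subgroup G} (h : ∀ g ∉ K, χ g = 0) :
    K.index ≤ charDegree χ ^ 2 := by
  classical
  haveI := Fintype.ofFinite G
  have e := classInner_self_re χ
  rw [hχ.classInner_self, Complex.one_re, eq_inv_mul_iff_mul_eq₀ (Nat.cast_ne_zero.2
    Nat.card_pos.ne'), mul_one, ← K.card_mul_index, Nat.cast_mul,
    ← Finset.sum_subset (Finset.subset_univ (Finset.univ.filter (· ∈ K))) fun g _ hg => by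
      rw [h g (by simpa using hg)]; simp] at e
  have := Finset.sum_le_card_nsmul (Finset.univ.filter (· ∈ K)) (fun g => ‖χ g‖ ^ 2)
    ((charDegree χ : ℝ) ^ 2) fun g _ => by
      rw [← norm_one_eq hχ.isCharacter]
      exact pow_le_pow_left₀ (norm_nonneg _) (hχ.isCharacter.norm_le g) 2
  rw [← e, ← Fintype.card_subtype, Fintype.card_eq_nat_card, nsmul_eq_mul] at this
  exact_mod_cast le_of_mul_le_mul_left this (Nat.cast_pos.2 Nat.card_pos)

theorem res_eq {L : Subgroup G} [Fintype L] {θ : L → ℂ} (hθ : IsIrrCharacter L θ)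
    (hχ : IsIrrCharacter G χ) (h : classInner (fun x : L => χ x) θ ≠ 0)
    (hd : charDegree χ ≤ charDegree θ) : (fun x : L => χ x) = θ :=
  sub_eq_zero.1 (((hχ.isCharacter.restrict L).sub_of_constituent hθ h).eq_zero_of_apply_one (by
    rw [Pi.sub_apply, ← coe_charDegree hθ.isCharacter,
      ← hd.antisymm (deg_le_of_under hθ hχ.isCharacter h), coe_charDegree hχ.isCharacter]
    exact sub_self _))

theorem solv_of_le {A : Subgroup G} (h : commutator G ≤ A) (hA : ∀ x ∈ A, ∀ y ∈ A, x * y = y * x) :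
    Group.IsSolvable G :=
  ⟨⟨2, commutator_eq_bot_iff_le_centralizer.2 fun x hx y hy => hA y (h hy) x (h hx)⟩⟩

theorem deg_mul {β : G → ℂ} (hβ : IsCharacter G β) (hχ : IsCharacter G χ) :
    charDegree (β * χ) = charDegree β * charDegree χ :=
  charDegree_eq (by rw [Nat.cast_mul, coe_charDegree hβ, coe_charDegree hχ]; rfl)

end

theorem main (b : ℕ) : ∀ (G : Type u) [Group G] [Finite G],
    (∀ χ, IsIrrCharacter G χ → charDegree χ ≤ b) →
    ∃ A : Subgroup G, (∀ x ∈ A, ∀ y ∈ A, x * y = y * x) ∧ A.index ≤ b.factorial ^ 2 := by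
  induction b using Nat.strong_induction_on with | _ b ih => ?_
  intro G _ _ hb
  by_contra hcon
  classical
  haveI := Fintype.ofFinite G
  have red : ∀ (L : Subgroup G) c, c < b → (∀ θ, IsIrrCharacter L θ → charDegree θ ≤ c) →
      ¬ c.factorial ^ 2 * L.index ≤ b.factorial ^ 2 := fun L c hc h1 h2 => by
    obtain ⟨A, a1, a2⟩ := ih c hc L h1
    refine hcon ⟨A.map L.subtype, ?_, ?_⟩
    · rintro _ ⟨x, hx, rfl⟩ _ ⟨y, hy, rfl⟩
      exact congrArg Subtype.val (a1 x hx y hy)
    · rw [index_map_subtype]; exact (Nat.mul_le_mul_right _ a2).trans h2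
  have ext : ∀ (L : Subgroup G) θ, IsIrrCharacter L θ → b ≤ charDegree θ →
      ∃ χ, IsIrrCharacter G χ ∧ (fun x : L => χ x) = θ := fun L θ h1 h2 => by
    obtain ⟨χ, a1, a2⟩ := h1.exists_irr_over
    exact ⟨χ, a1, res_eq h1 a1 a2 ((hb χ a1).trans h2)⟩
  obtain ⟨K, _, k1, k2⟩ := exists_just (G := G) fun e => hcon ⟨⊤, fun x _ y _ =>
    commutatorElement_eq_one_iff_mul_comm.1 (mem_bot.1 (e.le
      (commutator_mem_commutator (mem_top x) (mem_top y)))), by
    rw [index_top]; exact Nat.one_le_pow _ _ b.factorial_pos⟩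
  obtain ⟨v, v1, v2⟩ := (bot_or_exists_ne_one _).resolve_left k1
  obtain ⟨β, b1, b2⟩ := exists_irr_ne v2
  have b3 : β 1 ≠ 1 := fun e => b2 (by rw [lin_comm b1.isCharacter e v1, e])
  have b4 : 2 ≤ charDegree β := by
    have := charDegree_pos b1
    have := mt (charDegree_eq_one b1.isCharacter).1 b3
    omega
  have hb' : ∀ β, IsIrrCharacter (G ⧸ K) β → charDegree β ≤ b := fun β h =>
    deg_inflate β ▸ hb _ (irr_inflate h)
  have b5 := b4.trans (hb' β b1)
  have ex : ∀ L : Subgroup G, L.index ≤ b ^ 2 → ∃ χ, IsIrrCharacter G χ ∧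
      IsIrrCharacter L (fun x => χ x) ∧ charDegree χ = b := fun L hL => by
    by_contra hh
    obtain ⟨c, rfl⟩ : ∃ c, b = c + 1 := ⟨b - 1, by omega⟩
    refine red L c c.lt_succ_self (fun θ hθ => by_contra fun e => ?_) ?_
    · obtain ⟨χ, a1, rfl⟩ := ext L θ hθ (by omega)
      exact hh ⟨χ, a1, hθ, (hb χ a1).antisymm (not_le.1 e)⟩
    · rw [Nat.factorial_succ, mul_pow, mul_comm]; exact Nat.mul_le_mul_right _ hL
  have hK : ∀ θ, IsIrrCharacter K θ → 2 * charDegree θ ≤ b := fun θ hθ => by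
    obtain ⟨χ, a1, a2⟩ := hθ.exists_irr_over
    obtain ⟨c, hc⟩ := (dvd_mul_left _ _).trans (deg_dvd_of_over hθ a1 a2).1
    have a3 := hb χ a1
    have a4 := charDegree_pos a1
    obtain rfl | rfl | h2 : c = 0 ∨ c = 1 ∨ 2 ≤ c := by omega
    · omega
    · have := hb _ (isIrr_mul_of_restrict_irr a1.isCharacter
        (res_eq hθ a1 a2 (by omega) ▸ hθ) (irr_inflate b1) fun n hn => by
          rw [(QuotientGroup.eq_one_iff n).2 hn, QuotientGroup.mk_one])
      rw [deg_mul (irr_inflate b1).isCharacter a1.isCharacter, deg_inflate, hc] at this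
      nlinarith
    · nlinarith
  have hs := QuotientGroup.mk'_surjective K
  have cen : center (G ⧸ K) ≠ ⊥ → commutator (G ⧸ K) ≤ center (G ⧸ K) := k2 _ inferInstance
  by_cases hsol : Group.IsSolvable (G ⧸ K)
  · obtain ⟨-, p, hp, p1, h3⟩ := just_nonab k1 k2
    by_cases hz : commutator (G ⧸ K) ≤ center (G ⧸ K)
    · have c1 : Nat.card (commutator (G ⧸ K)) = p := by
        rw [← CfsgH2.card_zpowers_eq hp (p1 v v1) v2]
        exact congrArg (fun H : Subgroup _ => Nat.card H) (le_antisymm (k2 _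
          (CfsgH3.normal_of_le_center (zpowers_le.2 (hz v1))) (by simpa using v2))
            (zpowers_le.2 v1))
      have c2 := fun g => van_center hp c1 hz b1 b3 (g := g)
      have c3 := (Cfsg.Agent.S4845.deg_sq b1).2 c2
      rw [← index_comap_of_surjective _ hs] at c3
      obtain ⟨χ, a1, a2, a3⟩ := ex _ (c3 ▸ Nat.pow_le_pow_left (hb' β b1) 2)
      have c4 := ((irr_inflate b1).isCharacter.mul a1.isCharacter).isIrr_of_inner_eq_one (by
        have e := classInner_self_re fun x : (center (G ⧸ K)).comap (QuotientGroup.mk' K) => χ x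
        rw [a2.classInner_self, Complex.one_re, eq_inv_mul_iff_mul_eq₀ (Nat.cast_ne_zero.2
          Nat.card_pos.ne'), mul_one] at e
        rw [classInner_self, ← Finset.sum_subset (Finset.subset_univ (Finset.univ.filter
          (· ∈ (center (G ⧸ K)).comap (QuotientGroup.mk' K)))) fun g _ hg => by
            rw [Pi.mul_apply, c2 g (by simpa using hg)]; simp,
          Finset.sum_congr rfl (g := fun g => (charDegree β : ℝ) ^ 2 * ‖χ g‖ ^ 2) fun g hg => by
            rw [Pi.mul_apply, norm_mul, mul_pow,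
              b1.norm_apply_of_mem_center (z := g) (Finset.mem_filter.1 hg).2, norm_one_eq b1.isCharacter],
          ← Finset.mul_sum, Finset.sum_subtype (p := (· ∈ (center (G ⧸ K)).comap
            (QuotientGroup.mk' K))) _ (by simp), ← e, ← Nat.cast_pow, c3, ← Nat.cast_mul,
          index_mul_card, inv_mul_cancel₀ (Nat.cast_ne_zero.2 Nat.card_pos.ne'), Complex.ofReal_one])
      have := hb _ c4
      rw [deg_mul (irr_inflate b1).isCharacter a1.isCharacter, deg_inflate, a3] at this
      nlinarith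
    replace h3 := h3.resolve_left fun e => hz e.2
    have hz' : center (G ⧸ K) = ⊥ := by_contra fun e => hz (cen e)
    obtain ⟨hab, -⟩ := just_nonab k1 k2
    let N := (commutator (G ⧸ K)).comap (QuotientGroup.mk' K)
    have hKN : K ≤ N := (QuotientGroup.ker_mk' K).ge.trans (ker_le_comap _ _)
    have n0 : ∀ a ∈ N, ∀ b ∈ N, a * b * a⁻¹ * b⁻¹ ∈ K := fun a ha b hb =>
      (QuotientGroup.eq_one_iff _).1 (commutatorElement_eq_one_iff_mul_comm.2 (hab _ ha _ hb))
    obtain ⟨ξ, n1, n2⟩ := frob_deg (K := K) (N := N)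
      (commutator_le.2 fun a _ b _ =>
        commutator_mem_commutator (mem_top (a : G ⧸ K)) (mem_top (b : G ⧸ K)))
      (fun c => k1 (eq_bot_iff.2 fun v hv => by
        obtain ⟨v, rfl⟩ := QuotientGroup.mk_surjective v
        exact (QuotientGroup.eq_one_iff v).2 (c hv))) n0
      (fun x hx v hv => by
        obtain ⟨w, hw, e⟩ := h3 x hx v hv
        obtain ⟨w, rfl⟩ := QuotientGroup.mk_surjective w
        exact ⟨w, hw, QuotientGroup.eq.1 e⟩) isIrr_one isIrr_one
    rw [deg_one, mul_one] at n2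
    have n3 := n2 ▸ hb ξ n1
    obtain ⟨χ, a1, a2, a3⟩ := ex N (by nlinarith)
    have n4 : K.relIndex N ≤ b ^ 2 := a3 ▸ van_bound a2 fun n hn => by_contra fun h0 => hn (by
      refine (QuotientGroup.eq_one_iff (n : G)).1 (mem_bot.1 (hz'.le (mem_center_iff.2 fun x => ?_)))
      obtain ⟨x, rfl⟩ := QuotientGroup.mk_surjective x
      refine commutatorElement_eq_one_iff_mul_comm.1 ((QuotientGroup.eq_one_iff ⁅x, (n : G)⁆).2
        (by_contra fun e => ?_))
      obtain ⟨l, l1, l2⟩ := exists_unitsHom_of_not_mem (N := K.subgroupOf N)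
        (fun a b => n0 a a.2 b b.2) (v := MulAut.conjNormal x n * n⁻¹) e
      obtain ⟨ψ, d1, d2⟩ := ext N _ (isIrr_lin_mul a2 l) (by
        rw [← a3]; exact ge_of_eq (congrArg (fun z : ℂ => ⌊z.re⌋₊) (by simp)))
      have d3 := (congrFun d2 (MulAut.conjNormal x n)).symm.trans
        ((d1.isClassFunction n x).trans (congrFun d2 n))
      rw [show χ (MulAut.conjNormal x n : N) = χ n from a1.isClassFunction n x] at d3
      exact l2 (by rw [map_mul, Units.ext (mul_right_cancel₀ h0 d3), map_inv, mul_inv_cancel]))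
    obtain rfl | b6 : b = 2 ∨ 3 ≤ b := by omega
    · obtain ⟨φ, f1, f2⟩ := a2.exists_irr_under (H := K.subgroupOf N)
      have f3 := (deg_dvd_of_over f1 a2 f2).2
      have f4 := hK _ (f1.comp_equiv (subgroupOfEquivOfLe hKN).symm)
      have f5 := charDegree_pos f1
      rw [show charDegree (fun x => φ ((subgroupOfEquivOfLe hKN).symm x)) = charDegree φ from
        congrArg (fun z => ⌊(φ z).re⌋₊) (map_one _)] at f4
      have f6 : K.relIndex N = Nat.card (commutator (G ⧸ K)) := by
        conv_lhs => rw [← QuotientGroup.ker_mk' K]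
        rw [relIndex_ker, map_comap_eq_self_of_surjective hs]
      haveI := Fact.mk hp
      obtain ⟨k, hk⟩ := IsPGroup.iff_card.1 (CfsgH2.isPGroup_of_exp p1)
      rw [show charDegree φ = 1 by omega, mul_one, show (K.subgroupOf N).index = _ from f6, hk,
        show charDegree (fun x : N => χ x) = 2 from a3] at f3
      obtain rfl := (Nat.prime_dvd_prime_iff_eq Nat.prime_two hp).1 (Nat.prime_two.dvd_of_dvd_pow f3)
      rw [index_comap_of_surjective _ hs] at n3
      have f7 : IsPGroup 2 (G ⧸ K) := fun g => ⟨2, by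
        have h1 := (commutator (G ⧸ K)).pow_index_mem g
        have h2 := index_ne_zero_of_finite (H := commutator (G ⧸ K))
        rw [show 2 ^ 2 = 2 * 2 from rfl, pow_mul]
        obtain e | e : (commutator (G ⧸ K)).index = 1 ∨ (commutator (G ⧸ K)).index = 2 := by omega
        · exact p1 _ (pow_mem (by rwa [e, pow_one] at h1) 2)
        · exact p1 _ (e ▸ h1)⟩
      haveI : Nontrivial (G ⧸ K) := ⟨⟨v, 1, v2⟩⟩
      exact (nontrivial_iff_ne_bot _).1 f7.center_nontrivial hz'
    · obtain ⟨c, rfl⟩ : ∃ c, b = c + 2 := ⟨b - 2, by omega⟩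
      refine red K c (by omega) (fun θ hθ => by have := hK θ hθ; omega) ?_
      rw [← relIndex_mul_index hKN, Nat.factorial_succ, Nat.factorial_succ, mul_pow, mul_pow,
        ← mul_assoc ((c + 1 + 1) ^ 2), mul_comm]
      exact Nat.mul_le_mul_right _ (Nat.mul_le_mul n4 (by nlinarith))
  · have hz' : center (G ⧸ K) = ⊥ := by_contra fun e => hsol (solv_of_le (cen e)
      fun x hx y _ => (mem_center_iff.1 hx y).symm)
    have b6 : 5 ≤ b := by_contra fun e => hsol (burnside_paqb 2 3 (Nat.card (G ⧸ K))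
      (Nat.card (G ⧸ K)) Nat.prime_two Nat.prime_three ((Nat.dvd_iff_prime_pow_dvd_dvd _ _).2
        fun q k hq hk => by
      rcases Nat.eq_zero_or_pos k with rfl | h0
      · simp
      have h1 := pow_dvd_pow q ((Nat.lt_pow_self hq.one_lt).le.trans (Nat.le_of_dvd Nat.card_pos hk))
      by_cases h2 : q = 2
      · exact h1.trans (h2 ▸ dvd_mul_right _ _)
      by_cases h3 : q = 3
      · exact h1.trans (h3 ▸ dvd_mul_left _ _)
      obtain ⟨P, p1, p2, -, p3⟩ := Cfsg.Agent.S4464.result (G := G ⧸ K) q hq fun χ => by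
        have := hb' _ χ.2
        have := hq.five_le_of_ne_two_of_ne_three h2 h3
        omega
      exact absurd (solv_of_le (k2 P p1 fun e => p3 (by
        rw [e, index_bot]; exact (dvd_pow_self q h0.ne').trans hk)) p2) hsol))
    haveI : Nontrivial (G ⧸ K) := ⟨⟨v, 1, v2⟩⟩
    obtain ⟨x, x1, x2⟩ := small_class hb'
    rw [← index_comap_of_surjective _ hs] at x2
    obtain ⟨χ, a1, a2, a3⟩ := ex _ x2
    have hKL : K ≤ C1[x].comap (QuotientGroup.mk' K) :=
      (QuotientGroup.ker_mk' K).ge.trans (ker_le_comap _ _)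
    have n4 : K.relIndex (C1[x].comap (QuotientGroup.mk' K)) ≤ b ^ 2 := a3 ▸ van_bound a2
      fun n hn => by_contra fun h0 => hsol (by
        have c1 := k2 _ ((normalCore_normal _).map _ hs) fun e => hn ((QuotientGroup.eq_one_iff
          (n : G)).1 (mem_bot.1 (e.le ⟨n, mem_core_of_ext a1 a2 (fun ψ h _ => a3 ▸ hb ψ h) n.2 h0,
            rfl⟩)))
        have c2 := c1.trans (map_le_iff_le_comap.2 (normalCore_le _))
        have c3 := k2 C[commutator (G ⧸ K)] inferInstance fun e => x1 (mem_bot.1 (e.le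
          fun y hy => mem_centralizer_singleton_iff.1 (c2 hy)))
        exact solv_of_le le_rfl fun y hy z hz => c3 hz y hy)
    obtain ⟨c, rfl⟩ : ∃ c, b = c + 3 := ⟨b - 3, by omega⟩
    refine red K c (by omega) (fun θ hθ => by have := hK θ hθ; omega) ?_
    rw [← relIndex_mul_index hKL, Nat.factorial_succ, Nat.factorial_succ, Nat.factorial_succ,
      ← mul_assoc (c + 1 + 1), mul_pow, mul_pow, ← mul_assoc ((c + 2 + 1) ^ 2), mul_comm]
    exact Nat.mul_le_mul_right _ (Nat.mul_le_mul n4 (x2.trans (Nat.pow_le_pow_left (by nlinarith) 2)))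

/-- Let b be the largest irreducible character degree of the finite group G. Then G has an abelian subgroup of index at most (b!)². -/
theorem result {G : Type*} [Group G] [Finite G] (b : ℕ) (hb : IsGreatest {d : ℕ | ∃ χ : Cfsg.IrrCharacter G, Cfsg.charDegree (χ : G → ℂ) = d} b) : ∃ A : Subgroup G, (∀ x ∈ A, ∀ y ∈ A, x * y = y * x) ∧ A.index ≤ (Nat.factorial b) ^ 2 := by
  exact main b G fun χ h => hb.2 ⟨⟨χ, h⟩, rfl⟩


end Cfsg.Agent.S4463
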