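import Cfsg.Statements.S4459
import Cfsg.Agent.S4463

set_option autoImplicit false
open Cfsg

open CfsgH3 CfsgH4 CfsgCd Function Subgroup Cfsg.Agent.S4463
open scoped ComplexConjugate CfsgH2 commutatorElement IsMulCommutative

namespace Cfsg.Agent.S4459
section
variable {G : Type*} [Group G] [Finite G] {χ β : G → ℂ} {p : ℕ}

theorem irr_mul_van {L : Subgroup G} (hβ : IsCharacter G β) (h1 : ∀ g ∉ L, β g = 0)
    (h2 : ∀ g ∈ L, ‖β g‖ = ‖β 1‖) (h3 : charDegree β ^ 2 = L.index) (hχ : IsCharacter G χ)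
    (hL : IsIrrCharacter L fun x => χ x) : IsIrrCharacter G (β * χ) := by
  classical
  haveI := Fintype.ofFinite G
  refine (hβ.mul hχ).isIrr_of_inner_eq_one ?_
  have e := classInner_self_re fun x : L => χ x
  rw [hL.classInner_self, Complex.one_re, eq_inv_mul_iff_mul_eq₀ (Nat.cast_ne_zero.2
    Nat.card_pos.ne'), mul_one] at e
  rw [classInner_self, ← Finset.sum_subset (Finset.subset_univ (Finset.univ.filter (· ∈ L)))
      fun g _ hg => by rw [Pi.mul_apply, h1 g (by simpa using hg)]; simp,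
    Finset.sum_congr rfl (g := fun g => (charDegree β : ℝ) ^ 2 * ‖χ g‖ ^ 2) fun g hg => by
      rw [Pi.mul_apply, norm_mul, mul_pow, h2 g (Finset.mem_filter.1 hg).2, norm_one_eq hβ],
    ← Finset.mul_sum, Finset.sum_subtype (p := (· ∈ L)) _ (by simp), ← e, ← Nat.cast_pow, h3,
    ← Nat.cast_mul, index_mul_card, inv_mul_cancel₀ (Nat.cast_ne_zero.2 Nat.card_pos.ne'),
    Complex.ofReal_one]

theorem core (hp : p.Prime) {A : Subgroup G} [A.Normal] [IsMulCommutative A] (hi : A.index = p ^ 2)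
    (hA : ∀ g, g ^ p ∈ A) (hG : IsPGroup p (commutator G)) (hc : ∀ g ∉ A, g ∉ C[A])
    (hz : center G ≤ A) (hd : ∀ χ, IsIrrCharacter G χ → charDegree χ ≤ p) :
    (center G).index = p ^ 3 := by
  classical
  haveI := Fact.mk hp
  haveI := Fintype.ofFinite G
  haveI : NeZero (Monoid.exponent A) := ⟨Monoid.exponent_ne_zero_of_finite⟩
  have hX : Nat.card (A →* ℂˣ) = Nat.card A :=
    CommGroup.card_monoidHom_of_hasEnoughRootsOfUnity A ℂ
  haveI : Finite (A →* ℂˣ) := Nat.finite_of_card_ne_zero (hX ▸ Nat.card_pos.ne')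
  haveI := Fintype.ofFinite (A →* ℂˣ)
  let f : G → A →* A := fun g => (MulAut.conjNormal g).toMonoidHom * (MonoidHom.id A)⁻¹
  have hf : ∀ g a, (f g a : G) = ⁅g, (a : G)⁆ := fun g a => rfl
  let F : G → Subgroup (A →* ℂˣ) := fun g => (MonoidHom.domRestrictHom (f g).range ℂˣ).ker
  have hF : ∀ g l, l ∈ F g ↔ g ∈ inertia fun a : A => (l a : ℂ) := fun g l => by
    rw [mem_inertia']
    refine ⟨fun h a => congrArg Units.val (mul_inv_eq_one.1 ?_), fun h => ?_⟩
    · rw [← map_inv, ← map_mul]; exact DFunLike.congr_fun h ⟨_, a, rfl⟩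
    · ext ⟨_, a, rfl⟩
      show ((l (_ * a⁻¹) : ℂˣ) : ℂ) = 1
      rw [map_mul, map_inv, show l ((MulAut.conjNormal g).toMonoidHom a) = l a from
        Units.ext (h a), mul_inv_cancel, Units.val_one]
  have cF : ∀ g, Nat.card (F g) * Nat.card (f g).range = Nat.card A := fun g => by
    rw [CommGroup.card_domRestrictHom_ker]; exact index_mul_card _
  have cU : ∀ g ∉ A, Nat.card (f g).range = p ∨ p ^ 2 * Nat.card (F g) ≤ Nat.card A :=
    fun g hg => by
    obtain ⟨k, hk⟩ := IsPGroup.iff_card.1 (hG.to_le (H := (f g).range.map A.subtype) (by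
      rintro _ ⟨_, ⟨a, rfl⟩, rfl⟩
      exact commutator_mem_commutator (mem_top g) (mem_top (a : G))))
    rw [card_subtype] at hk
    obtain rfl | rfl | h2 : k = 0 ∨ k = 1 ∨ 2 ≤ k := by omega
    · refine absurd (fun a ha => ?_) (hc g hg)
      have := (eq_bot_iff_forall _).1 (card_eq_one.1 hk) _ ⟨⟨a, ha⟩, rfl⟩
      exact (commutatorElement_eq_one_iff_mul_comm.1 (congrArg Subtype.val this)).symm
    · exact Or.inl (hk.trans (pow_one p))
    · rw [← cF g, hk, mul_comm]
      exact Or.inr (Nat.mul_le_mul_left _ (Nat.pow_le_pow_right hp.pos h2))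
  let D : Subgroup (A →* ℂˣ) := ⨅ g, F g
  let S : Finset G := Finset.univ.filter fun g => g ∉ A ∧ Nat.card (f g).range = p
  have hG' : Nat.card G = Nat.card A * p ^ 2 := by rw [← hi, card_mul_index]
  have hn := Nat.card_pos (α := A)
  have hD := Nat.card_pos (α := D)
  obtain ⟨q, hq⟩ : ∃ q, p = q + 1 := ⟨p - 1, by have := hp.pos; omega⟩
  have hq1 : 1 ≤ q := by have := hp.two_le; omega
  have cs : ∀ {Y : Type _} [Group Y] [Fintype Y] (H : Subgroup Y) (c : ℕ),
      ∑ y, (if y ∈ H then c else 0) = Nat.card H * c := fun H c => by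
    rw [← Finset.sum_filter, Finset.sum_const, ← Fintype.card_subtype, Fintype.card_eq_nat_card,
      smul_eq_mul]
  have s1 : ∑ l : A →* ℂˣ, (Nat.card G + if l ∈ D then q * Nat.card G else 0) ≤
      p * ∑ g, Nat.card (F g) := by
    have : ∑ g, Nat.card (F g) = ∑ l : A →* ℂˣ, Nat.card (inertia fun a : A => (l a : ℂ)) := by
      rw [Finset.sum_congr rfl fun g _ => ((mul_one _).symm.trans (cs (F g) 1).symm),
        Finset.sum_comm]
      exact Finset.sum_congr rfl fun l _ => by simp only [hF, cs, mul_one]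
    rw [this, Finset.mul_sum]
    refine Finset.sum_le_sum fun l _ => ?_
    split_ifs with hl
    · rw [(eq_top_iff' _).2 fun g => (hF g l).1 (mem_iInf.1 hl g), card_top, hq]; linarith
    · obtain ⟨χ, c1, c2⟩ := exists_over_dvd (isIrr_of_unitsHom l)
      rw [add_zero, ← index_mul_card (inertia fun a : A => (l a : ℂ))]
      exact Nat.mul_le_mul_right _ ((Nat.le_of_dvd (charDegree_pos c1)
        ((dvd_mul_right _ _).trans c2)).trans (hd χ c1))
  have s2 : ∑ g, (p ^ 2 * Nat.card (F g) + if g ∈ A then Nat.card A else 0) ≤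
      ∑ g, (Nat.card A + (if g ∈ A then p ^ 2 * Nat.card A else 0) +
        if g ∉ A ∧ Nat.card (f g).range = p then q * Nat.card A else 0) := by
    refine Finset.sum_le_sum fun g _ => ?_
    by_cases hg : g ∈ A
    · have := Nat.mul_le_mul_left (p ^ 2) (hX ▸ card_le_card_group (F g))
      simp only [hg, if_true]; omega
    · by_cases h : Nat.card (f g).range = p
      · have := cF g
        rw [h] at this
        simp only [hg, h, if_false, not_false_eq_true, and_self, if_true]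
        rw [← this, hq]; apply le_of_eq; ring
      · rw [if_neg hg, if_neg hg, if_neg fun e => h e.2]; exact (cU g hg).resolve_left h
  rw [Finset.sum_add_distrib, cs, Finset.sum_const, Finset.card_univ, Fintype.card_eq_nat_card, hX,
    smul_eq_mul, hG'] at s1
  rw [Finset.sum_add_distrib, Finset.sum_add_distrib, Finset.sum_add_distrib, cs, cs,
    Finset.sum_const, Finset.card_univ, Fintype.card_eq_nat_card, smul_eq_mul, hG',
    ← Finset.mul_sum, ← Finset.sum_filter, Finset.sum_const, smul_eq_mul] at s2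
  have s3 : p ^ 2 * Nat.card A + p ^ 3 * Nat.card D ≤ (p + 1) * Nat.card A + S.card := by
    refine Nat.le_of_mul_le_mul_left ?_ (Nat.mul_pos hq1 hn)
    have := Nat.mul_le_mul_left p s1
    change _ ≤ _ + S.card * _ at s2
    generalize ∑ g, Nat.card (F g) = T at this s2
    subst hq
    nlinarith
  have s4 : ∀ H : Subgroup G, A ≤ H → (∀ g ∈ S, g ∈ H) → S.card + Nat.card A ≤ Nat.card H ∧
      (Nat.card H ≤ S.card + Nat.card A → ∀ g ∈ H, g ∉ A → g ∈ S) := fun H h1 h2 => by
    have e1 : ∀ K : Subgroup G, Nat.card K = (Finset.univ.filter (· ∈ K)).card := fun K => by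
      rw [← Fintype.card_subtype, Fintype.card_eq_nat_card]
    have e2 : S ∪ Finset.univ.filter (· ∈ A) ⊆ Finset.univ.filter (· ∈ H) := fun g hg => by
      rcases Finset.mem_union.1 hg with e | e
      · simpa using h2 g e
      · simpa using h1 (by simpa using e)
    rw [e1, e1, ← Finset.card_union_of_disjoint (Finset.disjoint_left.2 fun g hg e =>
      (Finset.mem_filter.1 hg).2.1 (Finset.mem_filter.1 e).2)]
    refine ⟨Finset.card_le_card e2, fun h g g1 g2 => ?_⟩
    have := (Finset.eq_of_subset_of_card_le e2 h).ge (show g ∈ _ by simpa using g1)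
    exact (Finset.mem_union.1 this).resolve_right (by simpa using g2)
  have s5 : ∀ H : Subgroup G, A ≤ H → Nat.card H ≤ Nat.card A * p → ∃ g ∈ S, g ∉ H :=
    fun H h1 h2 => by
    by_contra hh
    push Not at hh
    have := (s4 H h1 hh).1
    subst hq
    nlinarith [Nat.mul_le_mul_right (Nat.card A) (Nat.mul_le_mul_left q hq1),
      Nat.mul_pos (pow_pos hp.pos 3) hD]
  obtain ⟨x, x1, x2⟩ := s5 A le_rfl (Nat.le_mul_of_pos_right _ hp.pos)
  have x3 := CfsgH2.card_sup_zpowers_prime hp ((normalizer_eq_top A).ge (mem_top x)) (hA x) x2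
  obtain ⟨y, y1, y2⟩ := s5 (A ⊔ zpowers x) le_sup_left x3.le
  have t1 : ∀ H : Subgroup G, A ≤ H → x ∈ H → y ∈ H → H = ⊤ := fun H h1 h2 h3 => by
    refine (CfsgH2.eq_or_eq_of_relIndex_prime (K := A ⊔ zpowers x) ?_
      (sup_le h1 (zpowers_le.2 h2)) le_top).resolve_left fun e => y2 (e ▸ h3)
    have := (A ⊔ zpowers x).card_mul_index
    rw [x3, hG', sq, mul_assoc] at this
    rwa [relIndex_top_right, Nat.eq_of_mul_eq_mul_left hp.pos (Nat.eq_of_mul_eq_mul_left hn this)]
  have t2 : F x ⊓ F y ≤ D := fun l hl => mem_iInf.2 fun g => (hF g l).2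
    ((t1 _ (fun a ha => mem_inertia'.2 fun n => congrArg (fun z : A => (l z : ℂ))
      (mul_inv_eq_iff_eq_mul.2 (mul_comm (⟨a, ha⟩ : A) n))) ((hF x l).1 hl.1)
        ((hF y l).1 hl.2)).ge (mem_top g))
  have t3 : ∀ g ∈ S, (F g).index = p := fun g hg => Nat.eq_of_mul_eq_mul_left Nat.card_pos (by
    rw [card_mul_index, hX, ← cF g, (Finset.mem_filter.1 hg).2.2])
  have t4 := D.index_mul_card
  rw [hX] at t4
  have t5 := s4 ⊤ le_top fun _ _ => mem_top _
  rw [card_top, hG'] at t5
  have t6 : x * y ∈ S := t5.2 (by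
    have := Nat.mul_le_mul_right (Nat.card D) ((index_antitone t2).trans index_inf_le)
    rw [t4, t3 x x1, t3 y y1] at this
    nlinarith [Nat.mul_le_mul_left p this]) _ (mem_top _) fun e => y2 (by
      rw [← inv_mul_cancel_left x y]
      exact mul_mem (mem_sup_right (inv_mem (mem_zpowers x))) (mem_sup_left e))
  have t7 : (f x).range ⊓ (f y).range = ⊥ := by
    refine (CfsgH1.eq_bot_or_eq_of_card_prime ((Finset.mem_filter.1 x1).2.2.symm ▸ hp)
      inf_le_left).resolve_right fun e => ?_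
    have e1 : F y ≤ D := le_trans (le_inf (fun l hl => MonoidHom.ext fun u =>
      DFunLike.congr_fun hl ⟨u.1, (inf_eq_left.1 e) u.2⟩) le_rfl) t2
    have := Nat.mul_le_mul_right (Nat.card D) (index_antitone e1)
    rw [t4, t3 y y1] at this
    have h5 := t5.1
    subst hq
    nlinarith [Nat.mul_le_mul_left (q + 1) this, Nat.mul_pos (pow_pos hp.pos 2) hD,
      Nat.mul_le_mul_right ((q + 1) ^ 2 * Nat.card D) hq1]
  have t8 : center G = (f (x * y)).ker.map A.subtype := by
    refine le_antisymm (fun z h => ⟨⟨z, hz h⟩, Subtype.ext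
      (commutatorElement_eq_one_iff_mul_comm.2 (mem_center_iff.1 h _)), rfl⟩) ?_
    rintro _ ⟨a, ha, rfl⟩
    have e0 : ⁅x * y, (a : G)⁆ = 1 := congrArg Subtype.val ha
    have e1 : (f y a)⁻¹ = f x (MulAut.conjNormal x⁻¹ a) := inv_eq_of_mul_eq_one_right
      (Subtype.ext (show ⁅y, (a : G)⁆ * ⁅x, x⁻¹ * a * x⁻¹⁻¹⁆ = 1 by
        rw [← show x⁻¹ * ⁅x * y, (a : G)⁆ * x = 1 by rw [e0]; simp]; group))
    have e2 : ⁅y, (a : G)⁆ = 1 := congrArg Subtype.val ((eq_bot_iff_forall _).1 t7 (f y a)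
      ⟨(f x).range.inv_mem_iff.1 ⟨_, e1.symm⟩, ⟨_, rfl⟩⟩)
    have e3 := commutatorElement_eq_one_iff_commute.1 e2
    have e4 : Commute x a := by
      rw [← mul_inv_cancel_right x y]
      exact (commutatorElement_eq_one_iff_commute.1 e0).mul_left e3.inv_left
    exact mem_center_iff.2 fun g => mem_centralizer_singleton_iff.1 ((t1 C1[(a : G)] (fun b hb =>
      mem_centralizer_singleton_iff.2 (congrArg Subtype.val (mul_comm (⟨b, hb⟩ : A) a)))
      (mem_centralizer_singleton_iff.2 e4) (mem_centralizer_singleton_iff.2 e3)).ge (mem_top g))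
  rw [t8, index_map_subtype, index_ker, (Finset.mem_filter.1 t6).2.2, hi, pow_succ' p 2]

end

/-- Let G be a non-abelian finite group and p a prime. Then the irreducible character degrees of G are exactly 1 and p if and only if either G has an abelian normal subgroup of index p or the centre of G has index p³. -/
theorem result {G : Type*} [Group G] [Finite G] (hG : ∃ a b : G, a * b ≠ b * a) (p : ℕ) (hp : p.Prime) : ((∀ χ : Cfsg.IrrCharacter G, Cfsg.charDegree (χ : G → ℂ) = 1 ∨ Cfsg.charDegree (χ : G → ℂ) = p) ∧ ∃ χ : Cfsg.IrrCharacter G, Cfsg.charDegree (χ : G → ℂ) = p) ↔ ((∃ A : Subgroup G, A.Normal ∧ (∀ a ∈ A, ∀ b ∈ A, a * b = b * a) ∧ A.index = p) ∨ (Subgroup.center G).index = p ^ 3) := by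
  haveI := Fact.mk hp
  have hG' : ¬ ∀ a b : G, a * b = b * a := fun h => hG.elim fun a h' => h'.elim fun b e => e (h a b)
  refine ⟨fun ⟨h1, h2⟩ => ?_, fun h => ?_⟩
  swap
  · have : ∀ χ, IsIrrCharacter G χ → charDegree χ = 1 ∨ charDegree χ = p := fun χ hχ => by
      rcases h with ⟨A, _, a1, a2⟩ | h
      · exact (Nat.dvd_prime hp).1 (a2 ▸ deg_dvd_index_ab hχ A a1)
      · obtain ⟨k, -, hk⟩ := (Nat.dvd_prime_pow hp).1 (h ▸ deg_dvd_index_ab hχ (center G)
          fun a ha b _ => (mem_center_iff.1 ha b).symm)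
        have := (Cfsg.Agent.S4845.deg_sq hχ).1
        rw [hk, h, ← pow_mul, Nat.pow_le_pow_iff_right hp.one_lt] at this
        obtain rfl | rfl : k = 0 ∨ k = 1 := by omega
        exacts [Or.inl hk, Or.inr (hk.trans (pow_one p))]
    obtain ⟨χ, c1, c2⟩ := exists_nonlin hG'
    exact ⟨fun χ => this _ χ.2, ⟨χ, c1⟩, (this χ c1).resolve_left c2⟩
  replace h1 : ∀ χ, IsIrrCharacter G χ → charDegree χ = 1 ∨ charDegree χ = p :=
    fun χ h => h1 ⟨χ, h⟩
  have hd : ∀ χ, IsIrrCharacter G χ → charDegree χ ≤ p := fun χ h =>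
    (h1 χ h).elim (fun e => e ▸ hp.pos) le_of_eq
  refine or_iff_not_imp_left.2 fun hno => ?_
  obtain ⟨r, e, hr, he, P, B, _, _, p1, p2, -, p3⟩ := (cd_two h1 (h2.elim fun χ h => ⟨_, χ.2, h⟩)
    hp.ne_one).resolve_left hno
  obtain rfl : r = p := (Nat.prime_dvd_prime_iff_eq hr hp).1 (he ▸ dvd_pow_self r fun e0 =>
    hp.ne_one (by rw [he, e0, pow_zero]))
  have a1 : IsPGroup r (commutator G) := p1.to_le (commutator_le.2 fun a _ b _ => by
    have : ∀ g : G, ∃ b ∈ B, (g : G ⧸ P) = b := fun g => by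
      obtain ⟨u, hu, v, hv, rfl⟩ := (CfsgH2.mem_sup_of_norm' (le_top.trans
        (normalizer_eq_top P).ge)).1 (p3.ge (mem_top g))
      exact ⟨v, hv, by rw [QuotientGroup.mk_mul, (QuotientGroup.eq_one_iff u).2 hu, one_mul]⟩
    obtain ⟨u, hu, e1⟩ := this a
    obtain ⟨v, hv, e2⟩ := this b
    refine (QuotientGroup.eq_one_iff _).1 (commutatorElement_eq_one_iff_mul_comm.2
      (?_ : (a : G ⧸ P) * b = b * a))
    rw [e1, e2, ← QuotientGroup.mk_mul, p2 u hu v hv, QuotientGroup.mk_mul])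
  haveI := p1.isNilpotent
  haveI : IsMulCommutative B := ⟨⟨fun a b => Subtype.ext (p2 a a.2 b b.2)⟩⟩
  haveI : Group.IsNilpotent G := Group.isNilpotent_top.1 (p3 ▸ CfsgH1.isNilpotent_sup P B)
  obtain ⟨K, _, k1, k2⟩ := exists_just (G := G) fun e => hG' fun x y =>
    commutatorElement_eq_one_iff_mul_comm.1 (mem_bot.1 (e.le
      (commutator_mem_commutator (mem_top x) (mem_top y))))
  obtain ⟨v, v1, v2⟩ := (bot_or_exists_ne_one _).resolve_left k1
  obtain ⟨β, b1, b2⟩ := exists_irr_ne v2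
  have b3 : β 1 ≠ 1 := fun e => b2 (by rw [lin_comm b1.isCharacter e v1, e])
  have b4 : charDegree β = r := deg_inflate β ▸ (h1 _ (irr_inflate b1)).resolve_left fun e =>
    b3 ((charDegree_eq_one (irr_inflate b1).isCharacter).1 e)
  haveI : Nontrivial (G ⧸ K) := ⟨⟨v, 1, v2⟩⟩
  have hz := k2 _ inferInstance (Group.IsNilpotent.center_ne_bot (G := G ⧸ K))
  have hs := QuotientGroup.mk'_surjective K
  have c0 : commutator (G ⧸ K) = (commutator G).map (QuotientGroup.mk' K) := by
    rw [commutator_def, commutator_def, map_commutator, map_top_of_surjective _ hs]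
  have c1 : Nat.card (commutator (G ⧸ K)) = r := by
    obtain ⟨X, x1, x2⟩ := CfsgH2.exists_card_pow_le 1 ((pow_one r).symm ▸
      CfsgH2.dvd_card_of_pgroup (c0 ▸ a1.map _) k1)
    rw [le_antisymm (k2 X (CfsgH3.normal_of_le_center (x1.trans hz)) fun e => by
      rw [e, card_bot, pow_one] at x2; exact hr.ne_one x2.symm) x1, x2, pow_one]
  have c2 := fun g => van_center hr c1 hz b1 b3 (g := g)
  have c3 := (Cfsg.Agent.S4845.deg_sq b1).2 c2
  rw [← index_comap_of_surjective _ hs] at c3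
  have c4 : ∀ g : G, g ^ r ∈ (center (G ⧸ K)).comap (QuotientGroup.mk' K) := fun g =>
    mem_center_iff.2 fun h => by
      have := commutator_mem_commutator (mem_top (g : G ⧸ K)) (mem_top h)
      rw [eq_comm, ← commutatorElement_eq_one_iff_mul_comm, map_pow, QuotientGroup.mk'_apply,
        CfsgH2.commutator_pow_left (mem_center_iff.1 (hz this) _).symm, ← c1]
      exact congrArg Subtype.val (pow_card_eq_one' (x := (⟨_, this⟩ : commutator (G ⧸ K))))
  have c5 : commutator G ≤ (center (G ⧸ K)).comap (QuotientGroup.mk' K) :=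
    map_le_iff_le_comap.1 (c0 ▸ hz)
  have c6 : center G ≤ (center (G ⧸ K)).comap (QuotientGroup.mk' K) := fun z h =>
    mem_center_iff.2 fun g => by
      obtain ⟨g, rfl⟩ := hs g
      rw [← map_mul, ← map_mul, mem_center_iff.1 h]
  have c7 := fun χ => irr_mul_van (χ := χ) (L := (center (G ⧸ K)).comap (QuotientGroup.mk' K))
    (irr_inflate b1).isCharacter (fun g => c2 g) (fun g h => b1.norm_apply_of_mem_center h) c3
  rw [b4] at c3
  generalize (center (G ⧸ K)).comap (QuotientGroup.mk' K) = A at c3 c4 c5 c6 c7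
  haveI := Fintype.ofFinite G
  haveI := Fintype.ofFinite A
  haveI : A.Normal := Normal.of_commutator_le _ c5
  haveI : IsMulCommutative A := ⟨⟨comm_of_forall_lin fun φ hφ => by_contra fun e => by
    obtain ⟨χ, d1, d2⟩ := hφ.exists_irr_over
    have d3 := (dvd_mul_left _ _).trans (deg_dvd_of_over hφ d1 d2).1
    have d4 := mt (charDegree_eq_one hφ.isCharacter).1 e
    have d5 := (h1 χ d1).resolve_left fun e => d4 (Nat.dvd_one.1 (e ▸ d3))
    have d6 := hd _ (c7 _ d1.isCharacter (res_eq hφ d1 d2 (d5.trans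
      (((Nat.dvd_prime hr).1 (d5 ▸ d3)).resolve_left d4).symm).le ▸ hφ))
    rw [deg_mul (irr_inflate b1).isCharacter d1.isCharacter, deg_inflate, b4, d5] at d6
    nlinarith [hr.two_le]⟩⟩
  refine core hr c3.symm c4 a1 (fun g h3 h4 => hno ⟨A ⊔ zpowers g,
    Normal.of_commutator_le _ (c5.trans le_sup_left), fun a ha b hb => congrArg Subtype.val
      ((CfsgH2.isMulComm_sup_zpowers inferInstance h4).is_comm.comm ⟨a, ha⟩ ⟨b, hb⟩), ?_⟩) c6 hd
  have := relIndex_mul_index (le_sup_left : A ≤ A ⊔ zpowers g)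
  rw [CfsgH2.relIndex_sup_zpowers_prime hr ((normalizer_eq_top A).ge (mem_top g)) (c4 g) h3, ← c3,
    sq] at this
  exact Nat.eq_of_mul_eq_mul_left hr.pos this


end Cfsg.Agent.S4459
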