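import Cfsg.Statements.S4466
import Cfsg.Agent.H3.Cd4
import Cfsg.Agent.S4441

set_option autoImplicit false
open Cfsg

open Cfsg CfsgH3 CfsgH4 CfsgCd Function Subgroup

namespace Cfsg.Agent.S4466
theorem card_syl {G : Type*} [Group G] [Finite G] [IsSimpleGroup G] (hG : ¬ ∀ a b : G, a * b = b * a) {χ : G → ℂ}
    (hχ : IsIrrCharacter G χ) {p : ℕ} [hp : Fact p.Prime] (hd : charDegree χ = p) {P : Subgroup G} (hP : IsPGroup p P)
    (hi : ¬ p ∣ P.index) : Nat.card P = p := by
  classical
  haveI := Fintype.ofFinite P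
  have h1 : χ 1 = p := by rw [← coe_charDegree hχ.isCharacter, hd]
  have hZ := hχ.charCenter_eq_bot (fun h => hp.1.one_lt.ne (by rw [← hd, h, deg_one])) hG
  have hv : ∀ z : P, z ∈ center P → z ≠ 1 → χ z = 0 := fun z hz h0 => by
    refine (hχ.eq_zero_or_norm_eq_of_coprime h1 z ?_).resolve_right fun h => h0 (Subtype.ext ?_)
    · refine (hp.1.coprime_iff_not_dvd).2 fun h => hi (h.trans (index_dvd_of_le fun x hx => ?_))
      exact mem_centralizer_singleton_iff.2 (congrArg Subtype.val (mem_center_iff.1 hz ⟨x, hx⟩))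
    · exact mem_bot.1 (hZ ▸ hχ.isCharacter.mem_charCenter.2 h)
  have hdvd : p ∣ Nat.card P := (hp.1.dvd_mul.1 ((hd ▸ (deg_dvd_index_ker hχ).trans (index_dvd_card _)).trans
    P.card_mul_index.symm.dvd)).resolve_right hi
  haveI : Nontrivial P := Finite.one_lt_card_iff_nontrivial.1 (hp.1.one_lt.trans_le (Nat.le_of_dvd Nat.card_pos hdvd))
  have hr := hχ.isCharacter.restrict P
  have hlin : ∀ φ, IsIrrCharacter P φ → classInner (fun x : P => χ x) φ ≠ 0 → φ 1 = 1 := by
    intro φ hφ h
    obtain ⟨k, hk⟩ := deg_pow_of_pgroup hP hφ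
    by_contra h2
    have h3 : p ≤ charDegree φ := by
      rw [hk]
      exact Nat.le_self_pow (fun h0 => h2 ((charDegree_eq_one hφ.isCharacter).1 (by rw [hk, h0, pow_zero]))) p
    have h4 := le_antisymm ((deg_le_of_under hφ hχ.isCharacter h).trans hd.le) h3
    have h5 := (hr.sub_of_constituent hφ h).eq_zero_of_apply_one (by
      rw [Pi.sub_apply, ← coe_charDegree hφ.isCharacter, h4, OneMemClass.coe_one, h1, sub_self])
    haveI := hP.center_nontrivial
    obtain ⟨z, hz⟩ := exists_ne (1 : center P)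
    have h6 := hφ.norm_apply_of_mem_center z.2
    rw [← sub_eq_zero.1 h5] at h6
    beta_reduce at h6
    rw [hv z z.2 fun h => hz (Subtype.ext h), norm_zero, eq_comm, norm_eq_zero] at h6
    exact hχ.apply_one_ne_zero h6
  have hab : commutator P = ⊥ := eq_bot_iff.2 fun a ha => Subtype.ext <| mem_bot.1 <| hZ ▸
    charKer_le_charCenter χ (hχ.isCharacter.mem_charKer.2 <| by
      rw [show χ a = _ from hr.isClassFunction.apply_eq_sum_irr a, show χ 1 = _ from hr.isClassFunction.apply_eq_sum_irr 1]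
      refine Finset.sum_congr rfl fun φ _ => ?_
      by_cases h0 : classInner (fun x : P => χ x) φ = 0
      · rw [h0, zero_mul, zero_mul]
      · rw [lin_comm φ.2.isCharacter (hlin _ φ.2 h0) ha, hlin _ φ.2 h0])
  obtain ⟨n, hn⟩ := hr.exists_nat_classInner isCharacter_one
  rw [classInner_one_right, Finset.sum_eq_single 1 (fun z _ hz => hv z (by
    rw [(commutator_eq_bot_iff_center_eq_top _).1 hab]; trivial) hz) (by simp), OneMemClass.coe_one, h1,
    inv_mul_eq_iff_eq_mul₀ (natCard_ne_zero P)] at hn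
  exact Nat.dvd_antisymm ⟨n, by exact_mod_cast hn⟩ hdvd

theorem simple_case {G : Type*} [Group G] [Finite G] [IsSimpleGroup G] (hG : ¬ ∀ a b : G, a * b = b * a)
    (h : ∀ χ, IsIrrCharacter G χ → charDegree χ ≠ 1 → (charDegree χ).Prime) : False := by
  classical
  haveI := Fintype.ofFinite G
  have hn : ∀ (p : ℕ) [Fact p.Prime] (P : Sylow p G), Nat.card P = p →
      ¬ normalizer (P : Set G) ≤ centralizer (P : Set G) := by
    intro p hp P hP hc
    have := MonoidHom.ker_transferSylow_isComplement' P hc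
    rcases (inferInstance : (MonoidHom.transferSylow P hc).ker.Normal).eq_bot_or_eq_top with e | e <;> rw [e] at this
    · have h1 := this.card_mul
      rw [card_bot, one_mul, hP] at h1
      haveI := isCyclic_of_prime_card h1.symm
      exact hG fun a b => mul_comm' a b
    · have h1 := this.card_mul
      rw [card_top, hP] at h1
      exact hp.1.one_lt.ne' (Nat.eq_of_mul_eq_mul_left Nat.card_pos (h1.trans (mul_one _).symm))
  have h2 : ∀ χ, IsIrrCharacter G χ → charDegree χ ≠ 2 := fun χ hχ hd => by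
    haveI : Fact (Nat.Prime 2) := ⟨Nat.prime_two⟩
    obtain ⟨P⟩ : Nonempty (Sylow 2 G) := inferInstance
    have := card_syl hG hχ hd P.isPGroup' P.not_dvd_index
    exact hn 2 P this ((isCyclic_of_prime_card this).normalizer_le_centralizer
      ((Nat.minFac_eq_two_iff _).2 (this ▸ card_subgroup_dvd_card (P : Subgroup G))))
  have hc : commutator G = ⊤ := (inferInstance : (commutator G).Normal).eq_bot_or_eq_top.resolve_left fun e =>
    hG fun a b => (mem_center_iff.1 (((commutator_eq_bot_iff_center_eq_top _).1 e).ge (mem_top b)) a)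
  have h1 : ∀ χ, IsIrrCharacter G χ → charDegree χ = 1 → χ = fun _ => 1 := fun χ hχ hd =>
    funext fun g => lin_comm hχ.isCharacter ((charDegree_eq_one hχ.isCharacter).1 hd) (hc.ge (mem_top g))
  obtain ⟨χ, -, hχ⟩ := Finset.exists_max_image Finset.univ (fun χ : IrrCharacter G => charDegree χ.1)
    ⟨⟨_, isIrr_one⟩, Finset.mem_univ _⟩
  obtain ⟨g, hg⟩ := exists_ne (1 : G)
  obtain ⟨ψ, hψ, hψg⟩ := exists_irr_ne hg
  have hp : (charDegree χ.1).Prime := h _ χ.2 fun e => hψg (by
    rw [h1 ψ hψ (le_antisymm ((hχ ⟨ψ, hψ⟩ (Finset.mem_univ _)).trans e.le) (charDegree_pos hψ))])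
  haveI := Fact.mk hp
  obtain ⟨P⟩ : Nonempty (Sylow (charDegree χ.1) G) := inferInstance
  obtain ⟨M, hM⟩ := exists_isPModular hp
  have hP := card_syl hG χ.2 rfl P.isPGroup' P.not_dvd_index
  obtain ⟨X, Y, -, -, hX, -, ε, -, hε, -⟩ := S4441.result _ M hM (h2 _ χ.2) P hP _ rfl
  refine hn _ P hP (relIndex_eq_one.1 (le_antisymm ?_ (Nat.pos_of_ne_zero index_ne_zero_of_finite)))
  refine hX.ge.trans (Finite.card_le_one_iff_subsingleton.2 (Set.Subsingleton.coe_sort
    (Set.subsingleton_of_forall_eq ⟨_, isIrr_one⟩ fun θ hθ => Subtype.ext (h1 _ θ.2 ?_))))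
  by_contra h3
  have h4 := h _ θ.2 h3
  have h5 := hχ θ (Finset.mem_univ _)
  have h6 := h4.two_le
  have h7 := h4.eq_two_or_odd.resolve_left (h2 _ θ.2)
  have h8 := hp.eq_two_or_odd.resolve_left (h2 _ χ.2)
  obtain ⟨he, h9, -⟩ := hε θ hθ
  generalize charDegree θ.1 = a at *
  generalize charDegree χ.1 = p at *
  rcases he with he | he <;> rw [he] at h9
  · have := Int.le_of_dvd (by omega) h9.symm.dvd
    omega
  · obtain ⟨c, hc⟩ := h9.symm.dvd
    have : c = 1 := by
      have : 0 < c := by by_contra; nlinarith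
      have : c < 2 := by by_contra; nlinarith
      omega
    subst this
    omega

universe u in
theorem main (n : ℕ) : ∀ (G : Type u) [Group G] [Finite G], Nat.card G ≤ n →
    (∀ χ, IsIrrCharacter G χ → charDegree χ ≠ 1 → (charDegree χ).Prime) → Group.IsSolvable G := by
  induction n with
  | zero => exact fun G _ _ h => absurd h Nat.card_pos.not_ge
  | succ n ih =>
    intro G _ _ hn h
    by_cases hG : ∀ a b : G, a * b = b * a
    · exact isSolvable_of_comm hG
    haveI : Nontrivial G := not_subsingleton_iff_nontrivial.1 fun _ => hG fun _ _ => Subsingleton.elim _ _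
    by_cases hs : IsSimpleGroup G
    · exact (simple_case hG h).elim
    obtain ⟨N, hN, h0, h1⟩ : ∃ N : Subgroup G, N.Normal ∧ N ≠ ⊥ ∧ N ≠ ⊤ := by
      by_contra! c
      exact hs ⟨fun N hN => or_iff_not_imp_left.2 (c N hN)⟩
    haveI := ih N (Nat.le_of_lt_succ ((CfsgH2.card_lt_of_ne_top h1).trans_le hn)) fun θ hθ hd => by
      obtain ⟨χ, hχ, hc⟩ := exists_over_dvd hθ
      have h2 := (dvd_mul_left _ _).trans hc
      have h3 := h χ hχ fun e => hd (Nat.dvd_one.1 (e ▸ h2))
      rwa [(h3.eq_one_or_self_of_dvd _ h2).resolve_left hd]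
    haveI := ih (G ⧸ N) (Nat.le_of_lt_succ ((CfsgH2.card_quot_lt h0).trans_le hn)) fun β hβ =>
      h _ (irr_inflate hβ)
    exact solvable_of_ker_le_range N.subtype (QuotientGroup.mk' N) (by simp)

/-- If every irreducible character of the finite group G of degree greater than one has prime degree, then G is solvable. -/
theorem result {G : Type*} [Group G] [Finite G] (h : ∀ χ : Cfsg.IrrCharacter G, Cfsg.charDegree (χ : G → ℂ) ≠ 1 → (Cfsg.charDegree (χ : G → ℂ)).Prime) : Group.IsSolvable G := by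
  exact main _ G le_rfl fun χ hχ => h ⟨χ, hχ⟩


end Cfsg.Agent.S4466
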