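import Cfsg.Statements.S4520
import Mathlib
import Cfsg.Agent.H4.Gal

set_option autoImplicit false
open Cfsg

open Cfsg CfsgH4 CfsgH1 CfsgL0 MonoidAlgebra Function
open CfsgH3 hiding cj cj_cj
open scoped ComplexConjugate Pointwise

namespace Cfsg.Agent.S4520

theorem normal_sup {G : Type*} [Group G] [Finite G] {p : ℕ} [Fact p.Prime] {N P : Subgroup G}
    [hN : N.Normal] (hP : IsSylowIn p P N) : (N ⊔ Subgroup.centralizer (P : Set G)).Normal := by
  rw [← Subgroup.normalizer_eq_top_iff, eq_top_iff, ← hP.frattini_top]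
  refine sup_le (le_sup_left.trans Subgroup.le_normalizer) fun x hx => ?_
  rw [sup_comm]
  exact Subgroup.normalizer_le_normalizer_sup_normal (normalizer_le_normalizer_centralizer P hx)

theorem sup_top {G : Type*} [Group G] {N P : Subgroup G} (h : P ≤ N) :
    N.subgroupOf (N ⊔ Subgroup.centralizer (P : Set G)) ⊔ Subgroup.centralizer
      (P.subgroupOf (N ⊔ Subgroup.centralizer (P : Set G)) : Set _) = ⊤ := by
  rw [eq_top_iff, ← Subgroup.subgroupOf_self (N ⊔ Subgroup.centralizer (P : Set G)),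
    Subgroup.subgroupOf_sup le_sup_left le_sup_right]
  exact sup_le_sup_left (fun x hx y hy => Subtype.ext (hx y.1 hy)) _

/-- Let N be a normal subgroup of odd index in the finite group G, M a maximal ideal of the algebraic integers containing 2, and k coprime to the order of G with k ^ (2 ^ e) ≡ 1 modulo the order of G for some e and g ^ k = g⁻¹ for every element g of odd order. Let θ be an irreducible character of N and χ an irreducible character of G over θ, both unchanged by composing with g ↦ g ^ k. Then χ lies in the principal 2-block of G if and only if θ lies in the principal 2-block of N. -/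
theorem result {G : Type*} [Group G] [Fintype G] (M : Ideal Cfsg.AlgInt) (hM : Cfsg.IsPModular 2 M) (N : Subgroup G) [N.Normal] [Fintype N] (hidx : Odd N.index) (k e : ℕ) (hk : Nat.Coprime k (Nat.card G)) (hke : k ^ (2 ^ e) ≡ 1 [MOD Nat.card G]) (hk₂ : ∀ g : G, Odd (orderOf g) → g ^ k = g⁻¹) (θ : Cfsg.IrrCharacter N) (hθ : ∀ n : N, (θ : N → ℂ) (n ^ k) = (θ : N → ℂ) n) (χ : Cfsg.IrrCharacter G) (hχ : ∀ g : G, (χ : G → ℂ) (g ^ k) = (χ : G → ℂ) g) (hover : Cfsg.classInner (fun n : N => (χ : G → ℂ) n) (θ : N → ℂ) ≠ 0) : χ ∈ Cfsg.principalBlock M G ↔ θ ∈ Cfsg.principalBlock M N := by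
  haveI : PMod 2 M := ⟨hM⟩
  haveI := Fact.mk Nat.prime_two
  have ho := over_subtype_iff.2 hover
  refine ⟨fun h => ho.mem_principal h, fun h => ?_⟩
  obtain ⟨P, hP⟩ := exists_isSylowIn (p := 2) (H := N)
  haveI := normal_sup hP
  have hs := sup_top hP.le
  obtain ⟨K, hK⟩ : ∃ K, K = N ⊔ Subgroup.centralizer (P : Set G) := ⟨_, rfl⟩
  rw [← hK] at hs this
  have hNK : N ≤ K := hK ▸ le_sup_left
  have hk2 := coprime_sub hk K
  have hi1 : Odd (N.subgroupOf K).index := hidx.of_dvd_nat (Subgroup.relIndex_dvd_index_of_le hNK)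
  rw [← Subgroup.subtype_comp_inclusion hNK] at ho
  obtain ⟨ψ, h1, h2⟩ := ho.exists_between χ.2.isClassFunction
  have h3 := h1.pw_eq (p := 2) (hidx.of_dvd_nat (Subgroup.index_dvd_of_le hNK)).not_two_dvd_nat hk
    (e := e) (fun g => by
      rw [pow_eq_pow_iff_modEq.2 (hke.of_dvd (orderOf_dvd_natCard g)), pow_one])
    ((irrPw_eq_iff hk).2 hχ)
  obtain ⟨θ', hθ'⟩ : ∃ θ' : IrrCharacter (N.subgroupOf K), θ'.1 = subOf K θ.1 :=
    ⟨⟨_, (isIrr_subOf_iff hNK).2 θ.2⟩, rfl⟩
  have h4 : θ' ∈ principalBlock M (N.subgroupOf K) := by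
    rw [← principal_comap (φ := (Subgroup.subgroupOfEquivOfLe hNK).toMonoidHom)
      (MulEquiv.bijective _), Set.mem_preimage] at h
    convert h
    exact Subtype.ext hθ'
  have h5 : irrPw k θ' = θ' := (irrPw_eq_iff (coprime_sub hk2 _)).2 fun n => by
    rw [hθ']; exact hθ ⟨n, n.2⟩
  obtain ⟨ξ, h6, h7⟩ := dade_ext hi1.not_two_dvd_nat (hP.subgroupOf hNK) hs h4
  have h8 := over_of_res h7
  have h9 := dade_unique hi1.not_two_dvd_nat (hP.subgroupOf hNK) hs h6 h7 (pw_mem_principal h6)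
    (h5 ▸ h8.pw hk2 (coprime_sub hk2 _))
  obtain ⟨η, -, -, h10⟩ := exists_unique_pw hi1 hk2 (quot_pow_eq_inv hi1 fun g hg =>
    Subtype.ext (by simpa using hk₂ g (by simpa using hg))) h5
  have h11 := (h10 ψ (by rwa [hθ', over_subOf_iff hNK]) h3).trans (h10 ξ h8 h9).symm
  exact h1.mem_principal_of_cent (hP.trans_of_not_dvd hNK hi1.not_two_dvd_nat) (hK ▸ le_sup_right)
    (h11 ▸ h6)

end Cfsg.Agent.S4520
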