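import Cfsg.Statements.S4521
import Mathlib
import Cfsg.Agent.H4.P0

set_option autoImplicit false
open Cfsg

open Cfsg CfsgH4 CfsgH1 CfsgL0 MonoidAlgebra Function
open CfsgH3 hiding cj cj_cj
open scoped ComplexConjugate Pointwise

namespace Cfsg.Agent.S4521

/-- Let the finite group G be generated by subgroups U₁ and U₂ that commute elementwise and whose intersection is a p-group, and let M be a maximal ideal of the algebraic integers containing the prime p. If the irreducible character χ of G has the irreducible constituents ψ₁ on U₁ and ψ₂ on U₂, then χ lies in the principal block of G if and only if ψ₁ and ψ₂ lie in the principal blocks of U₁ and U₂. -/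
theorem result {G : Type*} [Group G] [Fintype G] (p : ℕ) [Fact p.Prime] (M : Ideal Cfsg.AlgInt) (hM : Cfsg.IsPModular p M) (U₁ U₂ : Subgroup G) [Fintype U₁] [Fintype U₂] (hcomm : ∀ u ∈ U₁, ∀ v ∈ U₂, u * v = v * u) (hgen : U₁ ⊔ U₂ = ⊤) (hZ : IsPGroup p ↥(U₁ ⊓ U₂)) (χ : Cfsg.IrrCharacter G) (ψ₁ : Cfsg.IrrCharacter U₁) (ψ₂ : Cfsg.IrrCharacter U₂) (h₁ : Cfsg.classInner (fun u : U₁ => (χ : G → ℂ) u) (ψ₁ : U₁ → ℂ) ≠ 0) (h₂ : Cfsg.classInner (fun u : U₂ => (χ : G → ℂ) u) (ψ₂ : U₂ → ℂ) ≠ 0) : χ ∈ Cfsg.principalBlock M G ↔ (ψ₁ ∈ Cfsg.principalBlock M U₁ ∧ ψ₂ ∈ Cfsg.principalBlock M U₂) := by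
  haveI : PMod p M := ⟨hM⟩
  let φ : U₁ × U₂ →* G := U₁.subtype.noncommCoprod U₂.subtype fun u v => hcomm _ u.2 _ v.2
  have hφ : Surjective φ := MonoidHom.range_eq_top.1 (
    (MonoidHom.noncommCoprod_range _ _ _).trans (by simpa using hgen))
  have hk : ∀ x ∈ φ.ker, (x.1 : G) = (x.2 : G)⁻¹ := fun x hx => eq_inv_of_mul_eq_one_left hx
  have h0 : ∀ x, φ x = x.1 * x.2 := fun _ => rfl
  obtain ⟨a, b, ha, hb, e⟩ := (irrComp φ hφ χ).2.exists_eq_prod
  have e1 : (fun u : U₁ => χ.1 u) = b 1 • a := funext fun u => by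
    simpa [irrComp_apply, mul_comm, h0] using congrFun e (u, 1)
  have e2 : (fun u : U₂ => χ.1 u) = a 1 • b := funext fun u => by
    simpa [irrComp_apply, h0] using congrFun e (1, u)
  rw [e1, classInner_smul_left] at h₁
  rw [e2, classInner_smul_left] at h₂
  rw [← principal_comap_of_pker hφ (fun ⟨x, hx⟩ => ?_) fun x _ y hy => ?_, Set.mem_preimage,
    mem_principal_iff_mm, mem_principal_iff_mm, mem_principal_iff_mm, e,
    ← ha.eq_of_classInner_ne_zero ψ₁.2 (right_ne_zero_of_mul h₁),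
    ← hb.eq_of_classInner_ne_zero ψ₂.2 (right_ne_zero_of_mul h₂), ← mul_ne_zero_iff, mm, mm, mm,
    ← classInner_prod]
  · refine Iff.of_eq (congrArg (· ≠ 0) ?_)
    congr 1
    · funext x
      simp only [rg_apply, Prod.orderOf, (Fact.out : p.Prime).dvd_lcm]
      by_cases h1 : p ∣ orderOf x.1 <;> by_cases h2 : p ∣ orderOf x.2 <;> simp [h1, h2]
    · simp
  · obtain ⟨k, h⟩ := hZ ⟨x.1, x.1.2, (hk x hx ▸ U₂.inv_mem x.2.2 : (x.1 : G) ∈ U₂)⟩
    have h1 : (x.1 : G) ^ p ^ k = 1 := congrArg Subtype.val h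
    refine ⟨k, Subtype.ext (Prod.ext (Subtype.ext h1) (Subtype.ext ?_))⟩
    rwa [hk x hx, inv_pow, inv_eq_one] at h1
  · refine Prod.ext (Subtype.ext ?_) (Subtype.ext ?_)
    · exact (hcomm _ x.1.2 _ (hk y hy ▸ inv_mem y.2.2)).symm
    · exact hcomm _ (U₁.inv_mem_iff.1 (hk y hy ▸ y.1.2)) _ x.2.2

end Cfsg.Agent.S4521
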