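import Cfsg.Statements.S4528
import Mathlib
import Cfsg.Agent.H4.Di5

set_option autoImplicit false
open Cfsg

open Cfsg MonoidAlgebra CfsgL0 CfsgH4 Module
open CfsgH3 hiding cj cj_cj
open scoped ComplexConjugate

namespace Cfsg.Agent.S4528

/-- Let B be a 2-block of the finite group G (relative to a maximal ideal M of the algebraic integers containing 2) whose defect group D is dihedral of order 2 ^ n with n ≥ 3. Then B contains exactly 2 ^ (n - 2) + 3 irreducible characters, its 2-regular rank (the number of irreducible Brauer characters) is between 1 and 3, exactly four of its members have height zero, and every member has height at most one. -/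
theorem result {G : Type*} [Group G] [Finite G] (M : Ideal Cfsg.AlgInt) (hM : Cfsg.IsPModular 2 M) (B : Set (Cfsg.IrrCharacter G)) (hB : Cfsg.IsPBlock M B) (D : Subgroup G) (hD : Cfsg.IsDefectGroup 2 M B D) (n : ℕ) (hn : 3 ≤ n) (hdih : Nonempty (D ≃* DihedralGroup (2 ^ (n - 1)))) : Nat.card B = 2 ^ (n - 2) + 3 ∧ 1 ≤ Cfsg.blockRank 2 B ∧ Cfsg.blockRank 2 B ≤ 3 ∧ Nat.card {χ : Cfsg.IrrCharacter G // χ ∈ B ∧ Cfsg.blockHeight 2 B (χ : G → ℂ) = 0} = 4 ∧ ∀ χ ∈ B, Cfsg.blockHeight 2 B (χ : G → ℂ) ≤ 1 := by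
  classical
  haveI : PMod 2 M := ⟨hM⟩
  have := Fintype.ofFinite G
  obtain ⟨n, rfl⟩ : ∃ k, n = k + 3 := ⟨n - 3, by omega⟩
  obtain ⟨x, hx⟩ := exists_dh (n := n) hdih.some
  obtain ⟨e, hm⟩ := exists_maxPr hB.isBlk (hB.isDefectGroup_iff.1 hD)
  obtain ⟨β, e', h⟩ := hx.exists_diL hm hB
  obtain ⟨ζ, h1, h2⟩ := exists_height_zero (p := 2) h.hβ.nonempty
  obtain ⟨f, hf, -⟩ := h.exists_diD h1 h2
  obtain ⟨a, b, c, d, -, -, -, -, g, -, h3, h4, h5, -, -, h6, h7, h8, -⟩ := hf.table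
    (AddChar.zmodChar_primitive_of_primitive_root _
      (Complex.isPrimitiveRoot_exp (2 ^ (n + 1 + 1)) (by positivity)))
  have h9 := card_of_table h3 h4 h5 h6
  have h10 := hf.rank_add_le
  have h11 := Nat.one_le_two_pow (n := n + 1)
  rw [show n + 3 - 2 = n + 1 from rfl]
  refine ⟨by omega, (rk_top hB rfl).1 ▸ hB.isBlk.rk_pos, by omega, ?_, fun χ hχ => ?_⟩
  · exact card_of_table (B := {χ | χ ∈ B ∧ blockHeight 2 B χ.1 = 0}) (g := Fin.elim0) h3
      (fun i => i.elim0) (fun i => i.elim0) fun χ => by simpa using h7 χ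
  · rcases (h6 χ).1 hχ with h | ⟨j, rfl⟩
    exacts [((h7 χ).2 h).2.trans_le zero_le_one, h8 j]

end Cfsg.Agent.S4528
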