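import Cfsg.Statements.S4539
import Mathlib
import Cfsg.Agent.H4.Rk2

set_option autoImplicit false
open Cfsg

open Cfsg CfsgH4 CfsgH1 CfsgL0 MonoidAlgebra Function
open CfsgH3 hiding cj cj_cj
open scoped ComplexConjugate Pointwise

namespace Cfsg.Agent.S4539

theorem main {G : Type*} [Group G] [Finite G] {p : ℕ} {M : Ideal AlgInt} [hM : PMod p M]
    {C : Subgroup G} [Fintype C] {u : G} (hC : C = Subgroup.centralizer ({u} : Set G))
    (hu : ∃ k, orderOf u = p ^ k) {b : Set (IrrCharacter C)} {B : Set (IrrCharacter G)}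
    (h : IsInducedBlock M C b B) (hd : blockDefect p b = blockDefect p B) (hl : blockRank p b = 2) :
    Nat.card B ≤ p ^ blockDefect p B := by
  classical
  haveI hp : Fact p.Prime := ⟨PMod.prime M⟩
  obtain ⟨φ, ψ, α, β, γ, a1, a2, a3, a4, a5, a6, a7, b1, b2, b3, b4, b5⟩ := h.1.exists_reduced hl
  have hb := h.1.fB_mem
  have h0 := p_pow_ne_zero (M := M) (blockDefect p b)
  generalize hq : (p : ℂ) ^ blockDefect p b = q at a5 a6 a7 h0
  have hq' : conj q = q := by rw [← hq, map_pow, map_natCast]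
  have hN : 0 < α * γ - β ^ 2 := by nlinarith
  have hN' : (α * γ - β ^ 2 : ℂ) ≠ 0 := by exact_mod_cast hN.ne'
  rw [mul_comm, ← eq_div_iff h0] at a5 a6 a7
  have a8 := (mm_comm a2 a1).trans a6
  obtain ⟨π, hπ⟩ : ∃ π, π = (q / (α * γ - β ^ 2)) • ((γ : ℂ) • φ - (β : ℂ) • ψ) := ⟨_, rfl⟩
  obtain ⟨ρ, hρ⟩ : ∃ ρ, ρ = (q / (α * γ - β ^ 2)) • ((α : ℂ) • ψ - (β : ℂ) • φ) := ⟨_, rfl⟩
  have c1 : blockPart b π = π := by simp only [hπ, blockPart_smul, blockPart_sub, a3, a4]
  have c2 : blockPart b ρ = ρ := by simp only [hρ, blockPart_smul, blockPart_sub, a3, a4]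
  have c3 : IsClassFunction C π := c1 ▸ isClassFunction_blockPart _ _
  have c4 : IsClassFunction C ρ := c2 ▸ isClassFunction_blockPart _ _
  obtain ⟨d1, d2, d3, d4⟩ : mm p π φ = 1 ∧ mm p π ψ = 0 ∧ mm p ρ φ = 0 ∧ mm p ρ ψ = 1 := by
    simp only [hπ, hρ, mm_smul_left, mm_sub_left, a5, a6, a7, a8]
    refine ⟨?_, ?_, ?_, ?_⟩ <;> field_simp <;> ring
  have d5 : ∀ a, mm p a π = q / (α * γ - β ^ 2) * (γ * mm p a φ - β * mm p a ψ) := fun a => by
    simp [hπ, mm_smul_right, mm_sub_right, hq']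
  have d6 : ∀ a, mm p a ρ = q / (α * γ - β ^ 2) * (α * mm p a ψ - β * mm p a φ) := fun a => by
    simp [hρ, mm_smul_right, mm_sub_right, hq']
  have e1 : ∀ s t : ℤ, ∀ ξ : IrrCharacter C, ∃ n : ℤ, mm p ((s : ℂ) • π + (t : ℂ) • ρ) ξ.1 = n := by
    intro s t ξ
    by_cases hξ : ξ ∈ b
    · obtain ⟨x, y, h⟩ := b5 ξ hξ
      exact ⟨s * x + t * y, by simp [mm_congr rfl h, mm_add_left, mm_add_right, mm_smul_left,
        mm_smul_right, d1, d2, d3, d4, mul_comm]⟩
    · refine ⟨0, ?_⟩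
      rw [← c1, ← c2, ← blockPart_smul, ← blockPart_smul, ← blockPart_add, mm_blockPart_left hb
        ((c3.smul _).add (c4.smul _)) ξ.2.isClassFunction, blockPart_irr_of_notMem hξ]
      simpa using mm_smul_right (p := p) 0 _ 0
  have e2 : ∀ a, IsClassFunction C a →
      rg p (blockPart b a) = rg p (conj (mm p π a) • φ + conj (mm p ρ a) • ψ) := fun a ha => by
    have := rg_eq_zero_of_dual hb (ι := Fin 2) (by simp [hl]) (π := ![π, ρ]) (v := ![φ, ψ])
      (by simp [Fin.forall_fin_two, c1, c2]) (by simp [Fin.forall_fin_two, a3, a4])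
      (by simp [Fin.forall_fin_two, ← conj_mm π, ← conj_mm ρ, d1, d2, d3, d4])
      (ha.sub ((a1.isClassFunction.smul (conj (mm p π a))).add (a2.isClassFunction.smul
        (conj (mm p ρ a))))) (by simp [Fin.forall_fin_two, mm_sub_right, mm_add_right, mm_smul_right,
        d1, d2, d3, d4])
    rwa [blockPart_sub, blockPart_add, blockPart_smul, blockPart_smul, a3, a4, rg_sub,
      sub_eq_zero] at this
  have e3 : ∀ a, IsClassFunction C a → rg p (blockPart b a) ≠ 0 → mm p π a = 0 → mm p ρ a ≠ 0 :=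
    fun a ha h1 h2 h3 => h1 (by simp [e2 a ha, h2, h3, rg_zero])
  by_cases hα : α ≠ 1
  · let v : Fin 3 → C → ℂ := fun i => ((![1, 0, -1] i : ℤ) : ℂ) • π + ((![0, -1, 1] i : ℤ) : ℂ) • ρ
    choose c hc using fun i => exists_nat_mm_self (p := p) (π := v i) ((c3.smul _).add (c4.smul _))
      (e1 _ _)
    have f1 := h.card_le_of_tests hC hu hd v (fun _ => 1) (fun _ => (c3.smul _).add (c4.smul _))
      (fun _ => e1 _ _) (c := ∑ i, c i) (d := 2) (fun a ha h1 => two_le_card_of_sum _ (by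
        simp only [v, Fin.sum_univ_three, mm_add_left, mm_smul_left]; simp; ring) (by
        by_cases h2 : mm p π a = 0
        · exact ⟨1, by simpa only [v, mm_add_left, mm_smul_left] using by simpa using e3 a ha h1 h2⟩
        · exact ⟨0, by simpa only [v, mm_add_left, mm_smul_left] using by simpa using h2⟩))
      (by simp [hc])
    have f2 : (∑ i, c i : ℕ) * (α * γ - β ^ 2) = 2 * (p ^ blockDefect p B : ℕ) * (α + β + γ) := by
      apply Int.cast_injective (α := ℂ)
      push_cast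
      simp only [← hc, v, Fin.sum_univ_three, mm_add_left, mm_smul_left, mm_add_right, mm_smul_right,
        d5, d6, d1, d2, d3, d4, ← hd, hq]
      simp
      field_simp
      ring
    have f3 : α + β + γ ≤ α * γ - β ^ 2 := by
      have : 2 ≤ α := by omega
      by_cases h : β = 0
      · rw [h]; nlinarith
      · have : β ≤ -1 := by omega
        nlinarith
    zify at f1 ⊢
    push_cast at f2
    nlinarith [mul_le_mul_of_nonneg_right f1 hN.le,
      mul_le_mul_of_nonneg_left f3 (show (0 : ℤ) ≤ p ^ blockDefect p B by positivity)]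
  obtain rfl := not_not.1 hα
  obtain rfl : β = 0 := by omega
  simp only [Int.cast_one, Int.cast_zero, one_mul, zero_mul, sub_zero, zero_div, ne_eq,
    zero_pow two_ne_zero] at *
  have g1 : MemLocalIdeal M γ := by
    obtain ⟨ξ, hξ⟩ := h.1.nonempty
    have h1 := fun a c => h.1.InP_pow_mm_iff hξ (a := a) (c := c)
    have h2 := (h1 _ _ a1 a1).2
    have h3 := (h1 _ _ a2 a2).2
    have h4 := (h1 _ _ a1 a2).1
    rw [a3, hq, a5, mul_div_cancel₀ _ h0] at h2
    rw [a4, hq, a7, mul_div_cancel₀ _ h0] at h3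
    rw [a3, a6, mul_zero] at h4
    exact (h4 InP.zero).elim (fun h => (not_InP_one (h2 (.inl h))).elim) fun h => h3 (.inl h)
  obtain ⟨x, hx⟩ : ∃ x : IrrCharacter G → ℂ, ∀ χ, mm p π (tr C u χ.1) = x χ := ⟨_, fun _ => rfl⟩
  obtain ⟨y, hy⟩ : ∃ y : IrrCharacter G → ℂ, ∀ χ, mm p ρ (tr C u χ.1) = y χ := ⟨_, fun _ => rfl⟩
  have e4 : ∀ ξ : IrrCharacter C, ∃ n : ℤ, mm p π ξ.1 = n := by simpa using e1 1 0
  have e5 : ∀ ξ : IrrCharacter C, ∃ n : ℤ, mm p ρ ξ.1 = n := by simpa using e1 0 1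
  have g2 := fun χ => hx χ ▸ cyc_mm_tr hC e4 χ
  have g3 := fun χ => hy χ ▸ cyc_mm_tr hC e5 χ
  have g4 : ∀ χ ω : IrrCharacter G, (p : ℂ) ^ blockDefect p b * ctr p C u b χ.1 ω.1 =
      conj (x χ) * x ω + γ * (conj (y χ) * y ω) := fun χ ω => by
    rw [ctr_eq_mm hC hb χ.2.isClassFunction ω.2.isClassFunction, mm_congr (e2 _ (isClassFunction_tr hC
      χ.2.isClassFunction)) (e2 _ (isClassFunction_tr hC ω.2.isClassFunction)), hq]
    simp only [mm_add_left, mm_add_right, mm_smul_left, mm_smul_right, a5, a6, a7, a8, hx, hy,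
      Complex.conj_conj]
    field_simp
    ring
  have g5 := sum_mm_tr_conj M hC hu π c3
  have g6 := sum_mm_tr_conj M hC hu ρ c4
  simp only [hx, hy, d5, d6, d1, d4, mul_one, div_mul_cancel₀ _ hN'] at g5 g6
  rw [natCard_set_irr]
  by_cases g7 : ∀ χ ∈ B, x χ ≠ 0
  · rw [← Finset.sum_filter]
    exact sum_le_of_cyc _ (fun _ => 1) x (fun χ => (g2 χ).1) (fun χ _ => (g2 χ).2)
      (fun χ hχ => g7 χ (Finset.mem_filter.1 hχ).2) (by simp [g5, ← hq, hd])
  push Not at g7
  obtain ⟨χ₀, i1, i2⟩ := g7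
  obtain ⟨ω, i3, i4⟩ := exists_height_zero (p := p) h.2.1.nonempty
  have i5 : ∀ χ ∈ B, y χ = 0 → blockHeight p B χ.1 ≠ 0 := fun χ hχ h1 h2 => by
    have := h.ctr_ne_zero_of_major hC hu hd i1 hχ h2
    exact mul_ne_zero h0 this (by rw [← hq, g4, h1, i2]; simp)
  have i6 : ¬ MemLocalIdeal M (x ω) := fun h1 => (h.not_InP_ctr_iff hC hu ω ω).2 ⟨⟨i3, i4⟩, i3, i4⟩ (by
    rw [g4]
    exact InP.add (InP.mul_left (mem_Loc_of_isIntegral (isIntegral_conj (g2 ω).2)) h1)
      (InP.mul_right g1 (mem_Loc_of_isIntegral ((isIntegral_conj (g3 ω).2).mul (g3 ω).2))))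
  have i7 : ∀ χ ∈ B, y χ = 0 → IsIntegral ℤ (conj (x χ) / p) ∧ x χ ≠ 0 := fun χ hχ h1 => by
    obtain ⟨w, h2, h3, h4⟩ := h.exists_unit_ctr hC hu hd hχ i3 i4
    rw [← hd, g4, h1, map_zero, zero_mul, mul_zero, add_zero] at h4
    refine ⟨?_, fun h5 => mul_ne_zero (p_pow_ne_zero (M := M) _) (ne_zero_of_not_InP h3)
      (by rw [← h4, h5, map_zero, zero_mul])⟩
    obtain ⟨j, hj⟩ := hu
    have hζ := Complex.isPrimitiveRoot_exp (p ^ (j + 1)) (pow_ne_zero _ hp.out.ne_zero)
    generalize Complex.exp _ = ζ at hζ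
    haveI : NeZero (p ^ (j + 1)) := ⟨pow_ne_zero _ hp.out.ne_zero⟩
    refine isIntegral_div_of_mem_Loc (M := M) hζ ?_ ?_
    · obtain ⟨n, hn⟩ := mm_tr_eq (p := p) hC π χ
      rw [← hx, hn, map_sum]
      refine Subring.sum_mem _ fun ξ _ => ?_
      obtain ⟨m, hm⟩ := e4 ξ
      obtain ⟨i, -, hi⟩ := hζ.eq_pow_of_pow_eq_one (ξ := cw hC ξ) (by
        rw [pow_succ, pow_mul, ← hj, cw_pow, one_pow])
      rw [hm, map_mul, map_mul, Complex.conj_conj, map_natCast, map_intCast, ← hi]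
      exact mul_mem (pow_mem (Subring.subset_closure (Set.mem_singleton _)) _)
        (mul_mem (natCast_mem _ _) (intCast_mem _ _))
    · obtain ⟨k, hk⟩ := Nat.exists_eq_succ_of_ne_zero (i5 χ hχ h1)
      rw [eq_div_of_mul_eq (ne_zero_of_not_InP i6) h4, hk, pow_succ', mul_assoc, mul_div_assoc,
        mul_div_cancel_left₀ _ (Nat.cast_ne_zero.2 hp.out.ne_zero), div_eq_mul_inv]
      exact mul_mem (mul_mem (pow_mem (natCast_mem _ _) _) h2)
        (inv_mem_Loc (mem_Loc_of_isIntegral (g2 ω).2) i6)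
  have j1 := sum_le_of_cyc (Finset.univ.filter fun χ => χ ∈ B ∧ y χ = 0) (fun _ => p ^ 2)
    (fun χ => conj (x χ) / p) (fun χ => (g2 χ).1.conj.div (cyc_natCast _))
    (fun χ hχ => (i7 χ (Finset.mem_filter.1 hχ).2.1 (Finset.mem_filter.1 hχ).2.2).1)
    (fun χ hχ => by simpa [hp.out.ne_zero] using
      (i7 χ (Finset.mem_filter.1 hχ).2.1 (Finset.mem_filter.1 hχ).2.2).2)
    (c := p ^ blockDefect p B) (by
      rw [Nat.cast_pow p (blockDefect p B), ← hd, hq, ← g5]
      have := Nat.cast_ne_zero (R := ℂ).2 hp.out.ne_zero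
      exact Finset.sum_congr rfl fun χ _ => by simp; field_simp)
  obtain ⟨g, rfl⟩ := Int.eq_ofNat_of_zero_le (b1.le.trans b2)
  have j2 := sum_le_of_cyc (Finset.univ.filter fun χ => y χ ≠ 0) (fun _ => g) y (fun χ => (g3 χ).1)
    (fun χ _ => (g3 χ).2) (fun χ hχ => (Finset.mem_filter.1 hχ).2) (c := p ^ blockDefect p B) (by
      rw [← Finset.mul_sum, g6, Nat.cast_pow, ← hd, hq]
      exact mul_div_cancel₀ _ hN')
  have j3 := hp.out.two_le.trans (Nat.le_of_dvd (by omega) ((InP_natCast_iff (M := M) g).1 g1))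
  have j4 : 2 ≤ p ^ 2 := hp.out.two_le.trans (Nat.le_self_pow two_ne_zero p)
  rw [Finset.sum_filter] at j1 j2
  refine Nat.le_of_mul_le_mul_left ?_ two_pos
  rw [two_mul (p ^ _), Finset.mul_sum]
  refine le_trans ?_ (add_le_add j1 j2)
  rw [← Finset.sum_add_distrib]
  refine Finset.sum_le_sum fun χ _ => ?_
  by_cases h1 : χ ∈ B <;> by_cases h2 : y χ = 0 <;> simp [h1, h2, j3, j4]

/-- Let B be a p-block of the finite group G (relative to a maximal ideal M of the algebraic integers containing p) of defect d with defect group D. Let z be an element of D commuting with every element of D, and let b be a block of the centralizer C of z with defect group D that induces B (a major subsection (z, b)). If b has p-regular rank at most two, then B contains at most p ^ d irreducible characters. -/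
theorem result {G : Type*} [Group G] [Finite G] (p : ℕ) [Fact p.Prime] (M : Ideal Cfsg.AlgInt) (hM : Cfsg.IsPModular p M) (B : Set (Cfsg.IrrCharacter G)) (hB : Cfsg.IsPBlock M B) (D : Subgroup G) (hD : Cfsg.IsDefectGroup p M B D) (z : G) (hzD : z ∈ D) (hzc : ∀ d ∈ D, d * z = z * d) (b : Set (Cfsg.IrrCharacter ↥(Subgroup.centralizer ({z} : Set G)))) (hb : Cfsg.IsInducedBlock M (Subgroup.centralizer ({z} : Set G)) b B) (hbD : Cfsg.IsDefectGroup p M b (D.subgroupOf (Subgroup.centralizer ({z} : Set G)))) (hl : Cfsg.blockRank p b ≤ 2) : Nat.card B ≤ p ^ Cfsg.blockDefect p B := by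
  haveI : PMod p M := ⟨hM⟩
  have := Fintype.ofFinite (Subgroup.centralizer ({z} : Set G))
  obtain ⟨j, -, hu⟩ := (Nat.dvd_prime_pow Fact.out).1 (hD.card_eq hB ▸ D.orderOf_dvd_natCard hzD)
  have hd : blockDefect p b = blockDefect p B := by
    rw [← hbD.fact_card hb.1, ← hD.fact_card hB, Nat.card_congr (Subgroup.subgroupOfEquivOfLe
      fun d hd => Subgroup.mem_centralizer_singleton_iff.2 (hzc d hd)).toEquiv]
  rcases hl.eq_or_lt with h | h
  · exact main rfl ⟨j, hu⟩ hb hd h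
  · simpa using (hb.card_le_rank rfl ⟨j, hu⟩ hd).trans (Nat.mul_le_mul_left _ (Nat.le_of_lt_succ h))

end Cfsg.Agent.S4539
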