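import Cfsg.Statements.S4540
import Mathlib
import Cfsg.Agent.H4.Av

set_option autoImplicit false
open Cfsg

open Cfsg CfsgH4 CfsgH1 CfsgL0 MonoidAlgebra Function
open CfsgH3 hiding cj cj_cj
open scoped ComplexConjugate Pointwise

namespace Cfsg.Agent.S4540

/-- Let B be a 2-block of the finite group G (relative to a maximal ideal M of the algebraic integers containing 2) of defect d with defect group D. Let z be an element of D commuting with every element of D, and let b be a block of the centralizer C of z with defect group D that induces B (a major subsection (z, b)). If b has 2-regular rank at most three, then 3·k(B) ≤ 3·k₀(B) + 2·Σ 2 ^ h(χ), where k(B) is the number of members of B, k₀(B) the number of members of height zero, and the sum runs over the members χ of B of positive height h(χ); this bound is at most 3·2 ^ d, so in particular B contains at most 2 ^ d irreducible characters. -/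
theorem result {G : Type*} [Group G] [Finite G] (M : Ideal Cfsg.AlgInt) (hM : Cfsg.IsPModular 2 M) (B : Set (Cfsg.IrrCharacter G)) (hB : Cfsg.IsPBlock M B) (D : Subgroup G) (hD : Cfsg.IsDefectGroup 2 M B D) (z : G) (hzD : z ∈ D) (hzc : ∀ d ∈ D, d * z = z * d) (b : Set (Cfsg.IrrCharacter ↥(Subgroup.centralizer ({z} : Set G)))) (hb : Cfsg.IsInducedBlock M (Subgroup.centralizer ({z} : Set G)) b B) (hbD : Cfsg.IsDefectGroup 2 M b (D.subgroupOf (Subgroup.centralizer ({z} : Set G)))) (hl : Cfsg.blockRank 2 b ≤ 3) : 3 * Nat.card B ≤ 3 * Nat.card {χ : Cfsg.IrrCharacter G // χ ∈ B ∧ Cfsg.blockHeight 2 B (χ : G → ℂ) = 0} + 2 * (∑ᶠ χ ∈ {χ : Cfsg.IrrCharacter G | χ ∈ B ∧ 1 ≤ Cfsg.blockHeight 2 B (χ : G → ℂ)}, 2 ^ Cfsg.blockHeight 2 B (χ : G → ℂ)) ∧ 3 * Nat.card {χ : Cfsg.IrrCharacter G // χ ∈ B ∧ Cfsg.blockHeight 2 B (χ : G → ℂ) = 0} + 2 * (∑ᶠ χ ∈ {χ : Cfsg.IrrCharacter G | χ ∈ B ∧ 1 ≤ Cfsg.blockHeight 2 B (χ : G → ℂ)}, 2 ^ Cfsg.blockHeight 2 B (χ : G → ℂ)) ≤ 3 *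 2 ^ Cfsg.blockDefect 2 B := by
  classical
  haveI : PMod 2 M := ⟨hM⟩
  have := Fintype.ofFinite (Subgroup.centralizer ({z} : Set G))
  have := Fintype.ofFinite G
  obtain ⟨j, -, hu⟩ := (Nat.dvd_prime_pow Nat.prime_two).1 (hD.card_eq hB ▸ D.orderOf_dvd_natCard hzD)
  have hd : blockDefect 2 b = blockDefect 2 B := by
    rw [← hbD.fact_card hb.1, ← hD.fact_card hB, Nat.card_congr (Subgroup.subgroupOfEquivOfLe
      fun d hd => Subgroup.mem_centralizer_singleton_iff.2 (hzc d hd)).toEquiv]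
  obtain ⟨t, s, h1, h2, h3, h4, -, -, h7, h8⟩ := hb.exists_av rfl hu
  have h8 := h8 hd
  rw [hd] at h3 h4
  have h0 : ∀ χ, 0 ≤ t χ := fun χ =>
    nonneg_of_mul_nonneg_right (h3 χ ▸ Finset.sum_nonneg fun ψ _ => h1 χ ψ) (by positivity)
  rw [natCard_set_irr, Nat.subtype_card (Finset.univ.filter fun χ : IrrCharacter G => χ ∈ B ∧
    blockHeight 2 B χ.1 = 0) (by simp), finsum_mem_eq_finite_toFinset_sum _ (Set.toFinite _),
    Finset.card_eq_sum_ones, Set.Finite.toFinset_setOf, Finset.sum_filter, Finset.sum_filter,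
    Finset.mul_sum, Finset.mul_sum, Finset.mul_sum, ← Finset.sum_add_distrib]
  refine ⟨Finset.sum_le_sum fun χ _ => ?_, ?_⟩
  · by_cases hχ : χ ∈ B
    · rcases h : blockHeight 2 B χ.1 with _ | n
      · simp [hχ]
      · have := Nat.one_le_two_pow (n := n)
        simp [hχ, pow_succ]
        omega
    · simp [hχ]
  zify
  by_cases h : ∃ χ ∈ B, blockHeight 2 B χ.1 = 0 ∧ t χ = 1
  · obtain ⟨χ, a1, a2, a3⟩ := h
    have a0 := h3 χ
    rw [a3, mul_one] at a0
    rw [← a0, Finset.mul_sum]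
    refine Finset.sum_le_sum fun ψ _ => ?_
    have a4 := h1 χ ψ
    by_cases hψ : ψ ∈ B
    · have a5 := (h8 ψ hψ).2 χ a1 a2
      rw [h2, show (4 : ℤ) = 2 * 2 by norm_num, mul_pow] at a5
      rcases h : blockHeight 2 B ψ.1 with _ | n
      · simpa [hψ, h] using a5
      · have : (1 : ℤ) ≤ 2 ^ (n + 1) := one_le_pow₀ one_le_two
        rw [h] at a5
        simp [hψ, Nat.cast_add_one_ne_zero]
        nlinarith
    · simpa [hψ] using a4
  push Not at h
  obtain ⟨ξ, a1, a2⟩ := exists_height_zero (p := 2) hB.nonempty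
  refine le_trans (Finset.sum_le_sum fun χ _ => ?_) (h4.trans_le (by
    rw [mul_comm]; exact mul_le_mul_of_nonneg_right (by exact_mod_cast hl) (by positivity)))
  have a3 := h0 χ
  by_cases hχ : χ ∈ B
  · rcases a4 : blockHeight 2 B χ.1 with _ | n
    · obtain ⟨m, hm⟩ := (h7 χ hχ a4).1
      have := h χ hχ a4
      simp [hχ]
      omega
    · have a5 : 0 < t χ := pos_of_mul_pos_left ((lt_of_lt_of_le (by positivity) (((h8 χ hχ).2 ξ a1 a2).trans
        (Finset.single_le_sum (fun ψ _ => h1 χ ψ) (Finset.mem_univ ξ)))).trans_eq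
        ((h3 χ).trans (mul_comm _ _))) (by positivity)
      have a6 := Int.le_of_dvd a5 ((h8 χ hχ).1 (by omega))
      rw [a4, pow_succ'] at a6
      simpa [hχ, Nat.cast_add_one_ne_zero] using a6
  · simpa [hχ] using a3

end Cfsg.Agent.S4540
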