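import Cfsg.Statements.S4541
import Mathlib
import Cfsg.Agent.H4.Av

set_option autoImplicit false
open Cfsg

open Cfsg CfsgH4 CfsgH1 CfsgL0 MonoidAlgebra Function
open CfsgH3 hiding cj cj_cj
open scoped ComplexConjugate Pointwise

namespace Cfsg.Agent.S4541

theorem arith {k Q T l : ℕ} (h1 : k ≤ Q * T) (h2 : k * T ≤ Q * l) (h3 : Odd T) :
    (Odd l.sqrt → k ≤ l.sqrt * Q) ∧ (¬ Odd l.sqrt → (l.sqrt + 1) * k ≤ l * Q) := by
  have a1 := Nat.sqrt_le l
  have a2 := Nat.lt_succ_sqrt l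
  generalize l.sqrt = s at *
  obtain ⟨t, rfl⟩ := h3
  refine ⟨fun ⟨r, hr⟩ => ?_, fun h => ?_⟩
  · rcases le_or_gt t r with h | h
    · exact h1.trans (by rw [mul_comm]; exact Nat.mul_le_mul_right _ (by omega))
    · refine Nat.le_of_mul_le_mul_right (((Nat.mul_le_mul_left k (show s + 2 ≤ 2 * t + 1 by omega)).trans
        h2).trans ?_) (by omega)
      rw [mul_comm s, mul_assoc]
      exact Nat.mul_le_mul_left _ (by nlinarith)
  · obtain ⟨r, rfl⟩ := Nat.not_odd_iff_even.1 h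
    rcases le_or_gt r t with h | h
    · rw [mul_comm, mul_comm l]
      exact (Nat.mul_le_mul_left k (by omega)).trans h2
    · refine (Nat.mul_le_mul_left _ h1).trans ?_
      rw [mul_comm Q, ← mul_assoc]
      exact Nat.mul_le_mul_right _ (by nlinarith)

/-- Let B be a 2-block of the finite group G (relative to a maximal ideal M of the algebraic integers containing 2), u a 2-element, and b a block of the centralizer of u inducing B (a subsection (u, b)), of defect q and 2-regular rank l; write s for the integer square root of l and k₀(B) for the number of members of B of height zero. If s is odd then k₀(B) ≤ s·2 ^ q, and otherwise (s + 1)·k₀(B) ≤ l·2 ^ q; in particular k₀(B) ≤ 2 ^ q when l ≤ 3. -/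
theorem result {G : Type*} [Group G] [Finite G] (M : Ideal Cfsg.AlgInt) (hM : Cfsg.IsPModular 2 M) (B : Set (Cfsg.IrrCharacter G)) (hB : Cfsg.IsPBlock M B) (u : G) (hu : ∃ j : ℕ, orderOf u = 2 ^ j) (b : Set (Cfsg.IrrCharacter ↥(Subgroup.centralizer ({u} : Set G)))) (hb : Cfsg.IsInducedBlock M (Subgroup.centralizer ({u} : Set G)) b B) : (Odd (Nat.sqrt (Cfsg.blockRank 2 b)) → Nat.card {χ : Cfsg.IrrCharacter G // χ ∈ B ∧ Cfsg.blockHeight 2 B (χ : G → ℂ) = 0} ≤ Nat.sqrt (Cfsg.blockRank 2 b) * 2 ^ Cfsg.blockDefect 2 b) ∧ (¬ Odd (Nat.sqrt (Cfsg.blockRank 2 b)) → (Nat.sqrt (Cfsg.blockRank 2 b) + 1) * Nat.card {χ : Cfsg.IrrCharacter G // χ ∈ B ∧ Cfsg.blockHeight 2 B (χ : G → ℂ) = 0} ≤ Cfsg.blockRank 2 b * 2 ^ Cfsg.blockDefect 2 b) ∧ (Cfsg.blockRank 2 b ≤ 3 → Nat.card {χ : Cfsg.IrrCharacter G // χ ∈ B ∧ Cfsg.blockHeight 2 B (χ : G → ℂ) = 0} ≤ 2 ^ Cfsg.blockDefect 2 b) := by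
  classical
  haveI : PMod 2 M := ⟨hM⟩
  have := Fintype.ofFinite (Subgroup.centralizer ({u} : Set G))
  obtain ⟨j, hu⟩ := hu
  obtain ⟨t, s, h1, -, h3, h4, -, -, h7, -⟩ := hb.exists_av rfl hu
  have h0 : ∀ χ, 0 ≤ t χ := fun χ =>
    nonneg_of_mul_nonneg_right (h3 χ ▸ Finset.sum_nonneg fun ψ _ => h1 χ ψ) (by positivity)
  rw [Nat.subtype_card (Finset.univ.filter fun χ : IrrCharacter G => χ ∈ B ∧ blockHeight 2 B χ.1 = 0)
    (by simp)]
  set S := Finset.univ.filter fun χ : IrrCharacter G => χ ∈ B ∧ blockHeight 2 B χ.1 = 0 with hS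
  rcases S.eq_empty_or_nonempty with h | h
  · simp [h]
  obtain ⟨χ, a1, a2⟩ := S.exists_min_image t h
  obtain ⟨a3, -, a4⟩ := h7 χ (Finset.mem_filter.1 a1).2.1 (Finset.mem_filter.1 a1).2.2
  obtain ⟨T, hT⟩ := Int.eq_ofNat_of_zero_le (h0 χ)
  have a5 : (S.card : ℤ) ≤ 2 ^ blockDefect 2 b * t χ := by
    rw [← h3, Finset.card_eq_sum_ones, Nat.cast_sum]
    exact (Finset.sum_le_sum fun ψ hψ => a4 ψ (Finset.mem_filter.1 hψ).2.1
      (Finset.mem_filter.1 hψ).2.2).trans (Finset.sum_le_univ_sum_of_nonneg (h1 χ))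
  have a6 : (S.card : ℤ) * t χ ≤ 2 ^ blockDefect 2 b * blockRank 2 b := by
    rw [← h4, ← nsmul_eq_mul]
    exact (S.card_nsmul_le_sum _ _ a2).trans (Finset.sum_le_univ_sum_of_nonneg h0)
  rw [hT] at a3 a5 a6
  obtain ⟨a7, a8⟩ := arith (by exact_mod_cast a5) (by exact_mod_cast a6) (by exact_mod_cast a3)
  refine ⟨a7, a8, fun hl => ?_⟩
  generalize blockRank 2 b = l at *
  interval_cases l
  · exact le_trans (by simpa using a8) (Nat.zero_le _)
  all_goals norm_num at a7; exact a7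

end Cfsg.Agent.S4541
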