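import Cfsg.Statements.S4550
import Mathlib
import Cfsg.Agent.H4.Gal3

set_option autoImplicit false
open Cfsg

open Cfsg CfsgH4 CfsgH1 CfsgL0 MonoidAlgebra Function
open CfsgH3 hiding cj cj_cj
open scoped ComplexConjugate Pointwise

namespace Cfsg.Agent.S4550

/-- Let G be a finite group of even order and M a maximal ideal of the algebraic integers containing 2. Let k be a natural number with g ^ k = g ^ 3 for every 2-element g and g ^ k = g for every element g of odd order (such k exist); an irreducible character χ is unchanged by g ↦ g ^ k exactly when it is fixed by the field automorphism that cubes the 2-power roots of unity and fixes the roots of unity of odd order. Then the number of members χ of the principal 2-block of odd degree with χ (g ^ k) = χ g for all g is even. -/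
theorem result {G : Type*} [Group G] [Finite G] (M : Ideal Cfsg.AlgInt) (hM : Cfsg.IsPModular 2 M) (hev : Even (Nat.card G)) (k : ℕ) (hk₁ : ∀ g : G, (∃ j : ℕ, orderOf g = 2 ^ j) → g ^ k = g ^ 3) (hk₂ : ∀ g : G, Odd (orderOf g) → g ^ k = g) : Even (Nat.card {χ : Cfsg.IrrCharacter G // χ ∈ Cfsg.principalBlock M G ∧ Odd (Cfsg.charDegree (χ : G → ℂ)) ∧ ∀ g : G, (χ : G → ℂ) (g ^ k) = (χ : G → ℂ) g}) := by
  haveI : PMod 2 M := ⟨hM⟩
  have := Fintype.ofFinite G
  haveI := Fact.mk Nat.prime_two
  have h1 := pow_iter_eq (p := 2) hk₁ fun g h => hk₂ g (Nat.odd_iff.2 (Nat.two_dvd_ne_zero.1 h))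
  have hk := coprime_of_pow_iter (pow_ne_zero _ two_ne_zero) h1
  have h2 := card_modEq_fixed (p := 2) (irrPw k)
    (fun χ : IrrCharacter G => χ ∈ principalBlock M G ∧ Odd (charDegree χ.1))
    (fun χ h => ⟨pw_mem_principal h.1, by rw [charDegree_irrPw]; exact h.2⟩) (e := Nat.card G)
    fun χ => Subtype.ext (funext fun g => by rw [irrPw_iterate hk, h1])
  simp only [irrPw_eq_iff hk, and_assoc] at h2
  have h3 := (isPBlock_principal (M := M) (G := G)).fact_sum_sq
  rw [blockDefect_principal] at h3
  have h4 := Nat.prime_two.factorization_pos_of_dvd Nat.card_pos.ne' hev.two_dvd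
  exact even_iff_two_dvd.2 ((h2.symm.trans (card_not_dvd_modEq (p := 2) rfl)).dvd_iff dvd_rfl |>.2
    (Nat.dvd_of_factorization_pos (by omega)))

end Cfsg.Agent.S4550
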