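import Cfsg.Statements.S4551
import Mathlib
import Cfsg.Agent.H4.Dade

set_option autoImplicit false
open Cfsg

open Cfsg CfsgH4 CfsgH1 CfsgL0 MonoidAlgebra Function
open CfsgH3 hiding cj cj_cj
open scoped ComplexConjugate Pointwise

namespace Cfsg.Agent.S4551

/-- Let N be a normal subgroup of the finite group G of index prime to p, P a Sylow p-subgroup of G with G = N·C_G(P), and M a maximal ideal of the algebraic integers containing p. Then restriction to N is a bijection from the principal p-block of G onto the principal p-block of N: every member of the principal block of G restricts to a member of the principal block of N, and every member of the principal block of N is the restriction of exactly one member of the principal block of G. -/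
theorem result {G : Type*} [Group G] [Finite G] (p : ℕ) [Fact p.Prime] (M : Ideal Cfsg.AlgInt) (hM : Cfsg.IsPModular p M) (N : Subgroup G) [N.Normal] (hidx : ¬ p ∣ N.index) (P : Sylow p G) (hsup : N ⊔ Subgroup.centralizer ((P : Subgroup G) : Set G) = ⊤) : (∀ χ ∈ Cfsg.principalBlock M G, ∃ θ ∈ Cfsg.principalBlock M ↥N, ∀ n : N, (χ : G → ℂ) n = (θ : N → ℂ) n) ∧ ∀ θ ∈ Cfsg.principalBlock M ↥N, ∃! χ : Cfsg.IrrCharacter G, χ ∈ Cfsg.principalBlock M G ∧ ∀ n : N, (χ : G → ℂ) n = (θ : N → ℂ) n := by
  haveI : PMod p M := ⟨hM⟩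
  have := Fintype.ofFinite N
  have hP : IsSylowIn p (P : Subgroup G) N := isSylowIn_of_le P (by
    obtain ⟨Q, hQ⟩ := exists_isSylowIn (p := p) (H := N)
    obtain ⟨x, -, hx⟩ := (hQ.trans_of_not_dvd le_top
      (by rwa [Subgroup.relIndex_top_right])).exists_conj (isSylowIn_top P)
    rw [← hx]
    rintro _ ⟨y, hy, rfl⟩
    exact Subgroup.Normal.conj_mem ‹_› _ (hQ.le hy) x)
  have ho : ∀ (χ : IrrCharacter G) (θ : IrrCharacter N), (∀ n : N, χ.1 n = θ.1 n) →
      Over N.subtype χ.1 θ.1 := fun χ θ h => by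
    rw [over_subtype_iff, funext h, θ.2.classInner_self]; exact one_ne_zero
  refine ⟨fun χ hχ => ?_, fun θ hθ => ?_⟩
  · obtain ⟨θ, hθ, h1⟩ := (covers_principal (N := N)).exists_under isPBlock_principal
      isPBlock_principal.fB_mem hχ
    obtain ⟨ψ, h2, h3⟩ := dade_ext hidx hP hsup hθ
    exact ⟨θ, hθ, dade_unique hidx hP hsup h2 h3 hχ h1 ▸ h3⟩
  · obtain ⟨ψ, h2, h3⟩ := dade_ext hidx hP hsup hθ
    exact ⟨ψ, ⟨h2, h3⟩, fun χ h => dade_unique hidx hP hsup h2 h3 h.1 (ho _ _ h.2)⟩

end Cfsg.Agent.S4551
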