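import Cfsg.Statements.S4553
import Mathlib
import Cfsg.Agent.H4.Gal3

set_option autoImplicit false
open Cfsg

open Cfsg CfsgH4 CfsgH1 CfsgL0 MonoidAlgebra Function
open CfsgH3 hiding cj cj_cj
open scoped ComplexConjugate Pointwise

namespace Cfsg.Agent.S4553

/-- Let G be a finite group, p a prime, P a Sylow p-subgroup, N the p-residual of G (the subgroup generated by the elements of order prime to p, the smallest normal subgroup with G/N a p-group), and M a maximal ideal of the algebraic integers containing p; suppose G/N is cyclic and nontrivial. Let k be a natural number with g ^ k = g ^ (1 + p) for every p-element g and g ^ k = g for every element g of order prime to p (so that χ (g ^ k) is the image of χ g under the field automorphism that raises p-power roots of unity to the power 1 + p and fixes the roots of unity of order prime to p). Then the number of members χ of the principal block of G of degree prime to p with χ (g ^ k) =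 χ g for all g equals p times the number of members θ of the principal block of N of degree prime to p that are invariant under conjugation by P and satisfy θ (n ^ k) = θ n for all n. -/
theorem result {G : Type*} [Group G] [Finite G] (p : ℕ) [Fact p.Prime] (M : Ideal Cfsg.AlgInt) (hM : Cfsg.IsPModular p M) (P : Sylow p G) (N : Subgroup G) [hN : N.Normal] (hNres : N = Cfsg.pResidual p G) (hcyc : IsCyclic (G ⧸ N)) (hnt : N ≠ ⊤) (k : ℕ) (hk₁ : ∀ g : G, (∃ j : ℕ, orderOf g = p ^ j) → g ^ k = g ^ (1 + p)) (hk₂ : ∀ g : G, Nat.Coprime (orderOf g) p → g ^ k = g) : Nat.card {χ : Cfsg.IrrCharacter G // χ ∈ Cfsg.principalBlock M G ∧ ¬ p ∣ Cfsg.charDegree (χ : G → ℂ) ∧ ∀ g : G, (χ : G → ℂ) (g ^ k) = (χ : G → ℂ) g} = p * Nat.card {θ : Cfsg.IrrCharacter ↥N // θ ∈ Cfsg.principalBlock M ↥N ∧ ¬ p ∣ Cfsg.charDegree (θ : ↥N → ℂ) ∧ (∀ x ∈ (P : Subgroup G), ∀ n : ↥N, (θ : ↥N → ℂ) ⟨x * n * x⁻¹, hN.conj_mem n n.2 x⟩ = (θ : ↥N → ℂ) n) ∧ ∀ n : ↥N, (θ : ↥N → ℂ) (n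 ^ k) = (θ : ↥N → ℂ) n} := by
  haveI : PMod p M := ⟨hM⟩
  have hp : p.Prime := Fact.out
  have := Fintype.ofFinite G
  have := Fintype.ofFinite N
  have hk₃ : ∀ g : G, ¬ p ∣ orderOf g → g ^ k = g := fun g h =>
    hk₂ g (hp.coprime_iff_not_dvd.2 h).symm
  have hk := coprime_of_pow_iter (pow_ne_zero _ hp.ne_zero) (pow_iter_eq hk₁ hk₃)
  have hr : ∀ g : G, ¬ p ∣ orderOf g → g ∈ N := fun g h => hNres ▸ mem_pResidual h
  obtain ⟨a, ha⟩ := index_pow_of_reg hr
  have hc : ∀ d, ¬ p ∣ d → N.index.Coprime d := fun d h =>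
    ha ▸ (hp.coprime_iff_not_dvd.2 h).pow_left a
  have hl : ∀ (l : G →* ℂˣ), (∀ n ∈ N, l n = 1) → ∀ g, l (g ^ k) = l g * l g ^ p := fun l h g => by
    have e := h _ (hr _ (ppart_eq_one_iff.1 (ppart_rpart p g)))
    have e2 := pow_eq_ppart hk₁ hk₃ 1 g
    rw [pow_one, pow_one] at e2
    rw [e2]; nth_rw 3 4 [← ppart_mul_rpart (p := p) g]
    simp [e, pow_add]
  have hd : ∀ θ : N → ℂ, ¬ p ∣ detOrder θ := fun θ => by
    subst hNres; rw [detOrder_eq]; exact not_dvd_orderOf_lin _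
  have hi : ∀ θ : IrrCharacter N, (∀ x ∈ (P : Subgroup G), ∀ n : N,
      θ.1 ⟨x * n * x⁻¹, hN.conj_mem n n.2 x⟩ = θ.1 n) → ∀ g : G, CfsgH3.cj g θ.1 = θ.1 :=
    fun θ h g => by
      refine mem_inertia.1 ((?_ : inertia θ.1 = ⊤) ▸ Subgroup.mem_top g)
      rw [← Subgroup.index_eq_one]
      exact Nat.eq_one_of_dvd_coprimes (hc _ P.not_dvd_index)
        (Subgroup.index_dvd_of_le (le_inertia θ.2.isClassFunction))
        (Subgroup.index_dvd_of_le fun x hx => mem_inertia.2 (funext (h x hx)))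
  choose f h1 h2 h3 using fun θ : {θ : IrrCharacter N // θ ∈ principalBlock M N ∧
      ¬ p ∣ charDegree θ.1 ∧ (∀ x ∈ (P : Subgroup G), ∀ n : N,
        θ.1 ⟨x * n * x⁻¹, hN.conj_mem n n.2 x⟩ = θ.1 n) ∧ ∀ n : N, θ.1 (n ^ k) = θ.1 n} =>
    exists_canon_ext θ.1.2 (hi _ θ.2.2.2.1) (coe_charDegree θ.1.2.isCharacter).symm
      (hc _ θ.2.2.1) (hc _ (hd _))
  have h4 : ∀ θ g, f θ (g ^ k) = f θ g := fun θ => congrFun (canon_ext_unique θ.1.2
    (coe_charDegree θ.1.2.isCharacter).symm (hc _ θ.2.2.1) ((h1 θ).comp_pow hk) (h1 θ)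
    (fun n => by rw [← Subgroup.coe_pow, h2, θ.2.2.2.2]) (h2 θ) ((hc _ (hd θ.1.1)).coprime_dvd_right
      (by
        rw [← h3, detOrder_eq, detOrder_eq]
        exact orderOf_lin_dvd.2 fun g => by
          rw [dt_comp_pow (h1 θ).isCharacter hk, ← pow_mul, mul_comm, pow_mul, lin_pow_orderOf,
            one_pow])) (h3 θ ▸ hc _ (hd _)))
  have h5 : ∀ (l : G ⧸ N →* ℂˣ), ∀ n ∈ N, l.comp (QuotientGroup.mk' N) n = 1 := fun l n hn => by
    simp [(QuotientGroup.eq_one_iff n).2 hn]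
  nth_rw 2 [← card_lin_pow (p := p) (G := G ⧸ N) (by
    change p ∣ N.index
    exact ha ▸ dvd_pow_self p fun e => hnt (by rw [← Subgroup.index_eq_one, ha, e, pow_zero]))]
  rw [← Nat.card_prod]
  refine (Nat.card_congr (Equiv.ofBijective (fun x => ⟨⟨fun g =>
    x.1.1.comp (QuotientGroup.mk' N) g * f x.2 g, isIrr_lin_mul (h1 x.2)
    (x.1.1.comp (QuotientGroup.mk' N))⟩, ?_, ?_, fun g => ?_⟩) ⟨?_, ?_⟩)).symm
  rotate_left 2
  · exact (over_of_res fun n => by simp only [h5 _ _ n.2, h2]; simp).mem_principal_of_index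
      ⟨a, ha⟩ x.2.2.1
  · have := x.2.2.2.1
    rwa [charDegree_eq (n := charDegree x.2.1.1) (by
      simp only [map_one, coe_charDegree x.2.1.2.isCharacter, ← h2]; simp)]
  · simp only [hl _ (h5 _), h4]
    rw [MonoidHom.comp_apply, ← MonoidHom.pow_apply, x.1.2]; simp
  · rintro ⟨l, θ⟩ ⟨l', θ'⟩ e
    have e1 := congrFun (congrArg (fun x => x.1.1) e)
    simp only at e1
    obtain rfl : θ = θ' := Subtype.ext (Subtype.ext (funext fun n => by
      simpa only [h5 _ _ n.2, h2, Units.val_one, one_mul] using e1 n))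
    have e2 := eq_of_mul_eq_of_restrict_irr (N := N) (h1 θ).isCharacter (funext (h2 θ) ▸ θ.1.2)
      (isIrr_of_unitsHom _) (fun n hn => by rw [h5 l.1 n hn, map_one]) (isIrr_of_unitsHom _)
      (fun n hn => by rw [h5 l'.1 n hn, map_one]) (funext e1)
    refine Prod.ext (Subtype.ext (QuotientGroup.monoidHom_ext _ (MonoidHom.ext fun g => ?_))) rfl
    exact Units.ext (congrFun e2 g)
  · rintro ⟨χ, b1, b2, b3⟩
    have b4 := restrict_irr_of_coprime χ.2 (coe_charDegree χ.2.isCharacter).symm (hc _ b2)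
    let θ : {θ : IrrCharacter N // θ ∈ principalBlock M N ∧
      ¬ p ∣ charDegree θ.1 ∧ (∀ x ∈ (P : Subgroup G), ∀ n : N,
        θ.1 ⟨x * n * x⁻¹, hN.conj_mem n n.2 x⟩ = θ.1 n) ∧ ∀ n : N, θ.1 (n ^ k) = θ.1 n} :=
      ⟨⟨_, b4⟩, (over_of_res fun _ => rfl).mem_principal b1, b2,
        fun x _ n => χ.2.isClassFunction _ _, fun n => b3 n⟩
    obtain ⟨l, b5, b6⟩ := exists_lin_of_ext b4 (h1 θ) χ.2 (h2 θ) fun _ => rfl
    have b7 := eq_of_mul_eq_of_restrict_irr (N := N) (h1 θ).isCharacter (funext (h2 θ) ▸ θ.1.2)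
      (isIrr_of_unitsHom (l * l ^ p)) (fun n hn => by simp [b5 n hn]) (isIrr_of_unitsHom l)
      (fun n hn => by simp [b5 n hn]) (funext fun g => by
        have := b3 g
        rw [b6] at this
        simpa [hl l b5, h4] using this)
    refine ⟨(⟨QuotientGroup.lift N l b5, QuotientGroup.monoidHom_ext _ (MonoidHom.ext fun g => ?_)⟩,
      θ), Subtype.ext (Subtype.ext b6.symm)⟩
    have := Units.ext (congrFun b7 g)
    change l g ^ p = 1
    simpa using this

end Cfsg.Agent.S4553
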