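import Cfsg.Statements.S4560
import Mathlib
import Cfsg.Agent.H3.More

set_option autoImplicit false
open Cfsg

open CfsgH3 Function Finset Equiv

namespace Cfsg.Agent.S4560

section
variable {G Ω κ ι : Type*} [Group G] [MulAction G Ω]

noncomputable def U (Ω : Type*) [MulAction G Ω] (σ : κ → κ) (g : G) : ℕ :=
  Nat.card {x : κ → Ω // ∀ i, g • x i = x (σ i)}

def kr [DecidableEq Ω] (x : κ → Ω) : κ → κ → Bool := fun i j => x i = x j

theorem kr_eq {Ω' : Type*} [DecidableEq Ω] [DecidableEq Ω'] {x : κ → Ω} {y : κ → Ω'} :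
    kr x = kr y ↔ ∀ i j, x i = x j ↔ y i = y j := by
  simp [kr, funext_iff]

def cc [Fintype κ] [DecidableEq κ] (σ : κ → κ) : ℕ :=
  #{r ∈ univ.image (kr : (κ → κ) → _) | ∀ i j, r (σ i) (σ j) = r i j}

theorem U_sum (σ : κ → κ) (τ : ι → ι) (g : G) : U Ω (Sum.map σ τ) g = U Ω σ g * U Ω τ g := by
  rw [U, U, U, ← Nat.card_prod]
  exact Nat.card_congr (((sumArrowEquivProdArrow _ _ _).subtypeEquiv fun x => Sum.forall).trans
    subtypeProdEquivProd)

noncomputable def F (Ω : Type*) [MulAction G Ω] (g : G) : ℕ := Nat.card (MulAction.fixedBy Ω g)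

theorem U_one (g : G) : U Ω (id : Unit → Unit) g = F Ω g :=
  Nat.card_congr ((funUnique Unit Ω).subtypeEquiv fun x => Unique.forall_iff)

theorem U_not (g : G) : U Ω not g = F Ω (g * g) :=
  Nat.card_congr ⟨fun x => ⟨x.1 true, by simp [mul_smul, x.2]⟩,
    fun a => ⟨fun i => bif i then a else g • a.1, by simpa [mul_smul] using MulAction.mem_fixedBy.1 a.2⟩,
    fun x => Subtype.ext (funext fun i => by cases i <;> simp [x.2]), fun a => rfl⟩

variable [Fintype G] [Fintype Ω] [DecidableEq Ω]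

theorem sum_U [Fintype κ] [DecidableEq κ] [Nonempty κ] (hc : Fintype.card κ ≤ Fintype.card Ω)
    (H : ∀ x y : κ → Ω, kr x = kr y → ∃ g : G, g • x = y) (σ : κ → κ) :
    ∑ g : G, U Ω σ g = cc σ * Nat.card G := by
  have a1 : univ.image (kr : (κ → κ) → _) = univ.image (kr : (κ → Ω) → _) := by
    obtain ⟨e⟩ := Function.Embedding.nonempty_of_card_le hc
    ext r
    simp only [mem_image, mem_univ, true_and]
    refine ⟨fun ⟨x, h⟩ => ⟨e ∘ x, h ▸ kr_eq.2 fun i j => e.injective.eq_iff⟩,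
      fun ⟨x, h⟩ => ⟨invFun x ∘ x, h ▸ kr_eq.2 fun i j => ⟨fun e => ?_, fun e => by simp [e]⟩⟩⟩
    simpa [apply_invFun_apply] using congrArg x e
  have a2 : ∀ g : G, U Ω σ g = ∑ x : κ → Ω, if g • x = x ∘ σ then 1 else 0 := fun g => by
    simp [U, Fintype.card_subtype, funext_iff]
  rw [sum_congr rfl fun g _ => a2 g, sum_comm, cc, a1, card_eq_sum_ones, sum_mul, sum_filter,
    ← sum_fiberwise_of_maps_to (g := kr) fun x _ => mem_image_of_mem _ (mem_univ x)]
  refine sum_congr rfl fun r hr => ?_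
  obtain ⟨x₀, -, rfl⟩ := mem_image.1 hr
  have a3 : ∀ (g : G) (x : κ → Ω), kr (g • x) = kr x := fun g x => kr_eq.2 (by simp)
  split_ifs with h
  · rw [one_mul, Nat.card_eq_fintype_card, ← card_univ, card_eq_sum_card_fiberwise
      (f := fun g : G => g • x₀) (t := {x | kr x = kr x₀}) fun g _ => by simp [a3]]
    refine sum_congr rfl fun x hx => ?_
    have hx := (mem_filter.1 hx).2
    obtain ⟨a, rfl⟩ := H _ _ hx.symm
    obtain ⟨b, hb⟩ := H (a • x₀) ((a • x₀) ∘ σ) (by
      rw [hx]; funext i j; rw [← h, ← hx]; rfl)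
    rw [← card_filter]
    exact card_equiv ((Equiv.mulLeft b⁻¹).trans (Equiv.mulRight a)) fun g => by
      simp [mul_smul, ← hb, inv_smul_eq_iff]
  · refine sum_eq_zero fun x hx => sum_eq_zero fun g _ => if_neg fun e => h fun i j => ?_
    rw [← (mem_filter.1 hx).2]
    exact congrFun₂ ((e ▸ a3 g x :) : kr (x ∘ σ) = kr x) i j

noncomputable def ch (Ω : Type*) [MulAction G Ω] (b : Bool) (g : G) : ℂ :=
  bif b then ((F Ω g : ℂ) ^ 2 + F Ω (g * g)) / 2 - F Ω g - F Ω g
  else ((F Ω g : ℂ) ^ 2 - F Ω (g * g)) / 2 - F Ω g + 1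

theorem irr_ch (hc : 4 ≤ Fintype.card Ω) (H : ∀ (κ : Type) [Fintype κ], Fintype.card κ ≤ 4 →
    ∀ x y : κ → Ω, kr x = kr y → ∃ g : G, g • x = y) (b : Bool) : IsIrrCharacter G (ch Ω b) := by
  have k : ∀ {κ : Type} [Fintype κ] [DecidableEq κ] [Nonempty κ] (σ : κ → κ) {c : ℕ},
      Fintype.card κ ≤ 4 → cc σ = c → ∑ g : G, (U Ω σ g : ℂ) = c * Nat.card G :=
    fun σ c h e => by exact_mod_cast e ▸ sum_U (h.trans hc) (H _ h) σ
  let u : Unit → Unit := id
  have e1 := k u (c := 1) (by simp) (by decide +kernel)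
  have e2 := k (Sum.map u u) (c := 2) (by simp) (by decide +kernel)
  have e3 := k (Sum.map u (Sum.map u u)) (c := 5) (by simp) (by decide +kernel)
  have e4 := k (Sum.map (Sum.map u u) (Sum.map u u)) (c := 15) (by simp) (by decide +kernel)
  have e5 := k not (c := 2) (by simp) (by decide +kernel)
  have e6 := k (Sum.map not u) (c := 3) (by simp) (by decide +kernel)
  have e7 := k (Sum.map not (Sum.map u u)) (c := 7) (by simp) (by decide +kernel)
  have e8 := k (Sum.map not not) (c := 7) (by simp) (by decide +kernel)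
  simp only [u, U_sum, U_one, U_not, Nat.cast_mul] at e1 e2 e3 e4 e5 e6 e7 e8
  have e0 : ∑ g : G, (1 : ℂ) = Nat.card G := by simp
  have h0 : (Nat.card G : ℂ) ≠ 0 := Nat.cast_ne_zero.2 Nat.card_pos.ne'
  have a : IsCharacter G fun g => (F Ω g : ℂ) := isCharacter_fixedBy Ω
  have a1 : F Ω (1 : G) = Fintype.card Ω := by simp [F]
  obtain ⟨m, hm⟩ := Nat.exists_eq_add_of_le hc
  have a2 : (0 : ℝ) ≤ m := m.cast_nonneg
  cases b
  · refine (show IsGeneralizedCharacter G (ch Ω false) from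
      (a.altSq.isGen.sub a.isGen).add isCharacter_one.isGen).isIrr_of_re_nonneg ?_ ?_
    · rw [classInner, inv_mul_eq_one₀ h0]
      refine ((sum_congr rfl (g := fun g => (F Ω g : ℂ) * 0 + F Ω g * F Ω g * (F Ω g * F Ω g) / 4
        - F Ω (g * g) * (F Ω g * F Ω g) / 2 + F Ω (g * g) * F Ω (g * g) / 4 + 2 * (F Ω g * F Ω g) + 1
        - F Ω g * (F Ω g * F Ω g) + F Ω (g * g) * F Ω g - F Ω (g * g) - 2 * F Ω g) fun g _ => by
          simp [ch, map_ofNat]; ring).trans ?_).symm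
      simp only [sum_add_distrib, sum_sub_distrib, ← sum_div, ← mul_sum, mul_zero, zero_add, e0, e1, e2, e3, e4, e5, e6,
        e7, e8]
      push_cast; ring
    · simp [ch, a1, hm, sq]; nlinarith
  · refine (show IsGeneralizedCharacter G (ch Ω true) from
      (a.symSq.isGen.sub a.isGen).sub a.isGen).isIrr_of_re_nonneg ?_ ?_
    · rw [classInner, inv_mul_eq_one₀ h0]
      refine ((sum_congr rfl (g := fun g => (F Ω g : ℂ) * 0 + F Ω g * F Ω g * (F Ω g * F Ω g) / 4
        + F Ω (g * g) * (F Ω g * F Ω g) / 2 + F Ω (g * g) * F Ω (g * g) / 4 + 4 * (F Ω g * F Ω g)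
        - 2 * (F Ω g * (F Ω g * F Ω g)) - 2 * (F Ω (g * g) * F Ω g)) fun g _ => by
          simp [ch, map_ofNat]; ring).trans ?_).symm
      simp only [sum_add_distrib, sum_sub_distrib, ← sum_div, ← mul_sum, mul_zero, zero_add, e0, e1, e2, e3, e4, e5, e6,
        e7, e8]
      push_cast; ring
    · simp [ch, a1, hm, sq]; nlinarith

theorem ex_perm {x y : κ → Ω} (h : kr x = kr y) : ∃ g : Perm Ω, g • x = y := by
  have h := kr_eq.1 h
  obtain ⟨g, hg⟩ := Perm.exists_extending_pair (Subtype.val : Set.range x → Ω)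
    (fun a => y a.2.choose) Subtype.val_injective fun a b e => Subtype.ext
      (a.2.choose_spec.symm.trans (((h _ _).2 e).trans b.2.choose_spec))
  exact ⟨g, funext fun i => (hg ⟨_, i, rfl⟩).trans ((h _ _).1 (Exists.choose_spec
    (⟨i, rfl⟩ : x i ∈ Set.range x)))⟩

theorem ex_alt [Fintype κ] (hc : Fintype.card κ + 1 < Fintype.card Ω) {x y : κ → Ω}
    (h : kr x = kr y) : ∃ g : alternatingGroup Ω, g • x = y := by
  obtain ⟨g, rfl⟩ := ex_perm h
  rcases Int.units_eq_one_or (Perm.sign g) with e | e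
  · exact ⟨⟨g, e⟩, rfl⟩
  obtain ⟨a, ha, b, hb, hab⟩ := one_lt_card.1 (show 1 < #(univ.image (g • x))ᶜ by
    have := card_image_le (s := univ) (f := g • x)
    rw [card_compl]; rw [card_univ] at this; omega)
  refine ⟨⟨swap a b * g, by simp [e, hab]⟩, funext fun i => swap_apply_of_ne_of_ne ?_ ?_⟩
  · exact fun e => mem_compl.1 ha (mem_image.2 ⟨i, mem_univ _, e⟩)
  · exact fun e => mem_compl.1 hb (mem_image.2 ⟨i, mem_univ _, e⟩)

theorem F_eq (g : Perm Ω) : F Ω g = Fintype.card Ω - #g.support := by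
  rw [← card_compl, F, Nat.card_eq_fintype_card, Fintype.card_subtype]
  congr; ext; simp

theorem sq_supp {g : Perm Ω} (h : ∀ a ∈ g.cycleType, 3 ≤ a) : (g * g).support = g.support := by
  refine (sq g ▸ g.support_pow_le 2).antisymm fun x hx => ?_
  have a1 := Perm.isCycle_cycleOf g (Perm.mem_support.1 hx)
  have a2 := a1.support_pow_eq_iff.2 fun e => (h _ (g.cycleType_def ▸ Multiset.mem_map_of_mem _
    (Perm.cycleOf_mem_cycleFactorsFinset_iff.2 hx))).not_gt
      (Nat.lt_succ_of_le (Nat.le_of_dvd two_pos (a1.orderOf.symm.dvd.trans e)))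
  have a3 : x ∈ (g.cycleOf x ^ 2).support := by
    rw [a2]; simpa [Perm.mem_support] using hx
  rwa [Perm.mem_support, Perm.cycleOf_pow_apply_self, sq, ← Perm.mem_support] at a3

end

theorem key {n : ℕ} (hn : 7 ≤ n) {P : ℕ → Prop} (b : Bool) (g : Perm (Fin n))
    (h1 : Perm.sign g = 1) (h2 : P (orderOf g)) (h3 : ch (Fin n) b g = 0) :
    ∃ χ : IrrCharacter (alternatingGroup (Fin n)), (∃ x, P (orderOf x) ∧ χ.1 x = 0) ∧
      ∃ ψ : IrrCharacter (Perm (Fin n)), ∀ x : alternatingGroup (Fin n), ψ.1 x = χ.1 x :=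
  ⟨⟨_, irr_ch (Ω := Fin n) (by simp; omega) (fun κ _ h x y => ex_alt (by simp; omega)) b⟩,
    ⟨⟨g, h1⟩, (congrArg P (Subgroup.orderOf_mk _ _)).mpr h2, h3⟩,
    ⟨_, irr_ch (Ω := Fin n) (by simp; omega) (fun κ _ h x y => ex_perm) b⟩, fun _ => rfl⟩

theorem key2 {n : ℕ} (hn : 7 ≤ n) {P : ℕ → Prop} (m : Multiset ℕ) (h1 : m.sum ≤ n)
    (h2 : n ≤ m.sum + 3) (h3 : ∀ a ∈ m, 3 ≤ a) (h4 : Even (m.sum + m.card)) (h5 : P m.lcm) :
    ∃ χ : IrrCharacter (alternatingGroup (Fin n)), (∃ x, P (orderOf x) ∧ χ.1 x = 0) ∧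
      ∃ ψ : IrrCharacter (Perm (Fin n)), ∀ x : alternatingGroup (Fin n), ψ.1 x = χ.1 x := by
  obtain ⟨g, rfl⟩ := (Perm.exists_with_cycleType_iff (Fin n)).2
    ⟨by simpa using h1, fun a h => (h3 a h).trans' (by norm_num)⟩
  have a1 : F (Fin n) (g * g) = F (Fin n) g := by rw [F_eq, F_eq, sq_supp h3]
  have a2 : F (Fin n) g ≤ 3 := by rw [F_eq, ← g.sum_cycleType]; simp; omega
  refine key hn (F (Fin n) g = 0 ∨ F (Fin n) g = 3) g (by rw [g.sign_of_cycleType, h4.neg_one_pow])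
    (g.lcm_cycleType ▸ h5) ?_
  rw [ch, a1]
  generalize F (Fin n) g = f at a2
  interval_cases f <;> norm_num

/-- For n ≥ 7 the alternating group on n letters has an irreducible character that vanishes at some 2-element and is the restriction of an irreducible character of the symmetric group, and an irreducible character that vanishes at some element of order 3 and is the restriction of an irreducible character of the symmetric group. -/
theorem result (n : ℕ) (hn : 7 ≤ n) : (∃ χ : Cfsg.IrrCharacter (alternatingGroup (Fin n)), (∃ x : alternatingGroup (Fin n), (∃ j : ℕ, orderOf x = 2 ^ j) ∧ (χ : alternatingGroup (Fin n) → ℂ) x = 0) ∧ ∃ ψ : Cfsg.IrrCharacter (Equiv.Perm (Fin n)), ∀ x : alternatingGroup (Fin n), (ψ : Equiv.Perm (Fin n) → ℂ) x = (χ : alternatingGroup (Fin n) → ℂ) x) ∧ (∃ χ : Cfsg.IrrCharacter (alternatingGroup (Fin n)), (∃ y : alternatingGroup (Fin n), orderOf y = 3 ∧ (χ : alternatingGroup (Fin n) → ℂ) y = 0) ∧ ∃ ψ : Cfsg.IrrCharacter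 (Equiv.Perm (Fin n)), ∀ x : alternatingGroup (Fin n), (ψ : Equiv.Perm (Fin n) → ℂ) x = (χ : alternatingGroup (Fin n) → ℂ) x) := by
  refine ⟨?_, key2 hn (P := (· = 3)) (.replicate (n / 3) 3) (by simp; omega) (by simp; omega)
    (fun a h => (Multiset.eq_of_mem_replicate h).ge) (by simp [Nat.even_iff]; omega) ?_⟩
  · rcases hn.eq_or_lt with rfl | h
    · refine key hn (P := fun k => ∃ j, k = 2 ^ j) true (swap 0 1 * (swap 2 3 * swap 3 4 * swap 4 5))
        (by decide) ⟨2, orderOf_eq_prime_pow (by decide) (by decide)⟩ ?_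
      rw [ch, F_eq, F_eq, show #(Perm.support _) = 6 by decide, show #(Perm.support _) = 4 by decide]
      norm_num
    refine key2 hn (P := fun k => ∃ j, k = 2 ^ j) (.replicate (n / 4 % 2) 8 +
      .replicate (n / 4 - 2 * (n / 4 % 2)) 4) (by simp; omega) (by simp; omega)
      (by simp [Multiset.mem_replicate]; omega) (by simp [Nat.even_iff]; omega) ?_
    exact ((Nat.dvd_prime_pow Nat.prime_two (m := 3)).1 (Multiset.lcm_dvd.2 fun a ha => by
      rcases Multiset.mem_add.1 ha with h | h <;> rw [Multiset.eq_of_mem_replicate h] <;>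
        norm_num)).imp fun j h => h.2
  · exact Nat.dvd_antisymm (Multiset.lcm_dvd.2 fun a ha => Multiset.eq_of_mem_replicate ha ▸ dvd_rfl)
      (Multiset.dvd_lcm (Multiset.mem_replicate.2 ⟨by omega, rfl⟩))

end Cfsg.Agent.S4560
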