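import Cfsg.Statements.S4564
import Cfsg.Agent.H3.Cd1
import Cfsg.Agent.H1.Schmidt

set_option autoImplicit false
open Cfsg

open Cfsg CfsgH3 CfsgH4 CfsgH1 CfsgCd Function

namespace Cfsg.Agent.S4564
open Subgroup

/-- Let χ be an irreducible character of the finite group H that is fully ramified over the normal subgroup Z: the restriction of χ to Z is e times an irreducible character of Z with e ^ 2 equal to the index of Z. Let K be a normal subgroup of H containing Z and P a cyclic Sylow p-subgroup of H/K. Then P has a complement in H/K: a subgroup meeting P trivially whose product with P is the whole group. -/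
theorem result {H : Type*} [Group H] [Finite H] (Z : Subgroup H) [Z.Normal] (χ : Cfsg.IrrCharacter H) (hfr : ∃ (θ : Cfsg.IrrCharacter ↥Z) (e : ℕ), e ^ 2 = Z.index ∧ ∀ z : ↥Z, (χ : H → ℂ) z = (e : ℂ) * (θ : ↥Z → ℂ) z) (K : Subgroup H) [K.Normal] (hZK : Z ≤ K) (p : ℕ) [Fact p.Prime] (P : Sylow p (H ⧸ K)) (hcyc : IsCyclic P) : ∃ M : Subgroup (H ⧸ K), M.IsComplement' (P : Subgroup (H ⧸ K)) := by
  haveI := Fintype.ofFinite H
  obtain ⟨θ, e, he, h⟩ := hfr
  obtain ⟨M, -, a, b⟩ := (vz_of_irr χ.2 θ.2 he.ge h).1.compl (p := p) χ.2 he hZK (.inl fun S hS => by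
    obtain ⟨Q, hQ⟩ := (hS.map (QuotientGroup.mk' K)).exists_le_sylow
    haveI : IsCyclic Q := isCyclic_of_surjective _ (P.equiv Q).surjective
    exact isCyclic_of_le hQ)
  have hp : p.Prime := Fact.out
  have a' := (CfsgH2.piN_compl_singleton hp).1 a
  rw [compl_compl, relIndex_top_right] at b
  obtain ⟨k, hk⟩ := (CfsgH2.piN_singleton hp FiniteIndex.index_ne_zero).1 b
  have c : (Nat.card M).Coprime (Nat.card P) := CfsgH2.coprime_of_pgroup P.isPGroup' a' |>.symm
  refine ⟨M, isComplement'_of_coprime ?_ c⟩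
  rw [← M.card_mul_index, hk, P.card_eq_multiplicity, ← M.card_mul_index, hk,
    Nat.factorization_mul Nat.card_pos.ne' (pow_pos hp.pos k).ne']
  simp [Nat.factorization_eq_zero_of_not_dvd a', hp.factorization_pow]


end Cfsg.Agent.S4564
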