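import Cfsg.Statements.S4565
import Cfsg.Agent.H3.Cd1

set_option autoImplicit false
open Cfsg

open Cfsg CfsgH3 CfsgH4 CfsgH1 CfsgCd Function
open scoped ComplexConjugate

namespace Cfsg.Agent.S4565
open Subgroup

/-- Let χ be an irreducible character of the finite group H that is fully ramified over the normal subgroup Z: the restriction of χ to Z is e times an irreducible character of Z with e ^ 2 equal to the index of Z. If Z ≠ H, then H/Z has no cyclic subgroup that is its own centralizer. -/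
theorem result {H : Type*} [Group H] [Finite H] (Z : Subgroup H) [Z.Normal] (χ : Cfsg.IrrCharacter H) (hfr : ∃ (θ : Cfsg.IrrCharacter ↥Z) (e : ℕ), e ^ 2 = Z.index ∧ ∀ z : ↥Z, (χ : H → ℂ) z = (e : ℂ) * (θ : ↥Z → ℂ) z) (hZ : Z ≠ ⊤) (C : Subgroup (H ⧸ Z)) (hC : IsCyclic C) : Subgroup.centralizer (C : Set (H ⧸ Z)) ≠ C := by
  classical
  haveI := Fintype.ofFinite H
  obtain ⟨θ, e, he, h⟩ := hfr
  have v := (vz_of_irr χ.2 θ.2 he.ge h).1
  intro hc
  obtain ⟨c0, hc0⟩ := (Subgroup.isCyclic_iff_exists_zpowers_eq_top C).1 hC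
  obtain ⟨c, rfl⟩ := QuotientGroup.mk_surjective c0
  have c1 : c ∉ Z := fun hz => hZ (eq_top_iff.2 fun x _ => (QuotientGroup.eq_one_iff x).1 (by
    rw [(QuotientGroup.eq_one_iff c).2 hz, zpowers_one_eq_bot] at hc0
    rw [← hc0] at hc
    exact mem_bot.1 (hc ▸ fun y hy => by rw [mem_bot.1 hy]; simp)))
  set U := C.comap (QuotientGroup.mk' Z)
  have l : Z ≤ U := fun x hx => by
    show (x : H ⧸ Z) ∈ C; rw [(QuotientGroup.eq_one_iff x).2 hx]; exact one_mem _
  have cU : c ∈ U := hc0.le (mem_zpowers _)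
  have cm : ∀ g : H, g ∈ U ↔ ((g⁻¹ * c * g : H) : H ⧸ Z) = c := fun g => by
    show (g : H ⧸ Z) ∈ C ↔ _
    rw [← hc, ← hc0, CfsgH2.cent_zpowers, mem_centralizer_singleton_iff, QuotientGroup.mk_mul,
      QuotientGroup.mk_mul, QuotientGroup.mk_inv, mul_assoc, inv_mul_eq_iff_eq_mul, eq_comm]
  have w := v.sub l
  obtain ⟨ψ, iψ, hψ⟩ := exists_ext_of_cyclic w.irr w.inv ⟨⟨(⟨c, cU⟩ : U), fun x => by
    obtain ⟨x, rfl⟩ := QuotientGroup.mk_surjective x
    obtain ⟨k, hk⟩ := mem_zpowers_iff.1 (hc0 ▸ x.2 : ((x : H) : H ⧸ Z) ∈ zpowers (c : H ⧸ Z))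
    exact ⟨k, QuotientGroup.eq.2 (QuotientGroup.eq.1 hk :)⟩⟩⟩
  have r : IsIrrCharacter (Z.subgroupOf U) fun n => ψ n := funext hψ ▸ w.irr
  let f : U → ℂ := fun x => if ((x : H) : H ⧸ Z) = c then ψ x else 0
  have cj' : ∀ (g x : H), (x : H ⧸ Z) = c → ((g⁻¹ * x * g : H) : H ⧸ Z) = ((g⁻¹ * c * g : H) : H ⧸ Z) :=
    fun g x hx => by simp [hx]
  have cf : IsClassFunction U f := fun x g => by
    have : (((g * x * g⁻¹ : U) : H) : H ⧸ Z) = c ↔ ((x : H) : H ⧸ Z) = c := ⟨fun e => by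
      rw [← (cm g).1 g.2, ← cj' _ _ e]; simp [mul_assoc], fun e => by
      have := cj' (g : H)⁻¹ _ e
      rw [(cm _).1 (inv_mem g.2), inv_inv] at this; exact this⟩
    simp only [f, this, iψ.isClassFunction x g]
  have sm : ∀ ξ : U → ℂ, ∑ x, f x * conj (ξ x) =
      ∑ n : Z.subgroupOf U, ψ (n * ⟨c, cU⟩) * conj (ξ (n * ⟨c, cU⟩)) := fun ξ => by
    rw [sum_subgroup_eq (Z.subgroupOf U) fun n => ψ (n * ⟨c, cU⟩) * conj (ξ (n * ⟨c, cU⟩)),
      ← Equiv.sum_comp (Equiv.mulRight (⟨c, cU⟩ : U)), Finset.sum_filter]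
    refine Finset.sum_congr rfl fun x _ => ?_
    simp only [f, Equiv.coe_mulRight, coe_mul, QuotientGroup.mk_mul, mul_eq_right,
      QuotientGroup.eq_one_iff, mem_subgroupOf, ite_mul, zero_mul]
  have z : indFun U f = 0 := (isClassFunction_indFun f).eq_zero_of_orthogonal fun ξ hξ => by
    rw [classInner_indFun_left _ hξ.isClassFunction, classInner, sm]
    refine mul_eq_zero_of_right _ ?_
    by_cases e : ξ = χ.1
    · exact Finset.sum_eq_zero fun n _ => by
        rw [e, coe_mul, v.van _ fun hh => c1 ((Z.mul_mem_cancel_left (x := ((n : U) : H)) n.2).1 hh)]; simp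
    have := coset_sum_zero iψ r (hξ.isCharacter.restrict U) (by
      rw [funext hψ]; by_contra h0
      exact e (v.uniq χ.2 hξ fun h1 => h0 ((inner_subOf l (fun x : U => ξ x) _).trans h1))) ⟨c, cU⟩
    simpa [mul_comm] using congrArg conj this
  have := coset_sum_self iψ r ⟨c, cU⟩
  rw [Finset.sum_eq_zero fun n _ => ?_] at this
  · exact natCard_ne_zero _ this.symm
  have e1 : (((n * ⟨c, cU⟩ : U) : H) : H ⧸ Z) = c := by simpa using mem_subgroupOf.1 n.2
  have := indFun_apply_of_ti cf (n * ⟨c, cU⟩) fun g hg hh => if_neg fun e => hg ((cm g).2 (by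
    rw [← cj' g _ e1]; exact e))
  rw [z] at this
  simp only [f, if_pos e1] at this
  rw [← this]; simp


end Cfsg.Agent.S4565
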