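import Cfsg.Statements.S4566
import Mathlib
import Cfsg.Agent.H4.Ch1

set_option autoImplicit false
open Cfsg

open Cfsg CfsgH3 CfsgH4 CfsgH1 Function
open scoped ComplexConjugate Pointwise

namespace Cfsg.Agent.S4566

/-- Let N be a central subgroup of the finite group G, ψ a faithful irreducible (hence degree-one) character of N, and χ an irreducible character of G whose restriction to N contains ψ. If g ∈ G and some x ∈ G has commutator x⁻¹ g⁻¹ x g in N but different from 1, then χ g = 0. -/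
theorem result {G : Type*} [Group G] [Fintype G] (N : Subgroup G) [Fintype N] (hN : N ≤ Subgroup.center G) (ψ : Cfsg.IrrCharacter ↥N) (hfaith : ∀ n : ↥N, (ψ : ↥N → ℂ) n = (ψ : ↥N → ℂ) 1 → n = 1) (χ : Cfsg.IrrCharacter G) (hover : Cfsg.classInner (fun n : ↥N => (χ : G → ℂ) n) (ψ : ↥N → ℂ) ≠ 0) (g x : G) (hcomm : x⁻¹ * g⁻¹ * x * g ∈ N) (hne : x⁻¹ * g⁻¹ * x * g ≠ 1) : (χ : G → ℂ) g = 0 := by
  have hN' : N.Normal := normal_of_le_center hN
  have h1 := clifford_of_invariant χ.2 ψ.2 hover fun a => funext fun n => by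
    rw [cj_apply]; refine congrArg _ (Subtype.ext ?_)
    simp [mul_inv_eq_iff_eq_mul, Subgroup.mem_center_iff.1 (hN n.2) a]
  have key : x⁻¹ * g⁻¹ * x⁻¹⁻¹ * g⁻¹⁻¹ = x⁻¹ * g⁻¹ * x * g := by simp
  have h0 : χ.1 g⁻¹ = 0 := by
    refine χ.2.isCharacter.apply_eq_zero_of_commutator (y := x⁻¹)
      (key ▸ χ.2.center_le_charCenter (hN hcomm)) ?_
    rw [key]
    intro h
    have a := congrFun h1 ⟨_, hcomm⟩
    have b := congrFun h1 1
    simp only [Pi.smul_apply, smul_eq_mul, OneMemClass.coe_one] at a b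
    rw [h, b] at a
    exact hne (congrArg Subtype.val (hfaith _ (mul_left_cancel₀ hover a).symm))
  simpa [χ.2.isCharacter.apply_inv] using h0

end Cfsg.Agent.S4566
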