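import Cfsg.Statements.S4567
import Mathlib
import Cfsg.Agent.H4.Ch1
import Cfsg.Agent.H4.Cy1
import Cfsg.Agent.H4.CS

set_option autoImplicit false
open Cfsg

open Cfsg CfsgH4 CfsgH3 Subgroup
open scoped ComplexConjugate

namespace Cfsg.Agent.S4567

/-- Let N be a central subgroup of the finite group G and ψ a faithful irreducible (hence degree-one) character of N. Call a coset g N special when every x ∈ G whose commutator x⁻¹ g⁻¹ x g lies in N actually commutes with g (this depends only on the coset). Then the number of irreducible characters of G whose restriction to N contains ψ equals the number of conjugacy classes of G/N consisting of special cosets. -/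
theorem result {G : Type*} [Group G] [Fintype G] (N : Subgroup G) [N.Normal] [Fintype N] (hN : N ≤ Subgroup.center G) (ψ : Cfsg.IrrCharacter ↥N) (hfaith : ∀ n : ↥N, (ψ : ↥N → ℂ) n = (ψ : ↥N → ℂ) 1 → n = 1) : Nat.card {χ : Cfsg.IrrCharacter G // Cfsg.classInner (fun n : ↥N => (χ : G → ℂ) n) (ψ : ↥N → ℂ) ≠ 0} = Nat.card {C : ConjClasses (G ⧸ N) // ∃ g : G, ConjClasses.mk (g : G ⧸ N) = C ∧ ∀ x : G, x⁻¹ * g⁻¹ * x * g ∈ N → x * g = g * x} := by
  classical
  have : Fintype (G ⧸ N) := Fintype.ofFinite _
  have : Fintype (ConjClasses (G ⧸ N)) := Fintype.ofFinite _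
  have hz : ∀ n ∈ N, ∀ g, g * n = n * g := fun n hn g => mem_center_iff.1 (hN hn) g
  have hc : ∀ a b : N, a * b = b * a := fun a b => Subtype.ext (hz _ b.2 _)
  have h1 := ψ.2.apply_one_of_comm hc
  obtain ⟨l, hl⟩ := ψ.2.isCharacter.exists_monoidHom h1
  let Sp : G → Prop := fun g => ∀ x : G, x⁻¹ * g⁻¹ * x * g ∈ N → x * g = g * x
  have hG := natCard_ne_zero G
  have hNn := natCard_ne_zero N
  -- indicator
  have ind : ∀ χ : IrrCharacter G, (if classInner (fun n : N => χ.1 n) ψ.1 ≠ 0 then (1 : ℂ) else 0) =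
      (Nat.card G : ℂ)⁻¹ * (Nat.card N : ℂ)⁻¹ *
        ∑ g, ∑ n : N, conj (l n : ℂ) * (χ.1 (g * n) * conj (χ.1 g)) := by
    intro χ
    have h0 := χ.2.apply_one_ne_zero
    have hm : ∀ (n : N) g, χ.1 (g * n) = centralChar χ.1 n * χ.1 g := fun n g =>
      irr_mul_central χ.2 (hN n.2) g
    let f : N →* ℂ :=
      { toFun := fun n => centralChar χ.1 n
        map_one' := by
          have := hm 1 1
          simp only [OneMemClass.coe_one, mul_one] at this
          exact mul_right_cancel₀ h0 (by rw [OneMemClass.coe_one, ← this, one_mul])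
        map_mul' := fun a b => by
          have e1 := hm (a * b) 1
          rw [coe_mul, ← mul_assoc, hm, hm, ← mul_assoc] at e1
          rw [coe_mul, ← mul_right_cancel₀ h0 e1, mul_comm] }
    have hf : ∀ n : N, centralChar χ.1 n = (f.toHomUnits n : ℂ) := fun _ => rfl
    have e1 : classInner (fun n : N => χ.1 n) ψ.1 = if f.toHomUnits = l then χ.1 1 else 0 := by
      have : ∀ n : N, χ.1 n = (f.toHomUnits n : ℂ) * χ.1 1 := fun n => by
        rw [← hf, ← hm, one_mul]
      simp only [classInner, hl, this, mul_right_comm _ (χ.1 1), ← Finset.sum_mul, sum_lin_mul_conj]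
      split_ifs
      · field_simp
      · simp
    have e2 : ∑ g, ∑ n : N, conj (l n : ℂ) * (χ.1 (g * n) * conj (χ.1 g)) =
        (∑ g, χ.1 g * conj (χ.1 g)) * ∑ n : N, (f.toHomUnits n : ℂ) * conj (l n : ℂ) := by
      rw [Finset.sum_mul_sum]
      refine Finset.sum_congr rfl fun g _ => Finset.sum_congr rfl fun n _ => ?_
      rw [hm, hf]; ring
    have e3 : ∑ g, χ.1 g * conj (χ.1 g) = Nat.card G := by
      simp only [Complex.mul_conj']
      exact_mod_cast sum_norm_sq_of_irr χ.2
    rw [e1, e2, e3, sum_lin_mul_conj]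
    by_cases h : f.toHomUnits = l
    · simp only [h, if_true, h0, ne_eq, not_false_eq_true]; field_simp
    · simp [h]
  have sp : ∀ g : G, ∑ n : N, conj (l n : ℂ) * classInd g (g * n) = if Sp g then 1 else 0 := by
    intro g
    split_ifs with h
    · rw [Finset.sum_eq_single 1]
      · simp [classInd_of_isConj (IsConj.refl g)]
      · intro n _ hn
        rw [classInd_of_not_isConj, mul_zero]
        intro hcj
        obtain ⟨y, hy⟩ := isConj_iff.1 hcj
        have e1 : y⁻¹⁻¹ * g⁻¹ * y⁻¹ * g = (n : G)⁻¹ := by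
          calc _ = (y * g * y⁻¹)⁻¹ * g := by group
            _ = _ := by rw [hy]; group
        have e2 := h y⁻¹ (e1 ▸ inv_mem n.2)
        rw [mul_assoc, ← e2, mul_inv_cancel_left, left_eq_mul] at hy
        exact hn (Subtype.ext hy)
      · simp
    · simp only [Sp, not_forall] at h
      obtain ⟨x, hx, hx'⟩ := h
      set m : N := ⟨_, hx⟩ with hm
      have hm1 : (l m : ℂ) ≠ 1 := fun h => hx' (by
        have := congrArg Subtype.val (hfaith m (by rw [h1, hl]; exact h))
        simp only [hm, OneMemClass.coe_one] at this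
        calc x * g = g * x * (x⁻¹ * g⁻¹ * x * g) := by group
          _ = _ := by rw [this, mul_one])
      have e1 : ∑ n : N, conj (l n : ℂ) * classInd g (g * n) =
          ∑ n : N, conj (l (n * m) : ℂ) * classInd g (g * (n * m : N)) :=
        (Fintype.sum_equiv (Equiv.mulRight m) _ _ fun _ => rfl).symm
      have e2 : ∀ n : N, classInd g (g * (n * m : N)) = classInd g (g * n) := by
        intro n
        have : IsConj (g * (n * m : N)) (g * n) := isConj_iff.2 ⟨x⁻¹, by
          have a1 := hz _ (n * m).2 x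
          have a2 := hz _ n.2 (x⁻¹ * g * x)
          have a3 := hz _ m.2 (x⁻¹ * g * x)
          calc _ = x⁻¹ * g * (((n * m : N) : G) * x) := by group
            _ = (x⁻¹ * g * x * n) * m := by rw [← a1, coe_mul]; group
            _ = n * (x⁻¹ * g * x * m) := by rw [a2]; group
            _ = n * g := by simp only [hm]; group
            _ = _ := (hz _ n.2 g).symm⟩
        by_cases h : IsConj g (g * n)
        · rw [classInd_of_isConj h, classInd_of_isConj (h.trans this.symm)]
        · rw [classInd_of_not_isConj h, classInd_of_not_isConj fun h' => h (h'.trans this)]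
      simp only [e2, map_mul, Units.val_mul, mul_right_comm _ (conj (l m : ℂ)),
        ← Finset.sum_mul] at e1
      by_contra hne
      apply hm1
      have := mul_left_cancel₀ hne ((mul_one _).trans e1)
      rw [← Complex.conj_conj (l m : ℂ), ← this, map_one]
  have spN : ∀ g, ∀ n ∈ N, Sp g → Sp (g * n) := by
    intro g n hn h x hx
    have e1 : x⁻¹ * (g * n)⁻¹ * x * (g * n) = x⁻¹ * g⁻¹ * x * g := by
      have a1 := hz _ hn (g⁻¹ * x * g)
      calc _ = x⁻¹ * n⁻¹ * (g⁻¹ * x * g * n) := by group
        _ = _ := by rw [a1]; group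
    rw [← mul_assoc, h x (e1 ▸ hx), mul_assoc, hz _ hn x, mul_assoc]
  have spC : ∀ g y, Sp g → Sp (y * g * y⁻¹) := by
    intro g y h x hx
    have := h (y⁻¹ * x * y) (by
      have := ‹N.Normal›.conj_mem _ hx y⁻¹
      convert this using 1; group)
    calc _ = y * (y⁻¹ * x * y * g) * y⁻¹ := by group
      _ = _ := by rw [this]; group
  let P : ConjClasses (G ⧸ N) → Prop := fun C => ∃ g : G, ConjClasses.mk (g : G ⧸ N) = C ∧ Sp g
  have hP : ∀ g : G, P (ConjClasses.mk (g : G ⧸ N)) ↔ Sp g := by
    refine fun g => ⟨?_, fun h => ⟨g, rfl, h⟩⟩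
    rintro ⟨a, ha, h⟩
    obtain ⟨y, hy⟩ := isConj_iff.1 (ConjClasses.mk_eq_mk_iff_isConj.1 ha)
    induction y using QuotientGroup.induction_on with
    | H y =>
    rw [← QuotientGroup.mk_inv, ← QuotientGroup.mk_mul, ← QuotientGroup.mk_mul,
      QuotientGroup.eq] at hy
    have := spN _ _ hy (spC a y h)
    rwa [mul_inv_cancel_left] at this
  have hC : ∀ g : G, Sp g → (Nat.card (centralizer ({g} : Set G)) : ℂ) =
      Nat.card N * Nat.card (centralizer ({(g : G ⧸ N)} : Set (G ⧸ N))) := by
    intro g h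
    have e1 : (centralizer ({(g : G ⧸ N)} : Set (G ⧸ N))).comap (QuotientGroup.mk' N) =
        centralizer {g} := by
      ext x
      simp only [mem_comap, mem_centralizer_singleton_iff, QuotientGroup.mk'_apply,
        ← QuotientGroup.mk_mul]
      refine ⟨fun hx => h x ?_, fun hx => by rw [hx]⟩
      simpa [mul_assoc] using QuotientGroup.eq.1 hx.symm
    have e2 := index_comap_of_surjective (centralizer ({(g : G ⧸ N)} : Set (G ⧸ N)))
      (QuotientGroup.mk'_surjective N)
    rw [e1] at e2
    have e3 := card_mul_index (centralizer ({g} : Set G))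
    rw [card_eq_card_quotient_mul_card_subgroup N,
      ← card_mul_index (centralizer ({(g : G ⧸ N)} : Set (G ⧸ N))), ← e2, mul_right_comm] at e3
    rw [Nat.eq_of_mul_eq_mul_right (Nat.pos_of_ne_zero index_ne_zero_of_finite) e3]
    push_cast; ring
  apply Nat.cast_injective (R := ℂ)
  have L : (Nat.card {χ : IrrCharacter G // classInner (fun n : N => χ.1 n) ψ.1 ≠ 0} : ℂ) =
      (Nat.card G : ℂ)⁻¹ * (Nat.card N : ℂ)⁻¹ *
        ∑ g, Nat.card (centralizer ({g} : Set G)) * if Sp g then (1 : ℂ) else 0 := by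
    rw [Nat.card_eq_fintype_card, Fintype.card_subtype, Finset.card_filter]
    push_cast
    simp only [ind, ← Finset.mul_sum]
    congr 1
    rw [Finset.sum_comm]
    refine Finset.sum_congr rfl fun g _ => ?_
    rw [Finset.sum_comm, ← sp, Finset.mul_sum]
    refine Finset.sum_congr rfl fun n _ => ?_
    rw [← Finset.mul_sum, column_orthogonality]; ring
  have R := sum_card_centralizer_mul (G := G ⧸ N) fun C => if P C then (1 : ℂ) else 0
  have R2 := sum_eq_card_smul_sum_quotient N (fun g : G =>
    (Nat.card (centralizer ({(g : G ⧸ N)} : Set (G ⧸ N))) : ℂ) *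
      if P (ConjClasses.mk (g : G ⧸ N)) then (1 : ℂ) else 0) (fun g h hh => by
        rw [QuotientGroup.mk_mul, (QuotientGroup.eq_one_iff h).2 hh, mul_one])
  simp only [QuotientGroup.out_eq'] at R2
  rw [R, Finset.sum_boole, ← Fintype.card_subtype, ← Nat.card_eq_fintype_card] at R2
  have R3 : ∑ g, Nat.card (centralizer ({g} : Set G)) * (if Sp g then (1 : ℂ) else 0) =
      Nat.card N * ∑ g : G, (Nat.card (centralizer ({(g : G ⧸ N)} : Set (G ⧸ N))) : ℂ) *
      if P (ConjClasses.mk (g : G ⧸ N)) then (1 : ℂ) else 0 := by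
    rw [Finset.mul_sum]
    refine Finset.sum_congr rfl fun g _ => ?_
    by_cases h : Sp g
    · rw [if_pos h, if_pos ((hP g).2 h), hC g h]; ring
    · rw [if_neg h, if_neg fun h' => h ((hP g).1 h')]; simp
  rw [L, R3, R2, card_eq_card_quotient_mul_card_subgroup N, nsmul_eq_mul]
  have := natCard_ne_zero (G ⧸ N)
  push_cast
  field_simp
  rfl

end Cfsg.Agent.S4567
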