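import Cfsg.Statements.S4574
import Mathlib
import Cfsg.Agent.H4.Ch1

set_option autoImplicit false
open Cfsg

open Cfsg CfsgH3 CfsgH4 CfsgH1 Function
open scoped ComplexConjugate Pointwise

namespace Cfsg.Agent.S4574

/-- Let χ be an irreducible character of the finite group G, of degree d, and let Z(χ) be the set of elements g with |χ g| = d (the centre of χ). Then χ vanishes on at least (d ^ 2 - 1) · |Z(χ)| elements of G, with equality when every value |χ g| is 0, 1 or d. -/
theorem result {G : Type*} [Group G] [Fintype G] [DecidableEq G] (χ : G → ℂ) (hχ : Cfsg.IsIrrCharacter G χ) : (Cfsg.charDegree χ ^ 2 - 1) * (Finset.univ.filter (fun g : G => ‖χ g‖ = (Cfsg.charDegree χ : ℝ))).card ≤ (Finset.univ.filter (fun g : G => χ g = 0)).card ∧ ((∀ g : G, ‖χ g‖ = 0 ∨ ‖χ g‖ = 1 ∨ ‖χ g‖ = (Cfsg.charDegree χ : ℝ)) → (Cfsg.charDegree χ ^ 2 - 1) * (Finset.univ.filter (fun g : G => ‖χ g‖ = (Cfsg.charDegree χ : ℝ))).card = (Finset.univ.filter (fun g : G => χ g = 0)).card) :=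 by
  classical
  have hc := hχ.isCharacter
  have hd := charDegree_pos hχ
  set d := charDegree χ with hd'
  set Z := Finset.univ.filter fun g : G => ‖χ g‖ = (d : ℝ)
  set V := Finset.univ.filter fun g : G => χ g = 0
  set R := Finset.univ.filter fun g : G => χ g ≠ 0 ∧ ‖χ g‖ ≠ (d : ℝ)
  have hsum : ∀ f : G → ℝ, ∑ g, f g = ∑ g ∈ Z, f g + ∑ g ∈ V, f g + ∑ g ∈ R, f g := fun f => by
    simp only [Z, V, R, Finset.sum_filter, ← Finset.sum_add_distrib]
    refine Finset.sum_congr rfl fun g _ => ?_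
    by_cases h : χ g = 0
    · have : (0 : ℝ) ≠ d := by exact_mod_cast hd.ne
      simp [h, this]
    · by_cases h' : ‖χ g‖ = d <;> simp [h, h']
  have h1 := hsum fun g => ‖χ g‖ ^ 2
  have h2 := hsum fun _ => 1
  rw [sum_norm_sq_of_irr hχ, Finset.sum_congr rfl (g := fun _ => (d : ℝ) ^ 2) fun g hg => by
    rw [(Finset.mem_filter.1 hg).2], Finset.sum_eq_zero (s := V) fun g hg => by
    simp [(Finset.mem_filter.1 hg).2], Nat.card_eq_fintype_card] at h1
  simp only [Finset.sum_const, nsmul_eq_mul, mul_one, Finset.card_univ] at h1 h2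
  have h3 : (((d ^ 2 - 1) * Z.card : ℕ) : ℝ) = (d ^ 2 - 1) * Z.card := by
    rw [Nat.cast_mul, Nat.cast_sub (Nat.one_le_pow _ _ hd)]; simp
  refine ⟨?_, fun h => ?_⟩
  · have := card_le_sum_norm_sq hc.isGen R (fun g hg k hk => by
      simp only [R, Finset.mem_filter, Finset.mem_univ, true_and, hd', ← norm_one_eq hc, ne_eq,
        ← hc.mem_charCenter] at hg ⊢
      exact ⟨pow_ne_zero_of_coprime hc.isGen hg.1 hk, pow_notMem_of_coprime hg.2 hk⟩)
      fun g hg => (Finset.mem_filter.1 hg).2.1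
    rw [← Nat.cast_le (α := ℝ), h3]
    linarith
  · rw [Finset.sum_congr rfl (s₁ := R) (g := fun _ => (1 : ℝ)) fun g hg => by
      obtain ⟨-, a, b⟩ := Finset.mem_filter.1 hg
      rcases h g with e | e | e
      exacts [absurd (norm_eq_zero.1 e) a, by simp [e], absurd e b]] at h1
    simp only [Finset.sum_const, nsmul_eq_mul, mul_one] at h1
    rw [← Nat.cast_inj (R := ℝ), h3]
    linarith

end Cfsg.Agent.S4574
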