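import Cfsg.Statements.S4575
import Mathlib
import Cfsg.Agent.H4.Av

set_option autoImplicit false
open Cfsg

open Cfsg CfsgH4 CfsgH1 CfsgL0 MonoidAlgebra Function
open CfsgH3 hiding cj cj_cj
open scoped ComplexConjugate Pointwise

namespace Cfsg.Agent.S4575

/-- Let B be a 2-block of the finite group G (relative to a maximal ideal M of the algebraic integers containing 2) of defect d with defect group D. Let z be an element of D commuting with every element of D, and let b be a block of the centralizer of z with defect group D that induces B (a major subsection (z, b)). If the number of irreducible characters in B exceeds the 2-regular rank of b by at most three, then B contains at most 2 ^ d irreducible characters. -/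
theorem result {G : Type*} [Group G] [Finite G] (M : Ideal Cfsg.AlgInt) (hM : Cfsg.IsPModular 2 M) (B : Set (Cfsg.IrrCharacter G)) (hB : Cfsg.IsPBlock M B) (D : Subgroup G) (hD : Cfsg.IsDefectGroup 2 M B D) (z : G) (hzD : z ∈ D) (hzc : ∀ d ∈ D, d * z = z * d) (b : Set (Cfsg.IrrCharacter ↥(Subgroup.centralizer ({z} : Set G)))) (hb : Cfsg.IsInducedBlock M (Subgroup.centralizer ({z} : Set G)) b B) (hbD : Cfsg.IsDefectGroup 2 M b (D.subgroupOf (Subgroup.centralizer ({z} : Set G)))) (h : Nat.card B ≤ Cfsg.blockRank 2 b + 3) : Nat.card B ≤ 2 ^ Cfsg.blockDefect 2 B := by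
  classical
  haveI : PMod 2 M := ⟨hM⟩
  have := Fintype.ofFinite (Subgroup.centralizer ({z} : Set G))
  have := Fintype.ofFinite G
  obtain ⟨j, -, hu⟩ := (Nat.dvd_prime_pow Nat.prime_two).1 (hD.card_eq hB ▸ D.orderOf_dvd_natCard hzD)
  have hd : blockDefect 2 b = blockDefect 2 B := by
    rw [← hbD.fact_card hb.1, ← hD.fact_card hB, Nat.card_congr (Subgroup.subgroupOfEquivOfLe
      fun d hd => Subgroup.mem_centralizer_singleton_iff.2 (hzc d hd)).toEquiv]
  obtain ⟨t, s, h1, h2, h3, h4, h5, h6, h7, h8⟩ := hb.exists_av rfl hu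
  have h8 := h8 hd
  rw [hd] at h3 h4 h6 h7
  by_cases h0 : blockDefect 2 B = 0
  · rw [hB.card_eq_one_of_defect h0, h0, pow_zero]
  have h9 : ∀ χ ∈ B, ∀ ψ ∈ B, blockHeight 2 B ψ.1 = 0 → 0 < s χ ψ := fun χ hχ ψ hψ h =>
    lt_of_lt_of_le (by positivity) ((h8 χ hχ).2 ψ hψ h)
  have hq : (0 : ℤ) < 2 ^ blockDefect 2 B := by positivity
  have h10 : ∀ χ, 2 ^ blockDefect 2 B * (2 ^ blockDefect 2 B - t χ) = 4 ^ blockDefect 2 B -
      2 * 2 ^ blockDefect 2 B * t χ + s χ χ + ∑ ψ ∈ Finset.univ.erase χ, s χ ψ := fun χ => by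
    rw [add_assoc, Finset.add_sum_erase _ _ (Finset.mem_univ χ), h3,
      show (4 : ℤ) = 2 * 2 by norm_num, mul_pow]
    ring
  rw [natCard_set_irr] at h ⊢
  zify at h ⊢
  by_cases hc : ∃ χ ∈ B, blockHeight 2 B χ.1 = 0 ∧ 2 ^ blockDefect 2 B - t χ = 1
  · obtain ⟨χ, a1, a2, a3⟩ := hc
    have a0 := h10 χ
    rw [a3, mul_one] at a0
    rw [a0, ← Finset.add_sum_erase _ _ (Finset.mem_univ χ),
      if_pos a1]
    refine add_le_add ((h7 χ a1 a2).2.1 h0) (Finset.sum_le_sum fun ψ _ => ?_)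
    split_ifs with hψ
    exacts [h2 ψ χ ▸ h9 ψ hψ χ a1 a2, h1 χ ψ]
  push Not at hc
  obtain ⟨ξ, a1, a2⟩ := exists_height_zero (p := 2) hB.nonempty
  have a3 : ∑ χ : IrrCharacter G, (if χ ∈ B then (1 : ℤ) else 0) * 3 ≤
      ∑ χ, ((if χ ∈ B then 1 else 0) * 2 ^ blockDefect 2 B - t χ) := by
    refine Finset.sum_le_sum fun χ _ => ?_
    split_ifs with hχ
    swap
    · simp [h5 χ hχ]
    obtain ⟨d, hd⟩ := Nat.exists_eq_succ_of_ne_zero h0
    by_cases a4 : blockHeight 2 B χ.1 = 0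
    · have a5 := nonneg_of_mul_nonneg_right (h10 χ ▸ add_nonneg (h6 χ)
        (Finset.sum_nonneg fun ψ _ => h1 χ ψ)) hq
      obtain ⟨m, hm⟩ := (h7 χ hχ a4).1
      have := hc χ hχ a4
      rw [hd, pow_succ] at *
      omega
    have a5 := h9 χ hχ ξ a1 a2
    have a6 : 0 < 2 ^ blockDefect 2 B - t χ := pos_of_mul_pos_left ((mul_comm _ _).trans (h10 χ) ▸
      add_pos_of_nonneg_of_pos (h6 χ) (a5.trans_le (Finset.single_le_sum (fun ψ _ => h1 χ ψ)
      (Finset.mem_erase.2 ⟨fun h => a4 (h ▸ a2), Finset.mem_univ ξ⟩)))) hq.le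
    have a7 : 0 < t χ := pos_of_mul_pos_left ((a5.trans_le (Finset.single_le_sum (fun ψ _ => h1 χ ψ)
      (Finset.mem_univ ξ))).trans_eq ((h3 χ).trans (mul_comm _ _))) hq.le
    obtain ⟨m, hm⟩ := (pow_dvd_pow 2 (show 2 ≤ _ by omega)).trans ((h8 χ hχ).1 a4)
    rcases d with _ | d
    · simp only [hd] at a6
      omega
    · rw [hd, pow_succ, pow_succ] at a6 ⊢
      omega
  rw [Finset.sum_sub_distrib, h4, ← Finset.sum_mul, ← Finset.sum_mul] at a3
  nlinarith

end Cfsg.Agent.S4575
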