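import Cfsg.Statements.S4580
import Mathlib
import Cfsg.Agent.H4.Real
import Cfsg.Agent.H4.Ext2

set_option autoImplicit false
open Cfsg

open Cfsg CfsgH4 CfsgH1 CfsgL0 MonoidAlgebra Function
open CfsgH3 hiding cj cj_cj
open scoped ComplexConjugate Pointwise

namespace Cfsg.Agent.S4580

/-- Let N be a normal subgroup of the finite group G, M a maximal ideal of the algebraic integers containing 2, and θ a real-valued irreducible character of N of odd degree that extends to G (some irreducible character of G restricts to θ). Then θ has an extension to G lying in the principal 2-block of G. -/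
theorem result {G : Type*} [Group G] [Finite G] (N : Subgroup G) [N.Normal] (M : Ideal Cfsg.AlgInt) (hM : Cfsg.IsPModular 2 M) (θ : Cfsg.IrrCharacter N) (hreal : ∀ n : N, ((θ : N → ℂ) n).im = 0) (hodd : Odd (Cfsg.charDegree (θ : N → ℂ))) (hext : ∃ η : Cfsg.IrrCharacter G, ∀ n : N, (η : G → ℂ) n = (θ : N → ℂ) n) :
    ∃ η : Cfsg.IrrCharacter G, (∀ n : N, (η : G → ℂ) n = (θ : N → ℂ) n) ∧ η ∈ Cfsg.principalBlock M G := by
  haveI : PMod 2 M := ⟨hM⟩
  obtain ⟨η, hη⟩ := hext
  obtain ⟨l, h1, h2⟩ := exists_lin_of_ext θ.2 η.2 η.2.conj hη fun n => by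
    rw [hη]; exact Complex.conj_eq_iff_im.2 (hreal n)
  obtain ⟨k, hk⟩ : ∃ k, (rpart 2 l ^ k) ^ 2 = rpart 2 l := by
    obtain ⟨k, hk⟩ := Nat.not_even_iff_odd.1 (mt even_iff_two_dvd.1 (reg_rpart 2 l))
    exact ⟨k + 1, by rw [← pow_mul, show (k + 1) * 2 = 2 * k + 1 + 1 by ring, ← hk, pow_succ, pow_orderOf_eq_one, one_mul]⟩
  have a : ∀ m ∈ Subgroup.zpowers l, ∀ g, l g = 1 → m g = 1 := by
    rintro _ ⟨j, rfl⟩ g hg; simp [hg]
  have b := fun n : N => a _ (pow_mem (rpart_mem_zpowers 2 l) k) n (h1 n n.2)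
  refine ⟨⟨_, isIrr_lin_mul η.2 (rpart 2 l ^ k)⟩, fun n => by simp only [b, hη]; simp,
    mem_principal_of_real (fun g hg => ?_) ?_⟩
  · have c : ppart 2 l g = 1 := by
      obtain ⟨j, hj⟩ := pelt_ppart 2 l
      rw [← orderOf_eq_one_iff]
      exact Nat.eq_one_of_dvd_coprimes (((Nat.Prime.coprime_iff_not_dvd Nat.prime_two).2 hg).pow_left j)
        (orderOf_dvd_of_pow_eq_one (by rw [← MonoidHom.pow_apply, ← hj, pow_orderOf_eq_one]; rfl))
        (orderOf_map_dvd _ g)
    have d : l g = (rpart 2 l ^ k) g ^ 2 := by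
      rw [← MonoidHom.pow_apply, hk, ← one_mul (rpart 2 l g), ← c, ← MonoidHom.mul_apply, ppart_mul_rpart]
    have e := congrFun h2 g
    simp only [η.2.isCharacter.apply_inv, map_inv, e, d] at e ⊢
    push_cast; field_simp
  · simpa [charDegree, ← hη 1] using hodd

end Cfsg.Agent.S4580
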