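import Cfsg.Statements.S4581
import Cfsg.Agent.H3.Ro

set_option autoImplicit false
open Cfsg

open Cfsg CfsgH3 CfsgH4 CfsgH1 CfsgRg CfsgRo Function
open CfsgH2 hiding cj cj_apply isPGroup_pCore le_pCore isNilpotent_map card_mul_relIndex
open scoped CfsgH2 ComplexConjugate

namespace Cfsg.Agent.S4581

/-- Let G be a finite solvable group, P a Sylow 2-subgroup and N its normalizer. Then G and N have the same number of real-valued irreducible characters of odd degree; and every odd-degree irreducible character of G is real-valued exactly when the derived subgroup of P equals the Frattini subgroup of P and P is its own normalizer in G. -/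
theorem result {G : Type*} [Group G] [Finite G] [Group.IsSolvable G] (P : Sylow 2 G) :
    Nat.card {χ : Cfsg.IrrCharacter G // (∀ g : G, ((χ : G → ℂ) g).im = 0) ∧ Odd (Cfsg.charDegree (χ : G → ℂ))} =
      Nat.card {ψ : Cfsg.IrrCharacter (Subgroup.normalizer ((P : Subgroup G) : Set G)) // (∀ g, ((ψ : Subgroup.normalizer ((P : Subgroup G) : Set G) → ℂ) g).im = 0) ∧ Odd (Cfsg.charDegree (ψ : Subgroup.normalizer ((P : Subgroup G) : Set G) → ℂ))} ∧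
    ((∀ χ : Cfsg.IrrCharacter G, Odd (Cfsg.charDegree (χ : G → ℂ)) → ∀ g : G, ((χ : G → ℂ) g).im = 0) ↔
      (commutator (P : Subgroup G) = frattini (P : Subgroup G) ∧ Subgroup.normalizer ((P : Subgroup G) : Set G) = (P : Subgroup G))) := by
  have s := syl_top P
  have s' := s.mono Subgroup.le_normalizer le_top
  have o := Nat.odd_iff.2 (Nat.two_dvd_ne_zero.1 s.nd)
  have o' := Nat.odd_iff.2 (Nat.two_dvd_ne_zero.1 s'.nd)
  have up : ∀ {b} {χ : G → ℂ}, Gd b χ → Gd b fun x : (⊤ : Subgroup G) => χ x := fun a =>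
    Gd.comp (⊤ : Subgroup G).subtype (fun x => ⟨⟨x, trivial⟩, rfl⟩) a
  have dn : ∀ {b} {χ : (⊤ : Subgroup G) → ℂ}, Gd b χ → Gd b fun x : G => χ ⟨x, trivial⟩ := fun a =>
    Gd.comp (Subgroup.topEquiv (G := G)).symm.toMonoidHom (fun x => ⟨x, rfl⟩) a
  have ex : ∀ {χ χ' : G → ℂ}, (fun x : (⊤ : Subgroup G) => χ x) = (fun x : (⊤ : Subgroup G) => χ' x) →
      χ = χ' := fun e => funext fun x => congrFun e ⟨x, trivial⟩
  refine ⟨?_, fun h => ?_, fun ⟨h1, h2⟩ χ h3 => ?_⟩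
  · have A := main (b := True) _ G ⊤ P s rfl inferInstance (.inl trivial)
    have B := main (b := True) _ G _ P s' rfl inferInstance (.inl trivial)
    refine card_eq_of_rel (fun χ ψ => ∃ μ, Gd True μ ∧
      Om le_top (fun x : (⊤ : Subgroup G) => χ.1.1 x) μ ∧ Om s'.le ψ.1.1 μ)
      (fun χ => ?_) (fun ψ => ?_) ?_ ?_
    · obtain ⟨μ, a1, a2⟩ := exists_down s.le (up (b := True) ⟨χ.1.2, χ.2.2, fun _ => χ.2.1⟩)
      obtain ⟨ψ, a3, a4⟩ := exists_up s'.le o' a1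
      exact ⟨⟨⟨ψ, a3.1⟩, a3.2.2 trivial, a3.2.1⟩, μ, a1, a2, a4⟩
    · obtain ⟨μ, a1, a2⟩ := exists_down (b := True) s'.le ⟨ψ.1.2, ψ.2.2, fun _ => ψ.2.1⟩
      obtain ⟨χ, a3, a4⟩ := exists_up s.le o a1
      exact ⟨⟨⟨_, (dn a3).1⟩, (dn a3).2.2 trivial, (dn a3).2.1⟩, μ, a1, a4, a2⟩
    · rintro χ χ' ψ ⟨μ, a1, a2, a3⟩ ⟨μ', a4, a5, a6⟩
      have b1 : Gd True ψ.1.1 := ⟨ψ.1.2, ψ.2.2, fun _ => ψ.2.1⟩
      have b2 := up (b := True) ⟨χ.1.2, χ.2.2, fun _ => χ.2.1⟩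
      obtain ⟨-, n, -, b3, rfl⟩ := B _ _ _ _ b1 b1 a1 a4 a3 a6 (.inl rfl)
      exact Subtype.ext (Subtype.ext (ex (A _ _ _ _ b2 (up ⟨χ'.1.2, χ'.2.2, fun _ => χ'.2.1⟩) a4 a4
        (a2.cA b2.1.isClassFunction trivial b3) a5 (.inr rfl)).1))
    · rintro χ ψ ψ' ⟨μ, a1, a2, a3⟩ ⟨μ', a4, a5, a6⟩
      have b2 := up (b := True) ⟨χ.1.2, χ.2.2, fun _ => χ.2.1⟩
      obtain ⟨-, n, -, b3, rfl⟩ := A _ _ _ _ b2 b2 a1 a4 a2 a5 (.inl rfl)
      exact Subtype.ext (Subtype.ext (B _ _ _ _ ⟨ψ.1.2, ψ.2.2, fun _ => ψ.2.1⟩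
        ⟨ψ'.1.2, ψ'.2.2, fun _ => ψ'.2.1⟩ a4 a4 (a3.cA ψ.1.2.isClassFunction b3 b3) a6 (.inr rfl)).1)
  · have h1 := selfnorm _ G ⊤ P s rfl inferInstance fun χ a g => h ⟨_, (dn a).1⟩ (dn a).2.1 g
    refine ⟨(real_iff s.pg).1 fun μ a1 => conj_eq_self_iff.1 ?_,
      le_antisymm (by simpa using h1) s'.le⟩
    obtain ⟨χ, a2, m, a3, a4⟩ := exists_up s.le o a1
    have a5 : Gd False fun g => conj (μ g) := ⟨a1.1.conj, deg_congr a1.1.conj.isCharacter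
      a1.1.isCharacter (by simp [a1.lin s.pg]) ▸ a1.2.1, False.elim⟩
    obtain ⟨-, n, -, b3, b4⟩ := main _ G ⊤ P s rfl inferInstance (.inr h1) _ _ _ _ a2 a2 a1 a5
      ⟨m, a3, a4⟩ ⟨m, by
        rw [← a3, (a2.1.isCharacter.resLE _).classInner_comm a1.1.isCharacter,
          ← classInner_conj_conj (resLE s.le χ) μ,
          (conj_eq_self_iff (χ := resLE s.le χ)).2 fun g => h ⟨_, (dn a2).1⟩ (dn a2).2.1 g.1], a4⟩ (.inl rfl)
    exact b4.trans (le_aI_self a1.1.isClassFunction (h1 ⟨trivial, b3⟩)).2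
  · have a := up (b := False) ⟨χ.2, h3, False.elim⟩
    obtain ⟨μ, a1, m, a2, a3⟩ := exists_down s.le a
    have a4 := (real_iff s.pg).2 h1 μ a1
    refine conj_eq_self_iff.1 (ex (main _ G ⊤ P s rfl inferInstance (.inr (inf_le_right.trans h2.le))
      _ _ _ _ (up ⟨χ.2.conj, deg_congr χ.2.conj.isCharacter χ.2.isCharacter (by
        simp [← coe_charDegree χ.2.isCharacter]) ▸ h3, False.elim⟩) a a1 a1 ⟨m, ?_, a3⟩ ⟨m, a2, a3⟩
      (.inr rfl)).1)
    rw [← a2, (a.1.isCharacter.resLE _).classInner_comm a1.1.isCharacter,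
      ← classInner_conj_conj (resLE s.le fun x => χ.1 x) μ, conj_eq_self_iff.2 a4]
    rfl


end Cfsg.Agent.S4581
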