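import Cfsg.Statements.S4582
import Cfsg.Agent.H2.Misc

set_option autoImplicit false
open Cfsg

open Cfsg CfsgH2 Function Subgroup

namespace Cfsg.Agent.S4582
theorem key {G : Type*} [Group G] [Finite G] (N : Subgroup G) [hN : N.Normal] {P : Subgroup G} (hs : Syl 2 P ⊤)
    (hP : ∀ x ∈ P, x ^ 2 ∈ (P ⊓ N) ⊔ ⁅P, P⁆) (hQ : ∀ x ∈ P ⊓ N, x ^ 2 ∈ ⁅P ⊓ N, P ⊓ N⁆)
    (hodd : Odd (Nat.card (Abelianization N))) : ∀ x ∈ P, x ^ 2 ∈ ⁅P, P⁆ := by
  haveI : Fact (Nat.Prime 2) := ⟨Nat.prime_two⟩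
  have h1 : ∀ z : P, Abelianization.of z = 1 ↔ z.1 ∈ ⁅P, P⁆ := fun z => by
    rw [← MonoidHom.mem_ker, Abelianization.ker_of, ← map_subtype_commutator]
    exact (mem_map_iff_mem P.subtype_injective).symm
  have h2 : ∀ (a : Abelianization P) (n : ℕ), Odd n → a ^ n = 1 → a = 1 := fun a n hn h => by
    obtain ⟨k, hk⟩ := (hs.pg.to_quotient (commutator P)) a
    exact orderOf_eq_one_iff.1 (Nat.eq_one_of_dvd_coprimes (Nat.Coprime.pow_right k (Nat.coprime_two_right.2 hn))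
      (orderOf_dvd_of_pow_eq_one h) (orderOf_dvd_of_pow_eq_one hk))
  let φ : P.subgroupOf (P ⊔ N) →* Abelianization P := Abelianization.of.comp (subgroupOfEquivOfLe le_sup_left).toMonoidHom
  have a : P ⊓ N ⊔ ⁅P, P⁆ ≤ φ.transfer.ker.map (P ⊔ N).subtype := by
    refine sup_le (fun n hn => ⟨⟨n, mem_sup_right hn.2⟩, h2 _ _ hodd ?_, rfl⟩) ((commutator_mono (K₁ := P ⊔ N) (K₂ := P ⊔ N) le_sup_left le_sup_left).trans ?_)
    · have := congrArg (Abelianization.lift (φ.transfer.comp (inclusion le_sup_right)))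
        (pow_card_eq_one' (x := Abelianization.of (⟨n, hn.2⟩ : N)))
      rwa [map_pow, map_one] at this
    · rw [← map_subtype_commutator]
      exact map_mono (Abelianization.commutator_subset_ker _)
  intro x hx
  have b := transfer_eq_pow' ((powMonoidHom 2).comp φ) ⟨x, mem_sup_left hx⟩ (Abelianization.of ⟨x, hx⟩ ^ 2) fun k g h => by
    obtain ⟨y, hy, n, hn, e⟩ := mem_sup_of_normal_right.1 g.2
    have hu : y⁻¹ * x ^ k * y ∈ P := mul_mem (mul_mem (inv_mem hy) (pow_mem hx k)) hy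
    have hw : (g : G)⁻¹ * x ^ k * g ∈ P := h
    have hq : (y⁻¹ * x ^ k * y)⁻¹ * ((g : G)⁻¹ * x ^ k * g) ∈ P ⊓ N := mem_inf.2 ⟨mul_mem (inv_mem hu) hw, by
      have := mul_mem (hN.conj_mem' _ (inv_mem hn) (y⁻¹ * x ^ k * y)) hn
      rw [← e]
      simpa [mul_assoc] using this⟩
    have c := (h1 (⟨_, hq.1⟩ ^ 2)).2 (commutator_mono inf_le_left inf_le_left (hQ _ hq))
    rw [map_pow, show (⟨_, hq.1⟩ : P) = ((⟨y, hy⟩ : P)⁻¹ * ⟨x, hx⟩ ^ k * ⟨y, hy⟩)⁻¹ * ⟨_, hw⟩ from rfl, map_mul, map_inv,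
      mul_pow, inv_pow, inv_mul_eq_one, map_mul, map_mul, map_inv, inv_mul_cancel_comm, map_pow, pow_right_comm] at c
    exact c.symm
  have c : ((powMonoidHom 2).comp φ).transfer ⟨x, mem_sup_left hx⟩ = φ.transfer ⟨x, mem_sup_left hx⟩ ^ 2 := by
    classical
    let := (P.subgroupOf (P ⊔ N)).fintypeQuotientOfFiniteIndex
    simp only [MonoidHom.transfer_eq_prod_quotient_orbitRel_zpowers_quot, ← Finset.prod_pow]
    rfl
  obtain ⟨z, hz, e⟩ := a (hP x hx)
  rw [c, ← map_pow, show (⟨x, mem_sup_left hx⟩ : ↥(P ⊔ N)) ^ 2 = z from Subtype.ext e.symm, hz] at b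
  exact (h1 (⟨x, hx⟩ ^ 2)).1 ((map_pow _ _ _).trans (h2 _ _
    (Nat.odd_iff.2 (Nat.two_dvd_ne_zero.1 (hs.mono le_sup_left le_top).nd)) b.symm))

/-- Let N be a normal subgroup of the finite group G, P a Sylow 2-subgroup of G and Q = P ∩ N. Suppose that P/QP' and Q/Q' are elementary abelian (every square of an element of P lies in the subgroup generated by Q and the derived subgroup of P, and every square of an element of Q lies in the derived subgroup of Q), and that the commutator factor group N/N' has odd order. Then P/P' is elementary abelian. -/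
theorem result {G : Type*} [Group G] [Finite G] (N : Subgroup G) [N.Normal] (P : Sylow 2 G)
    (hP : ∀ x ∈ (P : Subgroup G), x ^ 2 ∈ ((P : Subgroup G) ⊓ N) ⊔ ⁅(P : Subgroup G), (P : Subgroup G)⁆)
    (hQ : ∀ x ∈ (P : Subgroup G) ⊓ N, x ^ 2 ∈ ⁅(P : Subgroup G) ⊓ N, (P : Subgroup G) ⊓ N⁆)
    (hodd : Odd (Nat.card (Abelianization N))) :
    ∀ x ∈ (P : Subgroup G), x ^ 2 ∈ ⁅(P : Subgroup G), (P : Subgroup G)⁆ := by
  haveI : Fact (Nat.Prime 2) := ⟨Nat.prime_two⟩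
  exact key N (syl_top P) hP hQ hodd


end Cfsg.Agent.S4582
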