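import Cfsg.Statements.S4583
import Mathlib
import Cfsg.Agent.H4.P0

set_option autoImplicit false
open Cfsg

open Cfsg CfsgH4 CfsgH1 CfsgL0 MonoidAlgebra Function
open CfsgH3 hiding cj cj_cj
open scoped ComplexConjugate Pointwise

namespace Cfsg.Agent.S4583

/-- Let N be a normal subgroup of the finite group G, p a prime, M a maximal ideal of the algebraic integers containing p, and P a Sylow p-subgroup of G. Let θ be an irreducible character of N of degree prime to p lying in the principal p-block of N, and suppose θ extends to the subgroup NP (some irreducible character of NP restricts to θ). Then some irreducible character χ of G of degree prime to p in the principal p-block of G lies over θ (θ is a constituent of the restriction of χ to N). -/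
theorem result {G : Type*} [Group G] [Finite G] (N : Subgroup G) [N.Normal] (p : ℕ) [Fact p.Prime] (M : Ideal Cfsg.AlgInt) (hM : Cfsg.IsPModular p M) (P : Sylow p G)
    (θ : Cfsg.IrrCharacter N) (hθ : θ ∈ Cfsg.principalBlock M N) (hdeg : ¬ p ∣ Cfsg.charDegree (θ : N → ℂ))
    (hext : ∃ η : Cfsg.IrrCharacter ↥(N ⊔ (P : Subgroup G)), ∀ n : N, (η : ↥(N ⊔ (P : Subgroup G)) → ℂ) (Subgroup.inclusion le_sup_left n) = (θ : N → ℂ) n) :
    ∃ χ : Cfsg.IrrCharacter G, χ ∈ Cfsg.principalBlock M G ∧ ¬ p ∣ Cfsg.charDegree (χ : G → ℂ) ∧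
      haveI := Fintype.ofFinite N; Cfsg.classInner (fun n : N => (χ : G → ℂ) n) (θ : N → ℂ) ≠ 0 := by
  haveI : PMod p M := ⟨hM⟩
  letI := Fintype.ofFinite N
  obtain ⟨η, hη⟩ := hext
  have hN : N ≤ N ⊔ (P : Subgroup G) := le_sup_left
  obtain ⟨θ', hθ'⟩ : ∃ θ' : IrrCharacter (N.subgroupOf (N ⊔ (P : Subgroup G))), θ'.1 = subOf _ θ.1 :=
    ⟨⟨_, (isIrr_subOf_iff hN).2 θ.2⟩, rfl⟩
  have h1 : Over (N.subgroupOf (N ⊔ (P : Subgroup G))).subtype η.1 θ'.1 :=
    over_of_res fun n => by rw [hθ']; exact hη ⟨n, n.2⟩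
  have h2 : θ' ∈ principalBlock M _ := by
    rw [← principal_comap (φ := (Subgroup.subgroupOfEquivOfLe hN).toMonoidHom)
      (MulEquiv.bijective _), Set.mem_preimage] at hθ
    convert hθ
    exact Subtype.ext hθ'
  obtain ⟨χ, h3, h4, h5⟩ := exists_principal_over (fun h => P.not_dvd_index
    (h.trans (Subgroup.index_dvd_of_le le_sup_right))) (h1.mem_principal_of_index
      (exists_index_eq_pow_of_sup (P := (P : Subgroup G).subgroupOf _) (P.isPGroup'.comap_subtype)
        (by rw [sup_comm, ← Subgroup.subgroupOf_sup le_sup_left le_sup_right]; simp)) h2)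
    (by rwa [charDegree_eq (n := charDegree θ.1) (by
      rw [coe_charDegree θ.2.isCharacter, ← hη, map_one])])
  rw [hθ', over_subOf_iff hN] at h1
  have h6 := h5.trans χ.2.isCharacter θ.2.isCharacter h1
  rw [Subgroup.subtype_comp_inclusion] at h6
  exact ⟨χ, h3, h4, over_subtype_iff.1 h6⟩

end Cfsg.Agent.S4583
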