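import Cfsg.Statements.S4585
import Cfsg.Agent.H2.MaxCl3

set_option autoImplicit false
open Cfsg

namespace Cfsg.Agent.S4585
open CfsgH2

/-- Let p be a prime and P a group of order p^4. Then P' has index p^2 in P if and only if P has maximal nilpotency class, that is, nilpotency class exactly 3. -/
theorem result {P : Type*} [Group P] [Finite P] (p : ℕ) [Fact p.Prime] (hP : Nat.card P = p ^ 4) :
    (commutator P).index = p ^ 2 ↔ Group.nilpotencyClass P = 3 := by
  open Subgroup Function in open scoped commutatorElement in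
  have hp : p.Prime := Fact.out
  have hn : Nat.card (⊤ : Subgroup P) = p ^ (1 + 3) := by rwa [card_top]
  have hG := isPGroup_of_card hn
  haveI : Group.IsNilpotent P := (isPGroup_top_iff.1 hG).isNilpotent
  have h3 : (⊤ : Subgroup P).lowerCentralSeries (2 + 1) = ⊥ := by
    by_contra e
    have := le_of_lcs_ne_bot hG hn e
    omega
  rw [Subgroup.lowerCentralSeries_eq_bot_iff_nilpotencyClass_le] at h3
  constructor
  · intro hi
    by_contra hc
    have h2 : ⁅⁅(⊤ : Subgroup P), ⊤⁆, (⊤ : Subgroup P)⁆ = ⊥ :=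
      (Subgroup.lowerCentralSeries_eq_bot_iff_nilpotencyClass_le (n := 2)).2 (by omega)
    rw [comm_eq_bot_iff] at h2
    have hi' : (⁅(⊤ : Subgroup P), ⊤⁆ : Subgroup P).relIndex ⊤ = p ^ 2 := by
      rw [relIndex_top_right]; exact hi
    have hd : Nat.card (⁅(⊤ : Subgroup P), ⊤⁆ : Subgroup P) = p ^ 2 := by
      have := card_mul_relIndex (le_top : (⁅(⊤ : Subgroup P), ⊤⁆ : Subgroup P) ≤ ⊤)
      rw [hi', hn, show 1 + 3 = 2 + 2 by rfl, pow_add] at this
      exact Nat.eq_of_mul_eq_mul_right (pow_pos hp.pos _) this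
    obtain ⟨C, c1, -, c2, c3⟩ := exists_maximal_sub hG (K := ⁅(⊤ : Subgroup P), ⊤⁆)
      (lt_of_le_of_ne le_top fun e => by
        rw [e, relIndex_self] at hi'; exact (Nat.one_lt_pow two_ne_zero hp.one_lt).ne hi')
    have c4 : (⁅(⊤ : Subgroup P), ⊤⁆ : Subgroup P).relIndex C = p := by
      have := relIndex_mul_relIndex _ _ _ c1 (le_top : C ≤ ⊤)
      rw [c3, hi', pow_two] at this
      exact Nat.eq_of_mul_eq_mul_right hp.pos this
    have hN : ∀ K : Subgroup P, K ≤ N[(⁅(⊤ : Subgroup P), ⊤⁆ : Subgroup P)] :=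
      fun K => le_top.trans le_norm_comm_left
    obtain ⟨c, -, hs⟩ := exists_sup_zpowers_of_cyclic_qt (hN C) c1
      (isCyclic_of_card_prime hp ((card_qt (hN C)).trans c4))
    obtain ⟨b, -, hb⟩ := exists_sup_zpowers_of_cyclic_qt c2 le_top
      (isCyclic_of_card_prime hp ((card_qt c2).trans c3))
    have hw : ⁅c, b⁆ ∈ C[(⊤ : Subgroup P)] := h2 (commutator_mem_commutator (mem_top c) (mem_top b))
    have n1 : ∀ K : Subgroup P, K ≤ N[zpowers ⁅c, b⁆] := fun K => le_top.trans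
      ((le_centralizer_iff.1 (zpowers_le.2 hw)).trans (cent_le_norm _))
    have z1 : ∀ K : Subgroup P, ⁅⁅(⊤ : Subgroup P), ⊤⁆, K⁆ ≤ zpowers ⁅c, b⁆ := fun K => by
      rw [comm_eq_bot_iff.2 (h2.trans (cent_anti le_top))]; exact bot_le
    have z2 : ∀ x : P, ⁅zpowers x, zpowers x⁆ ≤ zpowers ⁅c, b⁆ := fun x => by
      rw [comm_self_eq_bot_iff.2 inferInstance]; exact bot_le
    have z3 := comm_zpowers_le (n1 ⊤ (mem_top c)) (n1 ⊤ (mem_top b)) (mem_zpowers _)
    have h4 : ⁅(⊤ : Subgroup P), ⊤⁆ ≤ zpowers ⁅c, b⁆ := by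
      have e : ⁅(⊤ : Subgroup P), ⊤⁆ ⊔ zpowers c ⊔ zpowers b = ⊤ := by rw [hs, hb]
      conv_lhs => rw [← e]
      refine CfsgH1.commutator_sup_le (n1 _) (n1 _) (CfsgH1.commutator_sup_le (n1 _) (n1 _) (z1 _) ?_) ?_
      · exact CfsgH1.commutator_sup_le' (n1 _) (n1 _) (CfsgH1.commutator_sup_le' (n1 _) (n1 _)
          (commutator_comm _ (zpowers c) ▸ z1 _) (z2 _)) z3
      · exact CfsgH1.commutator_sup_le' (n1 _) (n1 _) (CfsgH1.commutator_sup_le' (n1 _) (n1 _)
          (commutator_comm _ (zpowers b) ▸ z1 _) (commutator_comm _ (zpowers b) ▸ z3)) (z2 _)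
    have h5 : ⁅c, b⁆ ^ p = 1 := by
      rw [← commutator_pow_left (commute_of_mem_cent hw (mem_top c)),
        commutatorElement_eq_one_iff_mul_comm]
      have : c ^ p ∈ ⁅(⊤ : Subgroup P), ⊤⁆ := c4 ▸ pow_relIndex_mem' (hN C)
        (hs ▸ mem_sup_right (mem_zpowers c))
      exact (h2 this b trivial).symm
    have h6 := (card_dvd_of_le h4).trans ((Nat.card_zpowers _).dvd.trans (orderOf_dvd_of_pow_eq_one h5))
    rw [hd] at h6
    have := (Nat.pow_dvd_pow_iff_le_right hp.one_lt).1 (h6.trans (pow_one p).symm.dvd)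
    omega
  · intro hc
    have := relIndex_commutator_of_maxclass hG hn (by
      rw [Ne, Subgroup.lowerCentralSeries_eq_bot_iff_nilpotencyClass_le]; omega)
    rwa [relIndex_top_right] at this

end Cfsg.Agent.S4585
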