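import Cfsg.Statements.S4586
import Mathlib
import Cfsg.Agent.L0.G3

set_option autoImplicit false
open Cfsg

namespace Cfsg.Agent.S4586

open Cfsg Subgroup CfsgH2 CfsgL0
open scoped commutatorElement

/-- Let p be a prime, P a finite p-group and N a normal subgroup of P of index p. For x ∈ P write c(x) for the number of elements n of N whose commutator x n x⁻¹ n⁻¹ lies in the derived subgroup N' (so c(x)/#N' is the order of the centralizer of x acting on N/N'). Then [P : P'] = p² if and only if c(x) = p·#N' for every x ∈ P outside N, and also if and only if c(x) = p·#N' for some x ∈ P outside N. -/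
theorem result {P : Type*} [Group P] [Finite P] (p : ℕ) [Fact p.Prime] (hP : IsPGroup p P) (N : Subgroup P) [N.Normal] (hN : N.index = p) :
    ((commutator P).index = p ^ 2 ↔ ∀ x : P, x ∉ N →
        Nat.card {n : N // x * n * x⁻¹ * (n : P)⁻¹ ∈ (commutator N).map N.subtype} = p * Nat.card (commutator N)) ∧
    ((commutator P).index = p ^ 2 ↔ ∃ x : P, x ∉ N ∧
        Nat.card {n : N // x * n * x⁻¹ * (n : P)⁻¹ ∈ (commutator N).map N.subtype} = p * Nat.card (commutator N)) := by
  have hp : p.Prime := Fact.out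
  have eK : (commutator N).map N.subtype = ⁅N, N⁆ := map_subtype_commutator N
  have eK' : Nat.card (commutator N) = o[⁅N, N⁆] := by rw [← eK, card_map_of_injective N.subtype_injective]
  have key : ∀ x : P, x ∉ N → (commutator P).index * o[⁅N, N⁆] =
      p * Nat.card {n : N // x * n * x⁻¹ * (n : P)⁻¹ ∈ ⁅N, N⁆} := fun x hx => by
    let f := QuotientGroup.mk' ⁅N, N⁆
    have hf : Function.Surjective f := QuotientGroup.mk'_surjective _
    have hk : f.ker = ⁅N, N⁆ := QuotientGroup.ker_mk' _
    have := Subgroup.Normal.map ‹N.Normal› f hf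
    have hA : Ab[N.map f] := comm_self_eq_bot_iff.1 (by rw [← Subgroup.map_commutator, Subgroup.map_eq_bot_iff, hk])
    have hx' : f x ∈ N[N.map f] := by rw [normalizer_eq_top]; trivial
    have h1 := CfsgH1.card_range_commHom hA hx'
    have h0 : N ⊔ zpowers x = ⊤ := CfsgH1.sup_zpowers_eq_of_prime (by rwa [relIndex_top_right, hN]) le_top trivial hx
    rw [CfsgH1.range_commHom, ← MonoidHom.map_zpowers, ← Subgroup.map_sup, h0, ← Subgroup.map_commutator] at h1
    have h2 := (N.map f).card_mul_index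
    have h3 := (Subgroup.map f ⁅(⊤ : Subgroup P), ⊤⁆).card_mul_index
    rw [index_map_eq _ hf (hk.le.trans (commutator_le_left _ _)), hN, ← h1] at h2
    rw [index_map_eq _ hf (hk.le.trans (commutator_mono le_top le_top)), ← h2, mul_assoc] at h3
    rw [commutator_def, Nat.eq_of_mul_eq_mul_left Nat.card_pos h3, mul_right_comm, mul_comm, mul_comm _ o[⁅N, N⁆],
      ← CfsgH1.card_comap_mk']
    congr 1
    refine Nat.card_congr ⟨fun a => ⟨⟨a.1, ?_⟩, ?_⟩, fun a => ⟨a.1, mem_map_of_mem f a.1.2, ?_⟩, fun _ => rfl, fun _ => rfl⟩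
    · exact (comap_map_eq_self (hk.le.trans (commutator_le_left _ _))).le a.2.1
    · have := mem_c1.1 a.2.2
      refine hk.le (MonoidHom.mem_ker.2 ?_)
      simp only [map_mul, map_inv]
      erw [← this]; simp [f]
    · have := hk.ge a.2
      simp only [MonoidHom.mem_ker, map_mul, map_inv, mul_inv_eq_one, mul_inv_eq_iff_eq_mul, one_mul] at this
      exact mem_c1.2 this.symm
  have key' : ∀ x : P, x ∉ N → ((commutator P).index = p ^ 2 ↔
      Nat.card {n : N // x * n * x⁻¹ * (n : P)⁻¹ ∈ ⁅N, N⁆} = p * o[⁅N, N⁆]) := fun x hx => by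
    rw [← Nat.mul_right_inj (b := Nat.card _) hp.ne_zero, ← key x hx, ← mul_assoc, Nat.mul_left_inj Nat.card_pos.ne', pow_two]
  obtain ⟨x, hx⟩ : ∃ x, x ∉ N := by
    by_contra! h
    exact hp.one_lt.ne' (hN ▸ index_eq_one.2 ((eq_top_iff' N).2 h))
  rw [eK, eK']
  exact ⟨⟨fun h y hy => (key' y hy).1 h, fun h => (key' x hx).2 (h x hx)⟩,
    fun h => ⟨x, hx, (key' x hx).1 h⟩, fun ⟨y, hy, h⟩ => (key' y hy).2 h⟩

end Cfsg.Agent.S4586
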