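import Cfsg.Statements.S4588
import Mathlib
import Cfsg.Agent.H4.KW2
import Cfsg.Agent.H4.Prin

set_option autoImplicit false
open Cfsg

open Cfsg MonoidAlgebra CfsgH4 Module
open CfsgH3 hiding cj cj_cj
open scoped ComplexConjugate

namespace Cfsg.Agent.S4588

theorem aux {G : Type*} [Group G] [Finite G] (p : ℕ) [hp : Fact p.Prime] (M : Ideal AlgInt)
    [PMod p M] {x : G} (hx : ∃ k : ℕ, orderOf x = p ^ k)
    (h : (Nat.card (Subgroup.centralizer ({x} : Set G))).factorization p ≤ 2)
    (h1 : x = 1 → (Nat.card G).factorization p ≤ 1) :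
    Nat.card {χ : IrrCharacter G | χ ∈ principalBlock M G ∧ ¬ p ∣ charDegree (χ : G → ℂ)} ≤ p ^ 2 := by
  obtain ⟨C, hC⟩ : ∃ C, C = Subgroup.centralizer ({x} : Set G) := ⟨_, rfl⟩
  have := Fintype.ofFinite C
  have hb := isPBlock_principal (M := M) (G := C)
  obtain ⟨D, hD⟩ := hb.exists_defectGroup (p := p)
  have h2 := CfsgH4.Cfsg.IsDefectGroup.card_eq hb hD
  rw [blockDefect_principal] at h2
  have h3 : IsInducedBlock M C (principalBlock M C) (principalBlock M G) :=
    (mem_brSet_cent_iff hC hx isPBlock_principal (ξ := irrOne C)).1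
      (brSet_principal (M := M) hC hx ▸ irrOne_mem_principal)
  have hxC : (⟨x, self_mem_of_eq_cent hC⟩ : C) ∈ D := by
    have : (Subgroup.zpowers (⟨x, self_mem_of_eq_cent hC⟩ : C)).Normal :=
      CfsgH3.normal_of_le_center (Subgroup.zpowers_le.2 (mem_center_of_eq_cent hC))
    exact (hb.isDefectGroup_iff.1 hD).normal_le hb.isBlk.mem hb.isBlk.idem (hx.elim fun k hk =>
      IsPGroup.of_card (by rw [Nat.card_zpowers, Subgroup.orderOf_mk, hk])) le_top
      (Subgroup.normalizer_eq_top _).ge (Subgroup.mem_zpowers _)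
  obtain ⟨y, hy⟩ : ∃ y : C, ∀ z ∈ D, ∃ n : ℤ, ((y ^ n)⁻¹ * z : C).1 ∈ Subgroup.zpowers x := by
    by_cases h4 : ∀ z ∈ D, z.1 ∈ Subgroup.zpowers x
    · exact ⟨1, fun z hz => ⟨0, by simpa using h4 z hz⟩⟩
    push Not at h4
    obtain ⟨y, hy, h4⟩ := h4
    refine ⟨y, fun z hz => ?_⟩
    set X := Subgroup.zpowers (⟨x, self_mem_of_eq_cent hC⟩ : C)
    have : X.Normal :=
      CfsgH3.normal_of_le_center (Subgroup.zpowers_le.2 (mem_center_of_eq_cent hC))
    have h5 : Subgroup.zpowers y ⊔ X ≤ D := by simp [X, hy, hxC]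
    have h6 : X < Subgroup.zpowers y ⊔ X := le_sup_right.lt_of_ne fun h => h4 (by
      obtain ⟨n, hn⟩ := h.ge (Subgroup.mem_sup_left (Subgroup.mem_zpowers y))
      exact ⟨n, congrArg Subtype.val hn⟩)
    obtain ⟨i, -, hi⟩ := (Nat.dvd_prime_pow hp.out).1 (h2 ▸ Subgroup.card_dvd_of_le h5)
    obtain ⟨j, -, hj⟩ := (Nat.dvd_prime_pow hp.out).1 (hi ▸ Subgroup.card_dvd_of_le h6.le)
    have h7 : j < i := (Nat.pow_lt_pow_iff_right hp.out.one_lt).1 (hi ▸ hj ▸
      (Subgroup.card_le_of_le h6.le).lt_of_ne fun h =>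
        h6.ne (Subgroup.eq_of_le_of_card_ge h6.le h.ge))
    have h8 : (Nat.card C).factorization p ≤ i := by
      by_cases h8 : j = 0
      · have h9 : x = 1 := by
          rw [h8, pow_zero, Subgroup.card_eq_one] at hj
          simpa [X, Subtype.ext_iff] using hj
        have := (Nat.factorization_le_iff_dvd Nat.card_pos.ne' Nat.card_pos.ne').2
          C.card_subgroup_dvd_card p
        have := h1 h9
        omega
      · rw [← hC] at h
        omega
    have h9 := Subgroup.eq_of_le_of_card_ge h5 (h2 ▸ hi ▸ Nat.pow_le_pow_right hp.out.pos h8)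
    obtain ⟨_, ⟨n, rfl⟩, _, ⟨m, rfl⟩, rfl⟩ := Subgroup.mem_sup_of_normal_right.1 (h9.ge hz)
    exact ⟨n, m, by simp⟩
  refine (card_le_of_cyc_sub hC hx (fun χ hχ => h3.rg_ne_zero' hC hx hχ.1 ?_) hb hD hy).trans ?_
  · rw [height_principal hχ.1, Nat.factorization_eq_zero_of_not_dvd hχ.2]
  · rw [h2, hC]
    exact Nat.pow_le_pow_right hp.out.pos h

/-- Let G be a finite group, p a prime and M a maximal ideal of the algebraic integers containing p. If some p-element x of G (possibly x = 1) has centralizer whose order has p-part at most p², then the principal p-block of G contains at most p² irreducible characters of degree prime to p. -/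
theorem result {G : Type*} [Group G] [Finite G] (p : ℕ) [Fact p.Prime] (M : Ideal Cfsg.AlgInt) (hM : Cfsg.IsPModular p M)
    (hx : ∃ x : G, (∃ k : ℕ, orderOf x = p ^ k) ∧ (Nat.card (Subgroup.centralizer ({x} : Set G))).factorization p ≤ 2) :
    Nat.card {χ : Cfsg.IrrCharacter G // χ ∈ Cfsg.principalBlock M G ∧ ¬ p ∣ Cfsg.charDegree (χ : G → ℂ)} ≤ p ^ 2 := by
  haveI : PMod p M := ⟨hM⟩
  obtain ⟨x, h1, h2⟩ := hx
  by_cases h3 : (Nat.card G).factorization p ≤ 1
  · exact aux p M h1 h2 fun _ => h3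
  by_cases h4 : x = 1
  · obtain ⟨y, hy⟩ := exists_prime_orderOf_dvd_card' (G := G) p
      (Nat.dvd_of_factorization_pos (by omega))
    refine aux p M ⟨1, by simpa using hy⟩ ?_ fun h => absurd hy (by
      simpa [h] using (Fact.out : p.Prime).one_lt.ne)
    have := (Nat.factorization_le_iff_dvd Nat.card_pos.ne' Nat.card_pos.ne').2
      (Subgroup.centralizer ({y} : Set G)).card_subgroup_dvd_card p
    rw [h4, show Subgroup.centralizer ({1} : Set G) = ⊤ by
      ext; simp [Subgroup.mem_centralizer_singleton_iff], Subgroup.card_top] at h2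
    omega
  · exact aux p M h1 h2 fun h => absurd h h4

end Cfsg.Agent.S4588
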