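import Cfsg.Statements.S4602
import Mathlib
import Cfsg.Agent.L0.G3
import Cfsg.Agent.H1.Sep

set_option autoImplicit false
open Cfsg

namespace Cfsg.Agent.S4602

open Cfsg Subgroup CfsgH2 CfsgL0

/-- Let G be a finite p-solvable group and q a prime different from p. Some Sylow p-subgroup of G normalizes some Sylow q-subgroup of G if and only if q does not divide the order of G/O_{p'}(G), the quotient by the largest normal subgroup of order prime to p. -/
theorem result {G : Type*} [Group G] [Finite G] (p q : ℕ) [Fact p.Prime] [Fact q.Prime] (hpq : p ≠ q) (hsolv : Cfsg.IsPSolvable p G) :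
    (∃ (P : Sylow p G) (Q : Sylow q G), (P : Subgroup G) ≤ Subgroup.normalizer ((Q : Subgroup G) : Set G)) ↔ ¬ q ∣ (Cfsg.pPrimeCore p G).index := by
  have hp : p.Prime := Fact.out
  have hq : q.Prime := Fact.out
  refine ⟨fun ⟨P, Q, h⟩ => ?_, fun h => ?_⟩
  · let f := QuotientGroup.mk' (pPrimeCore p G)
    have hf : Function.Surjective f := QuotientGroup.mk'_surjective _
    have hP := (syl_top P).map f
    have hQ := (syl_top Q).map f
    rw [map_top_of_surjective f hf] at hP hQ
    have hO := CfsgH1.isPGroup_pCore (G := G ⧸ pPrimeCore p G) p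
    have c : ∀ {A}, PG[q, A] → A ⊓ pCore p (G ⧸ pPrimeCore p G) = ⊥ := fun hA =>
      disjoint_iff.1 (IsPGroup.disjoint_of_ne q p hpq.symm _ _ hA hO)
    have h1 := (CfsgH1.le_centralizer_of_normalizes_of_inf_eq_bot (le_top.trans (normalizer_eq_top _).ge)
      ((hP.le_of_norm hO le_top (le_top.trans (normalizer_eq_top _).ge)).trans ((map_mono h).trans (le_normalizer_map f)))
      (c hQ.pg)).trans (CfsgH1.centralizer_pCore_le (CfsgH1.IsPSolvable.quotient' hsolv _)
      (CfsgH1.pPrimeCore_quotient_pPrimeCore p))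
    have := hQ.nd
    rwa [← inf_eq_left.2 h1, c hQ.pg, relIndex_top_right, index_bot] at this
  obtain ⟨P⟩ : Nonempty (Sylow p G) := inferInstance
  obtain ⟨Q, hQ, hn⟩ := exists_inv_syl (A := P) (K := pPrimeCore p G) q (le_top.trans (normalizer_eq_top _).ge)
    (coprime_of_pgroup P.2 (CfsgH1.not_dvd_card_pPrimeCore p)) (.inl (isSolvable_of_pgroup P.2))
  obtain ⟨Q, rfl⟩ := (hQ.trans le_top (by rwa [relIndex_top_right])).exists_top
  exact ⟨P, Q, hn⟩

end Cfsg.Agent.S4602
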