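import Cfsg.Statements.S4601
import Mathlib
import Cfsg.Agent.L0.Kaz2
import Cfsg.Agent.L0.M2
import Cfsg.Agent.H1.Sep
import Cfsg.Agent.H1.System
import Cfsg.Agent.S4602

set_option autoImplicit false
open Cfsg

namespace Cfsg.Agent.S4601

open Cfsg Subgroup CfsgH2 CfsgL0
universe u
theorem aux {p q : ℕ} [Fact p.Prime] [Fact q.Prime] (n : ℕ) : ∀ (G : Type u) [Group G] [Finite G] (Q : Subgroup G),
    Nat.card G = n → CfsgH1.Sep {{q}, {q}ᶜ} G → Syl q Q ⊤ → (∀ y ∈ Q, ¬ p ∣ cs[y]) → ¬ p ∣ N[Q].index := by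
  induction n using Nat.strong_induction_on with
  | _ n ih =>
  intro G _ _ Q hn hs hQ h
  have hp : p.Prime := Fact.out
  have hq : q.Prime := Fact.out
  rcases subsingleton_or_nontrivial G with _ | _
  · rw [Subsingleton.elim N[Q] ⊤, index_top]; exact hp.not_dvd_one
  obtain ⟨M, _, h0, σ, hσ, hM⟩ := hs.exists_normal
  let f := QuotientGroup.mk' M
  have hf : Function.Surjective f := QuotientGroup.mk'_surjective _
  have nM : ∀ A : Subgroup G, A ≤ N[M] := fun A => le_top.trans (normalizer_eq_top _).ge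
  have h1 := ih _ (hn ▸ card_quot_lt h0) (G ⧸ M) (Q.map f) rfl (hs.quotient M) (map_top_of_surjective f hf ▸ hQ.map f)
    (by rintro _ ⟨y, hy, rfl⟩ d; exact h y hy (d.trans (cs_map_dvd hf y)))
  rw [← index_comap_of_surjective _ hf, comap_normalizer_eq_of_surjective _ hf, comap_map_eq, QuotientGroup.ker_mk'] at h1
  rcases hσ with rfl | rfl
  · rwa [sup_eq_left.2 (hQ.le_of_norm (isPGroup_iff_piN.2 hM) le_top (nM _))] at h1
  have c := coprime_of_pgroup hQ.pg ((piN_compl_singleton hq).1 hM)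
  obtain ⟨P, hP, nP⟩ := exists_inv_syl p (nM Q) c (.inl (isSolvable_of_pgroup hQ.pg))
  have h2 : P ≤ C[Q] := le_centralizer_iff.1 fun y hy => by
    obtain ⟨R, hR, h3⟩ := Syl.exists_le_c1 (h y hy)
    have h4 : R ⊓ M ≤ C[zpowers y] := inf_le_left.trans (h3.trans (cent_zpowers y).ge)
    obtain ⟨c, hc, rfl⟩ := inv_syl_conj (nM (zpowers y)) (c.coprime_dvd_left (card_dvd_of_le (zpowers_le.2 hy)))
      (.inl (sol_zpowers _)) (hR.inf_norm le_top (nM _)) hP ((le_centralizer_iff.1 h4).trans (centralizer_le_normalizer _))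
      ((zpowers_le.2 hy).trans nP)
    exact le_centralizer_iff.1 (map_cj_le_of_mem h4 hc.2) (mem_zpowers y)
  have h5 : N[Q] ≤ N[Q ⊔ M] := CfsgH1.le_normalizer_sup le_rfl (nM _)
  have h6 : M ⊔ N[Q] = N[Q ⊔ M] := le_antisymm (sup_le (le_sup_right.trans le_normalizer) h5)
    (((hQ.mono le_sup_left le_top).frattini_sup le_normalizer le_rfl).ge.trans (sup_le (sup_le
      (le_normalizer.trans le_sup_right) le_sup_left) (inf_le_right.trans le_sup_right)))
  rw [← relIndex_mul_index h5, hp.dvd_mul, ← h6, CfsgH1.relIndex_sup_right_of_le_normalizer (nM _), h6]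
  exact fun d => d.elim (hP.not_dvd_of_le (h2.trans (centralizer_le_normalizer _))) h1

/-- Let p and q be primes and G a finite group that is p-solvable or q-solvable, in which no q-element has conjugacy class size divisible by p. Then some Sylow p-subgroup of G normalizes some Sylow q-subgroup of G. -/
theorem result {G : Type*} [Group G] [Finite G] (p q : ℕ) [Fact p.Prime] [Fact q.Prime] (hsolv : Cfsg.IsPSolvable p G ∨ Cfsg.IsPSolvable q G)
    (h : ∀ y : G, (∃ k : ℕ, orderOf y = q ^ k) → ¬ p ∣ (Subgroup.centralizer ({y} : Set G)).index) :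
    ∃ (P : Sylow p G) (Q : Sylow q G), (P : Subgroup G) ≤ Subgroup.normalizer ((Q : Subgroup G) : Set G) := by
  have hp : p.Prime := Fact.out
  have hq : q.Prime := Fact.out
  obtain ⟨Q⟩ : Nonempty (Sylow q G) := inferInstance
  have h' : ∀ y ∈ (Q : Subgroup G), ¬ p ∣ cs[y] := fun y hy => h y (pgroup_mem_order Q.2 hy)
  rcases hsolv with hs | hs
  swap
  · obtain ⟨P, hP⟩ := exists_syl p N[(Q : Subgroup G)]
    obtain ⟨P, rfl⟩ := (hP.trans le_top (by
      rw [relIndex_top_right]
      exact aux _ G Q rfl ((CfsgH1.isPSolvable_iff hq).1 hs) (syl_top Q) h')).exists_top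
    exact ⟨P, Q, hP.le⟩
  by_cases hpq : p = q
  · subst hpq; exact ⟨Q, Q, le_normalizer⟩
  refine (Cfsg.Agent.S4602.result p q hpq hs).2 ?_
  let f := QuotientGroup.mk' (pPrimeCore p G)
  have hf : Function.Surjective f := QuotientGroup.mk'_surjective _
  have hQ := (syl_top Q).map f
  rw [map_top_of_surjective f hf] at hQ
  have hO := CfsgH1.isPGroup_pCore (G := G ⧸ pPrimeCore p G) p
  have h1 : (Q : Subgroup G).map f ≤ pCore p _ := by
    rintro _ ⟨y, hy, rfl⟩
    exact CfsgH1.centralizer_pCore_le (CfsgH1.IsPSolvable.quotient' hs _) (CfsgH1.pPrimeCore_quotient_pPrimeCore p)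
      (le_cent1_iff.1 (le_c1_of_coprime (coprime_of_pgroup hO fun d => h' y hy (d.trans (cs_map_dvd hf y)))))
  have := hQ.nd
  rwa [← inf_eq_left.2 h1, disjoint_iff.1 (IsPGroup.disjoint_of_ne q p (Ne.symm hpq) _ _ hQ.pg hO),
    relIndex_top_right, index_bot] at this

end Cfsg.Agent.S4601
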