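import Cfsg.Statements.S4604
import Mathlib
import Cfsg.Agent.H4.Reg
import Cfsg.Agent.H4.Ch1
import Cfsg.Agent.S0876

set_option autoImplicit false
open Cfsg

open Cfsg CfsgH3 CfsgH4 CfsgH1 Function
open scoped ComplexConjugate Pointwise

namespace Cfsg.Agent.S4604

theorem aux {p : ℕ} (hp : p.Prime) (k : ℕ) {ι : Type*} (s : Finset ι) (f : ι → ℂ)
    (h : ∀ i, IsIntegral ℤ (f i)) :
    ∃ γ : ℂ, IsIntegral ℤ γ ∧ (∑ i ∈ s, f i) ^ p ^ k = ∑ i ∈ s, f i ^ p ^ k + p * γ := by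
  classical
  induction s using Finset.induction_on with
  | empty => exact ⟨0, isIntegral_zero, by simp [hp.ne_zero]⟩
  | insert a s ha ih =>
    obtain ⟨γ, h1, h2⟩ := ih
    obtain ⟨r, hr⟩ := exists_add_pow_prime_pow_eq hp (⟨f a, h a⟩ : AlgInt)
      ⟨∑ i ∈ s, f i, IsIntegral.sum _ fun i _ => h i⟩ k
    have h3 := congrArg Subtype.val hr
    push_cast at h3
    have h4 : IsIntegral ℤ (∑ i ∈ s, f i) := IsIntegral.sum _ fun i _ => h i
    refine ⟨γ + _, h1.add ((((h a).mul h4).mul r.2)), ?_⟩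
    rw [Finset.sum_insert ha, Finset.sum_insert ha, h3, h2]; ring

theorem aux2 {G : Type*} [Group G] [Finite G] {p : ℕ} (hp : p.Prime) (k : ℕ) {χ : G → ℂ}
    (hχ : IsCharacter G χ) (g : G) :
    ∃ γ : ℂ, IsIntegral ℤ γ ∧ χ g ^ p ^ k = χ (g ^ p ^ k) + p * γ := by
  obtain ⟨n, s, -, h1, -, h2⟩ := hχ.exists_eigenvalues g
  have a := h2 1
  have b := h2 (p ^ k : ℕ)
  simp only [zpow_one, zpow_natCast] at a b
  rw [a, b]
  exact aux hp k _ s fun i => IsIntegral.of_pow (orderOf_pos g) (h1 i ▸ isIntegral_one)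

/-- Let G be a finite group, p a prime and p^a the p-part of the order of G. Let x, y ∈ G and let x′, y′ be their p-regular parts: x′ has order prime to p, commutes with x·x′⁻¹, and x·x′⁻¹ has p-power order (likewise for y). Then x′ and y′ are conjugate in G if and only if for every irreducible character χ of G the algebraic integer χ(x)^(p^a) − χ(y)^(p^a) is p times an algebraic integer. -/
theorem result {G : Type*} [Group G] [Finite G] (p : ℕ) [Fact p.Prime] (x y x' y' : G)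
    (hx : (∃ k : ℕ, orderOf (x * x'⁻¹) = p ^ k) ∧ Commute (x * x'⁻¹) x' ∧ ¬ p ∣ orderOf x')
    (hy : (∃ k : ℕ, orderOf (y * y'⁻¹) = p ^ k) ∧ Commute (y * y'⁻¹) y' ∧ ¬ p ∣ orderOf y') :
    IsConj x' y' ↔ ∀ χ : Cfsg.IrrCharacter G, ∃ γ : Cfsg.AlgInt,
      (χ : G → ℂ) x ^ (p ^ (Nat.card G).factorization p) - (χ : G → ℂ) y ^ (p ^ (Nat.card G).factorization p) = (p : ℂ) * (γ : ℂ) := by
  have hp : p.Prime := Fact.out
  have h1 : ∀ {x x' : G}, (∃ k : ℕ, orderOf (x * x'⁻¹) = p ^ k) ∧ Commute (x * x'⁻¹) x' ∧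
      ¬ p ∣ orderOf x' → IsPPart p x (x * x'⁻¹) ∧ (x * x'⁻¹)⁻¹ * x = x' ∧
      x ^ p ^ (Nat.card G).factorization p = x' ^ p ^ (Nat.card G).factorization p :=
    fun {x x'} ⟨⟨k, a⟩, b, c⟩ => ⟨⟨x', by simp, b, ⟨k, a⟩, c⟩, by simp, by
      have : (x * x'⁻¹) ^ p ^ (Nat.card G).factorization p = 1 := by
        rw [← orderOf_dvd_iff_pow_eq_one, a]
        exact pow_dvd_pow p ((hp.pow_dvd_iff_le_factorization Nat.card_pos.ne').1
          (a ▸ orderOf_dvd_natCard _))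
      simpa [this] using b.mul_pow (p ^ (Nat.card G).factorization p)⟩
  obtain ⟨a1, a2, a3⟩ := h1 hx
  obtain ⟨b1, b2, b3⟩ := h1 hy
  refine ⟨fun h χ => ?_, fun h => ?_⟩
  · obtain ⟨γ, c1, c2⟩ := aux2 hp ((Nat.card G).factorization p) χ.2.isCharacter x
    obtain ⟨δ, d1, d2⟩ := aux2 hp ((Nat.card G).factorization p) χ.2.isCharacter y
    refine ⟨⟨γ - δ, c1.sub d1⟩, ?_⟩
    rw [c2, d2, a3, b3, χ.2.isClassFunction.eq_of_isConj (h.pow _)]; ring
  · obtain ⟨M, hM⟩ := exists_isPModular hp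
    have : PMod p M := ⟨hM⟩
    rw [← a2, ← b2]
    refine (S0876.result p M hM x y _ _ a1 b1).2 fun χ => ?_
    obtain ⟨γ, hγ⟩ := h χ
    have c := mem_Loc_of_isIntegral (M := M) (χ.2.isCharacter.isIntegral x)
    have d := mem_Loc_of_isIntegral (M := M) (χ.2.isCharacter.isIntegral y)
    have e := (red_eq_iff (pow_mem c _) (pow_mem d _)).2
      (hγ ▸ InP.mul_right InP_p (algInt_mem_Loc γ))
    rw [red_pow c, red_pow d, ← sub_eq_zero, ← sub_pow_char_pow,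
      pow_eq_zero_iff (pow_ne_zero _ hp.ne_zero), sub_eq_zero] at e
    exact (red_eq_iff c d).1 e

end Cfsg.Agent.S4604
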