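import Cfsg.Statements.S4607
import Mathlib
import Cfsg.Agent.H4.SLB

set_option autoImplicit false
open Cfsg

open Cfsg MonoidAlgebra CfsgH4 Module
open CfsgH3 hiding cj cj_cj
open scoped ComplexConjugate

namespace Cfsg.Agent.S4607

/-- Let G be a finite group, p a prime, M a maximal ideal of the algebraic integers containing p, and B a p-block of G with defect group D. Then B contains exactly two irreducible characters if and only if D has order 2. -/
theorem result {G : Type*} [Group G] [Finite G] (p : ℕ) [Fact p.Prime] (M : Ideal Cfsg.AlgInt) (hM : Cfsg.IsPModular p M) (B : Set (Cfsg.IrrCharacter G)) (hB : Cfsg.IsPBlock M B) (D : Subgroup G) (hD : Cfsg.IsDefectGroup p M B D) : Nat.card B = 2 ↔ Nat.card D = 2 := by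
  haveI : PMod p M := ⟨hM⟩
  have := Fintype.ofFinite G
  refine ⟨fun h => ?_, fun h => ?_⟩
  · have h1 := blockRank_le_card (p := p) B
    have h2 := blockRank_pos (p := p) hB.nonempty
    have h3 : Nat.card B ≠ blockRank p B := fun h3 => by
      have := hB.card_eq_one_of_defect (hB.defect_eq_zero_of_card_eq_rank h3)
      omega
    rw [CfsgH4.Cfsg.IsDefectGroup.card_eq hB hD,
      (CfsgH4.Cfsg.IsPBlock.small hB (by omega) (by omega)).1, h]
  · obtain ⟨e, hm⟩ := exists_maxPr hB.isBlk (hB.isDefectGroup_iff.1 hD)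
    have h1 : ∀ x ∈ Subgroup.normalizer (D : Set G), x ∈ Subgroup.centralizer (D : Set G) := by
      intro x hx
      refine mem_cent_iff_conj.2 fun y hy => ?_
      obtain ⟨z, -, h2⟩ := (Nat.card_eq_two_iff' (1 : D)).1 h
      by_cases h3 : y = 1
      · simp [h3]
      · exact congrArg Subtype.val ((h2 ⟨_, CfsgL0.conj_mem_of_mem_normalizer hx hy⟩
          (by simpa using h3)).trans (h2 ⟨y, hy⟩ (by simpa using h3)).symm)
    have h2 := Subgroup.le_normalizer.trans h1
    rw [← h]
    exact (CfsgH4.Cfsg.IsNilpotentBlock.unif (isNilpotentBlock_iff.2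
      ⟨hB, (hm.nil_iff_of_comm h2).2 ((stab_le _ _).trans h1)⟩) hD h2).card

end Cfsg.Agent.S4607
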