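import Cfsg.Statements.S4611
import Mathlib
import Cfsg.Agent.H4.FongP

set_option autoImplicit false
open Cfsg

open Cfsg CfsgH4 CfsgH1 CfsgL0 MonoidAlgebra Function
open CfsgH3 hiding cj cj_cj
open scoped ComplexConjugate Pointwise

namespace Cfsg.Agent.S4611

/-- Let G be a finite solvable group and π a nonempty set of primes, each dividing the order of G; fix for each p in π a maximal ideal M p of the algebraic integers containing p. Then the only irreducible character lying in the principal p-block for every p in π is the principal character if and only if G is generated by the subgroups O_{p'}(G), p in π (the largest normal subgroups of order prime to p). -/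
theorem result {G : Type*} [Group G] [Finite G] [Group.IsSolvable G] (π : Set ℕ) (hπ : ∀ p ∈ π, p.Prime ∧ p ∣ Nat.card G) (hne : π.Nonempty) (M : ℕ → Ideal Cfsg.AlgInt) (hM : ∀ p ∈ π, Cfsg.IsPModular p (M p)) :
    (∀ χ : Cfsg.IrrCharacter G, (∀ p ∈ π, χ ∈ Cfsg.principalBlock (M p) G) → (χ : G → ℂ) = fun _ => 1) ↔
      ⨆ p ∈ π, Cfsg.pPrimeCore p G = ⊤ := by
  have h : ∀ χ : IrrCharacter G, (∀ p ∈ π, χ ∈ principalBlock (M p) G) ↔
      ⨆ p ∈ π, pPrimeCore p G ≤ charKer χ.1 := fun χ => by
    simp only [iSup_le_iff]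
    refine forall₂_congr fun p hp => ?_
    haveI : PMod p (M p) := ⟨hM p hp⟩
    rw [mem_principal_iff_of_psolv (isPSolvable_of_isSolvable (hπ p hp).1)]
    exact forall₂_congr fun n _ => χ.2.isCharacter.mem_charKer.symm
  simp only [h]
  haveI : (⨆ p ∈ π, pPrimeCore p G).Normal := Subgroup.iSup_normal _
  refine ⟨fun h1 => by_contra fun h2 => ?_, fun h1 χ h2 => by_contra fun h3 =>
    χ.2.charKer_ne_top h3 (top_le_iff.1 (h1 ▸ h2))⟩
  obtain ⟨g, hg⟩ : ∃ g, g ∉ ⨆ p ∈ π, pPrimeCore p G := by
    by_contra! h; exact h2 (eq_top_iff.2 fun g _ => h g)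
  obtain ⟨β, h3, h4⟩ := exists_irr_ne ((QuotientGroup.eq_one_iff g).not.2 hg)
  have h5 := h3.comp_of_surjective (QuotientGroup.mk' _) (QuotientGroup.mk'_surjective _)
  have h6 := congrFun (h1 ⟨_, h5⟩ fun n hn => h5.isCharacter.mem_charKer.2 (by
    simp [(QuotientGroup.eq_one_iff n).2 hn]))
  exact h4 ((h6 g).trans (h6 1).symm)

end Cfsg.Agent.S4611
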