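import Cfsg.Statements.S4613
import Cfsg.Agent.H5.Pa1
import Cfsg.Agent.H5.Au11
import Cfsg.Agent.H5.Orth6
import Cfsg.Agent.H6.TwG2
import Cfsg.Agent.H6.TwF4
import Cfsg.Agent.H6.TwE6b
import Cfsg.Agent.H6.TwD4
import Cfsg.Agent.H6.GoodAll
import Cfsg.Agent.H8.Sz4
import Cfsg.Agent.S0244

set_option autoImplicit false
open Cfsg

namespace Cfsg.Agent.S4613

open CfsgH5 CfsgH5.CForm CfsgH5.Pa CfsgH6 Module

section Sz

open CfsgH8.SzG

theorem sz {F : Type} [Field F] [Fintype F] {m : ℕ} [SzF F m] : Rig 2 (U F m) := by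
  haveI : Fact (Nat.Prime 2) := ⟨Nat.prime_two⟩
  have k : ∀ g, Op (U F m) g ↔ g • inf F m ≠ inf F m := fun g => by
    refine ⟨fun h e => ?_, fun h v hv e => ?_⟩
    · have := h _ (u_mem 1 0) (by
        rw [norm_U]; exact mul_mem (mul_mem (inv_mem (s := B F m) e) (U_le_B (u_mem _ _))) e)
      simp [u_eq_one] at this
    · rw [norm_U, MulAction.mem_stabilizer_iff, mul_smul, mul_smul, inv_smul_eq_iff] at e
      by_contra h1
      exact h (U_fix hv h1 e)
  have k2 : (w F m * u m 0 1 * (w F m)⁻¹) • inf F m ≠ inf F m := by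
    rw [mul_smul, mul_smul, w_inv, w_none, ne_eq, smul_eq_iff_eq_inv_smul, w_inv, w_none]; simp
  refine rig_of_op U_pgroup (fun g g' h h' => ?_) (g := w F m) ((k _).2 (by simp)) ((k _).2 (by simp [w_inv]))
    (u_mem 0 1) ((k _).2 k2) fun K h1 h2 => ?_
  · obtain ⟨a, b, e⟩ := exists_u_zer ((k _).1 h)
    obtain ⟨c, d, e'⟩ := exists_u_zer ((k _).1 h')
    refine ⟨_, mul_mem (u_mem c d) (inv_mem (u_mem a b)), ?_⟩
    rw [norm_U, MulAction.mem_stabilizer_iff, mul_smul, mul_smul, mul_smul, ← e, inv_smul_smul, e', inv_smul_smul]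
  · have h3 : U F m ≤ K.normalCore := fun v hv g => by
      obtain ⟨s, hs, e⟩ : ∃ s ∈ K, s • inf F m = g • inf F m := by
        by_cases h : g • inf F m = inf F m
        · exact ⟨1, one_mem _, by rw [h, one_smul]⟩
        obtain ⟨a, b, e⟩ := exists_u_zer h
        obtain ⟨c, d, e'⟩ := exists_u_zer k2
        exact ⟨_, mul_mem (mul_mem (h1 (u_mem a b)) (inv_mem (h1 (u_mem c d)))) h2, by
          rw [mul_smul, ← e', mul_smul, inv_smul_smul, e]⟩
      have := mul_mem (mul_mem hs (h1 (B_conj_U (g := s⁻¹ * g) (by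
        rw [MulAction.mem_stabilizer_iff, mul_smul, ← e, inv_smul_smul]) hv))) (inv_mem hs)
      convert this using 1; group
    rcases (inferInstance : K.normalCore.Normal).eq_bot_or_eq_top with h | h
    · simpa [h, u_eq_one] using h3 (u_mem 1 0)
    · exact top_le_iff.1 (h ▸ K.normalCore_le)

end Sz

variable {p : ℕ} [Fact p.Prime] {H : Type*} [Group H]

theorem symp {F : Type} [Field F] [Fintype F] [CharP F p] {m : ℕ} (hm : 0 < m) (e : H ≃* PSp m F) (U : Sylow p H) :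
    Rig p U.1 := by
  have hf := spForm_nondeg (F := F) m
  obtain ⟨x, y, h⟩ := symp_exists_hyp hf (by simp; omega)
  exact rig_form hf (rich_of_ker ⟨1, one_ne_zero, rfl⟩) h
    ((spEquiv m).trans (MulEquiv.subgroupCongr (symp_Isom_eq_E hf))) e U

theorem orth {F : Type} [Field F] [Fintype F] [CharP F p] {ι : Type} [Fintype ι] [DecidableEq ι]
    (Q : QuadraticForm F (ι → F)) (hf : (ofQuad Q).Nondeg) (hd : 5 ≤ Fintype.card ι) (e : H ≃* POmega F ⇑Q)
    (U : Sylow p H) : Rig p U.1 := by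
  have d1 : 5 ≤ finrank F (ι → F) := by simpa using hd
  obtain ⟨x, y, h⟩ := orth_exists_hyp hf (by omega)
  exact rig_form hf (rich_of_finrank hf (by omega)) h
    ((((orthEquiv Q).subgroupMap (Omega F ⇑Q)).trans (MulEquiv.subgroupCongr (by
      rw [Omega, map_commutator_eq, MonoidHom.range_eq_top.2 (orthEquiv Q).surjective]; rfl))).trans
      (((commutator (ofQuad Q).Isom).equivMapOfInjective _ (ofQuad Q).Isom.subtype_injective).trans
        (MulEquiv.subgroupCongr ((Subgroup.map_subtype_commutator _).trans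
          (comm_eq_E hf (split_of_finrank hf (by omega)) (by omega)))))) e U

theorem chev {F : Type} [Field F] [Fintype F] [CharP F p] {D : Lie.ChevalleyDatum} (hD : D ∈ [Lie.chevG2, Lie.chevB2,
    Lie.chevD4, Lie.chevF4, Lie.chevE6, Lie.chevE7, Lie.chevE8]) (e : H ≃* D.group F) (U : Sylow p H) : Rig p U.1 := by
  obtain ⟨G⟩ := good_of_mem hD
  exact rig_tw (G.tw0 F) (G.gl_R3 F) p (e.trans (MulEquiv.subgroupCongr (G.tw0_G1 F))) U


/-- Let G be a finite simple group of Lie type in characteristic p and α an automorphism of G of order prime to p that fixes some Sylow p-subgroup of G elementwise. Then α is the identity. -/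
theorem result {G : Type*} [Group G] [Finite G] [IsSimpleGroup G] (p : ℕ) [Fact p.Prime] (hG : Cfsg.IsLieTypeChar p G) (α : MulAut G) (hα : ¬ p ∣ orderOf α) (U : Sylow p G) (hfix : ∀ x ∈ (U : Subgroup G), α x = x) : α = 1 := by
  revert α
  change Rig p U.1
  rcases hG with ⟨F, _, _, _, n, hn, -, ⟨e⟩⟩ | ⟨F, _, _, _, m, hm, -, ⟨e⟩⟩ | ⟨F, _, _, _, n, q, hF, hn, -, ⟨e⟩⟩ |
    ⟨F, _, _, _, m, hm, ho, ⟨e⟩⟩ | ⟨F, _, _, _, m, hm, ⟨e⟩⟩ | ⟨F, _, _, _, m, a, b, hm, hab, ⟨e⟩⟩ | ⟨F, _, _, _, hG⟩ |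
    ⟨F, _, _, _, q, hq, hG⟩ | ⟨rfl, F, _, _, m, hm, hF, ⟨e⟩⟩ | ⟨rfl, F, _, _, m, hm, hF, ⟨e⟩⟩ |
    ⟨rfl, F, _, _, m, hm, hF, ⟨e⟩⟩
  · rcases hn.eq_or_lt with rfl | h
    · let s : Matrix.symplecticGroup (Fin 1) F ≃* Matrix.SpecialLinearGroup (Fin 2) F :=
        { toFun g := ⟨Matrix.reindex finSumFinEquiv finSumFinEquiv g.1, by
            rw [Matrix.det_reindex_self]; exact (S0244.result _).1 g.2⟩
          invFun g := ⟨Matrix.reindex finSumFinEquiv.symm finSumFinEquiv.symm g.1,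
            (S0244.result _).2 (by rw [Matrix.det_reindex_self]; exact g.2)⟩
          left_inv g := Subtype.ext (by simp)
          right_inv g := Subtype.ext (by simp)
          map_mul' g h :=
            Subtype.ext (Matrix.submatrix_mul_equiv g.1 h.1 _ (finSumFinEquiv (m := 1) (n := 1)).symm _).symm }
      exact symp one_pos (e.trans (quotCenterEquiv s.symm)) U
    · exact rig_SL (by simp; omega) e U
  · exact symp (by omega) e U
  · obtain ⟨σ, H⟩ := exists_UF hF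
    obtain ⟨x, y, h⟩ := unit_exists_hyp H (hermC_nondeg H n) (by simp; omega)
    exact rig_form (hermC_nondeg H n) (rich_of_finrank (hermC_nondeg H n) (by simpa using hn)) h
      ((suEquiv H n).trans (MulEquiv.subgroupCongr (Au.herm_SIsom H (by omega)))) e U
  · exact orth (oddQ F m) (oddQ_nondeg (fun h => by
      have := FiniteField.even_card_iff_char_two.1 ((CharP.ringChar_of_prime_eq_zero Nat.prime_two h))
      rw [Nat.odd_iff] at ho; omega) m) (by simp; omega) e U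
  · exact orth (plusQ F m) (plusQ_nondeg F m) (by simp; omega) e U
  · exact orth (minusQ (m - 1) a b) (minusQ_nondeg _ hab) (by simp; omega) e U
  · rcases hG with ⟨-, ⟨e⟩⟩ | ⟨⟨e⟩⟩ | ⟨⟨e⟩⟩ | ⟨⟨e⟩⟩ | ⟨⟨e⟩⟩ <;> exact chev (by simp) e U
  · rcases hG with ⟨hF, ⟨e⟩⟩ | ⟨hF, ⟨e⟩⟩ <;> obtain ⟨φ, hφ⟩ := exists_frob hq hF
    · exact rig_tw (TE6g hφ hF) (goodE6.gl_R3 F) p (e.trans (MulEquiv.subgroupCongr (twistedE6_eq hφ hF))) U
    · exact rig_tw (TD4g hφ hF) (goodD4.gl_R3 F) p (e.trans (MulEquiv.subgroupCongr (twistedD4_eq hφ hF))) U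
  · haveI : CfsgH8.SzG.SzF F m := ⟨hm, hF⟩
    exact sz.transfer CfsgH8.SzG.U_pgroup (e.trans (CfsgH8.SzG.lieEquiv F m).symm) U
  · obtain ⟨_, φ, hφ⟩ := exists_theta Nat.prime_two hF
    exact rig_tw (TF4g hφ hF) (goodF4.gl_R3 F) 2 (e.trans (MulEquiv.subgroupCongr (twistedF4_eq hφ hF))) U
  · obtain ⟨_, φ, hφ⟩ := exists_theta Nat.prime_three hF
    exact rig_tw (TG2g hφ hF) (goodG2.gl_R3 F) 3 (e.trans (MulEquiv.subgroupCongr (twistedG2_eq hφ hF))) U

end Cfsg.Agent.S4613
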