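import Cfsg.Statements.S4619
import Mathlib
import Cfsg.Agent.H4.Ch1

set_option autoImplicit false
open scoped Pointwise
open Cfsg

open Cfsg CfsgH3 CfsgH4 CfsgH1 Function
open CfsgH2 hiding cj
open scoped ComplexConjugate Pointwise

namespace Cfsg.Agent.S4619

/-- Let P be a Sylow p-subgroup of the finite group G that is a trivial-intersection set: P meets each conjugate g P g⁻¹ with g outside N_G(P) trivially. Then for every nontrivial subgroup Q of P the normalizer of Q lies in the normalizer of P, and any g ∈ G conjugating Q into P lies in N_G(P). -/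
theorem result {G : Type*} [Group G] [Finite G] (p : ℕ) [Fact p.Prime] (P : Sylow p G) (hTI : (∀ g : G, g ∉ Subgroup.normalizer ((P : Subgroup G) : Set G) → (P : Subgroup G) ⊓ (MulAut.conj g • (P : Subgroup G)) = ⊥)) (Q : Subgroup G) (hQ : Q ≤ (P : Subgroup G)) (hQ1 : Q ≠ ⊥) :
    Subgroup.normalizer (Q : Set G) ≤ Subgroup.normalizer ((P : Subgroup G) : Set G) ∧
      ∀ g : G, MulAut.conj g • Q ≤ (P : Subgroup G) → g ∈ Subgroup.normalizer ((P : Subgroup G) : Set G) := by
  have h : ∀ g : G, MulAut.conj g • Q ≤ (P : Subgroup G) →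
      g ∈ Subgroup.normalizer ((P : Subgroup G) : Set G) := fun g hg => by
    by_contra h
    have := le_inf hg (Subgroup.pointwise_smul_le_pointwise_smul_iff.2 hQ)
    rw [hTI g h, le_bot_iff, ← Subgroup.smul_bot (MulAut.conj g), smul_left_cancel_iff] at this
    exact hQ1 this
  exact ⟨fun g hg => h g ((conj_smul_eq_iff_mem_normalizer.2 hg).trans_le hQ), h⟩

end Cfsg.Agent.S4619
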