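import Cfsg.Statements.S4620
import Cfsg.Agent.H2.Core
import Cfsg.Agent.H2.Misc
import Cfsg.Agent.H2.PG1

set_option autoImplicit false
open scoped Pointwise
open Cfsg

open Cfsg CfsgH2 Function Subgroup

namespace Cfsg.Agent.S4620
theorem key {H : Type*} [Group H] [Finite H] {p : ℕ} [Fact p.Prime]
    (hT : ∀ P Q : Subgroup H, Syl p P ⊤ → Syl p Q ⊤ → P ⊓ Q ≠ ⊥ → P = Q) {M A B : Subgroup H} (hA : Syl p A M)
    (hB : Syl p B M) {X : Subgroup H} (hX : IsPGroup p X) (h1 : A ≤ N[X]) (h2 : B ≤ N[X]) (h0 : X ≠ ⊥) : A = B := by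
  obtain ⟨P, hP, a⟩ := exists_syl_ge (isPGroup_sup hA.pg hX (.inl h1)) le_top
  obtain ⟨Q, hQ, b⟩ := exists_syl_ge (isPGroup_sup hB.pg hX (.inl h2)) le_top
  obtain rfl := hT P Q hP hQ fun e => h0 (le_bot_iff.1 (e ▸ le_inf (le_sup_right.trans a) (le_sup_right.trans b)))
  have c := hP.pg.to_le (inf_le_left (b := M))
  exact (hA.eq_of_le c (le_inf (le_sup_left.trans a) hA.le) inf_le_right).symm.trans
    (hB.eq_of_le c (le_inf (le_sup_left.trans b) hB.le) inf_le_right)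

theorem key2 {H : Type*} [Group H] [Finite H] {p : ℕ} [Fact p.Prime]
    (hT : ∀ P Q : Subgroup H, Syl p P ⊤ → Syl p Q ⊤ → P ⊓ Q ≠ ⊥ → P = Q) {M K : Subgroup H} (hK : p ∣ Nat.card K)
    (hM : p ∣ Nat.card M) (h : M ≤ C[K]) : piCoreOf {p} M ≠ ⊥ := by
  obtain ⟨A, hA⟩ := exists_syl p M
  obtain ⟨X, hX⟩ := exists_syl p K
  have c : M ≤ N[X] := le_norm_of_le_cent (h.trans (cent_anti hX.le))
  rw [hA.eq_pCoreOf fun g hg => map_cj_eq_iff.1 (key hT (hA.map_cj_mem hg) hA hX.pg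
    ((hA.map_cj_mem hg).le.trans c) (hA.le.trans c) (hX.ne_bot hK))]
  exact hA.ne_bot hM

/-- Let H be a finite group with no nontrivial normal p-subgroup and no nontrivial normal subgroup of order prime to p, whose Sylow p-subgroup P is nontrivial and a trivial-intersection set (P meets its conjugates by elements outside N_H(P) trivially). Then H has a unique minimal normal subgroup N; N is non-abelian simple with trivial centralizer in H (so H embeds in Aut(N)), and a Sylow p-subgroup of N is again a nontrivial trivial-intersection set in N. -/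
theorem result {H : Type*} [Group H] [Finite H] (p : ℕ) [Fact p.Prime] (hOp : Cfsg.pCore p H = ⊥) (hOp' : Cfsg.pPrimeCore p H = ⊥) (P : Sylow p H) (hP1 : (P : Subgroup H) ≠ ⊥)
    (hTI : ∀ g : H, g ∉ Subgroup.normalizer ((P : Subgroup H) : Set H) → (P : Subgroup H) ⊓ (MulAut.conj g • (P : Subgroup H)) = ⊥) :
    ∃ N : Subgroup H, N.Normal ∧ N ≠ ⊥ ∧ (∀ K : Subgroup H, K.Normal → K ≠ ⊥ → N ≤ K) ∧
      IsSimpleGroup N ∧ ¬ IsMulCommutative N ∧ Subgroup.centralizer (N : Set H) = ⊥ ∧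
      ∀ Q : Sylow p N, (Q : Subgroup N) ≠ ⊥ ∧
        ∀ n : N, n ∉ Subgroup.normalizer ((Q : Subgroup N) : Set N) → (Q : Subgroup N) ⊓ (MulAut.conj n • (Q : Subgroup N)) = ⊥ := by
  have sP := syl_top P
  have hT : ∀ A B : Subgroup H, Syl p A ⊤ → Syl p B ⊤ → A ⊓ B ≠ ⊥ → A = B := fun A B hA hB h => by
    obtain ⟨a, -, rfl⟩ := sP.conj hA
    obtain ⟨b, -, rfl⟩ := sP.conj hB
    by_contra hne
    have := hTI (a⁻¹ * b) fun e => hne (by
      rw [← mul_inv_cancel_left a b, ← map_cj_cj, map_cj_eq e])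
    rw [smul_eq_map_cj] at this
    exact h (by rw [← mul_inv_cancel_left a b, ← map_cj_cj, ← map_cj_inf, this, Subgroup.map_bot])
  have sub : ∀ M K : Subgroup H, K.Normal → M ≤ K → K ≤ N[M] → M ≠ ⊥ → p ∣ Nat.card M ∧ piCoreOf {p} M = ⊥ :=
    fun M K _ h1 h2 h0 => ⟨by_contra fun h => h0 (le_bot_iff.1 (hOp' ▸ pPrimeCore_eq' (p := p) (G := H) ▸
      (le_pPrimeCoreOf h1 h2 h).trans (piCoreOf_le_of_norm le_top (top_le_norm_iff.2 ‹_›)))),
      le_bot_iff.1 (hOp ▸ pCore_eq' (p := p) (G := H) ▸ (piCoreOf_le_of_norm h1 h2).trans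
        (piCoreOf_le_of_norm le_top (top_le_norm_iff.2 ‹_›)))⟩
  have two : ∀ M L K : Subgroup H, K.Normal → M ≤ K → K ≤ N[M] → L ≤ K → K ≤ N[L] → M ≠ ⊥ → L ≠ ⊥ → ¬ M ≤ C[L] :=
    fun M L K hK a b c d e f g => key2 hT (sub L K hK c d f).1 (sub M K hK a b e).1 g (sub M K hK a b e).2
  obtain ⟨N, -, ⟨hN, hN0⟩, hmin⟩ := exists_minimal_le (fun K : Subgroup H => K.Normal ∧ K ≠ ⊥) (H := ⊤)
    ⟨inferInstance, fun e => hP1 (le_bot_iff.1 (e ▸ le_top))⟩
  have tN := top_le_norm_iff.2 hN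
  have hC : C[N] = ⊥ := by_contra fun h => two _ N ⊤ inferInstance le_top (le_norm_cent tN) le_top tN h hN0 le_rfl
  have hd := (sub N N hN le_rfl le_normalizer hN0).1
  refine ⟨N, hN, hN0, fun K hK h0 => ?_, ?_, fun h => hN0 (le_bot_iff.1 (hC ▸ le_cent_self h)), hC, fun Q => ?_⟩
  · refine inf_eq_left.1 (hmin _ ⟨inferInstance, fun e => h0 (le_bot_iff.1 (hC ▸ ?_))⟩ inf_le_left)
    exact le_cent_of_inf_eq_bot le_normalizer_of_normal le_normalizer_of_normal (inf_comm N K ▸ e)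
  · haveI := (nontrivial_iff_ne_bot N).2 hN0
    refine ⟨fun L hL => or_iff_not_imp_left.2 fun h0 => ?_⟩
    obtain ⟨M, hML, ⟨hM, hM0⟩, hm⟩ := exists_minimal_le (fun K : Subgroup H => N ≤ N[K] ∧ K ≠ ⊥) (H := L.map N.subtype)
      ⟨le_norm_map_subtype L, fun e => h0 ((Subgroup.map_eq_bot_iff_of_injective _ N.subtype_injective).1 e)⟩
    have hMN := hML.trans (map_subtype_le L)
    have : M.Normal := normal_of_top_le_norm fun g _ => map_cj_eq_iff.1 (by
      have a : N ≤ N[M.map (cj g)] := by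
        rw [normalizer_map_cj, ← map_cj_normal g N]
        exact map_mono hM
      refine (eq_of_le_of_card_le (inf_eq_left.1 (hm _ ⟨le_norm_inf hM a, fun e => ?_⟩ inf_le_left)) (card_map_cj g M).le).symm
      have b := map_cj_le_of_norm hMN (tN (mem_top g))
      exact two M _ N hN hMN hM b a hM0 (map_cj_eq_bot.not.2 hM0) (le_cent_of_inf_eq_bot (hMN.trans a) (b.trans hM) e))
    exact eq_top_iff.2 fun y _ => by
      obtain ⟨z, hz, e⟩ := hML ((hmin M ⟨this, hM0⟩ hMN).ge y.2)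
      exact Subtype.ext e ▸ hz
  · have s := syl_sub Q
    have s0 : (Q : Subgroup N) ≠ ⊥ := (syl_top Q).ne_bot (by simpa using hd)
    refine ⟨s0, fun n hn => by_contra fun h => hn (map_cj_eq_iff.1 ?_)⟩
    rw [smul_eq_map_cj] at h
    refine map_injective N.subtype_injective ?_
    have t := s.map_cj_mem n.2
    rw [map_map_cj]
    obtain ⟨A, hA, a⟩ := exists_syl_ge s.pg le_top
    obtain ⟨B, hB, b⟩ := exists_syl_ge t.pg le_top
    obtain rfl := hT A B hA hB fun e => h ((Subgroup.map_eq_bot_iff_of_injective _ N.subtype_injective).1 (by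
      rw [map_inf _ _ _ N.subtype_injective, map_map_cj]
      exact le_bot_iff.1 (e ▸ inf_le_inf a b)))
    have c := hA.pg.to_le (inf_le_left (b := N))
    exact (t.eq_of_le c (le_inf b t.le) inf_le_right).symm.trans (s.eq_of_le c (le_inf a s.le) inf_le_right)


end Cfsg.Agent.S4620
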