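import Cfsg.Statements.S4630
import Cfsg.Agent.H5.Wr4

set_option autoImplicit false
open Cfsg

namespace Cfsg.Agent.S4630

open CfsgH5 CfsgH5.Rk CfsgH5.CForm Module

/-- Let F be a finite field of odd order and m ≥ 1 with m even or m ≥ 4. For the commutator subgroup Ω of the isometry group of the plus-type quadratic form Σ_{i<m} x_i y_i in dimension 2m over F, a Sylow 2-subgroup P of Ω has P/P' elementary abelian: the square of every element of P lies in the derived subgroup of P. -/
theorem result {F : Type*} [Field F] [Fintype F] (hF : Odd (Fintype.card F)) (m : ℕ) (hm : 1 ≤ m) (hm' : Even m ∨ 4 ≤ m) (P : Sylow 2 (Cfsg.Omega F (Cfsg.quadFormPlus m F))) : ∀ x : (P : Subgroup (Cfsg.Omega F (Cfsg.quadFormPlus m F))), x ^ 2 ∈ commutator (P : Subgroup (Cfsg.Omega F (Cfsg.quadFormPlus m F))) := by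
  refine Wr.om_even (isOm_Omega (plusQ F m)) (plusQ_nondeg F m) hF (finrank_sum_fun m) ?_ P
  by_cases h : 3 ≤ m
  · exact .inl h
  obtain rfl : m = 2 := by rw [Nat.even_iff] at hm'; omega
  refine .inr ⟨le_rfl, ?_⟩
  obtain ⟨k, hk⟩ := hF
  simp only [plusQ_isPlus, true_iff, hk]
  rw [show (2 * k + 1) ^ 2 = 1 + 4 * (k * k + k) by ring, Nat.add_mul_mod_self_left]

end Cfsg.Agent.S4630
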