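import Mathlib
import Cfsg.Statements.S5893
import Cfsg.Agent.H8.Dick4

set_option autoImplicit false
open Cfsg

namespace Cfsg.Agent.S5893


open CfsgH8

/-- Let F be a finite field of even order q ≥ 4 and let M be a maximal subgroup of PSL₂(F) (= SL₂(F) = PGL₂(F)). Then one of the following holds: |M| = q(q − 1) (the stabiliser of a point of the projective line, elementary abelian of order q extended by a cyclic group of order q − 1); M is dihedral of order 2(q − 1); M is dihedral of order 2(q + 1); or q = q₀^r for a prime r with q₀ ≠ 2 and M ≅ PSL₂(F₀) with |F₀| = q₀. -/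
theorem result {F : Type*} [Field F] [Fintype F]
    (heven : Even (Fintype.card F)) (h4 : 4 ≤ Fintype.card F) (M : Subgroup (Matrix.ProjectiveSpecialLinearGroup (Fin 2) F)) (hM : IsCoatom M) :
    Nat.card M = Fintype.card F * (Fintype.card F - 1) ∨
    Nonempty (M ≃* DihedralGroup (Fintype.card F - 1)) ∨
    Nonempty (M ≃* DihedralGroup (Fintype.card F + 1)) ∨
    (∃ (F₀ : Type) (_ : Field F₀) (_ : Fintype F₀) (r : ℕ), r.Prime ∧ Fintype.card F₀ ≠ 2 ∧
        Fintype.card F = Fintype.card F₀ ^ r ∧ Nonempty (M ≃* Matrix.ProjectiveSpecialLinearGroup (Fin 2) F₀)) := by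
  have hq := Nat.even_iff.1 heven
  have : CharP F 2 := ringChar.of_eq (FiniteField.even_card_iff_char_two.2 hq)
  rcases coatom_cases 2 (by omega) hM with ⟨C, N, h, rfl⟩ | h | h | h | h | ⟨x, L, r, hr, h1, h2⟩
  · have := h.dihedral'
    rw [gcd_two_even hq, Nat.div_one] at this
    rcases h.tor.card with e | e <;> rw [e] at this <;> simp only [this, true_or, or_true]
  · exact Or.inl (by rwa [gcd_two_even hq, one_mul] at h)
  · simp at h
  · simp at h
  · simp at h
  rw [GLs_eq_SLs_of_even hq] at h2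
  obtain ⟨K, _, _, f, h3, rfl⟩ := exists_model L
  by_cases h5 : Fintype.card K = 2
  swap
  · exact Or.inr (Or.inr (Or.inr ⟨K, inferInstance, inferInstance, r, hr, h5, h3 ▸ h1,
      equiv_of_map_cjP h2 (nonempty_map_SLs f)⟩))
  -- the subgroup over the prime field normalises a subgroup of order 3
  have h6 : Nat.card M = 6 := by
    have := card_map_πS (neg_one_mem_SLs f.fieldRange)
    rw [gcd_two_even hq, one_mul, card_SLs, ← h3, h5] at this
    rw [← card_map_cjP M x, h2, ← this]; rfl
  have hs := simple_PSL2 h4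
  obtain ⟨y, hy⟩ := exists_prime_orderOf_dvd_card' (G := M) 3 (by rw [h6]; norm_num)
  obtain ⟨z, hz⟩ := πS_surj y.1
  have h7 : orderOf (πS z) = 3 := by rw [hz, Subgroup.orderOf_coe, hy]
  obtain ⟨C, N, h, -, h8⟩ := exists_torN_of_reg (reg_of_not_dvd 2 (g := z)
    (fun e => by rw [πS_eq_one.2 e] at h7; simp at h7) (by rw [h7]; norm_num))
  have i1 := (Subgroup.zpowers y).index_mul_card
  rw [Nat.card_zpowers, hy, h6] at i1
  have n1 := Subgroup.normal_of_index_eq_two (show (Subgroup.zpowers y).index = 2 by omega)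
  obtain rfl : N.map πS = M := ((hM.le_iff_eq fun e => h.ne_top (by omega)
    ((map_πS_eq_top (h.le h.tor.neg_one_mem)).1 e)).1 fun g hg => by
      obtain ⟨g, rfl⟩ := πS_surj g
      obtain ⟨k, hk⟩ := n1.conj_mem _ (Subgroup.mem_zpowers y) ⟨_, hg⟩
      exact ⟨g, h8 g ⟨k, hz ▸ congrArg Subtype.val hk⟩, rfl⟩)
  have := h.dihedral'
  rw [gcd_two_even hq, Nat.div_one] at this
  rcases h.tor.card with e | e <;> rw [e] at this <;> simp only [this, true_or, or_true]

end Cfsg.Agent.S5893
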