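import Cfsg.Statements.S4707
import Mathlib
import Cfsg.Agent.H4.Dg2
import Cfsg.Agent.S5893

set_option autoImplicit false
open Cfsg

open Cfsg CfsgH4 MulAction

namespace Cfsg.Agent.S4707

/-- Let p > 3 be a prime and G a primitive permutation group of degree 2p that is not doubly transitive. If a Sylow p-subgroup of G has normalizer of order 2p, then p = 5 and G is isomorphic to the alternating group of degree 5. -/
theorem result {α : Type*} [Fintype α] [DecidableEq α] {p : ℕ} [Fact p.Prime] (hp : 3 < p) (hα : Fintype.card α = 2 * p) (G : Subgroup (Equiv.Perm α)) (hprim : MulAction.IsPreprimitive G α) (hnot2 : ¬ MulAction.IsMultiplyPretransitive G α 2) (P : Sylow p G) (hN : Nat.card (Subgroup.normalizer ((P : Subgroup G) : Set G)) = 2 * p) : p = 5 ∧ Nonempty (G ≃* alternatingGroup (Fin 5)) := by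
  have hc := Nat.card_eq_fintype_card.trans hα
  obtain ⟨-, h⟩ | ⟨h, m, F, _, _, h1, h2, ⟨e⟩, -⟩ := perm_two (Ω := α) hp hc (.inr ⟨rfl, hnot2⟩) P hN
  · omega
  have : Nontrivial α := Fintype.one_lt_card_iff_nontrivial.1 (by omega)
  obtain ⟨a⟩ : Nonempty α := inferInstance
  have h3 := CfsgH8.card_eq_mul_stabilizer (G := G) a
  have h4 : 2 ≤ m := by
    by_contra! e
    interval_cases m <;> omega
  have h5 : 4 ∣ Fintype.card F := h1 ▸ pow_dvd_pow 2 h4
  have h6 := Nat.le_of_dvd Fintype.card_pos h5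
  have h7 : Fintype.card F = 4 := by
    have b1 : IsCoatom ((stabilizer G a).comap e.symm.toMonoidHom) :=
      (OrderIso.isCoatom_iff e.symm.comapSubgroup _).2 ((isCoatom_stabilizer_iff_preprimitive G a).2 hprim)
    have b2 : 2 * Nat.card ((stabilizer G a).comap e.symm.toMonoidHom) = Fintype.card F * (Fintype.card F - 1) := by
      rw [Subgroup.comap_equiv_eq_map_symm', Subgroup.card_map_of_injective e.injective]
      refine Nat.eq_of_mul_eq_mul_left (show 0 < p by omega) ?_
      rw [← mul_assoc, mul_comm p, ← hc, ← h3, h, mul_assoc, h1, h2]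
      rfl
    obtain ⟨q, hq⟩ : ∃ q, Fintype.card F = q + 1 := ⟨_, (Nat.succ_pred_eq_of_pos Fintype.card_pos).symm⟩
    obtain b | ⟨⟨b⟩⟩ | ⟨⟨b⟩⟩ | ⟨K, _, _, r, c1, c2, c3, ⟨b⟩⟩ := Cfsg.Agent.S5893.result
      (even_iff_two_dvd.2 (Dvd.dvd.trans (by decide) h5)) h6 _ b1
    · have := Nat.card_pos (α := (stabilizer G a).comap e.symm.toMonoidHom)
      omega
    · rw [Nat.card_congr b.toEquiv, DihedralGroup.nat_card, ← mul_assoc] at b2
      exact (Nat.eq_of_mul_eq_mul_right (by omega) b2).symm
    · rw [Nat.card_congr b.toEquiv, DihedralGroup.nat_card, hq, Nat.add_sub_cancel] at b2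
      obtain c | c : q ≤ 4 ∨ 5 ≤ q := by omega
      · omega
      · nlinarith
    · have d1 := CfsgH8.card_PSL2 (F := K)
      have d2 := Nat.le_mul_of_pos_left (Nat.card (Matrix.ProjectiveSpecialLinearGroup (Fin 2) K))
        (Nat.gcd_pos_of_pos_left (Fintype.card K - 1) two_pos)
      have d3 := Nat.pow_le_pow_right (Fintype.card_pos (α := K)) c1.two_le
      have d4 := Fintype.one_lt_card (α := K)
      rw [Nat.card_congr b.toEquiv] at b2
      rw [← c3] at d3
      have := Nat.mul_le_mul d3 (Nat.sub_le_sub_right d3 1)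
      have d5 : 0 < Fintype.card K ^ 2 - 1 := Nat.sub_pos_of_lt (by nlinarith)
      have d6 : 3 * Fintype.card K ≤ Fintype.card K ^ 2 := by nlinarith [show 3 ≤ Fintype.card K by omega]
      nlinarith [Nat.mul_le_mul_right (Fintype.card K ^ 2 - 1) d6]
  have := CfsgH8.simple_PSL2 (F := F) h6
  have := e.isSimpleGroup
  exact ⟨by omega, CfsgH8.equiv_A5_of_simple (by rw [h, show p = 5 by omega])⟩

end Cfsg.Agent.S4707
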