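import Cfsg.Statements.S4741
import Mathlib
import Cfsg.Agent.H4.Rob

set_option autoImplicit false
open Cfsg

open Cfsg CfsgH3 CfsgH4 CfsgH1 CfsgL0 MonoidAlgebra Function
open scoped ComplexConjugate Pointwise

namespace Cfsg.Agent.S4741

/-- Let p be a prime, M a maximal ideal of the algebraic integers containing p, and D a subgroup of the finite group G. Let x₁, …, x_r be pairwise non-conjugate elements of G such that D is a Sylow p-subgroup of the centralizer of each xᵢ, and such that for any conjugates g of some xᵢ and h of some xⱼ the element g h⁻¹ is never a non-identity p-element. Then there are r distinct p-blocks B₁, …, B_r of G, each having D as a defect group, such that for every choice of characters χᵢ ∈ Bᵢ of height zero the determinant of the r × r matrix (χᵢ(xⱼ)) does not lie in the local ideal at M. -/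
theorem result {G : Type*} [Group G] [Finite G] (p : ℕ) [Fact p.Prime] (M : Ideal Cfsg.AlgInt) (hM : Cfsg.IsPModular p M) (D : Subgroup G) {r : ℕ} (x : Fin r → G) (hx : ∀ i j : Fin r, IsConj (x i) (x j) → i = j) (hD : ∀ i : Fin r, ∃ S : Sylow p ↥(Subgroup.centralizer ({x i} : Set G)), (S : Subgroup ↥(Subgroup.centralizer ({x i} : Set G))).map (Subgroup.centralizer ({x i} : Set G)).subtype = D) (hsep : ∀ i j : Fin r, ∀ g h : G, IsConj (x i) g → IsConj (x j) h → ∀ k : ℕ, 0 < k → orderOf (g * h⁻¹) ≠ p ^ k) : ∃ B : Fin r → Set (Cfsg.IrrCharacter G), Function.Injective B ∧ (∀ i : Fin r, Cfsg.IsPBlock M (B i) ∧ Cfsg.IsDefectGroup p M (B i) D) ∧ ∀ χ : Fin r → Cfsg.IrrCharacter G, (∀ i : Fin r, χ i ∈ B i ∧ Cfsg.blockHeight p (B i) (χ i : G → ℂ) = 0) → ¬ Cfsg.MemLocalIdeal M (Matrix.det (Matrix.of fun i j : Fin r => (χ i : G → ℂ) (x j))) := by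
  classical
  haveI : PMod p M := ⟨hM⟩
  obtain ⟨S⟩ : Nonempty (Sylow p G) := inferInstance
  have hD' : ∀ i, IsSylowIn p D (Subgroup.centralizer {x i}) := fun i => by
    obtain ⟨T, rfl⟩ := hD i; exact isSylowIn_map_subtype T
  obtain ⟨B, a, b, c⟩ := exists_blocks_det (M := M) hx hD' S fun i j g h a b c => by
    obtain ⟨k, hk⟩ := pelt_of_mem S.2 c
    rcases k with _ | k
    · simpa [mul_inv_eq_one] using hk
    · exact absurd hk (hsep i j g h a b _ k.succ_pos)
  refine ⟨fun i => (B i).1, fun i j e => a (Subtype.ext e), fun i => ⟨(B i).2, b i⟩, fun χ hχ => ?_⟩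
  obtain ⟨d, e⟩ := red_det (M := M) (A := Matrix.of fun i j => (χ i).1 (x j)) fun i j => irr_mem_Loc _ _
  have f : ∀ i j, (charDegree (χ i).1).factorization p = (Nat.card G).factorization p - (Nat.card D).factorization p ∧
      (Subgroup.centralizer {x j}).index.factorization p = (Nat.card G).factorization p - (Nat.card D).factorization p := fun i j => by
    have := fact_degree_add (p := p) (hχ i).1
    have := fact_card_eq_add p (Subgroup.centralizer {x j})
    have := (b i).fact_card (B i).2
    have := (hχ i).2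
    have : (Nat.card D).factorization p = (Nat.card (Subgroup.centralizer {x j})).factorization p := by rw [(hD' j).card_eq, (Fact.out : p.Prime).factorization_pow, Finsupp.single_eq_same]
    beta_reduce at *
    omega
  have n0 : ∀ n, (p ^ n : ℕ) ≠ 0 := fun n => pow_ne_zero _ (Fact.out : p.Prime).ne_zero
  have f0 : ∀ n, (p ^ n : ℕ).factorization p = n := fun n => by
    rw [(Fact.out : p.Prime).factorization_pow, Finsupp.single_eq_same]
  set k := (Nat.card G).factorization p - (Nat.card D).factorization p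
  have g1 : ∀ i, ((charDegree (χ i).1 : ℂ) / (p ^ k : ℕ)) ∈ Loc M ∧ ¬ MemLocalIdeal M ((charDegree (χ i).1 : ℂ) / (p ^ k : ℕ)) := fun i => by
    rw [div_mem_Loc_iff (charDegree_ne_zero (χ i).2) (n0 k), InP_div_iff (charDegree_ne_zero (χ i).2) (n0 k), f0, (f i i).1]; simp
  have g2 : ∀ j, (((p ^ k : ℕ) : ℂ) / (Subgroup.centralizer {x j}).index) ∈ Loc M ∧ ¬ MemLocalIdeal M (((p ^ k : ℕ) : ℂ) / (Subgroup.centralizer {x j}).index) := fun j => by
    rw [div_mem_Loc_iff (n0 k) (index_ne_zero' _), InP_div_iff (n0 k) (index_ne_zero' _), f0, (f j j).2]; simp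
  rw [← red_eq_zero_iff d, e, show (Matrix.of fun i j => (χ i).1 (x j)).map (red M) =
    Matrix.of fun i j => red M ((charDegree (χ i).1 : ℂ) / (p ^ k : ℕ)) * (Matrix.of fun i j => red M (((p ^ k : ℕ) : ℂ) / (Subgroup.centralizer {x j}).index) * (Matrix.of fun i j => wB (B i) (x j)) i j) i j from ?_,
    Matrix.det_mul_column, Matrix.det_mul_row]
  · exact mul_ne_zero (Finset.prod_ne_zero_iff.2 fun i _ => by rw [Ne, red_eq_zero_iff (g1 i).1]; exact (g1 i).2)
      (mul_ne_zero (Finset.prod_ne_zero_iff.2 fun i _ => by rw [Ne, red_eq_zero_iff (g2 i).1]; exact (g2 i).2) c)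
  · ext i j
    simp only [Matrix.map_apply, Matrix.of_apply]
    rw [wB_eq _ (hχ i).1, ← red_mul (g2 j).1 (centralChar_mem_Loc (χ i).2 _), ← red_mul (g1 i).1
      (mul_mem (g2 j).1 (centralChar_mem_Loc (χ i).2 _)), apply_eq_centralChar_mul]
    have : ((p ^ k : ℕ) : ℂ) ≠ 0 := Nat.cast_ne_zero.2 (n0 k)
    congr 1; field_simp

end Cfsg.Agent.S4741
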