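import Cfsg.Statements.S4742
import Mathlib
import Cfsg.Agent.H4.Rob2

set_option autoImplicit false
open Cfsg

open Cfsg CfsgH4 CfsgH1 CfsgL0 MonoidAlgebra Function
open CfsgH3 hiding cj cj_cj
open scoped ComplexConjugate Pointwise

namespace Cfsg.Agent.S4742

/-- Let p ≠ q be primes dividing the order of the finite group G, and suppose the centralizer of every non-identity p-element of G has order prime to q. Then either G has an irreducible character of p-defect zero, or for every non-identity q-element z of G there are conjugates g, h of z such that g h⁻¹ is a non-identity p-element. -/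
theorem result {G : Type*} [Group G] [Finite G] (p q : ℕ) [Fact p.Prime] [Fact q.Prime] (hppq : p ≠ q) (hpG : p ∣ Nat.card G) (hqG : q ∣ Nat.card G) (hC : ∀ g : G, g ≠ 1 → (∃ k : ℕ, orderOf g = p ^ k) → ¬ q ∣ Nat.card ↥(Subgroup.centralizer ({g} : Set G))) : (∃ χ : Cfsg.IrrCharacter G, (Cfsg.charDegree (χ : G → ℂ)).factorization p = (Nat.card G).factorization p) ∨ ∀ z : G, z ≠ 1 → (∃ k : ℕ, orderOf z = q ^ k) → ∃ g h : G, IsConj z g ∧ IsConj z h ∧ g * h⁻¹ ≠ 1 ∧ ∃ k : ℕ, orderOf (g * h⁻¹) = p ^ k := by
  refine or_iff_not_imp_left.2 fun h z h1 hz => (dz_or fun e => ?_).resolve_left h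
  obtain ⟨x, hx⟩ := exists_prime_orderOf_dvd_card' p e
  rw [← Subgroup.orderOf_coe] at hx
  refine hC x (fun e => (Fact.out : p.Prime).one_lt.ne (by rw [← hx, e, orderOf_one])) ⟨1, by simpa using hx⟩
    ((of_not_not fun e => h1 ((ppart_of_pelt hz).symm.trans (ppart_of_reg e))).trans
      (Subgroup.orderOf_dvd_natCard _ (Subgroup.mem_centralizer_singleton_iff.2
        (Subgroup.mem_centralizer_singleton_iff.1 x.2).symm)))

end Cfsg.Agent.S4742
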