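import Cfsg.Statements.S4743
import Mathlib
import Cfsg.Agent.H4.Rob2
import Cfsg.Agent.S4742

set_option autoImplicit false
open Cfsg

open Cfsg CfsgH4 CfsgH1 CfsgL0 MonoidAlgebra Function
open CfsgH3 hiding cj cj_cj
open scoped ComplexConjugate Pointwise

namespace Cfsg.Agent.S4743

theorem aux {G : Type*} [Group G] [Finite G] {p q : ℕ} (hp : p.Prime) (hq : q.Prime) (hpq : p ≠ q) (hpG : p ∣ Nat.card G) (h : IsPSolvable p G) : ∃ N : Subgroup G, N.Normal ∧ (p ∣ Nat.card N ∧ ¬ q ∣ Nat.card N ∨ q ∣ Nat.card N ∧ ¬ p ∣ Nat.card N) := by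
  obtain ⟨n, H, a, b, c, d, e⟩ := h
  by_contra! f
  have : ∀ i, ¬ p ∣ Nat.card (H i) ∧ ¬ q ∣ Nat.card (H i) := fun i => by
    induction i using Fin.induction with
    | zero => simp [a, hp.ne_one, hq.ne_one]
    | succ i ih =>
      have g := CfsgH1.card_mul_relIndex (c i.castSucc_le_succ)
      have k := f _ (d i.succ)
      rw [← g, hp.dvd_mul, hq.dvd_mul] at k ⊢
      rcases e i with ⟨m, hm⟩ | hm
      · have : ¬ q ∣ (H i.castSucc).relIndex (H i.succ) := fun e =>
          hpq ((Nat.prime_dvd_prime_iff_eq hq hp).1 (hq.dvd_of_dvd_pow (hm ▸ e))).symm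
        tauto
      · have := hp.coprime_iff_not_dvd.1 hm.symm
        tauto
  exact (this _).1 (by rwa [b, Subgroup.card_top])

theorem aux2 {G : Type*} [Group G] [Finite G] {p q : ℕ} [hp : Fact p.Prime] [hq : Fact q.Prime] {N : Subgroup G} (hN : N.Normal) (h1 : q ∣ Nat.card N) (h2 : ¬ p ∣ Nat.card N) : ¬ ∀ z : G, z ≠ 1 → (∃ k : ℕ, orderOf z = q ^ k) → ∃ g h : G, IsConj z g ∧ IsConj z h ∧ g * h⁻¹ ≠ 1 ∧ ∃ k : ℕ, orderOf (g * h⁻¹) = p ^ k := fun h => by
  obtain ⟨x, hx⟩ := exists_prime_orderOf_dvd_card' q h1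
  rw [← Subgroup.orderOf_coe] at hx
  obtain ⟨g, k, a, b, c, d⟩ := h x (fun e => hq.out.one_lt.ne (by rw [← hx, e, orderOf_one])) ⟨1, by simpa using hx⟩
  obtain ⟨s, rfl⟩ := isConj_iff.1 a
  obtain ⟨t, rfl⟩ := isConj_iff.1 b
  exact c ((ppart_of_pelt d).symm.trans (ppart_of_reg fun e => h2 (e.trans (Subgroup.orderOf_dvd_natCard _
    (mul_mem (hN.conj_mem _ x.2 s) (inv_mem (hN.conj_mem _ x.2 t)))))))

/-- Let p ≠ q be primes dividing the order of the finite group G, suppose the centralizer of every non-identity p-element has order prime to q, and suppose G is p-solvable or q-solvable. Then G has an irreducible character of p-defect zero or an irreducible character of q-defect zero. -/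
theorem result {G : Type*} [Group G] [Finite G] (p q : ℕ) [Fact p.Prime] [Fact q.Prime] (hppq : p ≠ q) (hpG : p ∣ Nat.card G) (hqG : q ∣ Nat.card G) (hC : ∀ g : G, g ≠ 1 → (∃ k : ℕ, orderOf g = p ^ k) → ¬ q ∣ Nat.card ↥(Subgroup.centralizer ({g} : Set G))) (hsolv : Cfsg.IsPSolvable p G ∨ Cfsg.IsPSolvable q G) : (∃ χ : Cfsg.IrrCharacter G, (Cfsg.charDegree (χ : G → ℂ)).factorization p = (Nat.card G).factorization p) ∨ (∃ χ : Cfsg.IrrCharacter G, (Cfsg.charDegree (χ : G → ℂ)).factorization q = (Nat.card G).factorization q) := by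
  have hC' : ∀ g : G, g ≠ 1 → (∃ k : ℕ, orderOf g = q ^ k) → ¬ p ∣ Nat.card ↥(Subgroup.centralizer ({g} : Set G)) := fun z h1 hz e => by
    obtain ⟨x, hx⟩ := exists_prime_orderOf_dvd_card' p e
    rw [← Subgroup.orderOf_coe] at hx
    refine hC x (fun e => (Fact.out : p.Prime).one_lt.ne (by rw [← hx, e, orderOf_one])) ⟨1, by simpa using hx⟩
      ((of_not_not fun e => h1 ((ppart_of_pelt hz).symm.trans (ppart_of_reg e))).trans
        (Subgroup.orderOf_dvd_natCard _ (Subgroup.mem_centralizer_singleton_iff.2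
          (Subgroup.mem_centralizer_singleton_iff.1 x.2).symm)))
  obtain ⟨N, a, b⟩ : ∃ N : Subgroup G, N.Normal ∧ (p ∣ Nat.card N ∧ ¬ q ∣ Nat.card N ∨ q ∣ Nat.card N ∧ ¬ p ∣ Nat.card N) :=
    hsolv.elim (aux Fact.out Fact.out hppq hpG) fun h =>
      (aux Fact.out Fact.out hppq.symm hqG h).imp fun _ h => ⟨h.1, h.2.symm⟩
  rcases b with b | b
  · exact .inr ((S4742.result q p hppq.symm hqG hpG hC').resolve_right (aux2 a b.1 b.2))
  · exact .inl ((S4742.result p q hppq hpG hqG hC).resolve_right (aux2 a b.1 b.2))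

end Cfsg.Agent.S4743
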