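import Cfsg.Statements.S4744
import Mathlib
import Cfsg.Agent.H4.Rob2

set_option autoImplicit false
open Cfsg

open Cfsg CfsgH4 CfsgH1 CfsgL0 MonoidAlgebra Function
open CfsgH3 hiding cj cj_cj
open scoped ComplexConjugate Pointwise

namespace Cfsg.Agent.S4744

/-- Let p be an odd prime and G a finite group of even order divisible by p in which the centralizer of every non-identity p-element has odd order. Then either G has an irreducible character of p-defect zero, or the normalizer of every Sylow p-subgroup P of G has even order and P is abelian. -/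
theorem result {G : Type*} [Group G] [Finite G] (p : ℕ) [Fact p.Prime] (hp2 : p ≠ 2) (hpG : p ∣ Nat.card G) (h2G : 2 ∣ Nat.card G) (hC : ∀ g : G, g ≠ 1 → (∃ k : ℕ, orderOf g = p ^ k) → Odd (Nat.card ↥(Subgroup.centralizer ({g} : Set G)))) : (∃ χ : Cfsg.IrrCharacter G, (Cfsg.charDegree (χ : G → ℂ)).factorization p = (Nat.card G).factorization p) ∨ ∀ P : Sylow p G, Even (Nat.card ↥(Subgroup.normalizer ((P : Subgroup G) : Set G))) ∧ IsMulCommutative ↥(P : Subgroup G) := by
  refine (dz_or_inv hC).imp_right fun h P => ?_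
  obtain ⟨t, ht⟩ := exists_prime_orderOf_dvd_card' 2 h2G
  obtain ⟨s, a, hs⟩ := h t ht P
  refine ⟨even_iff_two_dvd.2 (((orderOf_isConj a).trans ht).symm.dvd.trans (Subgroup.orderOf_dvd_natCard _
    (mem_normalizer_of_cj_le ?_))), ⟨⟨fun a b => Subtype.ext (comm_of_inv hs a.2 b.2)⟩⟩⟩
  rintro _ ⟨y, hy, rfl⟩
  show s * y * s⁻¹ ∈ P.1
  rw [hs y hy]; exact inv_mem hy

end Cfsg.Agent.S4744
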