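import Cfsg.Statements.S4746
import Mathlib
import Cfsg.Agent.H4.Rob2

set_option autoImplicit false
open Cfsg

open Cfsg CfsgH4 CfsgH1 CfsgL0 MonoidAlgebra Function
open CfsgH3 hiding cj cj_cj
open scoped ComplexConjugate Pointwise

namespace Cfsg.Agent.S4746

/-- Let p be an odd prime and G a finite group of even order divisible by p in which the centralizer of every non-identity p-element has odd order. Then G has an irreducible character of p-defect zero or an irreducible character of even degree. -/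
theorem result {G : Type*} [Group G] [Finite G] (p : ℕ) [Fact p.Prime] (hp2 : p ≠ 2) (hpG : p ∣ Nat.card G) (h2G : 2 ∣ Nat.card G) (hC : ∀ g : G, g ≠ 1 → (∃ k : ℕ, orderOf g = p ^ k) → Odd (Nat.card ↥(Subgroup.centralizer ({g} : Set G)))) : (∃ χ : Cfsg.IrrCharacter G, (Cfsg.charDegree (χ : G → ℂ)).factorization p = (Nat.card G).factorization p) ∨ ∃ χ : Cfsg.IrrCharacter G, Even (Cfsg.charDegree (χ : G → ℂ)) := by
  refine (dz_or_inv hC).imp_right fun h => ?_
  obtain ⟨t, ht⟩ := exists_prime_orderOf_dvd_card' 2 h2G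
  obtain ⟨P⟩ : Nonempty (Sylow p G) := inferInstance
  obtain ⟨s, a, hs⟩ := h t ht P
  obtain ⟨u, hu, h1⟩ := (Subgroup.bot_or_exists_ne_one P.1).resolve_left (P.ne_bot_of_dvd_card hpG)
  by_contra! e
  exact Nat.not_even_iff_odd.2 (hC u h1 (pelt_of_mem P.2 hu)) (even_cent_of_real h1
    (isConj_iff.2 ⟨s, hs u hu⟩) fun χ => Nat.not_even_iff_odd.1 (e χ))

end Cfsg.Agent.S4746
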