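import Mathlib
import Cfsg.Statements.S4748
import Cfsg.Agent.H8.TI1
import Cfsg.Agent.H3.Wiel
import Cfsg.Agent.H3.Kernel

set_option autoImplicit false
open scoped Pointwise
open Cfsg

namespace Cfsg.Agent.S4748

open Subgroup CfsgH1 CfsgH2 CfsgH3 CfsgH8 CfsgH8.TI Function Module Representation
open scoped commutatorElement

theorem frob_dim {G W : Type*} [Group G] [Finite G] [AddCommGroup W] [Module ℂ W] [FiniteDimensional ℂ W]
    {U E X : Subgroup G} (h : Frob U E X) (τ : Representation ℂ G W)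
    (n : ¬ ∀ w, ∀ u ∈ U, τ u w = w) {v : W} (v0 : v ≠ 0) (hv : ∀ u, τ u v = v) :
    Nat.card E < finrank ℂ W := by
  replace n : invariants (τ.comp U.subtype) ≠ ⊤ := fun e => n fun w u hu => e.ge (Submodule.mem_top (x := w)) ⟨u, hu⟩
  haveI : Nontrivial (invariants (τ.comp U.subtype)) := ⟨⟨v, fun u => hv u⟩, 0, fun e => v0 (congrArg (·.1) e)⟩
  have := finrank_pos (R := ℂ) (M := invariants (τ.comp U.subtype))
  have k : ∀ A : Subgroup G, ∑ a ∈ fs A, τ.character a =
      Nat.card A * finrank ℂ (invariants (τ.comp A.subtype)) := fun A => by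
    haveI := Fintype.ofFinite A
    haveI := invertibleOfNonzero (natCard_ne_zero A)
    rw [← card_inv_mul_sum_char_eq_finrank, mul_inv_cancel_left₀ (natCard_ne_zero A)]
    exact Finset.sum_subtype _ (fun _ => mem_fs) _
  have e := sum_frob h (t := τ.character) fun g _ x _ => char_conj τ x g
  rw [k, k, k, char_one, h.card] at e
  have l := Submodule.finrank_lt n
  have e' : Nat.card E * finrank ℂ (invariants (τ.comp X.subtype)) + finrank ℂ W =
      finrank ℂ (invariants (τ.comp U.subtype)) + Nat.card E * finrank ℂ (invariants (τ.comp E.subtype)) := by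
    have : (Nat.card U : ℂ) ≠ 0 := natCard_ne_zero U
    refine Nat.cast_injective (R := ℂ) (mul_left_cancel₀ this ?_)
    push_cast at e ⊢
    linear_combination e
  have := Nat.lt_of_mul_lt_mul_left (show Nat.card E * finrank ℂ (invariants (τ.comp X.subtype)) <
    Nat.card E * finrank ℂ (invariants (τ.comp E.subtype)) by omega)
  have := Nat.mul_le_mul_left (Nat.card E) this
  rw [Nat.mul_succ] at this
  omega

/-- Let G be a finite p-solvable group whose Sylow p-subgroup P meets each conjugate g P g⁻¹ with g outside N_G(P) trivially, and let χ be a faithful character of G (χ g = χ 1 only for g = 1) whose degree d satisfies d² ≤ |P|. Then P is normal in G. -/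
theorem result {G : Type*} [Group G] [Finite G] (p : ℕ) [Fact p.Prime] (hsolv : Cfsg.IsPSolvable p G) (P : Sylow p G) (hTI : ∀ g : G, g ∉ Subgroup.normalizer ((P : Subgroup G) : Set G) → (P : Subgroup G) ⊓ (MulAut.conj g • (P : Subgroup G)) = ⊥) (χ : G → ℂ) (hχ : Cfsg.IsCharacter G χ) (hfaith : ∀ g : G, χ g = χ 1 → g = 1) (hdeg : Cfsg.charDegree χ ^ 2 ≤ Nat.card ↥(P : Subgroup G)) : (P : Subgroup G).Normal := by
  by_contra nn
  have d : p ∣ Nat.card P := dvd_card_of_pgroup P.isPGroup' fun e => nn (e ▸ inferInstance)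
  obtain ⟨k, M, h0, h1, h2, h3, h4⟩ := hsolv
  have h := th_of_sep (fun g n x hx e => conj_eq_one_iff.1 ((hTI g n).le ⟨e, ⟨x, hx, rfl⟩⟩)) nn
    ((syl_top P).mono le_normalizer le_top).coprime ⟨k, M, h0, h1, h2, h3, fun i => (h4 i).imp
      (fun ⟨m, e⟩ q hq k => ((Nat.prime_dvd_prime_iff_eq hq Fact.out).1
        (hq.dvd_of_dvd_pow (e ▸ k))).dvd.trans d)
      fun c => by obtain ⟨m, e⟩ := P.isPGroup'.exists_card_eq; exact e ▸ c.pow_right m⟩
  obtain ⟨R, l, nR, -, c, f⟩ := exists_frob_qt h.nO h.cop (.inl (isSolvable_of_pgroup P.isPGroup'))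
    (fun _ hx x1 => (inf_le_inf_left _ (ti_cent h.ti hx x1)).trans h.cent) (h.not_le le_rfl h.ne_bot)
  obtain ⟨n, ρ, rfl⟩ := hχ
  have i : Injective ρ := (injective_iff_map_eq_one ρ).2 fun g e =>
    hfaith g ((character_eq_one_iff ρ g).2 e)
  let σ : Representation ℂ N[⁅R, R⁆] _ := (linHom ρ ρ).comp N[⁅R, R⁆].subtype
  have m : ∀ x g : G, linHom ρ ρ g (ρ x) = ρ x ↔ g * x = x * g := fun x g => by
    rw [linHom_apply, ← End.mul_eq_comp, ← End.mul_eq_comp, ← map_mul, ← map_mul, i.eq_iff, ← mul_assoc,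
      mul_inv_eq_iff_eq_mul]
  have n1 : R ≤ N[⁅R, R⁆] := le_norm_comm_left
  have n2 : P ≤ N[⁅R, R⁆] := le_norm_commutator nR nR
  have := frob_dim (W := invariants (σ.comp (⁅R, R⁆.subgroupOf _).subtype)) f
    (quotientToInvariants σ (⁅R, R⁆.subgroupOf _)) (fun e => f.ker_ne ?_) (v := ⟨ρ 1, fun g => (m 1 _).2 (by simp)⟩)
    (fun e => h.ne_bot (eq_bot_iff.2 fun x _ => i (by
      rw [← mul_one x, map_mul, show ρ 1 = 0 from congrArg Subtype.val e, mul_zero]))) fun g => by
      obtain ⟨y, rfl⟩ := qmk_surj g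
      exact Subtype.ext ((m 1 _).2 (by simp))
  · rw [card_qt_of_disj n2 (inf_eq_bot_of_coprime' (h.cop.coprime_dvd_right
      (card_dvd_of_le (commutator_self_le.trans l))))] at this
    have h5 := this.trans_le (Submodule.finrank_le _)
    simp [charDegree, Module.finrank_linearMap, sq] at hdeg h5
    omega
  obtain ⟨y, hy, y1⟩ := exists_ne_one f.comp_ne
  have : (P : Subgroup G) ≤ C[R] := fun x hx r hr => (m x r).1 (congrArg Subtype.val
    (e ⟨ρ x, fun g => (m x _).2 (c hx _ g.2)⟩ _ (qmk_mem_qt (n1 hr) hr)))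
  exact (inf_eq_left.2 (le_cent1_iff.2 (qt_le_cent this hy))).symm.trans (f.fpf y hy y1)

end Cfsg.Agent.S4748
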