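import Cfsg.Statements.S4750
import Cfsg.Agent.H3.Cd4
import Cfsg.Agent.H8.PermModule

set_option autoImplicit false
open scoped Pointwise
open Cfsg

open Cfsg CfsgH3 CfsgH4 Function Subgroup IsLocalRing
open CfsgH2 hiding cj_apply isPGroup_pCore le_pCore isNilpotent_map card_mul_relIndex
open scoped ComplexConjugate commutatorElement CfsgH2

namespace Cfsg.Agent.S4750
theorem exists_val (p : ℕ) [hp : Fact p.Prime] : ∃ O : ValuationSubring ℂ, O.valuation p < 1 := by
  obtain ⟨O, -, h⟩ := Ideal.image_subset_nonunits_valuationSubring (A := (Int.castRingHom ℂ).range) (Ideal.span {(p : (Int.castRingHom ℂ).range)}) fun e => by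
    obtain ⟨⟨_, m, rfl⟩, h⟩ := isUnit_iff_exists_inv.1 (Ideal.span_singleton_eq_top.1 e)
    have : (p : ℂ) * m = 1 := congrArg Subtype.val h
    exact hp.out.one_lt.ne' (by exact_mod_cast Int.eq_one_of_mul_eq_one_right p.cast_nonneg (by exact_mod_cast this : (p : ℤ) * m = 1))
  exact ⟨O, O.mem_nonunits_iff.1 (h ⟨p, Ideal.mem_span_singleton_self _, by simp⟩)⟩
theorem exists_scale (O : ValuationSubring ℂ) {ι : Type*} [Finite ι] {c : ι → ℂ} (h : c ≠ 0) :
    ∃ i, c i ≠ 0 ∧ ∀ j, O.valuation ((c i)⁻¹ * c j) ≤ 1 := by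
  obtain ⟨k, hk⟩ := Function.ne_iff.1 h
  haveI : Nonempty ι := ⟨k⟩
  obtain ⟨i, hi⟩ := Finite.exists_max fun j => O.valuation (c j)
  have : O.valuation (c i) ≠ 0 := (lt_of_lt_of_le (zero_lt_iff.2 ((map_ne_zero _).2 hk)) (hi k)).ne'
  exact ⟨i, (map_ne_zero _).1 this, fun j => by rw [map_mul, map_inv₀, inv_mul_le_one₀ (zero_lt_iff.2 this)]; exact hi j⟩
theorem small {P ι : Type*} [Group P] [Fintype P] {p : ℕ} [Fact p.Prime] (hP : IsPGroup p P) {O : ValuationSubring ℂ}
    (hO : O.valuation p < 1) (w : P → ι → ℂ) (h1 : ∀ x i, O.valuation (w x i) ≤ 1) (s : P → ι → ι) (h2 : ∀ g x i, w (g * x) i = w x (s g i))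
    (h3 : ¬ LinearIndependent ℂ w) (i : ι) : O.valuation (∑ x, w x i) < 1 := by
  classical
  haveI : CharP (ResidueField O) p := (CharP.charP_iff_prime_eq_zero Fact.out).2 (by
    rw [← map_natCast (residue O), residue_eq_zero_iff, O.valuation_lt_one_iff]
    simpa using hO)
  let W : Submodule (ResidueField O) (P → ResidueField O) :=
    { carrier := {d | ∃ c : P → O, (∀ x, residue O (c x) = d x) ∧ ∀ i, O.valuation (∑ x, c x * w x i) < 1}
      add_mem' := by
        rintro _ _ ⟨c, a, b⟩ ⟨c', a', b'⟩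
        exact ⟨c + c', fun x => by simp [a, a'], fun i => by
          simpa [add_mul, Finset.sum_add_distrib] using Valuation.map_add_lt _ (b i) (b' i)⟩
      zero_mem' := ⟨0, by simp, by simp⟩
      smul_mem' := by
        rintro r _ ⟨c, a, b⟩
        obtain ⟨r, rfl⟩ := residue_surjective r
        exact ⟨r • c, fun x => by simp [a], fun i => by
          simpa [mul_assoc, ← Finset.mul_sum] using mul_lt_one_of_nonneg_of_lt_one_right (O.valuation_le_one r) zero_le (b i)⟩ }
  let τ : Representation (ResidueField O) P (P → ResidueField O) :=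
    ⟨⟨fun g => LinearMap.funLeft _ _ (g⁻¹ * ·), by ext; simp⟩, fun g h => by ext; simp [mul_assoc]⟩
  obtain ⟨d, ⟨c, a, b⟩, h4, h5⟩ := CfsgH8.exists_fixed_of_isPGroup hP τ W (by
    rintro g d ⟨c, a, b⟩
    refine ⟨fun x => c (g⁻¹ * x), fun x => a _, fun i => ?_⟩
    rw [← Equiv.sum_comp (Equiv.mulLeft g)]
    simpa [h2] using b (s g i)) (by
    obtain ⟨c, a, b⟩ := Fintype.not_linearIndependent_iff.1 h3
    obtain ⟨k, h4, h5⟩ := exists_scale O (Function.ne_iff.2 b)
    refine (Submodule.ne_bot_iff _).2 ⟨_, ⟨fun x => ⟨_, (O.valuation_le_one_iff _).1 (h5 x)⟩, fun x => rfl, fun i => ?_⟩,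
      Function.ne_iff.2 ⟨k, ?_⟩⟩
    · have := congrFun a i
      simp only [Finset.sum_apply, Pi.smul_apply, smul_eq_mul, Pi.zero_apply] at this
      simp [mul_assoc, ← Finset.mul_sum, this]
    · rw [Ne, Pi.zero_apply, residue_eq_zero_iff, O.valuation_lt_one_iff]
      simp [h4])
  have h6 : ∀ x, O.valuation ((c 1 : ℂ) - c x) < 1 := fun x => by
    have := congrFun (h5 x) x
    simp only [τ, MonoidHom.coe_mk, OneHom.coe_mk, LinearMap.funLeft_apply, inv_mul_cancel, ← a] at this
    rw [← sub_eq_zero, ← map_sub, residue_eq_zero_iff, O.valuation_lt_one_iff] at this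
    simpa using this
  have h7 : O.valuation (c 1) = 1 := (O.valuation_lt_one_or_eq_one _).resolve_left fun e => h4 (funext fun x => by
    rw [← a, Pi.zero_apply, residue_eq_zero_iff, O.valuation_lt_one_iff]
    simpa using Valuation.map_sub_lt _ e (h6 x))
  have := Valuation.map_add_lt _ (b i) (Valuation.map_sum_lt _ one_ne_zero fun x (_ : x ∈ Finset.univ) =>
    (map_mul _ _ (w x i)).trans_lt (mul_lt_one_of_nonneg_of_lt_one_left zero_le (h6 x) (h1 x i)))
  simpa [← Finset.sum_add_distrib, ← add_mul, ← Finset.mul_sum, h7] using this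
theorem big {G : Type*} [Group G] [Fintype G] {p : ℕ} [Fact p.Prime] {P H : Subgroup G} [Fintype H] (hP : IsPGroup p P)
    (hf : ∀ x ∈ P, ∀ g, g⁻¹ * x * g ∈ H → x = 1 ∨ g ∈ H) (hl : P ≤ H) {ψ : G → ℂ} (hψ : IsIrrCharacter G ψ) (h1 : ψ ≠ fun _ => 1)
    (h2 : classInner (fun h : H => ψ h) (fun _ => 1) ≠ 0) : o[P] ≤ charDegree ψ := by
  classical
  obtain ⟨n, ρ, hρ, rfl⟩ := id hψ
  obtain ⟨O, hO⟩ := exists_val p
  have := Fintype.ofFinite P
  have := Fintype.ofFinite (G ⧸ H)
  obtain ⟨v, v0, v1⟩ : ∃ v, v ≠ 0 ∧ ∀ h ∈ H, ρ h v = v := by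
    obtain ⟨u, hu⟩ := DFunLike.ne_iff.1 (show (∑ h : H, ρ h) ≠ 0 from fun e => h2 (by
      rw [classInner_one_right]
      simpa [Representation.character] using congrArg (LinearMap.trace ℂ _) e))
    refine ⟨_, hu, fun h hh => ?_⟩
    simp only [LinearMap.sum_apply, map_sum, ← Module.End.mul_apply, ← map_mul]
    exact Equiv.sum_comp (Equiv.mulLeft (⟨h, hh⟩ : H)) fun x : H => ρ x u
  obtain ⟨⟨g, i⟩, v2, v3⟩ := exists_scale O (c := fun t : G × Fin n => ρ t.1 v t.2) fun e => v0 (funext fun i => by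
    simpa using congrFun e (1, i))
  obtain ⟨v, v1, v2, v3⟩ : ∃ v, (∀ h ∈ H, ρ h v = v) ∧ ρ g v i = 1 ∧ ∀ a j, O.valuation (ρ a v j) ≤ 1 :=
    ⟨(ρ g v i)⁻¹ • v, fun h hh => by rw [map_smul, v1 h hh], by simpa using inv_mul_cancel₀ v2, fun a j => by simpa using v3 (a, j)⟩
  have e0 : ∀ (x : G) (q : G ⧸ H), ρ (x • q).out v = ρ (x * q.out) v := fun x q => by
    obtain ⟨h, e⟩ := QuotientGroup.mk_out_eq_mul H (x * q.out)
    rw [← q.out_eq, MulAction.Quotient.smul_mk, q.out_eq, smul_eq_mul, e, map_mul, Module.End.mul_apply, v1 h h.2]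
  have e1 : ∑ q : G ⧸ H, ρ q.out v = 0 := by
    have a := sum_smul_rep_eq_scalar ρ (isClassFunction_const 1)
    have b := hψ.classInner_of_ne isIrr_one h1
    rw [classInner_one_right, mul_eq_zero, or_iff_right (by simp)] at b
    simp only [one_mul, one_smul, b, zero_div, zero_smul] at a
    have c := sum_eq_card_smul_sum_quotient H (fun g => ρ g v) fun g h hh => by rw [map_mul, Module.End.mul_apply, v1 h hh]
    rw [← LinearMap.sum_apply, a, eq_comm, LinearMap.zero_apply, smul_eq_zero] at c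
    exact c.resolve_left Nat.card_pos.ne'
  by_contra! hd
  have e2 : ∀ S : Finset (G ⧸ H), (∀ x ∈ P, ∀ q ∈ S, x • q ∈ S) → ((1 : G) : G ⧸ H) ∉ S →
      O.valuation (∑ q ∈ S, ρ (g * q.out) v i) < 1 := fun S => by
    induction S using Finset.strongInduction with | _ S ih =>
    intro a b
    rcases S.eq_empty_or_nonempty with rfl | ⟨q, hq⟩
    · simp
    have inj : Injective fun x : P => (x : G) • q := fun x y e => by
      have e : ((y⁻¹ * x : P) : G) • q = q := by rw [coe_mul, mul_smul, coe_inv, inv_smul_eq_iff]; exact e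
      rw [← q.out_eq, MulAction.Quotient.smul_mk, eq_comm, QuotientGroup.eq, smul_eq_mul, ← mul_assoc] at e
      refine (inv_mul_eq_one.1 (Subtype.ext ((hf _ (y⁻¹ * x).2 _ e).resolve_right fun k => b ?_))).symm
      rwa [((QuotientGroup.eq.2 (by simpa using k) : ((1 : G) : G ⧸ H) = (q.out : G)).trans q.out_eq)]
    have sub : Finset.univ.map ⟨_, inj⟩ ⊆ S := fun r hr => by
      obtain ⟨x, -, rfl⟩ := Finset.mem_map.1 hr
      exact a x x.2 q hq
    rw [← Finset.sum_sdiff sub, Finset.sum_map]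
    refine Valuation.map_add_lt _ (ih _ (Finset.sdiff_ssubset sub (by simp)) (fun x hx r hr => ?_) fun k => b (Finset.mem_sdiff.1 k).1) ?_
    · rw [Finset.mem_sdiff] at hr ⊢
      refine ⟨a x hx r hr.1, fun k => hr.2 ?_⟩
      obtain ⟨y, -, e⟩ := Finset.mem_map.1 k
      exact Finset.mem_map.2 ⟨(⟨x, hx⟩ : P)⁻¹ * y, Finset.mem_univ _, by
        simpa [mul_smul, inv_smul_eq_iff] using e⟩
    · simp only [Embedding.coeFn_mk, map_mul, Module.End.mul_apply, e0]
      refine small hP hO (fun x (t : G × Fin n) => ρ t.1 (ρ x (ρ q.out v)) t.2) (fun x t => by simpa using v3 (t.1 * x * q.out) t.2)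
        (fun x t => (t.1 * x, t.2)) (fun x y t => by simp) (fun k => ?_) (g, i)
      have := (LinearIndependent.of_comp (LinearMap.pi fun t : G × Fin n => (LinearMap.proj t.2).comp (ρ t.1))
        (v := fun x : P => ρ x (ρ q.out v)) k).fintype_card_le_finrank
      have e := coe_charDegree hψ.isCharacter
      rw [Representation.char_one, Nat.cast_inj] at e
      rw [← e, ← Nat.card_eq_fintype_card] at this
      omega
  have e3 := e2 (Finset.univ.erase ((1 : G) : G ⧸ H)) (fun x hx q hq => Finset.mem_erase.2 ⟨fun e => (Finset.mem_erase.1 hq).1 (by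
    rw [smul_eq_iff_eq_inv_smul] at e
    rw [e, MulAction.Quotient.smul_mk, QuotientGroup.eq]
    simpa using hl hx), Finset.mem_univ _⟩) (Finset.notMem_erase _ _)
  have e4 := congrArg (fun u => ρ g u i) e1
  rw [← Finset.add_sum_erase _ _ (Finset.mem_univ ((1 : G) : G ⧸ H)), v1 _ (by
    simpa using QuotientGroup.eq.1 (Quotient.out_eq ((1 : G) : G ⧸ H)))] at e4
  simp only [map_add, map_sum, Pi.add_apply, Finset.sum_apply, v2, map_zero, Pi.zero_apply, add_eq_zero_iff_neg_eq] at e4
  simp only [map_mul, Module.End.mul_apply, ← e4] at e3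
  simp at e3

/-- Let P be a Sylow p-subgroup of the finite group G that meets each conjugate g P g⁻¹ with g outside N_G(P) trivially, χ a character of G with χ(1)² ≤ |P|, and H a subgroup of G containing N_G(P). Then the inner product of χ with itself over G equals the inner product over H of the restriction of χ to H. -/
theorem result {G : Type*} [Group G] [Fintype G] [DecidableEq G] (p : ℕ) [Fact p.Prime] (P : Sylow p G) (hTI : ∀ g : G, g ∉ Subgroup.normalizer ((P : Subgroup G) : Set G) → (P : Subgroup G) ⊓ (MulAut.conj g • (P : Subgroup G)) = ⊥) (χ : G → ℂ) (hχ : Cfsg.IsCharacter G χ) (hdeg : Cfsg.charDegree χ ^ 2 ≤ Nat.card ↥(P : Subgroup G)) (H : Subgroup G) [Fintype ↥H] (hH : Subgroup.normalizer ((P : Subgroup G) : Set G) ≤ H) : Cfsg.classInner χ χ = Cfsg.classInner (fun h : ↥H => χ h) (fun h : ↥H => χ h) := by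
  have hP := (syl_top P).mono (le_normalizer.trans hH) le_top
  have hf : ∀ x ∈ (P : Subgroup G), ∀ g, g⁻¹ * x * g ∈ H → x = 1 ∨ g ∈ H := fun x hx g hg => by
    obtain ⟨k, hk⟩ := pgroup_pow_eq_one hP.pg hx
    obtain ⟨h, h1, h2⟩ := hP.exists_conj_le (isPGroup_zpowers (x := g⁻¹ * x * g) (k := k) (by
      simpa [hk] using conj_pow (a := g⁻¹) (b := x) (i := p ^ k))) (zpowers_le.2 hg)
    have h3 : h * g⁻¹ * x * (h * g⁻¹)⁻¹ ∈ (P : Subgroup G) := by
      simpa [CfsgH2.cj, mul_assoc] using h2 (mem_map_of_mem _ (mem_zpowers _))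
    by_cases e : h * g⁻¹ ∈ N[(P : Subgroup G)]
    · exact .inr (H.inv_mem_iff.1 ((H.mul_mem_cancel_left h1).1 (hH e)))
    · have := (hTI _ e).le ⟨h3, smul_mem_pointwise_smul x _ _ hx⟩
      exact .inl (conj_eq_one_iff.1 this)
  have a := hχ.mul hχ.conj
  have b := (isCharacter_one (G := H)).ind
  have c : ∀ {K : Type _} [Group K] [Fintype K] (f : K → ℂ), classInner f f = classInner (f * fun x => conj (f x)) fun _ => 1 :=
    fun f => by rw [classInner_mul_left]; simp [Pi.mul_def]
  have d : classInner (indFun H fun _ => 1) (fun _ => 1) = 1 := by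
    rw [classInner_indFun_left _ isIrr_one.isClassFunction, isIrr_one.classInner_self]
  rw [c χ, classInner, classInner, eq_comm]
  change classInner (fun h : H => χ h) _ = classInner _ fun _ => 1
  rw [show classInner (fun h : H => χ h) (fun h => χ h) = classInner (χ * fun x => conj (χ x)) (indFun H fun _ => 1) by
    rw [classInner_indFun_right _ a.isClassFunction]
    show _ = classInner ((fun h : H => χ h) * fun h : H => conj (χ h)) _
    rw [classInner_mul_left]; simp [Pi.mul_def], ← sub_eq_zero, ← classInner_sub_right]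
  by_contra h
  obtain ⟨ψ, hψ, h1, h2⟩ := a.isClassFunction.exists_common_constituent _ h
  have h3 : ψ ≠ fun _ => 1 := fun e => h2 (by rw [e, classInner_sub_left, d, isIrr_one.classInner_self, sub_self])
  rw [classInner_sub_left, isIrr_one.classInner_of_ne hψ h3.symm, sub_zero, classInner_indFun_left _ hψ.isClassFunction,
    Ne, classInner_eq_zero_comm] at h2
  have h4 := big hP.pg hf hP.le hψ h3 h2
  have h5 : classInner (χ * fun x => conj (χ x)) (fun _ => 1) ≠ 0 := by
    rw [← c χ, Ne, classInner_self_eq_zero]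
    rintro rfl
    exact h1 (by simp [classInner_zero_left])
  have h6 := a.sub_of_constituent isIrr_one h5
  obtain ⟨m, hm⟩ := h6.exists_nat_apply_one
  have h7 := h6.degree_le_of_constituent hψ (by
    rwa [classInner_sub_left, isIrr_one.classInner_of_ne hψ h3.symm, sub_zero]) (coe_charDegree hψ.isCharacter).symm hm
  have h8 : charDegree χ ^ 2 = m + 1 := by
    rw [Pi.sub_apply, Pi.mul_apply, ← coe_charDegree hχ, sub_eq_iff_eq_add, map_natCast, ← sq] at hm
    exact_mod_cast hm
  omega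


end Cfsg.Agent.S4750
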