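import Cfsg.Statements.S4754
import Mathlib
import Cfsg.Agent.H4.Ch1

set_option autoImplicit false
open Cfsg

open Cfsg CfsgH3 CfsgH4 CfsgH1 Function
open scoped ComplexConjugate Pointwise

namespace Cfsg.Agent.S4754

/-- For elements x, y of a finite group G, the conjugacy class of x y equals the set of all products of a conjugate of x with a conjugate of y if and only if χ(1) χ(a x a⁻¹ b y b⁻¹) = χ(x) χ(y) for all a, b ∈ G and every irreducible character χ. -/
theorem result {G : Type*} [Group G] [Finite G] (x y : G) : (∀ z : G, IsConj (x * y) z ↔ ∃ a b : G, z = a * x * a⁻¹ * (b * y * b⁻¹)) ↔ ∀ (a b : G) (χ : Cfsg.IrrCharacter G), (χ : G → ℂ) 1 * (χ : G → ℂ) (a * x * a⁻¹ * (b * y * b⁻¹)) = (χ : G → ℂ) x * (χ : G → ℂ) y := by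
  have := Fintype.ofFinite G
  refine ⟨fun h a b χ => ?_, fun h z => ⟨fun hz => ?_, ?_⟩⟩
  · have h1 := χ.2.sum_conj_mul x y
    have h2 : ∀ a b, χ.1 (a * x * a⁻¹ * (b * y * b⁻¹)) = χ.1 (x * y) := fun a b =>
      (χ.2.isClassFunction.eq_of_isConj ((h _).2 ⟨a, b, rfl⟩)).symm
    rw [Finset.sum_congr rfl (g := fun _ => χ.1 (x * y)) fun a _ => by simpa using h2 a 1,
      Finset.sum_const, Finset.card_univ, ← Nat.card_eq_fintype_card, nsmul_eq_mul,
      eq_div_iff χ.2.apply_one_ne_zero, mul_assoc, mul_assoc] at h1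
    rw [h2, mul_comm, mul_left_cancel₀ (natCard_ne_zero G) h1]
  · obtain ⟨c, rfl⟩ := isConj_iff.1 hz
    exact ⟨c, c, by group⟩
  · rintro ⟨a, b, rfl⟩
    refine isConj_of_irr_eq fun χ hχ => mul_left_cancel₀ hχ.apply_one_ne_zero ?_
    simpa using (h 1 1 ⟨χ, hχ⟩).trans (h a b ⟨χ, hχ⟩).symm

end Cfsg.Agent.S4754
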