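import Cfsg.Statements.S4755
import Mathlib
import Cfsg.Agent.H4.Ch1
import Cfsg.Agent.S4754

set_option autoImplicit false
open Cfsg

open Cfsg CfsgH3 CfsgH4 CfsgH1 Function
open scoped ComplexConjugate Pointwise

namespace Cfsg.Agent.S4755

/-- Let x, y be non-identity elements of the finite group G such that χ(x' y') = χ(x') χ(y') for all conjugates x' of x, y' of y and every irreducible character χ. Then the conjugacy class of x y is the set of all products of a conjugate of x with a conjugate of y; every irreducible character of degree greater than 1 vanishes at x y; and the conjugacy class of x y is the coset of the commutator subgroup containing x y. -/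
theorem result {G : Type*} [Group G] [Finite G] (x y : G) (hx : x ≠ 1) (hy : y ≠ 1) (h : ∀ (a b : G) (χ : Cfsg.IrrCharacter G), (χ : G → ℂ) (a * x * a⁻¹ * (b * y * b⁻¹)) = (χ : G → ℂ) (a * x * a⁻¹) * (χ : G → ℂ) (b * y * b⁻¹)) : (∀ z : G, IsConj (x * y) z ↔ ∃ a b : G, z = a * x * a⁻¹ * (b * y * b⁻¹)) ∧ (∀ χ : Cfsg.IrrCharacter G, (χ : G → ℂ) 1 ≠ 1 → (χ : G → ℂ) (x * y) = 0) ∧ (∀ z : G, IsConj (x * y) z ↔ (x * y)⁻¹ * z ∈ commutator G) := by
  have h' : ∀ a b (χ : IrrCharacter G), χ.1 (a * x * a⁻¹ * (b * y * b⁻¹)) = χ.1 x * χ.1 y :=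
    fun a b χ => by rw [h, χ.2.isClassFunction, χ.2.isClassFunction]
  have h1 : ∀ z : G, IsConj (x * y) z ↔ ∃ a b : G, z = a * x * a⁻¹ * (b * y * b⁻¹) := fun z => by
    refine ⟨fun hz => ?_, ?_⟩
    · obtain ⟨c, rfl⟩ := isConj_iff.1 hz
      exact ⟨c, c, by group⟩
    · rintro ⟨a, b, rfl⟩
      exact isConj_of_irr_eq fun χ hχ => by
        simpa using (h' 1 1 ⟨χ, hχ⟩).trans (h' a b ⟨χ, hχ⟩).symm
  have h2 : ∀ χ : IrrCharacter G, χ.1 1 ≠ 1 → χ.1 (x * y) = 0 := fun χ h0 => by
    have a := (S4754.result x y).1 h1 1 1 χ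
    rw [← h' 1 1 χ] at a
    by_contra e
    exact h0 ((mul_eq_right₀ (by simpa using e)).1 a)
  refine ⟨h1, h2, fun z => ⟨fun hz => ?_, fun hz => isConj_of_irr fun χ hχ => ?_⟩⟩
  · obtain ⟨c, rfl⟩ := isConj_iff.1 hz
    simpa [commutatorElement_def, mul_assoc, commutator_def] using
      Subgroup.commutator_mem_commutator (Subgroup.mem_top (x * y)⁻¹) (Subgroup.mem_top c)
  · by_cases h0 : χ 1 = 1
    · right
      rw [← mul_inv_cancel_left (x * y) z, hχ.isCharacter.map_mul_of_apply_one h0,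
        lin_comm hχ.isCharacter h0 hz, mul_one]
    · exact Or.inl (h2 ⟨χ, hχ⟩ h0)

end Cfsg.Agent.S4755
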