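import Cfsg.Statements.S4756
import Mathlib
import Cfsg.Agent.H4.Cd3b
import Cfsg.Agent.H3.Rg

set_option autoImplicit false
open Cfsg

open CfsgH3 CfsgH4 CfsgH1 CfsgRg Function Subgroup
open CfsgCd hiding over_trans exists_mid
open CfsgH2 hiding cj cj_apply isPGroup_pCore le_pCore isNilpotent_map card_mul_relIndex
open scoped CfsgH2 commutatorElement

namespace Cfsg.Agent.S4756

variable {G : Type*} [Group G] [Finite G] {χ : G → ℂ}

theorem dv (hχ : IsIrrCharacter G χ) {S : Subgroup G} (h : ∀ x ∈ S, x ≠ 1 → χ x = 0) :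
    Nat.card S ∣ charDegree χ := by
  obtain ⟨n, e⟩ := (hχ.isCharacter.restrict S).exists_nat_classInner isCharacter_one
  rw [classInner, Finset.sum_eq_single 1 (fun x _ hx => by
    rw [h x x.2 fun e => hx (Subtype.ext e), zero_mul]) (by simp),
    inv_mul_eq_iff_eq_mul₀ (natCard_ne_zero _)] at e
  exact ⟨n, charDegree_eq (by simpa using e)⟩

def Hy (G : Type*) [Group G] : Prop := ∀ (x y : G) (χ : IrrCharacter G), x ≠ 1 → y ≠ 1 →
  (∃ p q a b : ℕ, p.Prime ∧ q.Prime ∧ p ≠ q ∧ orderOf x = p ^ a ∧ orderOf y = q ^ b) →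
    χ.1 (x * y) = χ.1 x * χ.1 y

theorem ex_p (H : Hy G) (hχ : IsIrrCharacter G χ) (h1 : charDegree χ ≠ 1) :
    ∃ p : ℕ, p.Prime ∧ ∀ S : Subgroup G, ¬ p ∣ S.index → IsPGroup p S → S.index ∣ charDegree χ := by
  haveI := Fintype.ofFinite G
  obtain ⟨p, hp, h⟩ : ∃ p : ℕ, p.Prime ∧ ∀ q : ℕ, q.Prime → p ≠ q → ∀ y b, y ≠ 1 →
      orderOf y = q ^ b → χ y = 0 := by
    by_cases c : ∃ (p a : ℕ) (x : G), p.Prime ∧ x ≠ 1 ∧ orderOf x = p ^ a ∧ χ x ≠ 0
    swap
    · exact ⟨2, Nat.prime_two, fun q hq _ y b h2 h3 => by_contra fun e => c ⟨q, b, y, hq, h2, h3, e⟩⟩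
    obtain ⟨p, a, x, hp, c1, c2, c3⟩ := c
    refine ⟨p, hp, fun q hq e y b h2 h3 => by_contra fun c4 => h1 ?_⟩
    have := hχ.sum_conj_mul x y
    rw [Finset.sum_congr rfl (g := fun _ => χ x * χ y) fun g _ => (H _ y ⟨χ, hχ⟩ (by simpa using c1)
      h2 ⟨p, q, a, b, hp, hq, e, (CfsgH2.orderOf_conj' g x).trans c2, h3⟩).trans
        (congrArg (· * χ y) (hχ.isClassFunction x g)), Finset.sum_const, Finset.card_univ, nsmul_eq_mul,
      ← Nat.card_eq_fintype_card, ← mul_assoc, eq_div_iff hχ.apply_one_ne_zero] at this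
    exact (charDegree_eq_one hχ.isCharacter).2 ((mul_eq_left₀ (mul_ne_zero (mul_ne_zero
      (natCard_ne_zero _) c3) c4)).1 this)
  refine ⟨p, hp, fun S h2 _ => (Nat.dvd_iff_prime_pow_dvd_dvd _ _).2 fun q k hq e => ?_⟩
  haveI := Fact.mk hq
  rcases k with _ | k
  · simp
  obtain ⟨K, hK⟩ := Sylow.exists_subgroup_card_pow_prime q (e.trans S.index_dvd_card)
  refine hK ▸ dv hχ fun y hy h3 => ?_
  obtain ⟨b, h4⟩ := pgroup_mem_order (IsPGroup.of_card hK) hy
  exact h q hq (fun c => h2 (c ▸ (dvd_pow_self q k.succ_ne_zero).trans e)) y b h3 h4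

theorem lt_of {S : Subgroup G} (hχ : IsIrrCharacter G χ) (h1 : charDegree χ ≠ 1)
    (h : S.index ∣ charDegree χ) : S.index < Nat.card S := by
  have a1 := deg_sq_lt hχ fun e => h1 (e ▸ deg_one)
  have a2 := Nat.le_of_dvd (charDegree_pos hχ) h
  rw [← S.index_mul_card] at a1
  nlinarith

theorem fw (H : Hy G) (h0 : ¬ IsMulCommutative G) : ∃ p : ℕ, ∃ _ : Fact p.Prime, ∀ P : Sylow p G,
    ∀ χ, IsIrrCharacter G χ → charDegree χ ≠ 1 → (P : Subgroup G).index ∣ charDegree χ := by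
  obtain ⟨χ, a1, a2⟩ := exists_nonlin fun e => h0 ⟨⟨e⟩⟩
  obtain ⟨p, hp, a3⟩ := ex_p H a1 a2
  refine ⟨p, ⟨hp⟩, fun P ψ b1 b2 => ?_⟩
  haveI := Fact.mk hp
  obtain ⟨q, hq, b3⟩ := ex_p H b1 b2
  rcases eq_or_ne p q with rfl | e
  · exact b3 _ P.not_dvd_index P.isPGroup'
  haveI := Fact.mk hq
  obtain ⟨Q⟩ : Nonempty (Sylow q G) := inferInstance
  have c1 := lt_of a1 a2 (a3 _ P.not_dvd_index P.isPGroup')
  have c2 := lt_of b1 b2 (b3 _ Q.not_dvd_index Q.isPGroup')
  have c3 := IsPGroup.coprime_card_of_ne p q e _ _ P.isPGroup' Q.isPGroup'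
  have c4 := Nat.le_of_dvd (Nat.pos_of_ne_zero index_ne_zero_of_finite) (c3.dvd_of_dvd_mul_right
    ((Q : Subgroup G).index_mul_card ▸ (P : Subgroup G).card_subgroup_dvd_card))
  have c5 := Nat.le_of_dvd (Nat.pos_of_ne_zero index_ne_zero_of_finite) (c3.symm.dvd_of_dvd_mul_right
    ((P : Subgroup G).index_mul_card ▸ (Q : Subgroup G).card_subgroup_dvd_card))
  omega

theorem nor {p : ℕ} [hp : Fact p.Prime] (P : Sylow p G) (h : ∀ χ, IsIrrCharacter G χ →
    charDegree χ ≠ 1 → (P : Subgroup G).index ∣ charDegree χ) : (P : Subgroup G).Normal := by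
  have a1 : piRes {p}ᶜ ⊤ ≤ (P : Subgroup G) := (syl_top P).le_of_norm (isPGroup_iff_piN.2
    fun q hq hd => by_contra fun c => by
      haveI := Fact.mk hq
      obtain ⟨K, hK, h1, k, h2⟩ := Cfsg.Agent.S4456.result (G := G) q hq fun ψ e =>
        (((Nat.Prime.dvd_mul hq).1 ((P : Subgroup G).index_mul_card ▸
          hd.trans (card_subgroup_dvd_card _))).resolve_right fun d => c
            (isPGroup_iff_piN.1 P.isPGroup' q hq d)).trans (h _ ψ.2 e)
      exact (coprime_iff_not_dvd hq).1 h1 (hd.trans (card_dvd_of_le (piRes_le_of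
        (top_le_norm_iff.2 hK) (by rw [relIndex_top_right, h2]; exact (PiN.of_prime hq c).pow k)))))
    le_top (le_top.trans le_norm_piRes)
  rw [a1.antisymm' (le_piRes le_top (by rw [compl_compl]; exact isPGroup_iff_piN.1 P.isPGroup'))]
  exact normal_of_top_le_norm le_norm_piRes

theorem key {P : Subgroup G} [P.Normal] {p : ℕ} [hp : Fact p.Prime] (h1 : IsPGroup p P)
    (h2 : ¬ p ∣ P.index) (h : ∀ χ, IsIrrCharacter G χ → charDegree χ ≠ 1 → P.index ∣ charDegree χ)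
    {A : Subgroup G} (h3 : P ⊓ A = ⊥) (h4 : (Nat.card A).Coprime (Nat.card P)) {a : G} (ha : a ∈ A)
    (ha1 : a ≠ 1) {x : G} (hx : x ∈ commutator G) (hP : x ∈ P) (hc : a * x = x * a) : x = 1 := by
  haveI := Fintype.ofFinite G
  obtain ⟨r, hr, a1⟩ := Nat.exists_prime_and_dvd (mt card_eq_one.1 (zpowers_ne_bot.2 ha1))
  haveI := Fact.mk hr
  obtain ⟨⟨b, a2⟩, a3⟩ := exists_prime_orderOf_dvd_card' r a1
  rw [orderOf_mk] at a3
  have a4 : zpowers b ≤ A := zpowers_le.2 (zpowers_le.2 ha a2)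
  have a5 : x ∈ P ⊓ C[zpowers b] := ⟨hP, CfsgH2.cent_anti (zpowers_le.2 a2) (by
    rw [cent_zpowers]; exact mem_centralizer_singleton_iff.2 hc.symm)⟩
  have cop := (coprime_of_pgroup h1 h2).symm
  refine congrArg Subtype.val (eq_one_of_forall_irr (g := (⟨x, a5⟩ : (P ⊓ C[zpowers b] :)))
    fun β hβ => ?_)
  obtain ⟨θ, c1, c2, c3⟩ := (gc_pgroup hr (IsPGroup.of_card (n := 1) (by rw [Nat.card_zpowers, a3, pow_one]))
    (le_top.trans (normalizer_eq_top P).ge) (h4.symm.coprime_dvd_right (card_dvd_of_le a4))).surj β hβ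
  obtain ⟨χ, d1, d2⟩ := inertia_lin cop c1 isIrr_one fun _ _ => rfl
  rw [deg_one, one_mul] at d2
  have d3 : charDegree χ = 1 := by_contra fun e => by
    have e1 := (cop.coprime_dvd_right (charDegree_dvd c1)).dvd_of_dvd_mul_right (d2 ▸ h χ d1 e)
    have e2 : P = inertia θ := by_contra fun c => (index_strictAnti
      ((le_inertia c1.isClassFunction).lt_of_ne c)).not_ge (Nat.le_of_dvd
        (Nat.pos_of_ne_zero index_ne_zero_of_finite) e1)
    have e3 : b ∈ P ⊓ A := ⟨e2.ge (mem_inertia.2 (mem_aI_iff_cj.1 (c2 (mem_zpowers b)))),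
      a4 (mem_zpowers b)⟩
    rw [mem_bot.1 (h3.le e3), orderOf_one] at a3
    exact hr.one_lt.ne a3
  rw [d3] at d2
  obtain ⟨ψ, e1, e2, -⟩ := exists_ext_of_coprime c1 (fun g => mem_inertia.1
    ((index_eq_one.1 (Nat.eq_one_of_mul_eq_one_right d2.symm)).ge (mem_top g))) cop
  obtain ⟨m, a8, a9⟩ := c3.not_dvd hr c1.isCharacter hβ
  refine (c1.isCharacter.resLE _).apply_eq_of_constituent hβ (a8.trans_ne (by
    rintro e; rw [Nat.cast_eq_zero] at e; simp [e] at a9)) ?_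
  exact (e2 ⟨x, hP⟩).symm.trans ((lin_ker3 e1 (charDegree_eq ((e2 1).trans
    ((charDegree_eq_one c1.isCharacter).1 (Nat.eq_one_of_mul_eq_one_left d2.symm) |>.trans
      Nat.cast_one.symm))) x hx).trans (e2 1))

theorem van {P A : Subgroup G} [P.Normal] [(⁅A, P⁆).Normal] (h1 : (Nat.card A).Coprime (Nat.card P))
    (h2 : A ⊔ P = ⊤) (h3 : P ⊓ C[A] ⊔ ⁅A, P⁆ = P)
    (h4 : ∀ a ∈ A, a ≠ 1 → ∀ d ∈ ⁅A, P⁆, a * d = d * a → d = 1) (hχ : IsIrrCharacter G χ)
    (h5 : ∃ x ∈ ⁅A, P⁆, χ x ≠ χ 1) {g : G} (hg : g ∉ P) : χ g = 0 := by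
  obtain ⟨u, hu, a, ha, rfl⟩ := (mem_sup_of_norm' (le_top.trans (normalizer_eq_top P).ge)).1
    ((sup_comm A P ▸ h2).ge (mem_top g))
  obtain ⟨d, hd, c, hc, rfl⟩ := (mem_sup_of_norm' (le_top.trans (normalizer_eq_top _).ge)).1
    (((sup_comm ⁅A, P⁆ _).trans h3).ge hu)
  have a1 : ∀ k ∈ ⁅A, P⁆, χ (k * (c * a)) = χ (c * a) := fun k hk => by
    obtain ⟨x, -, e⟩ := exists_conj_of_fpf (g := c * a) (fun k hk => Normal.conj_mem ‹_› k hk _)
      (fun k hk e => h4 (a ^ Nat.card P) (pow_mem ha _) (fun e => hg (by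
        rw [orderOf_eq_one_iff.1 (Nat.eq_one_of_dvd_coprimes h1 (A.orderOf_dvd_natCard ha)
          (orderOf_dvd_of_pow_eq_one e)), mul_one]; exact hu)) k hk (by
        have := (Commute.pow_left e (Nat.card P)).eq
        rwa [(show Commute c a from (hc.2 a ha).symm).mul_pow, show c ^ Nat.card P = 1 from
          congrArg Subtype.val (pow_card_eq_one' (x := (⟨c, hc.1⟩ : P))), one_mul] at this)) hk
    rw [← e, hχ.isClassFunction]
  haveI := Fintype.ofFinite G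
  have := sum_eq_zero_of_not_le_ker hχ h5 (c * a)
  rw [Finset.sum_congr rfl fun (k : (⁅A, P⁆ :)) _ => a1 k k.2, Finset.sum_const, nsmul_eq_mul] at this
  rw [mul_assoc, a1 d hd, (mul_eq_zero.1 this).resolve_left (by simp)]

/-- For a finite group G the following are equivalent. (1) χ(x y) = χ(x) χ(y) for every irreducible character χ and all non-identity elements x, y of prime power orders for two different primes. (2) G is a p-group for some prime p, or G is abelian, or for some prime p: G = A P with P a normal Sylow p-subgroup and A a nontrivial cyclic subgroup of order prime to p such that, with C = C_P(A) and D = [A, P], one has P = C D, C abelian, D normal in G, C ∩ D = 1, and A acts fixed-point-freely on D (no non-identity element of A centralizes a non-identity element of D). -/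
theorem result {G : Type*} [Group G] [Finite G] : (∀ (x y : G) (χ : Cfsg.IrrCharacter G), x ≠ 1 → y ≠ 1 → (∃ p q a b : ℕ, p.Prime ∧ q.Prime ∧ p ≠ q ∧ orderOf x = p ^ a ∧ orderOf y = q ^ b) → (χ : G → ℂ) (x * y) = (χ : G → ℂ) x * (χ : G → ℂ) y) ↔ ((∃ p : ℕ, p.Prime ∧ IsPGroup p G) ∨ IsMulCommutative G ∨ ∃ (p : ℕ) (_ : Fact p.Prime) (P : Sylow p G) (A : Subgroup G), (P : Subgroup G).Normal ∧ IsCyclic ↥A ∧ A ≠ ⊥ ∧ (Nat.card ↥A).Coprime p ∧ A ⊔ (P : Subgroup G) = ⊤ ∧ IsMulCommutative ↥((P : Subgroup G) ⊓ Subgroup.centralizer (A : Set G)) ∧ (⁅A, (P : Subgroup G)⁆).Normal ∧ ((P : Subgroup G) ⊓ Subgroup.centralizer (A : Set G)) ⊔ ⁅A, (P : Subgroup G)⁆ = (P : Subgroup G) ∧ ((P : Subgroup G) ⊓ Subgroup.centralizer (A : Set G)) ⊓ ⁅A, (P : Subgroup G)⁆ = ⊥ ∧ ∀ a ∈ A, a ≠ 1 → ∀ d ∈ ⁅A, (P : Subgroup G)⁆, a * d = d * a → d = 1) := by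
  refine ⟨fun H => or_iff_not_imp_left.2 fun h0 => or_iff_not_imp_left.2 fun h1 => ?_,
    fun H x y χ hx hy ⟨p, q, a, b, hp, hq, hpq, ha, hb⟩ => ?_⟩
  · obtain ⟨p, hp, h⟩ := fw H h1
    obtain ⟨P⟩ : Nonempty (Sylow p G) := inferInstance
    haveI := nor P (h P)
    have cop := coprime_of_pgroup P.isPGroup' P.not_dvd_index
    obtain ⟨A, hA⟩ := exists_right_complement'_of_coprime cop
    have a1 : Nat.card A = (P : Subgroup G).index := hA.symm.index_eq_card.symm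
    have a2 : A ≠ ⊥ := fun e => h0 ⟨p, hp.out, P.isPGroup'.of_surjective (P : Subgroup G).subtype
      (MonoidHom.range_eq_top.1 (by
        rw [range_subtype]; exact index_eq_one.1 (by rw [← a1, e, card_bot])))⟩
    have a3 : commutator G ≤ P := fun x hx => mem_of_forall_irr _ fun χ hχ e => by
      obtain ⟨β, -, b1, b2⟩ := hχ.isCharacter.exists_deflation P e
      refine lin_ker3 hχ (by_contra fun c => ?_) x hx
      have b3 : charDegree β = charDegree χ :=
        charDegree_eq ((b2 1).trans (coe_charDegree hχ.isCharacter).symm)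
      have b4 := deg_sq_le (b1 hχ)
      have b5 := Nat.le_of_dvd (charDegree_pos hχ) (h P χ hχ c)
      have b6 := charDegree_pos hχ
      rw [b3, ← index_eq_card] at b4
      have : 1 < charDegree χ := by omega
      nlinarith
    have nn : ∀ X : Subgroup G, X ≤ N[P] := fun _ => le_top.trans (normalizer_eq_top _).ge
    have k := @key G _ _ P _ p hp P.isPGroup' P.not_dvd_index (h P) A hA.disjoint.eq_bot (a1 ▸ cop.symm)
    have cm : ∀ X Y : Subgroup G, ⁅X, Y⁆ ≤ commutator G := fun X Y => commutator_mono le_top le_top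
    obtain ⟨a, ha, ha1⟩ := (bot_or_exists_ne_one A).resolve_left a2
    have a4 : IsMulCommutative A := comm_self_eq_bot_iff.1 (eq_bot_iff.2
      (hA.disjoint.eq_bot ▸ le_inf ((cm _ _).trans a3) (commutator_le_self A)))
    have a5 : IsMulCommutative ((P : Subgroup G) ⊓ C[A] :) := comm_self_eq_bot_iff.1 (eq_bot_iff.2
      fun x hx => have := commutator_le_self _ hx; k ha ha1 (cm _ _ hx) this.1 (this.2 a ha))
    have a6 : (P : Subgroup G) ⊓ C[A] ⊔ ⁅A, (P : Subgroup G)⁆ = P := by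
      rw [sup_comm, commutator_comm]
      exact coprime_comm_sup_cent (nn A) (a1 ▸ cop.symm) (.inr (isSolvable_of_pgroup P.isPGroup'))
    have a7 : ∀ a ∈ A, a ≠ 1 → ∀ d ∈ ⁅A, (P : Subgroup G)⁆, a * d = d * a → d = 1 :=
      fun a ha h1 d hd => k ha h1 (cm _ _ hd) (comm_le_right (nn A) hd)
    refine ⟨p, hp, P, A, inferInstance, isCyclic_of_fpf_comm (K := ⁅A, (P : Subgroup G)⁆)
      (fun e => h1 ?_) le_norm_comm_left (fun a ha h1 => eq_bot_iff.2 fun d hd =>
        a7 a ha h1 d hd.1 (mem_centralizer_singleton_iff.1 hd.2).symm) a4, a2,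
      (coprime_iff_not_dvd hp.out).2 (a1.symm ▸ P.not_dvd_index), (sup_comm A _).trans hA.sup_eq_top, a5,
      normal_of_top_le_norm (hA.sup_eq_top ▸ sup_le le_norm_comm_right le_norm_comm_left), a6,
      eq_bot_iff.2 fun x hx => a7 a ha ha1 x hx.2 (hx.1.2 a ha), a7⟩
    rw [e, sup_bot_eq] at a6
    rw [← isMulComm_top_iff, ← hA.sup_eq_top]
    exact isMulComm_sup (a6 ▸ a5) a4 (a6 ▸ inf_le_right)
  have lin : charDegree χ.1 = 1 → χ.1 (x * y) = χ.1 x * χ.1 y := fun e =>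
    χ.2.isCharacter.map_mul_of_apply_one ((charDegree_eq_one χ.2.isCharacter).1 e) x y
  have pe : ∀ {r s c : ℕ} {z : G}, r.Prime → s.Prime → z ≠ 1 → orderOf z = s ^ c → (∃ k, z ^ r ^ k = 1) →
      s = r := fun {r s c z} hr hs h1 h2 ⟨k, h3⟩ => (Nat.prime_dvd_prime_iff_eq hs hr).1
    (hs.dvd_of_dvd_pow ((dvd_pow_self s fun e => h1 (orderOf_eq_one_iff.1 (by
      rw [h2, e, pow_zero]))).trans (h2 ▸ orderOf_dvd_of_pow_eq_one h3)))
  rcases H with ⟨r, hr, H⟩ | H | ⟨r, hr, P, A, _, h1, -, h2, h3, h4, _, h5, -, h6⟩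
  · exact absurd ((pe hr hp hx ha (H x)).trans (pe hr hq hy hb (H y)).symm) hpq
  · exact lin ((charDegree_eq_one χ.2.isCharacter).2 (χ.2.apply_one_of_comm H.is_comm.comm))
  by_cases c : ∃ x ∈ ⁅A, (P : Subgroup G)⁆, χ.1 x ≠ χ.1 1
  swap
  · push Not at c
    refine lin ((charDegree_eq_one χ.2.isCharacter).2 (lin_of_comm χ.2 fun g hg => c g ?_))
    have nn : ∀ X : Subgroup G, X ≤ N[⁅A, (P : Subgroup G)⁆] := fun _ =>
      le_top.trans (normalizer_eq_top _).ge
    refine (isMulComm_qt_iff (nn ⊤)).1 ?_ hg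
    rw [← (congrArg (A ⊔ ·) h5).trans h3, ← sup_assoc, qt_sup_self (nn _), qt_sup (nn _) (nn _)]
    exact isMulComm_sup (isMulComm_qt inferInstance) (isMulComm_qt h4)
      (qt_le_cent (Subgroup.le_centralizer_iff.1 inf_le_right))
  have v := @van G _ _ _ P A _ _ (coprime_of_pgroup P.isPGroup'
    ((coprime_iff_not_dvd hr.out).1 h2)).symm h3 h5 h6 χ.2 c
  have a1 : x * y ∉ (P : Subgroup G) := fun e => by
    have b1 : orderOf (x : G ⧸ (P : Subgroup G)) = orderOf (y : G ⧸ (P : Subgroup G)) := by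
      rw [eq_inv_of_mul_eq_one_left ((QuotientGroup.mk_mul _ x y).symm.trans
        ((QuotientGroup.eq_one_iff (x * y)).2 e)), orderOf_inv]
    have b2 := Nat.eq_one_of_dvd_coprimes ((Nat.coprime_primes hp hq).2 hpq |>.pow a b)
      (ha ▸ orderOf_map_dvd (QuotientGroup.mk' (P : Subgroup G)) x)
      (hb ▸ b1.dvd.trans (orderOf_map_dvd (QuotientGroup.mk' (P : Subgroup G)) y))
    exact hpq ((pe hr.out hp hx ha (pgroup_pow_eq_one P.isPGroup' ((QuotientGroup.eq_one_iff x).1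
      (orderOf_eq_one_iff.1 b2)))).trans (pe hr.out hq hy hb (pgroup_pow_eq_one P.isPGroup'
        ((QuotientGroup.eq_one_iff y).1 (orderOf_eq_one_iff.1 (b1.symm.trans b2))))).symm)
  rw [v a1]
  by_cases d : x ∈ (P : Subgroup G)
  · rw [v fun e => a1 (mul_mem d e), mul_zero]
  · rw [v d, zero_mul]

end Cfsg.Agent.S4756
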