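import Cfsg.Statements.S4757
import Cfsg.Agent.H4.Ch2
import Cfsg.Agent.H2.Trans

set_option autoImplicit false
open Cfsg

open Cfsg CfsgH3 CfsgH4 CfsgH1 Function
open scoped ComplexConjugate

namespace Cfsg.Agent.S4757
open Subgroup
open CfsgH2 hiding cj

/-- Let u ≠ 1 be an element of the finite group G and c a complex number such that every non-principal irreducible character χ satisfies χ(1) − χ(u) = c or χ(u) = 0. Then the following are equivalent: (a) u has order 2, G is generated by u together with O(G), the largest normal subgroup of G of odd order, and the centralizer of u is {1, u}; (b) G is not perfect; (c) c = 2. -/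
theorem result {G : Type*} [Group G] [Finite G] (u : G) (hu : u ≠ 1) (c : ℂ) (hyp : ∀ χ : Cfsg.IrrCharacter G, (χ : G → ℂ) ≠ (fun _ => (1 : ℂ)) → ((χ : G → ℂ) 1 - (χ : G → ℂ) u = c ∨ (χ : G → ℂ) u = 0)) : ((orderOf u = 2 ∧ Subgroup.zpowers u ⊔ Cfsg.oddCore G = ⊤ ∧ Subgroup.centralizer ({u} : Set G) = Subgroup.zpowers u) ↔ commutator G ≠ ⊤) ∧ (commutator G ≠ ⊤ ↔ c = 2) := by
  classical
  have coe_deg : ∀ φ : IrrCharacter G, (charDegree φ.1 : ℂ) = φ.1 1 := fun φ => coe_charDegree φ.2.isCharacter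
  haveI := Fact.mk Nat.prime_two
  let one : IrrCharacter G := ⟨fun _ => 1, isIrr_one⟩
  have ne1 : ∀ χ : IrrCharacter G, χ ≠ one → χ.1 ≠ fun _ => 1 := fun χ h e => h (Subtype.ext e)
  have col : ∑ χ : IrrCharacter G, χ.1 1 * χ.1 u = 0 := by rw [sum_irr_deg_mul, regChar_of_ne hu]
  have lin : ∀ l : G →* ℂˣ, l ≠ 1 → (l u : ℂ) = 1 - c := fun l hl => by
    rcases hyp ⟨_, isIrr_of_unitsHom l⟩ (fun e => hl (MonoidHom.ext fun g =>
      Units.ext (by simpa using congrFun e g))) with h | h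
    · simp only [map_one, Units.val_one] at h; rw [← h]; ring
    · simp at h
  have exl : commutator G ≠ ⊤ → ∃ l : G →* ℂˣ, l ≠ 1 := fun h => by
    obtain ⟨l, hl⟩ := exists_lin_ker_prime h
    exact ⟨l, fun e => by simp [e, Nat.not_prime_one] at hl⟩
  have B : commutator G ≠ ⊤ → c = 2 := fun h => by
    obtain ⟨l, hl⟩ := exl h
    have a := lin l hl
    have b := lin l⁻¹ (fun e => hl (MonoidHom.ext fun g => by simpa using DFunLike.congr_fun e g))
    have e : (1 - c) * (1 - c) = 1 := by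
      nth_rewrite 1 [← a]; rw [← b]; simp
    have : c * (c - 2) = 0 := by linear_combination e
    rcases mul_eq_zero.1 this with h0 | h0
    · exfalso
      have : ∀ χ : IrrCharacter G, ∃ n : ℕ, χ.1 1 * χ.1 u = n ∧ (χ = one → n = 1) := fun χ => by
        by_cases e1 : χ = one
        · exact ⟨1, by simp [e1, one], fun _ => rfl⟩
        rcases hyp χ (ne1 χ e1) with h | h
        · exact ⟨charDegree χ.1 ^ 2, by
            rw [h0, sub_eq_zero] at h; rw [← h, ← coe_deg]; push_cast; ring, fun e => absurd e e1⟩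
        · exact ⟨0, by simp [h], fun e => absurd e e1⟩
      choose n h1 h2 using this
      simp only [h1] at col
      have := (Finset.sum_eq_zero_iff.1 (by exact_mod_cast col : ∑ χ, n χ = 0)) one (Finset.mem_univ _)
      rw [h2 one rfl] at this; omega
    · linear_combination h0
  have key : c = 2 → ∃ l : G →* ℂˣ, l ≠ 1 ∧ (l u : ℂ) = -1 ∧ (∀ g, (l g : ℂ) * l g = 1) ∧
      Nat.card C1[u] = 2 := fun hc => by
    have lin' : ∀ l : G →* ℂˣ, l ≠ 1 → (l u : ℂ) = -1 := fun l hl => by rw [lin l hl, hc]; ring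
    have pr : ∀ l m : G →* ℂˣ, l ≠ 1 → m ≠ 1 → l * m = 1 := fun l m hl hm => by
      by_contra h
      have := lin' _ h
      rw [MonoidHom.mul_apply, Units.val_mul, lin' l hl, lin' m hm] at this
      norm_num at this
    have : ∀ χ : IrrCharacter G, ∃ n : ℤ, χ.1 1 * χ.1 u = n ∧ (χ = one → n = 1) ∧
        (χ ≠ one → (χ.1 1 = 1 ∧ n = -1) ∨ (0 ≤ n ∧ (n = 0 → χ.1 u = 0))) := fun χ => by
      by_cases e1 : χ = one
      · exact ⟨1, by simp [e1, one], fun _ => rfl, fun h => absurd e1 h⟩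
      by_cases h0 : χ.1 u = 0
      · exact ⟨0, by simp [h0], fun e => absurd e e1, fun _ => .inr ⟨le_rfl, fun _ => h0⟩⟩
      have h := (hyp χ (ne1 χ e1)).resolve_right h0
      have hu' : χ.1 u = charDegree χ.1 - 2 := by rw [coe_deg, ← hc, ← h]; ring
      refine ⟨charDegree χ.1 * (charDegree χ.1 - 2), by rw [hu', ← coe_deg]; push_cast; ring,
        fun e => absurd e e1, fun _ => ?_⟩
      have p := charDegree_pos χ.2
      by_cases d1 : charDegree χ.1 = 1
      · exact .inl ⟨(charDegree_eq_one χ.2.isCharacter).1 d1, by rw [d1]; rfl⟩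
      have d2 : charDegree χ.1 ≠ 2 := fun e => h0 (by rw [hu', e]; norm_num)
      have : (3 : ℤ) ≤ charDegree χ.1 := by exact_mod_cast (by omega : 3 ≤ charDegree χ.1)
      exact .inr ⟨by nlinarith, fun e => by nlinarith⟩
    choose n h1 h2 h3 using this
    simp only [h1] at col
    have s0 : ∑ χ, n χ = 0 := by exact_mod_cast col
    obtain ⟨lam, n1, l1, ln⟩ : ∃ χ, χ ≠ one ∧ χ.1 1 = 1 ∧ n χ = -1 := by
      by_contra hh
      push Not at hh
      have := (Finset.sum_eq_zero_iff_of_nonneg fun χ _ => ?_).1 s0 one (Finset.mem_univ _)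
      · rw [h2 one rfl] at this; omega
      by_cases e : χ = one
      · rw [h2 χ e]; norm_num
      exact ((h3 χ e).resolve_left fun h => hh χ e h.1 h.2).1
    obtain ⟨l, hl⟩ := lam.2.isCharacter.exists_monoidHom l1
    have nl : ∀ (χ : IrrCharacter G) (m : G →* ℂˣ), χ ≠ one → (χ.1 = fun g => (m g : ℂ)) → m ≠ 1 :=
      fun χ m h e e' => ne1 χ h (by rw [e, e']; rfl)
    have l1' := nl lam l n1 hl
    refine ⟨l, l1', lin' l l1', fun g => by
      simpa using congrArg (fun f : G →* ℂˣ => (f g : ℂ)) (pr l l l1' l1'), ?_⟩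
    have oth : ∀ χ, χ ≠ one → χ ≠ lam → 0 ≤ n χ ∧ (n χ = 0 → χ.1 u = 0) := fun χ a b =>
      (h3 χ a).resolve_left fun h => by
        obtain ⟨m, hm⟩ := χ.2.isCharacter.exists_monoidHom h.1
        have : m = l := mul_left_cancel ((pr l m l1' (nl χ m a hm)).trans (pr l l l1' l1').symm)
        exact b (Subtype.ext (by rw [hm, hl, this]))
    have sp : ∀ {M : Type} [AddCommMonoid M] (f : IrrCharacter G → M), ∑ χ, f χ =
        f one + (f lam + ∑ χ ∈ (Finset.univ.erase one).erase lam, f χ) := fun f => by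
      rw [Finset.add_sum_erase _ _ (by simp [n1]), Finset.add_sum_erase _ _ (Finset.mem_univ _)]
    rw [sp, h2 one rfl, ln] at s0
    have z := (Finset.sum_eq_zero_iff_of_nonneg fun χ hχ => (oth χ (Finset.mem_erase.1 (Finset.mem_erase.1 hχ).2).1 (Finset.mem_erase.1 hχ).1).1).1
      (by omega : ∑ χ ∈ (Finset.univ.erase one).erase lam, n χ = 0)
    have := column_orthogonality_self u
    rw [sp, Finset.sum_eq_zero fun χ hχ => by
      rw [(oth χ (Finset.mem_erase.1 (Finset.mem_erase.1 hχ).2).1 (Finset.mem_erase.1 hχ).1).2 (z χ hχ)]; simp] at this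
    rw [hl] at this
    simp only [one, lin' l l1'] at this
    norm_num at this
    exact_mod_cast this.symm
  have C : c = 2 → commutator G ≠ ⊤ := fun hc e => by
    obtain ⟨l, a, -⟩ := key hc
    refine a (MonoidHom.ext fun g => ?_)
    exact Abelianization.commutator_subset_ker l (e ▸ mem_top g)
  refine ⟨⟨fun ⟨a, b, _⟩ e => ?_, fun h => ?_⟩, B, C⟩
  · haveI := pPrimeCore_normal 2 G
    haveI : IsCyclic (G ⧸ oddCore G) := ⟨⟨(u : G ⧸ oddCore G), fun x => by
      obtain ⟨x, rfl⟩ := QuotientGroup.mk_surjective x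
      obtain ⟨y, hy, z, hz, rfl⟩ := mem_sup_of_normal_right.1 (b ▸ mem_top x)
      obtain ⟨k, rfl⟩ := mem_zpowers_iff.1 hy
      exact ⟨k, by simp [(QuotientGroup.eq_one_iff z).2 hz]⟩⟩⟩
    letI := IsCyclic.commGroup (α := G ⧸ oddCore G)
    have := Abelianization.commutator_subset_ker (QuotientGroup.mk' (oddCore G)) (e ▸ mem_top u)
    rw [QuotientGroup.ker_mk'] at this
    exact not_dvd_card_pPrimeCore (G := G) 2 (a.symm.dvd.trans (Subgroup.orderOf_dvd_natCard _ this))
  obtain ⟨l, a, b, s, d⟩ := key (B h)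
  have zc : zpowers u ≤ C1[u] := by
    rw [zpowers_le]; exact mem_centralizer_singleton_iff.2 rfl
  have o2 : orderOf u = 2 := by
    have := card_dvd_of_le zc
    rw [d, Nat.card_zpowers] at this
    exact ((Nat.dvd_prime Nat.prime_two).1 this).resolve_left (by simpa using hu)
  have e : C1[u] = zpowers u := (eq_of_le_of_card_ge zc (by rw [d, Nat.card_zpowers, o2])).symm
  refine ⟨o2, ?_, e⟩
  have ko : l.ker ≤ oddCore G := le_pPrimeCore (Nat.Coprime.symm (Nat.prime_two.coprime_iff_not_dvd.2 fun hd => ?_))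
  · rw [eq_top_iff]; intro g _
    rcases mul_self_eq_one_iff.1 (s g) with h1 | h1
    · exact mem_sup_right (ko (Units.ext h1))
    · have : u⁻¹ * g ∈ l.ker := Units.ext (by simp [b, h1])
      simpa using mul_mem (mem_sup_left (mem_zpowers u)) (mem_sup_right (ko this))
  refine inf_cent_ne_bot (Q := zpowers u) (H := l.ker) (IsPGroup.of_card (n := 1) (by simp [o2]))
    le_normalizer_of_normal hd (eq_bot_iff.2 fun x ⟨h1, h2⟩ => ?_)
  have : x ∈ zpowers u := e ▸ mem_centralizer_singleton_iff.2 (h2 u (mem_zpowers u)).symm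
  obtain ⟨k, rfl⟩ := mem_zpowers_iff.1 this
  have h1' : ((l u : ℂ)) ^ k = 1 := by simpa using congrArg (fun x : ℂˣ => (x : ℂ)) h1
  rw [b] at h1'
  rcases Int.even_or_odd k with ⟨j, rfl⟩ | hk
  · show u ^ (j + j) = 1
    rw [← two_mul, zpow_mul]; norm_cast; rw [← o2, pow_orderOf_eq_one, one_zpow]
  · rw [hk.neg_one_zpow] at h1'; norm_num at h1'


end Cfsg.Agent.S4757
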