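import Cfsg.Statements.S4762
import Cfsg.Agent.H3.Cd1
import Cfsg.Agent.H2.BG0
import Cfsg.Agent.H2.PG4

set_option autoImplicit false
open Cfsg

open Cfsg CfsgH3 CfsgH4 CfsgH1 CfsgCd Function
open scoped ComplexConjugate commutatorElement

namespace Cfsg.Agent.S4762
open Subgroup
open CfsgH2 hiding cj
open scoped CfsgH2

/-- Let p be a prime and G a finite nilpotent group. Then G has exactly one irreducible complex character of degree divisible by p if and only if p = 2 and G is an extraspecial 2-group. -/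
theorem result {G : Type*} [Group G] [Finite G] [Group.IsNilpotent G] (p : ℕ) [Fact p.Prime] : Nat.card {χ : Cfsg.IrrCharacter G // p ∣ Cfsg.charDegree (χ : G → ℂ)} = 1 ↔ (p = 2 ∧ Cfsg.IsExtraspecial 2 G) := by
  classical
  haveI := Fintype.ofFinite G
  have hp : p.Prime := Fact.out
  rw [Nat.card_eq_one_iff_unique]
  refine ⟨fun ⟨hs, ⟨χ, hχ⟩⟩ => ?_, fun ⟨e, ⟨pg, _, cz⟩, cc⟩ => ?_⟩
  · obtain ⟨P⟩ : Nonempty (Sylow p G) := inferInstance
    haveI : (P : Subgroup G).Normal := inferInstance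
    have lin : ∀ ψ, IsIrrCharacter G ψ → ¬ p ∣ charDegree ψ → ∀ x ∈ ⁅(P : Subgroup G), (P : Subgroup G)⁆,
        ψ x = ψ 1 := fun ψ hψ hd x hx => by
      refine hψ.isCharacter.mem_charKer.1 ((commutator_le.2 fun a ha b hb => ?_) hx)
      rw [hψ.isCharacter.mem_charKer]
      obtain ⟨θ, i, o⟩ := hψ.exists_irr_under (H := (P : Subgroup G))
      have l := lin_of_pgroup P.isPGroup' i fun d => hd
        ((d.mul_left _).trans (deg_dvd_of_over i hψ o).1)
      have := clifford hψ i o
      refine (congrFun this ⁅(⟨a, ha⟩ : (P : Subgroup G)), ⟨b, hb⟩⁆).trans (.trans ?_ (congrFun this 1).symm)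
      simp only [Pi.smul_apply, Finset.sum_apply]
      congr 1
      refine Finset.sum_congr rfl fun φ hφ => ?_
      obtain ⟨g, rfl⟩ := mem_cjOrbit.1 hφ
      have l' : cj g θ 1 = 1 := (cj_apply_one g θ).trans l
      rw [l', lin_comm (i.cj g).isCharacter l' (commutator_mem_commutator (mem_top _) (mem_top _))]
    have nb : ⁅(P : Subgroup G), (P : Subgroup G)⁆ ≠ ⊥ := fun e => P.not_dvd_index (hχ.trans
      (deg_dvd_index_ab χ.2 _ fun a ha b hb => commutatorElement_eq_one_iff_mul_comm.1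
        (mem_bot.1 (e ▸ commutator_mem_commutator ha hb))))
    have := nil_inf_cent_ne_bot (L := ⊤) (U := ⁅(P : Subgroup G), (P : Subgroup G)⁆) inferInstance le_top
      le_normalizer_of_normal nb
    rw [cent_top] at this
    obtain ⟨z, ⟨z1, z2⟩, oz⟩ := exists_prime_order_mem hp (dvd_card_of_pgroup
      ((P.isPGroup'.to_le (commutator_le_left _ _)).to_inf_left) this)
    haveI : (zpowers z).Normal := CfsgH1.normal_of_le_center (zpowers_le.2 z2)
    have oth : ∀ ψ : IrrCharacter G, (∀ k ∈ zpowers z, ψ.1 k = ψ.1 1) ↔ ψ ≠ χ := fun ψ => by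
      have a : ∀ ψ : IrrCharacter G, ψ ≠ χ → ∀ k ∈ zpowers z, ψ.1 k = ψ.1 1 := fun ψ h k hk =>
        lin _ ψ.2 (fun d => h (congrArg (·.1) (hs.elim ⟨ψ, d⟩ ⟨χ, hχ⟩))) k (zpowers_le.2 z1 hk)
      refine ⟨fun h e => ?_, a ψ⟩
      have : z = 1 := eq_one_of_forall_irr fun ξ hξ => by
        by_cases e' : (⟨ξ, hξ⟩ : IrrCharacter G) = χ
        · have := h z (mem_zpowers z)
          rwa [e.trans e'.symm] at this
        · exact a _ e' z (mem_zpowers z)
      rw [this, orderOf_one] at oz; exact hp.one_lt.ne oz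
    have s1 := sum_irr_quot (zpowers z) fun ψ => charDegree ψ ^ 2
    simp only [oth, deg_inflate, sum_deg_sq_nat, Finset.filter_ne'] at s1
    have s2 := Finset.add_sum_erase _ (fun ψ : IrrCharacter G => charDegree ψ.1 ^ 2) (Finset.mem_univ χ)
    rw [s1, sum_deg_sq_nat, card_eq_card_quotient_mul_card_subgroup (zpowers z), Nat.card_zpowers, oz] at s2
    have s3 := χ.2.degree_sq_mul_card_le χ.2.center_le_charCenter
    rw [norm_one_eq χ.2.isCharacter, card_eq_card_quotient_mul_card_subgroup (zpowers z),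
      Nat.card_zpowers, oz] at s3
    have s4 : charDegree χ.1 ^ 2 * o[center G] ≤ Nat.card (G ⧸ zpowers z) * p := by exact_mod_cast s3
    have s5 : p ≤ o[center G] := Nat.le_of_dvd Nat.card_pos (oz ▸ orderOf_dvd_natCard _ z2)
    have s6 : 0 < Nat.card (G ⧸ zpowers z) := Nat.card_pos
    have p2 := hp.two_le
    obtain ⟨q, rfl⟩ : ∃ q, p = q + 2 := ⟨p - 2, by omega⟩
    have s7 : charDegree χ.1 ^ 2 = Nat.card (G ⧸ zpowers z) * (q + 1) := by linarith
    rw [s7, mul_assoc] at s4
    have s8 := Nat.le_of_mul_le_mul_left s4 s6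
    obtain rfl : q = 0 := by nlinarith
    have cz : o[center G] = 2 := by omega
    have ez : zpowers z = center G := eq_of_le_of_card_ge (zpowers_le.2 z2) (by rw [cz, Nat.card_zpowers, oz])
    have pg : IsPGroup 2 G := isPGroup_iff_piN.2 fun r hr d => by
      haveI := Fact.mk hr
      obtain ⟨Q⟩ : Nonempty (Sylow r G) := inferInstance
      haveI : (Q : Subgroup G).Normal := inferInstance
      have := nil_inf_cent_ne_bot (L := ⊤) (U := (Q : Subgroup G)) inferInstance le_top
        le_normalizer_of_normal (Q.ne_bot_of_dvd_card d)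
      rw [cent_top] at this
      exact (Nat.prime_dvd_prime_iff_eq hr Nat.prime_two).1 (cz ▸ (dvd_card_of_pgroup
        Q.isPGroup'.to_inf_left this).trans (card_dvd_of_le inf_le_right))
    refine ⟨rfl, extraspecial_top_iff.2 ⟨⟨pg.to_subgroup _, by rw [cent_top, top_inf_eq, cz], ?_⟩,
      fun h => nb ?_⟩⟩
    · rw [cent_top, top_inf_eq, ← ez]
      refine fun x hx => mem_of_forall_irr _ fun ψ hψ h => ?_
      have l := lin_of_pgroup pg hψ fun d => (oth ⟨ψ, hψ⟩).1 h (congrArg (·.1) (hs.elim ⟨_, d⟩ ⟨χ, hχ⟩))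
      rw [l, lin_comm hψ.isCharacter l hx]
    · exact eq_bot_iff.2 ((commutator_mono le_top le_top).trans (comm_self_eq_bot_iff.2 h).le)
  subst e
  have cc' : o[commutator G] = 2 := cz ▸ cc
  obtain ⟨z, z2, oz⟩ := exists_prime_order_mem Nat.prime_two cc.symm.dvd
  have z1 : z ≠ 1 := fun e => by simp [e] at oz
  have ez : ∀ x ∈ center G, x = 1 ∨ x = z := fun x hx => by
    have : zpowers z = center G := eq_of_le_of_card_ge (zpowers_le.2 z2) (by rw [cc, Nat.card_zpowers, oz])
    rw [← this, mem_zpowers_iff_mem_range_orderOf, oz] at hx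
    simpa [Finset.range_add_one, or_comm, eq_comm] using hx
  have val : ∀ ψ : IrrCharacter G, 2 ∣ charDegree ψ.1 → ∀ g, ψ.1 g =
      ψ.1 1 * if g = 1 then 1 else if g = z then -1 else 0 := fun ψ h g => by
    have n1 : ψ.1 1 ≠ 1 := fun e => by rw [(charDegree_eq_one ψ.2.isCharacter).2 e] at h; omega
    split_ifs with a b
    · simp [a]
    · have := ψ.2.isCharacter.apply_mul_of_norm_eq (ψ.2.norm_apply_of_mem_center z2) z
      rw [← sq z, ← oz, pow_orderOf_eq_one] at this
      rcases mul_self_eq_mul_self_iff.1 this.symm with h1 | h1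
      · exact absurd (lin_of_comm ψ.2 fun x hx => by
          rcases ez x (cz ▸ hx) with rfl | rfl <;> simp [*]) n1
      · simp [b, h1]
    · simpa using van_center Nat.prime_two cc' cz.le ψ.2 n1 fun h => (ez g h).elim a b
  refine ⟨⟨fun a b => Subtype.ext (Subtype.ext (a.1.2.eq_of_classInner_ne_zero b.1.2 ?_))⟩, ?_⟩
  · have : a.1.1 = (a.1.1 1 / b.1.1 1) • b.1.1 := funext fun g => by
      have := b.1.2.apply_one_ne_zero
      rw [val _ a.2, Pi.smul_apply, val _ b.2 g, smul_eq_mul]; field_simp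
    rw [this, classInner_smul_left, b.1.2.classInner_self, mul_one]
    exact div_ne_zero a.1.2.apply_one_ne_zero b.1.2.apply_one_ne_zero
  · obtain ⟨χ, a, b⟩ := exists_nonlin (G := G) fun h => by
      have : commutator G = ⊥ := eq_bot_iff.2 (commutator_le.2 fun a _ b _ =>
        mem_bot.2 (commutatorElement_eq_one_iff_mul_comm.2 (h a b)))
      simp [this] at cc'
    exact ⟨⟨⟨χ, a⟩, by_contra fun h => b ((charDegree_eq_one a.isCharacter).2 (lin_of_pgroup pg a h))⟩⟩


end Cfsg.Agent.S4762
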