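import Cfsg.Statements.S4763
import Cfsg.Agent.H3.Cd4
import Cfsg.Agent.S4445
import Cfsg.Agent.H4.Gla3
import Cfsg.Agent.L0.Count
import Cfsg.Agent.H1.System

set_option autoImplicit false
open Cfsg

open Cfsg CfsgH3 CfsgH4 CfsgCd Function Subgroup
open CfsgH1 (relIndex_sup_right_of_le_normalizer)
open CfsgH2 hiding cj cj_apply isPGroup_pCore le_pCore isNilpotent_map card_mul_relIndex
open scoped ComplexConjugate commutatorElement CfsgH2

namespace Cfsg.Agent.S4763
def FK {G : Type*} [Group G] (N S : Subgroup G) (K : ConjClasses N) : Prop :=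
  ∀ s ∈ S, ∀ g g' : N, (g' : G) = s * g * s⁻¹ → ConjClasses.mk g = K → ConjClasses.mk g' = K

theorem fk {G : Type*} [Group G] {N S : Subgroup G} [hN : N.Normal] (n : N) :
    FK N S (ConjClasses.mk n) ↔ S ≤ N ⊔ C1[(n : G)] := by
  refine ⟨fun h s hs => ?_, fun h s hs g g' e h1 => ?_⟩
  · obtain ⟨m, hm⟩ := isConj_iff.1 (ConjClasses.mk_eq_mk_iff_isConj.1 (h s hs n ⟨_, hN.conj_mem _ n.2 s⟩ rfl rfl))
    have : (m : G) * (s * n * s⁻¹) * (m : G)⁻¹ = n := congrArg Subtype.val hm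
    rw [← inv_mul_cancel_left (m : G) s]
    refine mul_mem (mem_sup_left (inv_mem m.2)) (mem_sup_right (mem_centralizer_singleton_iff.2 ?_))
    conv_rhs => rw [← this]
    group
  · obtain ⟨k, rfl⟩ := isConj_iff.1 (ConjClasses.mk_eq_mk_iff_isConj.1 h1.symm)
    obtain ⟨m, hm, c, hc, e'⟩ := mem_sup_of_normal_left.1 (mul_mem (h hs) (mem_sup_left k.2))
    refine ConjClasses.mk_eq_mk_iff_isConj.2 (isConj_iff.2 ⟨⟨m, hm⟩, Subtype.ext ?_⟩).symm
    rw [e]
    calc m * n * m⁻¹ = m * c * n * (m * c)⁻¹ := by rw [mul_assoc m c, mem_centralizer_singleton_iff.1 hc]; group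
      _ = _ := by rw [e']; simp [mul_assoc]

theorem cnt {G : Type*} [Group G] [Finite G] {p : ℕ} [Fact p.Prime] {N S : Subgroup G} [hN : N.Normal]
    (h : ¬ p ∣ Nat.card N) (hS : IsPGroup p S) :
    Nat.card {θ : IrrCharacter N // S ≤ inertia θ.1} = Nat.card {K // FK N S K} := by
  haveI := Fintype.ofFinite G
  haveI := Fintype.ofFinite N
  refine Eq.trans (Nat.card_congr (Equiv.subtypeEquivRight fun θ => ?_)) (S4445.result N S
    (fun s _ g hg => hN.conj_mem g hg s) (coprime_of_pgroup hS h).symm (isSolvable_of_pgroup hS))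
  exact ⟨fun a s hs g g' e => (congrArg _ (Subtype.ext e)).trans (mem_inertia'.1 (a hs) g),
    fun a s hs => mem_inertia'.2 fun n => a s hs n _ rfl⟩

/-- Let p be a prime and G a finite group that is not nilpotent and has a normal p-complement (a normal subgroup of order prime to p and index a power of p). If G has exactly one irreducible complex character of degree divisible by p, then G has exactly one conjugacy class whose size is divisible by p. -/
theorem result {G : Type*} [Group G] [Finite G] (p : ℕ) [Fact p.Prime] (hnil : ¬ Group.IsNilpotent G) (N : Subgroup G) [N.Normal] (hN : (Nat.card N).Coprime p) (hidx : ∃ k : ℕ, N.index = p ^ k) (hone : Nat.card {χ : Cfsg.IrrCharacter G // p ∣ Cfsg.charDegree (χ : G → ℂ)} = 1) : Nat.card {C : ConjClasses G // p ∣ Nat.card C.carrier} = 1 := by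
  classical
  haveI := Fintype.ofFinite G
  haveI := Fintype.ofFinite N
  have hp : p.Prime := Fact.out
  obtain ⟨k, hk⟩ := hidx
  obtain ⟨⟨χ, hχ⟩, hu'⟩ := Nat.card_eq_one_iff_exists.1 hone
  have hu : ∀ ξ, IsIrrCharacter G ξ → p ∣ charDegree ξ → ξ = χ.1 := fun ξ h1 h2 =>
    congrArg (fun x => x.1.1) (hu' ⟨⟨ξ, h1⟩, h2⟩)
  have hN' := (coprime_iff_not_dvd hp).1 hN
  have hc : N.index.Coprime (Nat.card N) := hk ▸ hN.symm.pow_left k
  have hT : ∀ T : Subgroup G, N ≤ T → T ≠ ⊤ → p ∣ T.index := fun T h h1 => by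
    obtain ⟨j, -, hj⟩ := (Nat.dvd_prime_pow hp).1 (hk ▸ index_dvd_of_le h)
    exact hj ▸ dvd_pow_self p fun e => h1 (index_eq_one.1 (by rw [hj, e, pow_zero]))
  have f1 : ∀ θ, IsIrrCharacter N θ → inertia θ ≠ ⊤ → classInner (fun n : N => χ.1 n) θ ≠ 0 ∧ inertia θ ≤ N := by
    intro θ hθ h
    have a := hT _ (le_inertia hθ.isClassFunction) h
    have b : ∀ ξ, IsIrrCharacter G ξ → classInner (fun n : N => ξ n) θ ≠ 0 → ξ = χ.1 := fun ξ h1 h2 =>
      hu ξ h1 ((a.mul_right _).trans (deg_dvd_of_over hθ h1 h2).1)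
    obtain ⟨ξ, h1, h2⟩ := hθ.exists_irr_over
    refine ⟨b ξ h1 h2 ▸ h2, ?_⟩
    obtain ⟨f, -, h3, h4⟩ := uniq_over hθ χ.2 b
    obtain ⟨η, h5, h6⟩ := inertia_lin hc hθ isIrr_one fun _ _ => rfl
    rw [← hu η h5 (h6 ▸ a.mul_right _), h6, deg_one, one_mul, ← relIndex_mul_index (le_inertia hθ.isClassFunction),
      mul_assoc] at h4
    have h7 := Nat.eq_of_mul_eq_mul_right (mul_pos (index_pos _) (charDegree_pos hθ)) h4
    have h8 := relIndex_pos N (inertia θ)
    rw [← relIndex_eq_one]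
    nlinarith
  have hG : IsPGroup p (G ⧸ N) := IsPGroup.of_card hk
  have f2 : commutator G ≤ N := by
    rw [← Normal.quotient_commutative_iff_commutator_le]
    refine ⟨⟨comm_of_forall_lin fun β hβ => by_contra fun h => hnil ?_⟩⟩
    obtain ⟨j, hj⟩ := deg_pow_of_pgroup hG hβ
    have a : p ∣ charDegree β := hj ▸ dvd_pow_self p fun e => h ((charDegree_eq_one hβ.isCharacter).1 (by rw [hj, e, pow_zero]))
    have b := hu _ (irr_inflate hβ) a
    have c : ∀ n ∈ N, χ.1 n = χ.1 1 := fun n hn => by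
      rw [← b]
      exact congrArg β ((QuotientGroup.eq_one_iff n).2 hn)
    have d : ∀ θ, IsIrrCharacter N θ → θ = fun _ => 1 := fun θ hθ => by
      by_cases e : inertia θ = ⊤
      · obtain ⟨η, h1, h2, -⟩ := exists_ext_of_coprime hθ (fun g => mem_inertia.1 (e.ge (mem_top g))) hc
        have h3 := isIrr_mul_of_restrict_irr (N := N) h1.isCharacter (by rw [funext h2]; exact hθ) χ.2 c
        have h4 := hu _ h3 (by
          rw [charDegree_eq (n := charDegree χ.1 * charDegree η) (by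
            rw [Nat.cast_mul, coe_charDegree χ.2.isCharacter, coe_charDegree h1.isCharacter, Pi.mul_apply])]
          exact hχ.mul_right _)
        funext n
        have h5 := congrFun h4 n
        rwa [Pi.mul_apply, h2, c n n.2, mul_eq_left₀ χ.2.apply_one_ne_zero] at h5
      · have h1 := (f1 θ hθ e).1
        rw [show (fun n : N => χ.1 n) = χ.1 1 • fun _ => 1 from funext fun n => by simp [c n n.2], classInner_smul_left] at h1
        exact (isIrr_one.eq_of_classInner_ne_zero hθ (right_ne_zero_of_mul h1)).symm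
    obtain rfl : N = ⊥ := eq_bot_iff.2 fun n hn => by_contra fun e => by
      obtain ⟨θ, h1, h2⟩ := exists_irr_ne (g := (⟨n, hn⟩ : N)) fun e' => e (congrArg Subtype.val e')
      exact h2 (by rw [d θ h1])
    exact (IsPGroup.of_card (index_bot.symm.trans hk)).isNilpotent
  have hs : ∀ P, Syl p P ⊤ → N ⊔ P = ⊤ := fun P hP => hP.sup_eq_of_index le_top ((piN_singleton hp (relIndex_pos _ _).ne').2
    ⟨k, by rw [relIndex_top_right, hk]⟩)
  have hb : ∀ P : Subgroup G, IsPGroup p P → P ⊓ N = ⊥ := fun P hP => inf_eq_bot_of_coprime' (coprime_of_pgroup hP hN')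
  have f3 : ∀ (n : N) (y : G), IsPGroup p (zpowers y) → y ≠ 1 → y ∈ N ⊔ C1[(n : G)] → N ⊔ C1[(n : G)] = ⊤ := by
    intro n y hy h1 h2
    obtain ⟨P, hP, h3⟩ := exists_syl_ge hy le_top
    refine eq_top_iff.2 ((hs P hP).ge.trans (sup_le le_sup_left ((fk n).1 (by_contra fun h => ?_))))
    refine (CfsgL0.card_subtype_lt' (fun K hK s hs => hK s (h3 hs)) _ ((fk n).2 (zpowers_le_of_mem h2)) h).ne ?_
    refine (cnt hN' hP.pg).symm.trans (Eq.trans (Nat.card_congr (Equiv.subtypeEquivRight fun θ =>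
      ⟨h3.trans, fun a => le_top.trans (Eq.ge (by_contra fun e => h1 ?_))⟩)) (cnt hN' hy))
    exact mem_bot.1 ((hb _ hy).le ⟨mem_zpowers y, (f1 _ θ.2 e).2 (a (mem_zpowers y))⟩)
  obtain ⟨P, hP⟩ := exists_syl p (⊤ : Subgroup G)
  obtain ⟨θ, hθ, hθ'⟩ := χ.2.exists_irr_under (H := N)
  have hθ1 : ¬ P ≤ inertia θ := fun h => by
    obtain ⟨η, h1, h2, -⟩ := exists_ext_of_coprime hθ (fun g => mem_inertia.1
      (sup_le (le_inertia hθ.isClassFunction) h ((hs P hP).ge (mem_top g)))) hc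
    obtain ⟨l, -, h3⟩ := exists_lin_mul_eq (N := N) (fun a b => f2 (commutator_mem_commutator (mem_top a) (mem_top b))) h1 χ.2
      (by rw [funext h2, hθ.isGen.classInner_comm (χ.2.isGen.restrict N)]; exact hθ')
    refine hN' (hχ.trans ?_)
    rw [charDegree_eq (n := charDegree θ) (by rw [h3, coe_charDegree hθ.isCharacter, ← h2]; simp)]
    exact (deg_dvd_index_ker hθ).trans (index_dvd_card _)
  have e1 : Nat.card {θ : IrrCharacter N // ¬ P ≤ inertia θ.1} = Nat.card {K // ¬ FK N P K} := by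
    haveI := Fintype.ofFinite (ConjClasses N)
    have a := cnt hN' hP.pg
    have b := card_irr_eq_card_conjClasses (G := N)
    simp only [Nat.card_eq_fintype_card] at a b ⊢
    rw [Fintype.card_subtype_compl, Fintype.card_subtype_compl, a, b]
  have e2 : Nat.card {K // ¬ FK N P K} ≤ Nat.card P := by
    have a := card_sup_of_disj (.inl le_normalizer_of_normal) (hb P hP.pg)
    rw [sup_comm, hs P hP, card_top, ← N.index_mul_card] at a
    rw [← e1, ← Nat.eq_of_mul_eq_mul_right (card_pos' N) a]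
    refine le_trans ?_ (Nat.le_of_dvd (index_pos N) (index_dvd_of_le (le_inertia hθ.isClassFunction)))
    rw [← card_cjOrbit, ← Nat.card_eq_finsetCard]
    exact Nat.card_le_card_of_injective (fun φ => ⟨φ.1.1, mem_cjOrbit_of_constituents χ.2 hθ φ.1.2 hθ'
      (f1 _ φ.1.2 fun e => φ.2 (le_top.trans e.ge)).1⟩) fun a b e => Subtype.ext (Subtype.ext (congrArg (fun x => x.1) e))
  obtain ⟨⟨K, hK⟩⟩ : Nonempty {K // ¬ FK N P K} :=
    (Nat.card_pos_iff.1 (e1 ▸ Nat.card_pos_iff.2 ⟨⟨⟨⟨θ, hθ⟩, hθ1⟩⟩, inferInstance⟩)).1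
  obtain ⟨n, rfl⟩ := K.exists_rep
  have hn : N ⊔ C1[(n : G)] ≠ ⊤ := fun e => hK ((fk n).2 (le_top.trans e.ge))
  have hn' : ∀ x : G, ¬ FK N P (ConjClasses.mk ⟨x * n * x⁻¹, ‹N.Normal›.conj_mem _ n.2 x⟩) := fun x h => hn (by
    have a := eq_top_iff.2 ((hs P hP).ge.trans (sup_le le_sup_left ((fk _).1 h)))
    rw [← map_cj_eq_top (g := x), Subgroup.map_sup, map_cj_normal, ← centralizer_conj]
    exact a)
  have inj : Injective fun x : P => (⟨_, hn' x⟩ : {K // ¬ FK N P K}) := fun x y e => by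
    obtain ⟨m, hm⟩ := isConj_iff.1 (ConjClasses.mk_eq_mk_iff_isConj.1 (congrArg Subtype.val e))
    have a : (m : G) * (x * n * (x : G)⁻¹) * (m : G)⁻¹ = y * n * (y : G)⁻¹ := congrArg Subtype.val hm
    refine (inv_mul_eq_one.1 (Subtype.ext (by_contra fun h => hn (f3 n _ (hP.pg.to_le (zpowers_le_of_mem (y⁻¹ * x).2)) h ?_)))).symm
    rw [show ((y⁻¹ * x : P) : G) = ((y : G)⁻¹ * (m : G)⁻¹ * y) * ((y : G)⁻¹ * m * x) by simp [mul_assoc]]
    refine mul_mem (mem_sup_left (‹N.Normal›.conj_mem' _ (inv_mem m.2) _)) (mem_sup_right (mem_centralizer_singleton_iff.2 ?_))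
    calc _ = (y : G)⁻¹ * ((m : G) * (x * n * (x : G)⁻¹) * (m : G)⁻¹) * m * x := by group
      _ = _ := by rw [a]; group
  have cc : ∀ g : G, Nat.card (ConjClasses.mk g).carrier = C1[g].index := fun g => (Nat.card_congr (Equiv.subtypeEquivRight
    fun x => by rw [ConjClasses.mem_carrier_iff_mk_eq, ConjClasses.mk_eq_mk_iff_isConj, isConj_comm])).trans
    (card_isConj_eq_index g)
  refine Nat.card_eq_one_iff_exists.2 ⟨⟨ConjClasses.mk n, ?_⟩, fun ⟨C, hC⟩ => Subtype.ext ?_⟩
  · rw [cc]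
    exact (hT _ le_sup_left hn).trans (index_dvd_of_le le_sup_right)
  obtain ⟨g, rfl⟩ := C.exists_rep
  rw [cc] at hC
  have hr : rpart p g ∈ N := by
    refine mem_of_pow_mem_coprime (pow_index_mem N _) ?_
    exact hk ▸ ((coprime_iff_not_dvd hp).2 (reg_rpart p g)).pow_right k
  obtain ⟨j, hj⟩ := pelt_ppart p g
  have hy : IsPGroup p (zpowers (ppart p g)) := isPGroup_zpowers (hj ▸ pow_orderOf_eq_one _)
  have hyc : ppart p g ∈ C1[rpart p g] := mem_centralizer_singleton_iff.2 (commute_ppart_rpart p g)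
  have ht : N ⊔ C1[rpart p g] ≠ ⊤ := fun e => by
    obtain ⟨Q, hQ, h1⟩ := exists_syl_ge hy (zpowers_le_of_mem hyc)
    have a := hQ.trans le_top (by
      rw [← e, relIndex_sup_right_of_le_normalizer le_normalizer_of_normal]
      exact fun h => hN' (h.trans (relIndex_dvd_card _ _)))
    refine a.not_dvd_of_le (K := C1[g]) (fun q hq => mem_centralizer_singleton_iff.2 ?_) (by simpa using hC)
    have b : Q ≤ C[Q] := comm_eq_bot_iff.1 (eq_bot_iff.2 ((le_inf commutator_self_le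
      ((commutator_mono le_top le_top).trans f2)).trans (hb Q hQ.pg).le))
    rw [← ppart_mul_rpart p g, ← mul_assoc, ← b hq _ (h1 (mem_zpowers _)), mul_assoc,
      mem_centralizer_singleton_iff.1 (hQ.le hq), mul_assoc]
  have h1 : ppart p g = 1 := by_contra fun h => ht (f3 ⟨_, hr⟩ _ hy h (mem_sup_right hyc))
  have sur : Surjective fun x : P => (⟨_, hn' x⟩ : {K // ¬ FK N P K}) :=
    ((Nat.bijective_iff_injective_and_card _).2 ⟨inj, le_antisymm (Nat.card_le_card_of_injective _ inj) e2⟩).2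
  obtain ⟨x, hx⟩ := sur ⟨ConjClasses.mk ⟨_, hr⟩, fun h => ht (eq_top_iff.2 ((hs P hP).ge.trans
    (sup_le le_sup_left ((fk ⟨_, hr⟩).1 h))))⟩
  have a : IsConj ((x : G) * n * (x : G)⁻¹) (rpart p g) :=
    N.subtype.map_isConj (ConjClasses.mk_eq_mk_iff_isConj.1 (congrArg Subtype.val hx))
  have b : rpart p g = g := by simpa [h1] using ppart_mul_rpart p g
  rw [b] at a
  exact ConjClasses.mk_eq_mk_iff_isConj.2 ((isConj_iff.2 ⟨(x : G), rfl⟩ : IsConj (n : G) _).trans a).symm


end Cfsg.Agent.S4763
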