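import Mathlib
import Cfsg.Statements.S4765
import Cfsg.Agent.H8.SL2f

set_option autoImplicit false
open Cfsg

namespace Cfsg.Agent.S4765

open CfsgH8 CfsgH3

/-- Let F be a finite field of characteristic p with at least 4 elements. Then PSL(2,F) has exactly one irreducible complex character of degree divisible by p, and its degree is the order of F. -/
theorem result (p : ℕ) [Fact p.Prime] (F : Type*) [Field F] [Fintype F] [CharP F p] (hF : 4 ≤ Fintype.card F) : Nat.card {χ : Cfsg.IrrCharacter (Matrix.ProjectiveSpecialLinearGroup (Fin 2) F) // p ∣ Cfsg.charDegree (χ : Matrix.ProjectiveSpecialLinearGroup (Fin 2) F → ℂ)} = 1 ∧ ∀ χ : Cfsg.IrrCharacter (Matrix.ProjectiveSpecialLinearGroup (Fin 2) F), p ∣ Cfsg.charDegree (χ : Matrix.ProjectiveSpecialLinearGroup (Fin 2) F → ℂ) → Cfsg.charDegree (χ : Matrix.ProjectiveSpecialLinearGroup (Fin 2) F → ℂ) = Fintype.card F := by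
  classical
  have hp : p.Prime := Fact.out
  obtain ⟨n, -, hn⟩ := FiniteField.card F p
  have hq : p ∣ Fintype.card F := hn ▸ dvd_pow_self p n.ne_zero
  obtain ⟨g0, h0⟩ := exists_ell (F := F)
  have key : ∀ χ : Cfsg.IrrCharacter (Matrix.ProjectiveSpecialLinearGroup (Fin 2) F),
      p ∣ Cfsg.charDegree (χ : Matrix.ProjectiveSpecialLinearGroup (Fin 2) F → ℂ) →
      (fun g => (χ : Matrix.ProjectiveSpecialLinearGroup (Fin 2) F → ℂ)
        (QuotientGroup.mk' (Subgroup.center _) g)) = St0 F := by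
    intro χ h
    obtain ⟨d, hd⟩ := χ.2.isCharacter.exists_nat_apply_one
    rw [charDegree_of_eq hd] at h
    have h1 : ¬ p ∣ 1 := hp.one_lt.ne' ∘ Nat.dvd_one.1
    have h2 : ¬ p ∣ Fintype.card F + 1 := fun h => h1 ((Nat.dvd_add_right hq).1 h)
    have h3 : ¬ p ∣ Fintype.card F - 1 := fun h => h1 (by
      simpa [show Fintype.card F - (Fintype.card F - 1) = 1 by omega] using Nat.dvd_sub hq h)
    rcases irr_SL2_deg h0 (χ.2.comp_of_surjective (QuotientGroup.mk' (Subgroup.center _))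
      (QuotientGroup.mk'_surjective _)) (d := d) hd with ⟨rfl, -⟩ | ⟨-, h⟩ | ⟨rfl, -⟩ | ⟨rfl, -⟩ |
        ⟨rfl, a, -⟩ | ⟨rfl, a, -⟩
    · exact absurd h h1
    · exact h
    · exact absurd h h2
    · exact absurd h h3
    · exact absurd (h.trans (Nat.div_dvd_of_dvd (by omega))) h2
    · exact absurd (h.trans (Nat.div_dvd_of_dvd (by omega))) h3
  refine ⟨?_, fun χ h => charDegree_of_eq ((congrFun (key χ h) 1).trans St0_one)⟩
  obtain ⟨χ, h1, h2⟩ := exists_deflation_PSL2 (isIrr_St0 (F := F)) St0_neg_one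
  rw [Nat.card_eq_one_iff_exists]
  refine ⟨⟨⟨χ, h1⟩, by rwa [charDegree_of_eq ((h2 1).trans St0_one)]⟩, fun ψ => ?_⟩
  refine Subtype.ext (Subtype.ext (funext fun x => ?_))
  obtain ⟨g, rfl⟩ := QuotientGroup.mk_surjective x
  exact (congrFun (key ψ.1 ψ.2) g).trans (h2 g).symm

end Cfsg.Agent.S4765
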