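import Cfsg.Statements.S4768
import Cfsg.Agent.H3.Cd4
import Cfsg.Agent.H1.Sep

set_option autoImplicit false
open Cfsg

open Cfsg CfsgH3 CfsgH4 CfsgH1 CfsgCd Function Subgroup
open CfsgH2 hiding cj cj_apply isPGroup_pCore le_pCore isNilpotent_map card_mul_relIndex
open scoped ComplexConjugate commutatorElement CfsgH2

namespace Cfsg.Agent.S4768
theorem ito_ab {G Q : Type*} [Group G] [Finite G] [Group Q] {p : ℕ} [hp : Fact p.Prime] (hG : IsPSolvable p G)
    (h : ∀ χ, IsIrrCharacter G χ → ¬ p ∣ charDegree χ) (hQ : IsPGroup p Q) (f : Q →* G) : commutator Q ≤ f.ker := by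
  obtain ⟨S, hS⟩ := (hQ.of_surjective _ f.rangeRestrict_surjective).exists_le_sylow
  haveI := ito_normal _ G rfl hG h S
  have := comm_of_forall_lin (G := (S : Subgroup G)) fun θ hθ => by
    obtain ⟨χ, hχ, hd⟩ := exists_over_dvd hθ
    obtain ⟨k, hk⟩ := deg_pow_of_pgroup S.isPGroup' hθ
    rw [← charDegree_eq_one hθ.isCharacter, hk]
    by_contra c
    exact h χ hχ ((dvd_pow_self p fun e => c (by rw [e, pow_zero])).trans (hk ▸ (dvd_mul_left _ _).trans hd))
  refine commutator_le.2 fun a _ b _ => ?_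
  rw [MonoidHom.mem_ker, map_commutatorElement, commutatorElement_eq_one_iff_mul_comm]
  exact congrArg Subtype.val (this ⟨_, hS ⟨a, rfl⟩⟩ ⟨_, hS ⟨b, rfl⟩⟩)

theorem caseB {G Q : Type*} [Group G] [Finite G] [Group Q] {p : ℕ} [hp : Fact p.Prime] (hG : IsPSolvable p G)
    {A : Subgroup G} [A.Normal] (h0 : A ≠ ⊥) (hA : IsPGroup p A) (hab : ∀ a ∈ A, ∀ b ∈ A, a * b = b * a)
    (h : ∀ χ, IsIrrCharacter G χ → p ∣ charDegree χ → ∀ a ∈ A, χ a = χ 1) (hQ : IsPGroup p Q) (f : Q →* G) :
    commutator Q ≤ A.comap f := by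
  haveI := Fintype.ofFinite G
  haveI := Fintype.ofFinite A
  have h1 : ⁅A, A ⊔ f.range⁆ < A := commutator_lt_of_nilpotent
    (isPGroup_sup hA (hQ.of_surjective _ f.rangeRestrict_surjective) (Or.inr le_normalizer_of_normal)).isNilpotent
    le_sup_left le_normalizer_of_normal h0
  obtain ⟨v, hv, hv1⟩ := SetLike.not_le_iff_exists.1 h1.not_ge
  haveI : (⁅A, A ⊔ f.range⁆.subgroupOf A).Normal := ⟨fun n hn g => by
    rwa [show g * n = n * g from Subtype.ext (hab _ g.2 _ n.2), mul_inv_cancel_right]⟩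
  obtain ⟨l, hl, hl1⟩ := exists_unitsHom_of_not_mem (N := ⁅A, A ⊔ f.range⁆.subgroupOf A) (fun a b => by
    rw [show a * b = b * a from Subtype.ext (hab _ a.2 _ b.2), mul_inv_cancel_right, mul_inv_cancel]
    exact one_mem _) (v := ⟨v, hv⟩) hv1
  have hθ := isIrr_of_unitsHom l
  have hle := le_inertia hθ.isClassFunction
  have hf : ∀ x, f x ∈ inertia fun n : A => (l n : ℂ) := fun x => mem_inertia'.2 fun n => by
    have := hl (n * (⟨_, Normal.conj_mem inferInstance _ n.2 (f x)⟩ : A)⁻¹) (by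
      simpa [mem_subgroupOf, commutatorElement_def, mul_assoc] using
        commutator_mem_commutator n.2 (mem_sup_right (S := A) (⟨x, rfl⟩ : f x ∈ f.range)))
    rw [map_mul, map_inv, mul_inv_eq_one] at this
    rw [this]
  set T := inertia fun n : A => (l n : ℂ) with hT
  haveI := Fintype.ofFinite T
  have hB : ∀ ψ, IsIrrCharacter T ψ → classInner (resLE hle ψ) (fun n : A => (l n : ℂ)) ≠ 0 → ¬ p ∣ charDegree ψ := by
    intro ψ hψ hc hd
    have h2 := isIrr_indFun_of_over_inertia hθ hT hle hψ hc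
    have h3 := (indFun_eq_of_over_inertia hθ hT hle hψ hc h2 (by rw [h2.classInner_self]; exact one_ne_zero)).2
    have := (h2.isCharacter.restrict A).apply_eq_of_constituent hθ (h3 ▸ hc) (g := ⟨v, hv⟩)
      (h _ h2 (deg_indFun hψ.isCharacter ▸ hd.mul_left _) v hv)
    exact hl1 (Units.ext (this.trans (by simp)))
  obtain ⟨ψ, hψ, hc⟩ := exists_over_LE hle hθ
  have h4 := resLE_eq_smul hle hψ hθ le_rfl hc
  obtain ⟨c, hc'⟩ := Nat.exists_mul_mod_eq_one_of_coprime (coprime_of_pgroup hA (hB ψ hψ hc)).symm ((one_lt_card_iff_ne_bot A).2 h0)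
  have h5 : ∀ n : A, (dt ψ ^ c) ⟨n, hle n.2⟩ = l n := fun n => Units.ext (by
    have e1 : ψ 1 = _ * ((l 1 : ℂˣ) : ℂ) := congrFun h4 1
    have e2 : ψ ⟨n, hle n.2⟩ = _ * (l n : ℂ) := congrFun h4 n
    rw [map_one, Units.val_one, mul_one] at e1
    rw [MonoidHom.pow_apply, Units.val_pow_eq_pow_val, dt_of_scalar hψ.isCharacter (coe_charDegree hψ.isCharacter).symm
      (norm_eq_one_of_lin hθ.isCharacter (by simp) n) (by rw [e2, ← e1, mul_comm]), ← pow_mul,
      ← Units.val_pow_eq_pow_val, ← map_pow, ← pow_mod_natCard, hc'.2, pow_one])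
  refine (ito_ab (IsPSolvable.quotient' (IsPSolvable.subgroup' hG T) (A.subgroupOf T)) (fun β hβ hd => ?_) hQ
    ((QuotientGroup.mk' _).comp (f.codRestrict T hf))).trans fun x hx =>
      (QuotientGroup.eq_one_iff (N := A.subgroupOf T) ⟨f x, hf x⟩).1 hx
  refine hB _ (isIrr_lin_mul (irr_inflate hβ) (dt ψ ^ c)) ?_ ?_
  · rw [show resLE hle (fun g : T => ((dt ψ ^ c) g : ℂ) * β g) = β 1 • fun n : A => (l n : ℂ) from funext fun n => by
      show ((dt ψ ^ c) ⟨n, hle n.2⟩ : ℂ) * β _ = β 1 * l n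
      rw [h5, (QuotientGroup.eq_one_iff _).2 (show (⟨n, hle n.2⟩ : T) ∈ A.subgroupOf T from n.2), mul_comm],
      classInner_smul_left, hθ.classInner_self, mul_one]
    exact hβ.apply_one_ne_zero
  · rwa [charDegree_eq (show ((dt ψ ^ c) 1 : ℂ) * β ((1 : T) : T ⧸ A.subgroupOf T) = charDegree β by
      rw [map_one, Units.val_one, one_mul, coe_charDegree hβ.isCharacter]; rfl)]

def inf {G : Type*} [Group G] [Finite G] (N : Subgroup G) [N.Normal] (β : IrrCharacter (G ⧸ N)) : IrrCharacter G :=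
  ⟨_, irr_inflate β.2⟩

theorem inf_inj {G : Type*} [Group G] [Finite G] (N : Subgroup G) [N.Normal] : Injective (inf N) := fun a b h =>
  Subtype.ext (funext fun x => by
    obtain ⟨x, rfl⟩ := QuotientGroup.mk_surjective x
    exact congrFun (congrArg Subtype.val h) x)

universe u in
theorem main {Q : Type*} [Group Q] {p : ℕ} [hp : Fact p.Prime] (hQ : IsPGroup p Q) (m : ℕ) :
    ∀ (G : Type u) [Group G] [Finite G], Nat.card G ≤ m → IsPSolvable p G → ∀ (f : Q →* G) (n : ℕ),
      {χ : IrrCharacter G | p ∣ charDegree χ.1}.ncard ≤ n → derivedSeries Q (n + 1) ≤ f.ker := by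
  induction m with
  | zero => exact fun G _ _ h => absurd h Nat.card_pos.not_ge
  | succ m ih =>
    intro G _ _ hm hG f n hn
    have sub : ∀ (N : Subgroup G) [N.Normal], inf N '' {β | p ∣ charDegree β.1} ⊆ {χ | p ∣ charDegree χ.1} := by
      rintro N _ _ ⟨β, hβ, rfl⟩
      exact hβ
    have key : ∀ (N : Subgroup G) [N.Normal], N ≠ ⊥ → ∀ k, (inf N '' {β | p ∣ charDegree β.1}).ncard ≤ k →
        derivedSeries Q (k + 1) ≤ N.comap f := fun N _ h0 k hk x hx => (QuotientGroup.eq_one_iff (f x)).1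
      (ih (G ⧸ N) (Nat.le_of_lt_succ ((CfsgH2.card_quot_lt h0).trans_le hm)) (IsPSolvable.quotient' hG N)
        ((QuotientGroup.mk' N).comp f) k (by rwa [Set.ncard_image_of_injective _ (inf_inj N)] at hk) hx)
    by_cases h1 : pPrimeCore p G = ⊥
    swap
    · intro x hx
      have := key _ h1 n ((Set.ncard_le_ncard (sub _)).trans hn) hx
      obtain ⟨k, hk⟩ := hQ x
      exact eq_one_of_coprime_order (isPGroup_zpowers (k := k) (x := f x) (by rw [← map_pow, hk, map_one]))
        (mem_zpowers _) ((coprime_pPrimeCore p).coprime_dvd_left (orderOf_dvd_natCard _ this))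
    rcases n with _ | n
    · refine ito_ab hG (fun χ hχ hd => ?_) hQ f
      rw [Nat.le_zero, Set.ncard_eq_zero] at hn
      exact hn.le (show (⟨χ, hχ⟩ : IrrCharacter G) ∈ _ from hd)
    by_cases h2 : pCore p G = ⊥
    · intro x _
      have := centralizer_pCore_le hG h1
      rw [h2] at this
      exact mem_bot.1 (this fun y hy => by rw [mem_bot.1 hy, one_mul, mul_one])
    let A := pCore p G ⊓ C[pCore p G]
    have h0 : A ≠ ⊥ := nil_center_ne_bot (isPGroup_pCore p).isNilpotent h2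
    have hab : ∀ a ∈ A, ∀ b ∈ A, a * b = b * a := fun a ha b hb => hb.2 a ha.1
    have fin : ∀ D : Subgroup Q, D ≤ A.comap f → ⁅D, D⁆ ≤ f.ker := fun D hD => commutator_le.2 fun a ha b hb => by
      rw [MonoidHom.mem_ker, map_commutatorElement, commutatorElement_eq_one_iff_mul_comm]
      exact hab _ (hD ha) _ (hD hb)
    refine fin _ ?_
    by_cases h3 : ∀ χ, IsIrrCharacter G χ → p ∣ charDegree χ → ∀ a ∈ A, χ a = χ 1
    · exact (derivedSeries_antitone Q (Nat.le_add_left 1 n)).trans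
        (caseB hG h0 ((isPGroup_pCore p).to_le inf_le_left) hab h3 hQ f)
    push Not at h3
    obtain ⟨χ, hχ, hd, a, ha, h3⟩ := h3
    refine key A h0 n (Nat.le_of_lt_succ ((Set.ncard_lt_ncard ⟨sub A, fun c => ?_⟩).trans_le hn))
    obtain ⟨β, -, e⟩ := c (show (⟨χ, hχ⟩ : IrrCharacter G) ∈ _ from hd)
    obtain rfl : _ = χ := congrArg Subtype.val e
    exact h3 (congrArg β.1 ((QuotientGroup.eq_one_iff a).2 ha))

/-- Let p be a prime, G a finite p-solvable group and P a Sylow p-subgroup of G. If n is the number of irreducible complex characters of G whose degree is divisible by p, then the (n+1)-st term of the derived series of P is trivial. (The p-solvable case has a direct inductive proof.) -/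
theorem result {G : Type*} [Group G] [Finite G] (p : ℕ) [Fact p.Prime] (hG : Cfsg.IsPSolvable p G) (P : Sylow p G) : derivedSeries ↥(P : Subgroup G) (Nat.card {χ : Cfsg.IrrCharacter G // p ∣ Cfsg.charDegree (χ : G → ℂ)} + 1) = ⊥ := by
  exact eq_bot_iff.2 ((main P.isPGroup' _ G le_rfl hG (P : Subgroup G).subtype _
    (Nat.card_coe_set_eq _).ge).trans (ker_subtype _).le)


end Cfsg.Agent.S4768
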