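import Mathlib
import Cfsg.Statements.S4774
import Cfsg.Agent.H8.SL2f

set_option autoImplicit false
open Cfsg

namespace Cfsg.Agent.S4774

open CfsgH8 CfsgH3

/-- Let F be a finite field of odd characteristic t with q > 5 elements and let S be isomorphic to PSL(2,F) or to SL(2,F). Then the vertices of the character degree graph of S are the primes dividing q(q²−1); the prime t is adjacent to no vertex; two distinct primes dividing q² − 1 are adjacent exactly when one of them is 2, or both divide q + 1, or both divide q − 1. -/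
theorem result (F : Type*) [Field F] [Fintype F] (t : ℕ) [Fact t.Prime] [CharP F t] (ht : t ≠ 2) (q : ℕ) (hq : Fintype.card F = q) (h5 : 5 < q) {S : Type*} [Group S] [Finite S] (hS : Nonempty (S ≃* Matrix.ProjectiveSpecialLinearGroup (Fin 2) F) ∨ Nonempty (S ≃* Matrix.SpecialLinearGroup (Fin 2) F)) : Cfsg.degreePrimes S = {r : ℕ | r.Prime ∧ r ∣ q * (q ^ 2 - 1)} ∧ ∀ r s : ℕ, (Cfsg.degreeGraph S).Adj r s ↔ (r ≠ s ∧ r.Prime ∧ s.Prime ∧ r ∣ q ^ 2 - 1 ∧ s ∣ q ^ 2 - 1 ∧ (r = 2 ∨ s = 2 ∨ (r ∣ q + 1 ∧ s ∣ q + 1) ∨ (r ∣ q - 1 ∧ s ∣ q - 1))) := by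
  classical
  subst hq
  have h2 := FiniteField.odd_card_of_char_ne_two ((ringChar.eq F t).symm ▸ ht)
  obtain ⟨n, htp, hn⟩ := FiniteField.card F t
  obtain ⟨a, b⟩ := charDegrees_of_equiv hS
  obtain ⟨c1, c2, c3⟩ := mem_charDegrees_PSL2 (F := F) (by omega) (by omega)
  have e : Fintype.card F ^ 2 - 1 = (Fintype.card F + 1) * (Fintype.card F - 1) := by
    rw [← Nat.sq_sub_sq, one_pow]
  have d1 : (Fintype.card F + 1) / 2 ∣ Fintype.card F + 1 := Nat.div_dvd_of_dvd (by omega)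
  have d2 : (Fintype.card F - 1) / 2 ∣ Fintype.card F - 1 := Nat.div_dvd_of_dvd (by omega)
  refine ⟨Set.ext fun r => and_congr_right fun hr => ?_, fun r s => and_congr_right fun hrs =>
    and_congr_right fun hr => and_congr_right fun hs => ?_⟩
  · rw [e, hr.dvd_mul, hr.dvd_mul]
    constructor
    · rintro ⟨d, hd, h⟩
      rcases mem_charDegrees_SL2 (b hd) with rfl | rfl | rfl | rfl | ⟨-, rfl | rfl⟩
      · exact absurd (Nat.dvd_one.1 h) hr.one_lt.ne'
      · exact Or.inl h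
      · exact Or.inr (Or.inl h)
      · exact Or.inr (Or.inr h)
      · exact Or.inr (Or.inl (h.trans d1))
      · exact Or.inr (Or.inr (h.trans d2))
    · rintro (h | h | h)
      exacts [⟨_, a c1, h⟩, ⟨_, a c2, h⟩, ⟨_, a c3, h⟩]
  · have hc := (Nat.coprime_primes hr hs).2 hrs
    rw [e, hr.dvd_mul, hs.dvd_mul]
    constructor
    · rintro ⟨d, hd, h⟩
      have h1 := (dvd_mul_right r s).trans h
      have h2 := (dvd_mul_left s r).trans h
      rcases mem_charDegrees_SL2 (b hd) with rfl | rfl | rfl | rfl | ⟨-, rfl | rfl⟩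
      · exact absurd (Nat.dvd_one.1 h1) hr.one_lt.ne'
      · rw [hn] at h1 h2
        exact absurd (((Nat.prime_dvd_prime_iff_eq hr htp).1 (hr.dvd_of_dvd_pow h1)).trans
          ((Nat.prime_dvd_prime_iff_eq hs htp).1 (hs.dvd_of_dvd_pow h2)).symm) hrs
      · tauto
      · tauto
      · have := h1.trans d1; have := h2.trans d1; tauto
      · have := h1.trans d2; have := h2.trans d2; tauto
    · have e1 : 2 ∣ Fintype.card F + 1 := by omega
      have e2 : 2 ∣ Fintype.card F - 1 := by omega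
      rintro ⟨h1, h2, rfl | rfl | h | h⟩
      · rcases h2 with h | h
        exacts [⟨_, a c2, hc.mul_dvd_of_dvd_of_dvd e1 h⟩, ⟨_, a c3, hc.mul_dvd_of_dvd_of_dvd e2 h⟩]
      · rcases h1 with h | h
        exacts [⟨_, a c2, hc.mul_dvd_of_dvd_of_dvd h e1⟩, ⟨_, a c3, hc.mul_dvd_of_dvd_of_dvd h e2⟩]
      exacts [⟨_, a c2, hc.mul_dvd_of_dvd_of_dvd h.1 h.2⟩, ⟨_, a c3, hc.mul_dvd_of_dvd_of_dvd h.1 h.2⟩]

end Cfsg.Agent.S4774
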