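import Cfsg.Statements.S4784
import Cfsg.Agent.H4.Ch2

set_option autoImplicit false
open Cfsg

open Cfsg CfsgH3 CfsgH4 CfsgH1 Function
open scoped ComplexConjugate

namespace Cfsg.Agent.S4784
open Subgroup

/-- Let H be a subgroup of the finite group G and consider the permutation character of G on the cosets of H (the function induced from the principal character of H). Then exactly one irreducible constituent of it is real-valued with Frobenius–Schur indicator +1 (namely the principal character) if and only if the normal core of H has odd index in G. -/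
theorem result {G : Type*} [Group G] [Fintype G] (H : Subgroup G) : Nat.card {χ : Cfsg.IrrCharacter G // Cfsg.classInner (Cfsg.indFun H (fun _ : H => (1 : ℂ))) (χ : G → ℂ) ≠ 0 ∧ (∀ g : G, (starRingEnd ℂ) ((χ : G → ℂ) g) = (χ : G → ℂ) g) ∧ (Nat.card G : ℂ)⁻¹ * ∑ g : G, (χ : G → ℂ) (g * g) = 1} = 1 ↔ Odd H.normalCore.index := by
  classical
  set K := H.normalCore
  set π := indFun H (fun _ : H => (1 : ℂ)) with hπ
  have cπ : IsCharacter G π := isCharacter_one.ind
  have i1 : classInner π (fun _ => 1) = 1 := by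
    rw [hπ, classInner_indFun_left _ (isClassFunction_const 1)]; exact isIrr_one.classInner_self
  have mem1 : classInner π (fun _ => 1) ≠ 0 ∧ (∀ _ : G, conj (1 : ℂ) = 1) ∧
      (Nat.card G : ℂ)⁻¹ * ∑ _ : G, (1 : ℂ) = 1 := ⟨by simp [i1], by simp, fsi_one⟩
  rw [Nat.card_eq_one_iff_unique]
  refine ⟨fun ⟨hs, _⟩ => ?_, fun ho => ⟨?_, ⟨⟨⟨_, isIrr_one⟩, mem1⟩⟩⟩⟩
  · by_contra ho
    rw [Nat.not_odd_iff_even, even_iff_two_dvd] at ho
    haveI := Fact.mk Nat.prime_two
    obtain ⟨t, ht⟩ := exists_prime_orderOf_dvd_card' 2 (G := G ⧸ K) ho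
    obtain ⟨t, rfl⟩ := QuotientGroup.mk_surjective t
    have t2 : t * t ∈ K := (QuotientGroup.eq_one_iff _).1 (by
      rw [QuotientGroup.mk_mul, ← sq, ← ht, pow_orderOf_eq_one])
    have t1 : t ∉ K := fun h => by rw [(QuotientGroup.eq_one_iff _).2 h] at ht; simp at ht
    obtain ⟨y, hy⟩ : ∃ y, y * t * y⁻¹ ∉ H := not_forall.1 t1
    have lb : (Nat.card H : ℝ) < (∑ g : G, extendByZero H (fun _ => (1 : ℂ)) (g * g)).re := by
      have : ∑ g : G, extendByZero H (fun _ => (1 : ℂ)) (g * g) =
          ((Finset.univ.filter fun g : G => g * g ∈ H).card : ℕ) := by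
        rw [Finset.card_filter]; push_cast
        refine Finset.sum_congr rfl fun g _ => ?_
        split_ifs with h
        · exact extendByZero_of_mem _ h
        · exact extendByZero_of_not_mem _ h
      rw [this, Complex.natCast_re, Nat.cast_lt, Nat.card_eq_fintype_card, Fintype.card_subtype]
      refine Finset.card_lt_card ⟨fun g hg => ?_, fun hh => hy ?_⟩
      · simp only [Finset.mem_filter, Finset.mem_univ, true_and] at hg ⊢; exact mul_mem hg hg
      · have := hh (Finset.mem_filter.2 ⟨Finset.mem_univ (y * t * y⁻¹), by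
          have := t2 y; rwa [show y * (t * t) * y⁻¹ = y * t * y⁻¹ * (y * t * y⁻¹) by group] at this⟩)
        simpa using this
    have ub : (fsi π).re ≤ 1 := by
      rw [fsi_eq_sum cπ.isClassFunction, ← Finset.add_sum_erase _ _
        (Finset.mem_univ (⟨_, isIrr_one⟩ : IrrCharacter G)), i1, fsi_one, Complex.add_re, Complex.re_sum]
      have : ∑ χ ∈ Finset.univ.erase (⟨_, isIrr_one⟩ : IrrCharacter G), (classInner π χ.1 * fsi χ.1).re ≤ 0 := by
        refine Finset.sum_nonpos fun χ hχ => ?_
        obtain ⟨m, hm⟩ := cπ.exists_nat_classInner χ.2.isCharacter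
        rcases fsi_cases χ.2 with h | h | h
        · simp [h]
        · by_cases h0 : classInner π χ.1 = 0
          · simp [h0]
          refine absurd (congrArg (·.1) (hs.elim ⟨χ, h0, fun g => ?_, h⟩ ⟨⟨_, isIrr_one⟩, mem1⟩))
            (Finset.mem_erase.1 hχ).1
          exact Complex.conj_eq_iff_im.2 (real_of_fsi χ.2 (by simp [h]) g)
        · simp [h, hm]
      simp only [mul_one, Complex.one_re]; linarith
    rw [hπ, fsi_indFun, ← Complex.ofReal_natCast, ← Complex.ofReal_inv, Complex.re_ofReal_mul,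
      inv_mul_le_iff₀ (by exact_mod_cast Nat.card_pos)] at ub
    linarith
  · have all : ∀ χ : IrrCharacter G, classInner π χ.1 ≠ 0 → (∀ g, conj (χ.1 g) = χ.1 g) →
        χ.1 = fun _ => 1 := fun χ a b => by
      have hk : ∀ k ∈ K, χ.1 k = χ.1 1 := fun k hk => cπ.apply_eq_of_constituent χ.2 a
        (indFun_apply_of_normal_le_ker H.normalCore_le (fun _ _ => rfl) hk)
      obtain ⟨β, -, b1, b2⟩ := χ.2.isCharacter.exists_deflation K hk
      have := (b1 χ.2).eq_one_of_odd_of_real ho fun x => by
        obtain ⟨x, rfl⟩ := QuotientGroup.mk_surjective x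
        rw [b2]; exact Complex.conj_eq_iff_im.1 (b x)
      funext g; rw [← b2, this]
    exact ⟨fun a b => Subtype.ext (Subtype.ext ((all _ a.2.1 a.2.2.1).trans (all _ b.2.1 b.2.2.1).symm))⟩


end Cfsg.Agent.S4784
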