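import Cfsg.Statements.S4796
import Mathlib
import Cfsg.Agent.H4.Ch1
import Cfsg.Agent.H1.Frob
import Cfsg.Agent.H2.Misc

set_option autoImplicit false
open Cfsg

open Cfsg CfsgH3 CfsgH4 CfsgH1 Function
open scoped ComplexConjugate Pointwise

namespace Cfsg.Agent.S4796

theorem core {G : Type*} [Group G] [Finite G] {χ : G → ℂ} (hχ : IsIrrCharacter G χ)
    (hf : ∀ g, χ g = χ 1 → g = 1) {p : ℕ} (hp : p.Prime) (h : Nat.card G = p * charDegree χ) :
    ∃ P : Subgroup G, P.Normal ∧ Nat.card P = p ∧ Subgroup.centralizer (P : Set G) ≤ P := by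
  have := Fintype.ofFinite G
  have := Fact.mk hp
  have hd := charDegree_pos hχ
  have h1 : χ ≠ fun _ => 1 := by
    rintro rfl
    have : Subsingleton G := ⟨fun a b => by rw [hf a rfl, hf b rfl]⟩
    exact hp.ne_one (Nat.eq_one_of_mul_eq_one_right (h.symm.trans Nat.card_unique))
  have h2 : charDegree χ < p := by have := deg_sq_lt hχ h1; nlinarith
  obtain ⟨P⟩ : Nonempty (Sylow p G) := inferInstance
  have h3 : Nat.card P = p := by
    rw [P.card_eq_multiplicity, h, Nat.factorization_mul hp.ne_zero hd.ne', Finsupp.add_apply,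
      hp.factorization_self, Nat.factorization_eq_zero_of_lt h2, pow_one]
  have h4 : (P : Subgroup G).index = charDegree χ :=
    Nat.eq_of_mul_eq_mul_left hp.pos (by rw [← h, ← (P : Subgroup G).card_mul_index, h3])
  have h5 : Nat.card (Sylow p G) = 1 := by
    have a := Nat.le_of_dvd hd (h4 ▸ P.card_dvd_index)
    have b := card_sylow_modEq_one p G
    rwa [Nat.ModEq, Nat.mod_eq_of_lt (a.trans_lt h2), Nat.mod_eq_of_lt hp.one_lt] at b
  have : Subsingleton (Sylow p G) := (Nat.card_eq_one_iff_unique.1 h5).1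
  have hn : (P : Subgroup G).Normal := P.normal_of_subsingleton
  refine ⟨P, hn, h3, fun g hg => ?_⟩
  have := Fintype.ofFinite P
  obtain ⟨θ, hθ, h6⟩ := hχ.exists_irr_under (H := P)
  have hc : IsCyclic P := isCyclic_of_prime_card h3
  have h7 : θ 1 = 1 := hθ.apply_one_of_comm fun a b => hc.isMulCommutative.is_comm.comm a b
  have h8 := indFun_eq_of_le hθ.isCharacter hχ h6
    (by rw [h4, (charDegree_eq_one hθ.isCharacter).2 h7, mul_one])
  rw [← inertia_eq_of_isIrr_indFun hθ (h8 ▸ hχ), mem_inertia']
  intro n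
  refine congrArg _ (Subtype.ext ?_)
  simp [mul_inv_eq_iff_eq_mul, hg n n.2]

/-- Let G be a finite group with a faithful irreducible complex character χ whose codegree #G / χ(1) is a prime p (for a faithful character the kernel is trivial, so the codegree is #G / χ(1)). Then either G is cyclic of order p, or G is a Frobenius group whose Frobenius kernel has order p: some proper non-trivial subgroup H satisfies H ∩ gHg⁻¹ = 1 for every element g outside H, and the set of elements lying in no conjugate of H, together with the identity, has exactly p elements. -/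
theorem result {G : Type*} [Group G] [Finite G] (χ : Cfsg.IrrCharacter G) (hfaith : ∀ g : G, (χ : G → ℂ) g = (χ : G → ℂ) 1 → g = 1) (p : ℕ) (hp : p.Prime) (hcod : Nat.card G = p * Cfsg.charDegree (χ : G → ℂ)) : (IsCyclic G ∧ Nat.card G = p) ∨ ∃ H : Subgroup G, Cfsg.IsFrobeniusComplement H ∧ Nat.card ↥(Cfsg.frobeniusKernel H) = p := by
  obtain ⟨P, hn, h1, h2⟩ := core χ.2 hfaith hp hcod
  by_cases h : P = ⊤
  · have h3 : Nat.card G = p := by rw [← h1, h, Subgroup.card_top]
    have := Fact.mk hp
    exact Or.inl ⟨isCyclic_of_prime_card h3, h3⟩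
  · have := Fact.mk (h1 ▸ hp)
    obtain ⟨H, hH⟩ := exists_frob_of_cent (L := ⊤) (lt_top_iff_ne_top.2 h)
      (fun e => hp.ne_one (by rw [← h1, e, Subgroup.card_bot])) P.normalizer_eq_top.ge
      fun x hx hx1 g hg => h2 (by
        rw [← CfsgH2.zpowers_eq_of_prime (h1 ▸ hp) hx hx1, CfsgH2.cent_zpowers]
        exact hg.2)
    exact Or.inr ⟨H, hH.isFrobeniusComplement, by rw [hH.kernel_eq]; exact h1⟩

end Cfsg.Agent.S4796
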