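import Cfsg.Statements.S4797
import Mathlib
import Cfsg.Agent.H4.Ch1
import Cfsg.Agent.S4796
import Cfsg.Agent.H2.PG1

set_option autoImplicit false
open Cfsg

open Cfsg CfsgH3 CfsgH4 CfsgH1 Function
open scoped ComplexConjugate Pointwise

namespace Cfsg.Agent.S4797

/-- The codegree of an irreducible complex character χ of a finite group G is [G : ker χ] / χ(1), where ker χ is the set of elements at which χ takes the value χ(1). A non-trivial finite group is perfect if and only if no irreducible complex character of it has prime codegree. -/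
theorem result {G : Type*} [Group G] [Finite G] [Nontrivial G] : commutator G = ⊤ ↔ ∀ χ : Cfsg.IrrCharacter G, ¬ ((Nat.card G / (Nat.card {g : G // (χ : G → ℂ) g = (χ : G → ℂ) 1} * Cfsg.charDegree (χ : G → ℂ)))).Prime := by
  have key : ∀ χ : IrrCharacter G, _ := fun χ => cod_eq χ.2.isCharacter
  simp only [key]
  refine ⟨fun h χ hp => ?_, fun h => ?_⟩
  · have := χ.2.isCharacter.charKer_normal
    obtain ⟨β, hβ, -, -, h4, h5⟩ := exists_faithful_quot χ.2
    obtain ⟨P, hn, h1, h2⟩ := S4796.core hβ h5 hp
      (by rw [h4, Nat.div_mul_cancel (deg_dvd_index_ker χ.2), Subgroup.index_eq_card])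
    have := Fact.mk hp
    have hc : IsCyclic P := isCyclic_of_prime_card h1
    have h6 : ⁅(⊤ : Subgroup (G ⧸ charKer χ.1)), (⊤ : Subgroup (G ⧸ charKer χ.1))⁆ = ⊤ := by
      have := congrArg (Subgroup.map (QuotientGroup.mk' (charKer χ.1))) h
      rwa [commutator_def, Subgroup.map_commutator,
        Subgroup.map_top_of_surjective _ (QuotientGroup.mk'_surjective _)] at this
    have h7 := CfsgH2.commutator_le_cent_of_cyclic (H := ⊤) hc P.normalizer_eq_top.ge
    rw [h6] at h7
    obtain rfl : P = ⊤ := top_le_iff.1 (h7.trans h2)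
    rw [Subgroup.commutator_eq_bot_iff_le_centralizer.2 h7] at h6
    rw [← h6, Subgroup.card_bot] at h1
    exact hp.ne_one h1.symm
  · by_contra hc
    obtain ⟨l, hl⟩ := exists_lin_ker_prime hc
    refine h ⟨_, isIrr_of_unitsHom l⟩ ?_
    have h1 : charKer (fun g => (l g : ℂ)) = l.ker := by
      ext g; simp [(isIrr_of_unitsHom l).isCharacter.mem_charKer]
    rwa [h1, (charDegree_eq_one (isIrr_of_unitsHom l).isCharacter).2 (by simp), Nat.div_one]

end Cfsg.Agent.S4797
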