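import Cfsg.Statements.S4798
import Mathlib
import Cfsg.Agent.H4.Ch1

set_option autoImplicit false
open Cfsg

open Cfsg CfsgH3 CfsgH4 CfsgH1 Function
open scoped ComplexConjugate Pointwise

namespace Cfsg.Agent.S4798

/-- Let p be a prime and χ a faithful irreducible complex character of the finite group G (χ(g) = χ(1) only for g = 1), so that its codegree is #G / χ(1). Then #G / χ(1) is a power of p if and only if χ is induced from a character of a Sylow p-subgroup of G. -/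
theorem result {G : Type*} [Group G] [Fintype G] (p : ℕ) [Fact p.Prime] (χ : Cfsg.IrrCharacter G) (hfaith : ∀ g : G, (χ : G → ℂ) g = (χ : G → ℂ) 1 → g = 1) : (∃ k : ℕ, Nat.card G = p ^ k * Cfsg.charDegree (χ : G → ℂ)) ↔ ∃ (P : Sylow p G) (θ : ↥(P : Subgroup G) → ℂ), Cfsg.IsCharacter ↥(P : Subgroup G) θ ∧ (χ : G → ℂ) = Cfsg.indFun (P : Subgroup G) θ := by
  refine ⟨fun ⟨k, hk⟩ => ?_, fun ⟨P, θ, hθ, h⟩ => ?_⟩
  · obtain ⟨P⟩ : Nonempty (Sylow p G) := inferInstance
    have := Fintype.ofFinite P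
    have hp : p.Prime := Fact.out
    obtain ⟨a, m, hm, h1⟩ := Nat.exists_eq_pow_mul_and_not_dvd (charDegree_pos χ.2).ne' p hp.ne_one
    obtain ⟨θ, hθ, h2, h3⟩ := exists_constituent_not_dvd (χ.2.isCharacter.restrict P)
      (m := p ^ (a + 1)) (by
        change ¬ _ ∣ charDegree χ.1
        rw [h1, pow_succ, Nat.mul_dvd_mul_iff_left (pow_pos hp.pos a)]; exact hm)
    obtain ⟨n, hn⟩ := IsPGroup.iff_card.1 P.isPGroup'
    obtain ⟨b, -, hb⟩ := (Nat.dvd_prime_pow hp).1 (hn ▸ charDegree_dvd hθ)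
    rw [hb, Nat.pow_dvd_pow_iff_le_right hp.one_lt] at h3
    refine ⟨P, θ, hθ.isCharacter, (indFun_eq_of_le hθ.isCharacter χ.2 h2 ?_).symm⟩
    have h4 : (P : Subgroup G).index ∣ m := by
      refine Nat.Coprime.dvd_of_dvd_mul_left (m := p ^ k * p ^ a) ?_ ?_
      · rw [← pow_add]
        exact ((Nat.Prime.coprime_iff_not_dvd hp).2 P.not_dvd_index).symm.pow_right _
      · rw [mul_assoc, ← h1, ← hk]; exact Subgroup.index_dvd_card _
    rw [h1, hb, mul_comm]
    exact Nat.mul_le_mul (Nat.pow_le_pow_right hp.pos (by omega))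
      (Nat.le_of_dvd (Nat.pos_of_ne_zero fun e => hm (by simp [e])) h4)
  · obtain ⟨n, hn⟩ := IsPGroup.iff_card.1 P.isPGroup'
    obtain ⟨c, hc⟩ := charDegree_dvd (hθ.isIrr_of_ind (h ▸ χ.2))
    obtain ⟨b, -, hb⟩ := (Nat.dvd_prime_pow Fact.out).1 (hn ▸ Dvd.intro_left _ hc.symm)
    refine ⟨b, ?_⟩
    rw [h, deg_indFun hθ, ← (P : Subgroup G).card_mul_index, hc, hb]; ring

end Cfsg.Agent.S4798
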