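import Cfsg.Statements.S4801
import Mathlib
import Cfsg.Agent.H4.Ch1

set_option autoImplicit false
open Cfsg

open Cfsg CfsgH3 CfsgH4 CfsgH1 Function
open scoped ComplexConjugate Pointwise

namespace Cfsg.Agent.S4801

/-- The codegree of an irreducible complex character χ of a finite group G is [G : ker χ] / χ(1), where ker χ is the set of elements at which χ takes the value χ(1). Let S be a finite simple group and G a finite group such that every codegree of an irreducible character of S is a codegree of an irreducible character of G. Then the order of S divides the order of G. -/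
theorem result {S : Type*} [Group S] [Finite S] (hS : IsSimpleGroup S) {G : Type*} [Group G] [Finite G] (hsub : ∀ χ : Cfsg.IrrCharacter S, ∃ ψ : Cfsg.IrrCharacter G, (Nat.card S / (Nat.card {g : S // (χ : S → ℂ) g = (χ : S → ℂ) 1} * Cfsg.charDegree (χ : S → ℂ))) = (Nat.card G / (Nat.card {g : G // (ψ : G → ℂ) g = (ψ : G → ℂ) 1} * Cfsg.charDegree (ψ : G → ℂ)))) : Nat.card S ∣ Nat.card G := by
  classical
  have h1 : ∀ χ ∈ Finset.univ.erase (⟨_, isIrr_one⟩ : IrrCharacter S),
      Nat.card S ∣ Nat.card G * charDegree χ.1 ^ 2 := fun χ hχ => by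
    obtain ⟨ψ, h⟩ := hsub χ
    rw [cod_eq χ.2.isCharacter, cod_eq ψ.2.isCharacter,
      (hS.eq_bot_or_eq_top_of_normal _ χ.2.isCharacter.charKer_normal).resolve_right
        (χ.2.charKer_ne_top fun e => (Finset.mem_erase.1 hχ).1 (Subtype.ext e)),
      Subgroup.index_bot] at h
    rw [← Nat.div_mul_cancel (charDegree_dvd χ.2), h]
    exact Nat.mul_dvd_mul ((Nat.div_dvd_of_dvd (deg_dvd_index_ker ψ.2)).trans
      (Subgroup.index_dvd_card _)) (dvd_pow_self _ two_ne_zero)
  have h2 := Finset.dvd_sum h1
  have h3 := sum_deg_sq_nat (G := S)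
  rw [← Finset.add_sum_erase _ _ (Finset.mem_univ ⟨_, isIrr_one⟩),
    (charDegree_eq_one isCharacter_one).2 rfl] at h3
  rw [← Finset.mul_sum] at h2
  refine (Nat.dvd_add_left h2).1 ?_
  rw [← mul_one_add, ← one_pow 2, h3]
  exact dvd_mul_left _ _

end Cfsg.Agent.S4801
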