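import Cfsg.Statements.S4802
import Mathlib
import Cfsg.Agent.H4.Ch1

set_option autoImplicit false
open Cfsg

open Cfsg CfsgH3 CfsgH4 CfsgH1 Function
open scoped ComplexConjugate Pointwise

namespace Cfsg.Agent.S4802

/-- Let N < M be normal subgroups of the finite group G and g ∈ M ∖ N. Then the conjugacy class of g is exactly M ∖ N if and only if every irreducible complex character of G whose kernel contains N takes the same value at all elements of M ∖ N, and every irreducible complex character of G whose kernel does not contain N vanishes at g. -/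
theorem result {G : Type*} [Group G] [Finite G] (N M : Subgroup G) [N.Normal] [M.Normal] (hNM : N < M) (g : G) (hgM : g ∈ M) (hgN : g ∉ N) : {h : G | IsConj g h} = (M : Set G) \ (N : Set G) ↔ ((∀ χ : Cfsg.IrrCharacter G, (∀ x ∈ N, (χ : G → ℂ) x = (χ : G → ℂ) 1) → ∀ x ∈ M, x ∉ N → ∀ y ∈ M, y ∉ N → (χ : G → ℂ) x = (χ : G → ℂ) y) ∧ (∀ χ : Cfsg.IrrCharacter G, (∃ x ∈ N, (χ : G → ℂ) x ≠ (χ : G → ℂ) 1) → (χ : G → ℂ) g = 0)) := by
  have := Fintype.ofFinite G
  have := Fintype.ofFinite N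
  refine ⟨fun h => ⟨fun χ _ x hx hx' y hy hy' => ?_, fun χ hχ => ?_⟩, fun ⟨h1, h2⟩ => ?_⟩
  · exact χ.2.isClassFunction.eq_of_isConj (IsConj.trans (IsConj.symm (h.ge ⟨hx, hx'⟩))
      (h.ge ⟨hy, hy'⟩))
  · have h1 := sum_eq_zero_of_not_le_ker χ.2 hχ g
    rw [Finset.sum_congr rfl (g := fun _ => χ.1 g) fun n _ => (χ.2.isClassFunction.eq_of_isConj
      (h.ge ⟨M.mul_mem (hNM.le n.2) hgM, fun e => hgN ((N.mul_mem_cancel_left n.2).1 e)⟩)).symm,
      Finset.sum_const, Finset.card_univ, ← Nat.card_eq_fintype_card, nsmul_eq_mul] at h1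
    exact (mul_eq_zero.1 h1).resolve_left (natCard_ne_zero N)
  · refine Set.Subset.antisymm (fun x hx => ?_) fun x hx => isConj_of_irr fun χ hχ => ?_
    · obtain ⟨c, rfl⟩ := isConj_iff.1 hx
      exact ⟨Subgroup.Normal.conj_mem ‹_› _ hgM c, fun e => hgN
        (by simpa [mul_assoc] using Subgroup.Normal.conj_mem ‹_› _ e c⁻¹)⟩
    · by_cases h : ∃ x ∈ N, χ x ≠ χ 1
      · exact Or.inl (h2 ⟨χ, hχ⟩ h)
      · push Not at h
        exact Or.inr (h1 ⟨χ, hχ⟩ h x hx.1 hx.2 g hgM hgN)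

end Cfsg.Agent.S4802
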