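import Cfsg.Statements.S4808
import Mathlib
import Cfsg.Agent.H4.Ch1

set_option autoImplicit false
open Cfsg

open Cfsg CfsgH3 CfsgH4 CfsgH1 Function
open scoped ComplexConjugate Pointwise

namespace Cfsg.Agent.S4808

/-- The codegree of an irreducible complex character χ of a finite group G is [G : ker χ] / χ(1), where ker χ is the set of elements at which χ takes the value χ(1). A prime divides the order of G if and only if it divides the codegree of some irreducible complex character of G. -/
theorem result {G : Type*} [Group G] [Finite G] (p : ℕ) (hp : p.Prime) : p ∣ Nat.card G ↔ ∃ χ : Cfsg.IrrCharacter G, p ∣ (Nat.card G / (Nat.card {g : G // (χ : G → ℂ) g = (χ : G → ℂ) 1} * Cfsg.charDegree (χ : G → ℂ))) := by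
  have := Fact.mk hp
  refine ⟨fun h => ?_, fun ⟨χ, h⟩ => ?_⟩
  · classical
    by_contra! hc
    obtain ⟨x, hx⟩ := exists_prime_orderOf_dvd_card' p h
    have h1 := sum_irr_deg_mul x
    rw [regChar_of_ne (by rintro rfl; exact hp.ne_one (by simpa using hx.symm)),
      Finset.sum_congr rfl (g := fun χ => ((if χ.1 x = χ.1 1 then charDegree χ.1 ^ 2 else 0 : ℕ) : ℂ))
      fun χ _ => by
        split_ifs with e
        · rw [e, Nat.cast_pow, coe_charDegree χ.2.isCharacter, sq]
        have := χ.2.isCharacter.charKer_normal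
        obtain ⟨β, hβ, h2, h3, h4, -⟩ := exists_faithful_quot χ.2
        rw [← h2 x, hβ.eq_zero_of_defect_zero hp (coe_charDegree hβ.isCharacter).symm
          (by rw [h4, ← Subgroup.index_eq_card, ← cod_eq χ.2.isCharacter]; exact hc χ),
          mul_zero, Nat.cast_zero]
        rcases (Nat.dvd_prime hp).1 (hx ▸ orderOf_map_dvd (QuotientGroup.mk' (charKer χ.1)) x)
          with h5 | h5
        · exact absurd (χ.2.isCharacter.mem_charKer.1
            ((QuotientGroup.eq_one_iff x).1 (orderOf_eq_one_iff.1 h5))) e
        · exact h5.symm.dvd, ← Nat.cast_sum, Nat.cast_eq_zero, Finset.sum_eq_zero_iff] at h1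
    simpa [(charDegree_pos (isIrr_one (G := G))).ne'] using h1 ⟨_, isIrr_one⟩ (Finset.mem_univ _)
  · rw [cod_eq χ.2.isCharacter] at h
    exact (h.trans (Nat.div_dvd_of_dvd (deg_dvd_index_ker χ.2))).trans (Subgroup.index_dvd_card _)

end Cfsg.Agent.S4808
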