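import Mathlib
import Cfsg.Statements.S4812
import Cfsg.Agent.H8.SL2f

set_option autoImplicit false
open Cfsg

namespace Cfsg.Agent.S4812

open CfsgH8 CfsgH3

/-- Let F be a finite field of characteristic 2 with q ≥ 4 elements and let S be isomorphic to PSL(2,F) or to SL(2,F). Then the vertices of the character degree graph of S are the primes dividing q(q²−1), and two distinct primes are adjacent exactly when both divide q + 1 or both divide q − 1; so the graph has the three connected components {2}, the primes dividing q + 1 and the primes dividing q − 1, each complete. -/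
theorem result (F : Type*) [Field F] [Fintype F] [CharP F 2] (q : ℕ) (hq : Fintype.card F = q) (h4 : 4 ≤ q) {S : Type*} [Group S] [Finite S] (hS : Nonempty (S ≃* Matrix.ProjectiveSpecialLinearGroup (Fin 2) F) ∨ Nonempty (S ≃* Matrix.SpecialLinearGroup (Fin 2) F)) : Cfsg.degreePrimes S = {r : ℕ | r.Prime ∧ r ∣ q * (q ^ 2 - 1)} ∧ ∀ r s : ℕ, (Cfsg.degreeGraph S).Adj r s ↔ (r ≠ s ∧ r.Prime ∧ s.Prime ∧ ((r ∣ q + 1 ∧ s ∣ q + 1) ∨ (r ∣ q - 1 ∧ s ∣ q - 1))) := by
  classical
  subst hq
  have h2 := FiniteField.even_card_of_char_two (ringChar.eq F 2)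
  obtain ⟨n, -, hn⟩ := FiniteField.card F 2
  obtain ⟨a, b⟩ := charDegrees_of_equiv hS
  obtain ⟨c1, c2, c3⟩ := mem_charDegrees_PSL2 h4 (by omega)
  have e : Fintype.card F ^ 2 - 1 = (Fintype.card F + 1) * (Fintype.card F - 1) := by
    rw [← Nat.sq_sub_sq, one_pow]
  refine ⟨Set.ext fun r => and_congr_right fun hr => ?_, fun r s => and_congr_right fun hrs =>
    and_congr_right fun hr => and_congr_right fun hs => ?_⟩
  · rw [e, hr.dvd_mul, hr.dvd_mul]
    constructor
    · rintro ⟨d, hd, h⟩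
      rcases mem_charDegrees_SL2 (b hd) with rfl | rfl | rfl | rfl | ⟨h, -⟩
      · exact absurd (Nat.dvd_one.1 h) hr.one_lt.ne'
      · exact Or.inl h
      · exact Or.inr (Or.inl h)
      · exact Or.inr (Or.inr h)
      · omega
    · rintro (h | h | h)
      exacts [⟨_, a c1, h⟩, ⟨_, a c2, h⟩, ⟨_, a c3, h⟩]
  · have hc := (Nat.coprime_primes hr hs).2 hrs
    constructor
    · rintro ⟨d, hd, h⟩
      have h1 := (dvd_mul_right r s).trans h
      have h2 := (dvd_mul_left s r).trans h
      rcases mem_charDegrees_SL2 (b hd) with rfl | rfl | rfl | rfl | ⟨h, -⟩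
      · exact absurd (Nat.dvd_one.1 h1) hr.one_lt.ne'
      · rw [hn] at h1 h2
        exact absurd (((Nat.prime_dvd_prime_iff_eq hr Nat.prime_two).1 (hr.dvd_of_dvd_pow h1)).trans
          ((Nat.prime_dvd_prime_iff_eq hs Nat.prime_two).1 (hs.dvd_of_dvd_pow h2)).symm) hrs
      · exact Or.inl ⟨h1, h2⟩
      · exact Or.inr ⟨h1, h2⟩
      · omega
    · rintro (h | h)
      exacts [⟨_, a c2, hc.mul_dvd_of_dvd_of_dvd h.1 h.2⟩, ⟨_, a c3, hc.mul_dvd_of_dvd_of_dvd h.1 h.2⟩]

end Cfsg.Agent.S4812
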