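import Cfsg.Statements.S4813
import Cfsg.Agent.H3.Cd5
import Cfsg.Agent.S4466

set_option autoImplicit false
open Cfsg

open Cfsg CfsgH3 CfsgH4 CfsgCd Function Subgroup

namespace Cfsg.Agent.S4813

/-- If every irreducible complex character of the finite group G of degree greater than one has prime degree, then G has at most three distinct irreducible character degrees. -/
theorem result {G : Type*} [Group G] [Finite G] (hprime : ∀ d ∈ Cfsg.charDegrees G, d = 1 ∨ d.Prime) : Nat.card ↥(Cfsg.charDegrees G) ≤ 3 := by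
  haveI := S4466.result (G := G) fun χ h => (hprime _ ⟨χ, rfl⟩).resolve_left h
  obtain ⟨r, p, hr, hp, h⟩ := two_primes (G := G)
  have key : ∀ q s : ℕ, q.Prime → s.Prime → (∃ ψ, IsIrrCharacter G ψ ∧ q ∣ charDegree ψ ∧ s ∣ charDegree ψ) → q = s := by
    rintro q s hq hs ⟨ψ, hψ, h1, h2⟩
    have := (hprime _ ⟨⟨ψ, hψ⟩, rfl⟩).resolve_left fun e => hq.not_dvd_one (e ▸ h1)
    exact ((Nat.prime_dvd_prime_iff_eq hq this).1 h1).trans ((Nat.prime_dvd_prime_iff_eq hs this).1 h2).symm
  rw [Nat.card_coe_set_eq]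
  refine (Set.ncard_le_ncard (t := {1, r, p}) ?_).trans ((Set.ncard_insert_le _ _).trans
    (Nat.succ_le_succ ((Set.ncard_insert_le _ _).trans (by simp))))
  rintro _ ⟨χ, rfl⟩
  exact (hprime _ ⟨χ, rfl⟩).imp id fun hq => (h _ _ hq χ.2 dvd_rfl).imp (key _ _ hq hr) (key _ _ hq hp)


end Cfsg.Agent.S4813
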