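import Cfsg.Statements.S4814
import Mathlib
import Cfsg.Agent.H4.Ch1

set_option autoImplicit false
open Cfsg

open Cfsg CfsgH3 CfsgH4 CfsgH1 Function
open scoped ComplexConjugate Pointwise

namespace Cfsg.Agent.S4814

/-- Let G be a finite group such that the sum, over the irreducible complex characters χ of G, of 1/χ(1)² is less than 2. Then every element of G is a product of two commutators. -/
theorem result {G : Type*} [Group G] [Finite G]
    (h : ∑ᶠ χ : Cfsg.IrrCharacter G, 1 / ‖(χ : G → ℂ) 1‖ ^ 2 < (2 : ℝ)) (g : G) :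
    ∃ a b c d : G, (a * b * a⁻¹ * b⁻¹) * (c * d * c⁻¹ * d⁻¹) = g := by
  classical
  have := Fintype.ofFinite G
  by_contra! hc
  have h1 := count_eq_sum' (fun x : (G × G) × G × G =>
    x.1.1 * x.1.2 * x.1.1⁻¹ * x.1.2⁻¹ * (x.2.1 * x.2.2 * x.2.1⁻¹ * x.2.2⁻¹)) (fun a =>
    ⟨((MulAut.conj a).toEquiv.prodCongr (MulAut.conj a).toEquiv).prodCongr
      ((MulAut.conj a).toEquiv.prodCongr (MulAut.conj a).toEquiv), fun x => by simp [mul_assoc]⟩) g
  rw [Nat.card_eq_zero.2 (Or.inl ⟨fun x => hc _ _ _ _ x.2⟩), Finset.sum_congr rfl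
    (g := fun χ => (Nat.card G : ℂ) ^ 3 * (conj (χ.1 g) / χ.1 1 ^ 3)) fun χ _ => by
      have h := sum_comm_mul χ.2 1
      simp only [mul_one] at h
      rw [Fintype.sum_prod_type_right]
      simp only [Fintype.sum_prod_type, sum_comm_mul χ.2, ← Finset.sum_div, ← Finset.mul_sum, h]
      have := natCard_ne_zero G
      have := χ.2.apply_one_ne_zero
      field_simp, ← Finset.mul_sum, Nat.cast_zero, eq_comm,
    mul_eq_zero_iff_left (pow_ne_zero _ (natCard_ne_zero G)),
    ← Finset.add_sum_erase _ _ (Finset.mem_univ ⟨_, isIrr_one⟩), add_eq_zero_iff_neg_eq] at h1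
  rw [finsum_eq_sum_of_fintype, ← Finset.add_sum_erase _ _ (Finset.mem_univ ⟨_, isIrr_one⟩)] at h
  have h2 := congrArg norm h1
  have h3 := (norm_sum_le _ _).trans (Finset.sum_le_sum
    (s := Finset.univ.erase (⟨_, isIrr_one⟩ : IrrCharacter G))
    (f := fun χ => ‖conj (χ.1 g) / χ.1 1 ^ 3‖) (g := fun χ => 1 / ‖χ.1 1‖ ^ 2) fun χ _ => by
      have h0 := norm_pos_iff.2 χ.2.apply_one_ne_zero
      rw [norm_div, norm_pow, Complex.norm_conj, div_le_div_iff₀ (by positivity) (by positivity)]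
      nlinarith [χ.2.isCharacter.norm_le g, pow_pos h0 2])
  simp only [map_one, one_pow, div_one, norm_neg, norm_one] at h h2
  linarith

end Cfsg.Agent.S4814
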