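import Cfsg.Statements.S4825
import Mathlib
import Cfsg.Agent.H4.P1

set_option autoImplicit false
open Cfsg

open Cfsg CfsgH4 CfsgH1 CfsgL0 MonoidAlgebra Function
open CfsgH3 hiding cj cj_cj
open scoped ComplexConjugate Pointwise

namespace Cfsg.Agent.S4825

/-- Let p be a prime, G a finite group with Sylow p-subgroup P, M a maximal ideal of the algebraic integers containing p, and B a p-block of G with defect group P. Let N be a normal subgroup of G not containing P and θ an irreducible character of N. Then the number of irreducible characters in B of degree prime to p lying over θ (having θ as a constituent on restriction to N) is either 0 or at least 2, and when p ≤ 3 it is divisible by p. -/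
theorem result {G : Type*} [Group G] [Fintype G] (p : ℕ) [Fact p.Prime] (P : Sylow p G) (M : Ideal Cfsg.AlgInt) (hM : Cfsg.IsPModular p M) (B : Set (Cfsg.IrrCharacter G)) (hB : Cfsg.IsPBlock M B) (hBP : Cfsg.IsDefectGroup p M B P) (N : Subgroup G) [N.Normal] [Fintype N] (hPN : ¬ (P : Subgroup G) ≤ N) (θ : Cfsg.IrrCharacter N) :
    (Nat.card {χ : Cfsg.IrrCharacter G // χ ∈ B ∧ ¬ p ∣ Cfsg.charDegree (χ : G → ℂ) ∧ Cfsg.classInner (fun n : N => (χ : G → ℂ) n) (θ : N → ℂ) ≠ 0} = 0 ∨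
      2 ≤ Nat.card {χ : Cfsg.IrrCharacter G // χ ∈ B ∧ ¬ p ∣ Cfsg.charDegree (χ : G → ℂ) ∧ Cfsg.classInner (fun n : N => (χ : G → ℂ) n) (θ : N → ℂ) ≠ 0}) ∧
    (p ≤ 3 → p ∣ Nat.card {χ : Cfsg.IrrCharacter G // χ ∈ B ∧ ¬ p ∣ Cfsg.charDegree (χ : G → ℂ) ∧ Cfsg.classInner (fun n : N => (χ : G → ℂ) n) (θ : N → ℂ) ≠ 0}) := by
  classical
  haveI : PMod p M := ⟨hM⟩
  have hp : p.Prime := Fact.out
  have h1 := dvd_sum_sq_over hB.fB_mem (by_contra fun h => hPN (le_of_not_dvd_index P.isPGroup' h)) θ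
  rw [finsum_mem_irr, ← ZMod.natCast_eq_zero_iff, Nat.cast_sum] at h1
  rw [Nat.card_eq_fintype_card, Fintype.card_subtype]
  set s := Finset.univ.filter fun χ : IrrCharacter G => χ ∈ B ∧ ¬ p ∣ charDegree χ.1 ∧
    classInner (fun n : N => χ.1 n) θ.1 ≠ 0 with hs
  have h2 : ∑ χ ∈ s, (charDegree χ.1 : ZMod p) ^ 2 = 0 := by
    rw [← h1, hs, Finset.sum_filter]
    refine Finset.sum_congr rfl fun χ _ => ?_
    by_cases e : p ∣ charDegree χ.1
    · simp [e, (ZMod.natCast_eq_zero_iff _ _).2 e]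
    · simp [e, over_subtype_iff]
  have h3 : ∀ χ ∈ s, (charDegree χ.1 : ZMod p) ≠ 0 := fun χ h =>
    (ZMod.natCast_eq_zero_iff _ _).not.2 (Finset.mem_filter.1 h).2.2.1
  refine ⟨by_contra fun h => ?_, fun h => ?_⟩
  · obtain ⟨χ, hχ⟩ := Finset.card_eq_one.1 (show s.card = 1 by omega)
    rw [hχ, Finset.sum_singleton] at h2
    exact pow_ne_zero 2 (h3 χ (by simp [hχ])) h2
  · rw [← ZMod.natCast_eq_zero_iff, ← h2, Finset.card_eq_sum_ones, Nat.cast_sum]
    refine Finset.sum_congr rfl fun χ hχ => ?_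
    have h4 := ZMod.pow_card_sub_one_eq_one (h3 χ hχ)
    have h5 := hp.two_le
    rcases (by omega : p - 1 = 1 ∨ p - 1 = 2) with e | e <;> rw [e] at h4
    · rw [pow_one] at h4; simp [h4]
    · simp [h4]

end Cfsg.Agent.S4825
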