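import Cfsg.Statements.S4828
import Mathlib
import Cfsg.Agent.H4.Mx

set_option autoImplicit false
open Cfsg

open Cfsg CfsgH4 CfsgH1 CfsgL0 MonoidAlgebra Function
open CfsgH3 hiding cj cj_cj
open scoped ComplexConjugate Pointwise

namespace Cfsg.Agent.S4828

/-- Let p be a prime, M a maximal ideal of the algebraic integers containing p, and (Q, e) a Brauer pair of the finite group G (Q a p-subgroup, e a block of C_G(Q)). Then (Q, e) is a maximal Brauer pair of some block of G if and only if e contains an irreducible character θ such that θ takes the value θ(1) at every element of Z(Q) = Q ∩ C_G(Q), the p-part of θ(1) times the p-part of the order of Z(Q) equals the p-part of the order of C_G(Q) (θ has defect zero as a character of C_G(Q)/Z(Q)), and every element of N_G(Q) of p-power order that stabilizes e lies in Q·C_G(Q) (the stabilizer of e in N_G(Q) has index prime to p over Q·C_G(Q)). -/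
theorem result {G : Type*} [Group G] [Finite G] (p : ℕ) [Fact p.Prime] (M : Ideal Cfsg.AlgInt) (hM : Cfsg.IsPModular p M) (Q : Subgroup G) (e : Set (Cfsg.IrrCharacter (Subgroup.centralizer (Q : Set G)))) (he : Cfsg.IsBrauerPair p M Q e) :
    (∃ B : Set (Cfsg.IrrCharacter G), Cfsg.IsMaximalBrauerPair p M B Q e) ↔
      ∃ θ ∈ e, (∀ z : Subgroup.centralizer (Q : Set G), (z : G) ∈ Q → (θ : Subgroup.centralizer (Q : Set G) → ℂ) z = (θ : Subgroup.centralizer (Q : Set G) → ℂ) 1) ∧
        (Cfsg.charDegree (θ : Subgroup.centralizer (Q : Set G) → ℂ)).factorization p + (Nat.card ↥(Q ⊓ Subgroup.centralizer (Q : Set G))).factorization p = (Nat.card (Subgroup.centralizer (Q : Set G))).factorization p ∧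
        (∀ g : G, g ∈ Subgroup.normalizer (Q : Set G) → Cfsg.StabilizesBlock (Subgroup.centralizer (Q : Set G)) e g → (∃ k : ℕ, orderOf g = p ^ k) → g ∈ Q ⊔ Subgroup.centralizer (Q : Set G)) := by
  haveI : PMod p M := ⟨hM⟩
  obtain ⟨hQ, hb⟩ := he
  have hP := hb.pr hQ
  have hZ : IsPGroup p (Q.subgroupOf (Subgroup.centralizer (Q : Set G))) :=
    hQ.comap_of_injective _ (Subgroup.subtype_injective _)
  have hZc : Subgroup.centralizer (Q.subgroupOf (Subgroup.centralizer (Q : Set G)) :
      Set (Subgroup.centralizer (Q : Set G))) = ⊤ := by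
    rw [eq_top_iff]
    intro x _ y hy
    exact Subtype.ext (x.2 y hy)
  have hcard : Nat.card (Q.subgroupOf (Subgroup.centralizer (Q : Set G))) =
      Nat.card ↥(Q ⊓ Subgroup.centralizer (Q : Set G)) := by
    rw [← Subgroup.inf_subgroupOf_right]
    exact Nat.card_congr (Subgroup.subgroupOfEquivOfLe inf_le_right).toEquiv
  have hG : Q.subgroupOf (Subgroup.centralizer (Q : Set G)) ⊔ Subgroup.centralizer
      (Q.subgroupOf (Subgroup.centralizer (Q : Set G)) :
      Set (Subgroup.centralizer (Q : Set G))) = ⊤ := by rw [hZc, sup_top_eq]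
  constructor
  · rintro ⟨B, hB⟩
    have hm := hB.maxPr
    obtain ⟨θ, hθ, hk, hd⟩ := ((isDefectGroup_inf_iff hb).2 hm.isDef_cent).exists_ker_deg hb hG
    refine ⟨θ, hθ, fun z hz => hk z hz, by rw [← hcard]; exact hd, fun g h1 h2 ⟨k, hk⟩ => ?_⟩
    refine hm.le_sup_of_pgroup (K := Subgroup.zpowers g) ?_
      ((Subgroup.zpowers_le).2 ((norm_and_stabilizes_iff hb).1 ⟨h1, h2⟩)) (Subgroup.mem_zpowers g)
    exact IsPGroup.of_card (n := k) (by rw [Nat.card_zpowers, hk])
  · rintro ⟨θ, hθ, hk, hd, h⟩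
    haveI := normal_of_sup_cent hG
    have hD := hb.isDefectGroup_of_ker hZ (fun x _ => by rw [hZc]; trivial) hθ
      (fun z hz => hk z hz) (by rw [hcard, hd])
    have h1 := hP.isDef_sup_iff.2 ((isDefectGroup_inf_iff hb).1 hD)
    have h2 := hP.isDef_stab_of_forall h1 (fun E hE hp x hx => by
      obtain ⟨h3, h4⟩ := (norm_and_stabilizes_iff hb).2 (hE hx)
      obtain ⟨k, hk⟩ := IsPGroup.iff_orderOf.1 hp ⟨x, hx⟩
      exact h x h3 h4 ⟨k, by rw [← hk, Subgroup.orderOf_mk]⟩)
    obtain ⟨b, hb', hmul⟩ := hP.exists_block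
    obtain ⟨B, hB, rfl⟩ := hb'.exists_eq_eB
    exact ⟨B, isMaximalBrauerPair_iff.2 ⟨hB, hb, hb', hP, hmul, hP.isDef_of_stab hb' hmul h2⟩⟩

end Cfsg.Agent.S4828
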