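import Cfsg.Statements.S4835
import Mathlib
import Cfsg.Agent.H4.Ch1

set_option autoImplicit false
open Cfsg

open Cfsg CfsgH3 CfsgH4 CfsgH1 Function
open scoped ComplexConjugate Pointwise

namespace Cfsg.Agent.S4835

theorem core {G : Type*} [Group G] [Finite G] (hG : 2 < Nat.card G) {χ : G → ℂ}
    (hχ : IsIrrCharacter G χ)
    (h : Nat.card {C : ConjClasses G // ∃ g ∈ C.carrier, χ g ≠ 0} = 2) :
    ∃ x, x ≠ 1 ∧ χ ≠ (fun _ => 1) ∧ (∀ g, χ g ≠ 0 ↔ g = 1 ∨ IsConj x g) ∧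
      (Subgroup.centralizer {x}).index * χ x = -χ 1 ∧
      ∀ ψ, IsIrrCharacter G ψ → ψ ≠ χ → ψ x = ψ 1 := by
  classical
  have := Fintype.ofFinite G
  obtain ⟨⟨C, x, hx, h0⟩, h1, h2⟩ := (Nat.card_eq_two_iff' ⟨ConjClasses.mk 1, 1,
    ConjClasses.mem_carrier_mk, hχ.apply_one_ne_zero⟩).1 h
  obtain rfl := ConjClasses.mem_carrier_iff_mk_eq.1 hx
  have h3 : x ≠ 1 := by rintro rfl; exact h1 rfl
  have h4 : ∀ g, χ g ≠ 0 ↔ g = 1 ∨ IsConj x g := fun g => by
    refine ⟨fun hg => or_iff_not_imp_left.2 fun e => ?_, ?_⟩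
    · exact (ConjClasses.mk_eq_mk_iff_isConj.1 (congrArg Subtype.val
        (h2 ⟨_, g, ConjClasses.mem_carrier_mk, hg⟩ fun e' => e (isConj_one_left.1
          (ConjClasses.mk_eq_mk_iff_isConj.1 (congrArg Subtype.val e')))))).symm
    · rintro (rfl | e)
      exacts [hχ.apply_one_ne_zero, hχ.isClassFunction.eq_of_isConj e ▸ h0]
  have h5 : ∀ f, IsClassFunction G f →
      ∑ g, χ g * f g = χ 1 * f 1 + (Subgroup.centralizer {x}).index * (χ x * f x) := fun f hf => by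
    rw [← Pi.mul_apply χ f x, ← sum_classInd_mul (hχ.isClassFunction.mul hf),
      ← Finset.add_sum_erase _ _ (Finset.mem_univ 1), ← Finset.add_sum_erase _ _ (Finset.mem_univ 1),
      classInd_of_not_isConj fun e => h3 (isConj_one_left.1 e), zero_mul, zero_add]
    refine congrArg _ (Finset.sum_congr rfl fun g hg => ?_)
    by_cases e : IsConj x g
    · simp [classInd_of_isConj e]
    · rw [classInd_of_not_isConj e, of_not_not (mt (h4 g).1 fun e' =>
        e'.elim (Finset.mem_erase.1 hg).1 e), zero_mul, zero_mul]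
  have h6 : χ ≠ fun _ => 1 := by
    rintro rfl
    have a := h5 _ (isClassFunction_const 1)
    simp only [mul_one, Finset.sum_const, Finset.card_univ, nsmul_eq_mul,
      ← Nat.card_eq_fintype_card] at a
    have b : Nat.card G = 1 + (Subgroup.centralizer {x}).index := by exact_mod_cast a
    have c := (Subgroup.centralizer {x}).index_dvd_card
    rw [b, Nat.dvd_add_self_right, Nat.dvd_one] at c
    omega
  have h7 : ∀ ψ, IsIrrCharacter G ψ → ψ ≠ χ →
      χ 1 * conj (ψ 1) + (Subgroup.centralizer {x}).index * (χ x * conj (ψ x)) = 0 :=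
    fun ψ hψ e => by
      rw [← h5 _ hψ.isClassFunction.conj]
      simpa [classInner, natCard_ne_zero] using hχ.classInner_of_ne hψ e.symm
  have h8 : (Subgroup.centralizer {x}).index * χ x = -χ 1 := by
    have := h7 _ isIrr_one h6.symm
    simp only [map_one, mul_one] at this
    linear_combination this
  refine ⟨x, h3, h6, h4, h8, fun ψ hψ e => ?_⟩
  have := h7 ψ hψ e
  rw [← mul_assoc, h8, neg_mul, ← sub_eq_add_neg, sub_eq_zero] at this
  exact (RingHom.injective conj (mul_left_cancel₀ hχ.apply_one_ne_zero this)).symm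

theorem faithful {G : Type*} [Group G] [Finite G] (hG : 2 < Nat.card G) {χ : G → ℂ}
    (hχ : IsIrrCharacter G χ)
    (h : Nat.card {C : ConjClasses G // ∃ g ∈ C.carrier, χ g ≠ 0} = 2) {g : G}
    (hg : χ g = χ 1) : g = 1 := by
  obtain ⟨x, -, -, h2, h3, -⟩ := core hG hχ h
  refine ((h2 g).1 (hg ▸ hχ.apply_one_ne_zero)).resolve_right fun e => ?_
  rw [hχ.isClassFunction.eq_of_isConj e, hg, eq_neg_iff_add_eq_zero, ← add_one_mul,
    mul_eq_zero_iff_right hχ.apply_one_ne_zero] at h3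
  exact Nat.cast_add_one_ne_zero _ h3

theorem core2 {G : Type*} [Group G] [Finite G] {χ : G → ℂ} (hχ : IsIrrCharacter G χ)
    (h6 : χ ≠ fun _ => 1) {g : G} (h : ∀ ψ, IsIrrCharacter G ψ → ψ ≠ χ → ψ g = ψ 1) :
    χ g ≠ 0 := by
  classical
  by_cases h1 : g = 1
  · exact h1 ▸ hχ.apply_one_ne_zero
  intro h0
  have h2 := sum_irr_deg_mul g
  rw [regChar_of_ne h1, Finset.sum_congr rfl
    (g := fun ψ => ((if ψ.1 = χ then 0 else charDegree ψ.1 ^ 2 : ℕ) : ℂ)) fun ψ _ => by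
      split_ifs with e
      · simp [e, h0]
      · rw [h _ ψ.2 e, Nat.cast_pow, coe_charDegree ψ.2.isCharacter, sq], ← Nat.cast_sum,
    Nat.cast_eq_zero, Finset.sum_eq_zero_iff] at h2
  simpa [(charDegree_pos (isIrr_one (G := G))).ne', h6.symm] using
    h2 ⟨_, isIrr_one⟩ (Finset.mem_univ _)

/-- Let G be a finite group of order greater than 2 with an irreducible character χ that is nonzero on exactly two conjugacy classes. Then G has a unique minimal normal subgroup N; N is an elementary abelian p-group for some prime p; χ is nonzero exactly at the elements of N; and any two nonidentity elements of N are conjugate in G. -/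
theorem result {G : Type*} [Group G] [Finite G] (hG : 2 < Nat.card G) (χ : Cfsg.IrrCharacter G) (hχ : Nat.card {C : ConjClasses G // ∃ g ∈ C.carrier, (χ : G → ℂ) g ≠ 0} = 2) :
    ∃ N : Subgroup G, N.Normal ∧ N ≠ ⊥ ∧ (∀ K : Subgroup G, K.Normal → K ≠ ⊥ → N ≤ K) ∧
      (∃ p : ℕ, p.Prime ∧ Cfsg.IsElementaryAbelian p N) ∧
      (∀ g : G, (χ : G → ℂ) g ≠ 0 ↔ g ∈ N) ∧
      (∀ x ∈ N, ∀ y ∈ N, x ≠ 1 → y ≠ 1 → ∃ g : G, g * x * g⁻¹ = y) := by
  obtain ⟨x, h1, h6, h2, -, h3⟩ := core hG χ.2 hχ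
  have h4 : ∀ g, χ.1 g ≠ 0 ↔ ∀ ψ, IsIrrCharacter G ψ → ψ ≠ χ.1 → ψ g = ψ 1 := fun g =>
    ⟨fun h ψ hψ e => ((h2 g).1 h).elim (fun e => e ▸ rfl) fun e' =>
      (hψ.isClassFunction.eq_of_isConj e').symm.trans (h3 ψ hψ e), core2 χ.2 h6⟩
  let N : Subgroup G :=
    { carrier := {g | χ.1 g ≠ 0}
      one_mem' := χ.2.apply_one_ne_zero
      mul_mem' := fun {a b} ha hb => (h4 _).2 fun ψ hψ e => by
        rw [hψ.isCharacter.apply_mul_of_eq ((h4 b).1 hb ψ hψ e), (h4 a).1 ha ψ hψ e]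
      inv_mem' := fun {a} ha => by simpa [χ.2.isCharacter.apply_inv] using ha }
  have hn : N.Normal := ⟨fun n hn g => by
    change χ.1 _ ≠ 0
    rwa [χ.2.isClassFunction]⟩
  have hx : x ∈ N := (h2 x).2 (Or.inr (IsConj.refl x))
  have h5 : ∀ K : Subgroup G, K.Normal → K ≠ ⊥ → N ≤ K := fun K hK h0 => by
    have : x ∈ K := mem_of_forall_irr K fun ψ hψ hk => h3 ψ hψ (by
      rintro rfl
      obtain ⟨⟨k, hk1⟩, hk2⟩ := Subgroup.ne_bot_iff_exists_ne_one.1 h0
      exact hk2 (Subtype.ext (faithful hG χ.2 hχ (hk k hk1))))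
    intro g hg
    rcases (h2 g).1 hg with rfl | e
    · exact K.one_mem
    · obtain ⟨c, rfl⟩ := isConj_iff.1 e
      exact hK.conj_mem _ this c
  have h7 : ∀ a ∈ N, ∀ b ∈ N, a ≠ 1 → b ≠ 1 → IsConj a b := fun a ha b hb a1 b1 =>
    (((h2 a).1 ha).resolve_left a1).symm.trans (((h2 b).1 hb).resolve_left b1)
  have h0 : N ≠ ⊥ := fun e => h1 (by simpa [e] using hx)
  refine ⟨N, hn, h0, h5, ?_, fun g => Iff.rfl, fun a ha b hb a1 b1 => isConj_iff.1 (h7 a ha b hb a1 b1)⟩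
  obtain ⟨p, hp, h8⟩ := Nat.exists_prime_and_dvd (n := Nat.card N) (by rwa [ne_eq, Subgroup.card_eq_one])
  have := Fact.mk hp
  obtain ⟨y, hy⟩ := exists_prime_orderOf_dvd_card' p h8
  have h9 : ∀ a ∈ N, a ^ p = 1 := fun a ha => by
    by_cases a1 : a = 1
    · simp [a1]
    rw [← hy, ← Subgroup.orderOf_coe, orderOf_eq_of_isConj (h7 _ y.2 a ha
      (fun e => hp.ne_one (by rw [← hy, ← Subgroup.orderOf_coe, e, orderOf_one])) a1),
      pow_orderOf_eq_one]
  have hP : IsPGroup p N := fun a => ⟨1, Subtype.ext (by simpa using h9 a a.2)⟩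
  have := (Subgroup.nontrivial_iff_ne_bot N).2 h0
  have h10 := h5 ((Subgroup.center N).map N.subtype) inferInstance (by
    rw [ne_eq, Subgroup.map_eq_bot_iff_of_injective _ N.subtype_injective]
    exact (Subgroup.nontrivial_iff_ne_bot _).1 hP.center_nontrivial)
  refine ⟨p, hp, ⟨⟨fun a b => ?_⟩⟩, h9⟩
  obtain ⟨c, hc, e⟩ := h10 b.2
  obtain rfl : c = b := Subtype.ext e
  exact Subgroup.mem_center_iff.1 hc a

end Cfsg.Agent.S4835
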