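import Cfsg.Statements.S4836
import Mathlib
import Cfsg.Agent.H4.Ch1
import Cfsg.Agent.S4835

set_option autoImplicit false
open Cfsg

open Cfsg CfsgH3 CfsgH4 CfsgH1 Function
open scoped ComplexConjugate Pointwise

namespace Cfsg.Agent.S4836

/-- Let G be a finite group of order greater than 2 with an irreducible character χ that is nonzero on exactly two conjugacy classes. Then χ is faithful (it takes the value χ(1) only at the identity), it is the only faithful irreducible character of G, and it is the only irreducible character of G that is nonzero on exactly two conjugacy classes. -/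
theorem result {G : Type*} [Group G] [Finite G] (hG : 2 < Nat.card G) (χ : Cfsg.IrrCharacter G) (hχ : Nat.card {C : ConjClasses G // ∃ g ∈ C.carrier, (χ : G → ℂ) g ≠ 0} = 2) :
    (∀ g : G, (χ : G → ℂ) g = (χ : G → ℂ) 1 → g = 1) ∧
      (∀ ψ : Cfsg.IrrCharacter G, (∀ g : G, (ψ : G → ℂ) g = (ψ : G → ℂ) 1 → g = 1) → ψ = χ) ∧
      (∀ ψ : Cfsg.IrrCharacter G, Nat.card {C : ConjClasses G // ∃ g ∈ C.carrier, (ψ : G → ℂ) g ≠ 0} = 2 → ψ = χ) := by
  obtain ⟨x, h1, -, -, -, h3⟩ := S4835.core hG χ.2 hχ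
  have h : ∀ ψ : IrrCharacter G, (∀ g, ψ.1 g = ψ.1 1 → g = 1) → ψ = χ := fun ψ h => by
    by_contra e
    exact h1 (h x (h3 ψ ψ.2 fun e' => e (Subtype.ext e')))
  exact ⟨fun g => S4835.faithful hG χ.2 hχ, h, fun ψ hψ => h ψ fun g => S4835.faithful hG ψ.2 hψ⟩

end Cfsg.Agent.S4836
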