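import Cfsg.Statements.S4837
import Mathlib
import Cfsg.Agent.H4.Ch1
import Cfsg.Agent.S4835

set_option autoImplicit false
open Cfsg

open Cfsg CfsgH3 CfsgH4 CfsgH1 Function
open scoped ComplexConjugate Pointwise

namespace Cfsg.Agent.S4837

/-- Let G be a finite group of order greater than 2 with an irreducible character χ nonzero on exactly two conjugacy classes, and let N be the set of elements where χ is nonzero, given as a nontrivial normal p-subgroup of G for the prime p. Then for every nonidentity x in N the centralizer C_G(x) is a Sylow p-subgroup of G, and for every irreducible character λ ≠ 1 of N the stabilizer of λ in G (its inertia group) is a Sylow p-subgroup of G. -/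
theorem result {G : Type*} [Group G] [Finite G] (hG : 2 < Nat.card G) (χ : Cfsg.IrrCharacter G) (hχ : Nat.card {C : ConjClasses G // ∃ g ∈ C.carrier, (χ : G → ℂ) g ≠ 0} = 2) (p : ℕ) [Fact p.Prime] (N : Subgroup G) [N.Normal] (hN : ∀ g : G, g ∈ N ↔ (χ : G → ℂ) g ≠ 0) (hNp : IsPGroup p N) (hN1 : N ≠ ⊥) :
    (∀ x ∈ N, x ≠ 1 → ∃ P : Sylow p G, Subgroup.centralizer ({x} : Set G) = P) ∧
      (∀ μ : Cfsg.IrrCharacter N, (μ : N → ℂ) ≠ (fun _ => (1 : ℂ)) → ∃ P : Sylow p G, ∀ g : G, g ∈ (P : Subgroup G) ↔ ∀ n n' : N, (n' : G) = g * n * g⁻¹ → (μ : N → ℂ) n' = (μ : N → ℂ) n) := by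
  classical
  have := Fintype.ofFinite G
  have hp : p.Prime := Fact.out
  obtain ⟨x₀, h1, -, h2, h3, -⟩ := S4835.core hG χ.2 hχ
  have hc := χ.2.isCharacter
  set t := (Subgroup.centralizer ({x₀} : Set G)).index with ht
  have ht0 : (t : ℂ) ≠ 0 := Nat.cast_ne_zero.2 Subgroup.FiniteIndex.index_ne_zero
  have h4 : ∀ x ∈ N, x ≠ 1 → IsConj x₀ x := fun x hx e => ((h2 x).1 ((hN x).1 hx)).resolve_left e
  have h5 : Nat.card N = t + 1 := by
    rw [ht, ← card_isConj_eq_index, Nat.card_eq_fintype_card, Nat.card_eq_fintype_card,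
      Fintype.card_subtype, Fintype.card_subtype, ← Finset.card_insert_of_notMem (a := 1)
        (by simpa using h1)]
    congr 1; ext g; simp [hN, h2]
  have h6 : ¬ p ∣ t := fun h => by
    have := (Subgroup.nontrivial_iff_ne_bot N).2 hN1
    obtain ⟨n, h0, hn⟩ := hNp.nontrivial_iff_card.1 this
    exact hp.not_dvd_one ((Nat.dvd_add_right h).1 (h5 ▸ hn ▸ dvd_pow_self p h0.ne'))
  have h7 : (fun n : N => χ.1 n) = (-χ.1 x₀) • regChar N + χ.1 x₀ • fun _ => 1 := by
    funext n
    by_cases e : n = 1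
    · simp only [e, Pi.add_apply, Pi.smul_apply, regChar_one, h5, OneMemClass.coe_one, smul_eq_mul]
      push_cast; linear_combination h3
    · simp [regChar_of_ne e, χ.2.isClassFunction.eq_of_isConj (h4 n n.2 (by simpa using e))]
  obtain ⟨q, -, ⟨hab, -⟩⟩ : ∃ p : ℕ, p.Prime ∧ IsElementaryAbelian p N := by
    obtain ⟨M, -, -, -, h, h', -⟩ := S4835.result hG χ hχ
    rwa [show N = M from Subgroup.ext fun g => (hN g).trans (h' g)]
  have h8 : ∀ μ, IsIrrCharacter N μ → μ ≠ (fun _ => 1) →
      μ 1 = 1 ∧ classInner (fun n : N => χ.1 n) μ = -χ.1 x₀ := fun μ hμ e => by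
    have := hμ.apply_one_of_comm hab.is_comm.comm
    rw [h7, classInner_add_left, classInner_smul_left, classInner_smul_left,
      classInner_regChar_left, this, isIrr_one.classInner_of_ne hμ e.symm]
    simp
  obtain ⟨e, he⟩ : ∃ e : ℕ, -χ.1 x₀ = e := by
    obtain ⟨μ, hμ, h⟩ := exists_irr_ne (G := N) (g := ⟨x₀, (hN _).2 ((h2 _).2 (Or.inr (IsConj.refl _)))⟩)
      (by simpa using h1)
    rw [← (h8 μ hμ (by rintro rfl; exact h rfl)).2]
    exact (hc.restrict N).exists_nat_classInner hμ.isCharacter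
  have he0 : -χ.1 x₀ ≠ 0 := neg_ne_zero.2 ((h2 _).2 (Or.inr (IsConj.refl _)))
  have h9 : Nat.card (Subgroup.centralizer ({x₀} : Set G)) = e ^ 2 * Nat.card N := by
    have a := χ.2.classInner_self
    rw [classInner, inv_mul_eq_iff_eq_mul₀ (natCard_ne_zero G), mul_one,
      ← Finset.sum_filter_of_ne (p := (· ∈ N)) fun g _ h => (hN g).2 (left_ne_zero_of_mul h),
      ← sum_subgroup_eq N fun g => χ.1 g * conj (χ.1 g)] at a
    have b : classInner (fun n : N => χ.1 n) (fun n : N => χ.1 n) = e ^ 2 * t := by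
      rw [h7, he, neg_eq_iff_eq_neg.1 he]
      simp only [classInner_add_left, classInner_add_right, classInner_smul_left,
        classInner_smul_right, classInner_regChar_left, classInner_regChar_right, regChar_one,
        isIrr_one.classInner_self, h5, map_neg, map_natCast, map_one, Pi.add_apply, Pi.smul_apply,
        smul_eq_mul]
      push_cast; ring
    rw [classInner, a, inv_mul_eq_iff_eq_mul₀ (natCard_ne_zero N),
      ← (Subgroup.centralizer {x₀}).card_mul_index, ← ht, Nat.cast_mul, ← mul_assoc,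
      mul_left_inj' ht0, mul_comm] at b
    exact_mod_cast b
  have hx₀ : x₀ ∈ N := (hN _).2 ((h2 _).2 (Or.inr (IsConj.refl _)))
  have h10 : ∃ k, Nat.card (Subgroup.centralizer ({x₀} : Set G)) = p ^ k :=
    ⟨_, Nat.eq_prime_pow_of_unique_prime_dvd Nat.card_pos.ne' fun {r} hr h => by
      by_contra hne
      have := Fact.mk hr
      obtain ⟨Q⟩ : Nonempty (Sylow r (Subgroup.centralizer ({x₀} : Set G))) := inferInstance
      have a := (isCharacter_psi (j := (Subgroup.centralizer {x₀}).subtype.comp (Q : Subgroup _).subtype)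
        (Subgroup.zpowers x₀) (fun c y hy => by
          obtain ⟨k, rfl⟩ := hy
          exact (Commute.symm (c.1.2 x₀ rfl)).zpow_right k) hc isCharacter_one).isIntegral
        ⟨x₀, Subgroup.mem_zpowers x₀⟩
      rw [classInner_one_right, Finset.sum_eq_single 1 (fun c _ h => by
        by_contra h0
        have h11 := (N.mul_mem_cancel_right hx₀).1 ((hN _).2 h0)
        obtain ⟨i, hi⟩ := IsPGroup.iff_orderOf.1 hNp ⟨_, h11⟩
        obtain ⟨j, hj⟩ := IsPGroup.iff_orderOf.1 Q.isPGroup' c
        rw [← Subgroup.orderOf_coe] at hi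
        rw [← Subgroup.orderOf_coe, ← Subgroup.orderOf_coe] at hj
        exact h (Subtype.ext (Subtype.ext (orderOf_eq_one_iff.1 (Nat.eq_one_of_dvd_coprimes
          (Nat.Coprime.pow j i ((Nat.coprime_primes hr hp).2 hne)) hj.dvd hi.dvd))))) (by simp)] at a
      simp only [map_one, one_mul, neg_eq_iff_eq_neg.1 he, mul_neg, IsIntegral.neg_iff,
        ← div_eq_inv_mul] at a
      obtain ⟨e', rfl⟩ := nat_dvd_of_isIntegral_div Nat.card_pos.ne' a
      have b := h9
      rw [← (Q : Subgroup _).card_mul_index, mul_pow, sq, mul_assoc, mul_assoc,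
        mul_right_inj' Nat.card_pos.ne'] at b
      rw [← (Q : Subgroup _).card_mul_index] at h
      exact Q.not_dvd_index ((hr.dvd_mul.1 h).elim (fun h => b ▸ h.mul_right _) id)⟩
  have h11 : ∀ H : Subgroup G, H.index = t → ∃ P : Sylow p G, H = P := fun H h => by
    obtain ⟨k, hk⟩ := h10
    refine ⟨(IsPGroup.of_card (n := k) (Nat.eq_of_mul_eq_mul_right (Nat.pos_of_ne_zero
      (Nat.cast_ne_zero.1 ht0)) ?_)).toSylow (h ▸ h6), rfl⟩
    rw [← hk, Subgroup.card_mul_index, ← h, Subgroup.card_mul_index]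
  refine ⟨fun x hx e => h11 _ ?_, fun μ hμ => ?_⟩
  · rw [ht, ← card_isConj_eq_index, ← card_isConj_eq_index]
    exact Nat.card_congr (Equiv.subtypeEquivRight fun y =>
      ⟨(h4 x hx e).trans, (h4 x hx e).symm.trans⟩)
  · obtain ⟨a, b⟩ := h8 μ μ.2 hμ
    have c := clifford_degree χ.2 μ.2 (b ▸ he0)
    rw [a, b, mul_one, ← neg_eq_iff_eq_neg.2 h3, neg_mul_eq_mul_neg, mul_comm,
      mul_right_inj' he0] at c
    obtain ⟨P, hP⟩ := h11 (inertia μ.1) (by exact_mod_cast c.symm)
    refine ⟨P, fun g => ?_⟩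
    rw [← hP, mem_inertia']
    exact ⟨fun h n n' e => by rw [← h n]; exact congrArg _ (Subtype.ext e), fun h n => h _ _ rfl⟩

end Cfsg.Agent.S4837
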