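import Cfsg.Statements.S4838
import Mathlib
import Cfsg.Agent.H4.Ch1
import Cfsg.Agent.S4837

set_option autoImplicit false
open Cfsg

open Cfsg CfsgH3 CfsgH4 CfsgH1 Function
open scoped ComplexConjugate Pointwise

namespace Cfsg.Agent.S4838

/-- Let G be a finite group of order greater than 2 with an irreducible character χ nonzero on exactly two conjugacy classes, N the normal p-subgroup of elements where χ is nonzero, and P a Sylow p-subgroup of G. Then (a) for every x outside N the centralizer of x in G has the same order as the centralizer of xN in G/N; (b) the centre of P lies in N, and equals N exactly when P is normal in G; (c) N, viewed inside P, is a term of the upper central series of P. -/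
theorem result {G : Type*} [Group G] [Finite G] (hG : 2 < Nat.card G) (χ : Cfsg.IrrCharacter G) (hχ : Nat.card {C : ConjClasses G // ∃ g ∈ C.carrier, (χ : G → ℂ) g ≠ 0} = 2) (p : ℕ) [Fact p.Prime] (N : Subgroup G) [N.Normal] (hN : ∀ g : G, g ∈ N ↔ (χ : G → ℂ) g ≠ 0) (hNp : IsPGroup p N) (hN1 : N ≠ ⊥) (P : Sylow p G) :
    (∀ x : G, x ∉ N → Nat.card (Subgroup.centralizer ({x} : Set G)) = Nat.card (Subgroup.centralizer ({(x : G ⧸ N)} : Set (G ⧸ N)))) ∧
      ((Subgroup.center ↥(P : Subgroup G)).map (P : Subgroup G).subtype ≤ N ∧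
        ((Subgroup.center ↥(P : Subgroup G)).map (P : Subgroup G).subtype = N ↔ (P : Subgroup G).Normal)) ∧
      (∃ i : ℕ, Subgroup.upperCentralSeries ↥(P : Subgroup G) i = N.subgroupOf (P : Subgroup G)) := by
  classical
  have hp : p.Prime := Fact.out
  obtain ⟨M, -, -, hmin, -, h', -⟩ := S4835.result hG χ hχ
  obtain rfl : N = M := Subgroup.ext fun g => (hN g).trans (h' g)
  obtain ⟨x₀, h1, -, h2, -, h3⟩ := S4835.core hG χ.2 hχ
  have h4 : ∀ x : G, x ∉ N → Nat.card (Subgroup.centralizer ({x} : Set G)) =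
      Nat.card (Subgroup.centralizer ({(x : G ⧸ N)} : Set (G ⧸ N))) := fun x hx => by
    rw [← Nat.cast_inj (R := ℝ), ← column_orthogonality_self, ← column_orthogonality_self,
      ← sum_irr_quot N fun ψ => ‖ψ x‖ ^ 2, eq_comm]
    refine Finset.sum_filter_of_ne fun ψ _ h0 n hn => ?_
    rcases (h2 n).1 ((hN n).1 hn) with rfl | e
    · rfl
    · rw [← ψ.2.isClassFunction.eq_of_isConj e, h3 ψ ψ.2 fun e' => h0 ?_]
      simp [e', of_not_not (mt (hN x).2 hx)]
  have hNP : N ≤ P := hNp.le_sylow_of_normal P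
  have h5 : ∀ (z : (P : Subgroup G)) (W : Subgroup (P : Subgroup G)), (z : G) ∉ N → (∀ g, z * g * z⁻¹ * g⁻¹ ∈ W) →
      Nat.card N ≤ Nat.card W := fun z W hz h => by
    have a : (Subgroup.centralizer ({z} : Set (P : Subgroup G))).index ≤ Nat.card W := by
      rw [← card_isConj_eq_index]
      refine Nat.card_le_card_of_injective (fun y => ⟨z * y.1⁻¹, ?_⟩) fun a b e => ?_
      · obtain ⟨c, e⟩ := isConj_iff.1 y.2
        rw [← e]; simpa [mul_assoc] using h c
      · exact Subtype.ext (inv_injective (mul_left_cancel (congrArg Subtype.val e)))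
    have b : Nat.card (Subgroup.centralizer ({z} : Set (P : Subgroup G))) * Nat.card N ∣ Nat.card G := by
      rw [← N.index_mul_card, Subgroup.index_eq_card]
      refine Nat.mul_dvd_mul_right (dvd_trans ?_ ((h4 z hz).dvd.trans (Subgroup.card_subgroup_dvd_card _))) _
      rw [← Subgroup.card_map_of_injective (P : Subgroup G).subtype_injective]
      refine Subgroup.card_dvd_of_le ?_
      rintro _ ⟨c, hc, rfl⟩ _ rfl
      exact congrArg Subtype.val (hc z rfl)
    obtain ⟨i, hi⟩ := IsPGroup.iff_card.1 (P.isPGroup'.to_subgroup (Subgroup.centralizer ({z} : Set (P : Subgroup G))))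
    obtain ⟨j, hj⟩ := IsPGroup.iff_card.1 hNp
    have c : Nat.card (Subgroup.centralizer ({z} : Set (P : Subgroup G))) * Nat.card N ∣ Nat.card (P : Subgroup G) := by
      rw [hi, hj, ← pow_add] at b ⊢
      exact P.pow_dvd_card_of_pow_dvd_card b
    rw [← (Subgroup.centralizer ({z} : Set (P : Subgroup G))).card_mul_index, Nat.mul_dvd_mul_iff_left Nat.card_pos] at c
    exact (Nat.le_of_dvd (Nat.pos_of_ne_zero Subgroup.FiniteIndex.index_ne_zero) c).trans a
  have h6 : (Subgroup.center P).map (P : Subgroup G).subtype ≤ N := by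
    rintro _ ⟨z, hz, rfl⟩
    by_contra h
    have := h5 z ⊥ h fun g => by simp [← Subgroup.mem_center_iff.1 hz g]
    exact hN1 (Subgroup.eq_bot_of_card_le N (by simpa using this))
  have hx₀ : x₀ ∈ N := (hN _).2 ((h2 _).2 (Or.inr (IsConj.refl _)))
  refine ⟨h4, ⟨h6, fun h => ?_, fun h => h6.antisymm (hmin _ inferInstance ?_)⟩, ?_⟩
  · obtain ⟨Q, hQ⟩ := (S4837.result hG χ hχ p N hN hNp hN1).1 x₀ hx₀ h1
    have a : (P : Subgroup G) ≤ Subgroup.centralizer N := fun g hg n hn => by
      obtain ⟨z, hz, rfl⟩ := h.ge hn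
      exact congrArg Subtype.val (Subgroup.mem_center_iff.1 hz ⟨g, hg⟩).symm
    have b : Subgroup.centralizer (N : Set G) ≤ Q :=
      hQ ▸ Subgroup.centralizer_le (by simpa using hx₀)
    rw [← P.is_maximal' (Q.isPGroup'.to_le b) a]
    infer_instance
  · rw [ne_eq, Subgroup.map_eq_bot_iff_of_injective _ (P : Subgroup G).subtype_injective]
    have := (Subgroup.nontrivial_iff_ne_bot _).2 (ne_bot_of_le_ne_bot hN1 hNP)
    exact (Subgroup.nontrivial_iff_ne_bot _).1 P.isPGroup'.center_nontrivial
  · by_contra! hc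
    have : ∀ i, Subgroup.upperCentralSeries (P : Subgroup G) i ≤ N.subgroupOf P := fun i => by
      induction i with
      | zero => simp
      | succ i ih =>
        intro z hz
        by_contra h
        refine hc i (Subgroup.eq_of_le_of_card_ge ih ?_)
        rw [Nat.card_congr (Subgroup.subgroupOfEquivOfLe hNP).toEquiv]
        exact h5 z _ h (Subgroup.mem_upperCentralSeries_succ_iff.1 hz)
    have _ := P.isPGroup'.isNilpotent
    exact hc _ ((this _).antisymm (le_top.trans Subgroup.upperCentralSeries_nilpotencyClass.ge))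

end Cfsg.Agent.S4838
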