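import Cfsg.Statements.S4843
import Cfsg.Agent.H3.Cd1
import Cfsg.Agent.H2.BG0

set_option autoImplicit false
open Cfsg

open Cfsg CfsgH3 CfsgH4 CfsgH1 CfsgCd Function
open scoped ComplexConjugate

namespace Cfsg.Agent.S4843
open Subgroup
open CfsgH2 hiding cj
open scoped CfsgH2

/-- Let G be a finite group with a faithful irreducible character χ (taking the value χ(1) only at the identity) and let k be prime to the order of G, so that g ↦ χ(g^k) is a Galois conjugate of χ. If the pointwise product g ↦ χ(g)·χ(g^k) is again an irreducible character, then the Fitting subgroup of G equals its centre. -/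
theorem result {G : Type*} [Group G] [Finite G] (χ : Cfsg.IrrCharacter G) (hfaith : ∀ g : G, (χ : G → ℂ) g = (χ : G → ℂ) 1 → g = 1) (k : ℕ) (hk : Nat.Coprime k (Nat.card G)) (hirr : Cfsg.IsIrrCharacter G (fun g => (χ : G → ℂ) g * (χ : G → ℂ) (g ^ k))) : Cfsg.fittingSubgroup G = Subgroup.center G := by
  classical
  haveI := Fintype.ofFinite G
  have c := χ.2.isCharacter
  obtain ⟨m, hm⟩ : ∃ m : ℕ, ∀ x : G, (x ^ m) ^ k = x⁻¹ := by
    obtain ⟨m, hm⟩ := Nat.exists_mul_mod_eq_of_coprime (Nat.card G - 1) hk Nat.card_pos.ne'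
    refine ⟨m, fun x => ?_⟩
    rw [← pow_mul, mul_comm, ← pow_mod_natCard, hm.2, eq_inv_iff_mul_eq_one, pow_mod_natCard, ← pow_succ,
      Nat.sub_add_cancel Nat.card_pos, pow_card_eq_one']
  have key : ∀ u : G, (∀ g, χ.1 (g * u * g⁻¹ * u⁻¹) = 0 ∨ Commute (g * u * g⁻¹) u) → u ∈ center G := by
    intro u hu
    have s1 := χ.2.sum_conj_mul u u⁻¹
    have s2 := sum_conj_mul_res (Θ := fun x : G × G => χ.1 x.1 * χ.1 (x.2 ^ k))
      ((c.comp (MonoidHom.fst G G)).mul ((c.comp_pow hk).comp (MonoidHom.snd G G)))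
      ((MonoidHom.id G).prod (MonoidHom.id G)) hirr (u, u ^ m) (u, u ^ m)⁻¹
    simp only [MonoidHom.prod_apply, MonoidHom.id_apply, Prod.fst_mul, Prod.snd_mul, Prod.fst_inv,
      Prod.snd_inv, Prod.fst_one, Prod.snd_one, one_pow, inv_pow, hm, inv_inv] at s2
    have e : ∀ g, χ.1 (g * u * g⁻¹ * u⁻¹) * χ.1 ((g * u ^ m * g⁻¹ * (u ^ m)⁻¹) ^ k) =
        χ.1 (g * u * g⁻¹ * u⁻¹) * conj (χ.1 (g * u * g⁻¹ * u⁻¹)) := fun g => by
      rcases hu g with h | h
      · simp [h]
      · rw [← c.apply_inv, ← hm (g * u * g⁻¹ * u⁻¹), h.inv_right.mul_pow, conj_pow, inv_pow]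
    simp only [e] at s2
    have n1 := χ.2.apply_one_ne_zero
    set t := χ.1 u * χ.1 u⁻¹ / χ.1 1 with ht
    have tc : conj t = t := by
      rw [ht, map_div₀, map_mul, conj_apply_one c, c.apply_inv, Complex.conj_conj, mul_comm]
    have s3 := congrArg conj s1
    rw [mul_assoc, mul_div_assoc, ← ht] at s1 s3
    rw [map_sum, map_mul, tc, Complex.conj_natCast] at s3
    have s4 : ∑ g : G, (Complex.normSq (χ.1 (g * u * g⁻¹ * u⁻¹) - t) : ℂ) = 0 := by
      simp only [← Complex.mul_conj, map_sub, tc, sub_mul, mul_sub, Finset.sum_sub_distrib,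
        ← Finset.sum_mul, ← Finset.mul_sum, s1, s2, s3, Finset.sum_const, Finset.card_univ,
        nsmul_eq_mul, ← Nat.card_eq_fintype_card, ht]
      field_simp; ring
    have s5 := (Finset.sum_eq_zero_iff_of_nonneg fun g _ => Complex.normSq_nonneg _).1
      (by exact_mod_cast s4 : ∑ g : G, Complex.normSq (χ.1 (g * u * g⁻¹ * u⁻¹) - t) = 0)
    simp only [Finset.mem_univ, map_eq_zero, sub_eq_zero, forall_const] at s5
    refine mem_center_iff.2 fun g => ?_
    have := hfaith _ ((s5 g).trans ((s5 1).symm.trans (by simp)))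
    simpa [mul_inv_eq_one, mul_inv_eq_iff_eq_mul] using this
  haveI : Group.IsNilpotent (center G) := isNilpotent_of_comm inferInstance
  set F := fittingSubgroup G
  refine le_antisymm ?_ (le_fitting _)
  by_contra hh
  let π := QuotientGroup.mk' (center G)
  have nF : (F.map π).Normal := Normal.map inferInstance _ (QuotientGroup.mk'_surjective _)
  obtain ⟨u, hu, u1⟩ := (bot_or_exists_ne_one _).resolve_left (nil_center_ne_bot (L := F.map π)
    (CfsgH1.isNilpotent_map _ _) fun e => hh (by rwa [Subgroup.map_eq_bot_iff, QuotientGroup.ker_mk'] at e))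
  obtain ⟨u, rfl⟩ := QuotientGroup.mk'_surjective _ u
  haveI : (Z[F.map π]).Normal := inferInstance
  refine u1 ((QuotientGroup.eq_one_iff u).2 (key u fun g => ?_))
  set x := g * u * g⁻¹ * u⁻¹ with hx
  by_cases h : x ∈ center G
  · right
    rw [show g * u * g⁻¹ = x * u by rw [hx]; group]
    exact Commute.mul_left (mem_center_iff.1 h u).symm rfl
  left
  have m1 : π x ∈ Z[F.map π] := by
    simp only [hx, map_mul, map_inv]; exact mul_mem (Normal.conj_mem inferInstance _ hu _) (inv_mem hu)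
  have m2 : x ∈ F := by
    have : x ∈ (F.map π).comap π := m1.1
    rwa [comap_map_eq, QuotientGroup.ker_mk', sup_of_le_left (le_fitting _)] at this
  obtain ⟨f, hf, nf⟩ : ∃ f ∈ F, f * x ≠ x * f := by
    by_contra h2
    push Not at h2
    haveI : (Z[F]).Normal := inferInstance
    exact h (key x fun g => .inr (h2 _ (Normal.conj_mem inferInstance _ m2 g)))
  refine c.apply_eq_zero_of_commutator (y := f) (χ.2.center_le_charCenter
    ((QuotientGroup.eq_one_iff _).1 ?_)) fun e => nf ?_
  · have := m1.2 _ (mem_map_of_mem π hf)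
    show π _ = 1
    simp only [map_mul, map_inv, this]; group
  · simpa [mul_inv_eq_one, mul_inv_eq_iff_eq_mul] using hfaith _ e


end Cfsg.Agent.S4843
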