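import Cfsg.Statements.S4856
import Mathlib
import Cfsg.Agent.H4.Ch1

set_option autoImplicit false
open Cfsg

open Cfsg CfsgH3 CfsgH4 CfsgH1 Function
open scoped ComplexConjugate Pointwise

namespace Cfsg.Agent.S4856

/-- For an element z of a finite group G, the number of pairs (x, y) of elements with x y x⁻¹ y⁻¹ = z equals the order of G times the sum over the irreducible characters χ of χ(z)/χ(1). -/
theorem result {G : Type*} [Group G] [Finite G] (z : G) : (Nat.card {xy : G × G // xy.1 * xy.2 * xy.1⁻¹ * xy.2⁻¹ = z} : ℂ) = (Nat.card G : ℂ) * ∑ᶠ χ : Cfsg.IrrCharacter G, (χ : G → ℂ) z / (χ : G → ℂ) 1 := by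
  have := Fintype.ofFinite G
  rw [count_eq_sum (fun xy : G × G => xy.1 * xy.2 * xy.1⁻¹ * xy.2⁻¹) (fun a =>
    ⟨(MulAut.conj a).toEquiv.prodCongr (MulAut.conj a).toEquiv, fun x => by simp [mul_assoc]⟩),
    finsum_eq_sum_of_fintype, Finset.mul_sum]
  refine Finset.sum_congr rfl fun χ _ => ?_
  have h := sum_comm_mul χ.2 1
  simp only [mul_one] at h
  rw [← map_sum, Fintype.sum_prod_type, h]
  have := natCard_ne_zero G
  have := χ.2.apply_one_ne_zero
  simp only [map_div₀, map_mul, map_pow, map_natCast, conj_apply_one χ.2.isCharacter]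
  field_simp

end Cfsg.Agent.S4856
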