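import Cfsg.Statements.S4864
import Cfsg.Agent.H3.Rq

set_option autoImplicit false
open Cfsg

open Cfsg CfsgH4 CfsgRp CfsgRq Function
open CfsgH2 hiding cent_le_norm

namespace Cfsg.Agent.S4864
theorem aux {G : Type*} [Group G] [Finite G] {p : ℕ} [Fact p.Prime] {P K : Subgroup G}
    (s : Syl p P ⊤) [K.Normal] (o : Odd K.index) (h0 : P ⊓ K = ⊥) (hr : RP p G) (x : G)
    (hx : IsConj x x⁻¹) : ∃ y ∈ N[P], IsConj x y := by
  obtain ⟨f, hf, -⟩ := core s o (by rw [h0, norm_bot]; exact le_top) hr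
  have h1 := Nat.card_le_card_of_injective
    (fun χ => (⟨(f χ).1, (f χ).2.1⟩ : {ξ : IrrCharacter N[P] // ∀ n, (ξ.1 n).im = 0}))
    fun a b e => hf.1 (Subtype.ext (congrArg (·.1) e))
  rw [card_real_irr, card_real_irr] at h1
  have rc : ∀ {X : Type _} [Group X] {a b : X}, IsConj a⁻¹ a → IsConj a b → IsConj b⁻¹ b :=
    fun {X} _ {a b} h1 h2 => by
      obtain ⟨c, rfl⟩ := isConj_iff.1 h2
      exact (isConj_iff.2 ⟨c, by rw [conj_inv]⟩ : IsConj a⁻¹ (c * a * c⁻¹)⁻¹).symm.trans (h1.trans h2)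
  have cP : ∀ y : N[P], IsConj y⁻¹ y → P ≤ C1[(y : G)] := fun y hy =>
    le_cent1_iff.2 (le_cent_of_inf_eq_bot (H := K ⊓ N[P]) inf_le_right
      (le_norm_inf Subgroup.le_normalizer_of_normal (le_norm_norm Subgroup.le_normalizer))
      (eq_bot_iff.2 (h0 ▸ le_inf (inf_le_right) (inf_le_left.trans inf_le_left)))
      ⟨(real_in_of_odd o (N[P].subtype.map_isConj hy).symm).1, y.2⟩)
  obtain ⟨⟨C, hC⟩, h2⟩ := (Injective.bijective_of_nat_card_le (f := fun C : {C : ConjClasses N[P] //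
      ∀ g, ConjClasses.mk g = C → IsConj g⁻¹ g} => (⟨C.1.map N[P].subtype, fun g hg => by
        obtain ⟨y, hy⟩ := C.1.exists_rep
        rw [← hy] at hg
        exact rc (N[P].subtype.map_isConj (C.2 y hy))
          (ConjClasses.mk_eq_mk_iff_isConj.1 hg).symm⟩ :
      {C : ConjClasses G // ∀ g, ConjClasses.mk g = C → IsConj g⁻¹ g})) (by
    rintro ⟨C, hC⟩ ⟨D, hD⟩ e
    obtain ⟨y, rfl⟩ := C.exists_rep
    obtain ⟨z, rfl⟩ := D.exists_rep
    obtain ⟨g, hg⟩ := isConj_iff.1 (ConjClasses.mk_eq_mk_iff_isConj.1 (congrArg Subtype.val e))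
    have a1 : P.map (cj g) ≤ C1[(z : G)] := by
      rw [← show _ = (z : G) from hg, centralizer_conj]; exact Subgroup.map_mono (cP y (hC y rfl))
    obtain ⟨u, a2, a3⟩ := ((s.map_cj_mem trivial).mono a1 le_top).conj
      (s.mono (cP z (hD z rfl)) le_top)
    rw [map_cj_cj, map_cj_eq_iff] at a3
    refine Subtype.ext (ConjClasses.mk_eq_mk_iff_isConj.2 (isConj_iff.2 ⟨⟨_, a3⟩, Subtype.ext ?_⟩))
    have a4 := Subgroup.mem_centralizer_singleton_iff.1 a2
    change u * g * y * (u * g)⁻¹ = z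
    rw [mul_inv_rev, ← mul_assoc, mul_inv_eq_iff_eq_mul, ← a4, ← show _ = (z : G) from hg]
    simp [mul_assoc]) h1).2 ⟨ConjClasses.mk x, fun g hg =>
      rc hx.symm (ConjClasses.mk_eq_mk_iff_isConj.1 hg).symm⟩
  obtain ⟨y, rfl⟩ := C.exists_rep
  exact ⟨y, y.2, (ConjClasses.mk_eq_mk_iff_isConj.1 (congrArg Subtype.val h2)).symm⟩

/-- Let p be a prime and G a finite group such that the subgroup generated by the p-elements of G is solvable and every real-valued irreducible complex character of G has degree prime to p. Then the normalizer of a Sylow p-subgroup of G contains an element of every real conjugacy class of G: every element conjugate to its inverse is conjugate to an element of that normalizer. -/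
theorem result {G : Type*} [Group G] [Finite G] (p : ℕ) [Fact p.Prime] (hsolv : Group.IsSolvable ↥(Subgroup.closure {g : G | ∃ k : ℕ, orderOf g = p ^ k})) (hreal : ∀ χ : Cfsg.IrrCharacter G, (∀ g : G, ((χ : G → ℂ) g).im = 0) → ¬ p ∣ Cfsg.charDegree (χ : G → ℂ)) (P : Sylow p G) (x : G) (hx : IsConj x x⁻¹) : ∃ y ∈ Subgroup.normalizer ((P : Subgroup G) : Set G), IsConj x y := by
  have s := (syl_top P).inf_norm (K := Op 2 G) le_top Subgroup.le_normalizer_of_normal
  obtain ⟨Q, h⟩ := s.exists_sub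
  haveI := normal_of_Op hsolv hreal le_rfl (a := 0) (by simp) Q
  haveI := normal_of_top_le_norm (Subgroup.le_normalizer_of_normal.trans
    (s.norm_le_of_norm (h ▸ le_norm_map_subtype _)))
  have hs := QuotientGroup.mk'_surjective (P ⊓ Op 2 G : Subgroup G)
  haveI := (Op_normal (p := 2) (G := G)).map _ hs
  obtain ⟨y, h1, h2⟩ := aux (Subgroup.map_top_of_surjective _ hs ▸ (syl_top P).map _)
    (odd_Op.of_dvd_nat (Subgroup.index_map_dvd _ hs)) (eq_bot_iff.2 (by
      rintro _ ⟨⟨a, ha, rfl⟩, k, hk, e⟩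
      have := QuotientGroup.eq.1 e
      exact (QuotientGroup.eq_one_iff a).2 ⟨ha, (Subgroup.mul_mem_cancel_left _ (inv_mem hk)).1 this.2⟩))
    (RP.quot hreal _) _ (map_inv (QuotientGroup.mk' (P ⊓ Op 2 G : Subgroup G)) x ▸ (QuotientGroup.mk' _).map_isConj hx)
  obtain ⟨c, rfl⟩ := isConj_iff.1 h2
  obtain ⟨c, rfl⟩ := hs c
  refine ⟨c * x * c⁻¹, mem_norm_of_conj fun a ha => ?_, isConj_iff.2 ⟨c, rfl⟩⟩
  obtain ⟨b, hb, e⟩ := conj_mem_of_norm h1 (Subgroup.mem_map_of_mem _ ha)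
  simp only [← map_inv, ← map_mul] at e
  exact (Subgroup.mul_mem_cancel_left _ (inv_mem hb)).1 (QuotientGroup.eq.1 e).1


end Cfsg.Agent.S4864
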