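import Cfsg.Statements.S4866
import Mathlib
import Cfsg.Agent.H4.Gal2

set_option autoImplicit false
open Cfsg

open Cfsg CfsgH4 CfsgH1 CfsgL0 MonoidAlgebra Function
open CfsgH3 hiding cj cj_cj
open scoped ComplexConjugate Pointwise

namespace Cfsg.Agent.S4866

theorem card_quot_eq {α β : Type*} (r : α → α → Prop) (f : α → β) (hf : Surjective f)
    (h : ∀ a b, r a b ↔ f a = f b) : Nat.card (Quot r) = Nat.card β :=
  Nat.card_congr (Equiv.ofBijective (Quot.lift f fun a b e => (h a b).1 e)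
    ⟨fun x y e => by
      obtain ⟨a, rfl⟩ := x.exists_rep
      obtain ⟨b, rfl⟩ := y.exists_rep
      exact Quot.sound ((h a b).2 e), fun b => let ⟨a, e⟩ := hf b; ⟨Quot.mk _ a, e⟩⟩)

/-- Let K be a normal subgroup of odd index in the finite group G. Then G has as many orbits on the real-valued irreducible complex characters of K (acting by conjugation) as it has orbits on the conjugacy classes of K that are real in K; equivalently, the number of G-orbits of real-valued irreducible characters of K equals the number of G-conjugacy classes of elements of K that are conjugate in K to their inverses. -/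
theorem result {G : Type*} [Group G] [Finite G] (K : Subgroup G) [K.Normal] (hodd : Odd K.index) : Nat.card (Quot (fun θ η : {θ : Cfsg.IrrCharacter ↥K // (∀ k : ↥K, ((θ : ↥K → ℂ) k).im = 0)} => ∃ g : G, ∀ k k' : ↥K, (k' : G) = g * (k : G) * g⁻¹ → (η.1 : ↥K → ℂ) k' = (θ.1 : ↥K → ℂ) k)) = Nat.card (Quot (fun x y : {x : ↥K // IsConj x x⁻¹} => ∃ g : G, (y.1 : G) = g * x.1 * g⁻¹)) := by
  choose f h1 h2 h3 using fun θ : {θ : IrrCharacter K // ∀ k, (θ.1 k).im = 0} =>
    exists_unique_real hodd θ.2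
  rw [card_quot_eq _ (β := {χ : IrrCharacter G // ∀ g, (χ.1 g).im = 0}) (fun θ => ⟨f θ, h2 θ⟩),
    card_quot_eq _ (β := {C : ConjClasses G // ∀ g, ConjClasses.mk g = C → IsConj g⁻¹ g})
      (fun x => ⟨ConjClasses.mk x.1, fun g hg => ?_⟩), card_real_irr]
  · rintro ⟨C, hC⟩
    obtain ⟨x, rfl⟩ := C.exists_rep
    obtain ⟨hx, h⟩ := real_in_of_odd hodd (hC x rfl).symm
    exact ⟨⟨⟨x, hx⟩, h⟩, rfl⟩
  · intro a b
    rw [Subtype.mk.injEq, ConjClasses.mk_eq_mk_iff_isConj, isConj_iff]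
    simp only [eq_comm]
  · have h := (ConjClasses.mk_eq_mk_iff_isConj.1 hg)
    have h' : IsConj (x.1 : G) (x.1 : G)⁻¹ := K.subtype.map_isConj x.2
    obtain ⟨c, hc⟩ := isConj_iff.1 h
    exact (isConj_iff.2 ⟨c, by rw [← hc, conj_inv]⟩ : IsConj g⁻¹ (x.1 : G)⁻¹).trans
      (h'.symm.trans h.symm)
  · rintro ⟨χ, hχ⟩
    obtain ⟨θ, hθ⟩ := exists_under K.subtype χ
    exact ⟨⟨θ, hθ.real hodd hχ⟩, Subtype.ext (h3 ⟨θ, hθ.real hodd hχ⟩ χ hθ hχ).symm⟩
  · intro a b
    rw [Subtype.mk.injEq]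
    refine ⟨fun ⟨g, hg⟩ => h3 b _ ?_ (h2 a), fun e => ?_⟩
    · have h4 : Over K.subtype (f a).1 (irrCj g⁻¹ a.1).1 := (h1 a).cj (f a).2.isClassFunction _
      have : irrCj g⁻¹ a.1 = b.1 := Subtype.ext (funext fun k => by
        rw [irrCj_apply]; exact (hg _ _ (by simp [mul_assoc])).symm)
      rwa [this] at h4
    · have h4 := h1 b
      rw [← e] at h4
      obtain ⟨g, hg⟩ := (h1 a).exists_irrCj h4
      refine ⟨g, fun k k' h => ?_⟩
      rw [← hg, irrCj_apply]
      exact congrArg _ (Subtype.ext h)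

end Cfsg.Agent.S4866
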