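import Cfsg.Statements.S4870
import Cfsg.Agent.H4.Ch2
import Cfsg.Agent.H3.CliffordCorr
import Cfsg.Agent.H3.Monomial

set_option autoImplicit false
open Cfsg

open Cfsg CfsgH3 CfsgH4 CfsgH1 Function
open scoped ComplexConjugate commutatorElement

namespace Cfsg.Agent.S4870
open Subgroup

/-- Let G be a finite group with a non-abelian minimal normal subgroup N, and let φ be an irreducible complex character of N with stabilizer I in G (the elements g with φ(g n g⁻¹) = φ(n) for all n ∈ N) such that φ extends to an irreducible character of I. Put d = φ(1)·[G : I]. Then the number of linear characters of G is at most [G : I] times the number of irreducible characters of G of degree d. -/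
theorem result {G : Type*} [Group G] [Finite G] (N : Subgroup G) (hN : N.Normal) (hN1 : N ≠ ⊥) (hmin : ∀ M : Subgroup G, M.Normal → M ≤ N → M = ⊥ ∨ M = N) (hna : ¬ IsMulCommutative ↥N) (φ : Cfsg.IrrCharacter ↥N) (I : Subgroup G) (hI : ∀ g : G, g ∈ I ↔ ∀ n n' : ↥N, (n' : G) = g * (n : G) * g⁻¹ → (φ : ↥N → ℂ) n' = (φ : ↥N → ℂ) n) (hNI : N ≤ I) (hext : ∃ ψ : Cfsg.IrrCharacter ↥I, ∀ n : ↥N, (ψ : ↥I → ℂ) (Subgroup.inclusion hNI n) = (φ : ↥N → ℂ) n) : Nat.card {χ : Cfsg.IrrCharacter G // Cfsg.charDegree (χ : G → ℂ) = 1} ≤ I.index * Nat.card {χ : Cfsg.IrrCharacter G // Cfsg.charDegree (χ : G → ℂ) = Cfsg.charDegree (φ : ↥N → ℂ) * I.index} := by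
  classical
  haveI := Fintype.ofFinite G
  obtain ⟨ψ, hψ⟩ := hext
  have hT : I = inertia φ.1 := Subgroup.ext fun g => (hI g).trans
    ⟨fun h => funext fun n => h n _ rfl, fun h n n' e => by
      rw [← congrFun h n, cj_apply]; exact congrArg _ (Subtype.ext e)⟩
  have pf : ⁅N, N⁆ = N := (hmin _ inferInstance (commutator_le_left N N)).resolve_left fun e =>
    hna ⟨⟨fun a b => Subtype.ext (commutatorElement_eq_one_iff_mul_comm.1
      (by have := commutator_mem_commutator a.2 b.2; rwa [e] at this))⟩⟩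
  have triv : ∀ (l : I →* ℂˣ) (n : N), l ⟨n, hNI n.2⟩ = 1 := fun l n => by
    have : (n : G) ∈ (commutator I).map I.subtype := by
      rw [commutator_def, map_commutator, ← MonoidHom.range_eq_map, range_subtype]
      exact commutator_mono hNI hNI (pf.ge n.2)
    obtain ⟨x, hx, e⟩ := this
    rw [show (⟨n, hNI n.2⟩ : I) = x from Subtype.ext e.symm]
    exact Abelianization.commutator_subset_ker l hx
  have rs : ∀ l : I →* ℂˣ, resLE hNI ((fun x => (l x : ℂ)) * ψ.1) = φ.1 := fun l => funext fun n => by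
    simp only [resLE, Pi.mul_apply, triv l n]; rw [Units.val_one, one_mul]; exact hψ n
  have r0 : IsIrrCharacter (N.subgroupOf I) fun n => ψ.1 n := by
    rw [← subOf_resLE hNI, isIrr_subOf_iff hNI]
    have := rs 1; simp only [MonoidHom.one_apply, Units.val_one, const_one_mul] at this
    rw [this]; exact φ.2
  have tr : ∀ l : I →* ℂˣ, ∀ n ∈ N.subgroupOf I, (l n : ℂ) = l 1 := fun l n hn => by
    rw [map_one]; exact congrArg _ (triv l ⟨n, hn⟩)
  have ir : ∀ l : I →* ℂˣ, IsIrrCharacter I ((fun x => (l x : ℂ)) * ψ.1) := fun l =>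
    isIrr_mul_of_restrict_irr ψ.2.isCharacter r0 (isIrr_of_unitsHom l) (tr l)
  have ov : ∀ l : I →* ℂˣ, classInner (resLE hNI ((fun x => (l x : ℂ)) * ψ.1)) φ.1 ≠ 0 := fun l => by
    rw [rs, φ.2.classInner_self]; simp
  have a : Nat.card (I →* ℂˣ) ≤ _ := Nat.card_le_card_of_injective
    (β := {χ : IrrCharacter G // charDegree χ.1 = charDegree φ.1 * I.index})
    (fun l => ⟨⟨_, isIrr_indFun_of_over_inertia φ.2 hT hNI (ir l) (ov l)⟩, by
      rw [deg_indFun (ir l).isCharacter, mul_comm]; congr 1
      exact congrArg charDegree (rs l)⟩) fun l m e => by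
      have := eq_of_mul_eq_of_restrict_irr ψ.2.isCharacter r0 (isIrr_of_unitsHom l) (tr l)
        (isIrr_of_unitsHom m) (tr m) (indFun_injective_of_over_inertia φ.2 hT hNI (ir l) (ir m) (ov l)
          (ov m) (congrArg (·.1.1) e))
      exact MonoidHom.ext fun x => Units.ext (congrFun this x)
  refine le_trans ?_ (Nat.mul_le_mul_left _ a)
  rw [Nat.card_congr (Equiv.subtypeEquivRight fun χ : IrrCharacter G => charDegree_eq_one χ.2.isCharacter),
    card_linear_eq, card_unitsHom, card_unitsHom, mul_comm, ← index_map_subtype]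
  refine Nat.le_of_dvd (Nat.pos_of_ne_zero FiniteIndex.index_ne_zero) (index_dvd_of_le ?_)
  rw [commutator_def, map_commutator]; exact commutator_mono le_top le_top


end Cfsg.Agent.S4870
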