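import Cfsg.Statements.S4912
import Cfsg.Agent.H3.Rl2
import Cfsg.Agent.H3.Cd4
import Cfsg.Agent.L0.Count

set_option autoImplicit false
open Cfsg

open Cfsg CfsgH3 CfsgH4 CfsgCd CfsgRl Function Subgroup
open CfsgH2 hiding cj cj_apply isPGroup_pCore le_pCore isNilpotent_map card_mul_relIndex
open scoped ComplexConjugate commutatorElement CfsgH2

namespace Cfsg.Agent.S4912
theorem card_lin {G : Type*} [Group G] [Finite G] (I : Subgroup G) (μ : I → ℂ) {α : Type*} [Finite α] (f : α → IrrCharacter G)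
    (hf : Injective f) (h1 : ∀ a, (f a).1 1 = 1) (h : ∀ a (x : I), (f a).1 x = μ x) : Nat.card α ≤ I.index := by
  haveI := Fintype.ofFinite α
  haveI := Fintype.ofFinite (G ⧸ I)
  have := LinearIndependent.fintype_card_le_finrank (R := ℂ) (b := fun a (q : G ⧸ I) => (f a).1 q.out)
    (Fintype.linearIndependent_iff.2 fun c hc => Fintype.linearIndependent_iff.1 (linearIndependent_irr.comp f hf) c (funext fun g => by
      obtain ⟨x, hx⟩ := QuotientGroup.mk_out_eq_mul I g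
      have a := congrFun hc (g : G ⧸ I)
      have b : ∀ i, (f i).1 g = (f i).1 (g * x) * μ x⁻¹ := fun i => by
        rw [← h i, ← (f i).2.isCharacter.map_mul_of_apply_one (h1 i), coe_inv, mul_inv_cancel_right]
      simp only [Finset.sum_apply, Pi.smul_apply, smul_eq_mul, hx, Pi.zero_apply, comp_apply] at a ⊢
      rw [Finset.sum_congr rfl fun i _ => by rw [b i, ← mul_assoc], ← Finset.sum_mul, a, zero_mul]))
  rwa [Module.finrank_fintype_fun_eq_card, ← Nat.card_eq_fintype_card, ← Nat.card_eq_fintype_card] at this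

/-- Let G be a finite group with a non-abelian minimal normal subgroup N, and let φ be an irreducible complex character of N with stabilizer I in G such that φ extends to an irreducible character of I with Frobenius–Schur indicator +1. Put d = φ(1)·[G : I]. Then the number of linear characters of G with Frobenius–Schur indicator +1 is at most [G : I] times the number of irreducible characters of G of degree d with Frobenius–Schur indicator +1. -/
theorem result {G : Type*} [Group G] [Finite G] (N : Subgroup G) (hN : N.Normal) (hN1 : N ≠ ⊥) (hmin : ∀ M : Subgroup G, M.Normal → M ≤ N → M = ⊥ ∨ M = N) (hna : ¬ IsMulCommutative ↥N) (φ : Cfsg.IrrCharacter ↥N) (I : Subgroup G) (hI : ∀ g : G, g ∈ I ↔ ∀ n n' : ↥N, (n' : G) = g * (n : G) * g⁻¹ → (φ : ↥N → ℂ) n' = (φ : ↥N → ℂ) n) (hNI : N ≤ I) (hext : ∃ ψ : Cfsg.IrrCharacter ↥I, (Nat.card ↥I : ℂ)⁻¹ * ∑ᶠ g : ↥I, (ψ : ↥I → ℂ) (g * g) = 1 ∧ ∀ n : ↥N, (ψ : ↥I → ℂ) (Subgroup.inclusion hNI n) = (φ : ↥N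 → ℂ) n) : Nat.card {χ : Cfsg.IrrCharacter G // Cfsg.charDegree (χ : G → ℂ) = 1 ∧ (Nat.card G : ℂ)⁻¹ * ∑ᶠ g : G, (χ : G → ℂ) (g * g) = 1} ≤ I.index * Nat.card {χ : Cfsg.IrrCharacter G // Cfsg.charDegree (χ : G → ℂ) = Cfsg.charDegree (φ : ↥N → ℂ) * I.index ∧ (Nat.card G : ℂ)⁻¹ * ∑ᶠ g : G, (χ : G → ℂ) (g * g) = 1} := by
  classical
  haveI := Fintype.ofFinite G
  haveI := Fintype.ofFinite I
  haveI := Fintype.ofFinite N
  obtain ⟨ψ, h1, h2⟩ := hext
  have hT : I = inertia φ.1 := Subgroup.ext fun g => (hI g).trans ⟨fun h => mem_inertia'.2 fun n => h n _ rfl,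
    fun h n n' e => by rw [← mem_inertia'.1 h n]; exact congrArg _ (Subtype.ext e)⟩
  have hp : N ≤ commutator G := by
    rcases hmin ⁅N, N⁆ inferInstance (commutator_le_left _ _) with e | e
    · refine absurd ⟨⟨fun a b => Subtype.ext ?_⟩⟩ hna
      exact (commutatorElement_eq_one_iff_mul_comm.1 (mem_bot.1 (e ▸ commutator_mem_commutator a.2 b.2)))
    · exact e ▸ commutator_mono le_top le_top
  simp only [fsi_finsum] at h1 ⊢
  have d1 : ∀ a : {χ : IrrCharacter G // charDegree χ.1 = 1 ∧ fsi χ.1 = 1}, a.1.1 1 = 1 := fun a =>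
    (charDegree_eq_one a.1.2.isCharacter).1 a.2.1
  have d2 : ∀ a : {χ : IrrCharacter G // charDegree χ.1 = 1 ∧ fsi χ.1 = 1}, IsIrrCharacter I fun x : I => a.1.1 x := fun a =>
    (a.1.2.isCharacter.restrict I).isIrr_of_apply_one (d1 a)
  have d3 : ∀ a : {χ : IrrCharacter G // charDegree χ.1 = 1 ∧ fsi χ.1 = 1}, IsIrrCharacter I ((fun x : I => a.1.1 x) * ψ.1) :=
    fun a => mul_comm ψ.1 _ ▸ ψ.2.mul_of_apply_one (d2 a).isCharacter (d1 a)
  have d4 : ∀ a : {χ : IrrCharacter G // charDegree χ.1 = 1 ∧ fsi χ.1 = 1}, resLE hNI ((fun x : I => a.1.1 x) * ψ.1) = φ.1 :=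
    fun a => funext fun n => by
      show a.1.1 n * ψ.1 (inclusion hNI n) = _
      rw [h2 n, lin_comm a.1.2.isCharacter (d1 a) (hp n.2), one_mul]
  have d5 : ∀ a : {χ : IrrCharacter G // charDegree χ.1 = 1 ∧ fsi χ.1 = 1},
      classInner (resLE hNI ((fun x : I => a.1.1 x) * ψ.1)) φ.1 ≠ 0 := fun a => by
    rw [d4, φ.2.classInner_self]; exact one_ne_zero
  have d6 := fun a => isIrr_indFun_of_over_inertia φ.2 hT hNI (d3 a) (d5 a)
  have d7 : ∀ a : {χ : IrrCharacter G // charDegree χ.1 = 1 ∧ fsi χ.1 = 1},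
      charDegree (indFun I ((fun x : I => a.1.1 x) * ψ.1)) = charDegree φ.1 * I.index := fun a => by
    rw [deg_indFun (d3 a).isCharacter, mul_comm, ← d4 a]
    rfl
  have d8 : ∀ a : {χ : IrrCharacter G // charDegree χ.1 = 1 ∧ fsi χ.1 = 1}, fs ((fun x : I => a.1.1 x) * ψ.1) = 1 := fun a => by
    refine (congrArg _ (Finset.sum_congr rfl fun x _ => ?_)).trans h1
    have e := a.1.2.isCharacter.map_mul_of_apply_one (d1 a) x x
    have r := Complex.conj_eq_iff_im.2 (real_of_fsi a.1.2 (a.2.2.trans_ne one_ne_zero) x)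
    rw [Pi.mul_apply, coe_mul, e]
    nth_rw 2 [← r]
    rw [Complex.mul_conj', norm_eq_one_of_lin a.1.2.isCharacter (d1 a)]
    simp
  rw [mul_comm]
  refine CfsgL0.card_le_of_fibers (fun a => ⟨⟨_, d6 a⟩, d7 a, fs_ind (d3 a) (d8 a) (d6 a)⟩) _ fun b => ?_
  · rcases isEmpty_or_nonempty _ with e | ⟨⟨a₀⟩⟩
    · rw [@Nat.card_of_isEmpty _ e]
      exact Nat.zero_le _
    refine card_lin I (fun x => a₀.1.1.1 x) (fun a => a.1.1) (Subtype.val_injective.comp Subtype.val_injective)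
      (fun a => d1 a.1) fun a => congrFun ?_
    have e := indFun_injective_of_over_inertia φ.2 hT hNI (d3 a.1) (d3 a₀.1) (d5 _) (d5 _)
      (congrArg (fun t => t.1.1) (a.2.trans a₀.2.symm))
    have k : ∀ a : {χ : IrrCharacter G // charDegree χ.1 = 1 ∧ fsi χ.1 = 1}, ∀ n ∈ N.subgroupOf I, a.1.1 n = a.1.1 (1 : I) :=
      fun a n hn => (lin_comm a.1.2.isCharacter (d1 a) (hp hn)).trans (d1 a).symm
    refine eq_of_mul_eq_of_restrict_irr (N := N.subgroupOf I) ψ.2.isCharacter ?_ (d2 _) (k _) (d2 _) (k _) e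
    convert φ.2.comp_equiv (subgroupOfEquivOfLe hNI) using 1
    exact funext fun n => h2 (subgroupOfEquivOfLe hNI n)


end Cfsg.Agent.S4912
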