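import Cfsg.Statements.S4871
import Cfsg.Agent.S4912
import Cfsg.Agent.H4.Ext1
import Cfsg.Agent.H1.KW

set_option autoImplicit false
open Cfsg

open Cfsg CfsgH3 CfsgH4 CfsgCd CfsgRl Function Subgroup
open CfsgH2 hiding cj cj_apply isPGroup_pCore le_pCore isNilpotent_map card_mul_relIndex
open scoped ComplexConjugate commutatorElement CfsgH2

namespace Cfsg.Agent.S4871
theorem fs_dih {L : Type*} [Group L] [Fintype L] {H : Subgroup L} (h0 : H ≠ ⊤) {ψ : H → ℂ} (hψ : IsCharacter H ψ) (h1 : ψ 1 = 1)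
    (hi : IsIrrCharacter L (indFun H ψ)) (h : ∀ g, g ∉ H → extendByZero H ψ (g * g) = 1) : fs (indFun H ψ) = 1 := by
  classical
  have := Fintype.ofFinite H
  obtain ⟨n, hn⟩ := (hψ.mul hψ).exists_nat_classInner isCharacter_one
  have a : fsi (indFun H ψ) = n + (Nat.card H : ℂ)⁻¹ * (Finset.univ.filter (· ∉ H)).card := by
    rw [fsi_indFun, ← Finset.sum_filter_add_sum_filter_not _ (· ∈ H), mul_add, ← hn, classInner_one_right, ← sum_subgroup_eq,
      Finset.sum_congr rfl fun g hg => h g (Finset.mem_filter.1 hg).2]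
    simp only [Finset.sum_const, nsmul_eq_mul, mul_one, Pi.mul_apply, ← hψ.map_mul_of_apply_one h1, ← coe_mul, extendByZero_coe]
  obtain ⟨x, hx⟩ := SetLike.exists_of_lt h0.lt_top
  have b : 0 < (fsi (indFun H ψ)).re := by
    have : 0 < (Finset.univ.filter (· ∉ H)).card := Finset.card_pos.2 ⟨x, by simpa using hx.2⟩
    have : 0 < Nat.card H := Nat.card_pos
    rw [a, ← Complex.ofReal_natCast, ← Complex.ofReal_natCast, ← Complex.ofReal_natCast, ← Complex.ofReal_inv, ← Complex.ofReal_mul,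
      ← Complex.ofReal_add, Complex.ofReal_re]
    positivity
  rcases fsi_cases hi with e | e | e
  · simp [e] at b
  · exact e
  · norm_num [e] at b
theorem sq_one {G : Type*} [Group G] [Fintype G] {χ : G → ℂ} (hχ : IsIrrCharacter G χ) (h1 : χ 1 = 1) (h : fsi χ = 1) (x : G) :
    χ (x * x) = 1 := by
  have r := Complex.conj_eq_iff_im.2 (real_of_fsi hχ (h.trans_ne one_ne_zero) x)
  rw [hχ.isCharacter.map_mul_of_apply_one h1]
  nth_rw 2 [← r]
  rw [Complex.mul_conj', norm_eq_one_of_lin hχ.isCharacter h1]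
  simp

/-- Let G be a finite group that is the semidirect product of a normal elementary abelian subgroup N of odd order by a non-trivial 2-subgroup P, with N the unique minimal normal subgroup of G. Consider the strongly real irreducible complex characters of G (Frobenius–Schur indicator +1) whose degree is 1 or even. Then their average degree is at least 4/3: four times their number is at most three times the sum of their degrees. -/
theorem result {G : Type*} [Group G] [Finite G] (N P : Subgroup G) (hN : N.Normal) (q : ℕ) [Fact q.Prime] (hq : q ≠ 2) (hNel : Cfsg.IsElementaryAbelian q N) (hP : IsPGroup 2 ↥P) (hP1 : P ≠ ⊥) (hdisj : N ⊓ P = ⊥) (hprod : N ⊔ P = ⊤) (hmin : N ≠ ⊥ ∧ ∀ M : Subgroup G, M.Normal → M ≠ ⊥ → N ≤ M) : 4 * Nat.card {χ : Cfsg.IrrCharacter G // (Cfsg.charDegree (χ : G → ℂ) = 1 ∨ 2 ∣ Cfsg.charDegree (χ : G → ℂ)) ∧ (Nat.card G : ℂ)⁻¹ * ∑ᶠ g : G, (χ : G → ℂ) (g * g) = 1} ≤ 3 * (∑ᶠ χ : {χ : Cfsg.IrrCharacter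 G // (Cfsg.charDegree (χ : G → ℂ) = 1 ∨ 2 ∣ Cfsg.charDegree (χ : G → ℂ)) ∧ (Nat.card G : ℂ)⁻¹ * ∑ᶠ g : G, (χ : G → ℂ) (g * g) = 1}, Cfsg.charDegree (χ.1 : G → ℂ)) := by
  classical
  haveI := Fintype.ofFinite G
  haveI := Fintype.ofFinite N
  obtain ⟨z, hz, z1, z2⟩ : ∃ z ∈ P, orderOf z = 2 ∧ ∀ x ∈ P, x * z = z * x := by
    obtain ⟨z, a, b⟩ := CfsgH1.exists_center_prime (A := P) hP.isNilpotent Nat.prime_two (dvd_card_of_pgroup hP hP1)
    exact ⟨z, a.1, b, a.2⟩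
  have zz : z * z = 1 := by rw [← sq, ← z1, pow_orderOf_eq_one]
  have z0 : z ≠ 1 := fun e => by simp [e] at z1
  have ab : ∀ a ∈ N, ∀ b ∈ N, a * b = b * a := fun a ha b hb => congrArg Subtype.val (hNel.1.is_comm.comm ⟨a, ha⟩ ⟨b, hb⟩)
  have dec : ∀ g, ∃ n ∈ N, ∃ x ∈ P, n * x = g := fun g => mem_sup_of_normal_left.1 (hprod.ge (mem_top g))
  have c0 : N ⊓ C1[z] = ⊥ := by
    by_contra e
    have := hmin.2 _ ⟨fun a ha g => by
      obtain ⟨n, hn, x, hx, rfl⟩ := dec g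
      have k := hN.conj_mem a ha.1 x
      rw [show n * x * a * (n * x)⁻¹ = n * (x * a * x⁻¹) * n⁻¹ by group, ab n hn _ k, mul_inv_cancel_right]
      refine ⟨k, mem_centralizer_singleton_iff.2 ?_⟩
      rw [mul_assoc, z2 _ (P.inv_mem hx), ← mul_assoc, mul_assoc x, mem_centralizer_singleton_iff.1 ha.2, ← mul_assoc, z2 x hx]
      group⟩ e
    refine hmin.1 (le_bot_iff.1 (hdisj ▸ le_inf le_rfl ((hmin.2 (zpowers z) (normal_of_le_center (zpowers_le.2
      (mem_center_iff.2 fun g => ?_))) (by simpa using z0)).trans (zpowers_le.2 hz))))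
    obtain ⟨n, hn, x, hx, rfl⟩ := dec g
    rw [mul_assoc, z2 x hx, ← mul_assoc, mem_centralizer_singleton_iff.1 (this hn).2, mul_assoc]
  have inv : ∀ n ∈ N, z * n * z⁻¹ = n⁻¹ := fun n hn => by
    have k := hN.conj_mem n hn z
    refine eq_inv_of_mul_eq_one_left (mem_bot.1 (c0 ▸ ⟨N.mul_mem k hn, mem_centralizer_singleton_iff.2 ?_⟩))
    calc _ = n * (z * n * z⁻¹) * z := by rw [ab _ k n hn]
      _ = z * z * n * z⁻¹ * n := by rw [zz, inv_eq_of_mul_eq_one_left zz, one_mul]; simp [mul_assoc, zz]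
      _ = _ := by simp only [mul_assoc]
  obtain ⟨⟨a, ha⟩, a1⟩ := ne_bot_iff_exists_ne_one.1 hmin.1
  obtain ⟨φ, hφ, a2⟩ := exists_irr_ne (G := N) a1
  have a3 := hφ.apply_one_of_comm fun a b => Subtype.ext (ab a a.2 b b.2)
  obtain ⟨l, rfl⟩ := hφ.isCharacter.exists_monoidHom a3
  have lq : orderOf l ∣ q := orderOf_dvd_of_pow_eq_one (MonoidHom.ext fun n => by
    rw [MonoidHom.pow_apply, ← map_pow, show n ^ q = 1 from Subtype.ext (hNel.2 n n.2), map_one, MonoidHom.one_apply])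
  have q2 : Nat.Coprime 2 q := (Nat.coprime_primes Nat.prime_two Fact.out).2 hq.symm
  obtain ⟨I, hT⟩ : ∃ I, I = inertia fun n : N => (l n : ℂ) := ⟨_, rfl⟩
  have := Fintype.ofFinite I
  have hNI : N ≤ I := hT ▸ le_inertia hφ.isClassFunction
  obtain ⟨k, hk⟩ : ∃ k, N.index = 2 ^ k := (isPGroup_quot_of_sup hP (sup_comm N P ▸ hprod)).exists_card_eq
  obtain ⟨μ, m1, m2⟩ := exists_lin_ext_of_coprime (N := N.subgroupOf I) (l := l.comp (subgroupOfEquivOfLe hNI).toMonoidHom)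
    (fun g n => Units.ext (mem_inertia'.1 (hT.le g.2) ⟨n, n.2⟩)) (((q2.pow_left k).coprime_dvd_left
      (hk ▸ relIndex_dvd_index_of_le hNI)).coprime_dvd_right (orderOf_dvd_of_pow_eq_one (MonoidHom.ext fun n => by
        simpa using DFunLike.congr_fun (orderOf_dvd_iff_pow_eq_one.1 lq) _)))
  have m3 : ∀ x : I, (x : G) ∈ P → μ x = 1 := fun x hx => by
    obtain ⟨j, hj⟩ := pgroup_pow_eq_one hP hx
    refine (pow_eq_one_iff_of_coprime (q2.pow_left j)).1 ⟨by rw [← map_pow, show x ^ 2 ^ j = 1 from Subtype.ext hj, map_one], ?_⟩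
    have : μ ^ q = 1 := orderOf_dvd_iff_pow_eq_one.1 (m2.dvd.trans (orderOf_dvd_of_pow_eq_one (MonoidHom.ext fun n => by
        simpa using DFunLike.congr_fun (orderOf_dvd_iff_pow_eq_one.1 lq) _)))
    exact DFunLike.congr_fun this x
  have zI : z ∉ I := fun h => a2 (by
    have e := mem_inertia'.1 (hT.le h) ⟨a, ha⟩
    rw [show (⟨z * a * z⁻¹, hN.conj_mem a ha z⟩ : N) = ⟨a, ha⟩⁻¹ from Subtype.ext (inv a ha), map_inv, Units.val_inj,
      inv_eq_iff_mul_eq_one, ← sq] at e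
    show (l _ : ℂ) = l 1
    rw [map_one, (pow_eq_one_iff_of_coprime q2).1 ⟨e, DFunLike.congr_fun (orderOf_dvd_iff_pow_eq_one.1 lq) _⟩])
  have dI : ∀ h ∈ I, ∃ n ∈ N, ∃ x ∈ P ⊓ I, n * x = h := fun h hh => by
    obtain ⟨n, hn, x, hx, rfl⟩ := dec h
    exact ⟨n, hn, x, ⟨hx, (I.mul_mem_cancel_left (hNI hn)).1 hh⟩, rfl⟩
  have zN : z ∈ N[I] := mem_normalizer_fintype fun h hh => by
    obtain ⟨n, hn, x, hx, rfl⟩ := dI h hh
    rw [← conj_mul, inv n hn, ← z2 x hx.1, mul_inv_cancel_right]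
    exact I.mul_mem (I.inv_mem (hNI hn)) hx.2
  have sq : ∀ g ∈ I ⊔ zpowers z, g ∉ I → ∃ h : g * g ∈ I, μ ⟨_, h⟩ = 1 := fun g hg h0 => by
    obtain ⟨h, hh, y, hy, rfl⟩ := (mem_sup_of_norm' (zpowers_le.2 zN)).1 hg
    obtain ⟨n, hn, x, hx, rfl⟩ := dI h hh
    obtain rfl : y = z := (by simpa [z1] using eq_half_of_sq (m := 0) z1 hy (by
      rw [← _root_.sq, ← orderOf_dvd_iff_pow_eq_one, ← z1]; exact orderOf_dvd_of_mem_zpowers hy) : y = 1 ∨ y = z).resolve_left fun e => h0 (by rwa [e, mul_one])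
    have e : n * x * y * (n * x * y) = n * x * n⁻¹ * x := by
      rw [← inv n hn, inv_eq_of_mul_eq_one_left zz]
      simp only [mul_assoc, ← z2 x hx.1]
    have e2 : (⟨n, hNI hn⟩ * ⟨x, hx.2⟩ * ⟨n, hNI hn⟩⁻¹ * ⟨x, hx.2⟩ : I).1 = n * x * y * (n * x * y) := e.symm
    refine ⟨e2 ▸ SetLike.coe_mem _, (congrArg μ (Subtype.ext e2.symm)).trans ?_⟩
    rw [map_mul, map_mul, map_mul, m3 ⟨x, hx.2⟩ hx.1, map_inv, mul_one, mul_one, mul_inv_cancel]
  simp only [fsi_finsum]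
  have d1 : ∀ a : {χ : IrrCharacter G // charDegree χ.1 = 1 ∧ fsi χ.1 = 1}, a.1.1 1 = 1 := fun a =>
    (charDegree_eq_one a.1.2.isCharacter).1 a.2.1
  have d3 : ∀ a : {χ : IrrCharacter G // charDegree χ.1 = 1 ∧ fsi χ.1 = 1}, IsIrrCharacter I ((fun x : I => a.1.1 x) * fun x => (μ x : ℂ)) :=
    fun a => ((a.1.2.isCharacter.restrict I).isIrr_of_apply_one (d1 a)).mul_linear μ
  have d4 : ∀ a : {χ : IrrCharacter G // charDegree χ.1 = 1 ∧ fsi χ.1 = 1},
      resLE hNI ((fun x : I => a.1.1 x) * fun x => (μ x : ℂ)) = fun n => (l n : ℂ) := fun a => funext fun n => by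
    obtain ⟨j, hj⟩ := (Fact.out : q.Prime).odd_of_ne_two hq
    have e : (n : G) = (n ^ (j + 1)) * (n ^ (j + 1)) := by
      rw [← pow_add, show j + 1 + (j + 1) = q + 1 by omega, pow_succ, hNel.2 n n.2, one_mul]
    show a.1.1 n * μ (inclusion hNI n) = _
    rw [e, sq_one a.1.2 (d1 a) a.2.2, one_mul]
    exact congrArg _ (m1 ⟨inclusion hNI n, n.2⟩)
  have d5 : ∀ a : {χ : IrrCharacter G // charDegree χ.1 = 1 ∧ fsi χ.1 = 1},
      classInner (resLE hNI ((fun x : I => a.1.1 x) * fun x => (μ x : ℂ))) (fun n => (l n : ℂ)) ≠ 0 := fun a => by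
    rw [d4, hφ.classInner_self]; exact one_ne_zero
  have d6 := fun a => isIrr_indFun_of_over_inertia hφ hT hNI (d3 a) (d5 a)
  have d7 : ∀ a : {χ : IrrCharacter G // charDegree χ.1 = 1 ∧ fsi χ.1 = 1},
      charDegree (indFun I ((fun x : I => a.1.1 x) * fun x => (μ x : ℂ))) = I.index := fun a => by
    rw [deg_indFun (d3 a).isCharacter, (charDegree_eq_one (d3 a).isCharacter).2 (by simp [d1]), mul_one]
  have d8 : ∀ a : {χ : IrrCharacter G // charDegree χ.1 = 1 ∧ fsi χ.1 = 1},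
      fsi (indFun I ((fun x : I => a.1.1 x) * fun x => (μ x : ℂ))) = 1 := fun a => by
    have := Fintype.ofFinite (I ⊔ zpowers z : Subgroup G)
    have b := d6 a
    have c := (d3 a).isCharacter.comp (subgroupOfEquivOfLe (le_sup_left : I ≤ I ⊔ zpowers z)).toMonoidHom
    rw [← indFun_indFun I _ (le_sup_left : I ≤ I ⊔ zpowers z)] at b ⊢
    have d := c.ind.isIrr_of_ind b
    refine fs_ind d (fs_dih (fun e => zI (subgroupOf_eq_top.1 e (mem_sup_right (mem_zpowers z)))) c (show a.1.1 1 * μ 1 = 1 by simp [d1]) d fun g hg => ?_) b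
    obtain ⟨h, e⟩ := sq g g.2 hg
    refine (extendByZero_of_mem _ (g := g * g) h).trans ?_
    show a.1.1 (g * g) * μ ⟨_, h⟩ = 1
    rw [e, sq_one a.1.2 (d1 a) a.2.2, one_mul, Units.val_one]
  have d9 := CfsgL0.card_le_of_fibers (B := {χ : IrrCharacter G // charDegree χ.1 = I.index ∧ fsi χ.1 = 1})
    (fun a => ⟨⟨_, d6 a⟩, d7 a, d8 a⟩) I.index fun b => by
    rcases isEmpty_or_nonempty _ with e | ⟨⟨a₀⟩⟩
    · rw [@Nat.card_of_isEmpty _ e]
      exact Nat.zero_le _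
    refine S4912.card_lin I (fun x => a₀.1.1.1 x) (fun a => a.1.1) (Subtype.val_injective.comp Subtype.val_injective)
      (fun a => d1 a.1) fun a x => mul_right_cancel₀ (μ x).ne_zero ?_
    exact congrFun (indFun_injective_of_over_inertia hφ hT hNI (d3 a.1) (d3 a₀.1) (d5 _) (d5 _)
      (congrArg (fun t => t.1.1) (a.2.trans a₀.2.symm))) x
  have i2 : 2 ∣ I.index := by
    obtain ⟨j, -, e⟩ := (Nat.dvd_prime_pow Nat.prime_two).1 (hk ▸ index_dvd_of_le hNI)
    exact e ▸ dvd_pow_self 2 fun c => zI ((index_eq_one.1 (by rw [e, c, pow_zero])).ge (mem_top z))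
  have i3 := Nat.le_of_dvd (Nat.pos_of_ne_zero index_ne_zero_of_finite) i2
  rw [finsum_eq_sum_of_fintype, ← Finset.sum_subtype (Finset.univ.filter fun χ : IrrCharacter G =>
    (charDegree χ.1 = 1 ∨ 2 ∣ charDegree χ.1) ∧ fsi χ.1 = 1) (fun χ => by rw [Finset.mem_filter_univ]; simp only [fsi_finsum]) fun χ => charDegree χ.1]
  simp only [Nat.card_eq_fintype_card, Fintype.card_subtype, Finset.card_filter, Finset.sum_filter, Finset.mul_sum, Finset.sum_mul] at d9 ⊢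
  refine le_of_add_le_add_right (le_trans (add_le_add_right d9 _) ?_)
  rw [← Finset.sum_add_distrib, ← Finset.sum_add_distrib]
  refine Finset.sum_le_sum fun χ _ => ?_
  have := charDegree_pos χ.2
  by_cases e : fsi χ.1 = 1
  · simp only [e, and_true]
    split_ifs <;> omega
  · simp [e]


end Cfsg.Agent.S4871
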