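import Cfsg.Statements.S4872
import Cfsg.Agent.H4.Real
import Cfsg.Agent.H4.Ch2
import Cfsg.Agent.H3.Apps

set_option autoImplicit false
open Cfsg

open CfsgH3 CfsgH4 Function Subgroup Module
open scoped ComplexConjugate Matrix

namespace Cfsg.Agent.S4872
theorem fs_one {G : Type*} [Group G] [Fintype G] {χ : G → ℂ} (hχ : IsIrrCharacter G χ)
    (hr : ∀ g, (χ g).im = 0) (P : Subgroup G) [Fintype P] {m : ℕ} (hm : Odd m)
    (h : classInner (fun x : P => χ x) (fun _ => 1) = m) : fs χ = 1 := by
  classical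
  refine (((fs_cases hχ).resolve_right fun h => h.1 hr).2).resolve_right fun h1 => ?_
  obtain ⟨n, ρ, hρ, rfl⟩ := hχ
  obtain ⟨⟨A, hA0, hA⟩, h2⟩ := exists_invF ρ hr
  have h3 := h2 A hA
  rw [h1] at h3
  let σ : Representation ℂ P (Fin n → ℂ) := ρ.comp P.subtype
  let _ : Invertible (Nat.card P : ℂ) := invertibleOfNonzero (natCard_ne_zero P)
  have h4 : finrank ℂ σ.invariants = m := Nat.cast_injective (R := ℂ) (by
    rw [← σ.card_inv_mul_sum_char_eq_finrank, ← h, classInner_one_right]; rfl)
  let B := Matrix.toBilin' A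
  have b1 : ∀ v w, B v w = -B w v := fun v w => by
    rw [Matrix.toBilin'_apply', Matrix.toBilin'_apply', Matrix.dotProduct_mulVec,
      ← Matrix.mulVec_transpose, h3, dotProduct_comm]
    simp [Matrix.neg_mulVec]
  have b2 : ∀ g v w, B (ρ g v) (ρ g w) = B v w := fun g v w => by
    rw [Matrix.toBilin'_apply', Matrix.toBilin'_apply', ← LinearMap.toMatrix'_mulVec,
      ← LinearMap.toMatrix'_mulVec (ρ g) w, ← Matrix.vecMul_transpose, ← Matrix.dotProduct_mulVec,
      Matrix.mulVec_mulVec, Matrix.mulVec_mulVec, hA g]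
  let b := finBasisOfFinrankEq ℂ σ.invariants h4
  have b3 : (LinearMap.toMatrix₂ b b (B.restrict σ.invariants)).det ≠ 0 :=
    (LinearMap.separatingLeft_iff_det_ne_zero b).1 fun v hv => Subtype.ext
      ((LinearMap.separatingLeft_toLinearMap₂'_iff_det_ne_zero.2 (hA.det_ne_zero hA0)) v fun w => by
        have e1 := hv ⟨∑ x, σ x w, fun y => by
          rw [map_sum]
          exact Fintype.sum_equiv (Equiv.mulLeft y) _ _ fun x => by simp⟩
        have e2 : ∀ x : P, B v (σ x w) = B v w := fun x => by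
          rw [← b2 x v w]; exact congrArg (B · _) (v.2 x).symm
        change B v (∑ x, σ x w) = 0 at e1
        rw [map_sum, Finset.sum_congr rfl fun x _ => e2 x, Finset.sum_const, nsmul_eq_mul] at e1
        exact (mul_eq_zero.1 e1).resolve_left (by simp))
  have b4 : (LinearMap.toMatrix₂ b b (B.restrict σ.invariants))ᵀ =
      -LinearMap.toMatrix₂ b b (B.restrict σ.invariants) := by
    ext i j
    rw [Matrix.transpose_apply, Matrix.neg_apply, LinearMap.toMatrix₂_apply,
      LinearMap.toMatrix₂_apply]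
    exact b1 _ _
  have b5 := congrArg Matrix.det b4
  rw [Matrix.det_transpose, Matrix.det_neg, Fintype.card_fin, hm.neg_one_pow] at b5
  exact b3 (by linear_combination b5 / 2)

/-- Let N be a normal subgroup of the finite group G with G/N a 2-group, and let φ be an irreducible complex character of N of 2-defect zero (the 2-part of #N divides φ(1)) whose complex conjugate is G-conjugate to φ. Then some irreducible character of G with Frobenius–Schur indicator +1 contains φ with multiplicity exactly one on restriction to N. -/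
theorem result {G : Type*} [Group G] [Finite G] (N : Subgroup G) [N.Normal] (h2 : IsPGroup 2 (G ⧸ N)) (φ : Cfsg.IrrCharacter ↥N) (hdef : 2 ^ (Nat.card ↥N).factorization 2 ∣ Cfsg.charDegree (φ : ↥N → ℂ)) (hconj : ∃ g : G, ∀ n n' : ↥N, (n' : G) = g * (n : G) * g⁻¹ → (φ : ↥N → ℂ) n' = (starRingEnd ℂ) ((φ : ↥N → ℂ) n)) : ∃ χ : Cfsg.IrrCharacter G, (Nat.card G : ℂ)⁻¹ * ∑ᶠ g : G, (χ : G → ℂ) (g * g) = 1 ∧ (Nat.card ↥N : ℂ)⁻¹ * ∑ᶠ n : ↥N, (χ : G → ℂ) n * (starRingEnd ℂ) ((φ : ↥N → ℂ) n) = 1 := by
  classical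
  haveI := Fintype.ofFinite G
  haveI := Fintype.ofFinite N
  simp only [finsum_eq_sum_of_fintype]
  obtain ⟨P⟩ : Nonempty (Sylow 2 G) := inferInstance
  haveI := Fintype.ofFinite (P : Subgroup G)
  choose a ha using fun χ : IrrCharacter G =>
    (χ.2.isCharacter.restrict P).exists_nat_classInner isCharacter_one
  choose e he using fun χ : IrrCharacter G =>
    (χ.2.isCharacter.restrict N).exists_nat_classInner φ.2.isCharacter
  obtain ⟨s, hs⟩ := IsPGroup.iff_card.1 h2
  obtain ⟨c, hc⟩ := hdef
  have h0 : Nat.card N ≠ 0 := Nat.card_pos.ne'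
  obtain ⟨d, hd⟩ := charDegree_dvd φ.2
  have c1 : ¬ 2 ∣ c * d := fun h => Nat.pow_succ_factorization_not_dvd h0 Nat.prime_two (by
    conv_rhs => rw [hd, hc, mul_assoc]
    rw [pow_succ]; exact mul_dvd_mul_left _ h)
  have c2 : ∑ χ, a χ * e χ = c := Nat.cast_injective (R := ℂ) (by
    have e1 := φ.2.isCharacter.ind.isClassFunction.classInner_eq_sum_irr (indFun P fun _ => 1)
    rw [classInner_indFun_right _ φ.2.isCharacter.ind.isClassFunction, classInner_one_right,
      Finset.sum_eq_single 1 (fun x _ hx => indFun_eq_zero_of_forall _ fun y hy =>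
        φ.2.eq_zero_of_defect_zero Nat.prime_two (coe_charDegree φ.2.isCharacter).symm (by
          rw [hd, Nat.mul_div_cancel_left _ (charDegree_pos φ.2)]
          exact fun h => c1 (h.mul_left c)) (by
          obtain ⟨k, hk⟩ := IsPGroup.iff_orderOf.1 P.isPGroup' x
          rw [orderOf_mk, show y⁻¹ * x * y = MulAut.conj y⁻¹ (x : G) by simp, MulEquiv.orderOf_eq,
            orderOf_coe, hk]
          exact dvd_pow_self 2 fun e => hx (orderOf_eq_one_iff.1 (by rw [hk, e, pow_zero])))) (by simp), OneMemClass.coe_one, indFun_apply_one, ← coe_charDegree φ.2.isCharacter,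
      P.card_eq_multiplicity, ← N.index_mul_card,
      Nat.factorization_mul N.index_ne_zero_of_finite h0, Finsupp.add_apply, hc,
      show N.index = 2 ^ s from hs, Nat.Prime.factorization_pow Nat.prime_two,
      Finsupp.single_eq_same] at e1
    push_cast at e1 ⊢
    rw [Finset.sum_congr rfl fun χ _ => by
      rw [← ha, ← he, mul_comm, ← classInner_indFun_right _ χ.2.isClassFunction,
        ← classInner_indFun_right _ χ.2.isClassFunction,
        χ.2.isCharacter.classInner_comm φ.2.isCharacter.ind], ← e1, pow_add]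
    field_simp)
  obtain ⟨χ, c3, c4⟩ : ∃ χ : IrrCharacter G, (fun g => conj (χ.1 g)) = χ.1 ∧ Odd (a χ * e χ) := by
    by_contra hh
    push Not at hh
    have := Finset.sum_involution (s := Finset.univ) (f := fun χ => ((a χ * e χ : ℕ) : ZMod 2))
      (fun χ _ => ⟨_, χ.2.conj⟩) (fun χ _ => by
        have e1 : a ⟨_, χ.2.conj⟩ = a χ := Nat.cast_injective (R := ℂ) (by
          rw [← ha, ← ha, (χ.2.isCharacter.restrict P).classInner_comm isCharacter_one,
            ← classInner_conj_conj]
          simp)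
        have e2 : e ⟨_, χ.2.conj⟩ = e χ := Nat.cast_injective (R := ℂ) (by
          obtain ⟨g, hg⟩ := hconj
          rw [← he, ← he, (χ.2.isCharacter.restrict N).classInner_comm φ.2.isCharacter,
            ← classInner_conj_conj, ← classInner_comp_equiv (MulAut.conjNormal g).toEquiv]
          congr 1
          · exact funext fun n => (congrArg conj (hg n _ rfl)).trans (Complex.conj_conj _)
          · exact funext fun n => (Complex.conj_conj _).trans (χ.2.isClassFunction n g))
        rw [e1, e2]; exact CharTwo.add_self_eq_zero _)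
      (fun χ _ h e => h ((ZMod.natCast_eq_zero_iff_even).2 (Nat.not_odd_iff_even.1
        (hh χ (congrArg Subtype.val e))))) (fun _ _ => Finset.mem_univ _)
      fun χ _ => Subtype.ext (funext fun g => Complex.conj_conj _)
    rw [← Nat.cast_sum, c2, ZMod.natCast_eq_zero_iff_even] at this
    exact c1 (this.two_dvd.mul_right d)
  obtain ⟨c5, c6⟩ := Nat.odd_mul.1 c4
  refine ⟨χ, fs_one χ.2 (fun g => Complex.conj_eq_iff_im.1 (congrFun c3 g)) P c5 (ha χ), ?_⟩
  have c7 : classInner (fun n : N => χ.1 n) φ.1 ≠ 0 := by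
    rw [he]; exact Nat.cast_ne_zero.2 c6.pos.ne'
  have c8 := clifford_degree χ.2 φ.2 c7
  rw [he, ← coe_charDegree χ.2.isCharacter, ← coe_charDegree φ.2.isCharacter] at c8
  have c9 := (deg_dvd_of_over φ.2 χ.2 c7).2
  rw [show charDegree χ.1 = e χ * (inertia φ.1).index * charDegree φ.1 by exact_mod_cast c8,
    show N.index = 2 ^ s from hs] at c9
  refine (he χ).trans ?_
  rw [Nat.eq_one_of_dvd_coprimes (c6.coprime_two_right.pow_right s) dvd_rfl
    ((dvd_mul_right _ _).trans (Nat.dvd_of_mul_dvd_mul_right (charDegree_pos φ.2) c9)),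
    Nat.cast_one]


end Cfsg.Agent.S4872
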