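import Cfsg.Statements.S4873
import Mathlib
import Cfsg.Agent.H4.Gal2

set_option autoImplicit false
open Cfsg

open Cfsg CfsgH4 CfsgH1 CfsgL0 MonoidAlgebra Function
open CfsgH3 hiding cj cj_cj
open scoped ComplexConjugate Pointwise

namespace Cfsg.Agent.S4873

/-- Let N be a normal subgroup of odd index in the finite group G. Then every irreducible complex character of N with Frobenius–Schur indicator +1 lies under exactly one irreducible character of G with Frobenius–Schur indicator +1. -/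
theorem result {G : Type*} [Group G] [Finite G] (N : Subgroup G) [N.Normal] (hodd : Odd N.index) (φ : Cfsg.IrrCharacter ↥N) (hφ : (Nat.card ↥N : ℂ)⁻¹ * ∑ᶠ g : ↥N, (φ : ↥N → ℂ) (g * g) = 1) : ∃! χ : Cfsg.IrrCharacter G, (Nat.card G : ℂ)⁻¹ * ∑ᶠ g : G, (χ : G → ℂ) (g * g) = 1 ∧ (∑ᶠ n : ↥N, (χ : G → ℂ) n * (starRingEnd ℂ) ((φ : ↥N → ℂ) n)) ≠ 0 := by
  have := Fintype.ofFinite G
  have := Fintype.ofFinite N
  simp only [finsum_eq_sum_of_fintype] at hφ ⊢
  have h0 : ∀ χ : IrrCharacter G, (∑ n : N, χ.1 n * conj (φ.1 n)) ≠ 0 ↔ Over N.subtype χ.1 φ.1 :=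
    fun χ => by
      rw [over_subtype_iff, classInner, mul_ne_zero_iff]
      simp [Nat.card_pos.ne']
  simp only [h0]
  change fs φ.1 = 1 at hφ
  obtain ⟨χ, h1, h2, h3⟩ := exists_unique_real hodd (real_of_fs φ.2 (hφ ▸ one_ne_zero))
  refine ⟨χ, ⟨?_, h1⟩, fun ψ h => h3 ψ h.2 (real_of_fs ψ.2 (by
    rw [show fs ψ.1 = 1 from h.1]; exact one_ne_zero))⟩
  have h4 := fs_eq_of_real hodd h2 h1
  obtain ⟨m, hm, -⟩ := (χ.2.isCharacter.comp N.subtype).exists_eq_sum_irr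
  rw [show classInner (fun n : N => χ.1 n) φ.1 = m φ from hm φ, hφ] at h4
  rcases fs_cases χ.2 with ⟨-, h5 | h5⟩ | ⟨h5, -⟩
  · exact h5
  · rw [h5] at h4
    have : (1 : ℤ) = -1 * m φ := by exact_mod_cast h4
    omega
  · exact absurd h2 h5

end Cfsg.Agent.S4873
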