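import Cfsg.Statements.S4886
import Mathlib
import Cfsg.Agent.H4.Nav
import Cfsg.Agent.H4.FongP

set_option autoImplicit false
open Cfsg

open CfsgH3 CfsgH4 CfsgH1 CfsgRg Function
open CfsgH2 hiding cj cj_apply isPGroup_pCore le_pCore isNilpotent_map card_mul_relIndex
open scoped CfsgH2 commutatorElement

namespace Cfsg.Agent.S4886

universe u
variable {p q : ℕ} [hp : Fact p.Prime] [hq : Fact q.Prime]

def Hy (p q : ℕ) (G : Type*) [Group G] : Prop := ∀ χ : G → ℂ, IsIrrCharacter G χ →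
  (∀ n ∈ pPrimeCore p G, χ n = χ 1) → ¬ p ∣ charDegree χ → ¬ q ∣ charDegree χ

def Cm (p q : ℕ) (G : Type*) [Group G] : Prop :=
  ∃ P Q : Subgroup G, Syl p P ⊤ ∧ Syl q Q ⊤ ∧ Q ≤ C[P]

section
variable {G : Type*} [Group G] [Finite G]

omit hp hq [Finite G] in
theorem Cm.symm (h : Cm p q G) : Cm q p G :=
  let ⟨P, Q, a, b, c⟩ := h; ⟨Q, P, b, a, Subgroup.le_centralizer_iff.1 c⟩

omit hp hq in
theorem Hy.quot (h : Hy p q G) (N : Subgroup G) [N.Normal] : Hy p q (G ⧸ N) := fun β a b c =>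
  h _ (irr_inflate a) (fun n hn => b _ (map_pPrimeCore_le p (QuotientGroup.mk'_surjective N)
    ⟨n, hn, rfl⟩)) c

theorem Cm.quot (h : Cm p q G) (N : Subgroup G) [N.Normal] : Cm p q (G ⧸ N) := by
  obtain ⟨P, Q, a, b, c⟩ := h
  have e := Subgroup.map_top_of_surjective _ (QuotientGroup.mk'_surjective N)
  refine ⟨_, _, e ▸ a.map (QuotientGroup.mk' N), e ▸ b.map (QuotientGroup.mk' N), ?_⟩
  rintro _ ⟨x, hx, rfl⟩ _ ⟨y, hy, rfl⟩
  rw [← map_mul, c hx y hy, map_mul]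

theorem Cm.nd (hpq : p ≠ q) (hs : IsPSolvable p G) (h : Cm p q (G ⧸ pPrimeCore p G)) :
    ¬ q ∣ (pPrimeCore p G).index := by
  obtain ⟨P, Q, a, b, c⟩ := h
  have a1 : Q ≤ pCore p _ := c.trans ((CfsgH2.cent_anti (a.le_of_norm (isPGroup_pCore p) le_top
    (le_top.trans (Subgroup.normalizer_eq_top _).ge))).trans
      (centralizer_pCore_le (IsPSolvable.quotient' hs _) (pPrimeCore_quotient_pPrimeCore p)))
  have a2 : Q = ⊥ := (inf_eq_left.2 a1).symm.trans
    (IsPGroup.disjoint_of_ne q p hpq.symm _ _ b.pg (isPGroup_pCore p)).eq_bot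
  have := b.nd
  rwa [a2, Subgroup.relIndex_top_right, Subgroup.index_bot] at this

theorem ex_pq (h : ¬ p ∣ (pPrimeCore q G).index) : ∃ P Q : Subgroup G,
    Syl p P (pPrimeCore q G) ∧ Syl p P ⊤ ∧ Syl q Q ⊤ ∧ Q ≤ N[P] := by
  have hn : ∀ H : Subgroup G, H ≤ N[pPrimeCore q G] := fun _ =>
    le_top.trans (Subgroup.normalizer_eq_top _).ge
  obtain ⟨P, a⟩ := exists_syl (p := p) (pPrimeCore q G)
  obtain ⟨Q, b⟩ := exists_syl (p := q) (⊤ ⊓ N[P])
  have := b.sup_coprime (.inl (hn _)) not_dvd_pPrimeCore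
  rw [sup_comm, a.frattini_sup le_top (hn _)] at this
  exact ⟨P, Q, a, a.trans le_top (by simpa using h), this, b.le.trans inf_le_right⟩

theorem cm_of_nd (h1 : ¬ q ∣ (pPrimeCore p G).index) (h2 : ¬ p ∣ (pPrimeCore q G).index) :
    Cm p q G := by
  obtain ⟨P, Q, -, a, b, c⟩ := ex_pq h2
  refine ⟨P, Q, a, b, Subgroup.commutator_eq_bot_iff_le_centralizer.1 (eq_bot_iff.2 ?_)⟩
  rw [← inf_eq_bot_of_coprime' (coprime_of_pgroup a.pg (not_dvd_pPrimeCore (G := G)))]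
  exact le_inf (comm_le_right c) ((Subgroup.commutator_mono (le_of_coprime_index
    (coprime_of_pgroup b.pg h1)) le_rfl).trans (Subgroup.commutator_le_left _ _))

theorem cm_of_bot (hs : IsPSolvable p G) (hs' : IsPSolvable q G) (h0 : pPrimeCore p G = ⊥)
    (h : Hy p q G) (h2 : ¬ p ∣ (pPrimeCore q G).index) : Cm p q G := by
  obtain ⟨P, Q, a0, a, b, c⟩ := ex_pq h2
  have h' : ∀ χ : G → ℂ, IsIrrCharacter G χ → ¬ p ∣ charDegree χ → ¬ q ∣ charDegree χ :=
    fun χ a1 => h χ a1 fun n hn => by rw [h0, Subgroup.mem_bot] at hn; rw [hn]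
  obtain ⟨Q, rfl⟩ := b.exists_top
  have h4 := ito_normal _ (G ⧸ pPrimeCore q G) rfl (IsPSolvable.quotient' hs' _)
    (fun β hβ => h' _ (irr_inflate hβ) fun e => h2 (e.trans (hβ.degree_dvd_card
      (coe_charDegree hβ.isCharacter).symm))) (Q.mapSurjective (QuotientGroup.mk'_surjective _))
  have h5 : ((Q : Subgroup G) ⊔ pPrimeCore q G).Normal := by
    have := h4.comap (QuotientGroup.mk' _)
    rwa [Sylow.coe_mapSurjective, Subgroup.comap_map_eq, QuotientGroup.ker_mk'] at this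
  refine ⟨P, Q, a, b, (nav _ G _ P Q rfl a0 (IsPSolvable.subgroup' hs _) b.pg not_dvd_pPrimeCore
    (le_top.trans (Subgroup.normalizer_eq_top _).ge) c fun θ hθ h6 x hx => ?_).trans
      (CfsgH2.cent_anti (le_inf a0.le Subgroup.le_normalizer))⟩
  have := Fintype.ofFinite G
  obtain ⟨χ, hχ, h7⟩ := hθ.exists_irr_over
  obtain ⟨b1, b2⟩ := deg_dvd_of_over hθ hχ h7
  have b3 : ¬ q ∣ (inertia θ).relIndex ⊤ := fun e => h' χ hχ
    (fun e => ((Nat.Prime.dvd_mul hp.out).1 (e.trans b2)).elim h2 h6)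
    ((Dvd.dvd.mul_right (by simpa using e) _).trans b1)
  obtain ⟨R, b4⟩ := exists_syl (p := q) (inertia θ)
  have b5 := b4.trans le_top b3
  have b6 : R ≤ (Q : Subgroup G) ⊔ pPrimeCore q G := le_of_coprime_index (coprime_of_pgroup b4.pg
    (by simpa using b.not_dvd_of_le le_sup_left))
  have hn : ∀ H : Subgroup G, H ≤ N[pPrimeCore q G] := fun _ =>
    le_top.trans (Subgroup.normalizer_eq_top _).ge
  have b7 : R ⊔ pPrimeCore q G = (Q : Subgroup G) ⊔ pPrimeCore q G := by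
    refine (qt_eq_qt (hn _) (hn _)).1 ((((b5.qt (hn _)).eq_of_le (isPGroup_qt b.pg) ?_
      (qt_mono le_top))).symm)
    exact (qt_le_qt (hn _) (hn _)).2 b6
  exact mem_aI_iff_cj.2 (mem_inertia.1 (sup_le b4.le (le_inertia hθ.isClassFunction)
    (b7 ▸ Subgroup.mem_sup_left hx)))

end

theorem main (hpq : p ≠ q) (n : ℕ) : ∀ (G : Type u) [Group G] [Finite G], Nat.card G = n →
    IsPSolvable p G → IsPSolvable q G → Hy p q G → Hy q p G → Cm p q G := by
  induction n using Nat.strong_induction_on with | _ n ih => ?_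
  intro G _ _ hn h1 h2 h3 h4
  have k : ∀ N : Subgroup G, ∀ [N.Normal], N ≠ ⊥ → Cm p q (G ⧸ N) := fun N _ h =>
    ih _ (hn ▸ card_quotient_lt h) _ rfl (IsPSolvable.quotient' h1 _)
      (IsPSolvable.quotient' h2 _) (h3.quot N) (h4.quot N)
  by_cases a : pPrimeCore p G = ⊥ <;> by_cases b : pPrimeCore q G = ⊥
  · have c := centralizer_pCore_le h1 a
    have d := eq_bot_iff.2 ((pCore_le_pPrimeCore hq.out hp.out hpq).trans b.le)
    rw [d, CfsgH2.cent_bot] at c
    exact ⟨⊥, ⊥, ⟨le_top, .of_bot, by simp [Subgroup.relIndex_eq_one.2 c, hp.out.ne_one]⟩,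
      ⟨le_top, .of_bot, by simp [Subgroup.relIndex_eq_one.2 c, hq.out.ne_one]⟩, bot_le⟩
  · exact cm_of_bot h1 h2 a h3 ((k _ b).symm.nd hpq.symm h2)
  · exact (cm_of_bot h2 h1 b h4 ((k _ a).nd hpq h1)).symm
  · exact cm_of_nd ((k _ a).nd hpq h1) ((k _ b).symm.nd hpq.symm h2)

theorem Cm.hy {G : Type*} [Group G] [Finite G] (hpq : p ≠ q) (hs : IsPSolvable p G)
    (h : Cm p q G) : Hy p q G := fun χ a b _ e =>
  (h.quot _).nd hpq hs (e.trans ((deg_dvd_index_ker a).trans (Subgroup.index_dvd_of_le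
    fun n hn => a.isCharacter.mem_charKer.2 (b n hn))))

theorem hy_iff {G : Type*} [Group G] [Finite G] {M : Ideal AlgInt} (hM : IsPModular p M)
    (hs : IsPSolvable p G) : (∀ χ : IrrCharacter G, χ ∈ principalBlock M G →
      ¬ p ∣ charDegree (χ : G → ℂ) → ¬ q ∣ charDegree (χ : G → ℂ)) ↔ Hy p q G :=
  haveI : PMod p M := ⟨hM⟩
  ⟨fun h χ a b => h ⟨χ, a⟩ ((mem_principal_iff_of_psolv hs).2 b),
    fun h χ a => h _ χ.2 ((mem_principal_iff_of_psolv hs).1 a)⟩

/-- Let p ≠ q be primes and G a finite group that is p-solvable and q-solvable. Fix maximal ideals of the algebraic integers containing p and q, defining the principal p-block and the principal q-block. Then every irreducible character of degree prime to p in the principal p-block has degree prime to q and every irreducible character of degree prime to q in the principal q-block has degree prime to p, if and only if some Sylow p-subgroup of G commutes elementwise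 with some Sylow q-subgroup. -/
theorem result {G : Type*} [Group G] [Finite G] (p q : ℕ) [Fact p.Prime] [Fact q.Prime] (hpq : p ≠ q) (Mp Mq : Ideal Cfsg.AlgInt) (hMp : Cfsg.IsPModular p Mp) (hMq : Cfsg.IsPModular q Mq) (hps : Cfsg.IsPSolvable p G) (hqs : Cfsg.IsPSolvable q G) : ((∀ χ : Cfsg.IrrCharacter G, χ ∈ Cfsg.principalBlock Mp G → ¬ p ∣ Cfsg.charDegree (χ : G → ℂ) → ¬ q ∣ Cfsg.charDegree (χ : G → ℂ)) ∧ (∀ χ : Cfsg.IrrCharacter G, χ ∈ Cfsg.principalBlock Mq G → ¬ q ∣ Cfsg.charDegree (χ : G → ℂ) → ¬ p ∣ Cfsg.charDegree (χ : G → ℂ))) ↔ ∃ (P : Sylow p G) (Q : Sylow q G), ∀ x ∈ (P : Subgroup G), ∀ y ∈ (Q : Subgroup G), x * y = y * x := by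
  rw [hy_iff hMp hps, hy_iff hMq hqs]
  refine ⟨fun h => ?_, fun ⟨P, Q, h⟩ => ?_⟩
  · obtain ⟨P, Q, a, b, c⟩ := main hpq _ G rfl hps hqs h.1 h.2
    obtain ⟨P, rfl⟩ := a.exists_top
    obtain ⟨Q, rfl⟩ := b.exists_top
    exact ⟨P, Q, fun x hx y hy => c hy x hx⟩
  · have : Cm p q G := ⟨P, Q, syl_top P, syl_top Q, fun y hy x hx => h x hx y hy⟩
    exact ⟨this.hy hpq hps, this.symm.hy hpq.symm hqs⟩

end Cfsg.Agent.S4886
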