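import Cfsg.Statements.S4889
import Mathlib
import Cfsg.Agent.H4.IB2

set_option autoImplicit false
open Cfsg

open Cfsg MonoidAlgebra CfsgH4 Module
open CfsgH3 hiding cj cj_cj
open scoped ComplexConjugate

namespace Cfsg.Agent.S4889

/-- Let G be a finite group, p a prime, M a maximal ideal of the algebraic integers containing p, and B a p-block of G that has an abelian defect group and in which every irreducible character has height zero. Then all irreducible characters of B have the same degree if and only if B is a nilpotent block. -/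
theorem result {G : Type*} [Group G] [Finite G] (p : ℕ) [Fact p.Prime] (M : Ideal Cfsg.AlgInt) (hM : Cfsg.IsPModular p M) (B : Set (Cfsg.IrrCharacter G)) (hB : Cfsg.IsPBlock M B) (D : Subgroup G) (hD : Cfsg.IsDefectGroup p M B D) (hDab : IsMulCommutative ↥D) (h0 : ∀ χ : Cfsg.IrrCharacter G, χ ∈ B → Cfsg.blockHeight p B (χ : G → ℂ) = 0) : (∃ d : ℕ, ∀ χ : Cfsg.IrrCharacter G, χ ∈ B → Cfsg.charDegree (χ : G → ℂ) = d) ↔ Cfsg.IsNilpotentBlock p M B := by
  haveI : PMod p M := ⟨hM⟩
  have hP : D ≤ Subgroup.centralizer (D : Set G) := fun x hx y hy =>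
    congrArg Subtype.val (hDab.is_comm.comm (⟨y, hy⟩ : D) ⟨x, hx⟩)
  refine ⟨fun ⟨d, hd⟩ => CfsgH4.Cfsg.IsDefectGroup.nil_of_deg hD hB hP hd, fun hn => ?_⟩
  obtain ⟨ψ, hψ⟩ := hB.nonempty
  refine ⟨charDegree ψ.1, fun χ hχ => ?_⟩
  have := congrFun ((CfsgH4.Cfsg.IsNilpotentBlock.unif hn hD hP).eq χ hχ ψ hψ) 1
  rw [rg_one, rg_one] at this
  exact charDegree_eq (by rw [this, coe_charDegree ψ.2.isCharacter])

end Cfsg.Agent.S4889
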