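import Cfsg.Statements.S4890
import Mathlib
import Cfsg.Agent.H4.IB2
import Cfsg.Agent.H4.Quo
import Cfsg.Agent.H4.Ch2
import Cfsg.Agent.H1.Frattini
import Cfsg.Agent.H1.Coprime

set_option autoImplicit false
open Cfsg

open Cfsg MonoidAlgebra CfsgL0 CfsgH1 CfsgH4 Module
open CfsgH3 hiding cj cj_cj
open scoped ComplexConjugate

namespace Cfsg.Agent.S4890

local notation "C[" Q "]" => Subgroup.centralizer (SetLike.coe (Q : Subgroup _))
local notation "N[" Q "]" => Subgroup.normalizer (SetLike.coe (Q : Subgroup _))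

section
variable {G : Type*} [Group G] [Finite G] {p : ℕ} [Fact p.Prime]

theorem fuse {F : Type*} [Field F] [CharP F p] {b e : F[G]} {P : Subgroup G} [hn : P.Normal]
    (hm : MaxPr p b P e) (Q : Subgroup G) : ∀ f, PLe p Q f P e → ∀ x ∈ stab N[Q] f,
      ∃ t ∈ stab N[P] e, ∀ y ∈ Q, x * y * x⁻¹ = t * y * t⁻¹ := by
  induction Q using up_ind with
  | h Q ih =>
  intro f h x hx
  have hP : ∀ z, cj z P = P := fun z => mem_normalizer_iff_cj.1 (by simp [Subgroup.normalizer_eq_top])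
  rcases h.le.eq_or_lt with rfl | hlt
  · exact ⟨x, h.eq_of_eq ▸ hx, fun _ _ => rfl⟩
  have hf := h.pr_left hm.pr
  have h1 := lt_inf_normalizer hm.pr.pgrp hlt
  obtain ⟨g, h2⟩ := hm.pr.exists_ple (inf_le_left : P ⊓ N[Q] ≤ P)
  have hR : ∀ z ∈ N[Q], cj z (P ⊓ N[Q]) = P ⊓ N[Q] := fun z hz => by
    rw [cj_inf, hP, cj_normalizer, mem_normalizer_iff_cj.1 hz]
  have h3 := (h.of_le hm.pr h2 h1.le).cnj x
  rw [mem_normalizer_iff_cj.1 hx.1, hx.2, hR x hx.1] at h3
  have h4 : P ⊓ N[Q] ⊔ C[Q] ≤ stab N[Q] f := sup_le (h.inf_le_stab hm.pr) hf.cent_le_stab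
  have h5 := h4.trans ((stab_le _ _).trans (norm_le_norm_cent Q))
  obtain ⟨D, hD⟩ := (hf.isBlk_cent le_sup_right ((inv_stab _ _).mono h4)).exists_isDef (p := p)
    le_sup_right h5
  obtain ⟨z, -, h6, -⟩ := hm.exists_cnj_isDef hf (hm.of_ple h).2 h4 hD
  have h7 : D ≤ P := by
    have := h6.le.trans inf_le_left
    rwa [cj_le_iff_le_cj, hP] at this
  obtain ⟨y, hy, h8⟩ := h.ext hm.pr le_sup_right h4 (h1.le.trans le_sup_left)
    (hm.isDef_of_card h h4 hD (Subgroup.card_le_of_le (le_inf h7 hD.le))) h3 le_sup_left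
  rw [hR y (h4 hy).1, cnj_cnj] at h8
  obtain ⟨t, ht, h9⟩ := ih _ h1 g h2 (y * x) ⟨mem_normalizer_iff_cj.2
    (hR _ (mul_mem (h4 hy).1 hx.1)), h8.unique hm.pr h2⟩
  obtain ⟨a, ha, c, hc, rfl⟩ := (fac_sup_of_le_normalizer' (le_sup_left.trans h5)).2.2 y hy
  refine ⟨a⁻¹ * t, mul_mem (inv_mem (hm.pr.le_stab ha.1)) ht, fun u hu => ?_⟩
  have h10 := mem_cent_iff_conj.1 hc _ (CfsgL0.conj_mem_of_mem_normalizer hx.1 hu)
  calc x * u * x⁻¹ = a⁻¹ * (a * c * x * u * (a * c * x)⁻¹) * a := by rw [← h10]; group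
    _ = _ := by rw [h9 u (h1.le hu)]; group

theorem nil_of {F : Type*} [Field F] [CharP F p] {b e : F[G]} {P : Subgroup G} [P.Normal]
    (hm : MaxPr p b P e) (h : ∀ t ∈ stab N[P] e, ¬ p ∣ orderOf t → t ∈ C[P]) : Nil p b := by
  intro Q f h1 h2 x hx hr
  obtain ⟨z, hz⟩ := hm.exists_cnj_ple h1 h2
  have h3 : z * x * z⁻¹ ∈ stab N[cj z Q] (cnj z f) := by
    rwa [← cj_normalizer, ← cj_stab, conj_mem_cj]
  obtain ⟨u, hu, h4⟩ := fuse hm _ _ hz _ h3
  obtain ⟨k, hk⟩ := exists_pow_reg p u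
  rw [← conj_mem_cj (g := z), cj_centralizer]
  refine mem_of_pow_pow_mem (p := p) (k := k) (by rwa [← MulAut.conj_apply, MulEquiv.orderOf_eq])
    (mem_cent_iff_conj.2 fun y hy => ?_)
  rw [conj_pow_eq h3.1 h4 _ y hy, mem_cent_iff_conj.1 (h _ (pow_mem hu _) hk) y (hz.le hy)]

theorem cent_of {D : Subgroup G} [D.Normal] (hD : IsPGroup p D) {x : G} (hx : ¬ p ∣ orderOf x)
    (h : (x : G ⧸ ⁅D, D⁆) ∈ C[D.map (QuotientGroup.mk' ⁅D, D⁆)]) : x ∈ C[D] := by
  have := hD.isNilpotent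
  refine coprime_le_centralizer_of_frattini (A := Subgroup.zpowers x)
    (by simp [Subgroup.normalizer_eq_top]) ?_ (le_trans ?_ (commutator_le_frattiniOf D))
    (Subgroup.mem_zpowers x)
  · obtain ⟨k, hk⟩ := (hD.to_subgroup (frattini D)).exists_card_eq
    rw [hk, Nat.card_zpowers]
    exact ((Nat.Prime.coprime_iff_not_dvd Fact.out).2 hx).symm.pow_right _
  · have h1 : Subgroup.zpowers x ≤ (C[D.map (QuotientGroup.mk' ⁅D, D⁆)]).comap
        (QuotientGroup.mk' ⁅D, D⁆) := Subgroup.zpowers_le.2 h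
    refine Subgroup.commutator_le.2 fun a ha y hy => ?_
    rw [← QuotientGroup.eq_one_iff, ← QuotientGroup.mk'_apply, map_commutatorElement,
      commutatorElement_eq_one_iff_mul_comm]
    exact h1 hy _ ⟨a, ha, rfl⟩

end

/-- Let G be a finite group, p a prime, M a maximal ideal of the algebraic integers containing p, and B a p-block of G with a defect group that is normal in G. Then all height-zero irreducible characters of B have the same degree if and only if B is a nilpotent block. -/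
theorem result {G : Type*} [Group G] [Finite G] (p : ℕ) [Fact p.Prime] (M : Ideal Cfsg.AlgInt) (hM : Cfsg.IsPModular p M) (B : Set (Cfsg.IrrCharacter G)) (hB : Cfsg.IsPBlock M B) (D : Subgroup G) (hD : Cfsg.IsDefectGroup p M B D) (hDn : D.Normal) : (∃ d : ℕ, ∀ χ : Cfsg.IrrCharacter G, χ ∈ B → Cfsg.blockHeight p B (χ : G → ℂ) = 0 → Cfsg.charDegree (χ : G → ℂ) = d) ↔ Cfsg.IsNilpotentBlock p M B := by
  haveI : PMod p M := ⟨hM⟩
  have hp : p.Prime := Fact.out
  have hDp := (hB.isDefectGroup_iff.1 hD).pgrp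
  refine ⟨fun ⟨d, hd⟩ => ?_, fun hn => ?_⟩
  · set φ := QuotientGroup.mk' ⁅D, D⁆
    have hφ : Function.Surjective φ := QuotientGroup.mk'_surjective _
    have h1 : ⁅D, D⁆ ≤ D := Subgroup.commutator_le_left _ _
    have hk : φ.ker = ⁅D, D⁆ := QuotientGroup.ker_mk' _
    obtain ⟨B', hB', h2, hD'⟩ := exists_dom_defect hφ (hDp.to_le (hk.le.trans h1)) hB hD
    have h3 : D.map φ ≤ C[D.map φ] := by
      rintro _ ⟨a, ha, rfl⟩ _ ⟨b, hb, rfl⟩
      rw [← commutatorElement_eq_one_iff_mul_comm, ← map_commutatorElement, ← MonoidHom.mem_ker, hk]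
      exact Subgroup.commutator_mem_commutator hb ha
    have := hDn.map φ hφ
    obtain ⟨e', hm'⟩ := exists_maxPr hB'.isBlk (hB'.isDefectGroup_iff.1 hD')
    have h4 := hm'.stab_le_of_deg hB' h3 (d := d) fun χ hχ => by
      rw [← charDegree_irrComp hφ]
      refine hd _ (h2 hχ) ?_
      have a1 := fact_degree_add (p := p) (B := B) (χ := irrComp φ hφ χ) (h2 hχ)
      have a2 := (Nat.factorization_le_iff_dvd (irr_deg_pos χ).ne' Subgroup.index_ne_zero_of_finite).2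
        (deg_dvd_index_ab χ.2 (D.map φ) fun a ha b hb => (h3 hb a ha)) p
      rw [Subgroup.index_map_eq _ hφ (hk.le.trans h1)] at a2
      rw [charDegree_irrComp, ← D.index_mul_card, Nat.factorization_mul
        Subgroup.index_ne_zero_of_finite Nat.card_pos.ne', Finsupp.add_apply,
        CfsgH4.Cfsg.IsDefectGroup.fact_card hB hD] at a1
      omega
    obtain ⟨β', hβ', rfl⟩ := hm'.pr.exists_eq
    set K := (C[D.map φ]).comap φ
    have hψ := φ.subgroupComap_surjective_of_surjective C[D.map φ] hφ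
    obtain ⟨β, hβ, h5⟩ := CfsgH4.Cfsg.IsPBlock.exists_dom (H := K) hψ hβ'
    have hk' : ∀ x : K, x ∈ (φ.subgroupComap C[D.map φ]).ker → (x : G) ∈ D := fun x hx =>
      h1 (hk ▸ congrArg Subtype.val (MonoidHom.mem_ker.1 hx))
    have h6 := CfsgH4.Cfsg.IsPBlock.comap_of_pker hψ (hDp.comap_subtype.to_le hk') (fun x hx y hy => Subtype.ext
        (cent_of hDp (by simpa using hx) x.2 _ (hk' y hy))) hβ
    obtain ⟨χ, hχ⟩ := hβ'.nonempty
    obtain rfl := hβ'.eq_of_mem h6 hχ (h5 hχ)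
    have h7 : inc φ (ie M K β) = ie M _ (irrComp _ hψ ⁻¹' β) := by
      rw [ie, ie, eB_comap hψ hβ.fB_mem, inc_inc, inc_inc]; rfl
    have hCK : C[D] ≤ K := by
      rintro x hx _ ⟨a, ha, rfl⟩
      rw [← map_mul, ← map_mul, hx a ha]
    have hDK : D ≤ K := fun x hx => h3 ⟨x, hx, rfl⟩
    have hN : ∀ L : Subgroup G, L ≤ N[D] := fun L => by simp [Subgroup.normalizer_eq_top]
    have hb := hβ.isBlk_ie
    have h8 := br_eq_self_of_idem hDp hDK (hN _) hb.mem hb.idem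
    obtain ⟨e, he, h9⟩ := exists_pr_of_br_ne hDp (hb.inv.mono hDK) (hb.inv.mono hCK) hb.idem
      (h8.symm ▸ hb.ne)
    rw [h8] at h9
    have h10 := br_eq_self_of_idem hDp le_top (hN _) hB.isBlk.mem hB.isBlk.idem
    have h11 : eB M B * ie M K β = ie M K β := hb.mul_eq_of_ne ⟨(supp_centralizer_of_idem hDp le_top
      (hN _) hB.isBlk.mem hB.isBlk.idem).mono hCK, hB.isBlk.inv.top⟩ hB.isBlk.idem fun h0 => by
        have a1 := congrArg (inc φ) h0
        have a2 := hm'.mul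
        rw [br_eq_self_of_idem hm'.pr.pgrp le_top (Subgroup.normalizer_eq_top _).ge
          hB'.isBlk.mem hB'.isBlk.idem] at a2
        rw [map_mul, h7, ← a2, ← mul_assoc, inc_eB_mul_of_subset hφ hB'.fB_mem hB.fB_mem h2, a2,
          map_zero] at a1
        exact hm'.pr.blk.ne a1
    refine isNilpotentBlock_iff.2 ⟨hB, nil_of ⟨hB.isBlk, he, by
      rw [h10, ← h9, ← mul_assoc, h11], hB.isDefectGroup_iff.1 hD⟩ fun t ht hr =>
        cent_of hDp hr (h4 ⟨(Subgroup.normalizer_eq_top _).ge trivial, ?_⟩)⟩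
    have hK : t ∈ N[K] := by simp [Subgroup.normalizer_eq_top]
    have h12 := (hb.cnj_of_norm hK hK).eq_of_mul_ne le_rfl hb fun h0 => he.blk.ne (by
      have a1 := congrArg (cnj t) h9
      rw [map_mul, ht.2] at a1
      rw [← a1, ← h9, ← mul_assoc, h0, zero_mul])
    rw [← h7]
    exact (cnj_inc φ t _).trans (congrArg _ h12)
  · obtain ⟨χ, hχ, h0⟩ := exists_height_zero (p := p) hB.nonempty
    obtain ⟨Φ, h⟩ := CfsgH4.Cfsg.IsNilpotentBlock.structure hn hD hχ h0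
    refine ⟨charDegree χ.1, fun ψ hψ h1 => ?_⟩
    obtain ⟨η, hη⟩ := Φ.surjective ⟨ψ, hψ⟩
    obtain ⟨-, h2, h3⟩ := h η
    rw [hη] at h2 h3
    obtain ⟨k, hk⟩ := hDp.exists_card_eq
    obtain ⟨j, -, hj⟩ := (Nat.dvd_prime_pow hp).1 (hk ▸ η.2.degree_dvd_card
      (coe_charDegree η.2.isCharacter).symm)
    rw [hj, hp.factorization_pow, h1] at h3
    simp at h3
    simp [h2, hj, ← h3]

end Cfsg.Agent.S4890
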