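import Cfsg.Statements.S4892
import Mathlib
import Cfsg.Agent.H4.Dade
import Cfsg.Agent.H4.Gal3
import Cfsg.Agent.H4.Rob

set_option autoImplicit false
open Cfsg

open Cfsg MonoidAlgebra CfsgL0 CfsgH1 CfsgH4 Function
open CfsgH3 hiding cj_cj
open scoped ComplexConjugate

namespace Cfsg.Agent.S4892

local notation "C[" Q "]" => Subgroup.centralizer (SetLike.coe (Q : Subgroup _))
local notation "C1[" x "]" => Subgroup.centralizer ({x} : Set _)

theorem mem_adjoin_of_fixed {α ζ : ℂ} (hα : IsIntegral ℚ α)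
    (h : ∀ σ : ℂ ≃+* ℂ, σ ζ = ζ → σ α = α) : α ∈ IntermediateField.adjoin ℚ {ζ} := by
  by_contra hc
  set F := IntermediateField.adjoin ℚ {ζ}
  have h1 : α ∉ (⊥ : Subalgebra F ℂ) := by
    rw [Algebra.mem_bot]
    rintro ⟨q, rfl⟩
    exact hc q.2
  have h0 : IsIntegral F α := hα.tower_top
  obtain ⟨β, hy, h2⟩ := (notMem_iff_exists_ne_and_isConjRoot
    (minpoly.irreducible h0).separable (IsAlgClosed.splits _)).1 h1
  let K := algebraicClosure F ℂ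
  let a : K := ⟨α, mem_algebraicClosure_iff'.2 h0⟩
  let b : K := ⟨β, mem_algebraicClosure_iff'.2 (h2.isIntegral h0)⟩
  have h3 : @IsConjRoot F K _ _ K.algebra' b a := (isConjRoot_algHom_iff K.val).1 h2.symm
  have hN : @Normal F K _ _ K.algebra' :=
    @IsAlgClosure.normal F K _ _ K.algebra' (algebraicClosure.isAlgClosure F ℂ)
  obtain ⟨τ, hτ⟩ := @IsConjRoot.exists_algEquiv F K _ _ K.algebra' hN _ _ h3
  obtain ⟨σ, hσ⟩ := exists_ringEquiv_extend (K.restrictScalars ℚ) τ.toRingEquiv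
  let z : F := ⟨ζ, IntermediateField.mem_adjoin_simple_self ℚ ζ⟩
  exact hy ((h σ ((hσ (algebraMap F K z)).trans (congrArg Subtype.val (τ.commutes z)))).symm.trans
    ((hσ a).trans (congrArg Subtype.val hτ)))

theorem fix_of_mem {α ζ : ℂ} {σ : ℂ ≃+* ℂ} (h : σ ζ = ζ) (hα : α ∈ IntermediateField.adjoin ℚ {ζ}) :
    σ α = α :=
  IntermediateField.adjoin_induction ℚ (p := fun x _ => σ x = x) (fun _ hx => Set.mem_singleton_iff.1 hx ▸ h)
    (fun q => by simp) (fun x y _ _ a b => by rw [map_add, a, b]) (fun x _ a => by rw [map_inv₀, a])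
    (fun x y _ _ a b => by rw [map_mul, a, b]) hα

variable {G H : Type*} [Group G] [Group H] [Finite G] [Finite H] {M : Ideal AlgInt} {p : ℕ}

theorem om_csum_mul {χ : G → ℂ} (hχ : IsClassFunction G χ) (h1 : χ 1 ≠ 0) (K : Subgroup G) (g : G) :
    om χ (csum ℂ K g) * χ 1 = (C1[g]).relIndex K * χ g := by
  have := Fintype.ofFinite G
  rw [← om_one_csum, om_def, om_def, div_mul_cancel₀ _ h1, div_one, ev_eq_sum, ev_eq_sum,
    Finset.sum_mul]
  refine Finset.sum_congr rfl fun x _ => ?_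
  by_cases h : (csum ℂ K g).coeff x = 0
  · simp [h]
  · obtain ⟨k, -, rfl⟩ := exists_of_coeff_csum_ne h
    rw [hχ, mul_one]

theorem lin_mem [M.IsMaximal] (l : G →* ℂˣ) (x : G) : (l x : ℂ) ∈ Loc M :=
  char_mem_Loc (isIrr_of_unitsHom l).isCharacter x

theorem lin_eq [PMod p M] {l μ : G →* ℂˣ} {r : ℕ} (hr : ¬ p ∣ r) (h1 : ∀ g, l g ^ r = 1)
    (h2 : ∀ g, μ g ^ r = 1) {x y : G} (h : red M (l x) = red M (μ y)) : l x = μ y :=
  Units.ext (eq_of_red_eq hr (by rw [← Units.val_pow_eq_pow_val, h1, Units.val_one])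
    (by rw [← Units.val_pow_eq_pow_val, h2, Units.val_one]) h)

theorem key [Fact p.Prime] [PMod p M] {i : H →* G} (hi : Injective i) [hn : i.range.Normal] {τ : G → ℂ}
    (hτ : IsCharacter G τ) {θ : IrrCharacter H} (hθ : θ ∈ principalBlock M H)
    (hres : ∀ h, τ (i h) = θ.1 h) {C : Subgroup G} (hC : ∀ c ∈ C, ¬ p ∣ (C1[c]).relIndex i.range)
    (hs : ∀ g, ∃ c ∈ C, (c : G ⧸ i.range) = g) (h0 : red M (τ 1) ≠ 0) :
    ∃ μ : G →* ℂˣ, ¬ p ∣ orderOf μ ∧ (∀ h, μ (i h) = 1) ∧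
      (∀ c ∈ C, red M (τ c) = red M (μ c) * red M (τ 1)) ∧
      ((∀ c ∈ C, red M (τ c) = red M (τ 1)) → ∃ ξ ∈ principalBlock M G, ξ.1 = τ) := by
  obtain ⟨μ, h1, h2, h3⟩ := dade_key hi hτ hθ hres hC hs
  have h7 : IsIrrCharacter H fun n => τ (i n) := by rw [funext hres]; exact θ.2
  have h8 : τ 1 ≠ 0 := fun e => h0 (e ▸ red_zero)
  have h4 : ∀ c ∈ C, red M (τ c) = red M (μ c) * red M (τ 1) := fun c hc => by
    have := congrArg (red M) (om_csum_mul hτ.isClassFunction h8 i.range c)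
    rw [red_mul (om_csum_mem hτ h7 c) (char_mem_Loc hτ _), h3,
      red_mul (natCast_mem _ _) (char_mem_Loc hτ _), red_natCast] at this
    exact mul_left_cancel₀ (natCast_res_ne (hC c hc)) (by rw [← this]; ring)
  refine ⟨μ, h1, h2, h4, fun h => ?_⟩
  have h5 : ∀ g, μ g = 1 := fun g => by
    obtain ⟨c, hc, e⟩ := hs g
    obtain ⟨n, hn⟩ := QuotientGroup.eq.1 e
    rw [← mul_inv_cancel_left c g, ← hn, map_mul, h2, mul_one]
    refine lin_eq (M := M) (μ := 1) (y := 1) h1 (lin_pow_orderOf μ) (by simp) ?_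
    have := h4 c hc
    rw [h c hc, eq_comm, mul_eq_right₀ h0] at this
    simp [this, red_one]
  have := Fintype.ofFinite G
  refine ⟨⟨τ, hτ.isIrr_of_restrict i.range
    ((isIrr_comp_equiv_iff (MonoidHom.ofInjective hi)).1 h7)⟩, fun g => ?_, rfl⟩
  rw [← om_csum isIrr_one.isClassFunction, ← om_csum hτ.isClassFunction]
  refine InP_of_csum (M := M) (K := i.range) (om (fun _ => 1) - om τ) ((inv_csum _ _).mono le_top)
    (csum_mem_LG _ _) fun x => ?_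
  rw [LinearMap.sub_apply, om_one_csum, ← red_eq_iff (natCast_mem _ _) (om_csum_mem hτ h7 x), h3,
    h5, red_natCast]
  simp [red_one]

theorem key2 [Fact p.Prime] [PMod p M] {N P : Subgroup G} [N.Normal] (hP : IsSylowIn p P N) {π : H →* G}
    (hs : Surjective π) {i : N →* H} (hi : ∀ n, π (i n) = n)
    (hcj : ∀ h n, h * i n * h⁻¹ = i (MulAut.conjNormal (π h) n)) {τ : H → ℂ} (hτ : IsCharacter H τ)
    {θ : IrrCharacter N} (hθ : θ ∈ principalBlock M N) (hres : ∀ n, τ (i n) = θ.1 n)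
    (h0 : red M (τ 1) ≠ 0) {V : Subgroup H} (hV : ∀ x, x ∈ V ↔ π x ∈ N ⊔ C[P]) :
    ∃ μ : V →* ℂˣ, ¬ p ∣ orderOf μ ∧ (∀ n hn, μ ⟨i n, hn⟩ = 1) ∧
      (∀ c : V, π c ∈ C[P] → red M (τ c) = red M (μ c) * red M (τ 1)) ∧
      ((∀ c, π c ∈ C[P] → red M (τ c) = red M (τ 1)) →
        ∃ ξ ∈ principalBlock M V, ξ.1 = fun x : V => τ x) := by
  let j : N →* V := i.codRestrict V fun n => (hV _).2 (hi n ▸ Subgroup.mem_sup_left n.2)
  have hj : Injective j := fun a b e => Subtype.ext (by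
    rw [← hi, ← hi]; exact congrArg (fun x : V => π x) e)
  haveI : j.range.Normal := ⟨by
    rintro _ ⟨n, rfl⟩ g
    exact ⟨_, Subtype.ext (hcj g n).symm⟩⟩
  have hS : IsSylowIn p ((P.subgroupOf N).map j) j.range := by
    have := (hP.subgroupOf le_rfl).map j
    rwa [Subgroup.subgroupOf_self, ← MonoidHom.range_eq_map] at this
  obtain ⟨μ, h1, h2, h3, h4⟩ := key hj (hτ.restrict V) hθ hres (C := (C[P]).comap (π.comp V.subtype))
    (fun c hc => not_dvd_relIndex_of_cent hS (by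
      rintro _ ⟨u, hu, rfl⟩
      rw [eq_comm, ← mul_inv_eq_iff_eq_mul]
      exact Subtype.ext ((hcj c u).trans
        (congrArg i (Subtype.ext (mul_inv_eq_iff_eq_mul.2 (hc _ hu).symm)))))) (fun g => by
      obtain ⟨g, rfl⟩ := QuotientGroup.mk_surjective g
      obtain ⟨n, hn, c, hc, e⟩ := mem_sup_normal_left.1 ((hV _).1 g.2)
      refine ⟨(j ⟨n, hn⟩)⁻¹ * g, ?_, ?_⟩
      · change π ((i ⟨n, hn⟩)⁻¹ * g) ∈ C[P]
        rw [map_mul, map_inv, hi, e]; simpa using hc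
      · rw [QuotientGroup.mk_mul, (QuotientGroup.eq_one_iff (N := j.range) _).2
          (inv_mem ⟨_, rfl⟩), one_mul]) h0
  exact ⟨μ, h1, fun n _ => h2 n, h3, fun h => h4 fun c hc => h c hc⟩

theorem uniq [Fact p.Prime] [PMod p M] {N P : Subgroup G} [N.Normal] [(N ⊔ C[P]).Normal] {a : ℕ}
    (ha : (N ⊔ C[P]).index = p ^ a) {θ : IrrCharacter N} (hd : ¬ p ∣ charDegree θ.1)
    {χ ψ : IrrCharacter G} (h1 : ∀ n : N, χ.1 n = θ.1 n) (h2 : ∀ n : N, ψ.1 n = θ.1 n)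
    (h3 : ∀ c ∈ C[P], red M (χ.1 c) = red M (χ.1 1)) (h4 : ∀ c ∈ C[P], red M (ψ.1 c) = red M (ψ.1 1))
    {r : ℕ} (hr : ¬ p ∣ r) (h5 : ∀ g, dt χ.1 g ^ r = 1) (h6 : ∀ g, dt ψ.1 g ^ r = 1) : ψ = χ := by
  obtain ⟨l, h7, h8⟩ := exists_lin_of_ext θ.2 χ.2 ψ.2 h1 h2
  have h0 : χ.1 1 = charDegree θ.1 := (h1 1).trans (coe_charDegree θ.2.isCharacter).symm
  have hp := PMod.prime M (p := p)
  have h9 : ¬ p ∣ charDegree θ.1 * r := fun e => (hp.dvd_mul.1 e).elim hd hr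
  have h10 : ∀ g, l g ^ (charDegree θ.1 * r) = 1 := fun g => by
    have := h6 g
    rwa [h8, dt_mul_lin χ.2.isCharacter h0, mul_pow, h5, mul_one, ← pow_mul] at this
  have h11 : N ⊔ C[P] ≤ l.ker := sup_le h7 fun c hc => by
    refine lin_eq (M := M) (μ := 1) (y := 1) h9 h10 (by simp) ?_
    have := h4 c hc
    simp only [h8, map_one, Units.val_one, one_mul] at this
    rw [red_mul (lin_mem _ _) (char_mem_Loc χ.2.isCharacter _), h3 c hc, h0, red_natCast,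
      mul_eq_right₀ (natCast_res_ne hd)] at this
    simp [this, red_one]
  refine Subtype.ext (h8.trans (funext fun g => ?_))
  rw [(pow_eq_one_iff_of_coprime ((hp.coprime_iff_not_dvd.2 h9).pow_left a)).1
    ⟨ha ▸ lin_pow_index h11 g, h10 g⟩, Units.val_one, one_mul]

theorem frat [Fact p.Prime] {N P : Subgroup G} [N.Normal] (hP : IsSylowIn p P N) (g : G) :
    ∃ n ∈ N, ∃ t : G, g = n * t ∧ ∀ c ∈ C[P], t * c * t⁻¹ ∈ C[P] := by
  obtain ⟨n, hn, t, ht, e⟩ := hP.frattini (Subgroup.le_normalizer_of_normal (Subgroup.mem_top g))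
  refine ⟨n, hn, t, e, fun c hc u hu => ?_⟩
  have := hc _ ((Subgroup.mem_normalizer_iff''.1 ht u).1 hu)
  calc u * (t * c * t⁻¹) = t * (t⁻¹ * u * t * c) * t⁻¹ := by group
    _ = _ := by rw [this]; group

theorem nrm [Fact p.Prime] {N P : Subgroup G} [N.Normal] (hP : IsSylowIn p P N) :
    (N ⊔ C[P]).Normal := ⟨fun x hx g => by
  obtain ⟨n, hn, t, rfl, ht⟩ := frat hP g
  obtain ⟨k, hk, c, hc, rfl⟩ := mem_sup_normal_left.1 hx
  rw [show n * t * (k * c) * (n * t)⁻¹ = n * (t * k * t⁻¹) * (t * c * t⁻¹) * n⁻¹ by group]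
  exact mul_mem (Subgroup.mul_mem_sup (mul_mem hn (Subgroup.Normal.conj_mem ‹_› _ hk t)) (ht c hc))
    (Subgroup.mem_sup_left (inv_mem hn))⟩

theorem ord_dt {N : Type*} [Group N] [Finite N] (hp' : p.Prime) (hp : p ≠ 2) {θ : IrrCharacter N}
    {m : ℕ} (hm : ¬ p ∣ m) {ζ : ℂ} (hz : ζ ^ m = 1)
    (hrat : ∀ n, θ.1 n ∈ IntermediateField.adjoin ℚ ({ζ} : Set ℂ)) : ¬ p ∣ orderOf (dt θ.1) := by
  intro e
  have hm0 : m ≠ 0 := fun e => hm (e ▸ dvd_zero p)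
  obtain ⟨c, r, hr, hc⟩ := Nat.exists_eq_pow_mul_and_not_dvd
    (mul_ne_zero hm0 (Nat.card_pos (α := N)).ne') p hp'.ne_one
  have h1 := hp'.coprime_iff_not_dvd.2 hr
  obtain ⟨k, h2, h3⟩ := Nat.chineseRemainder h1 2 1
  have h4 : k.Coprime (m * Nat.card N) := by
    rw [hc]
    refine Nat.Coprime.mul_right (Nat.Coprime.pow_right _ ?_) ?_
    · rw [Nat.Coprime, h2.gcd_eq]; exact (Nat.coprime_primes Nat.prime_two hp').2 hp.symm
    · rw [Nat.Coprime, h3.gcd_eq]; exact Nat.gcd_one_left _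
  obtain ⟨σ, hσ⟩ := exists_ringEquiv_pow (mul_ne_zero hm0 Nat.card_pos.ne') h4
  have h5 : m ∣ r := ((hp'.coprime_iff_not_dvd.2 hm).symm.pow_right c).dvd_of_dvd_mul_left
    (by rw [← hc]; exact dvd_mul_right _ _)
  have h6 : (fun n => θ.1 (n ^ k)) = θ.1 := funext fun n => by
    refine (θ.2.isCharacter.map_apply_eq_pow σ.toRingHom hσ
      ((orderOf_dvd_natCard n).mul_left m)).symm.trans (fix_of_mem ?_ (hrat n))
    rw [hσ ζ (by rw [pow_mul, hz, one_pow]), pow_eq_pow_mod k hz,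
      show k % m = 1 % m from h3.of_dvd h5, ← pow_eq_pow_mod 1 hz, pow_one]
  rcases k with _ | k
  · exact hp ((Nat.prime_dvd_prime_iff_eq hp' Nat.prime_two).1
      ((Nat.modEq_zero_iff_dvd).1 h2.symm))
  have h7 : p ∣ k := e.trans (orderOf_lin_dvd.2 fun n => by
    have := dt_comp_pow θ.2.isCharacter (h4.coprime_dvd_right (dvd_mul_left (Nat.card N) m)) n
    rw [h6, pow_succ] at this
    exact right_eq_mul.1 this)
  have h9 : p ∣ 1 := (Nat.ModEq.dvd_iff (Nat.ModEq.add_right_cancel' 1 h2) dvd_rfl).1 h7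
  exact hp'.one_lt.ne' (Nat.dvd_one.1 h9)

theorem main [hp : Fact p.Prime] [PMod p M] {N P : Subgroup G} [N.Normal] (hP : IsSylowIn p P N)
    {a : ℕ} (ha : (N ⊔ C[P]).index = p ^ a) {θ : IrrCharacter N} (hdeg : ¬ p ∣ charDegree θ.1)
    (hB : θ ∈ principalBlock M N) (hi : ∀ g : G, CfsgH3.cj g θ.1 = θ.1)
    (ho : ¬ p ∣ orderOf (dt θ.1)) : ∃ χ r, IsIrrCharacter G χ ∧ (∀ n : N, χ n = θ.1 n) ∧
      (∀ c ∈ C[P], red M (χ c) = red M (χ 1)) ∧ ¬ p ∣ r ∧ ∀ g, dt χ g ^ r = 1 := by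
  have hp' := hp.out
  haveI := nrm hP
  have hd := (coe_charDegree θ.2.isCharacter).symm
  obtain ⟨H, _, _, π, i, τ, lam, ht, hdt⟩ := exists_ct θ.2 hi hd (orderOf_pos (dt θ.1)).ne' 1
    fun n => (lin_pow_orderOf _ n).symm
  have h0 : red M (θ.1 1) ≠ 0 := by rw [hd, red_natCast]; exact natCast_res_ne hdeg
  obtain ⟨μ, h1, h2, h3, -⟩ := key2 hP ht.surj ht.pi_i ht.hcj ht.chr hB ht.res (ht.one ▸ h0)
    (V := (N ⊔ C[P]).comap π) fun _ => Iff.rfl
  have hV := ht.range_le (le_sup_left : N ≤ N ⊔ C[P])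
  obtain ⟨ν, h4, h5⟩ := exists_lin_ext_of_coprime (l := μ) (fun g x => by
    obtain ⟨n, hn, t, e, ht'⟩ := frat hP (π g)
    obtain ⟨k, hk, c, hc, e'⟩ := mem_sup_normal_left.1 x.2
    obtain ⟨s, rfl, rfl⟩ : ∃ s, g = i ⟨n, hn⟩ * s ∧ π s = t := ⟨(i ⟨n, hn⟩)⁻¹ * g, by group, by
      rw [map_mul, map_inv, ht.pi_i, e]; group⟩
    obtain ⟨y, h6, rfl⟩ : ∃ y, x.1 = i ⟨k, hk⟩ * y ∧ π y = c := ⟨(i ⟨k, hk⟩)⁻¹ * x, by group, by
      rw [map_mul, map_inv, ht.pi_i, e']; group⟩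
    have h7 : π (s * y * s⁻¹) ∈ C[P] := by rw [map_mul, map_mul, map_inv]; exact ht' _ hc
    have h8 : μ ⟨s * y * s⁻¹, Subgroup.mem_sup_right h7⟩ = μ ⟨y, Subgroup.mem_sup_right hc⟩ :=
      lin_eq (M := M) h1 (lin_pow_orderOf μ) (lin_pow_orderOf μ) (mul_right_cancel₀ (ht.one ▸ h0) (by
        rw [← h3 _ h7, ← h3 _ hc]; exact congrArg _ (ht.chr.isClassFunction y s)))
    rw [show (⟨_, _⟩ : (N ⊔ C[P]).comap π) = ⟨_, hV ⟨⟨n, hn⟩, rfl⟩⟩ * ⟨_, hV ⟨MulAut.conjNormal (π s)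
      ⟨k, hk⟩, rfl⟩⟩ * ⟨s * y * s⁻¹, Subgroup.mem_sup_right h7⟩ * ⟨_, hV ⟨⟨n, hn⟩, rfl⟩⟩⁻¹ from
      Subtype.ext (by simp only [Subgroup.coe_mul, Subgroup.coe_inv, h6, ← ht.hcj]; group),
      show x = ⟨_, hV ⟨⟨k, hk⟩, rfl⟩⟩ * ⟨y, Subgroup.mem_sup_right hc⟩ from Subtype.ext h6]
    simp only [map_mul, map_inv, h2, h8, one_mul, inv_one, mul_one]) (by
      rw [ht.index_comap, ha]; exact (hp'.coprime_iff_not_dvd.2 h1).pow_left _)
  have h6 : ∀ z : π.ker, lam z = ν z := fun z => by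
    have h7 := h3 ⟨z, CT.ker_le z.2⟩ (MonoidHom.mem_ker.1 z.2 ▸ one_mem _)
    rw [ht.scal, red_mul (lin_mem _ _) (char_mem_Loc ht.chr _), mul_left_inj' (ht.one ▸ h0),
      ← h4] at h7
    refine lin_eq (M := M) (μ := ν.comp π.ker.subtype) (r := charDegree θ.1 * orderOf (dt θ.1) *
      orderOf ν) (fun e => ?_) (fun g => by rw [pow_mul, ht.exp, one_pow])
      (fun g => by rw [pow_mul', MonoidHom.comp_apply, lin_pow_orderOf, one_pow]) h7
    rcases hp'.dvd_mul.1 e with e | e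
    exacts [(hp'.dvd_mul.1 e).elim hdeg ho, h1 (h5 ▸ e)]
  obtain ⟨χ, -, h7, h8, h9⟩ := ht.exists_chi (isIrr_of_unitsHom ν⁻¹).isCharacter
    (fun n => by simp [(h4 ⟨_, hV ⟨n, rfl⟩⟩).trans (h2 _ _)]) fun z => by simp [h6]
  replace h7 := h7 (isIrr_of_unitsHom ν⁻¹)
  simp only [map_one, Units.val_one, one_mul] at h9
  have h10 : ∀ c ∈ C[P], red M (χ c) = red M (χ 1) := fun c hc => by
    obtain ⟨c, rfl⟩ := ht.surj c
    rw [h8, red_mul (lin_mem _ _) (char_mem_Loc ht.chr _), h3 ⟨c, Subgroup.mem_sup_right hc⟩ hc,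
      ← h4, ← mul_assoc, ← red_mul (lin_mem _ _) (lin_mem _ _), ht.one, ← h9]
    simp [red_one]
  have h11 : ∀ g, dt χ g ^ (orderOf (dt θ.1) * orderOf ν) = 1 := fun g => by
    obtain ⟨g, rfl⟩ := ht.surj g
    rw [dt_of_eq h7.isCharacter π h8, dt_mul_lin ht.chr (ht.one.trans hd), mul_pow, pow_mul (dt τ g),
      hdt, ← pow_mul, ← mul_assoc, pow_mul', MonoidHom.inv_apply, inv_pow, lin_pow_orderOf]
    simp
  exact ⟨χ, _, h7, h9, h10, fun e => (hp'.dvd_mul.1 e).elim ho (h5 ▸ h1), h11⟩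

/-- Let p be an odd prime, M a maximal ideal of the algebraic integers containing p, N a normal subgroup of the finite group G, and θ an irreducible character of N that is G-invariant, of degree prime to p, p-rational (values in the field generated over ℚ by a root of unity of order prime to p) and lies in the principal p-block of N. Let Q be a Sylow p-subgroup of N and suppose the index of N·C_G(Q) in G is a power of p. Then θ extends to a p-rational irreducible character of G lying in the principal p-block of G. -/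
theorem result {G : Type*} [Group G] [Finite G] (p : ℕ) [Fact p.Prime] (hp : p ≠ 2) (M : Ideal Cfsg.AlgInt) (hM : Cfsg.IsPModular p M) (N : Subgroup G) [N.Normal] (θ : Cfsg.IrrCharacter ↥N) (hinv : ∀ g : G, ∀ n n' : ↥N, (n' : G) = g * (n : G) * g⁻¹ → (θ : ↥N → ℂ) n' = (θ : ↥N → ℂ) n) (hdeg : ¬ p ∣ Cfsg.charDegree (θ : ↥N → ℂ)) (hrat : ∃ m : ℕ, ¬ p ∣ m ∧ ∀ n : ↥N, (θ : ↥N → ℂ) n ∈ IntermediateField.adjoin ℚ ({Complex.exp (2 * Real.pi * Complex.I / m)} : Set ℂ)) (hB : θ ∈ Cfsg.principalBlock M ↥N) (Q : Sylow p ↥N) (hidx : ∃ a : ℕ, (N ⊔ Subgroup.centralizer (((Q : Subgroup ↥N).map N.subtype : Subgroup G) : Set G)).index = p ^ a) : ∃ χ : Cfsg.IrrCharacter G, χ ∈ (Cfsg.principalBlock M G) ∧ (∃ n : ℕ, ¬ p ∣ n ∧ ∀ g : G, (χ : G → ℂ) g ∈ IntermediateField.adjoin ℚ ({Complex.exp (2 * Real.pi * Complex.I / n)} : Set ℂ)) ∧ ∀ n : ↥N, (χ : G → ℂ) n = (θ : ↥N → ℂ) n := by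
  haveI : PMod p M := ⟨hM⟩
  obtain ⟨m, hm, hrat⟩ := hrat
  obtain ⟨a, ha⟩ := hidx
  have hP := isSylowIn_map_subtype Q
  generalize (Q : Subgroup N).map N.subtype = P at hP ha
  haveI := nrm hP
  obtain ⟨χ, r, h7, h9, h10, hr, h11⟩ := main hP ha hdeg hB
    (fun g => funext fun n => hinv g n _ rfl) (ord_dt Fact.out hp hm
      (Complex.isPrimitiveRoot_exp m fun e => hm (e ▸ dvd_zero p)).pow_eq_one hrat)
  have h0 : red M (θ.1 1) ≠ 0 := by
    rw [← coe_charDegree θ.2.isCharacter, red_natCast]; exact natCast_res_ne hdeg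
  obtain ⟨-, -, -, -, h12⟩ := key2 hP (π := MonoidHom.id G) surjective_id (i := N.subtype)
    (fun _ => rfl) (fun _ _ => rfl) h7.isCharacter hB h9 ((h9 1).symm ▸ h0 :) (V := N ⊔ C[P])
    fun _ => Iff.rfl
  obtain ⟨ξ, h13, h14⟩ := h12 h10
  refine ⟨⟨χ, h7⟩, (over_of_res fun n => (congrFun h14 n).symm).mem_principal_of_index ⟨a, ha⟩ h13,
    ⟨m, hm, fun g => mem_adjoin_of_fixed (h7.isCharacter.isGen.isIntegral g).tower_top
      fun σ hσ => ?_⟩, h9⟩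
  obtain ⟨k, hk, e⟩ := exists_pow_of_ringHom σ.toRingHom (Nat.card_pos (α := G)).ne'
  refine (h7.isCharacter.map_apply_eq_pow σ.toRingHom e (orderOf_dvd_natCard g)).trans
    (congrFun (congrArg Subtype.val (uniq (M := M) (χ := ⟨χ, h7⟩) (ψ := ⟨_, h7.comp_pow hk⟩) ha hdeg
    h9 (fun n => ?_) h10 (fun c hc => ?_) hr h11
    fun g => ?_)) g)
  · refine (h9 (n ^ k)).trans ?_
    rw [← θ.2.isCharacter.map_apply_eq_pow σ.toRingHom e
      ((orderOf_dvd_natCard n).trans (Subgroup.card_subgroup_dvd_card N))]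
    exact fix_of_mem hσ (hrat n)
  · simpa using h10 _ (pow_mem hc k)
  · rw [dt_comp_pow h7.isCharacter hk, ← pow_mul, pow_mul', h11, one_pow]

end Cfsg.Agent.S4892
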