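import Cfsg.Statements.S4911
import Cfsg.Agent.H4.Gla2
import Cfsg.Agent.H4.Ch2
import Cfsg.Agent.H4.Gal2
import Cfsg.Agent.L0.Count

set_option autoImplicit false
open Cfsg

open Cfsg CfsgH3 CfsgH4 CfsgH1 Function
open scoped ComplexConjugate CfsgH2

namespace Cfsg.Agent.S4911
theorem fuse {Γ : Type*} [Group Γ] [Finite Γ] {G S : Subgroup Γ} (hn : S ≤ N[G]) (hcop : (Nat.card S).Coprime (Nat.card G))
    (hsolv : Group.IsSolvable S) {c d : (G ⊓ C[S] :)} (h : IsConj (⟨c, c.2.1⟩ : G) ⟨d, d.2.1⟩) : IsConj c d := by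
  obtain ⟨k, h3⟩ := isConj_iff.1 h
  have h4 : (k : Γ) * c * (k : Γ)⁻¹ = d := congrArg Subtype.val h3
  obtain ⟨n, h5, h6⟩ := coprime_fixed_coset (A := S) (N := G ⊓ C1[(c : Γ)]) (k := k)
    (le_normalizer_inf hn fun a ha => Subgroup.le_normalizer
      (Subgroup.mem_centralizer_singleton_iff.2 (c.2.2 a ha)))
    (hcop.coprime_dvd_right (Subgroup.card_dvd_of_le inf_le_left)) (.inl hsolv) fun a ha =>
    ⟨G.mul_mem (G.inv_mem k.2) (CfsgH2.conj_mem_of_norm (hn ha) k.2), Subgroup.mem_centralizer_singleton_iff.2 (by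
      have h5 := c.2.2 a⁻¹ (inv_mem ha)
      have h6 := d.2.2 a ha
      calc _ = (k : Γ)⁻¹ * (a * (k * c * (k : Γ)⁻¹)) * k * a⁻¹ := by
            simp only [mul_assoc, h5, inv_mul_cancel_left]
        _ = _ := by rw [h4, h6, ← h4]; group)⟩
  refine isConj_iff.2 ⟨⟨_, mul_mem k.2 h5.1, h6⟩, Subtype.ext ?_⟩
  simp only [Subgroup.coe_mul, Subgroup.coe_inv]
  rw [mul_assoc _ n, Subgroup.mem_centralizer_singleton_iff.1 h5.2, ← h4]; group

theorem gr_conj {Γ : Type*} [Group Γ] [Finite Γ] {G C : Subgroup Γ} {p : ℕ} {h : C ≤ G} {χ : G → ℂ} {β : C → ℂ}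
    (a : GR p h χ β) : GR p h (fun g => conj (χ g)) fun g => conj (β g) := by
  obtain ⟨ε, Δ, h1, h2, h3⟩ := a
  refine ⟨ε, _, h1, h2.conj, funext fun c => ?_⟩
  have := congrArg conj (congrFun h3 c)
  simpa [resLE] using this

theorem re_iff {α : Type*} {f : α → ℂ} : (∀ a, (f a).im = 0) ↔ (fun a => conj (f a)) = f := by
  simp only [funext_iff, Complex.conj_eq_iff_im]

/-- Let P and K be subgroups of a finite group with P a p-group normalizing K and K of order prime to p. Then the number of P-invariant real-valued irreducible complex characters of K equals the number of conjugacy classes of K that are real (closed under inversion) and P-invariant. Moreover, if every real-valued irreducible character of K is P-invariant, then every real element of K (one conjugate in K to its inverse) is conjugate in K to an element centralized by P. -/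
theorem result {G : Type*} [Group G] [Finite G] (p : ℕ) [Fact p.Prime] (P K : Subgroup G) (hP : IsPGroup p ↥P) (hK : ¬ p ∣ Nat.card ↥K) (hPK : P ≤ Subgroup.normalizer (K : Set G)) : Nat.card {θ : Cfsg.IrrCharacter ↥K // (∀ k : ↥K, ((θ : ↥K → ℂ) k).im = 0) ∧ (∀ x ∈ P, ∀ k k' : ↥K, (k' : G) = x * (k : G) * x⁻¹ → (θ : ↥K → ℂ) k' = (θ : ↥K → ℂ) k)} = Nat.card {c : ConjClasses ↥K // (∀ k : ↥K, ConjClasses.mk k = c → IsConj k k⁻¹) ∧ ∀ k : ↥K, ConjClasses.mk k = c → ∀ x ∈ P, ∀ k' : ↥K, (k' : G) = x * (k : G) * x⁻¹ → ConjClasses.mk k' = c} ∧ ((∀ θ : Cfsg.IrrCharacter ↥K, (∀ k : ↥K, ((θ : ↥K → ℂ) k).im = 0) → (∀ x ∈ P, ∀ k k' : ↥K, (k' : G) = x * (k : G) * x⁻¹ → (θ : ↥K → ℂ) k' = (θ : ↥K → ℂ) k)) → ∀ k : ↥K, IsConj k k⁻¹ → ∃ k' : ↥K, IsConj k k' ∧ ∀ x ∈ P, x * (k' : G) * x⁻¹ = (k' : G)) := by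
  have hp : p.Prime := Fact.out
  have hc := CfsgH2.coprime_of_pgroup hP hK
  have hg := gc_pgroup hp hP hPK hc.symm
  have hs := CfsgH2.isSolvable_of_pgroup hP
  have inv : ∀ {L : Subgroup G} {a b : L}, IsConj a b → IsConj a a⁻¹ → IsConj b b⁻¹ := fun {L a b} h h' => by
    obtain ⟨k, rfl⟩ := isConj_iff.1 h
    exact h.symm.trans (h'.trans (isConj_iff.2 ⟨k, by group⟩))
  have key := (card_eq_of_rel (α := {θ : IrrCharacter K // (∀ k, (θ.1 k).im = 0) ∧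
      ∀ x ∈ P, ∀ k k' : K, (k' : G) = x * k * x⁻¹ → θ.1 k' = θ.1 k})
    (β := {β : IrrCharacter ↥(K ⊓ C[P]) // ∀ k, (β.1 k).im = 0}) (fun θ β => GR p inf_le_left θ.1.1 β.1.1)
    (fun θ => by
      obtain ⟨β, h1, h2⟩ := hg.ex _ θ.1.2 ((le_aI_iff hPK).2 θ.2.2)
      exact ⟨⟨⟨β, h1⟩, re_iff.2 (h2.unique hp (re_iff.1 θ.2.1 ▸ gr_conj h2) θ.1.2.isCharacter h1 h1.conj)⟩, h2⟩)
    (fun β => by
      obtain ⟨χ, h1, h2, h3⟩ := hg.surj _ β.1.2
      have h4 := (le_aI_iff hPK).1 h2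
      exact ⟨⟨⟨χ, h1⟩, re_iff.2 (hg.inj h1.conj h1 β.1.2 ((le_aI_iff hPK).2 fun x hx k k' e => congrArg conj (h4 x hx k k' e)) h2
        (re_iff.1 β.2 ▸ gr_conj h3) h3), h4⟩, h3⟩)
    (fun θ θ' β h1 h2 => Subtype.ext (Subtype.ext (hg.inj θ.1.2 θ'.1.2 β.1.2 ((le_aI_iff hPK).2 θ.2.2)
      ((le_aI_iff hPK).2 θ'.2.2) h1 h2)))
    (fun θ β β' h1 h2 => Subtype.ext (Subtype.ext (h2.unique hp h1 θ.1.2.isCharacter β'.1.2 β.1.2)))).trans
    (card_real_irr.trans (card_eq_of_rel (β := {c : ConjClasses K // (∀ k : K, ConjClasses.mk k = c → IsConj k k⁻¹) ∧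
      ∀ k : K, ConjClasses.mk k = c → ∀ x ∈ P, ∀ k' : K, (k' : G) = x * k * x⁻¹ → ConjClasses.mk k' = c})
    (fun L M => ∃ c : (K ⊓ C[P] :), ConjClasses.mk c = L.1 ∧ ConjClasses.mk ⟨c, c.2.1⟩ = M.1)
    (fun L => by
      obtain ⟨c, hc⟩ := L.1.exists_rep
      refine ⟨⟨.mk ⟨c, c.2.1⟩, fun k hk => inv (ConjClasses.mk_eq_mk_iff_isConj.1 hk).symm
        ((Subgroup.inclusion inf_le_left).map_isConj (L.2 c hc).symm), fun g h2 s hs g' h1 => ?_⟩, c, hc, rfl⟩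
      obtain ⟨x, h3⟩ := isConj_iff.1 (ConjClasses.mk_eq_mk_iff_isConj.1 h2)
      refine ConjClasses.mk_eq_mk_iff_isConj.2 (isConj_iff.2 ⟨⟨_, CfsgH2.conj_mem_of_norm (hPK hs) x.2⟩, Subtype.ext ?_⟩)
      have h4 : (x : G) * g * (x : G)⁻¹ = c := congrArg Subtype.val h3
      have h5 : s * c * s⁻¹ = c := mul_inv_eq_iff_eq_mul.2 (c.2.2 s hs)
      simp only [Subgroup.coe_mul, Subgroup.coe_inv, h1]
      rw [← h5, ← h4]; group)
    (fun M => by
      obtain ⟨k, hk⟩ := M.1.exists_rep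
      obtain ⟨c, h1, h2⟩ := exists_fixed_conj hP hK hPK (k := k) fun x hx k' e =>
        ConjClasses.mk_eq_mk_iff_isConj.1 (hk.trans (M.2.2 k hk x hx k' e).symm)
      let d : (K ⊓ C[P] :) := ⟨c, c.2, fun x hx => mul_inv_eq_iff_eq_mul.1 (h2 x hx)⟩
      exact ⟨⟨.mk d, fun g hg => (inv (ConjClasses.mk_eq_mk_iff_isConj.1 hg).symm
        (fuse hPK hc hs (d := d⁻¹) (inv h1 (M.2.1 k hk)))).symm⟩, d, rfl,
        (ConjClasses.mk_eq_mk_iff_isConj.2 h1.symm).trans hk⟩)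
    (by
      rintro L L' M ⟨c, h1, h2⟩ ⟨d, h3, h4⟩
      exact Subtype.ext (h1.symm.trans ((ConjClasses.mk_eq_mk_iff_isConj.2 (fuse hPK hc hs
        (ConjClasses.mk_eq_mk_iff_isConj.1 (h2.trans h4.symm)))).trans h3)))
    (by
      rintro L M M' ⟨c, h1, h2⟩ ⟨d, h3, h4⟩
      exact Subtype.ext (h2.symm.trans ((ConjClasses.mk_eq_mk_iff_isConj.2 ((Subgroup.inclusion
        inf_le_left).map_isConj (ConjClasses.mk_eq_mk_iff_isConj.1 (h1.trans h3.symm)))).trans h4)))))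
  refine ⟨key, fun h k hk => exists_fixed_conj hP hK hPK fun x hx k' e => by_contra fun h0 => ?_⟩
  rw [Nat.card_congr (Equiv.subtypeEquivRight (q := fun θ : IrrCharacter K => ∀ k, (θ.1 k).im = 0)
    fun θ => ⟨fun a => a.1, fun a => ⟨a, h θ a⟩⟩), card_real_irr] at key
  exact (CfsgL0.card_subtype_lt' (fun c a g hg => (a.1 g hg).symm) (ConjClasses.mk k)
    (fun g hg => (inv (ConjClasses.mk_eq_mk_iff_isConj.1 hg).symm hk).symm)
    fun a => h0 (ConjClasses.mk_eq_mk_iff_isConj.1 (a.2 k rfl x hx k' e)).symm).ne' key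


end Cfsg.Agent.S4911
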