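import Cfsg.Statements.S4914
import Cfsg.Agent.H3.Rg
import Cfsg.Agent.H1.SylowIn

set_option autoImplicit false
open Cfsg

open Cfsg CfsgH3 CfsgH4 CfsgH1 CfsgRg Function
open scoped CfsgH2

namespace Cfsg.Agent.S4914

/-- Let P and K be subgroups of a finite group G with P a p-group normalizing K, and suppose K has a normal Sylow p-subgroup Q. Let C be the subgroup of those k ∈ K whose commutator with every element of P lies in Q (so that C/Q is the fixed-point subgroup of P on K/Q). Then there is a bijection f from the P-invariant irreducible complex characters of K onto the P-invariant irreducible complex characters of C such that, for every P-invariant irreducible character χ of K, the multiplicity of f(χ) in the restriction of χ to C is a natural number congruent to 1 or to −1 modulo p, every other P-invariant irreducible character of C occurs in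 that restriction with multiplicity divisible by p, and the degrees of χ and f(χ) are congruent modulo p up to sign. -/
theorem result {G : Type*} [Group G] [Finite G] (p : ℕ) [Fact p.Prime] (P K Q C : Subgroup G) (hP : IsPGroup p ↥P) (hPK : P ≤ Subgroup.normalizer (K : Set G)) (hQK : Q ≤ K) (hQn : ∀ k ∈ K, ∀ q ∈ Q, k * q * k⁻¹ ∈ Q) (hQp : ∃ a : ℕ, Nat.card ↥Q = p ^ a) (hQsyl : ¬ p ∣ Q.relIndex K) (hCK : C ≤ K) (hC : ∀ k : G, k ∈ C ↔ (k ∈ K ∧ ∀ x ∈ P, x * k * x⁻¹ * k⁻¹ ∈ Q)) : ∃ f : {χ : Cfsg.IrrCharacter ↥K // (∀ x ∈ P, ∀ k k' : ↥K, (k' : G) = x * (k : G) * x⁻¹ → (χ : ↥K → ℂ) k' = (χ : ↥K → ℂ) k)} → {ξ : Cfsg.IrrCharacter ↥C // (∀ x ∈ P, ∀ k k' : ↥C, (k' : G) = x * (k : G) * x⁻¹ → (ξ : ↥C → ℂ) k' = (ξ : ↥C → ℂ) k)}, Function.Bijective f ∧ ∀ χ, (∀ ξ : {ξ : Cfsg.IrrCharacter ↥C // (∀ x ∈ P, ∀ k k' : ↥C, (k' : G) = x * (k : G) * x⁻¹ → (ξ : ↥C → ℂ) k' =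 (ξ : ↥C → ℂ) k)}, ∃ m : ℕ, (Nat.card ↥C : ℂ)⁻¹ * ∑ᶠ c : ↥C, (χ.1 : ↥K → ℂ) (Subgroup.inclusion hCK c) * (starRingEnd ℂ) ((ξ.1 : ↥C → ℂ) c) = (m : ℂ) ∧ (ξ = f χ → ((m : ZMod p) = 1 ∨ (m : ZMod p) = -1)) ∧ (ξ ≠ f χ → p ∣ m)) ∧ ((Cfsg.charDegree ((f χ).1 : ↥C → ℂ) : ZMod p) = (Cfsg.charDegree (χ.1 : ↥K → ℂ) : ZMod p) ∨ (Cfsg.charDegree ((f χ).1 : ↥C → ℂ) : ZMod p) = -(Cfsg.charDegree (χ.1 : ↥K → ℂ) : ZMod p)) := by
  have hQ : IsPGroup p Q := IsPGroup.iff_card.2 hQp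
  have KQ : K ≤ N[Q] := fun k hk => mem_normalizer_of_conj_mem (hQn k hk)
  have s : St p P K Q C := ⟨hP, hQ, hPK, hPK.trans
    (IsSylowIn.normalizer_le_of_normal ⟨hQK, hQ, hQsyl⟩ KQ), hQK, KQ, hQsyl, hC⟩
  have iK := fun {χ} => le_aI_iff (χ := χ) hPK
  have iC := fun {χ} => le_aI_iff (χ := χ) s.PC
  choose f h1 h2 h3 using fun (χ : IrrCharacter K) h => s.ex χ.2 (iK.2 h)
  refine ⟨fun χ => ⟨⟨f χ.1 χ.2, h1 _ _⟩, iC.1 (h2 _ _)⟩, ⟨fun χ χ' e => ?_, fun ξ => ?_⟩,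
    fun χ => ⟨fun ξ => ?_, (h3 χ.1 χ.2).deg hP χ.1.2.isCharacter (iK.2 χ.2) (h1 _ _) (h2 _ _)⟩⟩
  · have e' : f χ.1 χ.2 = f χ'.1 χ'.2 := congrArg (·.1.1) e
    exact Subtype.ext (Subtype.ext (s.inj χ.1.2 (iK.2 χ.2) χ'.1.2 (iK.2 χ'.2) (h1 _ _) (h2 _ _)
      (h3 χ.1 χ.2) (e' ▸ h3 χ'.1 χ'.2)))
  · obtain ⟨χ, a1, a2, a3⟩ := s.surj ξ.1.2 (iC.2 ξ.2)
    exact ⟨⟨⟨χ, a1⟩, iK.1 a2⟩, Subtype.ext (Subtype.ext
      ((h3 ⟨χ, a1⟩ (iK.1 a2)).unique a3 (h1 _ _) ξ.1.2 (iC.2 ξ.2)))⟩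
  · obtain ⟨m, a1⟩ := (χ.1.2.isCharacter.resLE hCK).exists_nat_classInner ξ.1.2.isCharacter
    obtain ⟨ε, a2, a3⟩ := h3 χ.1 χ.2
    obtain ⟨n, a4⟩ := a3 ξ.1.1 ξ.1.2 (iC.2 ξ.2)
    refine ⟨m, by rw [finsum_eq_sum_of_fintype]; exact a1, fun e => ?_, fun e => ?_⟩
    · have e' : ξ.1.1 = f χ.1 χ.2 := congrArg (·.1.1) e
      rw [a1, e', (h1 _ _).classInner_self, mul_one] at a4
      have b8 : ((m : ℤ) : ZMod p) = ε := by
        rw [show (m : ℤ) = p * n + ε by exact_mod_cast a4]; simp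
      rw [Int.cast_natCast] at b8
      rcases a2 with rfl | rfl <;> simp [b8]
    · rw [a1, (h1 _ _).classInner_of_ne ξ.1.2 fun e' => e (Subtype.ext (Subtype.ext e'.symm)),
        mul_zero, add_zero] at a4
      exact Int.natCast_dvd_natCast.1 ⟨n, by exact_mod_cast a4⟩


end Cfsg.Agent.S4914
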