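import Cfsg.Statements.S4923
import Cfsg.Agent.H4.Ch1
import Cfsg.Agent.H2.MaxCl3
import Cfsg.Agent.H2.NPC

set_option autoImplicit false
open Cfsg

open CfsgH3 CfsgH4 Function Subgroup
open scoped ComplexConjugate CfsgH2 commutatorElement

namespace Cfsg.Agent.S4923
theorem mem_adj (S : Set ℂ) {x : ℂ} (hx : IsIntegral ℚ x)
    (h : ∀ σ : ℂ ≃+* ℂ, (∀ s ∈ S, σ s = s) → σ x = x) : x ∈ IntermediateField.adjoin ℚ S := by
  set F := IntermediateField.adjoin ℚ S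
  by_contra hc
  have h1 : x ∉ (⊥ : Subalgebra F ℂ) := by
    rw [Algebra.mem_bot]; rintro ⟨q, rfl⟩; exact hc q.2
  have hx' : IsIntegral F x := hx.tower_top
  obtain ⟨y, hy, h2⟩ := (notMem_iff_exists_ne_and_isConjRoot
    (minpoly.irreducible hx').separable (IsAlgClosed.splits _)).1 h1
  let K := algebraicClosure F ℂ
  let a : K := ⟨x, mem_algebraicClosure_iff'.2 hx'⟩
  let b : K := ⟨y, mem_algebraicClosure_iff'.2 (h2.isIntegral hx')⟩
  have h3 : IsConjRoot F b a := (isConjRoot_algHom_iff K.val).1 h2.symm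
  haveI : Normal F K := IsAlgClosure.normal F K
  obtain ⟨τ, hτ⟩ := h3.exists_algEquiv
  obtain ⟨σ, hσ⟩ := exists_ringEquiv_extend (K.restrictScalars ℚ) τ.toRingEquiv
  refine hy ((h σ fun s hs => ?_).symm.trans ((hσ a).trans (congrArg Subtype.val hτ)))
  exact (hσ (algebraMap F K ⟨s, IntermediateField.subset_adjoin _ _ hs⟩)).trans
    (congrArg Subtype.val (τ.commutes _))

theorem fix_adj {S : Set ℂ} (σ : ℂ ≃+* ℂ) (h : ∀ s ∈ S, σ s = s) {x : ℂ}
    (hx : x ∈ IntermediateField.adjoin ℚ S) : σ x = x :=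
  (IntermediateField.adjoin_le_iff (T := ((σ : ℂ →+* ℂ).eqLocusField
    (RingHom.id ℂ)).toIntermediateField fun q => map_ratCast σ q)).2 h hx

section
variable {G : Type*} [Group G] [Finite G] {P : Subgroup G} {a b : G} {m : ℕ} {ζ : ℂ}

theorem fix_iff (σ : ℂ ≃+* ℂ) {N k : ℕ} (hσ : ∀ z : ℂ, z ^ N = 1 → σ z = z ^ k)
    (ha : orderOf a ∣ N) :
    (∀ s ∈ {z : ℂ | ∃ χ : IrrCharacter G, (χ : G → ℂ) a = z}, σ s = s) ↔ IsConj (a ^ k) a := by
  have : ∀ χ, IsIrrCharacter G χ → σ (χ a) = χ (a ^ k) := fun χ h =>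
    h.isCharacter.map_apply_eq_pow (σ : ℂ →+* ℂ) hσ ha
  refine ⟨fun h => isConj_of_irr_eq fun χ hχ => (this χ hχ).symm.trans (h _ ⟨⟨χ, hχ⟩, rfl⟩), ?_⟩
  rintro h _ ⟨χ, rfl⟩
  exact (this _ χ.2).trans (χ.2.isClassFunction.eq_of_isConj h)

theorem not_conj (hm : 2 ≤ m) (hζ : IsPrimitiveRoot ζ (2 ^ (m + 1))) (ha : orderOf a ∣ 2 ^ (m + 1))
    {ε : ℂ} (he : ε = 1 ∨ ε = -1) (h : IntermediateField.adjoin ℚ
      {z : ℂ | ∃ χ : IrrCharacter G, (χ : G → ℂ) a = z} = IntermediateField.adjoin ℚ {ζ + ε * ζ⁻¹}) :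
    ¬ IsConj (a ^ (1 + 2 ^ m)) a := fun hc => by
  obtain ⟨σ, hσ⟩ := exists_ringEquiv_pow (m := 2 ^ (m + 1)) (k := 1 + 2 ^ m) (by positivity)
    (Nat.Coprime.pow_right _ (Odd.coprime_two_right
      (Odd.add_even odd_one (Nat.even_pow.2 ⟨even_two, by omega⟩))))
  have h1 := fix_adj σ ((fix_iff σ hσ ha).2 hc)
    (h ▸ IntermediateField.mem_adjoin_simple_self ℚ (ζ + ε * ζ⁻¹))
  have h0 := hζ.ne_zero (by positivity)
  have h2 : ζ ^ 2 ^ m = -1 := (hζ.pow (by positivity) (pow_succ 2 m)).eq_neg_one_of_two_right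
  have h3 : σ ε = ε := by rcases he with rfl | rfl <;> simp
  rw [map_add, map_mul, map_inv₀, hσ ζ hζ.pow_eq_one, h3, pow_add, h2] at h1
  have h4 : ζ ^ 2 = -ε := by
    field_simp at h1
    linear_combination (-1 / 2 : ℂ) * h1
  have h5 : ζ ^ 2 ^ 2 = 1 := by
    rw [show 2 ^ 2 = 2 * 2 from rfl, pow_mul, h4]
    rcases he with rfl | rfl <;> simp
  have := (Nat.pow_dvd_pow_iff_le_right one_lt_two).1 (hζ.dvd_of_pow_eq_one _ h5)
  omega

theorem adj_eq (hζ : IsPrimitiveRoot ζ (orderOf a)) {e : ℕ} {ε : ℂ} (he : ε = 1 ∨ ε = -1)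
    (h1 : ζ ^ e = ε) (h : ∀ k : ℕ, IsConj (a ^ k) a ↔ a ^ k = a ^ 1 ∨ a ^ (k + 1) = a ^ e) :
    IntermediateField.adjoin ℚ {z : ℂ | ∃ χ : IrrCharacter G, (χ : G → ℂ) a = z} =
      IntermediateField.adjoin ℚ {ζ + ε * ζ⁻¹} := by
  have hp := orderOf_pos a
  have h0 := hζ.ne_zero hp.ne'
  have key : ∀ σ : ℂ ≃+* ℂ, (∀ s ∈ {z : ℂ | ∃ χ : IrrCharacter G, (χ : G → ℂ) a = z}, σ s = s) ↔
      σ (ζ + ε * ζ⁻¹) = ζ + ε * ζ⁻¹ := fun σ => by
    obtain ⟨k, -, hσ⟩ := exists_pow_of_ringHom (σ : ℂ →+* ℂ) hp.ne'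
    have h3 : σ ε = ε := by rcases he with rfl | rfl <;> simp
    have h4 : ∀ i j : ℕ, a ^ i = a ^ j ↔ ζ ^ i = ζ ^ j := fun i j => by
      rw [pow_eq_pow_iff_modEq, hζ.eq_orderOf, (hζ.isOfFinOrder hp.ne').pow_eq_pow_iff_modEq]
    rw [fix_iff σ hσ dvd_rfl, h, h4, h4, map_add, map_mul, map_inv₀, h3,
      show σ ζ = ζ ^ k from hσ ζ hζ.pow_eq_one, h1, pow_succ ζ k, pow_one, ← sub_eq_zero,
      ← sub_eq_zero (a := _ * ζ), ← mul_eq_zero]
    have h5 := pow_ne_zero k h0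
    generalize ζ ^ k = u at h5
    refine ⟨fun e => ?_, fun e => ?_⟩
    · field_simp
      linear_combination e
    · field_simp at e
      linear_combination e
  refine le_antisymm (IntermediateField.adjoin_le_iff.2 fun s hs => mem_adj _ ?_ fun σ hσ =>
    (key σ).2 (hσ _ rfl) s hs) (IntermediateField.adjoin_le_iff.2 ?_)
  · obtain ⟨χ, rfl⟩ := hs
    exact (χ.2.isCharacter.isIntegral a).tower_top
  · rintro _ rfl
    have h2 : IsIntegral ℚ ζ := (hζ.isIntegral hp).tower_top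
    exact mem_adj _ (h2.add (IsIntegral.mul (h1 ▸ h2.pow e) h2.inv)) fun σ => (key σ).1

theorem rel_dvd (h : CfsgH2.Cy2 P a b m) : C[zpowers a].relIndex N[zpowers a] ∣ 2 ^ m := by
  have : Nat.card (zpowers a).normalizerMonoidHom.range =
      C[zpowers a].relIndex N[zpowers a] := by
    rw [← index_ker, normalizerMonoidHom_ker]; rfl
  rw [← this]
  refine (card_subgroup_dvd_card _).trans ?_
  rw [IsCyclic.card_mulAut, Nat.card_zpowers, h.ord, Nat.totient_prime_pow_succ Nat.prime_two]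
  simp

theorem conj_iff (hP : CfsgH2.Syl 2 P ⊤) (h : CfsgH2.Cy2 P a b m) (k : ℕ) :
    IsConj (a ^ k) a ↔ a ^ k = a ∨ a ^ k = b * a * b⁻¹ := by
  refine ⟨fun hc => ?_, fun hc => hc.elim (fun e => e.symm ▸ IsConj.refl a) fun e =>
    e.symm ▸ (isConj_iff.2 ⟨b, rfl⟩).symm⟩
  obtain ⟨x, hx⟩ := isConj_iff.1 hc.symm
  have a1 : x ∈ N[zpowers a] := CfsgH2.mem_norm_zpowers (hx ▸ npow_mem_zpowers a k)
  rw [← (hP.mono h.le_norm le_top).sup_eq_of_index (CfsgH2.cent_le_norm _)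
    (((CfsgH2.PiN.of_prime Nat.prime_two (Set.mem_singleton 2)).pow m).of_dvd (rel_dvd h)), sup_comm,
    CfsgH2.mem_sup_of_norm (CfsgH2.le_norm_cent h.le_norm)] at a1
  obtain ⟨y, hy, c, hc, rfl⟩ := a1
  have a3 : ∀ u ∈ zpowers a, ∀ v ∈ zpowers a, u * v * u⁻¹ = v := by
    rintro _ ⟨i, rfl⟩ _ ⟨j, rfl⟩
    rw [mul_inv_eq_iff_eq_mul]; exact (Commute.zpow_zpow_self a i j).eq
  have a4 : y * a * y⁻¹ = a ^ k := by
    rw [← hx, mul_assoc y c, ← hc a (mem_zpowers a)]; group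
  rcases h.mem_iff.1 hy with e | e
  · exact Or.inl (a4 ▸ a3 _ e _ (mem_zpowers a))
  · refine Or.inr ?_
    rw [← a4, ← a3 _ e _ ((h.norm a).1 (mem_zpowers a))]; group

theorem index_comm (P : Subgroup G) : (commutator P).index = (⁅P, P⁆ : Subgroup G).relIndex P := by
  rw [← map_subtype_commutator, relIndex, subgroupOf,
    comap_map_eq_self_of_injective P.subtype_injective]

end

/-- Let G be a finite group with Sylow 2-subgroup P of order 2^n ≥ 8, and let ζ be a primitive 2^(n−1)-th root of unity in ℂ. Then the commutator subgroup of P has index 4 in P if and only if there is an element g of P whose conjugacy class in G has even size and such that the field generated over ℚ by the values at g of all irreducible complex characters of G equals ℚ(ζ + ζ⁻¹) or ℚ(ζ − ζ⁻¹). -/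
theorem result {G : Type*} [Group G] [Finite G] (P : Sylow 2 G) (n : ℕ) (hn : 3 ≤ n) (hP : Nat.card P = 2 ^ n) (ζ : ℂ) (hζ : IsPrimitiveRoot ζ (2 ^ (n - 1))) :
    (commutator ↥P).index = 4 ↔
      ∃ g : G, g ∈ (P : Subgroup G) ∧ 2 ∣ (Subgroup.centralizer ({g} : Set G)).index ∧
        (IntermediateField.adjoin ℚ {z : ℂ | ∃ χ : Cfsg.IrrCharacter G, (χ : G → ℂ) g = z} = IntermediateField.adjoin ℚ ({ζ + ζ⁻¹} : Set ℂ) ∨
          IntermediateField.adjoin ℚ {z : ℂ | ∃ χ : Cfsg.IrrCharacter G, (χ : G → ℂ) g = z} = IntermediateField.adjoin ℚ ({ζ - ζ⁻¹} : Set ℂ)) := by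
  obtain ⟨m, rfl⟩ : ∃ m, n = m + 2 := ⟨n - 2, by omega⟩
  replace hζ : IsPrimitiveRoot ζ (2 ^ (m + 1)) := hζ
  have hS := CfsgH2.syl_top P
  replace hP : Nat.card (P : Subgroup G) = 2 ^ (m + 2) := hP
  refine (iff_of_eq (congrArg (· = 4) (index_comm (P : Subgroup G)))).trans ?_
  simp only [show ζ + ζ⁻¹ = ζ + 1 * ζ⁻¹ by rw [one_mul], show ζ - ζ⁻¹ = ζ + -1 * ζ⁻¹ by ring]
  generalize (P : Subgroup G) = Q at hS hP
  have hm : ∀ {a b k}, CfsgH2.Cy2 Q a b k → k = m := fun h => by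
    have := h.card
    rw [hP] at this
    have := Nat.pow_right_injective le_rfl this
    omega
  refine ⟨fun h => ?_, fun ⟨g, hg, h2, h⟩ => ?_⟩
  · have hc : ¬ IsMulCommutative Q := fun hc => by
      rw [CfsgH2.comm_self_eq_bot_iff.2 hc, relIndex_bot_left, hP] at h
      have := Nat.pow_right_injective le_rfl (h.trans (show 4 = 2 ^ 2 from rfl))
      omega
    obtain ⟨a, b, k, hM⟩ := CfsgH2.taussky hS.pg h hc
    obtain rfl := hm hM.toCy2
    refine ⟨a, hM.amem, by_contra fun h2 => hc ?_, ?_⟩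
    · rw [← CfsgH2.cent_zpowers] at h2
      have := relIndex_eq_one.1 (Nat.eq_one_of_dvd_coprimes (((Nat.Prime.coprime_iff_not_dvd
        Nat.prime_two).2 h2).pow_left k) (rel_dvd hM.toCy2)
        (relIndex_dvd_index_of_le (CfsgH2.cent_le_norm _))) hM.norm a (mem_zpowers a)
      exact hM.isMulComm (by rw [← this, mul_inv_cancel_right])
    · rw [← hM.ord] at hζ
      have h1 : ∀ e : ℕ, b * a * b⁻¹ = a⁻¹ * a ^ e → ∀ k : ℕ,
          IsConj (a ^ k) a ↔ a ^ k = a ^ 1 ∨ a ^ (k + 1) = a ^ e := fun e he k => by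
        rw [conj_iff hS hM.toCy2, he, pow_one, pow_succ', eq_inv_mul_iff_mul_eq]
      rcases hM.rel with e | e | e
      · exact Or.inl (adj_eq hζ (Or.inl rfl) (pow_zero ζ) (h1 0 (by simp [e.2])))
      · exact Or.inl (adj_eq hζ (Or.inl rfl) (pow_zero ζ) (h1 0 (by simp [e.2])))
      · exact Or.inr (adj_eq hζ (Or.inr rfl) ((hζ.pow (orderOf_pos a)
          (hM.ord.trans (pow_succ 2 k))).eq_neg_one_of_two_right) (h1 _ e.2.2))
  · have hc : ¬ IsMulCommutative Q := fun hc => hS.not_dvd_of_le (K := C1[g])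
      ((CfsgH2.le_cent_self hc).trans (centralizer_le (Set.singleton_subset_iff.2 hg)))
      (by rwa [relIndex_top_right])
    have hc' : ¬ IsCyclic Q := fun e => hc e.isMulCommutative
    rcases (show m = 1 ∨ 2 ≤ m by omega) with rfl | h1
    · have b1 := CfsgH2.sq_dvd_relIndex_commutator hS.pg hc'
      have b2 := CfsgH2.card_mul_relIndex (CfsgH2.commutator_self_le (H := Q))
      have b3 : Nat.card (⁅Q, Q⁆ : Subgroup G) ≠ 1 := fun e =>
        hc (CfsgH2.comm_self_eq_bot_iff.1 (card_eq_one.1 e))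
      obtain ⟨c, b1⟩ := b1
      rw [hP, b1, mul_left_comm] at b2
      have b4 : Nat.card (⁅Q, Q⁆ : Subgroup G) * c = 2 := by omega
      rw [b1, ((Nat.dvd_prime Nat.prime_two).1 (Dvd.intro_left _ b4)).resolve_right fun e => b3 (by
        rw [e] at b4; omega)]
      rfl
    obtain ⟨j, hj⟩ := CfsgH2.pgroup_mem_order hS.pg hg
    have b1 : j ≤ m + 1 := by
      have b2 : 2 ^ j < 2 ^ (m + 2) := by
        rw [← hj, ← hP, ← Nat.card_zpowers]
        exact CfsgH2.card_lt_of_lt (lt_of_le_of_ne (zpowers_le.2 hg) fun e =>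
          hc' (e ▸ inferInstance))
      have := (Nat.pow_lt_pow_iff_right one_lt_two).1 b2
      omega
    have b2 : ¬ IsConj (g ^ (1 + 2 ^ m)) g := h.elim
      (not_conj h1 hζ (hj ▸ pow_dvd_pow 2 b1) (Or.inl rfl))
      (not_conj h1 hζ (hj ▸ pow_dvd_pow 2 b1) (Or.inr rfl))
    obtain rfl : j = m + 1 := by_contra fun e => b2 (by
      rw [pow_add, (orderOf_dvd_iff_pow_eq_one (n := 2 ^ m)).1
        ((dvd_of_eq hj).trans (pow_dvd_pow 2 (by omega))), mul_one, pow_one])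
    have b3 := CfsgH2.card_mul_relIndex (zpowers_le.2 hg)
    rw [Nat.card_zpowers, hj, hP, pow_succ 2 (m + 1)] at b3
    obtain ⟨a, b, k, b4, b5⟩ := CfsgH2.exists_cy2 hS.pg inferInstance (zpowers_le.2 hg)
      (Nat.eq_of_mul_eq_mul_left (by positivity) b3) fun e => by
        rw [zpowers_eq_bot.1 e, orderOf_one] at hj
        exact absurd hj.symm (Nat.one_lt_two_pow (by omega)).ne'
    obtain rfl := hm b5
    obtain ⟨c, b6 | ⟨-, -, -, b6⟩⟩ := b5.classify hc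
    · exact b6.relIndex_commutator
    · obtain ⟨i, rfl⟩ : g ∈ zpowers a := b4 ▸ mem_zpowers g
      refine absurd (isConj_iff.2 ⟨c, ?_⟩).symm b2
      show c * a ^ i * c⁻¹ = (a ^ i) ^ (1 + 2 ^ k)
      rw [← conj_zpow, b6, ← pow_succ', add_comm, ← zpow_natCast, ← zpow_natCast, ← zpow_mul,
        ← zpow_mul, mul_comm]


end Cfsg.Agent.S4923
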