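import Cfsg.Statements.S4989
import Mathlib
import Cfsg.Agent.H4.Ch1

set_option autoImplicit false
open Cfsg

open Cfsg CfsgH3 CfsgH4 CfsgH1 Function
open scoped ComplexConjugate Pointwise

namespace Cfsg.Agent.S4989

/-- Let H be a subgroup of the finite group G and χ an irreducible complex character of G. Then the inner product of the restriction of χ to H with itself, (1/#H)·Σ_{h ∈ H} |χ(h)|², is at most 1 + #(Z ∖ H)/#H, where Z is the set of zeros of χ in G. -/
theorem result {G : Type*} [Group G] [Finite G] (H : Subgroup G) (χ : Cfsg.IrrCharacter G) : (Nat.card ↥H : ℝ)⁻¹ * ∑ᶠ h : ↥H, ‖(χ : G → ℂ) h‖ ^ 2 ≤ 1 + (Set.ncard ({x : G | (χ : G → ℂ) x = 0} \ (H : Set G)) : ℝ) / (Nat.card ↥H : ℝ) := by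
  classical
  have := Fintype.ofFinite G
  have h0 : (0 : ℝ) < Nat.card H := by exact_mod_cast Nat.card_pos
  rw [finsum_eq_sum_of_fintype, sum_subgroup_eq H fun g => ‖χ.1 g‖ ^ 2, inv_mul_le_iff₀ h0, mul_add,
    mul_one, mul_div_cancel₀ _ h0.ne']
  have h1 := card_filter_le_sum_norm_sq χ.2.isGen (Finset.univ.filter (· ∉ H)) fun g hg k hk => by
    simpa using pow_notMem_of_coprime (by simpa using hg) hk
  have h2 := Finset.sum_filter_add_sum_filter_not Finset.univ (· ∈ H) fun g => ‖χ.1 g‖ ^ 2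
  rw [sum_norm_sq_of_irr χ.2] at h2
  have h3 := Finset.card_filter_add_card_filter_not (s := Finset.univ.filter (· ∉ H))
    fun g => χ.1 g ≠ 0
  have h4 := Finset.card_filter_add_card_filter_not (s := (Finset.univ : Finset G)) (· ∈ H)
  have h5 : ({x : G | χ.1 x = 0} \ (H : Set G)).ncard =
      ((Finset.univ.filter (· ∉ H)).filter fun g => ¬ χ.1 g ≠ 0).card := by
    rw [← Set.ncard_coe_finset]; congr 1; ext; simp [and_comm]
  have h6 : Nat.card H = (Finset.univ.filter (· ∈ H)).card := by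
    rw [Nat.card_eq_fintype_card, Fintype.card_subtype]
  rw [Finset.card_univ, ← Nat.card_eq_fintype_card, ← h6, ← h3, ← h5] at h4
  have h7 := congrArg (Nat.cast : ℕ → ℝ) h4
  push_cast at h7
  linarith

end Cfsg.Agent.S4989
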