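import Cfsg.Statements.S4996
import Mathlib
import Cfsg.Agent.H4.Ch1

set_option autoImplicit false
open Cfsg

open Cfsg CfsgH3 CfsgH4 CfsgH1 Function
open scoped ComplexConjugate Pointwise

namespace Cfsg.Agent.S4996

/-- Let N be a normal subgroup of the finite group G and χ an irreducible complex character of G. Then the restriction of χ to N is not irreducible if and only if χ vanishes on some whole coset Nx of N in G. -/
theorem result {G : Type*} [Group G] [Finite G] (N : Subgroup G) [N.Normal] (χ : Cfsg.IrrCharacter G) : ¬ Cfsg.IsIrrCharacter ↥N (fun n : ↥N => (χ : G → ℂ) n) ↔ ∃ x : G, ∀ n : ↥N, (χ : G → ℂ) ((n : G) * x) = 0 := by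
  classical
  have := Fintype.ofFinite G
  have hχ := χ.2.isCharacter
  refine ⟨fun h => ?_, fun ⟨x, hx⟩ h => ?_⟩
  · by_contra! hc
    have hη := isCharacter_avg (N := N) (hχ.mul hχ.conj)
    set η := avg N (χ.1 * fun g => conj (χ.1 g)) with hη'
    have h1 : ∀ x, η x = (((Nat.card N : ℝ)⁻¹ * ∑ n : N, ‖χ.1 (n * x)‖ ^ 2 : ℝ) : ℂ) := fun x => by
      simp [hη', avg, Complex.mul_conj, Complex.normSq_eq_norm_sq]
    have h2 : ∀ x, ‖η x‖ = (η x).re := fun x => by
      rw [h1, Complex.ofReal_re, Complex.norm_real, Real.norm_of_nonneg (by positivity)]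
    have h3 : ∀ x, η x ≠ 0 := fun x => by
      obtain ⟨n, hn⟩ := hc x
      rw [h1, Complex.ofReal_ne_zero]
      refine mul_ne_zero (inv_ne_zero (by exact_mod_cast Nat.card_pos.ne')) (ne_of_gt ?_)
      exact Finset.sum_pos' (fun _ _ => by positivity) ⟨n, Finset.mem_univ _, by positivity⟩
    have h4 := card_le_sum_norm hη.isGen (Finset.univ.erase 1) (fun g hg k hk => by
      simpa using pow_notMem_of_coprime (H := ⊥) (by simpa using hg) hk) fun g _ => h3 g
    have h5 : ∑ x, ‖η x‖ = Nat.card G := by
      rw [← sum_norm_sq_of_irr χ.2]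
      simp only [h2, ← Complex.re_sum]
      rw [hη', sum_avg]
      simp [Complex.mul_conj, Complex.normSq_eq_norm_sq, ← Complex.ofReal_pow]
    obtain ⟨m, hm⟩ := (hχ.restrict N).exists_nat_classInner (hχ.restrict N)
    have h6 : η 1 = m := by rw [← hm]; simp [hη', avg, classInner]
    have h7 : m ≠ 1 := fun e => h ((hχ.restrict N).isIrr_of_inner_eq_one (by simpa [e] using hm))
    have h8 : m ≠ 0 := fun e => h3 1 (by simp [h6, e])
    rw [← Finset.add_sum_erase _ _ (Finset.mem_univ 1), h6, Complex.norm_natCast,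
      Nat.card_eq_fintype_card, ← Finset.card_univ,
      ← Finset.card_erase_add_one (Finset.mem_univ (1 : G))] at h5
    have : (2 : ℝ) ≤ m := by exact_mod_cast (show 2 ≤ m by omega)
    push_cast at h5
    linarith
  · have := classInner_coset_self hχ h x
    simp [hx, classInner] at this

end Cfsg.Agent.S4996
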