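import Cfsg.Statements.S5001
import Mathlib
import Cfsg.Agent.H4.Rey

set_option autoImplicit false
open Cfsg

open Cfsg CfsgH4 CfsgH1 CfsgL0 MonoidAlgebra Function
open CfsgH3 hiding cj cj_cj
open scoped ComplexConjugate Pointwise

namespace Cfsg.Agent.S5001

/-- Let p be a prime, G a finite group and B a p-block of G (relative to a maximal ideal M of the algebraic integers containing p) with defect group D. Let Z be a central p-subgroup of G contained in D and λ a linear character of Z (a homomorphism to the nonzero complex numbers). Say an irreducible character χ of G lies over λ when χ(z) = χ(1)λ(z) for all z ∈ Z. If some irreducible character in B lying over λ has height zero, then λ extends to a linear character of D. -/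
theorem result {G : Type*} [Group G] [Finite G] (p : ℕ) [Fact p.Prime] (M : Ideal Cfsg.AlgInt) (hM : Cfsg.IsPModular p M) (B : Set (Cfsg.IrrCharacter G)) (hB : Cfsg.IsPBlock M B) (D : Subgroup G) (hD : Cfsg.IsDefectGroup p M B D) (Z : Subgroup G) (hZc : Z ≤ Subgroup.center G) (hZp : IsPGroup p ↥Z) (hZD : Z ≤ D) (lam : ↥Z →* ℂˣ) (χ : Cfsg.IrrCharacter G) (hχ : χ ∈ B) (hover : (∀ z : ↥Z, (χ : G → ℂ) z = (χ : G → ℂ) 1 * (lam z : ℂ))) (h0 : Cfsg.blockHeight p B (χ : G → ℂ) = 0) : (∃ μ : ↥D →* ℂˣ, ∀ z : ↥Z, μ ⟨(z : G), hZD z.2⟩ = lam z) := by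
  haveI : PMod p M := ⟨hM⟩
  obtain ⟨b, hb, hD'⟩ := hB.exists_root hD
  have := Fintype.ofFinite G
  have := Fintype.ofFinite ↥(D ⊔ Subgroup.centralizer (D : Set G))
  obtain ⟨ξ, hξ, h1, n, h2, h3⟩ := hb.indB.exists_height_zero_under
    (Subgroup.subtype_injective _) hb.1 hB hχ h0
  have hov : Over (D ⊔ Subgroup.centralizer (D : Set G)).subtype χ.1 ξ.1 := by
    rw [over_iff, h2]
    exact Nat.cast_ne_zero.2 (by rintro rfl; exact h3 (dvd_zero _))
  have hG := sup_cent_subgroupOf D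
  haveI := normal_of_sup_cent hG
  obtain ⟨θ, hθ, hk⟩ := hb.1.exists_ker hD'.isPGroup
  obtain ⟨Y, -, hY⟩ := hb.1.pc_structure hD' hG hθ hk
  obtain ⟨h4, h5⟩ := hY ξ hξ
  have h6 : (Y ξ).1 1 = 1 := lin_of_pgroup hD'.isPGroup (Y ξ).2 fun h => by
    have := (Fact.out : p.Prime).factorization_pos_of_dvd (charDegree_ne_zero (Y ξ).2) h
    omega
  obtain ⟨f, hf⟩ := (Y ξ).2.isCharacter.exists_monoidHom h6
  refine ⟨f.comp (Subgroup.subgroupOfEquivOfLe (le_sup_left : D ≤ _)).symm.toMonoidHom,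
    fun z => Units.ext ?_⟩
  have hp1 : ¬ p ∣ orderOf (1 : ↥(D ⊔ Subgroup.centralizer (D : Set G))) := by
    rw [orderOf_one]; exact (Fact.out : p.Prime).not_dvd_one
  have h7 := hov.central χ.2 ξ.2 (z := ⟨z, Subgroup.mem_sup_left (hZD z.2)⟩)
    (Subgroup.mem_center_iff.2 fun g => Subtype.ext (Subgroup.mem_center_iff.1 (hZc z.2) g))
    (hZc z.2)
  have h8 := h4 ⟨⟨z, Subgroup.mem_sup_left (hZD z.2)⟩, hZD z.2⟩ 1 hp1
  have h9 := h4 1 1 hp1
  rw [h6, mul_one, one_mul] at h9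
  rw [mul_one, hf] at h8
  simp only [Subgroup.subtype_apply, hover, h8, OneMemClass.coe_one] at h7 h9
  rw [h9, mul_div_cancel_left₀ _ χ.2.apply_one_ne_zero,
    mul_div_cancel_right₀ _ θ.2.apply_one_ne_zero] at h7
  exact h7.symm

end Cfsg.Agent.S5001
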