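import Cfsg.Statements.S5011
import Mathlib
import Cfsg.Agent.H4.Ch1

set_option autoImplicit false
open Cfsg

open Cfsg CfsgH3 CfsgH4 CfsgH1 Function
open CfsgH2 hiding cj
open scoped ComplexConjugate Pointwise

namespace Cfsg.Agent.S5011

/-- Let G be a finite non-abelian simple group and ρ an irreducible complex representation of G on a space of dimension greater than one (irreducible in the sense that the only subspaces invariant under every ρ(x) are 0 and the whole space). Then for every non-identity element g of G, the centralizer of g does not act irreducibly: there is a non-zero proper subspace invariant under ρ(c) for every c commuting with g. -/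
theorem result {G : Type*} [Group G] [Finite G] [IsSimpleGroup G]
    (hG : ¬ IsMulCommutative G) {V : Type*} [AddCommGroup V] [Module ℂ V] [FiniteDimensional ℂ V]
    (ρ : Representation ℂ G V)
    (hirr : ∀ W : Submodule ℂ V, (∀ x : G, ∀ v ∈ W, ρ x v ∈ W) → W = ⊥ ∨ W = ⊤)
    (hdim : 1 < Module.finrank ℂ V) (g : G) (hg : g ≠ 1) :
    ∃ W : Submodule ℂ V, W ≠ ⊥ ∧ W ≠ ⊤ ∧ ∀ c ∈ Subgroup.centralizer ({g} : Set G), ∀ v ∈ W, ρ c v ∈ W := by
  by_contra! hc
  have : Nontrivial V := Module.nontrivial_of_finrank_pos (R := ℂ) (by omega)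
  have : ρ.IsIrreducible := (isIrreducible_iff ρ).2 ⟨this, hirr⟩
  obtain ⟨μ, hμ⟩ := Module.End.exists_eigenvalue (ρ g)
  have h1 : Module.End.eigenspace (ρ g) μ = ⊤ := by
    by_contra h
    obtain ⟨c, h1, v, h2, h3⟩ := hc _ hμ h
    rw [Module.End.mem_eigenspace_iff] at h2 h3
    exact h3 (by rw [← Module.End.mul_apply, ← map_mul, h1 g rfl, map_mul, Module.End.mul_apply,
      h2, map_smul])
  have h2 := isIrr_of_rep ρ
  have h3 : g ∈ charCenter ρ.character := by
    rw [h2.isCharacter.mem_charCenter, Representation.char_one, Complex.norm_natCast,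
      norm_character_eq_iff]
    exact ⟨μ, LinearMap.ext fun v => Module.End.mem_eigenspace_iff.1 (h1.ge trivial)⟩
  rw [h2.charCenter_eq_bot (fun e => by
    have := congrFun e 1
    rw [Representation.char_one, Nat.cast_eq_one] at this
    omega) fun h => hG ⟨⟨h⟩⟩] at h3
  exact hg h3

end Cfsg.Agent.S5011
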