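import Mathlib
import Cfsg.Statements.S5075
import Cfsg.Agent.H8.McL3

set_option autoImplicit false
open Cfsg

namespace Cfsg.Agent.S5075

open CfsgH8.McL in
theorem aux1 {p : ℕ} [Fact p.Prime] {V : Type*} [AddCommGroup V] [Module (ZMod p) V] [Finite V]
    {H : Subgroup (V ≃ₗ[ZMod p] V)} {t : V ≃ₗ[ZMod p] V} (ht : t ∈ H) (h1 : orderOf t = p)
    (h2 : Module.finrank (ZMod p) ↥(LinearMap.ker ((t : V →ₗ[ZMod p] V) - LinearMap.id)) + 1 =
        Module.finrank (ZMod p) V) : ∃ x α, Sg H x α ∧ ∀ v, t v = v + α v • x := by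
  haveI : Module.Finite (ZMod p) V := Module.Finite.of_finite
  have e := LinearMap.finrank_range_add_finrank_ker ((t : V →ₗ[ZMod p] V) - LinearMap.id)
  obtain ⟨⟨x, hx⟩, x0, h⟩ := finrank_eq_one_iff'.1 (show Module.finrank (ZMod p)
    (LinearMap.range ((t : V →ₗ[ZMod p] V) - LinearMap.id)) = 1 by omega)
  replace x0 : x ≠ 0 := fun e => x0 (Subtype.ext e)
  obtain ⟨f, hf⟩ : ∃ f : V →ₗ[ZMod p] ZMod p, f x = 1 := by
    obtain ⟨f, hf⟩ : ∃ f : V →ₗ[ZMod p] ZMod p, f x ≠ 0 := by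
      by_contra hc
      push Not at hc
      exact x0 ((Module.forall_dual_apply_eq_zero_iff (ZMod p) x).1 hc)
    exact ⟨(f x)⁻¹ • f, by simp [hf]⟩
  have ap : ∀ v, t v = v + (f ∘ₗ ((t : V →ₗ[ZMod p] V) - LinearMap.id)) v • x := fun v => by
    obtain ⟨c, hc⟩ := h ⟨_, v, rfl⟩
    have hc : c • x = ((t : V →ₗ[ZMod p] V) - LinearMap.id : V →ₗ[ZMod p] V) v :=
      congrArg Subtype.val hc
    rw [LinearMap.comp_apply, ← hc, map_smul, hf, smul_eq_mul, mul_one, hc]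
    simp
  generalize f ∘ₗ ((t : V →ₗ[ZMod p] V) - LinearMap.id) = α at ap
  have e0 : α x = 0 := by
    have pw : ∀ k : ℕ, (t ^ k) x = (1 + α x) ^ k • x := fun k => by
      induction k with
      | zero => simp
      | succ k ih => rw [pow_succ', LinearEquiv.mul_apply, ih, map_smul, ap, pow_succ]; module
    have := pw p
    rw [ZMod.pow_card, show t ^ p = 1 from orderOf_dvd_iff_pow_eq_one.1 h1.dvd] at this
    have : α x • x = 0 := by
      simp only [LinearEquiv.coe_one, id] at this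
      linear_combination (norm := module) -this
    exact (smul_eq_zero_iff_left x0).1 this
  refine ⟨x, α, ⟨x0, ?_, e0, fun c => ⟨t ^ c.val, H.pow_mem ht _, fun v => ?_⟩⟩, ap⟩
  · rintro rfl
    clear h
    obtain ⟨v, hv⟩ := hx
    apply x0
    rw [← hv]
    simp [ap]
  · have pw : ∀ k : ℕ, (t ^ k) v = v + ((k : ZMod p) * α v) • x := fun k => by
      induction k with
      | zero => simp
      | succ k ih =>
        rw [pow_succ', LinearEquiv.mul_apply, ih, ap]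
        simp only [map_add, map_smul, e0, Nat.cast_succ]
        module
    rw [pw, ZMod.natCast_zmod_val]

open CfsgH8.McL in
theorem aux2 {p : ℕ} [Fact p.Prime] (hp : 3 ≤ p) {V : Type*} [AddCommGroup V] [Module (ZMod p) V]
    {H : Subgroup (V ≃ₗ[ZMod p] V)} (hOp : Cfsg.pCore p ↥H = ⊥) (X R : Submodule (ZMod p) V)
    (hX : Inv H X) (hR : Inv H R) (g : V ≃ₗ[ZMod p] V) (hg : g ∈ H) (h1 : ∀ v, g v - v ∈ X)
    (h2 : ∀ v ∈ X, g v - v ∈ R) (h3 : ∀ v ∈ R, g v = v) : g = 1 := by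
  rcases subsingleton_or_nontrivial V with hV | hV
  · exact LinearEquiv.ext fun v => Subsingleton.elim _ _
  let Q : Subgroup H :=
    { carrier := {g | (∀ v, g.1 v - v ∈ X) ∧ (∀ v ∈ X, g.1 v - v ∈ R) ∧ ∀ v ∈ R, g.1 v = v}
      one_mem' := by simp
      mul_mem' := by
        rintro a b ⟨a1, a2, a3⟩ ⟨b1, b2, b3⟩
        have e : ∀ v, (a * b).1 v - v = (a.1 (b.1 v) - b.1 v) + (b.1 v - v) := fun v => by
          rw [sub_add_sub_cancel]; rfl
        refine ⟨fun v => e v ▸ X.add_mem (a1 _) (b1 _),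
          fun v hv => e v ▸ R.add_mem (a2 _ (hX _ b.2 v hv)) (b2 v hv), fun v hv => ?_⟩
        change a.1 (b.1 v) = v
        rw [b3 v hv, a3 v hv]
      inv_mem' := by
        rintro a ⟨a1, a2, a3⟩
        have e : ∀ v, (a⁻¹).1 v - v = -(a.1 ((a⁻¹).1 v) - (a⁻¹).1 v) := fun v => by simp
        refine ⟨fun v => e v ▸ X.neg_mem (a1 _),
          fun v hv => e v ▸ R.neg_mem (a2 _ (hX _ a⁻¹.2 v hv)), fun v hv => ?_⟩
        change a.1.symm v = v
        rw [LinearEquiv.symm_apply_eq, a3 v hv] }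
  have hN : Q.Normal := ⟨by
    rintro a ⟨a1, a2, a3⟩ h
    have e : ∀ v, (h * a * h⁻¹).1 v - v = h.1 (a.1 ((h⁻¹).1 v) - (h⁻¹).1 v) := fun v => by
      simp [LinearEquiv.mul_apply]
    refine ⟨fun v => e v ▸ hX _ h.2 _ (a1 _), fun v hv => e v ▸ hR _ h.2 _ (a2 _ (hX _ h⁻¹.2 v hv)),
      fun v hv => ?_⟩
    rw [← sub_eq_zero, e, a3 _ (hR _ h⁻¹.2 v hv)]
    simp⟩
  have hP : IsPGroup p Q := by
    rintro ⟨a, a1, a2, a3⟩
    refine ⟨1, Subtype.ext (Subtype.ext (LinearEquiv.toLinearMap_injective ?_))⟩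
    haveI : CharP (Module.End (ZMod p) V) p :=
      charP_of_injective_algebraMap (algebraMap (ZMod p) (Module.End (ZMod p) V)).injective p
    have n3 : ((a.1 : Module.End (ZMod p) V) - 1) ^ 3 = 0 := by
      ext v
      simpa [pow_succ, sub_eq_zero] using a3 _ (a2 _ (a1 v))
    have := add_pow_char_of_commute p (Commute.one_left ((a.1 : Module.End (ZMod p) V) - 1))
    rw [add_sub_cancel, pow_eq_zero_of_le hp n3, one_pow, add_zero] at this
    rw [pow_one]
    refine Eq.trans ?_ this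
    exact map_pow (LinearEquiv.automorphismGroup.toLinearMapMonoidHom) a.1 p
  have : Q ≤ Cfsg.pCore p H := le_sSup ⟨hN, hP⟩
  rw [hOp] at this
  exact congrArg Subtype.val (Subgroup.mem_bot.1 (this (x := ⟨g, hg⟩) ⟨h1, h2, h3⟩))

/-- Let p be an odd prime, V a finite-dimensional vector space over the field with p elements, and H a group of linear automorphisms of V generated by transvections (elements of order p fixing a hyperplane pointwise) and having no nontrivial normal p-subgroup. Then for some n ≥ 1 there are a decomposition V = V₀ ⊕ V₁ ⊕ ⋯ ⊕ Vₙ into H-invariant subspaces and a decomposition of H as the internal direct product of normal subgroups H₁, …, Hₙ such that Hⱼ acts trivially on every Vᵢ with i ≠ j, and Hⱼ induces on Vⱼ exactly the special linear group of Vⱼ or exactly the isometry group of a non-degenerate alternating form on Vⱼ. -/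
theorem result {p : ℕ} [Fact p.Prime] (hp : Odd p) {V : Type*} [AddCommGroup V] [Module (ZMod p) V] [Finite V]
    (H : Subgroup (V ≃ₗ[ZMod p] V)) (T : Set (V ≃ₗ[ZMod p] V)) (hHT : H = Subgroup.closure T)
    (hT : ∀ t ∈ T, orderOf t = p ∧
      Module.finrank (ZMod p) ↥(LinearMap.ker ((t : V →ₗ[ZMod p] V) - LinearMap.id)) + 1 =
        Module.finrank (ZMod p) V)
    (hOp : Cfsg.pCore p ↥H = ⊥) :
    ∃ (n : ℕ) (W : Fin (n + 1) → Submodule (ZMod p) V) (K : Fin n → Subgroup (V ≃ₗ[ZMod p] V)),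
      1 ≤ n ∧ DirectSum.IsInternal W ∧
      (∀ h ∈ H, ∀ i, (W i).map (h : V →ₗ[ZMod p] V) = W i) ∧
      (∀ j, K j ≤ H ∧ ((K j).subgroupOf H).Normal) ∧ ⨆ j, K j = H ∧
      (∀ j, K j ⊓ (⨆ j' ∈ {j' : Fin n | j' ≠ j}, K j') = ⊥) ∧
      (∀ j j', j ≠ j' → ∀ a ∈ K j, ∀ b ∈ K j', a * b = b * a) ∧
      (∀ j, ∀ h ∈ K j, ∀ i : Fin (n + 1), i ≠ j.succ → ∀ v ∈ W i, h v = v) ∧
      (∀ j, ∃ ρ : ↥(K j) →* (↥(W j.succ) ≃ₗ[ZMod p] ↥(W j.succ)),
        (∀ (h : ↥(K j)) (v : ↥(W j.succ)), ((ρ h v : ↥(W j.succ)) : V) = (h : V ≃ₗ[ZMod p] V) (v : V)) ∧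
        ((ρ.range : Set (↥(W j.succ) ≃ₗ[ZMod p] ↥(W j.succ))) =
            {f : ↥(W j.succ) ≃ₗ[ZMod p] ↥(W j.succ) | LinearMap.det (f : ↥(W j.succ) →ₗ[ZMod p] ↥(W j.succ)) = 1} ∨
          ∃ B : LinearMap.BilinForm (ZMod p) ↥(W j.succ), B.IsAlt ∧ B.Nondegenerate ∧
            (ρ.range : Set (↥(W j.succ) ≃ₗ[ZMod p] ↥(W j.succ))) = {f : ↥(W j.succ) ≃ₗ[ZMod p] ↥(W j.succ) | ∀ x y, B (f x) (f y) = B x y})) := by
  open CfsgH8.McL in
  haveI : Module.Finite (ZMod p) V := Module.Finite.of_finite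
  haveI : Finite (V →ₗ[ZMod p] ZMod p) := Finite.of_injective _ DFunLike.coe_injective
  have h3 : 3 ≤ p := by
    have := (Fact.out : p.Prime).two_le
    obtain ⟨k, rfl⟩ := hp
    omega
  refine Hyp.final ⟨fun e => ?_, fun K hK => ?_, aux2 h3 hOp⟩
  · have := (ZMod.natCast_eq_zero_iff 2 p).1 (by simpa using e)
    have := Nat.le_of_dvd two_pos this
    omega
  · rw [hHT, Subgroup.closure_le]
    intro t ht
    obtain ⟨x, α, h1, h2⟩ := aux1 (H := H) (hHT ▸ Subgroup.subset_closure ht) (hT t ht).1 (hT t ht).2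
    exact hK x α t h1 h2

end Cfsg.Agent.S5075
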