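import Cfsg.Statements.S5112
import Cfsg.Agent.H2.Pq4
import Cfsg.Agent.L0.MC2
import Cfsg.Agent.L0.Fus2

set_option autoImplicit false
open Cfsg

namespace Cfsg.Agent.S5112
open CfsgH2
section
open Subgroup Function
open scoped commutatorElement

theorem aut2 {G : Type*} [Group G] [Finite G] (n : ℕ) (hn : 4 ≤ n)
    (h : Nonempty (G ≃* DihedralGroup (2 ^ (n - 1))) ∨ Nonempty (G ≃* QuaternionGroup (2 ^ (n - 2)))) :
    IsPGroup 2 (MulAut G) := by
  obtain ⟨H, _, _, i, j, hi, hj, h1, -⟩ := exists_hol G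
  let e0 : ((⊤ : Subgroup G).map i) ≃* G := ((⊤ : Subgroup G).equivMapOfInjective i hi).symm.trans topEquiv
  obtain ⟨a, b, m, hm, hq⟩ : ∃ a b m, MC ((⊤ : Subgroup G).map i) a b m ∧ CfsgL0.NQ ((⊤ : Subgroup G).map i) a m := by
    rcases h with ⟨⟨e⟩⟩ | ⟨⟨e⟩⟩
    · have c : Nat.card ((⊤ : Subgroup G).map i) = 2 ^ (n - 1 + 1) := by
        rw [Nat.card_congr (e0.trans e).toEquiv, DihedralGroup.nat_card, pow_succ']
      rcases CfsgL0.dh_of (isPGroup_of_card c) (Nat.le_self_pow (by omega) 2) (e0.trans e) with d | ⟨a, b, m, d⟩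
      · have := Nat.pow_right_injective le_rfl (c.symm.trans (d.1.trans (by norm_num : 4 = 2 ^ 2)))
        omega
      · exact ⟨a, b, m, d.toMC, d.nq⟩
    · obtain ⟨a, b, d⟩ := CfsgH4.gq_of_equiv (by omega) (e0.trans e)
      exact ⟨a, b, _, ⟨d.toCy2, d.pos, .inr (.inl ⟨d.sq', d.inv⟩)⟩, .inl (by omega)⟩
  have h2 := (CfsgL0.mc_aut hm hq le_rfl).resolve_right fun e => CfsgL0.mc_a_nmem hm (e ⟨hm.amem, mem_zpowers a⟩)
  refine isPGroup_iff_piN.2 fun q hq d => ?_
  by_contra f
  haveI := Fact.mk hq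
  obtain ⟨x, o⟩ := exists_prime_orderOf_dvd_card' q d
  have := (hol_cent hi h1).1 (h2 (j x) (hol_norm h1 ⊤ ⟨x, trivial, rfl⟩) (by
    rw [orderOf_injective j hj, o]; exact hq.odd_of_ne_two f))
  rw [show x = 1 from MulEquiv.ext fun g => this g trivial, orderOf_one] at o
  exact hq.ne_one o.symm

end

/-- If S is a dihedral or generalized quaternion 2-group of order at least 16, then in every saturated fusion system over S (at the prime 2) the automorphism group Aut_F(S) consists of the inner automorphisms of S. -/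
theorem result {Ω : Type*} [Group Ω] {S : Subgroup Ω} [Finite S] (n : ℕ) (hn : 4 ≤ n) (hshape : Nonempty (S ≃* DihedralGroup (2 ^ (n - 1))) ∨ Nonempty (S ≃* QuaternionGroup (2 ^ (n - 2)))) (F : Cfsg.FusionSystem S) (hF : F.IsSaturated 2) : F.autGroup S = Cfsg.Inn S := by
  open Subgroup Function in open scoped commutatorElement in
  · open CfsgL0 in
    obtain ⟨Q, ⟨φ, h1, rfl⟩, h2, -⟩ := hF S le_rfl
    have e : φ.range = S := by
      refine (Subgroup.eq_of_le_of_card_ge h2.1 ?_)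
      exact (Nat.card_congr (MonoidHom.ofInjective (F.injective_of_mem h1)).toEquiv).le
    rw [e] at h2
    rw [inn_eq, (fa_iff.1 h2).2.eq_of_pgroup ((aut2 n hn hshape).to_subgroup _)]

end Cfsg.Agent.S5112
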