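import Cfsg.Statements.S5115
import Mathlib
import Cfsg.Agent.L0.Fus14

set_option autoImplicit false
open Cfsg

namespace Cfsg.Agent.S5115

open Cfsg Subgroup CfsgH2 CfsgL0

theorem aux {G : Type*} [Group G] [Finite G] {p : ℕ} [Fact p.Prime] {S H : Subgroup G} (hS : Syl p S ⊤)
    (hF : (groupFusionSystem S).IsConstrained p) (hH : H.IsSubnormal) : Syl p (S ⊓ H) H ∧
      (fusionSystemOfSubgroup H (S ⊓ H) inf_le_right).IsConstrained p := by
  have key : ∀ T K, T = S → K = ⊤ → ∀ h : T ≤ K, (fusionSystemOfSubgroup K T h).IsConstrained p := by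
    rintro _ _ rfl rfl _; rwa [← group_eq_sub]
  have key2 : ∀ T U : Subgroup G, U = T → ∀ K (h : T ≤ K) (h' : U ≤ K), (fusionSystemOfSubgroup K T h).IsConstrained p →
      (fusionSystemOfSubgroup K U h').IsConstrained p := by
    rintro _ _ rfl _ _ _ h; exact h
  induction hH with
  | top => exact ⟨by simpa using hS, key _ _ (inf_top_eq _) rfl _⟩
  | step H K h _ hn ih =>
    have hn' := (normal_subgroupOf_iff' h).1 hn
    have e : S ⊓ H = S ⊓ K ⊓ H := by rw [inf_assoc, inf_eq_right.2 h]
    have := (sub_sub_normal ih.1 h hn').1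
    exact ⟨e ▸ ih.1.inf_norm h (inf_le_right.trans hn'), key2 _ _ e _ _ _
      (constrained_sub ih.1.pg ih.2 this.1 this.2.2.1 this.2.2.2.1)⟩

theorem aux2 {G : Type*} [Group G] [Finite G] {p : ℕ} [Fact p.Prime] {S H : Subgroup G} (hS : Syl p S ⊤)
    (hF : (groupFusionSystem S).IsConstrained p) (hH : H.IsSubnormal) : Syl p (S.subgroupOf H) ⊤ ∧
      (groupFusionSystem (S.subgroupOf H)).IsConstrained p := by
  obtain ⟨a, b⟩ := aux hS hF hH
  have h1 : Syl p (S.subgroupOf H) ⊤ := by simpa using a.subgroupOf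
  refine ⟨h1, ?_⟩
  have key : ∀ T K, T = S ⊓ H → K = H → ∀ h : T ≤ K, (fusionSystemOfSubgroup K T h).IsConstrained p := by
    rintro _ _ rfl rfl _; exact b
  rw [group_eq_sub]
  exact ((sub_smor h1 H.subtype).constrained_iff (H.subtype_injective.comp (subtype_injective _)) h1.pg).1
    (key _ _ (subgroupOf_map_subtype _ _) (map_subtype_top _) _)

/-- If the 2-fusion system of a finite group G on a Sylow 2-subgroup S is constrained, then for every subnormal subgroup H of G the 2-fusion system of H on S ∩ H is constrained. -/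
theorem result {G : Type*} [Group G] [Finite G] (S : Sylow 2 G) (hF : (Cfsg.groupFusionSystem (S : Subgroup G)).IsConstrained 2) (H : Subgroup G) (hH : H.IsSubnormal) : (Cfsg.groupFusionSystem ((S : Subgroup G).subgroupOf H)).IsConstrained 2 := by
  exact (aux2 (syl_top S) hF hH).2

end Cfsg.Agent.S5115
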