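import Cfsg.Statements.S5121
import Mathlib
import Cfsg.Agent.L0.Fus14

set_option autoImplicit false
open Cfsg

namespace Cfsg.Agent.S5121

open Cfsg Subgroup CfsgH2 CfsgL0

/-- Let G be a finite group with Sylow p-subgroup S and C_G(O_p(G)) ≤ O_p(G). For every subgroup T ≤ S and every normal subsystem E over T of the fusion system of G on S there is exactly one normal subgroup H of G containing T as a Sylow p-subgroup whose fusion system on T is E. -/
theorem result {G : Type*} [Group G] [Finite G] (p : ℕ) [Fact p.Prime] (S : Sylow p G) (hG : Subgroup.centralizer ((Cfsg.pCore p G : Subgroup G) : Set G) ≤ Cfsg.pCore p G) (T : Subgroup G) (hTS : T ≤ S) (E : Cfsg.FusionSystem T) (hE : E.IsNormalIn (Cfsg.groupFusionSystem (S : Subgroup G)) p) : ∃ H : Subgroup G, (∃ hTH : T ≤ H, H.Normal ∧ (∃ R : Sylow p H, (R : Subgroup H) = T.subgroupOf H) ∧ ∀ P : Subgroup G, E.Hom P = (Cfsg.fusionSystemOfSubgroup H T hTH).Hom P) ∧ ∀ H' : Subgroup G, (∃ hTH' : T ≤ H', H'.Normal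 ∧ (∃ R : Sylow p H', (R : Subgroup H') = T.subgroupOf H') ∧ ∀ P : Subgroup G, E.Hom P = (Cfsg.fusionSystemOfSubgroup H' T hTH').Hom P) → H' = H := by
  have hU := syl_top S
  obtain ⟨H, a, ⟨e, b⟩, c⟩ := exists_normal_model hU hG hE
  refine ⟨H, ⟨e.ge.trans inf_le_right, a, (syl_iff_exists (e.ge.trans inf_le_right)).2
    (e ▸ hU.inf_norm le_top le_normalizer_of_normal), fun P => by rw [b]⟩, fun H' ⟨h1, h2, h3, h4⟩ =>
      c H' h2 (((syl_iff_exists h1).1 h3).eq_of_le (hU.pg.to_le inf_le_left) (le_inf hTS h1) inf_le_right)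
        (fs_ext h4)⟩

end Cfsg.Agent.S5121
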