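import Cfsg.Statements.S5139
import Mathlib
import Cfsg.Agent.L0.Deg2

set_option autoImplicit false
open Cfsg

namespace Cfsg.Agent.S5139

open CfsgL0 CfsgH2

/-- Let G be a finite group with Sylow p-subgroup S and O^p(G) the subgroup generated by the elements of order prime to p. Then the p-residual subsystem of the fusion system of G on S — the saturated subsystem of p-power index over the hyperfocal subgroup — is the fusion system of O^p(G) on S ∩ O^p(G): its maps are exactly the conjugation maps by elements of O^p(G) between subgroups of S ∩ O^p(G). -/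
theorem result {G : Type*} [Group G] [Finite G] (p : ℕ) [Fact p.Prime] (S : Sylow p G) (E : Cfsg.FusionSystem ((Cfsg.groupFusionSystem (S : Subgroup G)).hyperfocalSubgroup p)) (hE : (Cfsg.groupFusionSystem (S : Subgroup G)).IsPResidual p E) : ∃ h : (S : Subgroup G) ⊓ Cfsg.pResidual p G ≤ Cfsg.pResidual p G, ∀ P : Subgroup G, E.Hom P = (Cfsg.fusionSystemOfSubgroup (Cfsg.pResidual p G) ((S : Subgroup G) ⊓ Cfsg.pResidual p G) h).Hom P := by
  refine ⟨inf_le_right, ?_⟩
  have h := sub_hyp (syl_top S)
  rw [← group_eq_sub, ← pResidual_eq] at h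
  exact hom_eq_of_ppi S.isPGroup' h.1 hE.1 hE.2 (sub_sat ((syl_top S).inf_norm le_top
    (pResidual_eq (p := p) (G := G) ▸ le_top.trans le_norm_piRes))) h.2

end Cfsg.Agent.S5139
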