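import Cfsg.Statements.S5147
import Mathlib
import Cfsg.Agent.S5115

set_option autoImplicit false
open Cfsg

namespace Cfsg.Agent.S5147

open Cfsg Subgroup CfsgH2 CfsgL0

/-- Let G be a finite group with Sylow 2-subgroup S whose 2-fusion system on S is constrained, and L a component of G (a subnormal quasisimple subgroup). Then the 2-fusion system of L/Z(L) on the image of S ∩ L is constrained. -/
theorem result {G : Type*} [Group G] [Finite G] (S : Sylow 2 G) (hF : (Cfsg.groupFusionSystem (S : Subgroup G)).IsConstrained 2) (L : Subgroup G) (hL : Cfsg.IsComponent L) : (Cfsg.groupFusionSystem (((S : Subgroup G).subgroupOf L).map (QuotientGroup.mk' (Subgroup.center L)))).IsConstrained 2 := by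
  obtain ⟨a, b⟩ := S5115.aux2 (syl_top S) hF hL.1
  rw [group_eq_sub] at b ⊢
  have key : ∀ K, K = ⊤ → ∀ h h', (fusionSystemOfSubgroup K (((S : Subgroup G).subgroupOf L).map
      (QuotientGroup.mk' (center L))) h).IsConstrained 2 → (fusionSystemOfSubgroup ⊤ (((S : Subgroup G).subgroupOf L).map
      (QuotientGroup.mk' (center L))) h').IsConstrained 2 := by
    rintro _ rfl _ _ h; exact h
  refine key _ (map_top_of_surjective _ (QuotientGroup.mk'_surjective _)) _ _ (constrained_quot a.pg b
    (sub_smor a _) (central_of_fix a.pg b.1 pre_le fun P f hf x hx h => ?_))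
  obtain ⟨-, -, g, -, e⟩ := M_sub.1 hf
  have := mem_ker_pre.1 h
  rw [ex_comp_subtype _ this.1] at this
  rw [e x hx, mem_center_iff.1 ((QuotientGroup.eq_one_iff _).1 this.2) g, mul_inv_cancel_right]

end Cfsg.Agent.S5147
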