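import Cfsg.Statements.S5148
import Mathlib
import Cfsg.Agent.L0.Fus6

set_option autoImplicit false
open Cfsg

namespace Cfsg.Agent.S5148

open CfsgL0 CfsgH2

/-- A quasisimple fusion system over a finite p-group S (saturated, equal to its p-residual subsystem, with simple — in particular nontrivial — factor system modulo its centre) has S nonabelian. -/
theorem result {Ω : Type*} [Group Ω] {S : Subgroup Ω} [Finite S] (p : ℕ) [Fact p.Prime] (hS : IsPGroup p S) (F : Cfsg.FusionSystem S) (hq : F.Quasisimple p) : ¬ IsMulCommutative S := by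
  intro hc
  have e : F.center = FusionSystem.preimageAlong (QuotientGroup.mk' (F.center.subgroupOf S)) ⊥ := by
    rw [FusionSystem.preimageAlong, MonoidHom.comap_bot, QuotientGroup.ker_mk',
      Subgroup.subgroupOf_map_subtype, inf_eq_left.2 center_le]
  have hsc := normal_sc (central_normal (central_center (F := F)))
  have hr := (range_ex _).symm.trans (MonoidHom.range_eq_top.2 (QuotientGroup.mk'_surjective (F.center.subgroupOf S)))
  obtain ⟨E, hE⟩ := exists_factor (F := F) (θ := QuotientGroup.mk' (F.center.subgroupOf S)) (e ▸ hsc) hr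
  rw [← e] at hE
  have hs := hq.2.2 E hE
  have hm := factor_smor hS hq.1 hsc hE
  have h1 := hm.normal_im (normal_of_comm hS hq.1 sc_top hc)
  rw [hr] at h1
  have h2 := ((hs.2.2 _ _ (inner_normal (hm.pgroup hS) hs.1 h1)).resolve_left hs.2.1).2
  have h3 := hm.hyp (p := p)
  rw [hq.2.1, hr] at h3
  refine hs.2.1 (eq_bot_iff.2 (h3.ge.trans (hyp_le_iff'.2 fun P hP α hα _ x hx => ?_)))
  obtain ⟨-, k, -, b⟩ := M_inner.1 ((hom_eq_iff_M.1 h2 _ _).2 ((mem_aut hP).1 hα))
  obtain ⟨k, rfl⟩ := QuotientGroup.mk_surjective k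
  rw [b x hx]
  obtain ⟨x, rfl⟩ := QuotientGroup.mk_surjective x
  rw [← QuotientGroup.mk_mul, mul_comm' k x, QuotientGroup.mk_mul]
  simp

end Cfsg.Agent.S5148
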