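import Cfsg.Statements.S5153
import Mathlib
import Cfsg.Agent.L0.Fus6

set_option autoImplicit false
open Cfsg

namespace Cfsg.Agent.S5153

open CfsgL0 CfsgH2

theorem aux {Ω : Type*} [Group Ω] {p : ℕ} [Fact p.Prime] {T S : Subgroup Ω} {E : FusionSystem T}
    {F : FusionSystem S} {q : ℕ} (hE : E.IsSubnormalIn F q) : q = p → Finite S → IsPGroup p S →
    T ≤ S ∧ ∀ P ≤ T, F.IsFullyNormalized P → E.IsFullyNormalized P := by
  induction hE with
  | refl F q => exact fun _ _ _ => ⟨le_rfl, fun _ _ h => h⟩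
  | step h1 h2 ih =>
    rintro rfl _ hS
    have hU := sub_le h2.1.2.2.1
    obtain ⟨a, b⟩ := ih rfl (finite_of_le hU) (hS.to_le hU)
    exact ⟨a.trans hU, fun P hP h => b P hP
      (fn_sub hS h2.1.2.1 h2.1.2.2.2.1 h2.1.2.2.1 (hP.trans a) h)⟩

/-- Let F be a saturated fusion system over a finite p-group S and E a subnormal subsystem of F over T. Then every subgroup of T that is fully normalized in F is fully normalized in E. -/
theorem result {Ω : Type*} [Group Ω] {S : Subgroup Ω} [Finite S] (p : ℕ) [Fact p.Prime] (hS : IsPGroup p S) (F : Cfsg.FusionSystem S) (hF : F.IsSaturated p) {T : Subgroup Ω} (E : Cfsg.FusionSystem T) (hE : E.IsSubnormalIn F p) (P : Subgroup Ω) (hPT : P ≤ T) (hP : F.IsFullyNormalized P) : E.IsFullyNormalized P := by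
  exact (aux hE rfl ‹_› hS).2 P hPT hP

end Cfsg.Agent.S5153
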