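import Cfsg.Statements.S5159
import Mathlib
import Cfsg.Agent.L0.Fus10

set_option autoImplicit false
open Cfsg

namespace Cfsg.Agent.S5159

open CfsgL0

/-- Let F be a saturated fusion system over a finite p-group S, E a normal subsystem over T, and D the factor system of F modulo T (read through any homomorphism on S with kernel T). Then F is solvable if and only if E and D are solvable (solvable, for a system over a subgroup S: for every subgroup R other than S that is strongly closed in F, the factor system of F modulo R has a nontrivial subgroup normal in it). -/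
theorem result {Ω : Type*} [Group Ω] {S : Subgroup Ω} [Finite S] (p : ℕ) [Fact p.Prime] (hS : IsPGroup p S) (F : Cfsg.FusionSystem S) (hF : F.IsSaturated p) {T : Subgroup Ω} (E : Cfsg.FusionSystem T) (hE : E.IsNormalIn F p) {Ω' : Type*} [Group Ω'] {S' : Subgroup Ω'} (θ : S →* Ω') (D : Cfsg.FusionSystem S') (hD : F.IsFactorSystem T θ D) : F.IsSolvableSystem ↔ (E.IsSolvableSystem ∧ D.IsSolvableSystem) := by
  have h1 := hE.1
  haveI := finite_of_le (sub_le h1.2.2.1)
  have k := factor_smor hS hF h1.2.2.2.1 hD
  haveI := k.finite
  rw [solv_iff hS hF, solv_iff (hS.to_le (sub_le h1.2.2.1)) h1.1, solv_iff (k.pgroup hS) (k.sat hS hF)]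
  exact ⟨fun h => ⟨h.sub' h1.2.2.1, k.range ▸ h.im k⟩, fun h => by
    have := Ch.pre k.toMor ((factor_iff.1 hD).1 ▸ h.1.of_inv h1.2.2) h.2
    rwa [k.pre_top] at this⟩

end Cfsg.Agent.S5159
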