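import Cfsg.Statements.S5163
import Mathlib
import Cfsg.Agent.L0.FS3

set_option autoImplicit false
open Cfsg

namespace Cfsg.Agent.S5163

open CfsgL0 CfsgL0.Uni CfsgH2 Subgroup Matrix

/-- For a finite field K of characteristic p and n ≥ 3, the p-fusion system of the projective special linear group PSL_n(K) on a Sylow p-subgroup is simple. -/
theorem result {K : Type*} [Field K] [Fintype K] (p : ℕ) [Fact p.Prime] [CharP K p] (n : ℕ) (hn : 3 ≤ n) (S : Sylow p (Matrix.ProjectiveSpecialLinearGroup (Fin n) K)) : (Cfsg.groupFusionSystem (S : Subgroup (Matrix.ProjectiveSpecialLinearGroup (Fin n) K))).IsSimple p := by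
  classical
  obtain ⟨m, rfl⟩ : ∃ m, n = m + 3 := ⟨n - 3, by omega⟩
  obtain ⟨U, hU⟩ := exists_sylow (K := K) (ι := Fin (m + 3)) p
  have l0 : (0 : Fin (m + 3)) < Fin.last _ := Fin.last_pos
  have l1 : (1 : Fin (m + 3)) < Fin.last _ := by rw [Fin.lt_def]; simp
  refine simple_map U (gsimple U ?_ (fun T hT => or_iff_not_imp_left.2 fun h0 => ?_) fun g hg => ?_)
    (QuotientGroup.mk' _) (QuotientGroup.mk'_surjective _) (fun x hx h => ?_) S
  · intro e
    have := mem_bot.1 (e.le (hU.ge (tv_mem l0.ne 1 l0)))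
    exact one_ne_zero ((SpecialLinearGroup.transvection_mem_center_iff l0.ne (1 : K)).1 (this ▸ one_mem _))
  · obtain ⟨⟨z, hz⟩, z1⟩ := ne_bot_iff_exists_ne_one.1 (inf_cent_ne_bot U.isPGroup' (H := T)
      (fun s hs => mem_normalizer_fintype fun x hx => hT.norm hs hx) (dvd_card_of_pgroup (U.isPGroup'.to_le hT.1) h0))
    replace z1 : z ≠ 1 := fun e => z1 (Subtype.ext e)
    have z2 : z ∈ UT K (Fin (m + 3)) := hU.le (hT.1 hz.1)
    have z3 : z = SpecialLinearGroup.transvection l0.ne (z.1 0 (Fin.last _)) := Subtype.ext (by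
      rw [SpecialLinearGroup.transvection_coe, ← sub_eq_iff_eq_add']
      ext i j
      by_cases e : i < j
      · by_cases h1 : j = Fin.last _
        · by_cases h2 : i = 0
          · subst h1 h2; simp
          · have h3 := Fin.pos_iff_ne_zero.2 h2
            simp [(comm_tv h3.ne (hz.2 _ (hU.ge (tv_mem h3.ne 1 h3)))).2 j e.ne', e.ne, Ne.symm h2]
        · have h3 := Fin.lt_last_iff_ne_last.2 h1
          simp [(comm_tv h3.ne (hz.2 _ (hU.ge (tv_mem h3.ne 1 h3)))).1 i e.ne, e.ne, Ne.symm h1]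
      · rw [z2 i j e, single_apply, if_neg]
        rintro ⟨rfl, rfl⟩
        exact e l0)
    have z4 : z.1 0 (Fin.last _) ≠ 0 := fun e => z1 (by rw [z3, e, SpecialLinearGroup.transvection_coeff_zero])
    refine le_antisymm hT.1 (hU ▸ UT_le fun i j e c => ?_)
    by_cases hc : c = 0
    · rw [hc, SpecialLinearGroup.transvection_coeff_zero]; exact one_mem _
    obtain ⟨u, hu⟩ := isConj_iff.1 (tv_conj (by simp) l0.ne e.ne z4 hc)
    rw [← z3] at hu
    exact hu ▸ hT.2 z hz.1 u (hu ▸ hU.ge (tv_mem e.ne c e))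
  · have h1 := norm_UT (hU ▸ hg)
    have h2 : det (diagonal fun i => g.1 i i) = 1 := by
      rw [det_diagonal, ← det_of_upperTriangular fun i j e => h1 i j (not_le.2 e), g.2]
    set D : SpecialLinearGroup (Fin (m + 3)) K := ⟨_, h2⟩
    have h3 : D⁻¹ * g ∈ UT K (Fin (m + 3)) := by
      have e := norm_UT (inv_mem (diag_norm (g := D) rfl))
      refine mem_UT (e.mul h1 fun _ _ _ => le_trans) fun i => ?_
      have := diag_mul e (norm_UT (diag_norm (g := D) rfl)) i
      rw [← Matrix.SpecialLinearGroup.coe_mul, inv_mul_cancel] at this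
      rw [Matrix.SpecialLinearGroup.coe_mul, diag_mul e h1]
      simpa [D] using this.symm
    rw [← mul_inv_cancel_left D g]
    refine mul_mem ?_ (subset_closure ⟨le_normalizer (hU.ge h3), Or.inr ⟨U, centric_top,
      subset_closure ⟨le_normalizer (hU.ge h3), ?_⟩⟩⟩)
    · simp only [D]
      rw [SpecialLinearGroup.diag_eq_diag2n_prod 1 _ h2]
      refine noncommProd_mem _ _ fun i hi => ?_
      have hi := (Finset.mem_filter.1 hi).2
      rw [dif_pos hi]
      refine subset_closure ⟨hU ▸ diag_norm rfl, Or.inr ?_⟩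
      by_cases h0 : i = 0
      · subst h0
        refine ⟨pat K (fun i j => i < j ∧ j = Fin.last _) fun i j k a b => ⟨a.1.trans b.1, b.2⟩,
          centric_of U.isPGroup' (fun x hx => hU.ge (Sp.mono hx fun _ _ => And.left)) ?_,
          diag2n_mem_PN p hi _ (fun k => ?_) fun k => ?_⟩
        · rintro x hx ⟨k, hk⟩
          have e1 : ∀ i ≠ Fin.last _, ∀ l ≠ i, x.1 l i = 0 := fun i hi =>
            (comm_tv hi (hx _ (tv_mem hi 1 ⟨Fin.lt_last_iff_ne_last.2 hi, rfl⟩))).1
          have e2 : Sp (· ≤ ·) x.1 := fun i j k => e1 j (by rintro rfl; exact k (Fin.le_last _)) i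
            fun e => k e.le
          intro i j h
          by_cases e : i < j
          · simp [e1 j (fun k => h ⟨e, k⟩) i e.ne, e.ne]
          · exact mem_UT e2 (diag_eq_one p e2 hk) i j e
        · exact and_congr_left fun e => by simp [e, l0, l1]
        · simp [l0.ne, l1.ne]
      · refine ⟨pat K (fun i j => i < j ∧ i = 0) fun i j k a b => ⟨a.1.trans b.1, a.2⟩,
          centric_of U.isPGroup' (fun x hx => hU.ge (Sp.mono hx fun _ _ => And.left)) ?_,
          diag2n_mem_PN p hi _ (fun k => ?_) fun k => ?_⟩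
        · rintro x hx ⟨k, hk⟩
          have e1 : ∀ j ≠ 0, ∀ l ≠ j, x.1 j l = 0 := fun j hj =>
            (comm_tv hj.symm (hx _ (tv_mem hj.symm 1 ⟨Fin.pos_iff_ne_zero.2 hj, rfl⟩))).2
          have e2 : Sp (· ≤ ·) x.1 := fun i j k => e1 i (by rintro rfl; exact k (Fin.zero_le _)) j
            fun e => k e.ge
          intro i j h
          by_cases e : i < j
          · simp [e1 i (fun k => h ⟨e, k⟩) j e.ne', e.ne]
          · exact mem_UT e2 (diag_eq_one p e2 hk) i j e
        · simp [h0]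
        · exact and_congr_left fun e => by simp [e, Fin.pos_iff_ne_zero.2 h0]
    · obtain ⟨k, hk⟩ := U.isPGroup' ⟨_, hU.ge h3⟩
      exact ⟨k, congrArg Subtype.val hk⟩
  · obtain ⟨r, -, hr⟩ := Matrix.SpecialLinearGroup.mem_center_iff.1 ((QuotientGroup.eq_one_iff x).1 h)
    have := hU.le hx 0 0 (lt_irrefl _)
    rw [← hr] at this
    refine Subtype.ext (hr.symm.trans ?_)
    rw [show r = 1 by simpa [sub_eq_zero] using this, map_one]
    rfl

end Cfsg.Agent.S5163
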