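import Cfsg.Statements.S5164
import Cfsg.Agent.H1.Misc1
import Cfsg.Agent.H2.BG0
import Cfsg.Agent.S4623

set_option autoImplicit false
open Cfsg

namespace Cfsg.Agent.S5164

section
open Subgroup CfsgH2 Equiv Equiv.Perm MulAction
open CfsgH1 hiding card_inf_mul_relIndex card_lt_of_lt card_lt_of_ne_top card_map_mul_card_inf_ker card_mul_relIndex card_subgroupOf card_sup_dvd card_sup_mul_card_inf coprime_le_sup_cent exists_card_prime_le isNilpotent_map isNilpotent_of_le isPGroup_pCore isSolvable_map isSolvable_of_le le_pCore le_pPrimeCore relIndex_map_dvd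
open scoped CfsgH1
open scoped commutatorElement

theorem key {n p : ℕ} [Fact p.Prime] (S : Sylow p (alternatingGroup (Fin n))) (h : IsMulCommutative S) {α : Type} [Fintype α] [DecidableEq α]
    (hc : Fintype.card α ≤ n) {U : Subgroup (Perm α)} (hU : IsPGroup p U) {x y : Perm α} (hx : x ∈ U) (hy : y ∈ U) (sx : sign x = 1)
    (sy : sign y = 1) : x * y = y * x := by
  classical
  obtain ⟨i⟩ := Function.Embedding.nonempty_of_card_le (hc.trans_eq (Fintype.card_fin n).symm)
  let f := extendDomainHom (Equiv.ofInjective i i.2)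
  obtain ⟨Q, hQ⟩ := ((hU.map f).comap_subtype (K := alternatingGroup (Fin n))).exists_le_sylow
  let e := Sylow.equiv Q S
  have := e.injective ((map_mul e ⟨⟨f x, (sign_extendDomain _ _).trans sx⟩, hQ (mem_map_of_mem f hx)⟩
    ⟨⟨f y, (sign_extendDomain _ _).trans sy⟩, hQ (mem_map_of_mem f hy)⟩).trans ((h.1.1 _ _).trans (map_mul e _ _).symm))
  exact extendDomainHom_injective _ (by rw [map_mul, map_mul]; exact congrArg (·.1.1) this)

end

/-- For n ≥ 6 and a prime p, a nontrivial Sylow p-subgroup of the alternating group of degree n is abelian if and only if n < p². -/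
theorem result (n p : ℕ) (hn : 6 ≤ n) [Fact p.Prime] (S : Sylow p (alternatingGroup (Fin n))) (hS : (S : Subgroup (alternatingGroup (Fin n))) ≠ ⊥) : IsMulCommutative S ↔ n < p ^ 2 := by
  open Subgroup CfsgH2 Equiv Equiv.Perm MulAction in
  open CfsgH1 hiding card_inf_mul_relIndex card_lt_of_lt card_lt_of_ne_top card_map_mul_card_inf_ker card_mul_relIndex card_subgroupOf card_sup_dvd card_sup_mul_card_inf coprime_le_sup_cent exists_card_prime_le isNilpotent_map isNilpotent_of_le isPGroup_pCore isSolvable_map isSolvable_of_le le_pCore le_pPrimeCore relIndex_map_dvd in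
  open scoped CfsgH1 in
  open scoped commutatorElement in
  · have hp : p.Prime := Fact.out
    refine ⟨fun h => by_contra fun c => ?_, fun h => comm_self_eq_bot_iff.1 (eq_bot_iff.2 fun x hx => Subtype.ext (Equiv.ext fun i => ?_))⟩
    · rcases hp.eq_two_or_odd' with rfl | ho
      · let a : Perm (Fin 6) := swap 0 1 * swap 4 5
        let b : Perm (Fin 6) := swap 0 2 * swap 1 3
        refine absurd (key S h (α := Fin 6) (by simpa) (isPGroup_sup (isPGroup_zpowers (x := a) (k := 1) (by decide))
          (isPGroup_zpowers (x := a * b) (k := 2) (by decide)) (.inl (zpowers_le.2 (mem_norm_zpowers ?_))))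
          (mem_sup_left (mem_zpowers _)) (mem_sup_right (mem_zpowers _)) (by decide) (by decide)) (by decide)
        exact (show (a * b)⁻¹ = a * (a * b) * a⁻¹ by decide) ▸ inv_mem (mem_zpowers _)
      have sg : ∀ x : Perm (ZMod p × ZMod p), x ^ p = 1 → sign x = 1 := fun x hx => (Int.units_eq_one_or _).resolve_right fun c => by
        have := congrArg sign hx
        rw [map_pow, c, ho.neg_one_pow, map_one] at this
        exact absurd this (by decide)
      have e1 : ∀ x ∈ (S4623.eps (ZMod p) p).range, x ^ p = 1 := by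
        rintro _ ⟨e, rfl⟩
        rw [← map_pow, show e ^ p = 1 from Multiplicative.toAdd.injective (by ext; simp), map_one]
      have e2 : S4623.rho (ZMod p) p (Equiv.addLeft 1) ^ p = 1 := by
        rw [← map_pow, show (Equiv.addLeft (1 : ZMod p)) ^ p = 1 from by ext; simp [Perm.coe_pow], map_one]
      have := key S h (by simpa [sq] using c) (isPGroup_sup (isPGroup_zpowers (k := 1) (by rwa [pow_one])) (isPGroup_of_exp e1)
        (.inl (zpowers_le.2 (mem_norm_of_conj ?_)))) (mem_sup_left (mem_zpowers _)) (mem_sup_right ⟨.ofAdd id, rfl⟩) (sg _ e2) (sg _ (e1 _ ⟨_, rfl⟩))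
      · simpa using congrArg (fun x => (x (0, 0)).2) this
      rintro _ ⟨e, rfl⟩
      exact ⟨.ofAdd fun i => e.toAdd ((Equiv.addLeft 1)⁻¹ i), by rw [← map_inv]; ext <;> simp [-map_inv]⟩
    obtain ⟨k, hk⟩ := exists_relIndex_eq_pow S.2 (stabilizer (alternatingGroup (Fin n)) i)
    have h1 : p ^ k ≤ n := by
      rw [← hk, relIndex, show (stabilizer (alternatingGroup (Fin n)) i).subgroupOf S = stabilizer S i from rfl, index_stabilizer]
      simpa using Set.ncard_le_card (orbit S i)
    have := (Nat.pow_lt_pow_iff_right hp.one_lt).1 (h1.trans_lt h)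
    refine (?_ : _ ≤ stabilizer (alternatingGroup (Fin n)) i) hx
    interval_cases k
    · exact commutator_self_le.trans (relIndex_eq_one.1 hk)
    · exact (comm_le_phi (nil_of_pg S.2)).trans ((phi_le_of_relIndex S.2 inf_le_right (by rw [inf_relIndex_right, hk, pow_one])).trans inf_le_left)

end Cfsg.Agent.S5164
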