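import Cfsg.Statements.S5171
import Mathlib
import Cfsg.Agent.L0.FS5

set_option autoImplicit false
open Cfsg

namespace Cfsg.Agent.S5171

open CfsgL0 CfsgL0.Frm CfsgH5 CfsgH5.CForm Subgroup Module

/-- For a finite field K of characteristic p and m ≥ 2, excluding the case m = 2 with K of two elements, the p-fusion system of the projective symplectic group PSp_{2m}(K) on a Sylow p-subgroup is simple. -/
theorem result {K : Type*} [Field K] [Fintype K] (p : ℕ) [Fact p.Prime] [CharP K p] (m : ℕ) (hm : 2 ≤ m) (hex : m = 2 → 3 ≤ Fintype.card K) (S : Sylow p (Cfsg.PSp m K)) : (Cfsg.groupFusionSystem (S : Subgroup (Cfsg.PSp m K))).IsSimple p := by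
  classical
  have hf := spForm_nondeg (F := K) m
  have hd := finrank_sum_fun (F := K) m
  obtain ⟨x, y, h⟩ := symp_exists_hyp hf (by omega)
  have e : (spForm K m).SIsom = (spForm K m).Isom := (h.SIsom_eq_E hf symp_ker).trans (symp_Isom_eq_E hf).symm
  set φ := (MulEquiv.subgroupCongr e).trans (spEquiv m).symm
  refine main hf symp_ker (fun _ _ => rfl) ⟨x, y, h⟩ (fun x y h => ?_)
    (fun x y a c g T h => z1_symp hf hf ?_ h) (fun A d d0 _ hA c _ => ?_)
    ((QuotientGroup.mk' _).comp φ.toMonoidHom) ((QuotientGroup.mk'_surjective _).comp φ.surjective) (fun z hz => ?_) S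
  · obtain ⟨u, v, k⟩ := symp_exists_hyp (h.nondeg_perp hf) (by have := h.finrank_perp; omega)
    exact ⟨u, fun e => k.x_ne (Subtype.ext e), rfl, IsHyp.mem_perp.1 u.2⟩
  · by_cases h2 : m = 2
    · refine Or.inr (by_contra fun k => ?_)
      push Not at k
      have := Finset.card_le_card (s := Finset.univ) (t := ({0, 1} : Finset K)) fun l _ => by
        by_cases h : l = 0 <;> simp [h, k l]
      have := hex h2
      have := Finset.card_le_two (a := (0 : K)) (b := 1)
      simp_all
      omega
    · exact Or.inl (by omega)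
  · have := sq_ind (A := A.comap (AddMonoidHom.mulRight d)) (fun l => by simpa [sq] using hA l) (c / d)
    simpa [d0] using this
  · have : φ z ∈ center _ := (QuotientGroup.eq_one_iff _).1 hz
    exact mem_center_iff.2 fun g => φ.injective (by rw [map_mul, map_mul, mem_center_iff.1 this])

end Cfsg.Agent.S5171
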