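import Cfsg.Statements.S5172
import Mathlib
import Cfsg.Agent.L0.FS5

set_option autoImplicit false
open Cfsg

namespace Cfsg.Agent.S5172

open CfsgL0 CfsgL0.Frm CfsgH5 CfsgH5.CForm Subgroup Module

/-- For a finite field K with q² elements of characteristic p and n ≥ 4, the p-fusion system of the projective special unitary group PSU_n(q) (realised over K) on a Sylow p-subgroup is simple. -/
theorem result {K : Type*} [Field K] [Fintype K] (p q : ℕ) [Fact p.Prime] [CharP K p] (hK : Fintype.card K = q ^ 2) (n : ℕ) (hn : 4 ≤ n) (S : Sylow p (Cfsg.PSU n K q)) : (Cfsg.groupFusionSystem (S : Subgroup (Cfsg.PSU n K q))).IsSimple p := by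
  have H := frobq_UF hK
  have hf := hermC_nondeg H n
  have hd : finrank K (Fin n → K) = n := by simp
  set φ := (suEquiv H n).symm
  refine main hf (unit_ker H.ne_id) (fun _ h => h) (unit_exists_hyp H hf (by omega)) (fun x y h => ?_)
    (fun x y a c g T h => z1_comm hf ?_ h) (fun A d d0 d1 hA c c1 => ?_)
    ((QuotientGroup.mk' _).comp φ.toMonoidHom) ((QuotientGroup.mk'_surjective _).comp φ.surjective) (fun z hz => ?_) S
  · obtain ⟨u, v, k⟩ := unit_exists_hyp H (h.nondeg_perp hf) (by have := h.finrank_perp; omega)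
    exact ⟨u, fun e => k.x_ne (Subtype.ext e), k.hx, IsHyp.mem_perp.1 u.2⟩
  · by_contra k
    push Not at k
    exact H.ne_id (RingHom.ext fun b => (k b).trans (one_mul b))
  · have e1 : frobq hK d = -d := eq_neg_of_add_eq_zero_right d1
    have e2 : frobq hK c = -c := eq_neg_of_add_eq_zero_right c1
    obtain ⟨l, hl⟩ := H.exists_norm (b := c / d) (by rw [map_div₀, e1, e2, neg_div_neg_eq])
    have := hA l
    rwa [show l * (FP.unit _ H.invol).σ l = c / d from hl, div_mul_cancel₀ _ d0] at this
  · have : φ z ∈ center _ := (QuotientGroup.eq_one_iff _).1 hz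
    exact mem_center_iff.2 fun g => φ.injective (by rw [map_mul, map_mul, mem_center_iff.1 this])

end Cfsg.Agent.S5172
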