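import Cfsg.Statements.S5214
import Cfsg.Agent.H1.Misc1
import Cfsg.Agent.H2.BG0
import Cfsg.Agent.L0.Fus4
import Cfsg.Agent.S1137
import Cfsg.Agent.S1138

set_option autoImplicit false
open Cfsg

namespace Cfsg.Agent.S5214

/-- Let S be a Suzuki 2-group (a finite nonabelian 2-group with more than one involution admitting a cyclic group of automorphisms permuting its involutions regularly). Then S is normal in every saturated fusion system over S (such a group is resistant). -/
theorem result {Ω : Type*} [Group Ω] {S : Subgroup Ω} [Finite S] (hS : IsPGroup 2 S) (F : Cfsg.FusionSystem S) (hF : F.IsSaturated 2) (hsz : Cfsg.IsSuzukiTwoGroup ↥S) : F.IsNormal S := by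
  open Subgroup CfsgH2 in
  open CfsgL0 hiding alperin cj cj_injective isPGroup_of_forall isPGroup_zpowers in
  open scoped CfsgL0 in
  open scoped commutatorElement in
  · haveI : Fact (Nat.Prime 2) := ⟨Nat.prime_two⟩
    obtain ⟨h1, h2⟩ := S1137.result hsz
    obtain ⟨-, h3, -⟩ := S1138.result hsz
    have c : ∀ x : S, x ∈ center S ↔ (x : Ω) ∈ C[S] := fun x => by
      rw [mem_center_iff, mem_cent_iff]; exact ⟨fun h y hy => congrArg Subtype.val (h ⟨y, hy⟩), fun h y => Subtype.ext (h y y.2)⟩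
    have k : ∀ x ∈ S, x ∈ C[S] ↔ x * x = 1 := fun x hx => (c ⟨x, hx⟩).symm.trans ⟨fun h => congrArg Subtype.val (h2 _ h), fun h => by
      by_cases e : (⟨x, hx⟩ : S) = 1
      · rw [e]; exact one_mem _
      exact ((h1 _).1 ⟨e, Subtype.ext h⟩).1⟩
    refine normal_of_chain hS hF (fun i => if i = 0 then ⊥ else if i = 1 then S ⊓ C[S] else S) (n := 2) rfl rfl (fun i hi => ?_) fun i hi y hy x hx => ?_
    · interval_cases i
      · exact sc_iff.2 ⟨bot_le, fun P f hf x _ e => by rw [mem_bot.1 e]; exact hf.homOn.one⟩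
      · exact sc_iff.2 ⟨inf_le_left, fun P f hf x hx e => ⟨hf.mem hx, (k _ (hf.mem hx)).2 (by rw [← hf.homOn.mul hx hx, (k x e.1).1 e.2, hf.homOn.one])⟩⟩
      · exact sc_iff.2 ⟨le_rfl, fun P f hf x hx _ => hf.mem hx⟩
    · interval_cases i
      · exact mem_bot.2 (by rw [mem_cent_iff.1 hx.2 y hy]; group)
      · exact ⟨S.mul_mem (S.inv_mem hx) (conj_mem_of_norm (le_normalizer hy) hx), by simpa [mul_assoc] using (c _).1 (h3 ⟨x, hx⟩ ⟨y⁻¹, inv_mem hy⟩)⟩

end Cfsg.Agent.S5214
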