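import Cfsg.Statements.S5223
import Mathlib
import Cfsg.Agent.L0.Fus4
import Cfsg.Agent.L0.FinCh

set_option autoImplicit false
open Cfsg

namespace Cfsg.Agent.S5223

open CfsgL0 CfsgH2

/-- Let F be a saturated fusion system over a finite p-group S. Suppose there are subgroups Q₀ = S, Q₁, …, Qₙ = 1 (not required to be nested) such that for each i < n the focal subgroup of Qᵢ (generated by the elements x⁻¹φ(x), x ∈ Qᵢ, φ a map of F defined on the cyclic group generated by x) lies in Qᵢ₊₁. Then F is the inner fusion system of S. -/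
theorem result {Ω : Type*} [Group Ω] {S : Subgroup Ω} [Finite S] (p : ℕ) [Fact p.Prime] (hS : IsPGroup p S) (F : Cfsg.FusionSystem S) (hF : F.IsSaturated p) (n : ℕ) (Q : Fin (n + 1) → Subgroup Ω) (hQ0 : Q 0 = S) (hQn : Q (Fin.last n) = ⊥) (hstep : ∀ i : Fin n, Subgroup.closure {y : Ω | ∃ x ∈ Q i.castSucc, ∃ φ ∈ F.Hom (Subgroup.zpowers x), y = x⁻¹ * φ ⟨x, Subgroup.mem_zpowers x⟩} ≤ Q i.succ) : ∀ P : Subgroup Ω, F.Hom P = (Cfsg.innerFusionSystem S).Hom P := by
  suffices h : F = Cfsg.innerFusionSystem S from fun P => by rw [h]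
  refine eq_inner_of_pgroup hS hF fun P hP => ?_
  haveI := finite_of_le hP
  refine isPGroup_of_coprime fun α hα k hk hc => af_ext fun x hx => ?_
  rw [af_one hx]
  have h1 := (mem_aut hP).1 hα
  refine chain_fix (hS.to_le hP) hk hc (fun i => if i ≤ n then fch Q (n - i) else ⊤) (fun x hx h0 => ?_)
    (fun i x hx hi => ?_) n x hx (by simpa [fch_zero, hQ0] using hP hx)
  · simp only [zero_le, if_true, Nat.sub_zero, fch_last, hQn, Subgroup.mem_bot] at h0
    rw [h0, h1.one]
  · have key : ∀ j (hj : j < n), x ∈ fch Q j → x⁻¹ * af α x ∈ fch Q (j + 1) := fun j hj h => by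
      rw [fch_succ Q hj]
      rw [fch_cast Q hj] at h
      exact hstep ⟨j, hj⟩ (Subgroup.subset_closure ⟨x, h, _,
        (h1.mono (Subgroup.zpowers_le.2 hx)).hom_mem, rfl⟩)
    rcases lt_trichotomy i n with h | rfl | h
    · simp only [Nat.succ_le_of_lt h, h.le, if_true] at hi ⊢
      have := key _ (by omega) hi
      rwa [show n - (i + 1) + 1 = n - i by omega] at this
    · simp only [le_refl, if_true, Nat.sub_self, fch_zero, hQ0]
      exact mul_mem (inv_mem (hP hx)) (h1.mem hx)
    · simp [h.not_ge]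

end Cfsg.Agent.S5223
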