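import Cfsg.Statements.S5226
import Mathlib
import Cfsg.Agent.L0.Fus4
import Cfsg.Agent.L0.FinCh

set_option autoImplicit false
open Cfsg

namespace Cfsg.Agent.S5226

open CfsgL0 CfsgH2

/-- Let F be a saturated fusion system over a finite p-group S and Q a subgroup of S. Then Q is normal in F (F equals the normalizer system of Q) if and only if Q is strongly closed in F and admits a central series 1 = Q₀ ≤ Q₁ ≤ ⋯ ≤ Qₙ = Q ([Qᵢ₊₁, Q] ≤ Qᵢ) all of whose proper terms are weakly closed in F. -/
theorem result {Ω : Type*} [Group Ω] {S : Subgroup Ω} [Finite S] (p : ℕ) [Fact p.Prime] (hS : IsPGroup p S) (F : Cfsg.FusionSystem S) (hF : F.IsSaturated p) (Q : Subgroup Ω) : F.IsNormal Q ↔ F.StronglyClosed Q ∧ ∃ (n : ℕ) (C : Fin (n + 1) → Subgroup Ω), C 0 = ⊥ ∧ C (Fin.last n) = Q ∧ Monotone C ∧ (∀ i : Fin n, ⁅C i.succ, Q⁆ ≤ C i.castSucc) ∧ ∀ i : Fin n, F.WeaklyClosed (C i.castSucc) := by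
  constructor
  · intro h
    obtain ⟨n, hn⟩ := exists_ucs hS h.1
    exact ⟨normal_sc h, n, fun i => ucs Q i, ucs_zero, hn, fun i j hij => ucs_mono hij,
      fun i => ucs_comm i, fun i => wc_iff.2 ⟨(ucs_le _).trans h.1, fun f hf =>
        normal_im (normal_char h (ucs_le _) (ucs_char _)) hf le_rfl⟩⟩
  · rintro ⟨hQ, n, c, h0, h1, hm, h2, h3⟩
    refine normal_of_sc hS hF hQ fun P hP => ?_
    have hPS := hP.1.1
    have hm' := fch_mono c hm
    have hle : ∀ i, fch c i ≤ Q := fun i => h1 ▸ hm (Fin.le_last _)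
    have hw : ∀ i, F.WeaklyClosed (fch c i) := fun i => by
      rcases lt_or_ge i n with h | h
      · rw [fch_cast c h]; exact h3 _
      · rw [fch_ge c h, h1]; exact wc_iff.2 ⟨hQ.1, fun f hf => sc_im hQ hf le_rfl⟩
    have hc : ∀ i, ∀ y ∈ Q, ∀ x ∈ fch c (i + 1), x⁻¹ * (y * x * y⁻¹) ∈ fch c i := fun i y hy x hx => by
      rcases lt_or_ge i n with h | h
      · rw [fch_succ c h] at hx; rw [fch_cast c h]
        have := h2 ⟨i, h⟩ (Subgroup.commutator_mem_commutator (inv_mem hx) hy)
        simpa only [commutatorElement_def, mul_assoc, inv_inv] using this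
      · rw [fch_ge c h, h1]
        exact mul_mem (inv_mem (hle _ hx)) (mul_mem (mul_mem hy (hle _ hx)) (inv_mem hy))
    have : ∀ j, fch c j ≤ P := by
      intro j
      induction j with
      | zero => rw [fch_zero, h0]; exact bot_le
      | succ j ih =>
        refine le_cr_of_chain hS hP.1 (ess_radical hS hF hP) hQ (hle _) (fun s hs => map_cj_eq_iff.1 (by
          rw [← im_conj]; exact (wc_iff.1 (hw _)).2 _ (M_conj (hw _).1 (hPS hs))))
          (fun i => if i ≤ j then fch c i else Q) (n := j + 1) (by simp)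
          (fun α _ _ _ _ x hx hx0 => ?_) (fun α hα i _ x hx hi => ?_) fun i hi y hy x hx => ?_
        · simp only [zero_le, if_true, fch_zero, h0, Subgroup.mem_bot] at hx0
          rw [hx0, (homOn_af α).one]
        · split_ifs at hi ⊢ with h
          · rw [← (wc_iff.1 (hw i)).2 _ (((mem_aut hPS).1 hα).mono ((hm' h).trans ih))]
            exact mem_im_of _ hi
          · exact sc_mem hQ ((mem_aut hPS).1 hα) hx hi
        · rw [if_pos (by omega)]
          split_ifs at hx with h
          · exact hc i y (hle _ hy) x hx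
          · obtain rfl : i = j := by omega
            have := inv_mem (hc i x⁻¹ (inv_mem hx) y⁻¹ (inv_mem hy))
            simpa [mul_assoc] using this
    rw [← h1, ← fch_last c]; exact this n

end Cfsg.Agent.S5226
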