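import Cfsg.Statements.S5251
import Mathlib
import Cfsg.Agent.L0.Fus6

set_option autoImplicit false
open Cfsg

namespace Cfsg.Agent.S5251

open CfsgL0 CfsgH2

/-- Let F be a saturated fusion system over a finite p-group S, E a normal subsystem of F over T, and P an F-centric subgroup of S such that P ∩ T is not E-centric. Then some F-conjugate P* of P satisfies Out_S(P*) ∩ O_p(Out_F(P*)) ≠ 1: there is an element of N_S(P*) outside P* whose conjugation action on P* lies in O_p(Aut_F(P*)). In particular P is not both centric and radical in F. -/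
theorem result {Ω : Type*} [Group Ω] {S : Subgroup Ω} [Finite S] (p : ℕ) [Fact p.Prime] (hS : IsPGroup p S) (F : Cfsg.FusionSystem S) (hF : F.IsSaturated p) {T : Subgroup Ω} (E : Cfsg.FusionSystem T) (hE : E.IsNormalIn F p) (P : Subgroup Ω) (hP : F.IsCentric P) (hPT : ¬ E.IsCentric (P ⊓ T)) : (∃ φ ∈ F.Hom P, ∃ x ∈ S ⊓ Subgroup.normalizer (φ.range : Set Ω), x ∉ φ.range ∧ ∃ α ∈ ((Cfsg.pCore p ↥(F.autGroup φ.range)).map (F.autGroup φ.range).subtype : Subgroup (MulAut ↥φ.range)), ∀ y : ↥φ.range, ((α y : ↥φ.range) : Ω) = x * (y : Ω) * x⁻¹) ∧ ¬ F.IsRadical p P := by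
  refine ⟨?_, fun h => hPT (inf_centric_of_cr hS hF hE.1.2.2 hP h)⟩
  obtain ⟨f, a, x, b, c, d, e⟩ := exists_conj_not_rad hS hF hE.1.2.2 hP.1 hPT
  refine ⟨_, a.hom_mem, ?_⟩
  rw [a.homOn.range_hom]
  haveI := finite_of_le a.im_le
  refine ⟨x, ⟨hE.1.2.2.2.1.1 b, d⟩, c, cA d, by rwa [map_pCore_subtype], fun y => ?_⟩
  rw [← af_coe, af_cA _ y.2]

end Cfsg.Agent.S5251
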