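import Cfsg.Statements.S5290
import Mathlib
import Cfsg.Agent.L0.Fus6

set_option autoImplicit false
open Cfsg

namespace Cfsg.Agent.S5290

open CfsgL0 CfsgH2

/-- Let F be a saturated fusion system over a finite p-group S and Q a subgroup of S. Then Q is normal in F (F = N_F(Q)) if and only if the inner fusion system of Q, consisting of the conjugations by elements of Q on subgroups of Q, is a weakly normal subsystem of F (both saturated, Q strongly closed, invariant under F-conjugation, with the Frattini property). -/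
theorem result {Ω : Type*} [Group Ω] {S : Subgroup Ω} [Finite S] (p : ℕ) [Fact p.Prime] (hS : IsPGroup p S)
    (F : Cfsg.FusionSystem S) (hF : F.IsSaturated p)
    (Q : Subgroup Ω) (hQ : Q ≤ S) :
    F.IsNormal Q ↔ (Cfsg.innerFusionSystem Q).IsWeaklyNormalIn F p := by
  refine ⟨fun h => (inner_normal hS hF h).1, fun h => normal_of_res hS hF hQ fun P hP f hf => ?_⟩
  obtain ⟨α, a, f₀, b, c⟩ := (inv_iff.1 h.2.2).2.2.2 P hP f hf
  obtain ⟨-, k, d, e⟩ := M_inner.1 b
  refine ⟨α * cA (Subgroup.le_normalizer d), mul_mem a (autInd_le_aut hQ hQ (cA_mem _ d)), fun x hx => ?_⟩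
  rw [c x hx, e x hx, af_mul _ _ (hP hx), af_cA _ (hP hx)]

end Cfsg.Agent.S5290
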