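import Cfsg.Statements.S5291
import Mathlib
import Cfsg.Agent.L0.Fus6

set_option autoImplicit false
open Cfsg

namespace Cfsg.Agent.S5291

open CfsgL0 CfsgH2

/-- Let F be a saturated fusion system over a finite p-group S and E a weakly normal subsystem of F over a subgroup T. Suppose a subgroup R of T is normal in E (E = N_E(R)), and let R* be the subgroup of T generated by the images of R under all maps of F with source R. Then R* is normal in F (F = N_F(R*)). -/
theorem result {Ω : Type*} [Group Ω] {S : Subgroup Ω} [Finite S] (p : ℕ) [Fact p.Prime] (hS : IsPGroup p S)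
    (F : Cfsg.FusionSystem S) (hF : F.IsSaturated p)
    {T : Subgroup Ω} (E : Cfsg.FusionSystem T) (hE : E.IsWeaklyNormalIn F p)
    (R : Subgroup Ω) (hR : E.IsNormal R) :
    F.IsNormal (Subgroup.closure {x : Ω | ∃ φ ∈ F.Hom R, ∃ r : R, x = φ r}) := by
  have h1 := inv_core_normal hS hF hE.2.2
  haveI := finite_of_le hE.2.2.2.1.1
  have h2 : R ≤ E.core := le_core hR
  have h3 : Subgroup.closure {x : Ω | ∃ φ ∈ F.Hom R, ∃ r : R, x = φ r} ≤ E.core :=
    (Subgroup.closure_le _).2 (by
      rintro _ ⟨φ, a, r, rfl⟩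
      exact ex_coe φ r ▸ sc_mem (normal_sc h1) (M_ex a) r.2 (h2 r.2))
  refine normal_of_inv h1 h3 fun α hα => ?_
  have hM := (mem_aut h1.1).1 hα
  refine hM.im_eq_of_le h3 fun x hx => ?_
  induction hx using Subgroup.closure_induction with
  | mem x hx =>
    obtain ⟨φ, a, r, rfl⟩ := hx
    have := (M_ex a).comp hM fun y hy => sc_mem (normal_sc h1) (M_ex a) hy (h2 hy)
    exact Subgroup.subset_closure ⟨_, this.hom_mem, r, by rw [← ex_coe φ]; rfl⟩
  | one => rw [hM.one]; exact one_mem _
  | mul x y hx hy a b => rw [hM.mul (h3 hx) (h3 hy)]; exact mul_mem a b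
  | inv x hx a => rw [hM.inv (h3 hx)]; exact inv_mem a

end Cfsg.Agent.S5291
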