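import Cfsg.Statements.S5331
import Cfsg.Agent.H2.Ss3

set_option autoImplicit false
open Cfsg

namespace Cfsg.Agent.S5331
open CfsgH2

/-- Let S be a finite abelian 2-group that is a direct product of cyclic groups of pairwise distinct orders 2^{a_1} < 2^{a_2} < ⋯ < 2^{a_n} (all a_i ≥ 1). Then every saturated fusion system over S is the inner one: its maps are exactly the conjugations by elements of S. -/
theorem result {Ω : Type*} [Group Ω] {S : Subgroup Ω} [Finite S] (n : ℕ) (a : Fin n → ℕ) (ha : StrictMono a) (ha1 : ∀ i, 1 ≤ a i) (e : ↥S ≃* Multiplicative ((i : Fin n) → ZMod (2 ^ a i))) (F : Cfsg.FusionSystem S) (hF : F.IsSaturated 2) (P : Subgroup Ω) : F.Hom P = (Cfsg.innerFusionSystem S).Hom P := by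
  open Subgroup Function in open scoped commutatorElement in
  · have e' := e.trans (MulEquiv.piMultiplicative _)
    have hS : IsPGroup 2 S := IsPGroup.of_card (n := ∑ i, a i) (by
      simp [Nat.card_congr e'.toEquiv, Nat.card_pi, Nat.card_congr Multiplicative.toAdd, Finset.prod_pow_eq_pow_sum])
    have ax := ax_of_distinct hS ha.injective e'
    have ab : ∀ x ∈ S, ∀ y ∈ S, x * y = y * x := fun x hx y hy => congrArg Subtype.val
      (e.injective (by rw [map_mul, map_mul, mul_comm]) : (⟨x, hx⟩ * ⟨y, hy⟩ : S) = ⟨y, hy⟩ * ⟨x, hx⟩)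
    rw [CfsgL0.eq_inner_of_ess hS hF (fun P h => (CfsgL0.ess_lt hS hF h).not_ge fun x hx => CfsgL0.centric_cI h.1
      (CfsgL0.mem_cI.2 ⟨hx, mem_cent_iff.2 fun y hy => ab _ (h.1.1 hy) _ hx⟩)) (CfsgL0.isPGroup_of_coprime fun α _ k h c => by
        simpa using (ax (zpowers α) (by
          rw [Nat.card_zpowers]; exact c.coprime_dvd_left (orderOf_dvd_of_pow_eq_one h))).2 α (mem_zpowers α))]

end Cfsg.Agent.S5331
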