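import Cfsg.Statements.S5600
import Cfsg.Agent.H1.Mh

set_option autoImplicit false
open scoped Pointwise
open Cfsg

namespace Cfsg.Agent.S5600

section
open CfsgH1.Mg CfsgH1.Mc CfsgH1.Mh CfsgH7 CfsgH7.Gol MulAction
open scoped commutatorElement

theorem typ {E : Finset GolayPt} (xs : List GolayPt) (hl : xs.length = 6) (hn : xs.Nodup) (e : xs.toFinset = E) :
    ∃ c : M24, ((∃ o ∈ octads, E ⊆ o) ∧ (open Pointwise in c • S 0x80002f) = E ∧
      ([5,3,2,1,0,23].map px).map (c • ·) = xs) ∨ ((¬ ∃ o ∈ octads, E ⊆ o) ∧ (open Pointwise in c • S 0x80001f) = E ∧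
      ([4,3,2,1,0,23].map px).map (c • ·) = xs) := by
  obtain ⟨c, h | h⟩ := six_tr xs hl hn
  · have h1 := (tf c (bs := [5,3,2,1,0,23]) (by decide)).symm.trans (h.symm ▸ e)
    exact ⟨c, Or.inl ⟨h1 ▸ (exOct_smul c).2 ⟨_, oct0, S_subset (by decide +kernel)⟩, h1, h⟩⟩
  · have h1 := (tf c (bs := [4,3,2,1,0,23]) (by decide)).symm.trans (h.symm ▸ e)
    exact ⟨c, Or.inr ⟨h1 ▸ fun a => by
      obtain ⟨o, ho, h2⟩ := (exOct_smul c).1 a
      exact FC.empty ((rbW 8).and (rbS 0x80001f)) (by decide +kernel) o ho.1 ⟨ho.2, h2⟩, h1, h⟩⟩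

theorem full {E : Finset GolayPt} (hE : E.card = 6) (σ : Equiv.Perm E) : ∃ g : M24, ∀ p : E, g • (p : GolayPt) = σ p := by
  have hl : (Finset.univ : Finset E).toList.length = 6 := by simpa using hE
  have hn := (Finset.univ : Finset E).nodup_toList
  obtain ⟨c, h1⟩ := typ (E := E) (Finset.univ.toList.map Subtype.val) (by simpa using hl)
    (hn.map Subtype.val_injective) (by ext; simp)
  obtain ⟨d, h2⟩ := typ (E := E) (Finset.univ.toList.map fun p => (σ p : GolayPt)) (by simpa using hl)
    (hn.map (Subtype.val_injective.comp σ.injective)) (by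
      ext a
      simp only [List.mem_toFinset, List.mem_map, Finset.mem_toList, Finset.mem_univ, true_and]
      exact ⟨fun ⟨p, e⟩ => e ▸ (σ p).2, fun h => ⟨σ.symm ⟨a, h⟩, by simp⟩⟩)
  have key : ∀ bs : List GolayPt, bs.map (c • ·) = (Finset.univ : Finset E).toList.map Subtype.val →
      bs.map (d • ·) = (Finset.univ.toList.map fun p => (σ p : GolayPt)) →
      ∃ g : M24, ∀ p : E, g • (p : GolayPt) = σ p := fun bs a b => ⟨d * c⁻¹, fun p => by
    have : ((Finset.univ : Finset E).toList.map Subtype.val).map ((d * c⁻¹) • ·) =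
        Finset.univ.toList.map fun p => (σ p : GolayPt) := by
      rw [← a, ← b, List.map_map]
      exact List.map_congr_left fun x _ => by simp [mul_smul]
    rw [List.map_map] at this
    exact List.map_inj_left.1 this p (by simp)⟩
  rcases h1 with h1 | h1 <;> rcases h2 with h2 | h2
  · exact key _ h1.2.2 h2.2.2
  · exact absurd h1.1 h2.1
  · exact absurd h2.1 h1.1
  · exact key _ h1.2.2 h2.2.2

theorem fA : fixingSubgroup M24 (S 0x80002f : Set GolayPt) = K18 := by
  ext x
  rw [mem_fixingSubgroup_iff, show S 0x80002f = {px 23, px 0, px 1, px 2, px 3, px 5} by decide +kernel]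
  simp [and_assoc]

theorem fB : fixingSubgroup M24 (S 0x80001f : Set GolayPt) = K17 := by
  ext x
  rw [mem_fixingSubgroup_iff, show S 0x80001f = {px 23, px 0, px 1, px 2, px 3, px 4} by decide +kernel]
  simp [and_assoc]

end

/-- Although the group of the length-24 code is only 5-transitive on the 24 points, it induces the full symmetric group on every 6-element subset: every permutation of a 6-set E is the restriction of an element of the group mapping E to itself. The pointwise stabiliser of E has order 16 when E lies in an octad and order 3 otherwise; in the latter case the setwise stabiliser of E has order 2160. -/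
theorem result (E : Finset Cfsg.GolayPt) (hE : E.card = 6) : (∀ σ : Equiv.Perm ↥E, ∃ g ∈ Cfsg.M24, ∀ p : ↥E, g p = σ p) ∧ ((∃ o ∈ Cfsg.octads, E ⊆ o) → Nat.card {g : Equiv.Perm Cfsg.GolayPt // g ∈ Cfsg.M24 ∧ ∀ p ∈ E, g p = p} = 16) ∧ ((¬ ∃ o ∈ Cfsg.octads, E ⊆ o) → Nat.card {g : Equiv.Perm Cfsg.GolayPt // g ∈ Cfsg.M24 ∧ ∀ p ∈ E, g p = p} = 3 ∧ Nat.card ↥(MulAction.stabilizer Cfsg.M24 E) = 2160) := by
  open CfsgH1.Mg CfsgH1.Mc CfsgH1.Mh CfsgH7 CfsgH7.Gol MulAction in
  open scoped commutatorElement in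
  · have e : Nat.card {g : Equiv.Perm GolayPt // g ∈ M24 ∧ ∀ p ∈ E, g p = p} =
        Nat.card (fixingSubgroup M24 (E : Set GolayPt)) := card_sub fun x => mem_fixingSubgroup_iff _
    obtain ⟨c, h⟩ := typ E.toList (by simpa using hE) E.nodup_toList E.toList_toFinset
    refine ⟨fun σ => (full hE σ).elim fun g h => ⟨g, g.2, h⟩, fun a => ?_, fun a => ?_⟩
    · rw [e, ← (h.resolve_right fun b => b.1 a).2.1, (cj_fix c _).card, fA, card18]
    have h1 : Nat.card (fixingSubgroup M24 (E : Set GolayPt)) = 3 := by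
      rw [← (h.resolve_left fun b => a b.1).2.1, (cj_fix c _).card, fB, card17]
    refine ⟨e.trans h1, ?_⟩
    rw [← card_ker_of (K := stabilizer M24 E) (s := E) (h := fun _ h => mem_stabilizer_iff.1 h) fun σ =>
      (full hE σ).elim fun g h => ⟨g, mem_stabilizer_iff.2 (stab_of fun a ha => (h ⟨a, ha⟩).symm ▸ (σ _).2), h⟩, ker_card, inf_eq_right.2 (fix_le_stab E), h1, hE]
    rfl

end Cfsg.Agent.S5600
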