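import Cfsg.Statements.S5521
import Cfsg.Agent.H1.Mh
import Cfsg.Agent.S5600

set_option autoImplicit false
open Cfsg

namespace Cfsg.Agent.S5521

/-- The Mathieu group M₂₄ in its natural action on the 24 coordinate positions of the binary Golay code has minimal base size exactly 7: every set of at most 6 positions is fixed pointwise by some non-identity element of M₂₄, while some set of 7 positions is fixed pointwise only by the identity. -/
theorem result :
    (∀ B : Finset Cfsg.GolayPt, B.card ≤ 6 → ∃ g ∈ Cfsg.M24, g ≠ 1 ∧ ∀ b ∈ B, g b = b) ∧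
    (∃ B : Finset Cfsg.GolayPt, B.card = 7 ∧ ∀ g ∈ Cfsg.M24, (∀ b ∈ B, g b = b) → g = 1) := by
  open CfsgH1.Mg CfsgH1.Mc CfsgH1.Mh CfsgH7 CfsgH7.Gol MulAction in
  open scoped commutatorElement in
  · refine ⟨fun B hB => ?_, S 0x80003f, by decide +kernel, fun g hg h => congrArg Subtype.val
      (faith_base base7 (s := S 0x80003f) (by decide +kernel) ⟨g, hg⟩ trivial h)⟩
    obtain ⟨E, h1, h2⟩ := Finset.exists_superset_card_eq hB (by rw [cardP]; norm_num)
    obtain ⟨-, a, b⟩ := S5600.result E h2
    obtain ⟨g, hg, h3, h4⟩ := exists_ne_one (M := M24) (φ := fun g => ∀ p ∈ E, g p = p) (by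
      by_cases h : ∃ o ∈ octads, E ⊆ o
      · rw [a h]; norm_num
      · rw [(b h).1]; norm_num)
    exact ⟨g, hg, h3, fun p hp => h4 p (h1 hp)⟩

end Cfsg.Agent.S5521
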