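import Cfsg.Statements.S5560
import Mathlib
import Cfsg.Agent.H4.ZS2
import Cfsg.Agent.H1.Prod

set_option autoImplicit false
open Cfsg

open Cfsg CfsgH2 CfsgH4 Subgroup

namespace Cfsg.Agent.S5560

/-- A Z*-type result for an odd prime p. Let G be a finite group and d an involution of G such that the product of any two conjugates of d has order a power of p. Then the product of any two conjugates of d lies in the largest normal p-subgroup O_p(G); in other words the conjugacy class of d lies in the coset O_p(G)d, and d is central modulo O_p(G). -/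
theorem result {G : Type*} [Group G] [Finite G] {p : ℕ} (hp : p.Prime) (hp2 : p ≠ 2)
    (d : G) (hd : orderOf d = 2)
    (hprod : ∀ a ∈ conjugatesOf d, ∀ b ∈ conjugatesOf d, ∃ k : ℕ, orderOf (a * b) = p ^ k) :
    ∀ a ∈ conjugatesOf d, ∀ b ∈ conjugatesOf d, a * b ∈ Cfsg.pCore p G := by
  haveI := Fact.mk hp
  have d2 := CfsgL0.inv_mul_self hd
  have hodd : ∀ g, Odd (orderOf (d * (g * d * g⁻¹))) := fun g => by
    obtain ⟨k, hk⟩ := hprod d mem_conjugatesOf_self _ (isConj_iff.2 ⟨g, rfl⟩)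
    rw [hk]; exact (hp.odd_of_ne_two hp2).pow
  have hi := isolated_of_odd hd hodd
  obtain ⟨R, hR⟩ := exists_syl (p := p) C1[d]
  obtain ⟨P, h1, -, h3⟩ := exists_invariant_syl hi hp2 hR
  have h4 : P.index.Coprime C1[d].index := Nat.coprime_of_dvd fun q hq h5 h6 => by
    haveI := Fact.mk hq
    have hqp : q ≠ p := by
      rintro rfl
      exact h1.nd (by rwa [relIndex_top_right])
    obtain ⟨Q, a1, a2⟩ : ∃ Q, Syl q Q ⊤ ∧ Q ≤ C1[d] := by
      by_cases h2 : q = 2
      · subst h2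
        obtain ⟨Q, a1, a2⟩ := exists_syl_ge (M := ⊤) (isPGroup_zpowers_of_pelt (p := 2) ⟨1, hd⟩)
          le_top
        exact ⟨Q, a1, fun x hx => mem_centralizer_singleton_iff.2
          (CfsgL0.isolated_centralizes hi a1.pg (le_normalizer (a2 (mem_zpowers d))) hx)⟩
      obtain ⟨R, hR⟩ := exists_syl (p := q) C1[d]
      obtain ⟨Q, a1, -, a3⟩ := exists_invariant_syl hi h2 hR
      refine ⟨Q, a1, fun x hx => ?_⟩
      obtain ⟨k, hk⟩ := hprod d mem_conjugatesOf_self _ (isConj_iff.2 ⟨x, rfl⟩)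
      have a4 := mul_mem ((mem_normalizer_iff.1 a3 x).1 hx) (inv_mem hx)
      rw [CfsgL0.inv_inv_eq hd, mul_assoc, mul_assoc, ← mul_assoc x] at a4
      have a5 := eq_one_of_coprime_order a1.pg a4
        (by rw [hk]; exact ((Nat.coprime_primes hp hq).2 hqp.symm).pow_left k)
      have a6 := inv_eq_of_mul_eq_one_right a5
      rw [CfsgL0.inv_inv_eq hd, eq_mul_inv_iff_mul_eq] at a6
      exact mem_centralizer_singleton_iff.2 a6.symm
    exact a1.not_dvd_of_le a2 (by rwa [relIndex_top_right])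
  have h5 := CfsgH1.fac_top_iff.1 (CfsgH1.fac_top_of_coprime_index h4)
  have h6 : ∀ a, IsConj d a → ∃ x ∈ P, a = x * d * x⁻¹ := fun a ha => by
    obtain ⟨g, rfl⟩ := isConj_iff.1 ha
    obtain ⟨x, hx, c, hc, rfl⟩ := h5 g
    refine ⟨x, hx, ?_⟩
    rw [mul_assoc x, mem_centralizer_singleton_iff.1 hc]; group
  intro a ha b hb
  refine le_pCore (K := P.normalCore) (h1.pg.to_le P.normalCore_le) fun g => ?_
  obtain ⟨x, hx, e1⟩ := h6 _ (ha.trans (isConj_iff.2 ⟨g, rfl⟩))
  obtain ⟨y, hy, e2⟩ := h6 _ (hb.trans (isConj_iff.2 ⟨g, rfl⟩))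
  rw [← conj_mul, e1, e2]
  have := mul_mem (mul_mem hx ((mem_normalizer_iff.1 h3 _).1 (mul_mem (inv_mem hx) hy))) (inv_mem hy)
  rw [CfsgL0.inv_inv_eq hd] at this
  simpa only [mul_assoc] using this

end Cfsg.Agent.S5560
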