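import Cfsg.Statements.S5562
import Cfsg.Agent.H1.LX
import Cfsg.Agent.L0.StrEmb
import Cfsg.Agent.L0.Invol

set_option autoImplicit false
open Cfsg

namespace Cfsg.Agent.S5562

/-- Let G be a finite group, d an involution of G whose conjugates pairwise have products of odd order, and x any involution of G. Then the conjugacy class of d is the disjoint union, over the conjugates a of d commuting with x, of the sets of conjugates of d commuting with ax: every conjugate of d commutes with ax for exactly one conjugate a of d that commutes with x. -/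
theorem result {G : Type*} [Group G] [Finite G] (d : G) (hd : orderOf d = 2)
    (hodd : ∀ a ∈ conjugatesOf d, ∀ b ∈ conjugatesOf d, Odd (orderOf (a * b)))
    (x : G) (hx : orderOf x = 2) :
    ∀ e ∈ conjugatesOf d,
      ∃! a : G, a ∈ conjugatesOf d ∧ Commute a x ∧ Commute e (a * x) := by
  open Subgroup CfsgH2 in
  open CfsgH1 hiding card_inf_mul_relIndex card_lt_of_lt card_lt_of_ne_top card_map_mul_card_inf_ker card_mul_relIndex card_subgroupOf card_sup_dvd card_sup_mul_card_inf coprime_le_sup_cent exists_card_prime_le isNilpotent_map isNilpotent_of_le isPGroup_pCore isSolvable_map isSolvable_of_le le_pCore le_pPrimeCore relIndex_map_dvd in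
  open scoped CfsgH1 in
  open CfsgL0 hiding cj cj_injective comm_zpowers_le conj_mem_of_mem_normalizer conj_mem_of_mem_normalizer' isPGroup_of_forall isPGroup_zpowers isPGroup_zpowers_of_orderOf mem_normalizer_of_conj_mem sec_sub in
  open scoped CfsgL0 in
  open scoped commutatorElement in
  · intro e he
    have o : ∀ a ∈ conjugatesOf d, orderOf a = 2 := fun a ha => by
      obtain ⟨g, rfl⟩ := isConj_iff.1 ha
      exact hd ▸ orderOf_injective (cj g) (CfsgH2.cj_injective g) d
    have cl : ∀ a ∈ conjugatesOf d, ∀ g : G, g * a * g⁻¹ ∈ conjugatesOf d := fun a ha g => IsConj.trans ha (isConj_iff.2 ⟨g, rfl⟩)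
    have u : ∀ a ∈ conjugatesOf d, ∀ b ∈ conjugatesOf d, a * e * a⁻¹ = b * e * b⁻¹ → a = b := fun a ha b hb h => by
      have a2 := mul_self_of_two (o a ha)
      have b2 := mul_self_of_two (o b hb)
      have := sq_eq_one_of_odd (r := a * b) (mul_self_of_two (o e he)) a2 (hodd e he a ha) (by
        calc a * b * e = a * (b * e * b⁻¹) * b := by group
          _ = _ := by rw [← h, inv_of_two (o a ha), ← mul_assoc, ← mul_assoc, a2, one_mul, mul_assoc])
        (by rw [← mul_assoc, a2, one_mul, mul_inv_rev, inv_of_two (o b hb)])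
      have k := (hodd a ha b hb).coprime_two_right.eq_one_of_dvd (orderOf_dvd_of_pow_eq_one (by rwa [sq]))
      rw [← inv_of_two (o b hb)]
      exact eq_inv_of_mul_eq_one_left (orderOf_eq_one_iff.1 k)
    have x2 := mul_self_of_two hx
    have f : ∀ a ∈ conjugatesOf d, Commute e (a * x) ↔ a * e * a⁻¹ = x * e * x⁻¹ := fun a ha => by
      have a2 := mul_self_of_two (o a ha)
      rw [inv_of_two hx, inv_of_two (o a ha)]
      refine ⟨fun h => ?_, fun h => ?_⟩
      · calc a * e * a = a * (e * (a * x)) * x := by rw [mul_assoc, mul_assoc, mul_assoc, mul_assoc, x2, mul_one]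
          _ = _ := by rw [h.eq, ← mul_assoc, ← mul_assoc, a2, one_mul]
      · calc e * (a * x) = a * (a * e * a) * x := by rw [← mul_assoc a, ← mul_assoc a, a2, one_mul, mul_assoc]
          _ = _ := by rw [h, mul_assoc, mul_assoc, x2, mul_one, mul_assoc]
    have k := hodd e he _ (cl e he x)
    obtain ⟨v, v1, v2, n, v3⟩ := exists_invol_conj_of_odd (o e he) (o _ (cl e he x)) k
    have v4 : v ∈ conjugatesOf d := by
      obtain ⟨m, hm⟩ := conj_of_odd_order (mul_self_of_two v1) (mul_self_of_two (o e he)) (by
        rw [v3, mul_assoc, mul_self_of_two (o e he), mul_one]; exact Odd.of_dvd_nat k (orderOf_pow_dvd n))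
      exact IsConj.trans he (isConj_iff.2 ⟨_, hm⟩).symm
    refine ⟨v, ⟨v4, (mul_inv_eq_iff_eq_mul.1 (u _ (cl v v4 x) v v4 ?_)).symm, (f v v4).2 v2⟩, fun a ha => u a ha.1 v v4 (((f a ha.1).1 ha.2.2).trans v2.symm)⟩
    have : v * (x * e * x⁻¹) * v⁻¹ = e := by rw [← v2, ← mul_assoc, ← mul_assoc, mul_self_of_two v1, one_mul, inv_of_two v1, mul_assoc, mul_self_of_two v1, mul_one]
    calc _ = x * (v * (x⁻¹ * e * x) * v⁻¹) * x⁻¹ := by group
      _ = _ := by rw [v2]; nth_rw 2 [← inv_of_two hx]; rw [inv_inv, inv_of_two hx] at *; rw [this]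

end Cfsg.Agent.S5562
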