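import Cfsg.Statements.S5596
import Cfsg.Agent.H1.LX2

set_option autoImplicit false
open Cfsg

namespace Cfsg.Agent.S5596

section
open Subgroup CfsgH2
open CfsgH1 hiding SS card_inf_mul_relIndex card_lt_of_lt card_lt_of_ne_top card_map_mul_card_inf_ker card_mul_relIndex card_subgroupOf card_sup_dvd card_sup_mul_card_inf coprime_le_sup_cent exists_card_prime_le isNilpotent_map isNilpotent_of_le isPGroup_pCore isSolvable_map isSolvable_of_le le_pCore le_pPrimeCore relIndex_map_dvd
open scoped CfsgH1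
open CfsgL0 hiding cj cj_injective comm_zpowers_le conj_mem_of_mem_normalizer conj_mem_of_mem_normalizer' isPGroup_of_forall isPGroup_zpowers isPGroup_zpowers_of_orderOf mem_normalizer_of_conj_mem sec_sub
open scoped CfsgL0
open scoped commutatorElement

variable {G : Type*} [Group G] [Finite G]

theorem lx {Q : G → Subgroup G} (hQ : ∀ x : G, Q x = (pCore 2 ↥C1[x]).map C1[x].subtype) {z : G} (hz : orderOf z = 2) (hE : IsExtraspecial 2 (Q z))
    (hC : C[Q z] ≤ Q z) : (∀ g x : G, Q (g * x * g⁻¹) = (Q x).map (cj g)) ∧ ∀ u : G, (∃ g : G, g * z * g⁻¹ = u) → LX (Q u) u := by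
  have e : ∀ x : G, Q x = O[{2}, C1[x]] := fun x => (hQ x).trans map_pCore_subtype
  have l : Q z ≤ C1[z] := e z ▸ piCoreOf_le
  have h := XZ.lx_of_core (ne_one_of_two hz) hE l (e z ▸ le_norm_piCoreOf) (hC (le_cent1_iff.1 l)) (inf_le_right.trans hC)
  have k : ∀ g x : G, Q (g * x * g⁻¹) = (Q x).map (cj g) := fun g x => by rw [e, e, centralizer_conj, piCoreOf_map_cj]
  exact ⟨k, fun u ⟨g, hg⟩ => hg ▸ k g z ▸ h.map_cj g⟩

end

/-- Setting: `z` is an involution of the finite group `G`; for each element `x`, `Q x` is the largest normal 2-subgroup of the centralizer of `x`; `Q z` is extraspecial and contains its own centralizer in `G`. A subgroup `U` is singular when it is elementary abelian, every non-identity element of `U` is conjugate to `z`, and any two non-identity elements `u`, `v` of `U` are orthogonal (`v ∈ Q u`). Write `QU` for the intersection of the `Q u` and `LU` for the join of the `Q u` over the non-identity `u` in `U`. If `U` is singular of order `2 ^ n`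 with `n ≥ 2`, then `U ≤ QU ≤ LU`, `LU` normalizes `U`, and `LU` induces on `U` its full automorphism group (the general linear group of dimension `n` over the field with two elements): every automorphism of `U` is conjugation by some element of `LU`. -/
theorem result {G : Type*} [Group G] [Finite G]
    (Q : G → Subgroup G)
    (hQ : ∀ x : G, Q x = (Cfsg.pCore 2 ↥(Subgroup.centralizer ({x} : Set G))).map (Subgroup.centralizer ({x} : Set G)).subtype)
    (z : G) (hz : orderOf z = 2) (hE : Cfsg.IsExtraspecial 2 ↥(Q z))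
    (hC : Subgroup.centralizer ((Q z : Subgroup G) : Set G) ≤ Q z)
    (U : Subgroup G) (hU2 : ∀ u ∈ U, u * u = 1)
    (hS : ∀ u ∈ U, u ≠ 1 → ∃ g : G, g * z * g⁻¹ = u)
    (hO : ∀ u ∈ U, ∀ v ∈ U, u ≠ 1 → v ≠ 1 → v ∈ Q u)
    (QU LU : Subgroup G) (hQU : QU = ⨅ u ∈ ((U : Set G) \ {1}), Q u) (hLU : LU = ⨆ u ∈ ((U : Set G) \ {1}), Q u)
    (n : ℕ) (hn : 2 ≤ n) (hcard : Nat.card ↥U = 2 ^ n) :
    U ≤ QU ∧ QU ≤ LU ∧ LU ≤ Subgroup.normalizer (U : Set G) ∧
      ∀ φ : ↥U ≃* ↥U, ∃ g ∈ LU, ∀ u : ↥U, g * (u : G) * g⁻¹ = ((φ u : ↥U) : G) := by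
  open Subgroup CfsgH2 in
  open CfsgH1 hiding SS card_inf_mul_relIndex card_lt_of_lt card_lt_of_ne_top card_map_mul_card_inf_ker card_mul_relIndex card_subgroupOf card_sup_dvd card_sup_mul_card_inf coprime_le_sup_cent exists_card_prime_le isNilpotent_map isNilpotent_of_le isPGroup_pCore isSolvable_map isSolvable_of_le le_pCore le_pPrimeCore relIndex_map_dvd in
  open scoped CfsgH1 in
  open CfsgL0 hiding cj cj_injective comm_zpowers_le conj_mem_of_mem_normalizer conj_mem_of_mem_normalizer' isPGroup_of_forall isPGroup_zpowers isPGroup_zpowers_of_orderOf mem_normalizer_of_conj_mem sec_sub in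
  open scoped CfsgL0 in
  open scoped commutatorElement in
  · have h := fun u hu u1 => (lx hQ hz hE hC).2 u (hS u hu u1)
    have l : ∀ u ∈ U, u ≠ 1 → U ≤ Q u := fun u hu u1 v hv => by
      by_cases c : v = 1
      · exact c ▸ one_mem _
      · exact hO u hu v hv u1 c
    have lL : ∀ u ∈ U, u ≠ 1 → Q u ≤ LU := fun u hu u1 => hLU ▸ le_iSup₂_of_le (f := fun u _ => Q u) u ⟨hu, u1⟩ le_rfl
    have nL : LU ≤ N[U] := hLU ▸ iSup₂_le fun u hu => (h u hu.1 hu.2).le_norm hu.1 (l u hu.1 hu.2)
    obtain ⟨⟨w, hw⟩, w1⟩ := ne_bot_iff_exists_ne_one.1 fun e : U = ⊥ => by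
      rw [e, card_bot, eq_comm, Nat.pow_eq_one] at hcard; omega
    replace w1 : w ≠ 1 := fun e => w1 (Subtype.ext e)
    refine ⟨hQU ▸ le_iInf₂ fun u hu => l u hu.1 hu.2, (hQU ▸ iInf₂_le (f := fun u _ => Q u) w ⟨hw, w1⟩ : QU ≤ Q w).trans (lL w hw w1), nL, fun φ => ?_⟩
    let S : G → Subgroup U := fun g => ((cj g).comp U.subtype).eqLocus (U.subtype.comp φ.toMonoidHom)
    have hS : ∀ g u, u ∈ S g ↔ g * (u : G) * g⁻¹ = φ u := fun _ _ => Iff.rfl
    obtain ⟨g, hg, hm⟩ := Set.exists_max_image (LU : Set G) (fun g => o[S g]) (Set.toFinite _) ⟨1, one_mem _⟩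
    refine ⟨g, hg, fun v => by_contra fun c => ?_⟩
    have inv : ∀ u ∈ U, u⁻¹ = u := fun u hu => inv_eq_of_mul_eq_one_left (hU2 u hu)
    have v1 := conj_mem_of_norm (nL hg) v.2
    have u1 := mul_mem (φ v).2 v1
    have u2 : (φ v : G) * (g * v * g⁻¹) ≠ 1 := fun e => c (by rw [← inv _ v1]; exact (eq_inv_of_mul_eq_one_left e).symm)
    have l1 : (S g).map ((cj g).comp U.subtype) ≤ U := by rintro _ ⟨s, -, rfl⟩; exact conj_mem_of_norm (nL hg) s.2
    have hu := h _ u1 u2
    obtain ⟨k, hk, e⟩ := hu.exists_tv (A := (S g).map ((cj g).comp U.subtype) ⊔ zpowers _) (mem_sup_right (mem_zpowers _))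
      (sup_le (l1.trans (l _ u1 u2)) hu.zp_le) (l _ u1 u2 v1) fun d => by
        obtain ⟨_, ⟨s, hs, rfl⟩, t, ht, e⟩ := (mem_sup_of_norm ((l1.trans ((l _ u1 u2).trans hu.le_c1)).trans (norm_zp2 hu.ord).ge)).1 d
        rcases (mem_zp2 hu.ord).1 ht with rfl | rfl
        · obtain rfl : s = v := Subtype.ext (CfsgH2.cj_injective g ((mul_one _).symm.trans e))
          exact c hs
        · have : (φ s : G) = φ v := by
            rw [← (hS g s).1 hs, ← inv _ (φ v).2]
            exact eq_inv_of_mul_eq_one_left (mul_right_cancel ((mul_assoc _ _ _).trans (e.trans (one_mul _).symm)))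
          obtain rfl := φ.injective (Subtype.ext this)
          exact c hs
    refine (card_lt_of_lt (lt_of_le_of_ne (fun s hs => ?_) fun d : S g = S (k * g) => c ((hS g v).1 (d.ge ?_)))).not_ge (hm (k * g) (mul_mem (lL _ u1 u2 hk.1) hg))
    · rw [hS, ← (hS g s).1 hs]
      calc _ = k * (g * s * g⁻¹) * k⁻¹ := by group
        _ = _ := by
          have : g * s * g⁻¹ * k = k * (g * s * g⁻¹) := mem_cent_iff.1 hk.2 _ (mem_sup_left (mem_map_of_mem _ hs))
          rw [← this, mul_inv_cancel_right]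
    · rw [hS]
      calc _ = k * (g * v * g⁻¹) * k⁻¹ := by group
        _ = _ := by rw [e, mul_assoc, hU2 _ v1, mul_one]

end Cfsg.Agent.S5596
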