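import Cfsg.Statements.S5597
import Cfsg.Agent.H1.LX2
import Cfsg.Agent.S5596

set_option autoImplicit false
open Cfsg

namespace Cfsg.Agent.S5597

/-- Setting: `z` is an involution of the finite group `G`; for each element `x`, `Q x` is the largest normal 2-subgroup of the centralizer of `x`; `Q z` is extraspecial and contains its own centralizer in `G`. A subgroup `U` is singular when it is elementary abelian, every non-identity element of `U` is conjugate to `z`, and any two non-identity elements `u`, `v` of `U` are orthogonal (`v ∈ Q u`). Write `QU` for the intersection of the `Q u` and `LU` for the join of the `Q u` over the non-identity `u` in `U`. If `U` is a non-trivial singular subgroup, then `LU` acts trivially on `QU / U` (every commutator of an element of `LU` with an element of `QU` lies in `U`), and for every `x` in `QU` outside `U` the centralizer of `U` in `LU` permutes the coset `x U` transitively: each `x u` with `u ∈ U` is a conjugate of `x` by an element of `LU` centralizing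 `U`. -/
theorem result {G : Type*} [Group G] [Finite G]
    (Q : G → Subgroup G)
    (hQ : ∀ x : G, Q x = (Cfsg.pCore 2 ↥(Subgroup.centralizer ({x} : Set G))).map (Subgroup.centralizer ({x} : Set G)).subtype)
    (z : G) (hz : orderOf z = 2) (hE : Cfsg.IsExtraspecial 2 ↥(Q z))
    (hC : Subgroup.centralizer ((Q z : Subgroup G) : Set G) ≤ Q z)
    (U : Subgroup G) (hU2 : ∀ u ∈ U, u * u = 1)
    (hS : ∀ u ∈ U, u ≠ 1 → ∃ g : G, g * z * g⁻¹ = u)
    (hO : ∀ u ∈ U, ∀ v ∈ U, u ≠ 1 → v ≠ 1 → v ∈ Q u)
    (QU LU : Subgroup G) (hQU : QU = ⨅ u ∈ ((U : Set G) \ {1}), Q u) (hLU : LU = ⨆ u ∈ ((U : Set G) \ {1}), Q u)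
    (hU : U ≠ ⊥) :
    (∀ g ∈ LU, ∀ x ∈ QU, g * x * g⁻¹ * x⁻¹ ∈ U) ∧
      ∀ x ∈ QU, x ∉ U → ∀ u ∈ U, ∃ g ∈ LU ⊓ Subgroup.centralizer (U : Set G), g * x * g⁻¹ = x * u := by
  open Subgroup CfsgH2 in
  open CfsgH1 hiding SS card_inf_mul_relIndex card_lt_of_lt card_lt_of_ne_top card_map_mul_card_inf_ker card_mul_relIndex card_subgroupOf card_sup_dvd card_sup_mul_card_inf coprime_le_sup_cent exists_card_prime_le isNilpotent_map isNilpotent_of_le isPGroup_pCore isSolvable_map isSolvable_of_le le_pCore le_pPrimeCore relIndex_map_dvd in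
  open scoped CfsgH1 in
  open CfsgL0 hiding cj cj_injective comm_zpowers_le conj_mem_of_mem_normalizer conj_mem_of_mem_normalizer' isPGroup_of_forall isPGroup_zpowers isPGroup_zpowers_of_orderOf mem_normalizer_of_conj_mem sec_sub in
  open scoped CfsgL0 in
  open scoped commutatorElement in
  · have h := fun u hu u1 => (S5596.lx hQ hz hE hC).2 u (hS u hu u1)
    have l : ∀ u ∈ U, u ≠ 1 → U ≤ Q u := fun u hu u1 v hv => by
      by_cases c : v = 1
      · exact c ▸ one_mem _
      · exact hO u hu v hv u1 c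
    have lQ : ∀ u ∈ U, u ≠ 1 → QU ≤ Q u := fun u hu u1 => hQU ▸ iInf₂_le (f := fun u _ => Q u) u ⟨hu, u1⟩
    refine ⟨fun g hg x hx => ?_, fun x hx x1 u hu => ?_⟩
    · have : LU ≤ stab QU U := hLU ▸ iSup₂_le fun u hu => le_stab ((h u hu.1 hu.2).le_norm hu.1 (l u hu.1 hu.2))
        ((commutator_mono (lQ u hu.1 hu.2) le_rfl).trans ((h u hu.1 hu.2).der.trans (zpowers_le.2 hu.1)))
      exact ((commutator_comm _ _).le.trans (comm_le_of_le_stab this)) (commutator_mem_commutator hg hx)
    by_cases c : u = 1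
    · exact ⟨1, one_mem _, by simp [c]⟩
    obtain ⟨g, hg, e⟩ := (h u hu c).exists_tv hu (l u hu c) (lQ u hu c hx) x1
    exact ⟨g, ⟨(hLU ▸ le_iSup₂_of_le (f := fun u _ => Q u) u ⟨hu, c⟩ le_rfl : Q u ≤ LU) hg.1, hg.2⟩, e.trans (mem_c1.1 ((h u hu c).le_c1 (lQ u hu c hx))).symm⟩

end Cfsg.Agent.S5597
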