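import Cfsg.Statements.S5598
import Cfsg.Agent.H1.LX2
import Cfsg.Agent.S5596

set_option autoImplicit false
open Cfsg

namespace Cfsg.Agent.S5598

/-- Setting: `z` is an involution of the finite group `G`; for each element `x`, `Q x` is the largest normal 2-subgroup of the centralizer of `x`; `Q z` is extraspecial and contains its own centralizer in `G`. A subgroup `U` is singular when it is elementary abelian, every non-identity element of `U` is conjugate to `z`, and any two non-identity elements `u`, `v` of `U` are orthogonal (`v ∈ Q u`). Write `QU` for the intersection of the `Q u` and `LU` for the join of the `Q u` over the non-identity `u` in `U`. If the singular subgroup `U` is generated by a set `T` of non-identity elements, then `QU` is already the intersection of the `Q t` over `t ∈ T`. -/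
theorem result {G : Type*} [Group G] [Finite G]
    (Q : G → Subgroup G)
    (hQ : ∀ x : G, Q x = (Cfsg.pCore 2 ↥(Subgroup.centralizer ({x} : Set G))).map (Subgroup.centralizer ({x} : Set G)).subtype)
    (z : G) (hz : orderOf z = 2) (hE : Cfsg.IsExtraspecial 2 ↥(Q z))
    (hC : Subgroup.centralizer ((Q z : Subgroup G) : Set G) ≤ Q z)
    (U : Subgroup G) (hU2 : ∀ u ∈ U, u * u = 1)
    (hS : ∀ u ∈ U, u ≠ 1 → ∃ g : G, g * z * g⁻¹ = u)
    (hO : ∀ u ∈ U, ∀ v ∈ U, u ≠ 1 → v ≠ 1 → v ∈ Q u)
    (QU LU : Subgroup G) (hQU : QU = ⨅ u ∈ ((U : Set G) \ {1}), Q u) (hLU : LU = ⨆ u ∈ ((U : Set G) \ {1}), Q u)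
    (T : Set G) (hT : Subgroup.closure T = U) (hT1 : (1 : G) ∉ T) :
    QU = ⨅ t ∈ T, Q t := by
  open Subgroup CfsgH2 in
  open CfsgH1 hiding SS card_inf_mul_relIndex card_lt_of_lt card_lt_of_ne_top card_map_mul_card_inf_ker card_mul_relIndex card_subgroupOf card_sup_dvd card_sup_mul_card_inf coprime_le_sup_cent exists_card_prime_le isNilpotent_map isNilpotent_of_le isPGroup_pCore isSolvable_map isSolvable_of_le le_pCore le_pPrimeCore relIndex_map_dvd in
  open scoped CfsgH1 in
  open CfsgL0 hiding cj cj_injective comm_zpowers_le conj_mem_of_mem_normalizer conj_mem_of_mem_normalizer' isPGroup_of_forall isPGroup_zpowers isPGroup_zpowers_of_orderOf mem_normalizer_of_conj_mem sec_sub in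
  open scoped CfsgL0 in
  open scoped commutatorElement in
  · obtain ⟨k, h⟩ := S5596.lx hQ hz hE hC
    replace h := fun u hu u1 => h u (hS u hu u1)
    subst hQU hT
    refine le_antisymm (le_iInf₂ fun t ht => iInf₂_le (f := fun u _ => Q u) t ⟨subset_closure ht, fun e => hT1 (e ▸ ht)⟩) fun x hx => ?_
    have : ∀ u ∈ closure T, u = 1 ∨ x ∈ Q u := fun u hu => by
      induction hu using closure_induction with
      | mem t ht => exact Or.inr (mem_iInf.1 (mem_iInf.1 hx t) ht)
      | one => exact Or.inl rfl
      | inv u hu ih => rwa [inv_eq_of_mul_eq_one_left (hU2 u hu)]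
      | mul s t hs ht h1 h2 =>
        by_cases s1 : s = 1
        · rwa [s1, one_mul]
        by_cases t1 : t = 1
        · rwa [t1, mul_one]
        by_cases c : t = s
        · exact Or.inl (c ▸ hU2 t ht)
        have a := h s hs s1
        obtain ⟨q, hq, e⟩ := a.exists_conj (hO s hs t ht s1 t1) fun d => ((mem_zp2 a.ord).1 d).elim t1 c
        refine Or.inr ?_
        rw [← e, k, mem_map_cj, show q⁻¹ * x * q = ⁅q⁻¹, x⁆ * x by group]
        exact mul_mem (zpowers_le.2 (hO t ht s hs t1 s1) (a.comm_mem (inv_mem hq) (h1.resolve_left s1))) (h2.resolve_left t1)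
    exact mem_iInf.2 fun u => mem_iInf.2 fun hu => (this u hu.1).resolve_left hu.2

end Cfsg.Agent.S5598
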