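import Mathlib
import Cfsg.Statements.S5713

set_option autoImplicit false
open Cfsg

namespace Cfsg.Agent.S5713

open MulAction Pointwise

theorem three {α : Type*} [Fintype α] [DecidableEq α] (a b : Equiv.Perm α) (x : α)
    (ha : a x ≠ x) (hb : b x ≠ x) (h : ∀ y, a y ≠ y → b y ≠ y → y = x) :
    (a * b * a⁻¹ * b⁻¹).IsThreeCycle := by
  have hinv : ∀ (c : Equiv.Perm α) y, c y = y → c⁻¹ y = y := fun c y hy => by
    rw [Equiv.Perm.inv_eq_iff_eq]; exact hy.symm
  have hinv' : ∀ (c : Equiv.Perm α) y, c (c⁻¹ y) = c⁻¹ y → c y = y := fun c y hy => by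
    have h1 : y = c⁻¹ y := by simpa using hy
    rw [← h1] at hy; exact hy
  have hsub : (a * b * a⁻¹ * b⁻¹).support ⊆ {x, a x, b x} := by
    intro y hy
    by_contra hn
    simp only [Finset.mem_insert, Finset.mem_singleton, not_or] at hn
    obtain ⟨h1, h2, h3⟩ := hn
    apply Equiv.Perm.mem_support.1 hy
    simp only [Equiv.Perm.mul_apply]
    by_cases hby : b y = y
    · rw [hinv b y hby]
      have : b (a⁻¹ y) = a⁻¹ y := by
        by_contra hc
        by_cases hay : a y = y
        · rw [hinv a y hay] at hc; exact hc hby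
        · have := h (a⁻¹ y) (fun e => hay (hinv' a y e)) hc
          apply h2; rw [← this]; simp
      rw [this]; simp
    · have hay : a y = y := by
        by_contra hc; exact h1 (h y hc hby)
      have : a (b⁻¹ y) = b⁻¹ y := by
        by_contra hc
        have := h (b⁻¹ y) hc (fun e => hby (hinv' b y e))
        apply h3; rw [← this]; simp
      rw [hinv a _ this]; simpa using hay
  have hne : (a * b * a⁻¹ * b⁻¹) (b x) ≠ b x := by
    simp only [Equiv.Perm.mul_apply, Equiv.Perm.coe_inv, Equiv.symm_apply_apply]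
    have : b (a⁻¹ x) = a⁻¹ x := by
      by_contra hc
      have := h (a⁻¹ x) (fun e => ha (hinv' a x e)) hc
      apply ha
      conv_lhs => rw [← this]
      simp
    have h2 : b (a.symm x) = a.symm x := this
    rw [h2]; simpa using hb.symm
  rw [← card_support_eq_three_iff]
  have h3 : (a * b * a⁻¹ * b⁻¹).support.card ≤ 3 :=
    (Finset.card_le_card hsub).trans Finset.card_le_three
  have h1 : (a * b * a⁻¹ * b⁻¹) ≠ 1 := fun e => hne (by rw [e]; rfl)
  have h4 := Equiv.Perm.two_le_card_support_of_ne_one h1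
  have h2 : (a * b * a⁻¹ * b⁻¹).support.card ≠ 2 := fun e => by
    have := (Equiv.Perm.card_support_eq_two.1 e).sign_eq
    simp only [map_mul, map_inv] at this
    rcases Int.units_eq_one_or (Equiv.Perm.sign a) with h1 | h1 <;>
      rcases Int.units_eq_one_or (Equiv.Perm.sign b) with h2 | h2 <;>
      rw [h1, h2] at this <;> exact absurd this (by decide)
  omega

section
variable {G Ω : Type*} [Group G] [MulAction G Ω]

def R (G : Type*) [Group G] [MulAction G Ω] (a b u v : Ω) : Prop := ∃ h : G, h • a = u ∧ h • b = v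

theorem R.smul {a b u v : Ω} (h : R G a b u v) (g : G) : R G a b (g • u) (g • v) := by
  obtain ⟨k, rfl, rfl⟩ := h
  exact ⟨g * k, mul_smul _ _ _, mul_smul _ _ _⟩

theorem conn [Finite Ω] (hp : IsPreprimitive G Ω) {a b : Ω} (hab : a ≠ b) (O : Set Ω) (u : Ω) (hu : u ∈ O)
    (hO : ∀ u ∈ O, ∀ v, R G a b v u → v ∈ O) (w : Ω) : w ∈ O := by
  let C : Ω → Set Ω := fun u => {v | Relation.ReflTransGen (fun s t => R G a b t s) u v}
  have h1 : ∀ (g : G) u v, v ∈ C u → g • v ∈ C (g • u) := fun g u v hv =>
    Relation.ReflTransGen.lift (r := fun s t => R G a b t s) (p := fun s t => R G a b t s) (fun x => g • x) (fun _ _ h => R.smul h g) _ _ hv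
  have h2 : ∀ (g : G) u, g • C u = C (g • u) := fun g u => by
    ext v
    rw [Set.mem_smul_set_iff_inv_smul_mem]
    constructor
    · intro h; simpa using h1 g _ _ h
    · intro h; simpa using h1 g⁻¹ _ _ h
  have h3 : ∀ u v, (C u).ncard = (C v).ncard := fun u v => by
    obtain ⟨g, rfl⟩ := hp.exists_smul_eq u v
    rw [← h2, Set.ncard_smul_set]
  have h4 : ∀ u v, v ∈ C u → C v = C u := fun u v hv =>
    Set.eq_of_subset_of_ncard_le (fun w hw => Relation.ReflTransGen.trans hv hw) (h3 _ _).le
  have hB : IsBlock G (C b) := by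
    rw [isBlock_iff_smul_eq_of_nonempty]
    rintro g ⟨v, hv1, hv2⟩
    rw [h2] at hv1 ⊢
    rw [← h4 _ _ hv1, h4 _ _ hv2]
  have hC : C b = Set.univ := by
    rcases hp.isTrivialBlock_of_isBlock hB with h | h
    · exact absurd (h (Relation.ReflTransGen.single ⟨1, by simp, by simp⟩) Relation.ReflTransGen.refl) hab
    · exact h
  have h5 : w ∈ C u := by
    obtain ⟨g, rfl⟩ := hp.exists_smul_eq b u
    rw [← h2, hC]; simp
  have : ∀ w, Relation.ReflTransGen (fun s t => R G a b t s) u w → w ∈ O := by
    intro w hw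
    induction hw with
    | refl => exact hu
    | tail _ h ih => exact hO _ ih _ h
  exact this w h5

def D (G : Type*) [Group G] [MulAction G Ω] (x y : Ω) : Set Ω := {z | ¬ ∃ h : G, h • z = z ∧ h • x = y}

theorem D_symm (x y : Ω) : D G x y = D G y x := by
  have : ∀ x y : Ω, D G x y ⊆ D G y x := by
    rintro x y z hz ⟨h, h1, h2⟩
    exact hz ⟨h⁻¹, by rw [inv_smul_eq_iff, h1], by rw [inv_smul_eq_iff, h2]⟩
  exact (this x y).antisymm (this y x)

theorem D_tri [Finite Ω] (x y z : Ω) : (D G x z).ncard ≤ (D G x y).ncard + (D G y z).ncard := by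
  refine le_trans (Set.ncard_le_ncard ?_) (Set.ncard_union_le _ _)
  intro w hw
  by_contra hc
  simp only [D, Set.mem_union, Set.mem_ofPred_eq, not_or, not_not] at hc
  obtain ⟨⟨h, h1, h2⟩, ⟨k, k1, k2⟩⟩ := hc
  exact hw ⟨k * h, by rw [mul_smul, h1, k1], by rw [mul_smul, h2, k2]⟩

theorem D_R {a b u v : Ω} (h : R G a b u v) : (D G u v).ncard = (D G a b).ncard := by
  obtain ⟨g, rfl, rfl⟩ := h
  rw [← Set.ncard_smul_set g (D G a b)]
  congr 1
  ext z
  rw [Set.mem_smul_set_iff_inv_smul_mem]
  simp only [D, Set.mem_ofPred_eq]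
  apply not_congr
  constructor
  · rintro ⟨h, h1, h2⟩
    exact ⟨g⁻¹ * h * g, by simp [mul_smul, h1], by simp [mul_smul, h2]⟩
  · rintro ⟨h, h1, h2⟩
    exact ⟨g * h * g⁻¹, by simp [mul_smul, h1], by simp [mul_smul, h2]⟩

def N (G : Type*) [Group G] [MulAction G Ω] (a b x : Ω) : Set Ω := {z | R G a b z x}

theorem N_card (hp : IsPreprimitive G Ω) (a b x : Ω) : (N G a b x).ncard = (N G a b b).ncard := by
  obtain ⟨g, rfl⟩ := hp.exists_smul_eq b x
  rw [← Set.ncard_smul_set g (N G a b b)]
  congr 1
  ext z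
  rw [Set.mem_smul_set_iff_inv_smul_mem]
  constructor
  · intro h; simpa [N] using R.smul h g⁻¹
  · intro h; simpa [N] using R.smul h g

theorem N_D [Finite Ω] (hp : IsPreprimitive G Ω) (a b x y : Ω) :
    2 * (N G a b b).ncard ≤ (D G x y).ncard + 2 * (N G a b x ∩ N G a b y).ncard := by
  have h1 : ∀ x y : Ω, N G a b x \ N G a b y ⊆ D G x y := by
    rintro x y z ⟨h1, h2⟩ ⟨h, h3, h4⟩
    apply h2
    have := R.smul h1 h
    rwa [h3, h4] at this
  have h2 : (N G a b x \ N G a b y ∪ N G a b y \ N G a b x).ncard ≤ (D G x y).ncard :=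
    Set.ncard_le_ncard (Set.union_subset (h1 x y) (D_symm (G := G) x y ▸ h1 y x))
  rw [Set.ncard_union_eq disjoint_sdiff_sdiff] at h2
  have h3 := Set.ncard_inter_add_ncard_sdiff_eq_ncard (N G a b x) (N G a b y)
  have h4 := Set.ncard_inter_add_ncard_sdiff_eq_ncard (N G a b y) (N G a b x)
  rw [Set.inter_comm] at h4
  rw [N_card hp] at h3 h4
  omega

theorem four [Fintype Ω] (hp : IsPreprimitive G Ω) {a b : Ω} (hab : a ≠ b) :
    Fintype.card Ω ≤ (N G a b b).ncard * (D G a b).ncard + 1 := by
  classical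
  have h1 : (Finset.univ : Finset Ω) ⊆ insert b ((N G a b b).toFinset.biUnion fun w => (D G w b).toFinset) := by
    intro x _
    by_contra hc
    simp only [Finset.mem_insert, Finset.mem_biUnion, Set.mem_toFinset, not_or, not_exists, not_and] at hc
    obtain ⟨hxb, hc⟩ := hc
    have := conn hp hab {u | ∃ h : G, h • x = x ∧ h • b = u} b ⟨1, by simp, by simp⟩ (by
      rintro u ⟨h, h1, rfl⟩ v hv
      have h2 : h⁻¹ • v ∈ N G a b b := by simpa [N] using R.smul hv h⁻¹
      have h3 := hc _ h2
      simp only [D, Set.mem_ofPred_eq, not_not] at h3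
      obtain ⟨k, k1, k2⟩ := h3
      refine ⟨h * k⁻¹, ?_, ?_⟩
      · rw [mul_smul, inv_smul_eq_iff.2 k1.symm, h1]
      · rw [mul_smul, inv_smul_eq_iff.2 k2.symm]; simp) x
    obtain ⟨h, h1, h2⟩ := this
    exact hxb (smul_left_cancel h (h1.trans h2.symm))
  have h2 := Finset.card_le_card h1
  have h3 := Finset.card_insert_le b ((N G a b b).toFinset.biUnion fun w => (D G w b).toFinset)
  have h4 := Finset.card_biUnion_le (s := (N G a b b).toFinset) (t := fun w => (D G w b).toFinset)
  have h5 : ∑ w ∈ (N G a b b).toFinset, (D G w b).toFinset.card = (N G a b b).ncard * (D G a b).ncard := by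
    rw [Finset.sum_congr rfl (g := fun _ => (D G a b).ncard)]
    · simp [Set.ncard_eq_toFinset_card']
    · intro w hw
      rw [← Set.ncard_eq_toFinset_card']
      rw [Set.mem_toFinset] at hw
      exact D_R hw
  rw [Finset.card_univ] at h2
  omega

theorem dich [Finite Ω] (hp : IsPreprimitive G Ω) {a b : Ω} (hab : a ≠ b) :
    (∀ x y : Ω, (D G x y).ncard ≤ 2 * (D G a b).ncard) ∨ 2 * (N G a b b).ncard ≤ 3 * (D G a b).ncard := by
  have key : ∀ x y : Ω, (N G a b x ∩ N G a b y).Nonempty → (D G x y).ncard ≤ 2 * (D G a b).ncard := by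
    rintro x y ⟨z, h1, h2⟩
    have := D_tri (G := G) x z y
    rw [D_symm x z, D_R h1, D_R h2] at this
    omega
  by_contra hc
  rw [not_or] at hc
  apply hc.1
  intro x y
  apply key
  refine conn hp hab {y | (N G a b x ∩ N G a b y).Nonempty} x ?_ ?_ y
  · obtain ⟨g, rfl⟩ := hp.exists_smul_eq b x
    exact ⟨g • a, ⟨g, rfl, rfl⟩, ⟨g, rfl, rfl⟩⟩
  · intro u hu v hv
    by_contra hn
    apply hc.2
    have h1 := N_D hp a b x v
    have h2 : N G a b x ∩ N G a b v = ∅ := Set.not_nonempty_iff_eq_empty.1 hn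
    rw [h2] at h1
    have h3 := key x u hu
    have h4 := D_tri (G := G) x u v
    rw [D_symm u v, D_R hv] at h4
    simp at h1
    omega

theorem big [Fintype Ω] (hp : IsPreprimitive G Ω) {a b : Ω} (hab : a ≠ b)
    (h : 2 * {y | R G a b a y}.ncard + 1 ≤ Fintype.card Ω) :
    ∃ x y : Ω, (N G a b b).ncard ≤ (D G x y).ncard := by
  classical
  by_contra hc
  push Not at hc
  have hout : ∀ z, {y | R G a b z y}.ncard = {y | R G a b a y}.ncard := fun z => by
    obtain ⟨g, rfl⟩ := hp.exists_smul_eq a z
    rw [← Set.ncard_smul_set g {y | R G a b a y}]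
    congr 1
    ext w
    rw [Set.mem_smul_set_iff_inv_smul_mem]
    constructor
    · intro h; simpa using R.smul h g⁻¹
    · intro h; simpa using R.smul h g
  have h1 : ∑ y, (N G a b b ∩ N G a b y).ncard = (N G a b b).ncard * {y | R G a b a y}.ncard := by
    have : ∀ y, (N G a b b ∩ N G a b y).ncard = ∑ z ∈ (N G a b b).toFinset, if R G a b z y then 1 else 0 := by
      intro y
      rw [← Finset.card_filter, Set.ncard_eq_toFinset_card']
      congr 1; ext z
      simp only [Set.mem_toFinset, Finset.mem_filter, Set.mem_inter_iff]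
      rfl
    simp_rw [this]
    rw [Finset.sum_comm, Finset.sum_congr rfl (g := fun _ => {y | R G a b a y}.ncard)]
    · simp [Set.ncard_eq_toFinset_card']
    · intro z _
      rw [← Finset.card_filter, ← hout z, Set.ncard_eq_toFinset_card']
      congr 1; ext z; simp
  have h2 : ∑ y : Ω, ((N G a b b).ncard + 1) ≤ ∑ y, 2 * (N G a b b ∩ N G a b y).ncard := by
    apply Finset.sum_le_sum
    intro y _
    have := N_D hp a b b y
    have := hc b y
    omega
  rw [← Finset.mul_sum, h1] at h2
  simp only [Finset.sum_const, Finset.card_univ, smul_eq_mul] at h2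
  nlinarith

theorem two [Finite G] [Fintype Ω] (a : Ω) (S : Finset Ω)
    (ht : ∀ b c, b ≠ a → c ≠ a → ∃ h : G, h • a = a ∧ h • b = c) (haS : a ∉ S)
    (hS : ∀ h : G, h • a = a → ∃ b ∈ S, h • b ∈ S) : Fintype.card Ω ≤ S.card * S.card + 1 := by
  classical
  have := Fintype.ofFinite G
  let H := stabilizer G a
  have h1 : (Finset.univ : Finset H) ⊆ (S ×ˢ S).biUnion fun p => Finset.univ.filter fun h : H => h • p.1 = p.2 := by
    intro h _
    obtain ⟨b, hb, hb'⟩ := hS h h.2
    simp only [Finset.mem_biUnion, Finset.mem_filter, Finset.mem_univ, true_and]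
    exact ⟨(b, _), Finset.mem_product.2 ⟨hb, hb'⟩, rfl⟩
  have h2 : ∀ p ∈ S ×ˢ S, (Finset.univ.filter fun h : H => h • p.1 = p.2).card * (Fintype.card Ω - 1) ≤ Fintype.card H := by
    rintro ⟨b, c⟩ hp
    obtain ⟨hb, hc⟩ := Finset.mem_product.1 hp
    have hc' : c ≠ a := fun e => haS (e ▸ hc)
    have : ∀ d : {d // d ≠ a}, ∃ h : H, h • c = d.1 := fun d => by
      obtain ⟨h, h1, h2⟩ := ht c d hc' d.2
      exact ⟨⟨h, h1⟩, h2⟩
    choose f hf using this
    have h3 := Finset.card_le_card_of_injOn (s := (Finset.univ.filter fun h : H => h • b = c) ×ˢ (Finset.univ : Finset {d // d ≠ a}))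
      (t := Finset.univ) (fun p => f p.2 * p.1) (fun _ _ => by simp) (by
        rintro ⟨h, d⟩ h1 ⟨k, e⟩ h2 h3
        simp only [Finset.coe_product, Set.mem_prod, Finset.coe_filter, Finset.mem_univ, true_and, Set.mem_ofPred_eq] at h1 h2 h3
        have h4 := congrArg (fun g : H => g • b) h3
        simp only [mul_smul, h1.1, h2.1, hf] at h4
        have h5 : d = e := Subtype.ext h4
        subst h5
        rw [mul_left_cancel h3])
    simpa [Finset.card_product] using h3
  have h3 := (Finset.card_le_card h1).trans Finset.card_biUnion_le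
  have h4 : (∑ p ∈ S ×ˢ S, (Finset.univ.filter fun h : H => h • p.1 = p.2).card) * (Fintype.card Ω - 1) ≤ S.card * S.card * Fintype.card H := by
    rw [Finset.sum_mul]
    refine (Finset.sum_le_sum h2).trans ?_
    simp [Finset.card_product]
  rw [Finset.card_univ] at h3
  have h5 : 0 < Fintype.card H := Fintype.card_pos
  have h6 : Fintype.card H * (Fintype.card Ω - 1) ≤ Fintype.card H * (S.card * S.card) := by
    calc _ ≤ _ := Nat.mul_le_mul_right _ h3
      _ ≤ _ := h4
      _ = _ := by ring
  have := Nat.le_of_mul_le_mul_left h6 h5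
  omega
end

/-- A classification-free minimal-degree bound. Let G be a finite group acting faithfully and primitively on a finite set Ω with n elements, and suppose that the image of G in the symmetric group on Ω does not contain the alternating group on Ω. Then every non-identity element of G moves at least (√n − 1)/2 points of Ω, that is, it fixes at most n − (√n − 1)/2 points. -/
theorem result {G Ω : Type*} [Group G] [Finite G] [MulAction G Ω] [FaithfulSMul G Ω] [Fintype Ω] [DecidableEq Ω]
    (hprim : MulAction.IsPreprimitive G Ω)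
    (hA : ¬ alternatingGroup Ω ≤ (MulAction.toPermHom G Ω).range)
    (g : G) (hg : g ≠ 1) :
    (Real.sqrt (Fintype.card Ω) - 1) / 2 ≤ (Fintype.card Ω : ℝ) - Nat.card (MulAction.fixedBy Ω g) := by
  classical
  obtain ⟨a, ha⟩ : ∃ a : Ω, g • a ≠ a := by
    by_contra hc
    push Not at hc
    exact hg (eq_of_smul_eq_smul (α := Ω) (fun a => by simp [hc a]))
  let M : Finset Ω := Finset.univ.filter fun x => g • x ≠ x
  have hM : (Fintype.card Ω : ℝ) - Nat.card (MulAction.fixedBy Ω g) = M.card := by
    have := Finset.card_filter_add_card_filter_not (s := (Finset.univ : Finset Ω)) (fun x => g • x = x)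
    rw [Nat.card_eq_fintype_card, Fintype.card_subtype, sub_eq_iff_eq_add, ← Finset.card_univ, ← this]
    simp [M, add_comm]
  rw [hM]
  suffices h : Fintype.card Ω ≤ 4 * M.card * M.card + 1 by
    have h1 : (Fintype.card Ω : ℝ) ≤ 4 * M.card * M.card + 1 := by exact_mod_cast h
    have h0 : (0 : ℝ) ≤ M.card := Nat.cast_nonneg _
    have h2 : Real.sqrt (Fintype.card Ω) ≤ 2 * M.card + 1 := by
      rw [Real.sqrt_le_left (by positivity)]; nlinarith
    linarith
  by_cases ht : ∀ b c, b ≠ a → c ≠ a → ∃ h : G, h • a = a ∧ h • b = c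
  · have := two (G := G) a (M.erase a) ht (by simp) (by
      intro h hh
      by_contra hc
      push Not at hc
      apply hA
      have hp : IsPreprimitive (toPermHom G Ω).range Ω :=
        IsPreprimitive.of_surjective (φ := (toPermHom G Ω).rangeRestrict) (f := ⟨id, fun _ _ => rfl⟩) Function.surjective_id
      refine Equiv.Perm.alternatingGroup_le_of_isPreprimitive_of_isThreeCycle_mem hp
        (three (toPermHom G Ω g) (toPermHom G Ω (h * g * h⁻¹)) a ha ?_ ?_) ?_
      · simp only [toPermHom_apply, toPerm_apply, mul_smul, inv_smul_eq_iff.2 hh.symm]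
        intro e
        exact ha (smul_left_cancel h (e.trans hh.symm))
      · intro y h1 h2
        by_contra hy
        simp only [toPermHom_apply, toPerm_apply, mul_smul] at h1 h2
        refine hc (h⁻¹ • y) ?_ ?_
        · simp only [Finset.mem_erase, M, Finset.mem_filter, Finset.mem_univ, true_and]
          refine ⟨fun e => hy ?_, fun e => h2 (by rw [e]; simp)⟩
          rw [inv_smul_eq_iff, hh] at e; exact e
        · simp [M, hy, h1]
      · simp only [← map_inv, ← map_mul]
        exact ⟨_, rfl⟩)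
    have h1 : (M.erase a).card ≤ M.card := Finset.card_erase_le
    nlinarith
  · push Not at ht
    obtain ⟨b, c, hb, hc, hbc⟩ := ht
    have hD : (D G a (g • a)).ncard ≤ M.card := by
      rw [← Set.ncard_coe_finset]
      apply Set.ncard_le_ncard _ (Set.toFinite _)
      intro z hz
      simp only [M, Finset.coe_filter, Finset.mem_univ, true_and, Set.mem_ofPred_eq]
      exact fun e => hz ⟨g, e, rfl⟩
    have h4 := four hprim ha.symm
    rcases dich hprim ha.symm with h | h
    · have : ∃ d, d ≠ a ∧ 2 * {y | R G a d a y}.ncard + 1 ≤ Fintype.card Ω := by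
        have hd : Disjoint {y | R G a b a y} {y | R G a c a y} := by
          rw [Set.disjoint_left]
          rintro y ⟨h, h1, h2⟩ ⟨k, k1, k2⟩
          exact hbc (k⁻¹ * h) (by rw [mul_smul, h1, inv_smul_eq_iff, k1]) (by rw [mul_smul, h2, inv_smul_eq_iff, k2])
        have hn : a ∉ {y | R G a b a y} ∪ {y | R G a c a y} := by
          rintro (⟨h, h1, h2⟩ | ⟨h, h1, h2⟩)
          · exact hb (smul_left_cancel h (h2.trans h1.symm))
          · exact hc (smul_left_cancel h (h2.trans h1.symm))
        have h1 := Set.ncard_le_card (insert a ({y | R G a b a y} ∪ {y | R G a c a y}))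
        rw [Set.ncard_insert_of_notMem hn, Set.ncard_union_eq hd, Nat.card_eq_fintype_card] at h1
        by_contra hh
        push Not at hh
        have := hh b hb
        have := hh c hc
        omega
      obtain ⟨d, hd, hd2⟩ := this
      obtain ⟨x, y, hxy⟩ := big hprim hd.symm hd2
      have h5 := four hprim hd.symm
      have h6 := h x y
      have h7 := h a d
      have := Nat.mul_le_mul (hxy.trans (h6.trans (Nat.mul_le_mul_left 2 hD))) (h7.trans (Nat.mul_le_mul_left 2 hD))
      nlinarith
    · have := Nat.mul_le_mul (show (N G a (g • a) (g • a)).ncard ≤ 2 * M.card by omega) hD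
      nlinarith

end Cfsg.Agent.S5713
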