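import Cfsg.Statements.S5729


set_option autoImplicit false
open Cfsg

namespace Cfsg.Agent.S5729

/-- Let a finite group G act faithfully and transitively on a set with n ≥ 3 points. Then either G is a Frobenius permutation group (Frobenius as a permutation group: transitive, some non-identity element fixes a point, and no non-identity element fixes two points) of order n(n − 1) and exactly |G|/n of its elements are derangements (fix no point), or the number of derangements is greater than |G|/n. -/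
theorem result {G Ω : Type*} [Group G] [Finite G] [MulAction G Ω] [FaithfulSMul G Ω] [Fintype Ω] (htr : MulAction.IsPretransitive G Ω) (hn : 3 ≤ Fintype.card Ω) :
    ((MulAction.IsPretransitive G Ω ∧ (∃ g : G, g ≠ 1 ∧ ∃ ω : Ω, g • ω = ω) ∧ ∀ g : G, g ≠ 1 → Nat.card (MulAction.fixedBy Ω g) ≤ 1) ∧ Nat.card G = Fintype.card Ω * (Fintype.card Ω - 1) ∧ Fintype.card Ω * Nat.card {g : G // ∀ ω : Ω, g • ω ≠ ω} = Nat.card G) ∨
    Nat.card G < Fintype.card Ω * Nat.card {g : G // ∀ ω : Ω, g • ω ≠ ω} := by
  classical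
  haveI : Fintype G := Fintype.ofFinite G
  set n := Fintype.card Ω with hn'
  let f : G → ℕ := fun g => Nat.card (MulAction.fixedBy Ω g)
  have hne : Nonempty Ω := Fintype.card_pos_iff.mp (by omega)
  have S1 : ∑ g, f g = Fintype.card G := by
    have := MulAction.sum_card_fixedBy_eq_card_orbits_mul_card_group G Ω
    have h1 : Fintype.card (Quotient (MulAction.orbitRel G Ω)) = 1 := by
      rw [Fintype.card_eq_one_iff_nonempty_unique]
      exact (MulAction.pretransitive_iff_unique_quotient_of_nonempty G Ω).mp htr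
    rw [h1, one_mul] at this
    simpa [f, Nat.card_eq_fintype_card] using this
  have S2 : 2 * Fintype.card G ≤ ∑ g, f g ^ 2 := by
    have := MulAction.sum_card_fixedBy_eq_card_orbits_mul_card_group G (Ω × Ω)
    have h1 : 2 ≤ Fintype.card (Quotient (MulAction.orbitRel G (Ω × Ω))) := by
      obtain ⟨a, b, hab⟩ := Fintype.exists_pair_of_one_lt_card (α := Ω) (by omega)
      apply Fintype.one_lt_card_iff.mpr
      refine ⟨⟦(a, a)⟧, ⟦(a, b)⟧, fun h => ?_⟩
      obtain ⟨g, hg⟩ := Quotient.exact h
      simp only [Prod.smul_mk, Prod.mk.injEq] at hg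
      exact hab (smul_left_cancel g (hg.1.trans hg.2.symm))
    have h2 : ∀ g : G, Fintype.card (MulAction.fixedBy (Ω × Ω) g) = f g ^ 2 := by
      intro g
      rw [sq, ← Nat.card_prod, ← Nat.card_eq_fintype_card]
      refine Nat.card_congr ⟨fun x => (⟨x.1.1, congrArg Prod.fst x.2⟩, ⟨x.1.2, congrArg Prod.snd x.2⟩),
        fun y => ⟨(y.1.1, y.2.1), Prod.ext y.1.2 y.2.2⟩, fun _ => rfl, fun _ => rfl⟩
    simp only [h2] at this
    rw [this]; exact Nat.mul_le_mul_right _ h1
  have hf0 : ∀ g, f g = 0 ↔ ∀ w : Ω, g • w ≠ w := fun g => by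
    simp [f, Nat.card_eq_zero, MulAction.mem_fixedBy, isEmpty_subtype, not_infinite_iff_finite.mpr (inferInstance : Finite (MulAction.fixedBy Ω g))]
  have hfn : ∀ g, f g ≤ n := fun g => by
    rw [hn', ← Nat.card_eq_fintype_card]
    exact Nat.card_le_card_of_injective (Subtype.val : MulAction.fixedBy Ω g → Ω) Subtype.val_injective
  have hf1 : f 1 = n := by simp [f, hn']
  have hfn' : ∀ g, f g = n → g = 1 := fun g hg => by
    apply FaithfulSMul.eq_of_smul_eq_smul (α := Ω)
    intro w
    have : MulAction.fixedBy Ω g = Set.univ := by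
      apply Set.eq_of_subset_of_ncard_le (Set.subset_univ _)
      rw [Set.ncard_univ, Nat.card_eq_fintype_card, ← hn', ← hg]; rfl
    rw [one_smul]; exact (this ▸ Set.mem_univ w : w ∈ MulAction.fixedBy Ω g)
  set d := Nat.card {g : G // ∀ ω : Ω, g • ω ≠ ω} with hd
  have hd' : (d : ℤ) = ∑ g, if f g = 0 then (1 : ℤ) else 0 := by
    rw [hd, Nat.card_eq_fintype_card, Fintype.card_subtype]
    simp [hf0]
  rw [Nat.card_eq_fintype_card (α := G)]
  by_cases hlt : Fintype.card G < n * d
  · exact Or.inr hlt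
  left
  push Not at hlt
  let t : G → ℤ := fun g => n * (if f g = 0 then (1 : ℤ) else 0) - ((f g : ℤ) ^ 2 - (n + 1) * f g + n)
  have ht : ∀ g, 0 ≤ t g := fun g => by
    have := hfn g
    by_cases h : f g = 0
    · simp [t, h]
    · simp only [t, h, if_false]
      have h1 : (1 : ℤ) ≤ f g := by omega
      have h2 : (f g : ℤ) ≤ n := by omega
      nlinarith
  have hsum : ∑ g, t g = n * d - ((∑ g, f g ^ 2 : ℕ) - (n + 1) * (∑ g, f g : ℕ) + n * Fintype.card G) := by
    simp only [t, Finset.sum_sub_distrib, Finset.sum_add_distrib, ← Finset.mul_sum, hd']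
    simp [mul_comm]
  rw [S1] at hsum
  have hs0 : 0 ≤ ∑ g, t g := Finset.sum_nonneg (fun g _ => ht g)
  have S2' : (2 * Fintype.card G : ℤ) ≤ (∑ g, f g ^ 2 : ℕ) := by exact_mod_cast S2
  have hlt' : (n * d : ℤ) ≤ Fintype.card G := by exact_mod_cast hlt
  have e1 : (n * d : ℤ) = Fintype.card G := by linarith
  have hz : ∑ g, t g = 0 := by linarith
  have hz' := (Finset.sum_eq_zero_iff_of_nonneg (fun g _ => ht g)).mp hz
  have hle : ∀ g, g ≠ 1 → f g ≤ 1 := fun g hg => by
    by_contra hc
    have h0 : f g ≠ 0 := by omega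
    have := hz' g (Finset.mem_univ g)
    simp only [t, h0, if_false] at this
    have h1 : (2 : ℤ) ≤ f g := by omega
    have h2 : (f g : ℤ) < n := by have := hfn g; have := mt (hfn' g) hg; omega
    nlinarith
  have e2 : ∀ g, (f g : ℤ) = 1 - (if f g = 0 then (1 : ℤ) else 0) + if g = 1 then (n - 1 : ℤ) else 0 := fun g => by
    by_cases hg : g = 1
    · subst hg; rw [hf1, if_neg (by omega)]; simp
    · have := hle g hg
      by_cases h : f g = 0
      · simp [h, hg]
      · simp [h, hg]; omega
  have e3 : (d : ℤ) = n - 1 := by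
    have : ((∑ g, f g : ℕ) : ℤ) = ∑ g, (f g : ℤ) := by push_cast; rfl
    rw [S1, Finset.sum_congr rfl (fun g _ => e2 g), Finset.sum_add_distrib, Finset.sum_sub_distrib, ← hd'] at this
    simp at this
    linarith
  have e4 : d = n - 1 := by omega
  have e5 : n * d = Fintype.card G := by exact_mod_cast e1
  refine ⟨⟨htr, ?_, hle⟩, by rw [← e5, e4], e5⟩
  by_contra hc
  push Not at hc
  have : ∑ g, f g = f 1 := Finset.sum_eq_single 1 (fun g _ hg => (hf0 g).mpr (hc g hg)) (by simp)
  rw [S1, hf1, ← e5, e4] at this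
  have : n * 2 ≤ n * (n - 1) := Nat.mul_le_mul_left _ (by omega)
  omega

end Cfsg.Agent.S5729
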