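import Cfsg.Statements.S5946


set_option autoImplicit false
open Cfsg

namespace Cfsg.Agent.S5946

theorem mem_S {F K : Type*} [Field F] [Field K] [Algebra F K] (g : (Module.End F K)ˣ) :
    g ∈ (Units.map ((Algebra.lmul F K : K →ₐ[F] Module.End F K) : K →* Module.End F K)).range ↔
      ∀ x, (g : Module.End F K) x = (g : Module.End F K) 1 * x := by
  constructor
  · rintro ⟨k, rfl⟩ x; simp
  · intro h
    have h1 : (g : Module.End F K) 1 ≠ 0 := by
      intro h0
      have := congrArg (fun f : Module.End F K => f 1) g.inv_mul
      simp only [Module.End.mul_apply, h0, map_zero] at this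
      exact zero_ne_one this
    exact ⟨Units.mk0 _ h1, Units.ext (LinearMap.ext fun x => by simp [h x])⟩

/-- Let F ⊆ K be finite fields with [K : F] = n ≥ 2 and regard K as an n-dimensional F-vector space. The Singer group M ≤ GL_F(K) of multiplications by the non-zero elements of K is self-centralizing: every F-linear automorphism of K commuting with all of M lies in M. -/
theorem result {F K : Type*} [Field F] [Fintype F] [Field K] [Fintype K] [Algebra F K] (n : ℕ) (hn : 2 ≤ n) (hdim : Module.finrank F K = n) :
    Subgroup.centralizer (((Units.map ((Algebra.lmul F K : K →ₐ[F] Module.End F K) : K →* Module.End F K)).range : Subgroup (Module.End F K)ˣ) : Set (Module.End F K)ˣ) = (Units.map ((Algebra.lmul F K : K →ₐ[F] Module.End F K) : K →* Module.End F K)).range := by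
  ext g
  rw [mem_S, Subgroup.mem_centralizer_iff]
  constructor
  · intro h x
    by_cases hx : x = 0
    · simp [hx]
    have := congrArg (fun f : (Module.End F K)ˣ => (f : Module.End F K) 1) (h _ ⟨Units.mk0 x hx, rfl⟩)
    simpa [mul_comm] using this.symm
  · rintro h _ ⟨k, rfl⟩
    apply Units.ext; ext x
    simp [h x, h (k * x)]; ring

end Cfsg.Agent.S5946
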