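import Cfsg.Statements.S5738
import Cfsg.Agent.S5946

set_option autoImplicit false
open Cfsg

namespace Cfsg.Agent.S5738

/-- Let F ⊆ K be finite fields with |F| = q and [K : F] = n ≥ 2, so |K| = q^n. Regard K as an n-dimensional F-vector space; the multiplications by non-zero elements of K form a cyclic subgroup of GL_F(K) of order q^n − 1 acting regularly on the non-zero vectors (a Singer group). Its normaliser in GL_F(K) has order n·(q^n − 1). -/
theorem result {F K : Type*} [Field F] [Fintype F] [Field K] [Fintype K] [Algebra F K] (n : ℕ) (hn : 2 ≤ n) (hdim : Module.finrank F K = n) :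
    Nat.card (Subgroup.normalizer (((Units.map ((Algebra.lmul F K : K →ₐ[F] Module.End F K) : K →* Module.End F K)).range : Subgroup (Module.End F K)ˣ) : Set (Module.End F K)ˣ)) = n * (Fintype.card K - 1) := by
  classical
  haveI : Finite (Module.End F K) := Finite.of_injective _ (DFunLike.coe_injective (F := Module.End F K))
  have hS := Cfsg.Agent.S5946.mem_S (F := F) (K := K)
  set S := (Units.map ((Algebra.lmul F K : K →ₐ[F] Module.End F K) : K →* Module.End F K)).range with hSd
  let φ : Kˣ × (K ≃ₐ[F] K) → (Module.End F K)ˣ := fun c =>
    Units.map ((Algebra.lmul F K : K →ₐ[F] Module.End F K) : K →* Module.End F K) c.1 *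
      ⟨c.2.toLinearMap, c.2.symm.toLinearMap, by ext x; simp, by ext x; simp⟩
  have hφ : ∀ c x, (φ c : Module.End F K) x = c.1 * c.2 x := fun c x => by simp [φ]
  have hφi : ∀ c x, ((φ c)⁻¹ : (Module.End F K)ˣ).val x = c.2.symm (c.1⁻¹ * x) := fun c x => by simp [φ]
  have hN : ∀ c, φ c ∈ Subgroup.normalizer (S : Set (Module.End F K)ˣ) := by
    intro c
    haveI : Finite (S : Set (Module.End F K)ˣ) := Set.toFinite _
    apply Subgroup.mem_normalizer_fintype
    intro g hg
    have hg := (hS g).mp hg
    apply (hS _).mpr
    intro x
    simp only [Units.val_mul, Module.End.mul_apply, hφ, hφi]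
    rw [hg, hg (c.2.symm _)]
    simp; field_simp
  have hbij : Function.Bijective (fun c => (⟨φ c, hN c⟩ : Subgroup.normalizer (S : Set (Module.End F K)ˣ))) := by
    constructor
    · rintro ⟨c, s⟩ ⟨d, t⟩ h
      have h1 : ∀ x, (c : K) * s x = d * t x := fun x => by
        rw [← hφ (c, s), ← hφ (d, t), show φ (c, s) = φ (d, t) from congrArg Subtype.val h]
      have h2 : c = d := Units.ext (by simpa using h1 1)
      subst h2
      simp only [Prod.mk.injEq, true_and]
      ext x
      exact mul_left_cancel₀ c.ne_zero (h1 x)
    · rintro ⟨g, hg⟩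
      have hinj : Function.Injective (g : Module.End F K) := (Module.End.isUnit_iff _ |>.mp g.isUnit).1
      have h1 : (g : Module.End F K) 1 ≠ 0 := fun h => one_ne_zero (hinj (h.trans (map_zero _).symm))
      have hm : ∀ k x, (g : Module.End F K) (k * x) * (g : Module.End F K) 1 = (g : Module.End F K) k * (g : Module.End F K) x := by
        intro k x
        by_cases hk : k = 0
        · simp [hk]
        have := (hS _).mp ((Subgroup.mem_normalizer_iff.mp hg _).mp ⟨Units.mk0 k hk, rfl⟩)
        have hi : ∀ y, (g⁻¹ : (Module.End F K)ˣ).val ((g : Module.End F K) y) = y := fun y => by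
          rw [← Module.End.mul_apply, Units.inv_mul]; rfl
        have e1 := this ((g : Module.End F K) x)
        have e2 := this ((g : Module.End F K) 1)
        simp only [Units.val_mul, Module.End.mul_apply, hi] at e1 e2
        simp at e1 e2
        rw [e1, e2]; ring
      let σ : K →ₐ[F] K :=
        { toFun := fun x => ((g : Module.End F K) 1)⁻¹ * (g : Module.End F K) x
          map_one' := inv_mul_cancel₀ h1
          map_mul' := fun x y => by field_simp; linear_combination hm x y
          map_zero' := by simp
          map_add' := fun x y => by simp [mul_add]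
          commutes' := fun r => by
            rw [Algebra.algebraMap_eq_smul_one, map_smul, mul_smul_comm, inv_mul_cancel₀ h1] }
      refine ⟨(Units.mk0 _ h1, AlgEquiv.ofBijective σ (Finite.injective_iff_bijective.mp σ.injective)), Subtype.ext (Units.ext (LinearMap.ext fun x => ?_))⟩
      simp only [hφ]
      simp [σ, h1]
  rw [← Nat.card_eq_of_bijective _ hbij, Nat.card_prod, Nat.card_units, IsGalois.card_aut_eq_finrank, hdim, mul_comm, Nat.card_eq_fintype_card]

end Cfsg.Agent.S5738
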