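import Cfsg.Statements.S5739
import Cfsg.Agent.S5946

set_option autoImplicit false
open Cfsg

namespace Cfsg.Agent.S5739

/-- Let F ⊆ K be finite fields with |F| = q and [K : F] = n ≥ 2, and let M ≤ GL_F(K) be the Singer group of multiplications by non-zero elements of K. If g ∈ GL_F(K) does not normalise M, then the order of M ∩ gMg⁻¹ divides q^r − 1 for some proper divisor r of n. In particular, when n is prime, that order divides q − 1. -/
theorem result {F K : Type*} [Field F] [Fintype F] [Field K] [Fintype K] [Algebra F K] (n : ℕ) (hn : 2 ≤ n) (hdim : Module.finrank F K = n)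
    (g : (Module.End F K)ˣ) (hg : ((Units.map ((Algebra.lmul F K : K →ₐ[F] Module.End F K) : K →* Module.End F K)).range).map (MulAut.conj g).toMonoidHom ≠ (Units.map ((Algebra.lmul F K : K →ₐ[F] Module.End F K) : K →* Module.End F K)).range) :
    ∃ r : ℕ, 1 ≤ r ∧ r ∣ n ∧ r < n ∧ Nat.card ↥(((Units.map ((Algebra.lmul F K : K →ₐ[F] Module.End F K) : K →* Module.End F K)).range).map (MulAut.conj g).toMonoidHom ⊓ (Units.map ((Algebra.lmul F K : K →ₐ[F] Module.End F K) : K →* Module.End F K)).range) ∣ Fintype.card F ^ r - 1 := by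
  classical
  haveI : Finite (Module.End F K) := Finite.of_injective _ (DFunLike.coe_injective (F := Module.End F K))
  have hS := Cfsg.Agent.S5946.mem_S (F := F) (K := K)
  set S := (Units.map ((Algebra.lmul F K : K →ₐ[F] Module.End F K) : K →* Module.End F K)).range with hSd
  let A : Subalgebra F K :=
    { carrier := {k | ∃ k' : K, ∀ x, (g : Module.End F K) (k' * x) = k * (g : Module.End F K) x}
      mul_mem' := by
        rintro a b ⟨a', ha⟩ ⟨b', hb⟩
        exact ⟨a' * b', fun x => by rw [mul_assoc, ha, hb, mul_assoc]⟩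
      add_mem' := by
        rintro a b ⟨a', ha⟩ ⟨b', hb⟩
        exact ⟨a' + b', fun x => by rw [add_mul, map_add, ha, hb, add_mul]⟩
      algebraMap_mem' := fun r => ⟨algebraMap F K r, fun x => by simp [← Algebra.smul_def]⟩ }
  let E : IntermediateField F K := Subalgebra.IsAlgebraic.toIntermediateField (S := A) (fun x _ => Algebra.IsAlgebraic.isAlgebraic x)
  have hi : ∀ y, (g⁻¹ : (Module.End F K)ˣ).val ((g : Module.End F K) y) = y := fun y => by
    rw [← Module.End.mul_apply, Units.inv_mul]; rfl
  have hi' : ∀ y, (g : Module.End F K) ((g⁻¹ : (Module.End F K)ˣ).val y) = y := fun y => by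
    rw [← Module.End.mul_apply, Units.mul_inv]; rfl
  have hE : E ≠ ⊤ := by
    intro hE
    apply hg
    symm
    apply Subgroup.eq_of_le_of_card_ge
    · rintro _ ⟨k, rfl⟩
      obtain ⟨k', hk⟩ : (k : K) ∈ E := hE ▸ IntermediateField.mem_top
      have hk0 : k' ≠ 0 := by
        rintro rfl
        have := hk ((g⁻¹ : (Module.End F K)ˣ).val 1)
        simp [hi'] at this
        exact k.ne_zero this.symm
      refine ⟨_, ⟨Units.mk0 k' hk0, rfl⟩, Units.ext (LinearMap.ext fun x => ?_)⟩
      simp [hk, hi']
    · exact Subgroup.card_map_of_injective (MulAut.conj g).injective |>.le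
  refine ⟨Module.finrank F E, Module.finrank_pos, hdim ▸ Dvd.intro _ (Module.finrank_mul_finrank F E K), ?_, ?_⟩
  · rw [← hdim]
    exact Submodule.finrank_lt (s := E.toSubmodule) (fun h => hE (by
      rw [eq_top_iff]; intro x _; exact (h ▸ Submodule.mem_top : x ∈ E.toSubmodule)))
  · let ψ : Eˣ →* (Module.End F K)ˣ := (Units.map ((Algebra.lmul F K : K →ₐ[F] Module.End F K) : K →* Module.End F K)).comp
      (Units.map (E.val : E →* K))
    have hle : S.map (MulAut.conj g).toMonoidHom ⊓ S ≤ ψ.range := by
      rintro _ ⟨⟨_, ⟨k', rfl⟩, h1⟩, ⟨k, rfl⟩⟩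
      have hk : (k : K) ∈ E := ⟨k', fun x => by
        have := congrArg (fun f : (Module.End F K)ˣ => (f : Module.End F K) ((g : Module.End F K) x)) h1
        simpa [hi] using this⟩
      exact ⟨Units.mk0 ⟨k, hk⟩ (fun h => k.ne_zero (congrArg Subtype.val h)), Units.ext (by simp [ψ])⟩
    refine (Subgroup.card_dvd_of_le hle).trans ((Subgroup.card_range_dvd ψ).trans ?_)
    rw [Nat.card_units, Module.natCard_eq_pow_finrank (K := F), Nat.card_eq_fintype_card]

end Cfsg.Agent.S5739
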