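import Cfsg.Statements.S5746
import Mathlib
import Cfsg.Agent.H7.Xs.G24

set_option autoImplicit false
open Cfsg

namespace Cfsg.Agent.S5746

open CfsgH7

/-- The Chevalley group G₂(4) (over the field with 4 elements) has a maximal subgroup H isomorphic to the Hall–Janko group J₂ such that for every x outside H the intersection H ∩ xHx⁻¹ is a maximal subgroup of H; that is, the action of G₂(4) on the cosets of H is extremely primitive. -/
theorem result {F : Type*} [Field F] [Fintype F] (hF : Fintype.card F = 4) :
    ∃ H : Subgroup (Cfsg.Lie.chevG2.group F), IsCoatom H ∧ Cfsg.Spor.IsoJ2 H ∧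
      ∀ x : Cfsg.Lie.chevG2.group F, x ∉ H → IsCoatom ((H ⊓ H.map (MulAut.conj x).toMonoidHom).subgroupOf H) := by
  exact (G24.iso (G24.mdlF hF)).elim fun e => @G24.Xp.xp _ _ _ (_) _ _ (G24.M0.congr e)

end Cfsg.Agent.S5746
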