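import Cfsg.Statements.S5747


set_option autoImplicit false
open Cfsg

namespace Cfsg.Agent.S5747

/-- irredundant base for a subgroup -/
def Irr {G Ω : Type*} [Group G] [MulAction G Ω] (H : Subgroup G) (t : ℕ) (f : Fin t → Ω) : Prop :=
  (∀ g ∈ H, (∀ i : Fin t, g • f i = f i) → g = 1) ∧ ∀ i : Fin t, ∃ g ∈ H, (∀ j : Fin t, j < i → g • f j = f j) ∧ g • f i ≠ f i

section
variable {G Ω : Type*} [Group G] [MulAction G Ω]

theorem irr_cons (H : Subgroup G) (t : ℕ) (x : Ω) (f : Fin t → Ω) :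
    Irr H (t + 1) (Fin.cons x f) ↔ (∃ g ∈ H, g • x ≠ x) ∧ Irr (H ⊓ MulAction.stabilizer G x) t f := by
  simp only [Irr, Fin.forall_fin_succ, Fin.cons_zero, Fin.cons_succ, Subgroup.mem_inf, MulAction.mem_stabilizer_iff,
    Fin.succ_pos, Fin.succ_lt_succ_iff, lt_self_iff_false, Fin.not_lt_zero, false_imp_iff, implies_true, true_and, true_imp_iff]
  constructor
  · rintro ⟨h1, h2, h3⟩
    exact ⟨h2, fun g hg h => h1 g hg.1 ⟨hg.2, h⟩, fun i => let ⟨g, a, ⟨b, c⟩, d⟩ := h3 i; ⟨g, ⟨a, b⟩, c, d⟩⟩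
  · rintro ⟨h1, h2, h3⟩
    exact ⟨fun g hg h => h2 g ⟨hg, h.1⟩ h.2, h1, fun i => let ⟨g, ⟨a, b⟩, c, d⟩ := h3 i; ⟨g, a, ⟨b, c⟩, d⟩⟩

theorem exists_irr [Finite G] (H : Subgroup G) (hf : ∀ g ∈ H, (∀ x : Ω, g • x = x) → g = 1) : ∃ t, ∃ f : Fin t → Ω, Irr H t f := by
  induction H using WellFoundedLT.induction with
  | ind H ih =>
    by_cases h : ∃ x : Ω, ∃ g ∈ H, g • x ≠ x
    · obtain ⟨x, g, hg, hx⟩ := h
      obtain ⟨t, f, hf⟩ := ih (H ⊓ MulAction.stabilizer G x) (lt_of_le_of_ne inf_le_left (fun e => hx (e.ge hg).2)) (fun g hg => hf g hg.1)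
      exact ⟨t + 1, Fin.cons x f, (irr_cons H t x f).mpr ⟨⟨g, hg, hx⟩, hf⟩⟩
    · push Not at h
      exact ⟨0, Fin.elim0, fun g hg _ => hf g hg (fun x => h x g hg), fun i => i.elim0⟩

theorem swap2 (H : Subgroup G) (hR : ∀ t (f : Fin t → Ω) (σ : Equiv.Perm (Fin t)), Irr H t f → Irr H t (f ∘ σ))
    (t : ℕ) (x y : Ω) (c : Fin t → Ω) (h : Irr H (t + 2) (Fin.cons x (Fin.cons y c))) : Irr H (t + 2) (Fin.cons y (Fin.cons x c)) := by
  convert hR _ _ (Equiv.swap 0 1) h using 1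
  funext i
  refine Fin.cases rfl (fun i => Fin.cases rfl (fun i => ?_) i) i
  rw [Function.comp_apply, Equiv.swap_apply_of_ne_of_ne (Fin.succ_ne_zero _) (Fin.succ_succ_ne_one i)]
  rfl

theorem same [Finite G] (H : Subgroup G) (hR : ∀ t (f : Fin t → Ω) (σ : Equiv.Perm (Fin t)), Irr H t f → Irr H t (f ∘ σ))
    (t t' : ℕ) (f : Fin t → Ω) (f' : Fin t' → Ω) (h : Irr H t f) (h' : Irr H t' f') : t = t' := by
  induction H using WellFoundedLT.induction generalizing t t' with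
  | ind H ih =>
    have hfa : ∀ g ∈ H, (∀ x : Ω, g • x = x) → g = 1 := fun g hg k => h.1 g hg (fun i => k _)
    have inh : ∀ x : Ω, (∃ g ∈ H, g • x ≠ x) → ∀ t t' (f : Fin t → Ω) (f' : Fin t' → Ω),
        Irr (H ⊓ MulAction.stabilizer G x) t f → Irr (H ⊓ MulAction.stabilizer G x) t' f' → t = t' := by
      intro x hx
      refine ih _ (lt_of_le_of_ne inf_le_left (fun e => let ⟨g, hg, k⟩ := hx; k (e.ge hg).2)) (fun t f σ hf => ?_)
      have := hR _ _ (Equiv.Perm.decomposeFin.symm (0, σ)) ((irr_cons H t x f).mpr ⟨hx, hf⟩)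
      have e : (Fin.cons x f : Fin (t + 1) → Ω) ∘ (Equiv.Perm.decomposeFin.symm (0, σ)) = Fin.cons x (f ∘ σ) := by
        funext i; refine Fin.cases ?_ (fun i => ?_) i <;> simp
      rw [e] at this
      exact ((irr_cons H t x _).mp this).2
    rcases t with _ | t <;> rcases t' with _ | t'
    · rfl
    · obtain ⟨g, hg, -, k⟩ := h'.2 0
      exact absurd (by rw [h.1 g hg (fun i => i.elim0), one_smul]) k
    · obtain ⟨g, hg, -, k⟩ := h.2 0
      exact absurd (by rw [h'.1 g hg (fun i => i.elim0), one_smul]) k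
    rw [← Fin.cons_self_tail f, irr_cons] at h
    rw [← Fin.cons_self_tail f', irr_cons] at h'
    have ext : ∀ x y : Ω, (∃ g ∈ H, g • x ≠ x) → (∃ g ∈ H ⊓ MulAction.stabilizer G x, g • y ≠ y) →
        ∃ s, ∃ c : Fin s → Ω, Irr (H ⊓ MulAction.stabilizer G x) (s + 1) (Fin.cons y c) ∧ Irr (H ⊓ MulAction.stabilizer G y) (s + 1) (Fin.cons x c) := by
      intro x y hx hy
      obtain ⟨s, c, hc⟩ := exists_irr (Ω := Ω) (H ⊓ MulAction.stabilizer G x ⊓ MulAction.stabilizer G y) (fun g hg => hfa g hg.1.1)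
      have h1 := (irr_cons _ s y c).mpr ⟨hy, hc⟩
      exact ⟨s, c, h1, ((irr_cons _ _ _ _).mp (swap2 H hR s x y c ((irr_cons _ _ _ _).mpr ⟨hx, h1⟩))).2⟩
    by_cases h1 : ∃ g ∈ H ⊓ MulAction.stabilizer G (f 0), g • f' 0 ≠ f' 0
    · obtain ⟨s, c, a, b⟩ := ext _ _ h.1 h1
      rw [inh _ h.1 _ _ _ _ h.2 a, inh _ h'.1 _ _ _ _ h'.2 b]
    by_cases h2 : ∃ g ∈ H ⊓ MulAction.stabilizer G (f' 0), g • f 0 ≠ f 0
    · obtain ⟨s, c, a, b⟩ := ext _ _ h'.1 h2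
      rw [inh _ h.1 _ _ _ _ h.2 b, inh _ h'.1 _ _ _ _ h'.2 a]
    push Not at h1 h2
    have : H ⊓ MulAction.stabilizer G (f' 0) = H ⊓ MulAction.stabilizer G (f 0) :=
      le_antisymm (fun g hg => ⟨hg.1, h2 g hg⟩) (fun g hg => ⟨hg.1, h1 g hg⟩)
    rw [inh _ h.1 _ _ _ _ h.2 (this ▸ h'.2)]

theorem shrink : ∀ (t : ℕ) (f : Fin t → Ω), (∀ g : G, (∀ i, g • f i = f i) → g = 1) →
    (∀ i : Fin t, ∃ g : G, (∀ j : Fin t, j < i → g • f j = f j) ∧ g • f i ≠ f i) ∨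
      ∃ s < t, ∃ c : Fin s → Ω, (∀ g : G, (∀ i, g • c i = c i) → g = 1) ∧ ∀ i : Fin s, ∃ g : G, (∀ j : Fin s, j < i → g • c j = c j) ∧ g • c i ≠ c i
  | 0, _, _ => Or.inl fun i => i.elim0
  | t + 1, f, h => by
    by_cases k : ∀ i : Fin (t + 1), ∃ g : G, (∀ j, j < i → g • f j = f j) ∧ g • f i ≠ f i
    · exact Or.inl k
    right
    push Not at k
    obtain ⟨i, hi⟩ := k
    have h1 : ∀ g : G, (∀ j, g • (f ∘ i.succAbove) j = (f ∘ i.succAbove) j) → g = 1 := fun g hg => by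
      have : ∀ j, j ≠ i → g • f j = f j := fun j hj => by
        obtain ⟨j, rfl⟩ := Fin.exists_succAbove_eq hj; exact hg j
      refine h g (fun j => ?_)
      by_cases e : j = i
      · rw [e]; exact hi g (fun j hj => this j hj.ne)
      · exact this j e
    rcases shrink t _ h1 with h2 | ⟨s, hs, c, hc⟩
    · exact ⟨t, by omega, _, h1, h2⟩
    · exact ⟨s, by omega, c, hc⟩
end

/-- Let a finite group G act on a finite set Ω. An irredundant base is a sequence of points ω₁, …, ω_t whose pointwise stabiliser is trivial and in which each ω_i is moved by some element fixing ω₁, …, ω_{i−1}. Then all irredundant bases have the same length if and only if every reordering of an irredundant base is again an irredundant base. -/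
theorem result {G Ω : Type*} [Group G] [Finite G] [MulAction G Ω] [Fintype Ω] :
    (∀ (t t' : ℕ) (f : Fin t → Ω) (f' : Fin t' → Ω), ((∀ g : G, (∀ i : Fin t, g • f i = f i) → g = 1) ∧ ∀ i : Fin t, ∃ g : G, (∀ j : Fin t, j < i → g • f j = f j) ∧ g • f i ≠ f i) → ((∀ g : G, (∀ i : Fin t', g • f' i = f' i) → g = 1) ∧ ∀ i : Fin t', ∃ g : G, (∀ j : Fin t', j < i → g • f' j = f' j) ∧ g • f' i ≠ f' i) → t = t') ↔
    (∀ (t : ℕ) (f : Fin t → Ω) (σ : Equiv.Perm (Fin t)), ((∀ g : G, (∀ i : Fin t, g • f i = f i) → g = 1) ∧ ∀ i : Fin t, ∃ g : G, (∀ j : Fin t, j < i → g • f j = f j) ∧ g • f i ≠ f i) → ((∀ g : G, (∀ i : Fin t, g • (f ∘ σ) i = (f ∘ σ) i) → g = 1) ∧ ∀ i : Fin t, ∃ g : G, (∀ j : Fin t, j < i → g • (f ∘ σ) j = (f ∘ σ) j) ∧ g • (f ∘ σ) i ≠ (f ∘ σ) i)) := by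
  constructor
  · intro h t f σ hf
    have h1 : ∀ g : G, (∀ i, g • (f ∘ σ) i = (f ∘ σ) i) → g = 1 := fun g hg => hf.1 g (fun i => by simpa using hg (σ.symm i))
    rcases shrink t _ h1 with h2 | ⟨s, hs, c, hc⟩
    · exact ⟨h1, h2⟩
    · exact absurd (h _ _ _ _ hf hc) hs.ne'
  · intro h t t' f f' h1 h2
    have e : ∀ t (f : Fin t → Ω), Irr (⊤ : Subgroup G) t f ↔ ((∀ g : G, (∀ i : Fin t, g • f i = f i) → g = 1) ∧ ∀ i : Fin t, ∃ g : G, (∀ j : Fin t, j < i → g • f j = f j) ∧ g • f i ≠ f i) :=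
      fun t f => by simp [Irr]
    exact same ⊤ (fun t f σ k => (e _ _).mpr (h t f σ ((e _ _).mp k))) t t' f f' ((e _ _).mpr h1) ((e _ _).mpr h2)

end Cfsg.Agent.S5747
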