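import Mathlib
import Cfsg.Statements.S5748
import Cfsg.Agent.H8.Za18

set_option autoImplicit false
open Cfsg

namespace Cfsg.Agent.S5748


open CfsgH8 CfsgH8.Za CfsgH2 CfsgH1 CfsgH3 CfsgRO Subgroup

/-- A finite non-abelian simple group in which commuting is a transitive relation on the non-identity elements (equivalently, every non-identity element has abelian centraliser) is isomorphic to PSL₂ over a field with 2^f elements for some f ≥ 2; conversely these groups have that property. -/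
theorem result {G : Type*} [Group G] [Finite G] [IsSimpleGroup G] (hG : ¬ IsMulCommutative G) :
    (∀ a b c : G, a ≠ 1 → b ≠ 1 → c ≠ 1 → Commute a b → Commute b c → Commute a c) ↔
    ∃ (F : Type) (_ : Field F) (_ : Fintype F) (f : ℕ), 2 ≤ f ∧ Fintype.card F = 2 ^ f ∧ Nonempty (G ≃* Matrix.ProjectiveSpecialLinearGroup (Fin 2) F) := by
  have z : center G = ⊥ := ((inferInstance : (center G).Normal).eq_bot_or_eq_top).resolve_right
    fun e => hG ⟨⟨fun a b => mem_center_iff.1 (e.ge (mem_top b)) a⟩⟩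
  refine ⟨fun h => ?_, ?_⟩
  · have c : ∀ {x a b : G}, x ≠ 1 → a ∈ C1[x] → b ∈ C1[x] → a * b = b * a := fun {x a b} x1 ha hb => by
      by_cases a1 : a = 1
      · simp [a1]
      by_cases b1 : b = 1
      · simp [b1]
      exact h a x b a1 x1 b1 (mc1.1 ha) (mc1.1 hb).symm
    have t : CT G := fun x y g y1 hy hg => by
      by_cases x1 : x = 1
      · subst x1; exact mem_norm_of_map_le fun v _ => mc1.2 (by simp)
      have eq : ∀ {a b : G}, a ≠ 1 → b ≠ 1 → a ∈ C1[b] → C1[a] = C1[b] := fun a1 b1 hab => le_antisymm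
        (fun _ hv => mc1.2 (c a1 hv (mc1.2 (mc1.1 hab).symm))) (fun _ hv => mc1.2 (c b1 hv hab))
      refine mem_norm_of_map_le ?_
      rw [← eq y1 x1 hy, ← centralizer_conj, eq (conj_ne_one y1) x1 hg, eq y1 x1 hy]
    rcases t.cases with n | ⟨K, H, f⟩ | ⟨F, _, _, ⟨n, h1, h2⟩, e⟩
    · exact absurd z (Group.IsNilpotent.center_ne_bot G)
    · exact absurd f.ker_lt.ne (not_not.2 (f.normal.eq_bot_or_eq_top.resolve_left f.ker_ne))
    · exact ⟨F, _, _, n, h1, h2, e⟩
  · rintro ⟨F, _, _, n, h1, h2, ⟨e⟩⟩ a b c _ b1 _ ab bc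
    exact psl_comm (h2 ▸ Nat.even_pow.2 ⟨even_two, by omega⟩) e b1 (mc1.2 ab) (mc1.2 bc.symm)

end Cfsg.Agent.S5748
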