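import Cfsg.Statements.S5752
import Mathlib
import Cfsg.Agent.H9.TW

set_option autoImplicit false
open Cfsg

namespace Cfsg.Agent.S5752

/-- A form of the Thompson–Wielandt Theorem on primitive permutation groups. Let G be a finite group and M₁, M₂ two distinct conjugate maximal subgroups of G with trivial core in G; define two descending sequences of subgroups by A₀ = M₁, B₀ = M₂ and, for every i, A_{i+1} = the core in M₁ of A_i ∩ B_i and B_{i+1} = the core in M₂ of A_i ∩ B_i (the core in M of a subgroup Y ≤ M is the largest normal subgroup of M contained in Y). If A₂ and B₂ are both non-trivial, then for some prime p the subgroup generated by A₂ and B₂ is a p-group, and for each j the generalized Fitting subgroups of M_j and of its first core (A₁, resp. B₁) are their largest normal p-subgroups. -/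
theorem result {G : Type*} [Group G] [Finite G] (M₁ M₂ : Subgroup G) (hmax : IsCoatom M₁) (g : G)
    (hconj : M₂ = M₁.map (MulAut.conj g).toMonoidHom) (hne : M₁ ≠ M₂) (hcore : M₁.normalCore = ⊥)
    (A B : ℕ → Subgroup G) (hA0 : A 0 = M₁) (hB0 : B 0 = M₂)
    (hA : ∀ i, A (i + 1) = ((A i ⊓ B i).subgroupOf M₁).normalCore.map M₁.subtype)
    (hB : ∀ i, B (i + 1) = ((A i ⊓ B i).subgroupOf M₂).normalCore.map M₂.subtype) (hA2 : A 2 ≠ ⊥) (hB2 : B 2 ≠ ⊥) :
    ∃ p : ℕ, p.Prime ∧ IsPGroup p ↥(A 2 ⊔ B 2) ∧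
      Cfsg.generalizedFittingSubgroup ↥M₁ = Cfsg.pCore p ↥M₁ ∧ Cfsg.generalizedFittingSubgroup ↥(A 1) = Cfsg.pCore p ↥(A 1) ∧
      Cfsg.generalizedFittingSubgroup ↥M₂ = Cfsg.pCore p ↥M₂ ∧ Cfsg.generalizedFittingSubgroup ↥(B 1) = Cfsg.pCore p ↥(B 1) := by
  open Subgroup CfsgH9 in
  have h := tw_of_coatom hmax hcore hne hconj
  have a1 : A 1 = co M₁ (M₁ ⊓ M₂) := by rw [hA, hA0, hB0]; rfl
  have b1 : B 1 = co M₂ (M₁ ⊓ M₂) := by rw [hB, hA0, hB0]; rfl
  have s : SC M₁ M₂ (A 2) (B 1) := by rw [hA 1, a1, b1]; exact sc_co _ _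
  have s' : SC M₂ M₁ (B 2) (A 1) := by rw [hB 1, a1, b1]; exact sc_co' _ _
  obtain ⟨p, hp, h1, h2, h3, h4⟩ := h.main s hA2 s' hB2
  haveI := Fact.mk hp
  have k : ∀ {X M : Subgroup G}, Sn X M → Fs M = Op p M →
      generalizedFittingSubgroup X = pCore p X := fun {X M} n e => map_injective X.subtype_injective
    (le_antisymm (le_Op (sn_Fs X) ((Op_isPGroup p M).to_le ((Fs_mono n).trans e.le)))
      ((Op_le_Fit p X).trans (Fit_le_Fs X)))
  exact ⟨p, hp, isPGroup_sup (s.sn.le.trans s'.n1) h1 h2, k (.refl _) h3, k (.of_normal s'.l2 s'.n2) h3,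
    k (.refl _) h4, k (.of_normal s.l2 s.n2) h4⟩

end Cfsg.Agent.S5752
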