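import Cfsg.Statements.S5754


set_option autoImplicit false
open Cfsg

namespace Cfsg.Agent.S5754

open QuadraticMap in
theorem refl {F V : Type*} [Field F] [AddCommGroup V] [Module F V] (Q : QuadraticForm F V) (hQ : Q.Anisotropic) (v v' : V)
    (h : Q v = Q v') : ∃ r : Q.IsometryEquiv Q, r v = v' ∧ ∀ x, polar Q x v = polar Q x v' → r x = x := by
  by_cases e : v = v'
  · exact ⟨QuadraticMap.IsometryEquiv.refl Q, e, fun _ _ => rfl⟩
  have hw : Q (v - v') ≠ 0 := fun k => e (sub_eq_zero.mp (hQ _ k))
  have hf : ((Q (v - v'))⁻¹ • Q.polarBilin (v - v')) (v - v') = 2 := by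
    rw [LinearMap.smul_apply, polarBilin_apply_apply, polar_self, smul_eq_mul, two_smul]; field_simp; ring
  have ha : ∀ x, Module.reflection hf x = x - ((Q (v - v'))⁻¹ * polar Q (v - v') x) • (v - v') := fun x => by
    rw [Module.reflection_apply]; rfl
  have hs : ∀ x y, Q (x - y) = Q x + Q y - polar Q x y := fun x y => by
    rw [sub_eq_add_neg, QuadraticMap.map_add Q, QuadraticMap.map_neg, polar_neg_right]; ring
  refine ⟨{ Module.reflection hf with map_app' := fun x => ?_ }, ?_, fun x hx => ?_⟩
  · show Q (Module.reflection hf x) = Q x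
    rw [ha, hs, QuadraticMap.map_smul, polar_smul_right, polar_comm Q x]
    simp only [smul_eq_mul]; field_simp; ring
  · show Module.reflection hf v = v'
    have : polar Q (v - v') v = Q (v - v') := by
      rw [polar_sub_left, polar_self, hs, ← h, polar_comm Q v' v, two_smul]
    rw [ha, this, inv_mul_cancel₀ hw, one_smul, sub_sub_cancel]
  · show Module.reflection hf x = x
    rw [ha, polar_comm, polar_sub_right, hx, sub_self, mul_zero, zero_smul, sub_zero]

/-- Let V be a finite-dimensional vector space over a finite field F carrying an anisotropic quadratic form Q (Q(v) = 0 only for v = 0). Then the group of all maps v ↦ φ(v) + c, with φ an isometry of Q and c ∈ V, acts on V as a binary permutation group: given n ≥ 2 and two n-tuples u, u' of vectors such that every pair of corresponding entries of u is carried to that of u' by such a map, one such map carries u to u'. -/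
theorem result {F V : Type*} [Field F] [Finite F] [AddCommGroup V] [Module F V] [Module.Finite F V]
    (Q : QuadraticForm F V) (hQ : Q.Anisotropic) (n : ℕ) (hn : 2 ≤ n) (u u' : Fin n → V)
    (h2 : ∀ i j : Fin n, i ≠ j → ∃ (φ : Q.IsometryEquiv Q) (c : V), φ (u i) + c = u' i ∧ φ (u j) + c = u' j) :
    ∃ (φ : Q.IsometryEquiv Q) (c : V), ∀ i, φ (u i) + c = u' i := by
  classical
  open QuadraticMap in
  let o : Fin n := ⟨0, by omega⟩
  have hd : ∀ i j, Q (u i - u j) = Q (u' i - u' j) := fun i j => by
    by_cases e : i = j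
    · simp [e]
    obtain ⟨φ, c, h1, h2⟩ := h2 i j e
    rw [← h1, ← h2, add_sub_add_right_eq_sub, ← map_sub, φ.map_app]
  have hs : ∀ x y, polar Q x y = Q x + Q y - Q (x - y) := fun x y => by
    rw [sub_eq_add_neg x, QuadraticMap.map_add Q, QuadraticMap.map_neg, polar_neg_right]; ring
  have hp : ∀ i j, polar Q (u i - u o) (u j - u o) = polar Q (u' i - u' o) (u' j - u' o) := fun i j => by
    rw [hs, hs, sub_sub_sub_cancel_right, sub_sub_sub_cancel_right, hd, hd, hd]
  have key : ∀ s : Finset (Fin n), ∃ φ : Q.IsometryEquiv Q, ∀ i ∈ s, φ (u i - u o) = u' i - u' o := by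
    intro s
    induction s using Finset.induction_on with
    | empty => exact ⟨QuadraticMap.IsometryEquiv.refl Q, by simp⟩
    | insert k s hk ih =>
      obtain ⟨φ, hφ⟩ := ih
      obtain ⟨r, h1, h2⟩ := refl Q hQ (φ (u k - u o)) (u' k - u' o) (by rw [φ.map_app, hd])
      refine ⟨φ.trans r, fun i hi => ?_⟩
      show r (φ _) = _
      rcases Finset.mem_insert.mp hi with rfl | hi
      · exact h1
      · rw [hφ i hi]
        apply h2
        rw [← hp, ← hφ i hi, hs, hs, ← map_sub, φ.map_app, φ.map_app, φ.map_app]
  obtain ⟨φ, hφ⟩ := key Finset.univ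
  refine ⟨φ, u' o - φ (u o), fun i => ?_⟩
  have := hφ i (Finset.mem_univ i)
  rw [map_sub] at this
  rw [add_sub_left_comm, this]; abel

end Cfsg.Agent.S5754
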