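import Cfsg.Statements.S5763
import Cfsg.Agent.H1.Sn2
import Cfsg.Agent.H5.Sy4
import Cfsg.Agent.H1.Mg

set_option autoImplicit false
open Cfsg

namespace Cfsg.Agent.S5763

section
open CfsgH7 CfsgH1.Mg Equiv MulAction
open scoped commutatorElement

theorem two {α β γ : Type*} {g : Perm α} {f : α → β} {h : α → γ} (h1 : ∀ x y, f x = f y ↔ f (g x) = f (g y))
    (h2 : ∀ x, h (g x) = h x) (h3 : ∀ x y z, h x = h y → h y = h z → f x = f y ∨ f y = f z ∨ f x = f z) (x : α) :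
    f ((g ^ 2) x) = f x := by
  rcases h3 x (g x) (g (g x)) (h2 _).symm (h2 _).symm with e | e | e
  · exact (e.trans ((h1 _ _).1 e)).symm
  · exact (((h1 _ _).2 e).trans e).symm
  · exact e.symm

def P : Subgroup (Perm (Fin 8)) := CfsgH5.Sy.Wf (fun i => i.val / 2) ⊓ CfsgH5.Sy.Wf (fun i => i.val / 4)

theorem pg : IsPGroup 2 P := fun g => ⟨3, Subtype.ext (Equiv.ext fun x => by
  have h1 := two (h := fun _ => ()) g.2.2 (fun _ => rfl) (by decide)
  have h2 := two (h := fun i : Fin 8 => i.val / 4) (g ^ 2).2.1 h1 (by decide)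
  have := two (g := (g.1 ^ 2) ^ 2) (f := id) (h := fun i : Fin 8 => i.val / 2) (by simp) h2 (by decide) x
  rwa [← pow_mul, ← pow_mul] at this)⟩

def dg (n i : ℕ) : ℕ := Nat.land (Nat.shiftRight n (Nat.mul (nat_lit 2) i)) (nat_lit 3)

def d8 (n i : ℕ) : ℕ := Nat.land (Nat.shiftRight n (Nat.mul (nat_lit 3) i)) (nat_lit 7)

def cl (a b : ℕ) : ℕ := Nat.log2 (Nat.succ (Nat.mul (nat_lit 2) (Nat.xor a b)))

noncomputable def pres (n z : ℕ) : Bool := nall (fun i => nall (fun j =>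
  Nat.beq (cl (dg n i) (dg n j)) (cl (dg n (d8 z i)) (dg n (d8 z j)))) (nat_lit 8)) (nat_lit 8)

noncomputable def wt (n k : ℕ) : ℕ := Nat.rec (nat_lit 0) (fun i ih => Nat.add ih (Nat.pow (nat_lit 16) (dg n i))) k

def Z : List ℕ := [14570689, 11789505, 9925825, 14599816, 16406152, 16434376, 16434817, 6852524, 5017068, 6823845, 4988389, 2206526, 2177406, 371511, 342391]

noncomputable def ok (n : ℕ) : Bool := Bool.rec true (lex (pres n) Z) (Nat.beq (wt n (nat_lit 8)) (nat_lit 8738))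

theorem key : nall2 ok 0 256 256 = true := by decide +kernel

theorem hZ : ∀ z ∈ Z, Function.Involutive (fun i : Fin 8 => Fin.ofNat 8 (d8 z i)) ∧ (∃ i : Fin 8, d8 z i % 8 ≠ i) ∧ (∀ i : Fin 8, d8 z i % 8 = d8 z i) ∧
    (∀ i j : Fin 8, i.val / 2 = j.val / 2 ↔ d8 z i % 8 / 2 = d8 z j % 8 / 2) ∧
    ∀ i j : Fin 8, i.val / 4 = j.val / 4 ↔ d8 z i % 8 / 4 = d8 z j % 8 / 4 := by
  unfold Function.Involutive
  decide +kernel

theorem main (c : Perm (Fin 8)) : ∃ y ∈ P, y ≠ 1 ∧ c * y * c⁻¹ ∈ P := by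
  obtain ⟨n, h1, h2⟩ : ∃ n < 65536, ∀ i : Fin 8, dg n i = (c i).val / 2 := by
    refine ⟨∑ i : Fin 8, (c i).val / 2 * 4 ^ i.val, ?_⟩
    have := fun i => (c i).2
    have := And.intro (And.intro (And.intro (this 0) (this 1)) (And.intro (this 2) (this 3)))
      (And.intro (And.intro (this 4) (this 5)) (And.intro (this 6) (this 7)))
    refine ⟨by simp [Fin.sum_univ_eight]; omega, fun i => ?_⟩
    show (_ >>> (2 * i.val)) &&& (2 ^ 2 - 1) = _
    rw [Nat.and_two_pow_sub_one_eq_mod, Nat.shiftRight_eq_div_pow]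
    fin_cases i <;> simp [Fin.sum_univ_eight] <;> omega
  have h3 := nall2_spec key n (Nat.zero_le _) (by omega)
  have h4 : wt n 8 = ∑ i : Fin 8, 16 ^ ((c i).val / 2) := by
    simp only [← h2, Fin.sum_univ_eight]
    exact congrArg (· + _ + _ + _ + _ + _ + _ + _) (Nat.zero_add _)
  rw [ok, h4, Equiv.sum_comp c fun j => 16 ^ (j.val / 2)] at h3
  obtain ⟨z, hz, h5⟩ := lex_spec h3
  obtain ⟨h6, ⟨i, h7⟩, h9, h8⟩ := hZ z hz
  have e : ∀ i j : Fin 8, cl ((c i).val / 2) ((c j).val / 2) = cl ((c (h6.toPerm _ i)).val / 2) ((c (h6.toPerm _ j)).val / 2) := fun i j => by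
    have := Nat.eq_of_beq_eq_true (nall_iff.1 (nall_iff.1 h5 i i.2) j j.2)
    rwa [← h9, ← h9 j, h2, h2, ← Fin.val_ofNat, ← Fin.val_ofNat, h2, h2] at this
  have e1 : ∀ a b c d : Fin 8, cl (a.val / 2) (b.val / 2) = cl (c.val / 2) (d.val / 2) →
      (a.val / 2 = b.val / 2 ↔ c.val / 2 = d.val / 2) ∧ (a.val / 4 = b.val / 4 ↔ c.val / 4 = d.val / 4) := by decide +kernel
  exact ⟨h6.toPerm _, h8, fun e => h7 (congrArg Fin.val (Equiv.ext_iff.1 e i)),
    fun i j => by simpa using (e1 _ _ _ _ (e (c⁻¹ i) (c⁻¹ j))).1, fun i j => by simpa using (e1 _ _ _ _ (e (c⁻¹ i) (c⁻¹ j))).2⟩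

end

/-- In the symmetric group on 8 letters any two Sylow 2-subgroups have non-trivial intersection: for a Sylow 2-subgroup H and every element x, H ∩ xHx⁻¹ ≠ 1. -/
theorem result (H : Sylow 2 (Equiv.Perm (Fin 8))) (x : Equiv.Perm (Fin 8)) :
    (H : Subgroup (Equiv.Perm (Fin 8))) ⊓ (H : Subgroup (Equiv.Perm (Fin 8))).map (MulAut.conj x).toMonoidHom ≠ ⊥ := by
  open CfsgH7 CfsgH1.Mg Equiv MulAction in
  open scoped commutatorElement in
  · obtain ⟨Q, hQ⟩ := pg.exists_le_sylow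
    obtain ⟨g, rfl⟩ := MulAction.exists_smul_eq (Perm (Fin 8)) Q H
    obtain ⟨y, h1, h2, h3⟩ := main (g⁻¹ * x⁻¹ * g)
    exact fun h => h2 (by
      simpa using (Subgroup.eq_bot_iff_forall _).1 h (g * y * g⁻¹) ⟨⟨y, hQ h1, rfl⟩, _, ⟨_, hQ h3, rfl⟩, by simp [mul_assoc]⟩)

end Cfsg.Agent.S5763
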