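import Mathlib
import Cfsg.Statements.S5887
import Cfsg.Agent.H8.FFsub

set_option autoImplicit false
open Cfsg

namespace Cfsg.Agent.S5887

open CfsgH8 Matrix

theorem det_unip {F : Type*} [Field F] [Finite F] {n : ℕ} (N : Matrix (Fin n) (Fin n) F) (h : N * N = 0) :
    (1 + N).det = 1 := by
  obtain ⟨p, _⟩ := CharP.exists F
  haveI := Fact.mk (CharP.char_is_prime F p)
  have h1 : ∀ k : ℕ, (1 + N) ^ k = 1 + (k : F) • N := by
    intro k
    induction k with
    | zero => simp
    | succ k ih => rw [pow_succ, ih]; simp [add_mul, mul_add, h, add_smul]; abel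
  have h2 : (1 + N).det ^ p = 1 := by rw [← det_pow, h1]; simp
  have h3 : ((1 + N).det - 1) ^ p = 0 := by rw [sub_pow_char, h2]; simp
  exact sub_eq_zero.1 (pow_eq_zero_iff (CharP.char_is_prime F p).ne_zero |>.1 h3)

theorem key {F K : Type*} [Field F] [Finite F] [Field K] [Algebra F K] {n : ℕ} (ι : K →ₐ[F] Matrix (Fin n) (Fin n) F)
    (v w : Fin n → F) (hv : v ≠ 0) (hw : ∀ k, ι k *ᵥ v ≠ w) (L : Subfield K) (hL : ∀ c, algebraMap F K c ∈ L)
    (x : K) (hx : x ∉ L) : ∃ t : GL (Fin n) F, t.1.det = 1 ∧ (∀ l ∈ L, t.1 * ι l = ι l * t.1) ∧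
      ∀ y, t.1 * ι x * (t⁻¹).1 ≠ ι y := by
  letI : Module K (Fin n → F) := Module.compHom _ ((Matrix.toLinAlgEquiv' (R := F) (n := Fin n)).toRingHom.comp ι.toRingHom)
  have hsm : ∀ (k : K) (u : Fin n → F), k • u = ι k *ᵥ u := fun _ _ => rfl
  have h1 : x • v ∉ Submodule.span L {v, w} := by
    rw [Submodule.mem_span_pair]
    rintro ⟨a, b, h⟩
    change (a : K) • v + (b : K) • w = x • v at h
    by_cases hb : (b : K) = 0
    · rw [hb, zero_smul, add_zero, ← sub_eq_zero, ← sub_smul, smul_eq_zero] at h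
      exact hx (sub_eq_zero.1 (h.resolve_right hv) ▸ a.2)
    · refine hw ((b : K)⁻¹ * (x - a)) ?_
      rw [← hsm, mul_smul, sub_smul, ← h, add_sub_cancel_left, inv_smul_smul₀ hb]
  obtain ⟨f, f1, f2⟩ := Submodule.exists_le_ker_of_notMem h1
  have fv : f v = 0 := f2 (Submodule.subset_span (by simp))
  have fw : f w = 0 := f2 (Submodule.subset_span (by simp))
  have hc : ∀ (c : F) (u : Fin n → F), c • u = (⟨_, hL c⟩ : L) • u := fun c u => by
    change _ = ι (algebraMap F K c) *ᵥ u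
    rw [ι.commutes, Algebra.algebraMap_eq_smul_one, Matrix.smul_mulVec, Matrix.one_mulVec]
  let N0 : (Fin n → F) →ₗ[F] (Fin n → F) :=
    { toFun := fun u => f u • w
      map_add' := fun a b => by rw [map_add, add_smul]
      map_smul' := fun c a => by rw [hc, hc, map_smul, smul_assoc]; rfl }
  let N := LinearMap.toMatrix' N0
  have hN : ∀ u, N *ᵥ u = f u • w := fun u => LinearMap.toMatrix'_mulVec N0 u
  have hNN : N * N = 0 := Matrix.toLin'.injective (LinearMap.ext fun u => by
    rw [Matrix.toLin'_apply, ← Matrix.mulVec_mulVec, hN, hN, map_smul, fw]; simp)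
  refine ⟨⟨1 + N, 1 - N, by simp [add_mul, mul_sub, hNN], by simp [sub_mul, mul_add, hNN]⟩, det_unip N hNN,
    fun l hl => ?_, fun y h => ?_⟩
  · refine Matrix.toLin'.injective (LinearMap.ext fun u => ?_)
    simp only [Matrix.toLin'_apply, ← Matrix.mulVec_mulVec, Matrix.add_mulVec, Matrix.one_mulVec, hN, ← hsm, smul_add]
    congr 1
    change f ((⟨l, hl⟩ : L) • u) • w = (⟨l, hl⟩ : L) • f u • w
    rw [map_smul, smul_assoc]
  · have h2 := congrArg (· *ᵥ v) h
    change ((1 + N) * ι x * (1 - N)) *ᵥ v = _ at h2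
    simp only [← Matrix.mulVec_mulVec, Matrix.add_mulVec, Matrix.sub_mulVec, Matrix.one_mulVec, hN, fv, zero_smul,
      sub_zero, ← hsm] at h2
    have h3 : ((f (x • v) : L) : K) ≠ 0 := fun h => f1 (Subtype.ext h)
    refine hw (((f (x • v) : L) : K)⁻¹ * (y - x)) ?_
    rw [← hsm, mul_smul, sub_smul, ← h2, add_sub_cancel_left]
    exact inv_smul_smul₀ h3 w

/-- Let F be a finite field, n a positive integer and r a composite number (r > 1, not prime) that divides n with r < n. Let K be a subalgebra of the algebra of n × n matrices over F which is a field of degree r over F (commutative, every non-zero element invertible, of dimension r over F). Then the normaliser N of K in GL_n(F) (a group of type ΓL_{n/r}(F_{q^r})) is not a maximal subgroup of GL_n(F), and N ∩ SL_n(F) is not a maximal subgroup of SL_n(F): both lie properly inside the normaliser of an intermediate subfield of prime degree over F. -/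
theorem result {F : Type*} [Field F]
    [Fintype F] (n r : ℕ) (hr1 : 1 < r) (hrp : ¬ r.Prime) (hrn : r ∣ n) (hlt : r < n)
    (K : Subalgebra F (Matrix (Fin n) (Fin n) F)) (hK : Cfsg.Geo.IsFieldSubalgebra r K) :
    ¬ IsCoatom (Cfsg.Geo.subalgebraNormalizer K) ∧
      ¬ Cfsg.Geo.IsMaximalIn (Cfsg.Geo.specialLinear (Fin n) F)
        (Cfsg.Geo.subalgebraNormalizer K ⊓ Cfsg.Geo.specialLinear (Fin n) F) := by
  classical
  haveI : NeZero n := ⟨by omega⟩
  have hF : IsField K := ⟨exists_pair_ne K, fun a b => Subtype.ext (hK.comm _ a.2 _ b.2), fun {a} ha => by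
    obtain ⟨y, hy, h⟩ := hK.inv a a.2 fun h => ha (Subtype.ext h)
    exact ⟨⟨y, hy⟩, Subtype.ext h⟩⟩
  letI : Field K := hF.toField
  haveI := Fintype.ofFinite K
  have hq := Finite.one_lt_card (α := F)
  have hc : Fintype.card K = Nat.card F ^ r := by
    rw [← hK.finrank_eq, ← Nat.card_eq_fintype_card]; exact Module.natCard_eq_pow_finrank
  have hs := Nat.minFac_prime (n := r) (by omega)
  have hs2 : r.minFac < r := (Nat.not_prime_iff_minFac_lt (by omega)).1 hrp
  obtain ⟨m, hm⟩ := Nat.minFac_dvd r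
  obtain ⟨L, hL⟩ := exists_sub_card (F := K) (l := Nat.card F ^ r.minFac) (m := m) (Nat.one_lt_pow hs.ne_zero hq)
    (by rw [← pow_mul, ← hm, hc])
  have hLm : ∀ x : K, x ∈ L ↔ x ^ (Nat.card F ^ r.minFac) = x := fun x => by rw [mem_iff_pow_card, hL]
  have hFL : ∀ c, algebraMap F K c ∈ L := fun c => by
    rw [hLm, ← map_pow, Nat.card_eq_fintype_card, FiniteField.pow_card_pow]
  obtain ⟨x1, hx1⟩ : ∃ x, x ∉ L := by
    by_contra h
    push Not at h
    have := sub_eq_top_iff.1 (eq_top_iff.2 fun x _ => h x : L = ⊤)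
    rw [hL, hc] at this
    exact hs2.ne (Nat.pow_right_injective hq this)
  obtain ⟨x2, hx2, hx3⟩ : ∃ x ∈ L, x ∉ (algebraMap F K).fieldRange := by
    by_contra h
    push Not at h
    have := Nat.card_le_card_of_injective _ (Subfield.inclusion (show L ≤ (algebraMap F K).fieldRange from h)).injective
    rw [hL, card_fieldRange] at this
    have h2 := Nat.pow_lt_pow_right hq hs.one_lt
    rw [pow_one] at h2
    omega
  let v : Fin n → F := Pi.single 0 1
  have hv : v ≠ 0 := by simp [v]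
  obtain ⟨w, hw⟩ : ∃ w, ∀ k : K, K.val k *ᵥ v ≠ w := by
    by_contra h
    push Not at h
    have := Nat.card_le_card_of_surjective (fun k : K => K.val k *ᵥ v) h
    rw [Nat.card_fun, Nat.card_fin, Nat.card_eq_fintype_card (α := K), hc] at this
    exact absurd (Nat.pow_lt_pow_right hq hlt) (by omega)
  obtain ⟨t1, a1, a2, a3⟩ := key K.val v w hv hw L hFL x1 hx1
  obtain ⟨t2, b1, -, b3⟩ := key K.val v w hv hw (algebraMap F K).fieldRange (fun c => ⟨c, rfl⟩) x2 hx3
  let P : Matrix (Fin n) (Fin n) F → Prop := fun k => k ∈ K ∧ k ^ (Nat.card F ^ r.minFac) = k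
  let N0 : Subgroup (GL (Fin n) F) :=
    { carrier := {g | ∀ k, P k ↔ P (g.1 * k * (g⁻¹).1)}
      mul_mem' := fun {a b} ha hb k => by
        rw [hb k, ha, Units.val_mul, _root_.mul_inv_rev, Units.val_mul]; simp only [mul_assoc]
      one_mem' := fun k => by simp
      inv_mem' := fun {a} ha k => by
        rw [ha (a⁻¹.1 * k * a⁻¹⁻¹.1)]; simp [mul_assoc] }
  have hP : ∀ k : K, P k ↔ k ∈ L := fun k => by
    rw [hLm]
    exact ⟨fun h => Subtype.ext h.2, fun h => ⟨k.2, congrArg Subtype.val h⟩⟩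
  have h1 : Cfsg.Geo.subalgebraNormalizer K ≤ N0 := fun g hg k =>
    and_congr (hg k) (by rw [Units.conj_pow, Units.mul_left_inj, Units.mul_right_inj])
  have h2 : t1 ∈ N0 := by
    intro k
    constructor
    · intro h
      have := a2 ⟨k, h.1⟩ ((hP ⟨k, h.1⟩).1 h)
      change t1.1 * k = k * t1.1 at this
      rwa [this, Units.mul_inv_cancel_right]
    · intro h
      have := a2 ⟨_, h.1⟩ ((hP ⟨_, h.1⟩).1 h)
      change t1.1 * (t1.1 * k * (t1⁻¹).1) = (t1.1 * k * (t1⁻¹).1) * t1.1 at this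
      rw [Units.inv_mul_cancel_right, Units.mul_right_inj] at this
      rwa [this] at h
  have h3 : t1 ∉ Cfsg.Geo.subalgebraNormalizer K := fun h => a3 ⟨_, (h x1.1).1 x1.2⟩ rfl
  have h4 : t2 ∉ N0 := fun h => b3 ⟨_, ((h x2.1).1 ((hP x2).2 hx2)).1⟩ rfl
  have h5 : t1 ∈ Cfsg.Geo.specialLinear (Fin n) F := Units.ext a1
  have h6 : t2 ∈ Cfsg.Geo.specialLinear (Fin n) F := Units.ext b1
  refine ⟨fun h => h4 (h.2 N0 (lt_of_le_of_ne h1 fun e => h3 (e ▸ h2)) ▸ Subgroup.mem_top _), fun h => ?_⟩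
  rcases h.2 (N0 ⊓ Cfsg.Geo.specialLinear (Fin n) F) (inf_le_inf_right _ h1) inf_le_right with e | e
  · exact h3 (e.le ⟨h2, h5⟩).1
  · exact h4 (e.ge h6).1

end Cfsg.Agent.S5887
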