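import Mathlib
import Cfsg.Statements.S5892
import Cfsg.Agent.H8.Dick4

set_option autoImplicit false
open Cfsg

namespace Cfsg.Agent.S5892


open CfsgH8

/-- Let F be a finite field of odd order q ≥ 5 and characteristic p, and let M be a maximal subgroup of PSL₂(F). Then one of the following holds: |M| = q(q − 1)/2 (the stabiliser of a point of the projective line); q ≥ 13 and M is dihedral of order q − 1; q ∉ {7, 9} and M is dihedral of order q + 1; q = q₀² and M ≅ PGL₂(F₀) with |F₀| = q₀; q = q₀^r for an odd prime r and M ≅ PSL₂(F₀) with |F₀| = q₀; q ≡ ±1 (mod 10) with q = p or q = p², p ≡ ±3 (mod 10), and M ≅ A₅; q = p ≡ ±3 (mod 8), q ≢ ±1 (mod 10), and M ≅ A₄; or q = p ≡ ±1 (mod 8) and M ≅ S₄. -/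
theorem result {F : Type*} [Field F] [Fintype F] (p : ℕ)
    [Fact p.Prime] [CharP F p] (hodd : Odd (Fintype.card F)) (h5 : 5 ≤ Fintype.card F)
    (M : Subgroup (Matrix.ProjectiveSpecialLinearGroup (Fin 2) F)) (hM : IsCoatom M) :
    2 * Nat.card M = Fintype.card F * (Fintype.card F - 1) ∨
    (13 ≤ Fintype.card F ∧ (∃ k : ℕ, 2 * k = Fintype.card F - 1 ∧ Nonempty (M ≃* DihedralGroup k))) ∨
    (Fintype.card F ≠ 7 ∧ Fintype.card F ≠ 9 ∧ (∃ k : ℕ, 2 * k = Fintype.card F + 1 ∧ Nonempty (M ≃* DihedralGroup k))) ∨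
    (∃ (F₀ : Type) (_ : Field F₀) (_ : Fintype F₀), Fintype.card F = Fintype.card F₀ ^ 2 ∧
        Nonempty (M ≃* Matrix.ProjGenLinGroup (Fin 2) F₀)) ∨
    (∃ (F₀ : Type) (_ : Field F₀) (_ : Fintype F₀) (r : ℕ), r.Prime ∧ Odd r ∧ Fintype.card F = Fintype.card F₀ ^ r ∧
        Nonempty (M ≃* Matrix.ProjectiveSpecialLinearGroup (Fin 2) F₀)) ∨
    ((Fintype.card F % 10 = 1 ∨ Fintype.card F % 10 = 9) ∧
        (Fintype.card F = p ∨ (Fintype.card F = p ^ 2 ∧ (p % 10 = 3 ∨ p % 10 = 7))) ∧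
        Nonempty (M ≃* alternatingGroup (Fin 5))) ∨
    (Fintype.card F = p ∧ (p % 8 = 3 ∨ p % 8 = 5) ∧ ¬ (p % 10 = 1 ∨ p % 10 = 9) ∧
        Nonempty (M ≃* alternatingGroup (Fin 4))) ∨
    (Fintype.card F = p ∧ (p % 8 = 1 ∨ p % 8 = 7) ∧ Nonempty (M ≃* Equiv.Perm (Fin 4))) := by
  have hq := Nat.odd_iff.1 hodd
  have hs := simple_PSL2 (F := F) (by omega)
  have hc := card_PSL2_odd hq
  have hp2 := char_ne_two p hq
  have hp := (Fact.out : p.Prime).two_le
  have hb := card_sub_bot (F := F) p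
  have kA4 := fun h => exists_ne_top_card (has_A4 hq) h
  have kS4 := fun h h' => exists_ne_top_card (has_S4 (F := F) h) h'
  have kA5 := fun h h' => exists_ne_top_card (has_A5 (F := F) ((five_dvd_iff _).2 h)) h'
  rw [card_A4] at kA4
  rw [card_S4] at kS4
  rw [card_A5] at kA5
  have klein : ∀ V : Subgroup _, ¬ p ∣ 12 → IsKleinFour V → V ≤ M → M ≤ Subgroup.normalizer
      (SetLike.coe V) → Nat.card M ≤ 24 → Subgroup.normalizer (SetLike.coe V) = M ∧
        Fintype.card F = p ∧ 5 ≤ p := fun V h hV h1 h2 h3 => by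
    have h4 : 5 ≤ p := by
      by_contra e
      have : p < 5 := by omega
      interval_cases p <;> simp_all
    have h6 := normalizer_eq_of_coatom hM (fun e => by
      have := hV.card_four
      rw [e, Subgroup.card_bot] at this; omega) h1 h2
    obtain ⟨x, hx⟩ := normalizer_conj_le hq hV ⊥
    rw [h6] at hx
    exact ⟨h6, (sub_eq_top_iff.1 (top_of_coatom hM hx (a := 5) (by omega) (by omega))).symm.trans hb,
      h4⟩
  rcases coatom_cases p (by omega) hM with ⟨C, N, h, rfl⟩ | h | h | h | h | ⟨x, L, r, hr, h1, h2⟩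
  · have h1 := h.dihedral'
    have h2 := h.card_map
    rw [gcd_two_odd hq] at h1 h2
    rcases h.tor.card with e | e <;> rw [e] at h1 h2
    · refine Or.inr (Or.inr (Or.inl ⟨fun e => ?_, fun e => ?_, _, by omega, h1⟩)) <;>
        rw [e] at hc h2 kS4 kA5 <;> norm_num at hc
      · obtain ⟨K, k1, k2, k3, -⟩ := kS4 (by norm_num) (by omega)
        have := not_coatom_pgroup (p := 2) hM (IsPGroup.of_card (n := 3) h2) k1 (by omega)
        omega
      · obtain ⟨K, k1, k2, k3, -⟩ := kA5 (by norm_num) (by omega)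
        exact not_coatom_ten hM h2 k1 (by omega) k2
    · refine Or.inr (Or.inl ⟨?_, _, by omega, h1⟩)
      by_contra e
      obtain e | e | e | e : Fintype.card F = 5 ∨ Fintype.card F = 7 ∨ Fintype.card F = 9 ∨
        Fintype.card F = 11 := by omega
      all_goals rw [e] at hc h2 kS4 kA5; norm_num at hc
      · obtain ⟨K, k1, k2, k3, -⟩ := kA4 (by omega)
        have := not_coatom_pgroup (p := 2) hM (IsPGroup.of_card (n := 2) h2) k1 (by omega)
        omega
      · obtain ⟨K, k1, k2, k3, -⟩ := kS4 (by norm_num) (by omega)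
        exact not_coatom_six hM h2 k1 (by omega) k2
      · obtain ⟨K, k1, k2, k3, -⟩ := kS4 (by norm_num) (by omega)
        have := not_coatom_pgroup (p := 2) hM (IsPGroup.of_card (n := 3) h2) k1 (by omega)
        omega
      · obtain ⟨K, k1, k2, k3, -⟩ := kA5 (by norm_num) (by omega)
        exact not_coatom_ten hM h2 k1 (by omega) k2
  · exact Or.inl (by rwa [gcd_two_odd hq] at h)
  · obtain ⟨V, hV, h1, h2⟩ := klein_of_A4 h.2
    have h0 := (card_of_equiv h.2).trans card_A4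
    obtain ⟨h3, h4, h6⟩ := klein V h.1 hV h1 h2 (by omega)
    have h7 := (card_normalizer_V hq hV).2.2
    rw [h3] at h7
    have h8 : Fintype.card F % 8 = 3 ∨ Fintype.card F % 8 = 5 := by omega
    refine Or.inr (Or.inr (Or.inr (Or.inr (Or.inr (Or.inr (Or.inl ⟨h4, h4 ▸ h8, fun e => ?_, h.2⟩))))))
    have h9 := lt_card_PSL2 hq (a := 9) (by omega)
    obtain ⟨K, k1, k2, -, k3⟩ := kA5 (by omega) (by omega)
    obtain ⟨K', a, b⟩ := (has_of_equiv k3).A4_of_A5.exists
    obtain ⟨W, hW, c, d⟩ := klein_of_A4 b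
    obtain ⟨g, rfl⟩ := klein_conj_of h8 hV hW
    rw [← Subgroup.map_equiv_normalizer_eq, h3] at d
    have e1 := Subgroup.card_map_of_injective (K := M) (f := (MulAut.conj g).toMonoidHom)
      (MulEquiv.injective _)
    have e2 := Subgroup.eq_of_le_of_card_ge d (by rw [e1, h0, card_of_equiv b, card_A4])
    rw [card_eq_of_conj_le hM _ (e2.ge.trans a) k1] at e1
    omega
  · obtain ⟨V, hV, h1, h2⟩ := klein_of_S4 h.2
    have h0 := (card_of_equiv h.2).trans card_S4
    obtain ⟨h3, h4, h6⟩ := klein V (fun e => h.1 (e.trans (by norm_num))) hV h1 h2 (by omega)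
    have h7 := (card_normalizer_V hq hV).2.1
    rw [h3] at h7
    exact Or.inr (Or.inr (Or.inr (Or.inr (Or.inr (Or.inr (Or.inr ⟨h4, by omega, h.2⟩))))))
  · have h0 := (card_of_equiv h.2).trans card_A5
    have h1 := M.card_subgroup_dvd_card
    rw [h0] at h1
    have h2 := (five_dvd_iff (Fintype.card F)).1 (by rw [← hc]; omega)
    obtain ⟨n, -, hn⟩ := FiniteField.card F p
    have h3 : p % 5 ≠ 0 := fun e => by
      obtain rfl : 5 = p := (Nat.prime_dvd_prime_iff_eq Nat.prime_five Fact.out).1 (by omega)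
      simp at h
    have h4 : Fintype.card F % 5 ≠ 0 := fun e => h3 (Nat.mod_eq_zero_of_dvd
      (Nat.prime_five.dvd_of_dvd_pow (hn ▸ Nat.dvd_of_mod_eq_zero e)))
    have h6 : p % 2 = 1 := Nat.odd_iff.1 ((Fact.out : p.Prime).odd_of_ne_two hp2)
    have key : ∀ L : Subfield F, 9 ≤ Nat.card L → (Nat.card L % 5 = 1 ∨ Nat.card L % 5 = 4) →
        Fintype.card F = Nat.card L := fun L a b => by
      obtain ⟨x, hx⟩ := A5_conj_le hq h.2 (L := L) ((five_dvd_iff _).2 (Or.inr b))
      exact (sub_eq_top_iff.1 (top_of_coatom hM ((map_cjP_eq rfl).le.trans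
        (Subgroup.map_mono (hx.trans (SLs_le_GLs L)))) a (by omega))).symm
    refine Or.inr (Or.inr (Or.inr (Or.inr (Or.inr (Or.inl ⟨by omega, ?_, h.2⟩)))))
    by_cases h7 : p % 5 = 1 ∨ p % 5 = 4
    · exact Or.inl ((key ⊥ (by rw [hb]; omega) (by rw [hb]; omega)).trans hb)
    have h8 : p ^ 2 % 5 = 4 := by
      rw [Nat.pow_mod]
      rcases (by omega : p % 5 = 2 ∨ p % 5 = 3) with e | e <;> rw [e]
    obtain ⟨k, hk | hk⟩ := Nat.even_or_odd' (n : ℕ)
    · obtain ⟨L, hL⟩ := exists_sub_card (F := F) (l := p ^ 2) (m := k) (by nlinarith)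
        (by rw [hn, hk, pow_mul])
      exact Or.inr ⟨(key L (by rw [hL]; nlinarith [show 3 ≤ p by omega]) (by omega)).trans hL,
        by omega⟩
    · exfalso
      have : (p ^ 2) ^ k % 5 = 1 ∨ (p ^ 2) ^ k % 5 = 4 := by
        clear * - h8
        induction k with
        | zero => simp
        | succ k ih => rw [pow_succ, Nat.mul_mod, h8]; omega
      rw [hn, hk, pow_succ, pow_mul, Nat.mul_mod] at h2
      rcases this with e | e <;> rw [e] at h2 <;> omega
  · obtain ⟨K, _, _, f, h3, rfl⟩ := exists_model L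
    rcases hr.eq_two_or_odd' with rfl | h4
    · exact Or.inr (Or.inr (Or.inr (Or.inl ⟨K, inferInstance, inferInstance, h3 ▸ h1,
        equiv_of_map_cjP h2 (nonempty_map_GLs f fun a =>
          (forall_isSquare_iff hq h1).2 even_two _ ⟨a, rfl⟩)⟩)))
    · rw [GLs_eq_SLs_of_odd h1 h4] at h2
      exact Or.inr (Or.inr (Or.inr (Or.inr (Or.inl ⟨K, inferInstance, inferInstance, r, hr, h4,
        h3 ▸ h1, equiv_of_map_cjP h2 (nonempty_map_SLs f)⟩))))

end Cfsg.Agent.S5892
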