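import Cfsg.Statements.S5894
import Cfsg.Agent.H5.Sy4
import Cfsg.Agent.H5.Sy3

set_option autoImplicit false
open Cfsg

namespace Cfsg.Agent.S5894

/-- For every m ≥ 2 the symmetric group on 2m letters has a maximal subgroup M of index 2m together with a maximal subgroup H of M that is not second maximal: some maximal subgroup K of the symmetric group contains H without H being maximal in K. (One may take M the stabiliser of a letter, H ≅ S_m × S_{m−1} inside it, and K ≅ S_m ≀ S₂ the stabiliser of a partition into two m-sets, with H < S_m × S_m < K.) So the prime-index hypothesis in the second-maximality criterion cannot be relaxed to any even index ≥ 4. -/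
theorem result (m : ℕ) (hm : 2 ≤ m) :
    ∃ M H K : Subgroup (Equiv.Perm (Fin (2 * m))), IsCoatom M ∧ M.index = 2 * m ∧ H ≤ M ∧ IsCoatom (H.subgroupOf M) ∧
      IsCoatom K ∧ H ≤ K ∧ ¬ IsCoatom (H.subgroupOf K) := by
  open Equiv Equiv.Perm MulAction CfsgH5.Sy Pointwise in
  classical
  let f : Fin (2 * m) → Fin 2 := fun x => (finProdFinEquiv.symm x).1
  have hf : ∀ i, Nat.card {x // f x = i} = m := fun i => by
    rw [Nat.card_congr (finProdFinEquiv.symm.subtypeEquiv (q := fun y : Fin 2 × Fin m => y.1 = i) (fun _ => Iff.rfl))]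
    rw [Nat.card_congr (⟨fun y => y.1.2, fun j => ⟨(i, j), rfl⟩, by rintro ⟨⟨a, b⟩, rfl⟩; rfl, fun _ => rfl⟩ : {y : Fin 2 × Fin m // y.1 = i} ≃ Fin m)]
    simp
  obtain ⟨x, x', y, h1, h2, h3⟩ := W_ne f m hm hf
  have h2v : ∀ z, f z ≠ f y → f z = f x := fun z hz => by
    exact (by decide : ∀ a b c : Fin 2, c ≠ b → a ≠ b → a = c) _ _ _ h3 hz
  obtain ⟨e⟩ := stab_iso x
  let O : Set (Fin (2 * m)) := {z | f z = f y}
  let O' : Set {z // z ≠ x} := {z | f z = f y}
  have hxy : y ≠ x := fun k => h3 (by rw [k])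
  have hst : ∀ g : Perm (Fin (2 * m)), g ∈ stabilizer (Perm (Fin (2 * m))) O ↔ ∀ z, f (g z) = f y ↔ f z = f y := fun g => by
    rw [mem_stabilizer_set]; rfl
  have hW : stabilizer (Perm (Fin (2 * m))) O ≤ Wf f := fun g hg => mem_W_of f g 1 (fun z => by
    by_cases k : f z = f y
    · exact (((hst g).mp hg z).mpr k).trans k.symm
    · exact (h2v _ (mt ((hst g).mp hg z).mp k)).trans (h2v _ k).symm)
  refine ⟨stabilizer _ x, stabilizer _ x ⊓ stabilizer _ O, Wf f, ?_, by rw [index_stab]; simp, inf_le_left, ?_, W_coatom f m hm hf,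
    inf_le_right.trans hW, fun hc => ?_⟩
  · haveI : Nontrivial (Fin (2 * m)) := ⟨x, x', h2⟩
    exact isCoatom_stabilizer_iff_preprimitive _ x |>.mpr inferInstance
  · have hco : IsCoatom (stabilizer (Perm {z // z ≠ x}) O') := by
      refine isCoatom_stabilizer ⟨⟨y, hxy⟩, rfl⟩ ⟨⟨x', h2.symm⟩, fun k => h3 (h1.trans k)⟩ ?_
      simp only [ne_eq, Nat.card_eq_fintype_card, Fintype.card_subtype_compl, Fintype.card_fin, Fintype.card_unique]
      omega
    have hr : (ofSubtype : Perm {z // z ≠ x} →* Perm _).range = stabilizer (Perm (Fin (2 * m))) x := by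
      ext g
      rw [mem_range_ofSubtype_iff, mem_stabilizer_iff, Perm.smul_def]
      constructor
      · intro h; by_contra hc; exact h (mem_support.mpr hc) rfl
      · rintro h y hy rfl; exact mem_support.mp hy h
    let e : Perm {z // z ≠ x} ≃* stabilizer (Perm (Fin (2 * m))) x := (MonoidHom.ofInjective ofSubtype_injective).trans (MulEquiv.subgroupCongr hr)
    rw [← Subgroup.isCoatom_comap e]
    convert hco using 1
    ext g
    rw [mem_stabilizer_set, Subgroup.mem_comap, Subgroup.mem_subgroupOf, Subgroup.mem_inf, hst]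
    refine ⟨fun h z => ?_, fun h => ⟨(e g).2, fun z => ?_⟩⟩
    · have : f (ofSubtype g z) = f y ↔ _ := h.2 z
      rwa [ofSubtype_apply_coe] at this
    · show f (ofSubtype g z) = _ ↔ _
      by_cases k : z = x
      · rw [ofSubtype_apply_of_not_mem g (by simpa using k)]
      · rw [ofSubtype_apply_of_mem g k]; exact h ⟨z, k⟩
  · have := hc.2 ((stabilizer _ O).subgroupOf (Wf f)) (lt_of_le_of_ne (fun g hg => hg.2) (fun h => by
      have h5 : (⟨swap x x', swap_W f h1⟩ : Wf f) ∈ (stabilizer _ O).subgroupOf (Wf f) := (hst (swap x x')).mpr (fun z => by rw [f_swap f h1])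
      have h6 : swap x x' x = x := (h.ge h5).1
      rw [swap_apply_left] at h6
      exact h2 h6.symm))
    obtain ⟨g, hg⟩ := lift f m hf (swap (f x) (f y))
    have h7 := (hst g).mp (Subgroup.subgroupOf_eq_top.mp this (mem_W_of f g _ hg)) x
    rw [hg, swap_apply_left] at h7
    exact h3 (h7.mp rfl)

end Cfsg.Agent.S5894
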