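import Cfsg.Statements.S5895
import Cfsg.Agent.S0772
import Cfsg.Agent.H5.Gl1

set_option autoImplicit false
open Cfsg

namespace Cfsg.Agent.S5895

open Matrix SemidirectProduct

/-- action -/
def ph (d : ℕ) (F : Type) [Field F] : GL (Fin d) F →* MulAut (Multiplicative (Fin d → F)) where
  toFun g := { toFun := fun v => Multiplicative.ofAdd (g.1 *ᵥ v.toAdd)
               invFun := fun v => Multiplicative.ofAdd ((g⁻¹).1 *ᵥ v.toAdd)
               left_inv := fun v => by simp
               right_inv := fun v => by simp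
               map_mul' := fun v w => by simp [mulVec_add] }
  map_one' := by ext v; simp
  map_mul' g h := by ext v; simp

theorem trans {d : ℕ} {F : Type} [Field F] (v w : Fin d → F) (hv : v ≠ 0) (hw : w ≠ 0) : ∃ g : GL (Fin d) F, g.1 *ᵥ v = w := by
  obtain ⟨g, hg⟩ := CfsgH5.Gl.exists_equiv_li (F := F) (a := fun _ : Unit => v) (b := fun _ => w) (linearIndependent_unique_iff.mpr hv) (linearIndependent_unique_iff.mpr hw)
  obtain ⟨g, rfl⟩ := CfsgH5.Au.gl_surjective g
  exact ⟨g, hg ()⟩

/-- For every prime p and every d ≥ 2 there is a finite group G with a maximal subgroup M of index p^d and a maximal subgroup H of M that is not second maximal in G: some maximal subgroup K of G contains H without H being maximal in K. (One may take G the affine group V ⋊ GL(V) of V = 𝔽_p^d, M = GL(V), H the stabiliser in M of a line W of V, and K = V ⋊ H, with H < W ⋊ H < K.) So the prime-index hypothesis in the second-maximality criterion cannot be relaxed to prime-power index. -/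
theorem result (p d : ℕ) (hp : p.Prime)
    (hd : 2 ≤ d) :
    ∃ (G : Type) (_ : Group G) (_ : Finite G) (M H K : Subgroup G), IsCoatom M ∧ M.index = p ^ d ∧ H ≤ M ∧
      IsCoatom (H.subgroupOf M) ∧ IsCoatom K ∧ H ≤ K ∧ ¬ IsCoatom (H.subgroupOf K) := by
  haveI := Fact.mk hp
  let F := ZMod p
  let G := Multiplicative (Fin d → F) ⋊[ph d F] GL (Fin d) F
  let S : Set (Fin d → F) := {v | ∀ i : Fin d, 1 ≤ (i : ℕ) → v i = 0}
  have hP := Cfsg.Agent.S0772.result (F := F) d 1 one_pos hd
  set P := Cfsg.stabilizing (Cfsg.glToMat (Fin d) F) S with hPd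
  haveI : Finite G := Finite.of_equiv _ SemidirectProduct.equivProd.symm
  have hM : ∀ x : G, x ∈ (inr : GL (Fin d) F →* G).range ↔ x.left = 1 := fun x =>
    ⟨by rintro ⟨g, rfl⟩; rfl, fun h => ⟨x.right, by ext <;> simp [h]⟩⟩
  let a : Fin d := ⟨0, by omega⟩
  let b : Fin d := ⟨1, by omega⟩
  have ha : (Pi.single a 1 : Fin d → F) ≠ 0 := fun h => by simpa using congrFun h a
  refine ⟨G, inferInstance, inferInstance, inr.range, inr.range ⊓ P.comap rightHom, P.comap rightHom, ⟨fun h => ?_, fun K hK => ?_⟩, ?_, inf_le_left, ?_,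
    Subgroup.isCoatom_comap_of_surjective rightHom_surjective hP, inf_le_right, fun hc => ?_⟩
  · exact ha ((hM (inl (Multiplicative.ofAdd (Pi.single a 1)))).mp (h ▸ Subgroup.mem_top _))
  · obtain ⟨x, hx, hn⟩ := SetLike.exists_of_lt hK
    have h1 : inl x.left ∈ K := by
      have := K.mul_mem hx (K.inv_mem (hK.le ⟨x.right, rfl⟩))
      rwa [mul_inv_eq_iff_eq_mul.mpr (inl_left_mul_inr_right x).symm] at this
    rw [eq_top_iff]
    intro y _
    rw [← inl_left_mul_inr_right y]
    refine K.mul_mem ?_ (hK.le ⟨_, rfl⟩)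
    by_cases h0 : y.left = 1
    · rw [h0, map_one]; exact one_mem _
    obtain ⟨g, hg⟩ := trans x.left.toAdd y.left.toAdd (fun e => hn ((hM x).mpr e)) h0
    have := K.mul_mem (K.mul_mem (hK.le ⟨g, rfl⟩) h1) (hK.le ⟨g⁻¹, rfl⟩)
    rwa [← inl_aut, show ph d F g x.left = y.left from congrArg Multiplicative.ofAdd hg] at this
  · have h1 := (inr : GL (Fin d) F →* G).range.index_mul_card
    rw [← Nat.card_congr (MonoidHom.ofInjective inr_injective).toEquiv, SemidirectProduct.card] at h1
    rw [Nat.eq_of_mul_eq_mul_right Nat.card_pos h1]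
    simp [F]
  · rw [← Subgroup.isCoatom_comap (MonoidHom.ofInjective (inr_injective (φ := ph d F)))]
    convert hP using 1
    ext g
    exact ⟨fun h => h.2, fun h => ⟨⟨g, rfl⟩, h⟩⟩
  · let L : Subgroup (P.comap (rightHom : G →* _)) :=
      { carrier := {x | x.1.left.toAdd ∈ S}
        one_mem' := fun i _ => rfl
        mul_mem' := fun {x y} hx hy i hi => by
          have := (x.2 _).mp hy i hi
          show x.1.left.toAdd i + (x.1.right.1 *ᵥ y.1.left.toAdd) i = 0
          rw [hx i hi, zero_add]; exact this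
        inv_mem' := fun {x} hx => (x⁻¹.2 _).mp (fun i hi => by show -x.1.left.toAdd i = 0; rw [hx i hi, neg_zero]) }
    have := hc.2 L (lt_of_le_of_ne (fun x hx i _ => by rw [(hM x.1).mp hx.1]; rfl) (fun h => by
      have h1 : (⟨inl (Multiplicative.ofAdd (Pi.single a 1)), P.one_mem⟩ : P.comap (rightHom : G →* _)) ∈ L := fun i hi =>
        Pi.single_eq_of_ne (fun e => by rw [e] at hi; simp [a] at hi) _
      exact ha ((hM _).mp (h.ge h1).1)))
    have h1 := (this ▸ Subgroup.mem_top _ : (⟨inl (Multiplicative.ofAdd (Pi.single b 1)), P.one_mem⟩ : P.comap (rightHom : G →* _)) ∈ L) b le_rfl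
    simp at h1

end Cfsg.Agent.S5895
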