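import Mathlib
import Cfsg.Statements.S5896
import Cfsg.Agent.H8.Aff
import Cfsg.Agent.H3.Burnside

set_option autoImplicit false
open Cfsg

namespace Cfsg.Agent.S5896

open CfsgH8 SemidirectProduct
open scoped commutatorElement

theorem key {G V : Type} [Group G] [AddCommGroup V] [DistribMulAction G V] (D : Subgroup G) [Fintype D]
    (hD : ∀ v : V, ∑ d : D, (d : G) • v = 0 → ∃ w : V, Fintype.card D • w = v ∧ ∑ d : D, (d : G) • w = 0)
    (K : Subgroup (Aff G V)) (h1 : ∀ d ∈ D, (inr d : Aff G V) ∈ K)
    (h2 : ∀ v : V, ∑ d : D, (d : G) • v = 0 → (inl (Multiplicative.ofAdd v) : Aff G V) ∈ K)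
    (v : V) (hv : ∑ d : D, (d : G) • v = 0) : (inl (Multiplicative.ofAdd v) : Aff G V) ∈ ⁅K, K⁆ := by
  obtain ⟨w, rfl, hw⟩ := hD v hv
  have e : Fintype.card D • w = ∑ d : D, (w - (d : G) • w) := by
    rw [Finset.sum_sub_distrib, hw]; simp
  rw [e]
  change ∑ d : D, (w - (d : G) • w) ∈ ((⁅K, K⁆ : Subgroup (Aff G V)).comap (inl : Multiplicative V →* Aff G V)).toAddSubgroup'
  refine sum_mem fun d _ => ?_
  change (inl (Multiplicative.ofAdd (w - (d : G) • w)) : Aff G V) ∈ ⁅K, K⁆
  have : (inl (Multiplicative.ofAdd (w - (d : G) • w)) : Aff G V) = ⁅(inl (Multiplicative.ofAdd w) : Aff G V), (inr (d : G) : Aff G V)⁆ := by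
    rw [commutatorElement_def, mul_assoc, mul_assoc, ← map_inv (inl : Multiplicative V →* Aff G V),
      ← map_inv (inr : G →* Aff G V), ← mul_assoc (inr _), ← inl_aut, ← map_mul, sub_eq_add_neg, ← smul_neg]
    rfl
  rw [this]
  exact Subgroup.commutator_mem_commutator (h2 w hw) (h1 d d.2)

/-- Finite perfect groups have solvable maximal subgroups of unbounded derived length: for every d there is a finite perfect group G (equal to its commutator subgroup) with a solvable maximal subgroup H whose derived length exceeds d, i.e. the d-th term of the derived series of H is non-trivial. (Take the derived subgroup of a wreath product S ≀ A₅ with S solvable of large derived length, and H the preimage of a maximal subgroup of A₅.) -/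
theorem result (d : ℕ) :
    ∃ (G : Type) (_ : Group G) (_ : Finite G) (H : Subgroup G), commutator G = ⊤ ∧ IsCoatom H ∧ Group.IsSolvable H ∧
      derivedSeries H d ≠ ⊥ := by
  classical
  induction d with
  | zero =>
    haveI := alternatingGroup.isPreprimitive_of_three_le_card (Fin 5) (by simp)
    have hc : Nat.card (MulAction.stabilizer (alternatingGroup (Fin 5)) (0 : Fin 5)) = 12 := by
      have h1 := (MulAction.stabilizer (alternatingGroup (Fin 5)) (0 : Fin 5)).card_mul_index
      rw [MulAction.index_stabilizer_of_transitive, nat_card_alternatingGroup] at h1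
      rw [Nat.card_fin] at h1
      norm_num only [Nat.factorial] at h1
      omega
    refine ⟨alternatingGroup (Fin 5), inferInstance, inferInstance, MulAction.stabilizer _ (0 : Fin 5),
      commutator_alternatingGroup_eq_top (by simp), MulAction.IsPreprimitive.isCoatom_stabilizer_of_isPreprimitive _ _,
      CfsgH3.burnside_paqb 2 3 2 1 Nat.prime_two Nat.prime_three (by rw [hc]; norm_num), fun h => ?_⟩
    have := congrArg (fun K : Subgroup _ => Nat.card K) h
    simp only [derivedSeries_zero, Subgroup.card_top, Subgroup.card_bot, hc] at this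
    omega
  | succ d ih =>
    obtain ⟨G, _, _, H, hG, hH, hs, hd⟩ := ih
    haveI := Fintype.ofFinite G
    obtain ⟨p, hp1, hp⟩ := Nat.exists_infinite_primes (Nat.card G + 1)
    haveI := Fact.mk hp
    let V : AddSubgroup (G → ZMod p) :=
      { carrier := {f | ∑ x, f x = 0}
        add_mem' := fun {a b} ha hb => by
          simp only [Set.mem_ofPred_eq, Pi.add_apply, Finset.sum_add_distrib] at ha hb ⊢
          rw [ha, hb, add_zero]
        zero_mem' := by simp
        neg_mem' := fun {a} ha => by simpa using ha }
    letI : DistribMulAction G V :=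
      { smul := fun h v => ⟨fun x => v.1 (x * h), (Equiv.sum_comp (Equiv.mulRight h) v.1).trans v.2⟩
        one_smul := fun v => Subtype.ext (funext fun x => congrArg v.1 (mul_one x))
        mul_smul := fun g h v => Subtype.ext (funext fun x => congrArg v.1 (mul_assoc x g h).symm)
        smul_zero := fun _ => rfl
        smul_add := fun _ _ _ => rfl }
    have hsm : ∀ (g : G) (v : V) x, (g • v).1 x = v.1 (x * g) := fun _ _ _ => rfl
    have hD : ∀ (D : Subgroup G) (v : V), ∑ d : D, (d : G) • v = 0 →
        ∃ w : V, Fintype.card D • w = v ∧ ∑ d : D, (d : G) • w = 0 := by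
      intro D v hv
      have h0 : (Fintype.card D : ZMod p) ≠ 0 := by
        rw [Ne, ZMod.natCast_eq_zero_iff]
        intro h
        have h1 := Nat.le_of_dvd Fintype.card_pos h
        have h2 : Nat.card D ≤ Nat.card G := D.card_le_card_group
        rw [Nat.card_eq_fintype_card] at h2
        omega
      refine ⟨((Fintype.card D : ZMod p)⁻¹).val • v, ?_, ?_⟩
      · ext x
        change Fintype.card D • ((Fintype.card D : ZMod p)⁻¹).val • v.1 x = v.1 x
        rw [nsmul_eq_mul, nsmul_eq_mul, ZMod.natCast_zmod_val, mul_inv_cancel_left₀ h0]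
      · simp only [smul_comm (_ : G), ← Finset.smul_sum, hv, smul_zero]
    have hall : ∀ v : V, ∑ d : (⊤ : Subgroup G), (d : G) • v = 0 := by
      intro v
      ext x
      rw [AddSubgroup.val_finsetSum, Finset.sum_apply]
      exact (Equiv.sum_comp (Subgroup.topEquiv.toEquiv.trans (Equiv.mulLeft x)) v.1).trans v.2
    let H' : Subgroup (Aff G V) := H.comap rightHom
    let j : H →* H' := (inr.comp H.subtype).codRestrict H' fun h => h.2
    let i : Multiplicative V →* H' := inl.codRestrict H' fun v => by
      change rightHom (inl v : Aff G V) ∈ H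
      rw [rightHom_inl]; exact one_mem _
    refine ⟨Aff G V, inferInstance, inferInstance, H', ?_, Subgroup.isCoatom_comap_of_surjective rightHom_surjective hH,
      ?_, ?_⟩
    · rw [eq_top_iff]
      intro x _
      rw [← x.inl_left_mul_inr_right]
      refine mul_mem (key ⊤ (hD ⊤) ⊤ (fun _ _ => trivial) (fun _ _ => trivial) x.left.toAdd (hall _)) ?_
      have h1 : (commutator G).map inr ≤ commutator (Aff G V) := by
        rw [commutator_def, Subgroup.map_commutator]
        exact Subgroup.commutator_mono le_top le_top
      exact h1 ⟨x.right, hG ▸ trivial, rfl⟩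
    · refine Group.isSolvable_of_ker_le_range i ((rightHom.comp H'.subtype).codRestrict H fun x => x.2) fun x hx => ?_
      have h1 : x.1.right = 1 := congrArg Subtype.val hx
      refine ⟨x.1.left, Subtype.ext ?_⟩
      change inl x.1.left = x.1
      rw [← x.1.inl_left_mul_inr_right, h1, map_one, mul_one]; rfl
    · let D : Subgroup G := (derivedSeries H d).map H.subtype
      have h1 : ∀ k, k ≤ d + 1 → ∀ v : V, ∑ d : D, (d : G) • v = 0 →
          (inl (Multiplicative.ofAdd v) : Aff G V) ∈ (derivedSeries H' k).map H'.subtype := by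
        intro k
        induction k with
        | zero => exact fun _ v _ => ⟨i (Multiplicative.ofAdd v), trivial, rfl⟩
        | succ k ih =>
          intro hk v hv
          rw [derivedSeries_succ, Subgroup.map_commutator]
          refine key D (hD D) _ ?_ (ih (by omega)) v hv
          rintro _ ⟨x, hx, rfl⟩
          exact ⟨j x, map_derivedSeries_le_derivedSeries j k ⟨x, derivedSeries_antitone H (by omega : k ≤ d) hx, rfl⟩, rfl⟩
      obtain ⟨⟨x, hx⟩, hx1⟩ := Subgroup.ne_bot_iff_exists_ne_one.1 hd
      have hx2 : (x : G) ≠ 1 := fun h => hx1 (Subtype.ext (Subtype.ext h))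
      intro hb
      have h0 : (Fintype.card G : ZMod p) ≠ 0 := by
        rw [Ne, ZMod.natCast_eq_zero_iff]
        intro h
        have h1 := Nat.le_of_dvd Fintype.card_pos h
        rw [Nat.card_eq_fintype_card] at hp1
        omega
      let u : V := ⟨fun y => (if y = 1 then 1 else 0) - (Fintype.card G : ZMod p)⁻¹, by
        change ∑ _, _ = _
        simp [mul_inv_cancel₀ h0]⟩
      have h2 := h1 (d + 1) le_rfl ((x : G) • u - u) (by
        simp only [smul_sub, Finset.sum_sub_distrib, ← mul_smul]
        rw [sub_eq_zero]
        exact Equiv.sum_comp (Equiv.mulRight (⟨x, x, hx, rfl⟩ : D)) fun d : D => (d : G) • u)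
      rw [hb, Subgroup.map_bot, Subgroup.mem_bot] at h2
      have h3 : (x : G) • u - u = 0 := congrArg SemidirectProduct.left h2
      have h4 := congrFun (congrArg Subtype.val h3) 1
      simp [hsm, u, hx2] at h4
      exact one_ne_zero (by linear_combination -h4 : (1 : ZMod p) = 0)

end Cfsg.Agent.S5896
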