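import Cfsg.Statements.S5902
import Cfsg.Agent.S5901

set_option autoImplicit false
open Cfsg

namespace Cfsg.Agent.S5902

theorem conj_compl {G : Type*} [Group G] (H : Subgroup G) (g : G)
    (h : ∃ C : Subgroup G, H.map (MulAut.conj g).toMonoidHom ⊔ C = ⊤ ∧ H.map (MulAut.conj g).toMonoidHom ⊓ C = ⊥) :
    ∃ C : Subgroup G, H ⊔ C = ⊤ ∧ H ⊓ C = ⊥ := by
  obtain ⟨C, h1, h2⟩ := h
  have hinj : Function.Injective (MulAut.conj g).toMonoidHom := (MulAut.conj g).injective
  have hsurj : Function.Surjective (MulAut.conj g).toMonoidHom := (MulAut.conj g).surjective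
  refine ⟨C.comap (MulAut.conj g).toMonoidHom, ?_, ?_⟩
  · apply Subgroup.map_injective hinj
    rw [Subgroup.map_sup, Subgroup.map_comap_eq_self_of_surjective hsurj, h1, Subgroup.map_top_of_surjective _ hsurj]
  · apply Subgroup.map_injective hinj
    rw [Subgroup.map_inf _ _ _ hinj, Subgroup.map_comap_eq_self_of_surjective hsurj, h2, Subgroup.map_bot]

/-- Let G be a finite group, X a subgroup whose own subgroup lattice is complemented, and suppose X lies in exactly one maximal subgroup M of G. Then every subgroup H of G not contained in the normal core of M has a complement in the subgroup lattice of G (some C with H ⊔ C = G and H ⊓ C = 1); in particular the subgroup lattice of G modulo the normal core of M is complemented. -/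
theorem result {G : Type*} [Group G] [Finite G] (X M : Subgroup G)
    (hK : ComplementedLattice (Subgroup X))
    (hM : IsCoatom M) (hXM : X ≤ M) (huniq : ∀ M' : Subgroup G, IsCoatom M' → X ≤ M' → M' = M) :
    (∀ H : Subgroup G, ¬ H ≤ M.normalCore → ∃ C : Subgroup G, H ⊔ C = ⊤ ∧ H ⊓ C = ⊥) ∧
    ComplementedLattice (Subgroup (G ⧸ M.normalCore)) := by
  have hX : X ≠ ⊤ := fun h => hM.1 (top_le_iff.mp (h ▸ hXM))
  have hint : ∀ Y : Subgroup G, ⊥ ≤ Y → Y ≤ X → ∃ C : Subgroup G, ⊥ ≤ C ∧ C ≤ X ∧ Y ⊔ C = X ∧ Y ⊓ C = ⊥ := by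
    intro Y _ hY
    obtain ⟨C, hC⟩ := hK.exists_isCompl (Y.subgroupOf X)
    refine ⟨C.map X.subtype, bot_le, Subgroup.map_subtype_le C, ?_, ?_⟩
    · have := congrArg (Subgroup.map X.subtype) hC.sup_eq_top
      rwa [Subgroup.map_sup, Subgroup.map_subgroupOf_eq_of_le hY, ← MonoidHom.range_eq_map, Subgroup.range_subtype] at this
    · have := congrArg (Subgroup.map X.subtype) hC.inf_eq_bot
      rwa [Subgroup.map_inf _ _ _ X.subtype_injective, Subgroup.map_subgroupOf_eq_of_le hY, Subgroup.map_bot] at this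
  have key : ∀ H : Subgroup G, ¬ H ≤ M.normalCore → ∃ C : Subgroup G, H ⊔ C = ⊤ ∧ H ⊓ C = ⊥ := by
    intro H hH
    obtain ⟨h, hh, hn⟩ := SetLike.not_le_iff_exists.mp hH
    have : ∃ g : G, g * h * g⁻¹ ∉ M := by
      by_contra hc
      push Not at hc
      exact hn hc
    obtain ⟨g, hg⟩ := this
    apply conj_compl H g
    apply Cfsg.Agent.S5901.result ⊥ X M bot_le hX hint hM hXM huniq
    · intro hle
      exact hg (hle ⟨h, hh, rfl⟩)
    · simp
  refine ⟨key, ⟨fun Hb => ?_⟩⟩
  by_cases hb : Hb = ⊥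
  · exact ⟨⊤, hb ▸ isCompl_bot_top⟩
  have hsurj := QuotientGroup.mk'_surjective M.normalCore
  have hn : ¬ Hb.comap (QuotientGroup.mk' M.normalCore) ≤ M.normalCore := by
    intro hle
    apply hb
    rw [eq_bot_iff]
    intro x hx
    obtain ⟨y, rfl⟩ := hsurj x
    have := hle (show y ∈ Hb.comap (QuotientGroup.mk' M.normalCore) from hx)
    simpa using this
  obtain ⟨C, h1, h2⟩ := key _ hn
  refine ⟨C.map (QuotientGroup.mk' M.normalCore), ?_, ?_⟩
  · rw [disjoint_iff, eq_bot_iff]
    rintro x ⟨hx, c, hc, rfl⟩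
    have : c ∈ Hb.comap (QuotientGroup.mk' M.normalCore) ⊓ C := ⟨hx, hc⟩
    rw [h2] at this
    simp [Subgroup.mem_bot.mp this]
  · rw [codisjoint_iff]
    have := congrArg (Subgroup.map (QuotientGroup.mk' M.normalCore)) h1
    rwa [Subgroup.map_sup, Subgroup.map_comap_eq_self_of_surjective hsurj, Subgroup.map_top_of_surjective _ hsurj] at this

end Cfsg.Agent.S5902
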