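import Cfsg.Statements.S5903
import Cfsg.Agent.S5902

set_option autoImplicit false
open Cfsg

namespace Cfsg.Agent.S5903

/-- Let G be a finite simple group, X a subgroup lying in exactly one maximal subgroup M of G, and N a subgroup of prime order with N ≤ X that is central in M. If the subgroup lattice of X/N is complemented, then the subgroup lattice of G is complemented. -/
theorem result {G : Type*} [Group G] [Finite G] [IsSimpleGroup G] (X M N : Subgroup G)
    (hM : IsCoatom M) (hXM : X ≤ M) (huniq : ∀ M' : Subgroup G, IsCoatom M' → X ≤ M' → M' = M)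
    (hNX : N ≤ X) (hN : (Nat.card N).Prime) (hcen : ∀ n ∈ N, ∀ m ∈ M, m * n = n * m)
    [(N.subgroupOf X).Normal] (hK : ComplementedLattice (Subgroup (X ⧸ N.subgroupOf X))) :
    ComplementedLattice (Subgroup G) := by
  have hX : X ≠ ⊤ := fun h => hM.1 (top_le_iff.mp (h ▸ hXM))
  have hint : ∀ Y : Subgroup G, N ≤ Y → Y ≤ X → ∃ C : Subgroup G, N ≤ C ∧ C ≤ X ∧ Y ⊔ C = X ∧ Y ⊓ C = N := by
    intro Y hNY hY
    have hsurj := QuotientGroup.mk'_surjective (N.subgroupOf X)
    obtain ⟨C, hC⟩ := hK.exists_isCompl ((Y.subgroupOf X).map (QuotientGroup.mk' (N.subgroupOf X)))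
    have hk : N.subgroupOf X ≤ C.comap (QuotientGroup.mk' (N.subgroupOf X)) := by
      intro x hx
      have : QuotientGroup.mk' (N.subgroupOf X) x = 1 := by simpa using hx
      simp only [Subgroup.mem_comap, this, one_mem]
    have hk' : (QuotientGroup.mk' (N.subgroupOf X)).ker ≤ Y.subgroupOf X := by
      rw [QuotientGroup.ker_mk']; exact fun x hx => hNY hx
    refine ⟨(C.comap (QuotientGroup.mk' (N.subgroupOf X))).map X.subtype, ?_, Subgroup.map_subtype_le _, ?_, ?_⟩
    · intro n hn
      exact ⟨⟨n, hNX hn⟩, hk hn, rfl⟩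
    · have := congrArg (fun Z => (Subgroup.comap (QuotientGroup.mk' (N.subgroupOf X)) Z).map X.subtype) hC.sup_eq_top
      rwa [← Subgroup.comap_sup_eq _ _ _ hsurj, Subgroup.comap_map_eq_self hk', Subgroup.map_sup,
        Subgroup.map_subgroupOf_eq_of_le hY, Subgroup.comap_top, ← MonoidHom.range_eq_map, Subgroup.range_subtype] at this
    · have := congrArg (fun Z => (Subgroup.comap (QuotientGroup.mk' (N.subgroupOf X)) Z).map X.subtype) hC.inf_eq_bot
      rwa [Subgroup.comap_inf, Subgroup.comap_map_eq_self hk', Subgroup.map_inf _ _ _ X.subtype_injective,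
        Subgroup.map_subgroupOf_eq_of_le hY, MonoidHom.comap_bot, QuotientGroup.ker_mk', Subgroup.map_subgroupOf_eq_of_le hNX] at this
  refine ⟨fun H => ?_⟩
  by_cases hg : ∃ g : G, ¬ H.map (MulAut.conj g).toMonoidHom ≤ M ∧ H.map (MulAut.conj g).toMonoidHom ⊓ N = ⊥
  · obtain ⟨g, h1, h2⟩ := hg
    obtain ⟨C, h3, h4⟩ := Cfsg.Agent.S5902.conj_compl H g
      (Cfsg.Agent.S5901.result N X M hNX hX hint hM hXM huniq _ h1 h2)
    exact ⟨C, disjoint_iff.mpr h4, codisjoint_iff.mpr h3⟩
  push Not at hg
  have hNb : N ≠ ⊥ := by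
    rintro rfl
    simp at hN
    exact Nat.not_prime_one hN
  have hall : ∀ g : G, ∀ n ∈ N, g⁻¹ * n * g ∈ Subgroup.normalizer (H : Set G) := by
    intro g n hn
    by_cases hle : H.map (MulAut.conj g).toMonoidHom ≤ M
    · apply Subgroup.centralizer_le_normalizer
      rw [Subgroup.mem_centralizer_iff]
      intro h hh
      have := hcen n hn _ (hle ⟨h, hh, rfl⟩)
      simp only [MulEquiv.coe_toMonoidHom, MulAut.conj_apply] at this
      calc h * (g⁻¹ * n * g) = g⁻¹ * (g * h * g⁻¹ * n) * g := by group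
        _ = g⁻¹ * (n * (g * h * g⁻¹)) * g := by rw [this]
        _ = g⁻¹ * n * g * h := by group
    · have hne := hg g hle
      haveI : Fact (Nat.card N).Prime := ⟨hN⟩
      have hs : IsSimpleGroup N := isSimpleGroup_of_prime_card rfl
      have : (H.map (MulAut.conj g).toMonoidHom).subgroupOf N = ⊤ := by
        rcases (Subgroup.eq_bot_or_eq_top_of_prime_card ((H.map (MulAut.conj g).toMonoidHom).subgroupOf N)) with h | h
        · exfalso; apply hne
          rw [Subgroup.subgroupOf_eq_bot, disjoint_iff] at h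
          exact h
        · exact h
      rw [Subgroup.subgroupOf_eq_top] at this
      obtain ⟨h, hh, he⟩ := this hn
      simp only [MulEquiv.coe_toMonoidHom, MulAut.conj_apply] at he
      apply Subgroup.le_normalizer
      rw [← he]
      simpa [mul_assoc] using hh
  have hnc : Subgroup.normalClosure (N : Set G) = ⊤ := by
    rcases (Subgroup.normalClosure_normal (s := (N : Set G))).eq_bot_or_eq_top with h | h
    · exfalso; apply hNb
      rw [eq_bot_iff, ← h]; exact Subgroup.le_normalClosure
    · exact h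
  have hnorm : H.Normal := by
    rw [← Subgroup.normalizer_eq_top_iff, eq_top_iff, ← hnc, Subgroup.normalClosure, Subgroup.closure_le]
    intro x hx
    obtain ⟨n, hn, hc⟩ := Group.mem_conjugatesOfSet_iff.mp hx
    obtain ⟨g, rfl⟩ := isConj_iff.mp hc
    simpa using hall g⁻¹ n hn
  rcases hnorm.eq_bot_or_eq_top with rfl | rfl
  · exact ⟨⊤, isCompl_bot_top⟩
  · exact ⟨⊥, isCompl_top_bot⟩

end Cfsg.Agent.S5903
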