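import Cfsg.Statements.S5904


set_option autoImplicit false
open scoped Pointwise
open Cfsg

namespace Cfsg.Agent.S5904

/-- Let Ω be a finite set with more than two elements and O ⊆ Ω a subset with exactly as many elements as its complement. Then the setwise stabilizer of O in the symmetric group on Ω is not a maximal subgroup (it is properly contained in the stabilizer of the partition {O, Ω ∖ O}, which is proper). -/
theorem result {Ω : Type*} [Fintype Ω] [DecidableEq Ω] (hΩ : 2 < Fintype.card Ω)
    (O : Set Ω) (hO : Nat.card O = Nat.card ↥Oᶜ) :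
    ¬ IsCoatom (MulAction.stabilizer (Equiv.Perm Ω) O) := by
  classical
  intro hc
  let K : Subgroup (Equiv.Perm Ω) :=
    { carrier := {g | ∀ x y, (x ∈ O ↔ y ∈ O) ↔ (g x ∈ O ↔ g y ∈ O)}
      one_mem' := fun x y => Iff.rfl
      mul_mem' := fun {a b} ha hb x y => (hb x y).trans (ha _ _)
      inv_mem' := fun {a} ha x y => by
        have := ha (a⁻¹ x) (a⁻¹ y)
        simpa using this.symm }
  have hle : MulAction.stabilizer (Equiv.Perm Ω) O ≤ K := by
    intro g hg x y
    have h := MulAction.mem_stabilizer_iff.mp hg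
    have k : ∀ z, g z ∈ O ↔ z ∈ O := fun z => by
      conv_lhs => rw [← h]
      exact Set.smul_mem_smul_set_iff (a := g)
    rw [k, k]
  have hcard : Nat.card O + Nat.card ↥Oᶜ = Fintype.card Ω := by
    rw [Nat.card_coe_set_eq, Nat.card_coe_set_eq, Set.ncard_add_ncard_compl, Nat.card_eq_fintype_card]
  have h2 : 1 < Nat.card O := by omega
  have h1 : 0 < Nat.card ↥Oᶜ := by omega
  obtain ⟨a, a', haa⟩ := (Finite.one_lt_card_iff_nontrivial.mp h2).exists_pair_ne
  obtain ⟨b⟩ := (Nat.card_pos_iff.mp h1).1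
  have hb : (b : Ω) ∉ O := b.2
  have hne : K ≠ ⊤ := by
    intro h
    have : Equiv.swap (a : Ω) b ∈ K := h ▸ Subgroup.mem_top _
    have := (this a a').mp (iff_of_true a.2 a'.2)
    rw [Equiv.swap_apply_left, Equiv.swap_apply_of_ne_of_ne (fun h => haa (Subtype.ext h).symm) (fun h : (a' : Ω) = b => hb (h ▸ a'.2))] at this
    exact hb (this.mpr a'.2)
  obtain ⟨e⟩ := Finite.card_eq.mp hO
  let s : Ω → Ω := fun x => if h : x ∈ O then e ⟨x, h⟩ else e.symm ⟨x, h⟩
  have hs1 : ∀ x, s x ∈ O ↔ x ∉ O := by
    intro x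
    by_cases h : x ∈ O
    · simp only [s, h, dite_true, not_true, iff_false]; exact (e ⟨x, h⟩).2
    · simp only [s, h, dite_false, not_false_iff, iff_true]; exact (e.symm ⟨x, h⟩).2
  have hs : Function.Involutive s := by
    intro x
    by_cases h : x ∈ O
    · have h' : s x ∉ O := by rw [hs1]; simpa using h
      have : s x = e ⟨x, h⟩ := by simp [s, h]
      have h3 : s (s x) = e.symm ⟨s x, h'⟩ := by
        show (if h : s x ∈ O then _ else _) = _
        rw [dif_neg h']
      rw [h3, show (⟨s x, h'⟩ : ↥Oᶜ) = e ⟨x, h⟩ from Subtype.ext this]; simp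
    · have h' : s x ∈ O := by rw [hs1]; simpa using h
      have : s x = e.symm ⟨x, h⟩ := by simp [s, h]
      have h3 : s (s x) = e ⟨s x, h'⟩ := by
        show (if h : s x ∈ O then _ else _) = _
        rw [dif_pos h']
      rw [h3, show (⟨s x, h'⟩ : O) = e.symm ⟨x, h⟩ from Subtype.ext this]; simp
  have hsK : hs.toPerm ∈ K := by
    intro x y
    simp only [Function.Involutive.coe_toPerm, hs1]; tauto
  have hsn : hs.toPerm ∉ MulAction.stabilizer (Equiv.Perm Ω) O := by
    intro h
    have h := MulAction.mem_stabilizer_iff.mp h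
    have : hs.toPerm • (a : Ω) ∈ hs.toPerm • O := Set.smul_mem_smul_set a.2
    rw [h] at this
    exact (hs1 a).mp this a.2
  exact hne (hc.2 K (lt_of_le_of_ne hle (fun h => hsn (h ▸ hsK))))

end Cfsg.Agent.S5904
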