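import Mathlib
import Cfsg.Statements.S5908
import Cfsg.Agent.S0827

set_option autoImplicit false
open Cfsg

namespace Cfsg.Agent.S5908


/-- The subgroup lattice of PSU₃(2) (the solvable group of order 72, realised over the field with 4 elements) is not complemented: some subgroup H has no subgroup X with H ⊔ X = ⊤ and H ⊓ X = ⊥. -/
theorem result {F : Type*} [Field F] [Fintype F] (hF : Fintype.card F = 4) :
    ¬ ComplementedLattice (Subgroup (Cfsg.PSU 3 F 2)) := by
  intro h
  obtain ⟨N, _, -, -, ⟨e⟩⟩ := S0827.result hF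
  let f := e.toMonoidHom.comp (QuotientGroup.mk' N)
  obtain ⟨X, d, c⟩ := exists_isCompl ((Subgroup.centralizer Set.univ).comap f)
  have k : ∀ g : QuaternionGroup 2, g = 1 ∨ (g ≠ 1 ∧ ∀ h, h * g = g * h) ∨ (g * g ≠ 1 ∧ ∀ h, h * (g * g) = g * g * h) := by
    decide
  have l : X ≤ (Subgroup.centralizer Set.univ).comap f := fun x hx => by
    rcases k (f x) with t | t | t
    · simp [t]
    · exact fun h _ => t.2 h
    · refine absurd ?_ t.1
      rw [← map_mul, Subgroup.disjoint_def.1 d (fun h _ => by simpa only [map_mul] using t.2 h) (mul_mem hx hx), map_one]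
  obtain ⟨x, hx⟩ := (e.surjective.comp (QuotientGroup.mk'_surjective N)) (.a 1)
  have : f x ∈ Subgroup.centralizer Set.univ := (c.eq_top_of_le l).ge trivial
  exact absurd ((show f x = _ from hx) ▸ this (.xa 0) trivial) (by decide)

end Cfsg.Agent.S5908
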