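import Cfsg.Statements.S5910
import Cfsg.Agent.H5.Sy4

set_option autoImplicit false
open Cfsg

namespace Cfsg.Agent.S5910

open Equiv Equiv.Perm MulAction CfsgH5.Sy

/-- affine maps -/
def Af : Subgroup (Perm ((ZMod 2 × ZMod 2) × ZMod 2)) where
  carrier := {g | ∀ x y z, g (x + y + z) = g x + g y + g z}
  one_mem' := fun _ _ _ => rfl
  mul_mem' := fun {a b} ha hb x y z => by rw [mul_apply, hb, ha]; rfl
  inv_mem' := fun {a} ha x y z => a.injective (by rw [ha]; simp)

theorem aff4 : ∀ σ : Perm (ZMod 2 × ZMod 2), ∀ i j k, σ (i + j + k) = σ i + σ j + σ k := by decide +kernel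

theorem aff2 : ∀ c : ZMod 2 × ZMod 2 → Perm (ZMod 2), ∏ i, sign (c i) = 1 → ∀ i j k s t u,
    c (i + j + k) (s + t + u) = c i s + c j t + c k u := by decide +kernel

theorem W_le (g : Perm ((ZMod 2 × ZMod 2) × ZMod 2)) (hg : g ∈ Wf Prod.fst) (hs : sign g = 1) : g ∈ Af := by
  have h1 : Function.Injective (fun i => (g (i, 0)).1) := fun i j h => (hg (i, 0) (j, 0)).mpr h
  let σ : Perm (ZMod 2 × ZMod 2) := Equiv.ofBijective _ (Finite.injective_iff_bijective.mp h1)
  have h2 : ∀ x, (g x).1 = σ x.1 := fun x => (hg x (x.1, 0)).mp rfl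
  have h3 : ∀ i, Function.Injective (fun s => (g (i, s)).2) := fun i s t h =>
    congrArg Prod.snd (g.injective (show g (i, s) = g (i, t) from Prod.ext ((h2 (i, s)).trans (h2 (i, t)).symm) h))
  let c : ZMod 2 × ZMod 2 → Perm (ZMod 2) := fun i => Equiv.ofBijective _ (Finite.injective_iff_bijective.mp (h3 i))
  have h4 : g = (prodCongrLeft fun _ => σ) * prodCongrRight c := by
    ext1 ⟨i, s⟩
    exact Prod.ext (h2 _) rfl
  rw [h4, map_mul, sign_prodCongrLeft, sign_prodCongrRight] at hs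
  have h5 : ∏ i, sign (c i) = 1 := by simpa [sq] using hs
  rintro ⟨i, s⟩ ⟨j, t⟩ ⟨k, u⟩
  rw [h4]
  exact Prod.ext (aff4 σ i j k) (aff2 c h5 i j k s t u)

/-- Let Ω be a set with 8 elements and f : Ω → Fin 4 a labelling whose four fibres all have size 2 (a partition of the 8 points into 4 pairs). Then the group of even permutations preserving this partition, (S₂ ≀ S₄) ∩ A₈, is not a maximal subgroup of the alternating group A₈ (it lies in a subgroup isomorphic to the affine group AGL₃(2)). -/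
theorem result {Ω : Type*} [Fintype Ω] [DecidableEq Ω] (h8 : Fintype.card Ω = 8)
    (f : Ω → Fin 4) (hf : ∀ i : Fin 4, Nat.card {x : Ω // f x = i} = 2) :
    ¬ IsCoatom ((Subgroup.closure {g : Equiv.Perm Ω | ∀ x y : Ω, f x = f y ↔ f (g x) = f (g y)} ⊓ alternatingGroup Ω).subgroupOf (alternatingGroup Ω)) := by
  rw [closure_W]
  obtain ⟨E0, hE0⟩ := exists_equiv f 2 hf
  let e4 : Fin 4 ≃ ZMod 2 × ZMod 2 := Fintype.equivOfCardEq (by simp)
  let E : Ω ≃ (ZMod 2 × ZMod 2) × ZMod 2 := E0.trans (Equiv.prodCongr e4 (Equiv.refl (Fin 2)))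
  have hE : ∀ x y, f x = f y ↔ (E x).1 = (E y).1 := fun x y => by
    rw [← hE0, ← hE0]; exact e4.apply_eq_iff_eq.symm
  have hW : ∀ g : Perm Ω, g ∈ Wf f ↔ E.permCongr g ∈ Wf Prod.fst := fun g => by
    constructor
    · intro h x y
      have := h (E.symm x) (E.symm y)
      rw [hE, hE] at this
      simpa using this
    · intro h x y
      rw [hE, hE]
      simpa using h (E x) (E y)
  intro hc
  let K : Subgroup (alternatingGroup Ω) := (Af.comap E.permCongrHom.toMonoidHom).subgroupOf _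
  have hle : (Wf f ⊓ alternatingGroup Ω).subgroupOf (alternatingGroup Ω) ≤ K := fun g hg =>
    W_le _ ((hW _).mp hg.1) ((sign_permCongr E g).trans g.2)
  let a : Perm ((ZMod 2 × ZMod 2) × ZMod 2) := swap ((1, 0), 0) ((0, 0), 1) * swap ((1, 1), 0) ((0, 1), 1)
  let b : Perm ((ZMod 2 × ZMod 2) × ZMod 2) := swap ((1, 0), 0) ((0, 0), 1) * swap ((1, 0), 0) ((0, 1), 1)
  have ha : E.symm.permCongr a ∈ alternatingGroup Ω := (sign_permCongr E.symm a).trans (by decide +kernel)
  have hb : E.symm.permCongr b ∈ alternatingGroup Ω := (sign_permCongr E.symm b).trans (by decide +kernel)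
  have ee : ∀ g, E.permCongr (E.symm.permCongr g) = g := fun g => by ext x <;> simp
  have := hc.2 K (lt_of_le_of_ne hle (fun h => by
    have h1 : (⟨_, ha⟩ : alternatingGroup Ω) ∈ K := by
      show E.permCongr (E.symm.permCongr a) ∈ Af
      rw [ee]
      show ∀ x y z, a (x + y + z) = a x + a y + a z
      decide +kernel
    have h2 := (hW (E.symm.permCongr a)).mp (h.ge h1).1
    rw [ee] at h2
    exact absurd (h2 ((0, 0), 0) ((0, 0), 1)) (by decide +kernel)))
  have h1 : E.permCongr (E.symm.permCongr b) ∈ Af := (this ▸ Subgroup.mem_top _ : (⟨_, hb⟩ : alternatingGroup Ω) ∈ K)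
  rw [ee] at h1
  exact absurd (h1 ((1, 0), 0) ((0, 0), 1) ((0, 0), 0)) (by decide +kernel)

end Cfsg.Agent.S5910
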