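import Cfsg.Statements.S5911
import Cfsg.Agent.H5.Sy2

set_option autoImplicit false
open Cfsg

namespace Cfsg.Agent.S5911

open Equiv Equiv.Perm MulAction in
theorem of_le {Ω : Type*} [Fintype Ω] [DecidableEq Ω] (H : Subgroup (Equiv.Perm Ω)) (hH : H.index = Fintype.card Ω) (x : Ω)
    (h : H ≤ stabilizer (Perm Ω) x) : H = stabilizer (Perm Ω) x := by
  refine Subgroup.eq_of_le_of_card_ge h (le_of_eq ?_)
  have e1 := (stabilizer (Perm Ω) x).index_mul_card
  rw [index_stabilizer_of_transitive, Nat.card_eq_fintype_card (α := Ω), ← hH, ← H.index_mul_card] at e1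
  exact Nat.eq_of_mul_eq_mul_left (Nat.pos_of_ne_zero Subgroup.index_ne_zero_of_finite) e1

/-- Let Ω be a finite set whose size n is not 6. Then every subgroup of the symmetric group on Ω of index n is the stabilizer of a point. -/
theorem result {Ω : Type*} [Fintype Ω] [DecidableEq Ω] (h6 : Fintype.card Ω ≠ 6)
    (H : Subgroup (Equiv.Perm Ω)) (hH : H.index = Fintype.card Ω) :
    ∃ x : Ω, H = MulAction.stabilizer (Equiv.Perm Ω) x := by
  open Equiv Equiv.Perm MulAction in
  by_cases h5 : 5 ≤ Fintype.card Ω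
  · obtain ⟨φ, x, hx⟩ := CfsgH5.Sy.exists_aut h5 H hH
    obtain ⟨π, hπ⟩ := CfsgH5.Sy.perm_inner (by omega) h6 φ
    refine ⟨π⁻¹ x, Subgroup.ext fun g => ?_⟩
    rw [hx, hπ, mem_stabilizer_iff, Perm.smul_def, mul_apply, mul_apply, Perm.eq_inv_iff_eq]
  by_cases h11 : Fintype.card Ω = 1
  · obtain ⟨x, hx⟩ := Fintype.card_eq_one_iff.mp h11
    exact ⟨x, of_le H hH x (fun g _ => hx _)⟩
  obtain ⟨x, hx⟩ := CfsgH5.Sy.fix_of_intrans (α := Ω) (fun k => Set.powersetCard.isPretransitive) H hH.le (fun ht => by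
    have h0 : H.index ≠ 0 := Subgroup.index_ne_zero_of_finite
    obtain ⟨x⟩ : Nonempty Ω := Fintype.card_pos_iff.mp (by omega)
    have h1 := Subgroup.index_dvd_card (stabilizer H x)
    rw [index_stabilizer_of_transitive, Nat.card_eq_fintype_card (α := Ω)] at h1
    have h2 := H.index_mul_card
    rw [Nat.card_perm, Nat.card_eq_fintype_card (α := Ω), hH] at h2
    rw [hH] at h0
    have h7 : Fintype.card Ω = 2 ∨ Fintype.card Ω = 3 ∨ Fintype.card Ω = 4 := by omega
    rcases h7 with h | h | h <;> rw [h] at h1 h2 <;> simp only [Nat.factorial] at h2 <;> omega)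
  exact ⟨x, of_le H hH x hx⟩

end Cfsg.Agent.S5911
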