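import Cfsg.Statements.S5912
import Cfsg.Agent.H5.Sy3

set_option autoImplicit false
open Cfsg

namespace Cfsg.Agent.S5912

/-- The symmetric group on a 6-element set Ω has exactly two conjugacy classes of subgroups of index 6: there are two non-conjugate subgroups of index 6 (a point stabilizer and a transitive subgroup isomorphic to S₅), and every subgroup of index 6 is conjugate to one of them. -/
theorem result {Ω : Type*} [Fintype Ω] [DecidableEq Ω] (h6 : Fintype.card Ω = 6) :
    ∃ H₁ H₂ : Subgroup (Equiv.Perm Ω), H₁.index = 6 ∧ H₂.index = 6 ∧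
      (¬ ∃ g : Equiv.Perm Ω, Subgroup.map (MulAut.conj g).toMonoidHom H₁ = H₂) ∧
      ∀ H : Subgroup (Equiv.Perm Ω), H.index = 6 →
        ∃ g : Equiv.Perm Ω, Subgroup.map (MulAut.conj g).toMonoidHom H₁ = H ∨ Subgroup.map (MulAut.conj g).toMonoidHom H₂ = H := by
  open Equiv Equiv.Perm MulAction CfsgH5.Sy in
  obtain ⟨ω, h1, h2⟩ := exists_omega h6
  obtain ⟨x⟩ : Nonempty Ω := Fintype.card_pos_iff.mp (by omega)
  refine ⟨stabilizer _ x, (stabilizer _ x).comap ω.toMonoidHom, (index_stab x).trans h6, ?_, ?_, fun H hH => ?_⟩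
  · rw [Subgroup.index_comap_of_surjective _ ω.surjective, index_stab, h6]
  · rintro ⟨g, hg⟩
    rw [conj_stab] at hg
    obtain ⟨y, hy⟩ := Fintype.exists_ne_of_one_lt_card (by omega) (g x)
    obtain ⟨c, hc, h3, -⟩ := exists_three (by omega) hy
    exact h1 c hc x (hg.le (show c ∈ stabilizer (Perm Ω) (g x) from h3))
  · obtain ⟨y, rfl | rfl⟩ := h2 H hH
    · exact ⟨swap x y, Or.inl (by rw [conj_stab, swap_apply_left])⟩
    · refine ⟨ω.symm (swap x y), Or.inr (Subgroup.ext fun g => ?_)⟩
      rw [Subgroup.mem_map_equiv]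
      simp [Perm.inv_eq_iff_eq, swap_apply_eq_iff]

end Cfsg.Agent.S5912
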