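import Mathlib
import Cfsg.Statements.S5939
import Cfsg.Agent.H8.Dick3

set_option autoImplicit false
open Cfsg

namespace Cfsg.Agent.S5939


open CfsgH8

/-- Let p be a prime and F a finite field of characteristic p such that either F has p elements and p ≡ ±1 (mod 10), or F has p² elements and p ≡ ±3 (mod 10). Then PSL_2(F) has a maximal subgroup isomorphic to the alternating group A_5. -/
theorem result {F : Type*} [Field F] [Fintype F] (p : ℕ) [Fact p.Prime] [CharP F p] (h : (Fintype.card F = p ∧ (p % 10 = 1 ∨ p % 10 = 9)) ∨ (Fintype.card F = p ^ 2 ∧ (p % 10 = 3 ∨ p % 10 = 7))) : ∃ H : Subgroup (Matrix.ProjectiveSpecialLinearGroup (Fin 2) F), IsCoatom H ∧ Nonempty (H ≃* alternatingGroup (Fin 5)) := by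
  have h2 := (Fact.out : p.Prime).two_le
  have h0 : (Fintype.card F % 10 = 1 ∨ Fintype.card F % 10 = 9) ∧ 9 ≤ Fintype.card F := by
    rcases h with ⟨e, h⟩ | ⟨e, h⟩
    · omega
    · rw [e, Nat.pow_mod]
      exact ⟨by rcases h with h | h <;> simp [h], by nlinarith [show 3 ≤ p by omega]⟩
  obtain ⟨M, hM⟩ := has_top_iff.1 (has_A5 (F := F) ((five_dvd_iff _).2 (by omega)))
  have hc := (card_of_equiv hM).trans card_A5
  refine ⟨M, isCoatom_of_card (ne_top_of_card (by omega) (a := 9) (by omega) (by rw [hc]; norm_num))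
    fun H h1 h2 => ?_, hM⟩
  rcases dickson_A4 p (by omega) h2 ((has_of_equiv hM).A4_of_A5.mono h1) with e | e | e |
    ⟨x, L, e, -, e'⟩
  · rw [card_of_equiv e.2, card_A4]; omega
  · rw [card_of_equiv e.2, card_S4]; omega
  · rw [card_of_equiv e.2, card_A5]; omega
  rcases h with ⟨h, -⟩ | ⟨h, h'⟩
  · exact absurd (sub_eq_top_of_prime (h ▸ Fact.out) L) e
  obtain rfl := (sub_eq_or_top (bot_le : ⊥ ≤ L) Nat.prime_two
    (by rw [card_sub_bot p, h])).resolve_right e
  have h3 := (Subgroup.card_dvd_of_le e').trans (card_GLs_dvd _)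
  have h4 := Subgroup.card_dvd_of_le h1
  rw [card_map_cjE, card_comap_πS, card_sub_bot p] at h3
  have h5 := (five_dvd_iff p).1 ((show Nat.Coprime 5 2 by norm_num).dvd_of_dvd_mul_left
    ((((show 5 ∣ 60 by norm_num).trans (hc ▸ h4)).mul_left _).trans h3))
  omega

end Cfsg.Agent.S5939
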