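import Mathlib
import Cfsg.Statements.S5940
import Cfsg.Agent.H8.Dick3

set_option autoImplicit false
open Cfsg

namespace Cfsg.Agent.S5940


open CfsgH8

/-- Let p ≥ 5 be a prime with p ≡ ±3 (mod 8) and p ≢ ±1 (mod 10), and F a field with p elements. Then PSL_2(F) has a maximal subgroup isomorphic to the alternating group A_4. -/
theorem result {F : Type*} [Field F] [Fintype F] (p : ℕ) [Fact p.Prime] (hF : Fintype.card F = p) (h5 : 5 ≤ p) (h8 : p % 8 = 3 ∨ p % 8 = 5) (h10 : p % 10 ≠ 1 ∧ p % 10 ≠ 9) : ∃ H : Subgroup (Matrix.ProjectiveSpecialLinearGroup (Fin 2) F), IsCoatom H ∧ Nonempty (H ≃* alternatingGroup (Fin 4)) := by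
  have : CharP F p := charP_of_card_eq_prime hF
  obtain ⟨M, h⟩ := has_top_iff.1 (has_A4 (F := F) (by omega))
  have hc := (card_of_equiv h).trans card_A4
  refine ⟨M, isCoatom_of_card (ne_top_of_card (by omega) (a := 5) (by omega) (by rw [hc]; norm_num))
    fun H h1 h2 => ?_, h⟩
  have h3 := H.card_subgroup_dvd_card
  have h4 := card_PSL2_mod (F := F) (by omega)
  rcases dickson_A4 p (by omega) h2 ((has_of_equiv h).mono h1) with e | e | e | ⟨x, L, e, -⟩
  · rw [card_of_equiv e.2, card_A4]; omega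
  · rw [card_of_equiv e.2, card_S4] at h3; omega
  · rw [card_of_equiv e.2, card_A5] at h3
    have h6 : 5 ∣ p * (p ^ 2 - 1) := by
      rw [← hF, ← card_PSL2_odd (by omega)]; omega
    rw [five_dvd_iff] at h6
    obtain rfl : 5 = p := (Nat.prime_dvd_prime_iff_eq Nat.prime_five Fact.out).1 (by omega)
    simp at e
  · exact absurd (sub_eq_top_of_prime (hF ▸ Fact.out) L) e

end Cfsg.Agent.S5940
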