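import Mathlib
import Cfsg.Statements.S5947
import Cfsg.Agent.H8.Zsig

set_option autoImplicit false
open Cfsg

namespace Cfsg.Agent.S5947

open CfsgH8

theorem cnt {F W : Type*} [Field F] [AddCommGroup W] [Module F W] [Finite W] (t : Module.End F W) {r : ℕ} [Fact r.Prime]
    (h : t ^ r = 1) : Nat.card F ^ Module.finrank F W ≡ Nat.card F ^ Module.finrank F (LinearMap.ker (t - 1)) [MOD r] := by
  classical
  haveI := Fintype.ofFinite W
  rw [← Module.natCard_eq_pow_finrank, ← Module.natCard_eq_pow_finrank]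
  have h1 := Equiv.Perm.card_fixedPoints_modEq (α := W) (f := (t : W → W)) (p := r) (n := 1) (by
    funext x
    rw [pow_one]
    change (t : W → W)^[r] x = x
    rw [← Module.End.pow_apply, h]; rfl)
  rw [← Nat.card_eq_fintype_card, ← Nat.card_eq_fintype_card] at h1
  convert h1 using 1
  exact Nat.card_congr (Equiv.subtypeEquivRight fun x => by simp [sub_eq_zero, Function.IsFixedPt])

theorem mers {p k a : ℕ} (hp : p.Prime) (hk : 0 < k) (h : p ^ k + 1 = 2 ^ a) : k = 1 := by
  have h2 := hp.two_le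
  rcases Nat.even_or_odd k with ⟨m, rfl⟩ | hodd
  · exfalso
    have h3 : 2 ≤ p ^ m := le_trans h2 (Nat.le_self_pow (by omega) p)
    have h4 : 2 ≤ a := by
      by_contra h5
      have : 2 ^ a ≤ 2 ^ 1 := Nat.pow_le_pow_right (by norm_num) (by omega)
      rw [pow_add] at h
      nlinarith
    obtain ⟨b, rfl⟩ := Nat.exists_eq_add_of_le h4
    have h5 := congrArg (· % 4) h
    simp only [pow_add] at h5
    generalize p ^ m = x at h5
    have : x % 4 = 0 ∨ x % 4 = 1 ∨ x % 4 = 2 ∨ x % 4 = 3 := by omega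
    rcases this with h | h | h | h <;> simp [Nat.add_mod, Nat.mul_mod, h] at h5
  · by_contra h1
    have hpo : Odd p := by
      by_contra h3
      have h4 : Even (p ^ k) := (Nat.not_odd_iff_even.1 h3).pow_of_ne_zero hk.ne'
      have h5 : a ≠ 0 := by rintro rfl; simp at h; omega
      have h6 : Even (2 ^ a) := even_two.pow_of_ne_zero h5
      rw [← h, Nat.even_add_one] at h6
      exact h6 h4
    obtain ⟨m, rfl⟩ := hodd
    have e : ∀ m, ∃ c, Odd c ∧ p ^ (2 * m + 1) + 1 = (p + 1) * c := by
      intro m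
      induction m with
      | zero => exact ⟨1, odd_one, by simp⟩
      | succ m ih =>
        obtain ⟨c, h1, h2⟩ := ih
        obtain ⟨s, rfl⟩ := hpo
        refine ⟨c + (2 * s + 1) ^ (2 * m + 1) * (2 * s), h1.add_even ⟨(2 * s + 1) ^ (2 * m + 1) * s, by ring⟩, ?_⟩
        rw [mul_add (2 * s + 1 + 1), ← h2]; ring
    obtain ⟨c, h3, h4⟩ := e m
    obtain ⟨j, -, hj⟩ := (Nat.dvd_prime_pow Nat.prime_two).1 (show c ∣ 2 ^ a from ⟨p + 1, by rw [← h, h4, mul_comm]⟩)
    have h5 : j = 0 := by
      by_contra h5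
      exact (Nat.not_even_iff_odd.2 h3) (hj ▸ even_two.pow_of_ne_zero h5)
    rw [hj, h5, pow_zero, mul_one, add_left_inj] at h4
    exact h1 (Nat.pow_right_injective h2 (h4.trans (pow_one p).symm))

/-- Let F ⊆ K be finite fields with |F| = q and [K : F] = n ≥ 2, regard K as an n-dimensional F-vector space, and let M ≤ GL_F(K) be the Singer group of multiplications by non-zero elements of K (cyclic of order q^n − 1). Assume (n, q) ≠ (6, 2), and that it is not the case that n = 2 with q a prime such that q + 1 is a power of 2. Then every abelian subgroup of GL_F(K) of order q^n − 1 is conjugate to M. -/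
theorem result {F K : Type*} [Field F] [Fintype F] [Field K] [Fintype K] [Algebra F K] (n : ℕ) (hn : 2 ≤ n) (hdim : Module.finrank F K = n)
    (hex1 : ¬ (n = 6 ∧ Fintype.card F = 2))
    (hex2 : ¬ (n = 2 ∧ (Fintype.card F).Prime ∧ ∃ a : ℕ, Fintype.card F + 1 = 2 ^ a))
    (U : Subgroup (Module.End F K)ˣ) (hU : IsMulCommutative U) (hcard : Nat.card U = Fintype.card K - 1) :
    ∃ g : (Module.End F K)ˣ, U.map (MulAut.conj g).toMonoidHom = (Units.map ((Algebra.lmul F K : K →ₐ[F] Module.End F K) : K →* Module.End F K)).range := by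
  classical
  have hq : Nat.card F = Fintype.card F := Nat.card_eq_fintype_card
  have hK : Fintype.card K = Fintype.card F ^ n := by rw [← hdim]; exact Module.card_eq_pow_finrank
  obtain ⟨r, hr, hord⟩ := zsig (a := Fintype.card F) (n := n) Fintype.one_lt_card (by omega) (fun h => hex1 ⟨h.2, h.1⟩)
    (fun ⟨h1, m, hm⟩ => by
      obtain ⟨p, _⟩ := CharP.exists F
      obtain ⟨k, hp, hk⟩ := FiniteField.card F p
      have := mers hp k.pos (hk ▸ hm)
      exact hex2 ⟨h1, by rw [hk, this, pow_one]; exact hp, m, hm⟩)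
  haveI := Fact.mk hr
  haveI : Finite (Module.End F K) := Finite.of_injective _ DFunLike.coe_injective
  have hfo : IsOfFinOrder (Fintype.card F : ZMod r) := orderOf_pos_iff.1 (by omega)
  have hmod : ∀ a b, Nat.card F ^ a ≡ Nat.card F ^ b [MOD r] → a ≡ b [MOD n] := by
    intro a b h
    rw [← ZMod.natCast_eq_natCast_iff, hq] at h
    push_cast at h
    rwa [hfo.pow_eq_pow_iff_modEq, hord] at h
  obtain ⟨u, hu⟩ := exists_prime_orderOf_dvd_card' (G := U) r (by
    rw [hcard, hK, dvd_iff_ord Fintype.card_pos, hord])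
  have hu1 : (u.1 : Module.End F K) ^ r = 1 := by
    rw [← Units.val_pow_eq_pow_val, ← Subgroup.coe_pow, ← hu, pow_orderOf_eq_one]; rfl
  have hfix : LinearMap.ker ((u.1 : Module.End F K) - 1) = ⊥ := by
    have h1 := hmod _ _ (cnt _ hu1)
    rw [hdim] at h1
    have h2 := Submodule.finrank_le (LinearMap.ker ((u.1 : Module.End F K) - 1))
    rw [hdim] at h2
    rcases h2.lt_or_eq with h3 | h3
    · have h4 := Nat.eq_zero_of_dvd_of_lt ((Nat.modEq_zero_iff_dvd.1 (h1.symm.trans (Nat.modEq_zero_iff_dvd.2 dvd_rfl)))) h3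
      exact Submodule.finrank_eq_zero.1 h4
    · have h4 := Submodule.eq_top_of_finrank_eq (h3.trans hdim.symm)
      rw [LinearMap.ker_eq_top, sub_eq_zero] at h4
      have h5 : u = 1 := Subtype.ext (Units.ext h4)
      rw [h5, orderOf_one] at hu
      exact absurd hu hr.one_lt.ne
  have hirr : ∀ W : Submodule F K, (∀ x ∈ W, (u.1 : Module.End F K) x ∈ W) → W = ⊥ ∨ W = ⊤ := by
    intro W hW
    have h1 := hmod _ _ (cnt ((u.1 : Module.End F K).restrict hW) (r := r) (by
      rw [Module.End.pow_restrict]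
      ext x
      simp [hu1]))
    have h2 : LinearMap.ker ((u.1 : Module.End F K).restrict hW - 1) = ⊥ := by
      rw [eq_bot_iff]
      intro x hx
      have h3 : x.1 ∈ LinearMap.ker ((u.1 : Module.End F K) - 1) := congrArg Subtype.val hx
      rw [hfix] at h3
      exact Subtype.ext h3
    rw [h2, finrank_bot, Nat.modEq_zero_iff_dvd] at h1
    have h3 := Submodule.finrank_le W
    rw [hdim] at h3
    rcases h3.lt_or_eq with h3 | h3
    · exact Or.inl (Submodule.finrank_eq_zero.1 (Nat.eq_zero_of_dvd_of_lt h1 h3))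
    · exact Or.inr (Submodule.eq_top_of_finrank_eq (h3.trans hdim.symm))
  let A : Subalgebra F (Module.End F K) := Algebra.adjoin F (Units.val '' (U : Set (Module.End F K)ˣ))
  have hUA : ∀ x ∈ U, (x : Module.End F K) ∈ A := fun x hx => Algebra.subset_adjoin ⟨x, hx, rfl⟩
  have hAc : IsMulCommutative A := Algebra.isMulCommutative_adjoin F (by
    rintro _ ⟨x, hx, rfl⟩ _ ⟨y, hy, rfl⟩
    exact congrArg (fun z : U => (z.1 : Module.End F K)) (hU.is_comm.comm ⟨x, hx⟩ ⟨y, hy⟩))
  have hinj : ∀ a : A, a ≠ 0 → Function.Injective (a : Module.End F K) := by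
    intro a ha
    rw [← LinearMap.ker_eq_bot]
    refine (hirr _ fun x hx => ?_).resolve_right fun h => ha (Subtype.ext (LinearMap.ker_eq_top.1 h))
    have h1 := congrArg (fun z : A => (z : Module.End F K) x) (hAc.is_comm.comm a ⟨_, hUA _ u.2⟩)
    rw [LinearMap.mem_ker] at hx ⊢
    simpa [hx] using h1
  have hA : IsField A := by
    refine ⟨exists_pair_ne A, hAc.is_comm.comm, fun {a} ha => ?_⟩
    refine (Finite.injective_iff_surjective (f := fun b : A => a * b)).1 (fun b c h => Subtype.ext ?_) 1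
    ext x
    exact hinj a ha (congrArg (fun z : A => (z : Module.End F K) x) h)
  let ev : A →ₗ[F] K := ⟨⟨fun a => (a : Module.End F K) 1, fun _ _ => rfl⟩, fun _ _ => rfl⟩
  have hev : Function.Injective ev := (injective_iff_map_eq_zero _).2 fun a ha => by
    by_contra h
    exact one_ne_zero (hinj a h (ha.trans (map_zero _).symm))
  let f : Option U → A := fun o => o.elim 0 fun x => ⟨_, hUA _ x.2⟩
  have hf : Function.Injective f := by
    rintro (_ | x) (_ | y) h
    · rfl
    · exact absurd (congrArg Subtype.val h).symm y.1.ne_zero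
    · exact absurd (congrArg Subtype.val h) x.1.ne_zero
    · exact congrArg some (Subtype.ext (Units.ext (congrArg Subtype.val h)))
  have c1 := Nat.card_le_card_of_injective _ hev
  have c2 : Nat.card (Option U) = Nat.card K := by
    rw [Finite.card_option, hcard, Nat.card_eq_fintype_card, Nat.sub_add_cancel Fintype.card_pos]
  have c3 := Nat.card_le_card_of_injective _ hf
  have hfb : Function.Bijective f := hf.bijective_of_nat_card_le (by omega)
  have hevb : Function.Bijective ev := hev.bijective_of_nat_card_le (by omega)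
  have hfr : Module.finrank F K = Module.finrank F A := (LinearEquiv.ofBijective ev hevb).finrank_eq.symm
  letI : Field A := hA.toField
  obtain ⟨ψ⟩ := FiniteField.nonempty_algHom_of_finrank_dvd (F := F) (K := K) (L := A) (dvd_of_eq hfr)
  have hψ : Function.Bijective ψ := ψ.injective.bijective_of_nat_card_le (by omega)
  let g : K ≃ₗ[F] K := LinearEquiv.ofBijective (ev.comp ψ.toLinearMap) (hevb.comp hψ)
  have hg : ∀ k x : K, (ψ k : Module.End F K) (g x) = g (k * x) := fun k x => by
    change _ = (ψ (k * x) : Module.End F K) 1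
    rw [map_mul]; rfl
  let G : (Module.End F K)ˣ := (LinearMap.GeneralLinearGroup.generalLinearEquiv F K).symm g
  have hG : ∀ k : Kˣ, ∀ x : (Module.End F K)ˣ, (x : Module.End F K) = ψ k →
      (MulAut.conj G⁻¹).toMonoidHom x = Units.map ((Algebra.lmul F K : K →ₐ[F] Module.End F K) : K →* Module.End F K) k := by
    intro k x hx
    ext y
    change g.symm ((x : Module.End F K) (g y)) = k * y
    rw [hx, hg, g.symm_apply_apply]
  refine ⟨G⁻¹, le_antisymm ?_ ?_⟩
  · rintro _ ⟨x, hx, rfl⟩
    obtain ⟨k, hk⟩ := hψ.2 ⟨_, hUA x hx⟩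
    have hk0 : k ≠ 0 := by
      rintro rfl
      rw [map_zero] at hk
      exact x.ne_zero (congrArg Subtype.val hk).symm
    exact ⟨Units.mk0 k hk0, (hG _ x (congrArg Subtype.val hk).symm).symm⟩
  · rintro _ ⟨k, rfl⟩
    obtain ⟨_ | x, hx⟩ := hfb.2 (ψ k)
    · exact absurd (ψ.injective (hx.symm.trans (map_zero ψ).symm)) k.ne_zero
    · exact ⟨x.1, x.2, hG k x.1 (congrArg Subtype.val hx)⟩

end Cfsg.Agent.S5947
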